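import Cfsg.Statements.S5945
import Cfsg.Agent.Perm.SymAut

set_option autoImplicit false
open Cfsg

namespace Cfsg.Agent.S5945

/-- The symmetric group S_6 has exactly 12 subgroups of index 6; each of them is isomorphic to S_5, and at least one of them is not the stabilizer of any point. -/
theorem result : Nat.card {H : Subgroup (Equiv.Perm (Fin 6)) // H.index = 6} = 12 ∧ (∀ H : Subgroup (Equiv.Perm (Fin 6)), H.index = 6 → Nonempty (H ≃* Equiv.Perm (Fin 5))) ∧ ∃ H : Subgroup (Equiv.Perm (Fin 6)), H.index = 6 ∧ ∀ a : Fin 6, H ≠ MulAction.stabilizer (Equiv.Perm (Fin 6)) a := by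
  open MulAction CF.Perm in
  have h6 := Fintype.card_fin 6
  obtain ⟨θ, hθ⟩ := exists_outer h6
  have h1 : ∀ x : Fin 6, (stabilizer (Equiv.Perm (Fin 6)) x).index = 6 := fun x => by
    rw [index_stabilizer_of_transitive, Nat.card_fin]
  have h2 : ∀ x : Fin 6, ((stabilizer (Equiv.Perm (Fin 6)) x).map θ.toMonoidHom).index = 6 :=
    fun x => by rw [Subgroup.index_map_of_bijective θ.bijective, h1]
  have h3 : ∀ H : Subgroup (Equiv.Perm (Fin 6)), H.index = 6 → _ := fun H hH =>
    index_six_perm h6 hθ (H := H) (fun h => by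
      have := alternatingGroup.index_eq_two (α := Fin 6) ▸ Subgroup.index_dvd_of_le h
      rw [hH] at this
      omega) hH.le
  have h4 : ∀ x y : Fin 6, stabilizer (Equiv.Perm (Fin 6)) x = stabilizer _ y → x = y :=
    fun x y h => eq_of_stabilizer_alt_le (by simp) fun g hg => h.le hg
  refine ⟨?_, fun H hH => ?_, _, h2 0, stabilizer_ne_map_outer h6 hθ 0⟩
  · rw [← Nat.card_eq_of_bijective (Sum.elim (fun x => ⟨_, h1 x⟩) (fun x => ⟨_, h2 x⟩) :
      Fin 6 ⊕ Fin 6 → {H : Subgroup (Equiv.Perm (Fin 6)) // H.index = 6}) ⟨?_, fun H => ?_⟩]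
    · simp
    · refine Function.Injective.sumElim (fun x y h => h4 x y congr($h.1))
        (fun x y h => h4 x y (Subgroup.map_injective θ.injective congr($h.1)))
        fun x y h => stabilizer_ne_map_outer h6 hθ y x congr($h.1).symm
    · obtain ⟨x, h | h⟩ := h3 H.1 H.2
      exacts [⟨.inl x, Subtype.ext h.symm⟩, ⟨.inr x, Subtype.ext h.symm⟩]
  · have h5 : ∀ x : Fin 6, Nonempty (stabilizer (Equiv.Perm (Fin 6)) x ≃* Equiv.Perm (Fin 5)) := by
      intro x
      have : (Equiv.Perm.ofSubtype (p := fun y => y ≠ x)).range = stabilizer _ x := by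
        ext g
        rw [Equiv.Perm.mem_range_ofSubtype_iff (p := fun y => y ≠ x)]
        simp [Set.subset_def, not_imp_not]
      exact ⟨(((MonoidHom.ofInjective Equiv.Perm.ofSubtype_injective).trans
        (.subgroupCongr this)).symm).trans (Fintype.equivFinOfCardEq (by simp)).permCongrHom⟩
    obtain ⟨x, rfl | rfl⟩ := h3 H hH
    · exact h5 x
    · exact ⟨(θ.subgroupMap _).symm.trans (h5 x).some⟩

end Cfsg.Agent.S5945
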