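import Mathlib
import Cfsg.Agent.Fgs2.Zsigmondy
import Cfsg.Statements.S3430

set_option autoImplicit false
open Cfsg

namespace Cfsg.Agent.S3430

open CF.Fgs2

theorem aux (p q n : ℕ) (h1 : n + 1 < p)
    (h : p.Prime ∧ p ∣ q ^ n - 1 ∧ ∀ i : ℕ, 1 ≤ i → i < n → ¬ p ∣ q ^ i - 1) :
    ∃ p : ℕ, p.Prime ∧ p ∣ q ^ n - 1 ∧ (∀ i : ℕ, 1 ≤ i → i < n → ¬ p ∣ q ^ i - 1) ∧
      (n + 1 < p ∨ p ^ 2 ∣ q ^ n - 1) := ⟨p, h.1, h.2.1, h.2.2, Or.inl h1⟩

/-- Let q, n ≥ 2 be integers. Unless (n = 2 and q + 1 = 2^s·3^t for some s ≥ 0 and t ≤ 1), or (q = 2 and n ∈ {4, 6, 10, 12, 18}), or (q = 3 and n ∈ {4, 6}), or (q, n) = (5, 6), there is a prime p dividing q^n − 1 but no q^i − 1 with 1 ≤ i < n (a primitive prime divisor), such that p > n + 1 or p² divides q^n − 1. -/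
theorem result (q n : ℕ) (hq : 2 ≤ q) (hn : 2 ≤ n)
    (h1 : ¬ (n = 2 ∧ ∃ s t : ℕ, t ≤ 1 ∧ q + 1 = 2 ^ s * 3 ^ t))
    (h2 : ¬ (q = 2 ∧ (n = 4 ∨ n = 6 ∨ n = 10 ∨ n = 12 ∨ n = 18)))
    (h3 : ¬ (q = 3 ∧ (n = 4 ∨ n = 6))) (h4 : ¬ (q = 5 ∧ n = 6)) :
    ∃ p : ℕ, p.Prime ∧ p ∣ q ^ n - 1 ∧ (∀ i : ℕ, 1 ≤ i → i < n → ¬ p ∣ q ^ i - 1) ∧ (n + 1 < p ∨ p ^ 2 ∣ q ^ n - 1) := by
  rcases hn.eq_or_lt with rfl | hn
  · obtain ⟨s, m, hm, h⟩ := Nat.exists_eq_pow_mul_and_not_dvd (by omega : q + 1 ≠ 0) 2 (by decide)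
    obtain ⟨t, l, hl, rfl⟩ := Nat.exists_eq_pow_mul_and_not_dvd
      (by rintro rfl; simp at hm : m ≠ 0) 3 (by decide)
    by_cases hl1 : l = 1
    · subst hl1
      have ht : 2 ≤ t := by
        by_contra ht
        exact h1 ⟨rfl, s, t, by omega, by simpa using h⟩
      have h9 : 3 ^ 2 ∣ q + 1 := by
        rw [h, mul_one]; exact (pow_dvd_pow 3 ht).mul_left _
      have := primitive_two hq Nat.prime_three (by decide) ((by decide : 3 ∣ 3 ^ 2).trans h9)
      refine ⟨3, Nat.prime_three, this.1, this.2, Or.inr ?_⟩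
      have e : q ^ 2 - 1 = (q + 1) * (q - 1) := by simpa using Nat.sq_sub_sq q 1
      rw [e]; exact h9.mul_right _
    · obtain ⟨r, hr, hrl⟩ := Nat.exists_prime_and_dvd hl1
      have hr2 : r ≠ 2 := by rintro rfl; exact hm (hrl.mul_left _)
      have hr3 : r ≠ 3 := by rintro rfl; exact hl hrl
      have := hr.two_le
      exact aux r q 2 (by omega)
        ⟨hr, primitive_two hq hr hr2 (h ▸ (hrl.mul_left _).mul_left _)⟩
  by_cases hex : (q, n) ∈ excPairs
  · simp only [excPairs, List.mem_cons, Prod.mk.injEq, List.not_mem_nil, or_false] at hex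
    rcases hex with h | h | h | h | h | h | h | h | h | h | h | h | h
    all_goals obtain ⟨rfl, rfl⟩ := h
    any_goals (exfalso; simp at h2; done)
    any_goals (exfalso; simp at h3; done)
    any_goals (exfalso; simp at h4; done)
    · exact aux 7 _ _ (by decide) (prime_check _ _ _ (by decide +kernel))
    · exact aux 17 _ _ (by decide) (prime_check _ _ _ (by decide +kernel))
    · exact aux 41 _ _ (by decide) (prime_check _ _ _ (by decide +kernel))
    · exact aux 7 _ _ (by decide) (prime_check _ _ _ (by decide +kernel))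
    · exact aux 13 _ _ (by decide) (prime_check _ _ _ (by decide +kernel))
  · obtain ⟨m, a1, a2, a3⟩ := exists_large_primitive_part hq hn hex
    have prim : ∀ r, r.Prime → r ∣ m →
        r.Prime ∧ r ∣ q ^ n - 1 ∧ ∀ i : ℕ, 1 ≤ i → i < n → ¬ r ∣ q ^ i - 1 := fun r hr hrm =>
      ⟨hr, hrm.trans a1, fun k a b =>
        hr.coprime_iff_not_dvd.1 (Nat.Coprime.coprime_dvd_left hrm (a2 k a b))⟩
    by_cases hbig : ∃ r, r.Prime ∧ r ∣ m ∧ n + 1 < r
    · obtain ⟨r, hr, hrm, h⟩ := hbig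
      exact aux r q n h (prim r hr hrm)
    push Not at hbig
    have hall : ∀ {r}, r.Prime → r ∣ m → r = n + 1 := by
      intro r hr hrm
      have b1 := primitive_modEq_one q n r hq (by omega) (hrm.trans a1) fun k a b =>
        Nat.Coprime.coprime_dvd_left hrm (a2 k a b)
      have b2 := (Nat.modEq_iff_dvd' hr.one_le).1 b1.symm
      have b3 := Nat.le_of_dvd (by have := hr.two_le; omega) b2
      have := hbig r hr hrm
      omega
    have hm := Nat.eq_prime_pow_of_unique_prime_dvd (by omega) hall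
    generalize m.primeFactorsList.length = k at hm
    obtain ⟨r, hr, hrm⟩ := Nat.exists_prime_and_dvd (by omega : m ≠ 1)
    have := prim r hr hrm
    refine ⟨r, hr, this.2.1, this.2.2, Or.inr (Dvd.dvd.trans ?_ a1)⟩
    rw [hall hr hrm, hm]
    refine pow_dvd_pow _ ?_
    by_contra hk
    have : k = 0 ∨ k = 1 := by omega
    rcases this with rfl | rfl <;> simp at hm <;> omega

end Cfsg.Agent.S3430
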