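import Cfsg.Statements.S4648
import Cfsg.Agent.Block.OneBr
import Cfsg.Agent.S4649

set_option autoImplicit false
open Cfsg

namespace Cfsg.Agent.S4648

open CF.Block CF Subgroup

/-- Let B be a block of the finite group G relative to a maximal ideal M of the algebraic integers containing the prime p, with a nontrivial defect group D. If B has p-regular rank 1 and at most four irreducible characters, then B is nilpotent, D has exactly as many elements as B has irreducible characters, and p is 2 or 3. -/
theorem result {G : Type*} [Group G] [Finite G] (p : ℕ) [Fact p.Prime] (M : Ideal Cfsg.AlgInt) (hM : Cfsg.IsPModular p M) (B : Set (Cfsg.IrrCharacter G)) (hB : Cfsg.IsPBlock M B) (D : Subgroup G) (hD : Cfsg.IsDefectGroup p M B D) (hD1 : D ≠ ⊥) (hl : Cfsg.blockRank p B = 1) (hk : Nat.card B ≤ 4) : Cfsg.IsNilpotentBlock p M B ∧ Nat.card D = Nat.card B ∧ (p = 2 ∨ p = 3) := by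
  have := BlockB.charP_k hM
  have h1 := pow_le_of_rank_one hM hB hl hk
  have h2 := BlockB.card_defectGroup hM hB hD
  obtain ⟨e, he⟩ := ((isDefectGroup_iff hM hB D).1 hD).exists_maxPair (isBlk_eb hM hB)
  have hd : blockDefect p B ≠ 0 := fun h => hD1 (card_eq_one.1 (by rw [h2, h, pow_zero]))
  have hp : p = 2 ∨ p = 3 := by
    have h3 := ((Nat.le_self_pow hd p).trans h1).trans hk
    have h4 := hM.1
    interval_cases p <;> simp_all (config := {decide := true})
  suffices IsNilBlk p ⊤ (eb M B) ∧ D ≤ centralizer (D : Set G) from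
    ⟨(isNilpotentBlock_iff hM hB).2 this.1, (card_of_nil_comm hM hB he this.2 this.1).symm, hp⟩
  by_cases hc : IsCyclic D
  · exact ⟨(isNilpotentBlock_iff hM hB).1 ((Agent.S4649.result p M hM B hB D hD hc).2 hl),
      le_centralizer_of_isCyclic hc⟩
  have h3 : blockDefect p B ≠ 1 := fun h => hc (isCyclic_of_prime_card (by rw [h2, h, pow_one]))
  have h4 := (Nat.pow_le_pow_right hM.1.pos (show 2 ≤ blockDefect p B by omega)).trans (h1.trans hk)
  obtain rfl : p = 2 := by
    rcases hp with rfl | rfl
    · rfl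
    · omega
  have h5 : blockDefect 2 B = 2 := le_antisymm
    ((Nat.pow_le_pow_iff_right one_lt_two).1 (h1.trans hk)) (by omega)
  rw [h5] at h2
  obtain ⟨h6, h7⟩ := FS.rank_eq_of_klein hM hB he
    ⟨h2, (not_isCyclic_iff_exponent_eq_prime Nat.prime_two h2).1 hc⟩
  exact ⟨h6.nil_of_card_eq_one (h7 ▸ hl), h6.comm⟩

end Cfsg.Agent.S4648
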