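import Cfsg.Statements.S4434
import Cfsg.Agent.Block.Extra

set_option autoImplicit false
open Cfsg

namespace Cfsg.Agent.S4434

open CF.Block

/-- Let N be a normal p-subgroup of the finite group G and write Ḡ = G/N; fix a maximal ideal M of the algebraic integers containing p. Then every block B of G contains a block B̄ of Ḡ (the inflation of every member of B̄ lies in B) whose defect groups are exactly the images in Ḡ of the defect groups of B. -/
theorem result {G : Type*} [Group G] [Finite G] (p : ℕ) [Fact p.Prime] (M : Ideal Cfsg.AlgInt) (hM : Cfsg.IsPModular p M) (N : Subgroup G) [N.Normal] (hN : IsPGroup p N) (B : Set (Cfsg.IrrCharacter G)) (hB : Cfsg.IsPBlock M B) : ∃ Bbar : Set (Cfsg.IrrCharacter (G ⧸ N)), Cfsg.IsPBlock M Bbar ∧ (∀ χ ∈ Bbar, ∀ ψ : Cfsg.IrrCharacter G, (ψ : G → ℂ) = (χ : G ⧸ N → ℂ) ∘ QuotientGroup.mk → ψ ∈ B) ∧ ∀ Dbar : Subgroup (G ⧸ N), Cfsg.IsDefectGroup p M Bbar Dbar ↔ ∃ P : Subgroup G, Cfsg.IsDefectGroup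 p M B P ∧ Dbar = P.map (QuotientGroup.mk' N) := by
  have := CF.BlockB.charP_k hM
  have hs := QuotientGroup.mk'_surjective N
  have hB' := isBlk_eb hM hB
  obtain ⟨P, hP⟩ := hB'.exists_isDefGrp (p := p)
  obtain ⟨b, hb, h1, h2⟩ := hP.exists_map hs (by rwa [QuotientGroup.ker_mk']) hB'
  obtain ⟨b, hb', rfl⟩ := exists_eb_eq hM hb
  refine ⟨b, hb', fun χ hχ ψ h => (mem_iff_gmap_mul_ne_zero hM hs hb' hB hχ h).2 h1, fun D => ?_⟩
  simp only [isDefectGroup_iff hM hb', isDefectGroup_iff hM hB]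
  constructor
  · intro hD
    obtain ⟨g, -, rfl⟩ := h2.conj hD hb
    obtain ⟨g, rfl⟩ := hs g
    exact ⟨_, hP.cjs hB' (Subgroup.mem_top g), (map_cjs _ _ _).symm⟩
  · rintro ⟨P', hP', rfl⟩
    obtain ⟨g, -, rfl⟩ := hP.conj hP' hB'
    rw [map_cjs]
    exact h2.cjs hb trivial

end Cfsg.Agent.S4434
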