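import Cfsg.Statements.S4492
import Cfsg.Agent.Block.PSolv

set_option autoImplicit false
open Cfsg

namespace Cfsg.Agent.S4492

open CF.Block CF Subgroup

/-- Let G be a finite p-solvable group, N = O_{p'}(G) its largest normal subgroup of order prime to p, and θ an irreducible character of N invariant under conjugation by G; fix a maximal ideal M of the algebraic integers containing p. Then the irreducible characters of G lying over θ (those whose restriction to N contains θ) form a single p-block of G, and the defect groups of that block are exactly the Sylow p-subgroups of G. -/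
theorem result {G : Type*} [Group G] [Fintype G] (p : ℕ) [Fact p.Prime] (M : Ideal Cfsg.AlgInt) (hM : Cfsg.IsPModular p M) (hsolv : Cfsg.IsPSolvable p G) (N : Subgroup G) [hN : N.Normal] [Fintype N] (hNdef : N = Cfsg.pPrimeCore p G) (θ : Cfsg.IrrCharacter N) (hinv : ∀ (g : G) (n : N), (θ : N → ℂ) ⟨g * n * g⁻¹, hN.conj_mem n n.2 g⟩ = (θ : N → ℂ) n) : ∃ B : Set (Cfsg.IrrCharacter G), Cfsg.IsPBlock M B ∧ (∀ χ : Cfsg.IrrCharacter G, χ ∈ B ↔ Cfsg.classInner (fun n : N => (χ : G → ℂ) n) (θ : N → ℂ) ≠ 0) ∧ (∀ P : Sylow p G, Cfsg.IsDefectGroup p M B (P : Subgroup G)) ∧ ∀ D : Subgroup G, Cfsg.IsDefectGroup p M B D → ∃ P : Sylow p G, D = (P : Subgroup G) := by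
  have := BlockB.charP_k hM
  subst hNdef
  have hp : ¬ p ∣ Nat.card (Cfsg.pPrimeCore p G) := Solv.not_dvd_card_pPrimeCore
  have hθ := isPBlock_singleton_of_not_dvd hM hp θ
  have hst : ebs M _ {θ} ∈ fix (BlockB.k M) (⊤ : Subgroup G) := mem_fix.2 fun g _ =>
    cj_ebs_singleton hM hp θ (le_normalizer_of_normal' ⊤ _ trivial) fun c c' h => by
      rw [← hinv g c]; exact congrArg _ (Subtype.ext h)
  obtain ⟨h1, h2, -⟩ := fong_isBlk hM hp (isCharP_quot_of_isPSolvable hsolv) (isBlk_ebs hM hθ) hst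
  obtain ⟨B, hB, hBe, hmem⟩ := exists_block_over_singleton hM hp θ h1
  refine ⟨B, hB, hmem, fun P => ?_, fun D hD => ?_⟩
  · rw [isDefectGroup_iff hM hB, hBe]
    exact h2 _ (isSyl_sylow P)
  · rw [isDefectGroup_iff hM hB, hBe] at hD
    obtain ⟨S, hS⟩ := exists_isSyl (p := p) (⊤ : Subgroup G)
    obtain ⟨g, -, rfl⟩ := (h2 S hS).conj hD h1
    have := hS.cjs g
    rw [cjs_eq_of_normal g ⊤] at this
    exact isSyl_top_iff.1 this

end Cfsg.Agent.S4492
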