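import Cfsg.Statements.S4959
import Cfsg.Agent.PLocal.KnD
import Cfsg.Agent.PLocal.KnC

set_option autoImplicit false
open Cfsg

namespace Cfsg.Agent.S4959

/-- Let X be a finite group and V a normal subgroup of X in which every element has order dividing the prime p, whose index in X is prime to p and which is its own centralizer in X; so V is an elementary abelian normal Sylow p-subgroup, and any complement G to V in X is a group of order prime to p acting faithfully on the vector space V by conjugation (the coprime linear setting of the k(GV) problem). Let G be a complement to V in X, let v be in V and let H be the centralizer of v in G. Suppose there is a subgroup U of V normalized by H, on which H acts faithfully, and carrying an H-invariant bi-additive pairing β with values in the integers modulo p that is nondegenerate on U (equivalently: the restriction of the module V to H has a faithful self-dual submodule; such a v is called a real vector for G). Then the number of conjugacy classes of X is at most the order of V (the real-vector criterion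 for the k(GV) problem). The pairing is given as a function on X whose relevant values are those on pairs from U. -/
theorem result {X : Type*} [Group X] [Finite X] (p : ℕ) [Fact p.Prime] (V : Subgroup X) [V.Normal] (hVexp : ∀ v ∈ V, v ^ p = 1) (hidx : ¬ p ∣ V.index) (hself : Subgroup.centralizer (V : Set X) = V) (G : Subgroup X) (hGV : Subgroup.IsComplement' V G) (v : X) (hv : v ∈ V) (U : Subgroup X) (hUV : U ≤ V) (hUinv : ∀ h ∈ G, h * v * h⁻¹ = v → ∀ u ∈ U, h * u * h⁻¹ ∈ U) (hUfaith : ∀ h ∈ G, h * v * h⁻¹ = v → (∀ u ∈ U, h * u * h⁻¹ = u) → h = 1) (β : X → X → ZMod p) (hβl : ∀ u ∈ U, ∀ u' ∈ U, ∀ w ∈ U, β (u * u') w = β u w + β u' w) (hβr : ∀ u ∈ U, ∀ w ∈ U, ∀ w' ∈ U, β u (w * w') = β u w + β u w') (hβinv : ∀ h ∈ G, h * v * h⁻¹ = v → ∀ u ∈ U, ∀ w ∈ U, β (h * u * h⁻¹) (h * w * h⁻¹) = β u w) (hβnd : ∀ u ∈ U, (∀ w ∈ U, β u w = 0) → u = 1) : Nat.card (ConjClasses X) ≤ Nat.card V := by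
  refine CF.Knorr.kgv V hVexp hidx hself G hGV hv U hUV hUinv hUfaith
    fun n e ρ he hρ hH M hM => ?_
  have hs : ∀ x y, (e.symm (x + y) : X) = e.symm x * e.symm y := fun x y => by
    rw [← Subgroup.coe_mul]
    congr 1
    rw [Equiv.symm_apply_eq, he, Equiv.apply_symm_apply, Equiv.apply_symm_apply]
  let b : (Fin n → ZMod p) →+ (Fin n → ZMod p) →+ ZMod p := AddMonoidHom.mk'
    (fun x => AddMonoidHom.mk' (fun y => β (e.symm x) (e.symm y)) fun y z => by
      simp only [hs]; exact hβr _ (e.symm x).2 _ (e.symm y).2 _ (e.symm z).2) fun x y => by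
      refine AddMonoidHom.ext fun z => ?_
      simp only [AddMonoidHom.mk'_apply, AddMonoidHom.add_apply, hs]
      exact hβl _ (e.symm x).2 _ (e.symm y).2 _ (e.symm z).2
  let B : LinearMap.BilinForm (ZMod p) (Fin n → ZMod p) := LinearMap.mk₂ (ZMod p) (fun x y => b x y)
    (fun x y z => by simp) (fun c x y => ZMod.map_smul (b.flip y) c x) (fun x y z => by simp)
    (fun c x y => ZMod.map_smul (b x) c y)
  refine CF.Knorr.good_selfDual ρ hM hH (B := B) (fun x k => ?_) fun h x y => ?_
  · have h1 : (e.symm x : X) = 1 := hβnd _ (e.symm x).2 fun w hw => by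
      have := k (e ⟨w, hw⟩)
      change β (e.symm x) (e.symm (e ⟨w, hw⟩)) = 0 at this
      rwa [Equiv.symm_apply_apply] at this
    have h2 := he 1 1
    rw [mul_one, left_eq_add] at h2
    rw [← h2, ← Equiv.symm_apply_eq]
    exact Subtype.ext h1
  · have hc : (h : X) * v * (h : X)⁻¹ = v :=
      mul_inv_eq_iff_eq_mul.2 (Subgroup.mem_centralizer_singleton_iff.1 h.2.2)
    have k : ∀ x, (e.symm (ρ h x) : X) = h * e.symm x * (h : X)⁻¹ := fun x => by
      have := hρ h (e.symm x) ⟨_, hUinv _ h.2.1 hc _ (e.symm x).2⟩ rfl
      rw [Equiv.apply_symm_apply, ← Equiv.eq_symm_apply] at this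
      rw [← this]
    change β (e.symm (ρ h x)) (e.symm (ρ h y)) = β (e.symm x) (e.symm y)
    rw [k, k]
    exact hβinv _ h.2.1 hc _ (e.symm x).2 _ (e.symm y).2

end Cfsg.Agent.S4959
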