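import Cfsg.Statements.S0801
import Cfsg.Agent.Classical.SmallIso

set_option autoImplicit false
open Cfsg

namespace Cfsg.Agent.S0801

open CF.Classical Subgroup Matrix OnePoint MatrixGroups in
theorem aux {F : Type*} [Field F] [Finite F] (h2 : (2 : F) ≠ 0) (lam : F) (hlam : lam ≠ 0)
    (hgen : Subfield.closure ({lam} : Set F) = ⊤) (S : Subgroup SL(2, F))
    (hS : S = closure {sl2 1 0 1 1 (by simp), sl2 1 lam 0 1 (by simp)}) :
    (S = ⊤ ∧ ¬ (Nat.card F = 9 ∧ lam ^ 2 = -1)) ∨
      (Nat.card F = 9 ∧ lam ^ 2 = -1 ∧ Nat.card S = 120) := by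
  have L := isL2_PSL F (AlgebraicClosure F)
  have := L.finite
  obtain ⟨p, hp⟩ := CharP.exists F
  have : Fact p.Prime := ⟨CharP.char_is_prime F p⟩
  have hp2 : p ≠ 2 := by rintro rfl; exact h2 (CharP.cast_eq_zero F 2)
  have ha : sl2 1 0 1 1 (by simp) ∈ S := hS ▸ subset_closure (by simp)
  have hb : sl2 1 lam 0 1 (by simp) ∈ S := hS ▸ subset_closure (by simp)
  have hx : IsUnip (slToPSL F (sl2 1 0 1 1 (by simp)))
      ((0 : AlgebraicClosure F) : OnePoint (AlgebraicClosure F)) := by
    rw [L.isUnip_iff, toPGL_slToPSL, toPGL_sl2]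
    refine ⟨pgl_smul_coe_eq_coe.2 (by simp), fun y hy => ?_⟩
    cases y with
    | infty => exact absurd (pgl_smul_infty_eq_infty.1 hy) one_ne_zero
    | coe z =>
      have := pgl_smul_coe_eq_coe.1 hy
      simp only [map_one, map_zero] at this
      rw [show z = 0 from pow_eq_zero_iff two_ne_zero |>.1 (by linear_combination this)]
  have hy : IsUnip (slToPSL F (sl2 1 lam 0 1 (by simp))) (∞ : OnePoint (AlgebraicClosure F)) := by
    rw [L.isUnip_iff, toPGL_slToPSL, toPGL_sl2]
    exact isUnip_infty_iff.2 ⟨lam, hlam, rfl⟩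
  rcases L.dickson_of_isUnip p hp2 (S := S.map (slToPSL F)) (coe_ne_infty _) ⟨_, ha, rfl⟩
    ⟨_, hb, rfl⟩ hx hy with ⟨rfl, ⟨e⟩⟩ | ⟨K, c, H, h3, h4⟩
  · right
    have h3 : (3 : F) = 0 := CharP.cast_eq_zero F 3
    have h60 : Nat.card (S.map (slToPSL F)) = 60 := by rw [Nat.card_congr e.toEquiv, card_A5]
    have hle : 60 ≤ Nat.card PSL(2, F) := h60 ▸ card_le_card_group _
    have hsub : ∀ K : Subfield F, lam ∈ K → Nat.card F = Nat.card K := fun K hK => by
      rw [show K = ⊤ from eq_top_iff.2 (hgen ▸ Subfield.closure_le.2 (by simpa using hK))]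
      exact (Nat.card_congr Subfield.topEquiv.toEquiv).symm
    have hF3 : Nat.card F ≠ 3 := fun h => by
      rw [card_PSL2_of_card h (n := 12) rfl] at hle; omega
    have hbot : lam ∉ (⊥ : Subfield F) := fun h => hF3 (by rw [hsub ⊥ h, Subfield.card_bot F 3])
    have key : ∀ g ∈ S, ∀ t : F, tau (SpecialLinearGroup.toPGL g) = t ^ 2 → t ∉ (⊥ : Subfield F) →
        t ^ 4 = -1 := fun g hg t ht ht' => by
      have h4 : ∀ s : alternatingGroup (Fin 5), s ^ 2 = 1 ∨ s ^ 3 = 1 ∨ s ^ 5 = 1 := by
        decide +kernel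
      have h5 : ∀ n, e ⟨_, g, hg, rfl⟩ ^ n = 1 → SpecialLinearGroup.toPGL g ^ n = 1 := fun n h => by
        rw [← map_pow, map_eq_one_iff _ e.injective] at h
        rw [← toPGL_slToPSL, ← map_pow, show slToPSL F g ^ n = 1 from congrArg Subtype.val h, map_one]
      have h6 : t ^ 2 ≠ 1 := fun h => ht' (by
        rcases mul_self_eq_one_iff.1 ((pow_two t).symm.trans h) with rfl | rfl
        exacts [one_mem _, neg_mem (one_mem _)])
      have h7 : SpecialLinearGroup.toPGL g ≠ 1 := fun h => h6 (by
        rw [← ht, h, tau_one]; linear_combination h3)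
      rcases h4 (e ⟨_, g, hg, rfl⟩) with h | h | h
      · have := (sq_eq_one_iff_tau.1 (h5 _ h)).resolve_left h7
        rw [ht, pow_eq_zero_iff two_ne_zero] at this
        exact absurd (this ▸ zero_mem _) ht'
      · exact absurd (ht ▸ (pow_three_eq_one_iff_tau.1 (h5 _ h)).resolve_left h7) h6
      · have := (pow_five_eq_one_iff_tau.1 (h5 _ h)).resolve_left h7
        rw [ht] at this
        linear_combination this + t ^ 2 * h3
    have h4 := key _ (mul_mem ha hb) (2 + lam) (by rw [sl2_mul, tau_toPGL_sl2]; ring) fun h =>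
      hbot (by simpa using sub_mem h (ofNat_mem ⊥ 2))
    have h5 := key _ (mul_mem ha (inv_mem hb)) (2 - lam)
      (by rw [sl2_inv, sl2_mul, tau_toPGL_sl2]; ring) fun h =>
      hbot (by simpa using sub_mem (ofNat_mem ⊥ 2) h)
    have h6 : lam ^ 2 = -1 := by
      refine mul_left_cancel₀ hlam ?_
      linear_combination h4 - h5 - (5 * lam ^ 3 + 21 * lam) * h3
    refine ⟨?_, h6, ?_⟩
    · have := Fintype.ofFinite F
      let _ : Algebra (ZMod 3) F := ZMod.algebra F 3
      have h7 : Nat.card F ≤ Nat.card (ZMod 3 × ZMod 3) := by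
        refine Nat.card_le_card_of_surjective
          (fun s : ZMod 3 × ZMod 3 => algebraMap _ F s.1 + algebraMap _ F s.2 * lam) fun z => ?_
        have hz : z ∈ Subring.closure {lam} := by
          have h8 : Subfield.closure ({lam} : Set F) ≤
              (Subring.closure {lam}).toSubfield (fun x hx => by
                by_cases h0 : x = 0
                · rw [h0, _root_.inv_zero]; exact zero_mem _
                · rw [show x⁻¹ = x ^ (Fintype.card F - 1 - 1) from ?_]
                  · exact pow_mem hx _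
                  · rw [inv_eq_iff_eq_inv, eq_comm, inv_eq_iff_eq_inv]
                    refine eq_inv_of_mul_eq_one_left ?_
                    rw [← pow_succ, Nat.sub_add_cancel (Nat.le_sub_one_of_lt Fintype.one_lt_card),
                      FiniteField.pow_card_sub_one_eq_one x h0]) :=
            Subfield.closure_le.2 Subring.subset_closure
          exact h8 (hgen ▸ Subfield.mem_top z)
        induction hz using Subring.closure_induction with
        | mem x hx => exact ⟨(0, 1), by simp [Set.mem_singleton_iff.1 hx]⟩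
        | zero => exact ⟨(0, 0), by simp⟩
        | one => exact ⟨(1, 0), by simp⟩
        | add x y _ _ hx hy =>
          obtain ⟨s, rfl⟩ := hx
          obtain ⟨t, rfl⟩ := hy
          exact ⟨s + t, by simp; ring⟩
        | neg x _ hx =>
          obtain ⟨s, rfl⟩ := hx
          exact ⟨-s, by simp; ring⟩
        | mul x y _ _ hx hy =>
          obtain ⟨s, rfl⟩ := hx
          obtain ⟨t, rfl⟩ := hy
          refine ⟨(s.1 * t.1 - s.2 * t.2, s.1 * t.2 + s.2 * t.1), ?_⟩
          simp only [map_sub, map_add, map_mul]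
          linear_combination -(algebraMap _ F s.2 * algebraMap _ F t.2) * h6
      obtain ⟨n, hn, h8⟩ := exists_card_eq_pow F 3
      rw [Nat.card_prod, Nat.card_zmod, h8] at h7
      have h9 : n ≤ 2 := (Nat.pow_le_pow_iff_right (by norm_num)).1 h7
      interval_cases n
      · exact absurd h8 hF3
      · exact h8
    · obtain ⟨⟨_, s, hs, rfl⟩, hu⟩ := exists_prime_orderOf_dvd_card' (G := S.map (slToPSL F)) 2
        (by rw [h60]; norm_num)
      have h7 : s * s = -1 := SL2_mul_self_eq_neg_one h2
        (fun h => CF.Invol.ne_one_of_orderOf hu (Subtype.ext h))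
        (congrArg Subtype.val (CF.Invol.mul_self_of_orderOf hu))
      have h8 : (slToPSL F).ker ≤ S := fun z hz => by
        rcases slToPSL_eq_one_iff.1 hz with rfl | rfl
        exacts [one_mem _, h7 ▸ mul_mem hs hs]
      rw [card_eq_card_inf_ker_mul (slToPSL F), inf_eq_right.2 h8, h60, ker_slToPSL, card_center_SL,
        Fintype.card_fin, gcd_two_of_odd (odd_card_of_two_ne_zero h2)]
  · left
    have key : ∀ g ∈ S, tau (SpecialLinearGroup.toPGL g) ∈ K := fun g hg => by
      obtain ⟨s, -, hs⟩ : SpecialLinearGroup.toPGL g ∈ H.map (subPGL K c) :=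
        h4 ▸ ⟨_, ⟨g, hg, rfl⟩, rfl⟩
      rw [← hs, tau_subPGL]; exact (tau s).2
    have h5 := key _ (mul_mem ha hb)
    have h6 := key _ (mul_mem ha (inv_mem hb))
    rw [sl2_mul, tau_toPGL_sl2] at h5
    rw [sl2_inv, sl2_mul, tau_toPGL_sl2] at h6
    have h7 : lam ∈ K := by
      have h8 := div_mem (sub_mem h5 h6) (pow_mem (ofNat_mem K 2) 3)
      convert h8 using 1
      field_simp
      ring
    obtain rfl : K = ⊤ := eq_top_iff.2 (hgen ▸ Subfield.closure_le.2 (by simpa using h7))
    obtain ⟨c, rfl⟩ := ProjGenLinGroup.mk_surjective c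
    have h8 : S = ⊤ := eq_top_iff.2 fun g _ => by
      have := slConj_map_mem (h4 ▸ map_mono h3) (SpecialLinearGroup.map
        (Subfield.topEquiv.symm : F ≃+* (⊤ : Subfield F)).toRingHom ((slConj c).symm g))
      exact (slConj c).apply_symm_apply g ▸ this
    refine ⟨h8, fun ⟨h9, h10⟩ => ?_⟩
    have h11 : (3 : F) = 0 := by
      have := Fintype.ofFinite F
      have h12 := FiniteField.cast_card_eq_zero F
      rw [← Nat.card_eq_fintype_card, h9] at h12
      exact pow_eq_zero_iff two_ne_zero |>.1 (by push_cast at h12; linear_combination h12)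
    obtain ⟨_, h12⟩ := card_le_of_tri_five (x := pgl 0 lam 1 0 (by simpa using hlam))
      (y := pgl 1 0 1 1 (by simp)) (sq_eq_one_iff_tau.2 (Or.inr (by rw [tau_pgl]; simp)))
      (pow_three_eq_one_iff_tau.2 (Or.inr (by rw [tau_pgl]; simp; linear_combination h11)))
      (pow_five_eq_one_iff_tau.2 (Or.inr (by
        have : tau (pgl 0 lam 1 0 (by simpa using hlam) * pgl 1 0 1 1 (by simp)) = -lam := by
          rw [pgl_mul, tau_pgl, div_eq_iff (by simpa using hlam)]; ring
        rw [this]; linear_combination h10 + lam * h11)))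
    have h13 : psl F ≤ closure {pgl 0 lam 1 0 (by simpa using hlam), pgl 1 0 1 1 (by simp)} := by
      rw [psl, MonoidHom.range_eq_map, ← h8, hS, MonoidHom.map_closure, Set.image_pair, toPGL_sl2,
        toPGL_sl2, closure_le, Set.pair_subset_iff]
      refine ⟨subset_closure (by simp), ?_⟩
      have h14 : pgl 1 lam 0 1 (by simp) = pgl 0 lam 1 0 (by simpa using hlam) *
          pgl 1 0 1 1 (by simp) * (pgl 0 lam 1 0 (by simpa using hlam))⁻¹ := by
        rw [pgl_inv, pgl_mul, pgl_mul]
        exact pgl_congr _ _ (-lam) (by ring) (by ring) (by ring) (by ring)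
      rw [h14]
      exact mul_mem (mul_mem (subset_closure (by simp)) (subset_closure (by simp)))
        (inv_mem (subset_closure (by simp)))
    have h14 := (card_le_of_le h13).trans h12
    rw [card_psl, card_PSL2_of_card h9 (n := 360) rfl] at h14
    omega


/-- Let F be a finite field of odd characteristic and λ ≠ 0 an element generating F as a field. Then the lower and upper unitriangular matrices with off-diagonal entries 1 and λ generate SL_2(F), unless |F| = 9 and λ² = −1, in which case they generate a subgroup of order 120. -/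
theorem result {F : Type*} [Field F] [Fintype F] (h2 : (2 : F) ≠ 0) (lam : F) (hlam : lam ≠ 0) (hgen : Subfield.closure ({lam} : Set F) = ⊤) : (Subgroup.closure {g : Matrix.SpecialLinearGroup (Fin 2) F | (g : Matrix (Fin 2) (Fin 2) F) = !![1, 0; 1, 1] ∨ (g : Matrix (Fin 2) (Fin 2) F) = !![1, lam; 0, 1]} = ⊤ ∧ ¬ (Fintype.card F = 9 ∧ lam ^ 2 = -1)) ∨ (Fintype.card F = 9 ∧ lam ^ 2 = -1 ∧ Nat.card ↥(Subgroup.closure {g : Matrix.SpecialLinearGroup (Fin 2) F | (g : Matrix (Fin 2) (Fin 2) F) = !![1, 0; 1, 1] ∨ (g : Matrix (Fin 2) (Fin 2) F) = !![1, lam; 0, 1]}) = 120) := by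
  rw [← Nat.card_eq_fintype_card]
  refine aux h2 lam hlam hgen _ ?_
  congr 1
  ext g
  exact or_congr (Subtype.ext_iff (a2 := CF.Classical.sl2 1 0 1 1 (by simp))).symm
    (Subtype.ext_iff (a2 := CF.Classical.sl2 1 lam 0 1 (by simp))).symm

end Cfsg.Agent.S0801
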