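import Cfsg.Statements.S0680
import Cfsg.Agent.Perm.Regular

set_option autoImplicit false
open Cfsg

namespace Cfsg.Agent.S0680

/-- A finite sharply doubly transitive permutation group has degree a prime power `p ^ j`; a Sylow `p`-subgroup is normal, elementary abelian and regular, and consists of the identity together with the elements without fixed points. (Frobenius' Theorem is not needed.) -/
theorem result {α : Type*} [Fintype α] [DecidableEq α] (G : Subgroup (Equiv.Perm α)) [MulAction.IsMultiplyPretransitive G α 2] (hsharp : ∀ x : Fin 2 ↪ α, MulAction.stabilizer G x = ⊥) (h2 : 2 ≤ Fintype.card α) : ∃ p j : ℕ, p.Prime ∧ 1 ≤ j ∧ Fintype.card α = p ^ j ∧ ∀ (hp : Fact p.Prime) (P : Sylow p G), (P : Subgroup G).Normal ∧ IsMulCommutative (P : Subgroup G) ∧ (∀ x ∈ (P : Subgroup G), x ^ p = 1) ∧ MulAction.IsPretransitive (P : Subgroup G) α ∧ (∀ a : α, MulAction.stabilizer (P : Subgroup G) a = ⊥) ∧ ∀ g : G, g ∈ (P : Subgroup G) ↔ g = 1 ∨ ∀ a : α, g • a ≠ a := by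
  have : Nontrivial α := Fintype.one_lt_card_iff_nontrivial.1 h2
  obtain ⟨K, hK, hKt, hKr, hKm, hKc, p, j, hp, hj, hcard, hpow⟩ :=
    CF.Perm.sharp2_kernel (G := G) inferInstance hsharp
  refine ⟨p, j, hp, hj, by simpa using hcard, fun hp' P => ?_⟩
  have hKP : IsPGroup p K := fun y => ⟨1, Subtype.ext (by simpa using hpow y y.2)⟩
  have hle : K ≤ P := hKP.le_sylow_of_normal P
  obtain ⟨a⟩ : Nonempty α := inferInstance
  have : MulAction.IsPretransitive G α := MulAction.isPretransitive_of_is_two_pretransitive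
  have h1 := CF.Perm.card_eq_of_regular K a (hKr a)
  have h3 := CF.Perm.card_stabilizer_sharp2 (G := G) inferInstance hsharp a
  have h4 := CF.Perm.card_mul_card_stabilizer (G := G) a
  have hKi : K.index = Nat.card (MulAction.stabilizer G a) := by
    have h5 := K.card_mul_index
    rw [h1, ← h4] at h5
    exact Nat.eq_of_mul_eq_mul_left Nat.card_pos h5
  have hnd : ¬ p ∣ K.index := by
    rw [hKi]
    intro h
    have h6 : p ∣ Nat.card (MulAction.stabilizer G a) + 1 := by
      rw [h3, hcard]; exact dvd_pow_self _ (by omega)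
    exact hp.one_lt.ne' (Nat.dvd_one.1 ((Nat.dvd_add_right h).1 h6))
  have hPK : (P : Subgroup G) = K := (hKP.toSylow hnd).is_maximal' P.isPGroup' hle
  rw [hPK]
  exact ⟨hK, hKc, hpow, hKt, hKr, hKm⟩

end Cfsg.Agent.S0680
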