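import Cfsg.Statements.S0731
import Cfsg.Agent.Perm.ZassMain

set_option autoImplicit false
open Cfsg

namespace Cfsg.Agent.S0731

/-- A finite Zassenhaus group whose point stabiliser has an abelian regular normal subgroup on the remaining points is sharply triply transitive or isomorphic to `PSL(2, F)` for a finite field `F` of odd characteristic. -/
theorem result {G Ω : Type*} [Group G] [Finite G] [MulAction G Ω] [Finite Ω] (hZ : Cfsg.IsZassenhausGroup G Ω) (x : Ω) (F : Subgroup G) (hFle : F ≤ MulAction.stabilizer G x) (hFn : (F.subgroupOf (MulAction.stabilizer G x)).Normal) (hFab : IsMulCommutative F) (hreg : ∀ y z : Ω, y ≠ x → z ≠ x → ∃! u : F, (u : G) • y = z) : (MulAction.IsMultiplyPretransitive G Ω 3 ∧ ∀ t : Fin 3 ↪ Ω, MulAction.stabilizer G t = ⊥) ∨ ∃ (K : Type) (_ : Field K) (_ : Fintype K), ringChar K ≠ 2 ∧ Nonempty (G ≃* Matrix.ProjectiveSpecialLinearGroup (Fin 2) K) := by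
  have := CF.Perm.Zass.nontrivial hZ
  obtain ⟨y, hy⟩ := exists_ne x
  have hT := CF.Perm.Zass.three hZ
  have Z := CF.Perm.zsetup_of_regular hZ.2.1 hT hy hFle hFn hreg
  rcases CF.Perm.Zass.three_trans_or_psl hZ Z hy hFab with h | ⟨-, p, f, hp, hp2, hf, -, h⟩
  · exact Or.inl ⟨CF.Perm.three_trans_of_card hZ.2.1 hT hy.symm (by rw [Z.card_eq hy, h]),
      CF.Perm.sharp_three_iff.2 fun a b c h1 h2 h3 g => hT g a b c h1 h2 h3⟩
  · obtain ⟨K, _, _, hK⟩ := CF.Perm.exists_field_card hp hf
    refine Or.inr ⟨K, inferInstance, inferInstance, fun h2 => ?_, h K hK⟩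
    rw [FiniteField.even_card_iff_char_two, hK] at h2
    exact absurd ((hp.odd_of_ne_two hp2).pow (n := f)) (Nat.not_odd_iff.2 h2)

end Cfsg.Agent.S0731
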