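import Mathlib
import Cfsg.Statements.S0689
import Cfsg.Agent.Fgs1.FPF7
import Cfsg.Agent.Perm.CharSimple

set_option autoImplicit false
open Cfsg

namespace Cfsg.Agent.S0689

open Subgroup CF.Fgs1 CF.Fgs1.Fpf Module
open scoped MatrixGroups

section
variable {p : ℕ} [Fact p.Prime] {V : Type*} [AddCommGroup V] [Module (ZMod p) V]

theorem noDomain {I J : End (ZMod p) V} (hI : I * I = -1) (hJ : J * J = -1) (hIJ : J * I = -(I * J))
    (h2 : ∀ v : V, -v = v → v = 0) (W : Submodule (ZMod p) V) (hWI : ∀ x ∈ W, I x ∈ W)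
    (hWJ : ∀ x ∈ W, J x ∈ W) {u : V} (hu : u ∈ W) (hu0 : u ≠ 0)
    (h : ∀ a b c : ZMod p, ∀ x ∈ W, ∀ y ∈ W, x ≠ 0 → a • I x + b • J x = c • x →
      a • I y + b • J y = c • y) : False := by
  obtain ⟨a, b, hab⟩ := ZMod.sq_add_sq p (-1)
  have e1 : ∀ x, I (I x) = -x := fun x => by simpa using LinearMap.congr_fun hI x
  have e2 : ∀ x, J (J x) = -x := fun x => by simpa using LinearMap.congr_fun hJ x
  have e3 : ∀ x, J (I x) = -I (J x) := fun x => by simpa using LinearMap.congr_fun hIJ x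
  have key : ∀ c : ZMod p, (c = 1 ∨ c = -1) → ∀ x ∈ W, a • I x + b • J x = c • x → x = 0 := by
    intro c hc x hx hc'
    by_contra hx0
    have h1 := h a b c x hx (I (J x)) (hWI _ (hWJ _ hx)) hx0 hc'
    have h3 := congrArg (fun t => I (J t)) hc'
    simp only [map_add, map_smul, e1, e2, e3, map_neg, neg_neg, smul_neg] at h1 h3
    have h4 : -(c • I (J x)) = c • I (J x) := by
      nth_rewrite 1 [← h1]; rw [← h3]; abel
    have h5 : I (J x) = 0 := by rcases hc with rfl | rfl <;> simpa using h2 _ h4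
    have h6 := congrArg (fun t => J (I t)) h5
    exact hx0 (by simpa [e1, e2] using h6)
  have h1 := key (-1) (Or.inr rfl) (a • I u + b • J u - u)
    (sub_mem (add_mem (W.smul_mem _ (hWI _ hu)) (W.smul_mem _ (hWJ _ hu))) hu) (by
      simp only [map_add, map_sub, map_smul, e1, e2, e3]
      linear_combination (norm := module) (-hab) • u)
  exact hu0 (key 1 (Or.inl rfl) u hu (by rw [one_smul, ← sub_eq_zero, h1]))

theorem simple [Finite V] {G : Type*} [Group G] [Finite G] (ρ : G →* End (ZMod p) V)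
    (htr : ∀ v w : V, v ≠ 0 → w ≠ 0 → ∃ g, ρ g v = w) (L : Subgroup G) [L.Normal] {i j : G}
    (hi : i ∈ L) (hj : j ∈ L) (hI : ρ i * ρ i = -1) (hJ : ρ j * ρ j = -1)
    (hIJ : ρ j * ρ i = -(ρ i * ρ j)) (h2 : ∀ v : V, -v = v → v = 0)
    (U : Submodule (ZMod p) V) (hU : ∀ l ∈ L, ∀ x ∈ U, ρ l x ∈ U) : U = ⊥ ∨ U = ⊤ := by
  classical
  haveI := Fintype.ofFinite L
  let T : V → (L → ZMod p) →ₗ[ZMod p] V := fun v => Fintype.linearCombination _ fun l : L => ρ l v
  have hT : ∀ v, LinearMap.range (T v) = Submodule.span _ (Set.range fun l : L => ρ l v) :=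
    fun v => Fintype.range_linearCombination _ _
  have hle : ∀ (U : Submodule (ZMod p) V), (∀ l ∈ L, ∀ x ∈ U, ρ l x ∈ U) → ∀ v ∈ U,
      LinearMap.range (T v) ≤ U := fun U hU v hv => by
    rw [hT, Submodule.span_le]; rintro _ ⟨l, rfl⟩; exact hU l l.2 v hv
  have hmap : ∀ g v, (LinearMap.range (T v)).map (ρ g) ≤ LinearMap.range (T (ρ g v)) := fun g v => by
    rw [hT, hT, Submodule.map_span, Submodule.span_le]
    rintro _ ⟨_, ⟨l, rfl⟩, rfl⟩
    refine Submodule.subset_span ⟨⟨g * l * g⁻¹, ‹L.Normal›.conj_mem _ l.2 g⟩, ?_⟩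
    simp only [← End.mul_apply, ← map_mul, inv_mul_cancel_right]
  have hself : ∀ v, v ∈ LinearMap.range (T v) := fun v => by
    rw [hT]; exact Submodule.subset_span ⟨1, by simp⟩
  have hinv : ∀ v, ∀ l ∈ L, ∀ x ∈ LinearMap.range (T v), ρ l x ∈ LinearMap.range (T v) := by
    intro v l hl x hx
    have : (LinearMap.range (T v)).map (ρ l) ≤ LinearMap.range (T v) := by
      rw [hT, Submodule.map_span, Submodule.span_le]
      rintro _ ⟨_, ⟨m, rfl⟩, rfl⟩
      exact Submodule.subset_span ⟨⟨l * m, mul_mem hl m.2⟩, by simp⟩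
    exact this ⟨x, hx, rfl⟩
  have hinj : ∀ g, Function.Injective (ρ g) := fun g x y h => by
    have := congrArg (ρ g⁻¹) h
    simpa only [← End.mul_apply, ← map_mul, inv_mul_cancel, map_one, End.one_apply] using this
  have hrk : ∀ v w, v ≠ 0 → w ≠ 0 →
      finrank _ (LinearMap.range (T v)) ≤ finrank _ (LinearMap.range (T w)) := fun v w hv hw => by
    obtain ⟨g, rfl⟩ := htr v w hv hw
    exact (Submodule.equivMapOfInjective _ (hinj g) _).finrank_eq.trans_le
      (Submodule.finrank_mono (hmap g v))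
  have heq : ∀ v, v ≠ 0 → ∀ x ∈ LinearMap.range (T v), x ≠ 0 →
      LinearMap.range (T x) = LinearMap.range (T v) := fun v hv x hx hx0 =>
    Submodule.eq_of_le_of_finrank_le (hle _ (hinv v) x hx) (hrk v x hv hx0)
  by_contra hne
  rw [not_or] at hne
  obtain ⟨v, hv, hv0⟩ := (Submodule.ne_bot_iff U).mp hne.1
  obtain ⟨w, hw⟩ : ∃ w, w ∉ U := by
    by_contra h; push Not at h; exact hne.2 (eq_top_iff.mpr fun x _ => h x)
  have hw0 : w ≠ 0 := fun h => hw (h ▸ U.zero_mem)
  have hdis : ∀ x ∈ U, x ∈ LinearMap.range (T w) → x = 0 := fun x hx hx' => by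
    by_contra hx0
    exact hw (hle U hU x hx (by rw [heq w hw0 x hx' hx0]; exact hself w))
  have hadd : ∀ x y c, T (x + y) c = T x c + T y c := fun x y c => by
    simp [T, Fintype.linearCombination_apply, Finset.sum_add_distrib]
  have hker : ∀ x ∈ U, x ≠ 0 → LinearMap.ker (T x) = LinearMap.ker (T w) := fun x hx hx0 => by
    have h0 : x + w ≠ 0 := fun h => hw (by rw [eq_neg_of_add_eq_zero_right h]; exact U.neg_mem hx)
    have h1 : ∀ c, T (x + w) c = 0 → T x c = 0 ∧ T w c = 0 := fun c hc => by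
      rw [hadd] at hc
      have h3 : T x c = 0 := hdis _ (hle U hU x hx ⟨c, rfl⟩)
        ⟨-c, by rw [map_neg, eq_neg_of_add_eq_zero_left hc]⟩
      exact ⟨h3, by rwa [h3, zero_add] at hc⟩
    have h3 : ∀ y, y ≠ 0 → LinearMap.ker (T (x + w)) ≤ LinearMap.ker (T y) →
        LinearMap.ker (T (x + w)) = LinearMap.ker (T y) := fun y hy h => by
      refine Submodule.eq_of_le_of_finrank_le h ?_
      have h4 := (T y).finrank_range_add_finrank_ker
      have h5 := (T (x + w)).finrank_range_add_finrank_ker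
      have h6 := hrk _ _ h0 hy
      omega
    exact (h3 x hx0 fun c hc => (h1 c hc).1).symm.trans (h3 w hw0 fun c hc => (h1 c hc).2)
  refine noDomain hI hJ hIJ h2 U (hU i hi) (hU j hj) hv hv0 fun a b c x hx y hy hx0 h => ?_
  by_cases hy0 : y = 0
  · simp [hy0]
  have h1 : ∀ t, (Pi.single ⟨i, hi⟩ a + Pi.single ⟨j, hj⟩ b - Pi.single 1 c : L → ZMod p) ∈
      LinearMap.ker (T t) ↔ a • ρ i t + b • ρ j t = c • t := fun t => by
    simp [T, Fintype.linearCombination_apply_single, sub_eq_zero]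
  rw [← h1, hker y hy hy0, ← hker x hx hx0, h1]
  exact h

end

set_option synthInstance.maxSize 1024 in
theorem numerics {q k e m : ℕ} (hq : 2 ≤ q) (hk : 2 ≤ k) (hk4 : k ≤ 4) (he : e ∣ 2)
    (h : q ^ k - 1 = e * (120 * m)) (hm : m ∣ q - 1) (hc : m.Coprime 30) :
    k = 2 ∧ ((e = 1 ∧ ((q = 11 ∧ m = 1) ∨ (q = 29 ∧ m = 7) ∨ (q = 59 ∧ m = 29))) ∨ q = 119) := by
  have he2 := Nat.le_of_dvd two_pos he
  have hq240 : q < 240 := by
    obtain ⟨q, rfl⟩ : ∃ r, q = r + 1 := ⟨q - 1, by omega⟩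
    have h1 : m ≤ q := Nat.le_of_dvd (by omega) hm
    have h2 : (q + 1) ^ 2 ≤ (q + 1) ^ k := Nat.pow_le_pow_right (by omega) hk
    have h3 : e * (120 * m) ≤ 2 * (120 * q) := by gcongr
    have h4 : q * (q + 2) ≤ q * 240 := by
      have : (q + 1) ^ 2 = q * (q + 2) + 1 := by ring
      omega
    have := Nat.le_of_mul_le_mul_left h4 (by omega)
    omega
  have he0 : 0 < e := Nat.pos_of_dvd_of_pos he two_pos
  have hm' : m = (q ^ k - 1) / (e * 120) := by
    rw [h, ← mul_assoc, Nat.mul_div_cancel_left _ (by omega)]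
  have h' : (q ^ k - 1) % (e * 120) = 0 := by rw [h, ← mul_assoc, Nat.mul_mod_right]
  subst hm'
  have key : ∀ q < 240, ∀ k < 5, ∀ e < 3, (2 ≤ q ∧ 2 ≤ k ∧ 0 < e ∧ (q ^ k - 1) % (e * 120) = 0 ∧
      (q - 1) % ((q ^ k - 1) / (e * 120)) = 0 ∧ Nat.gcd ((q ^ k - 1) / (e * 120)) 30 = 1) →
      k = 2 ∧ ((e = 1 ∧ ((q = 11 ∧ (q ^ k - 1) / (e * 120) = 1) ∨
        (q = 29 ∧ (q ^ k - 1) / (e * 120) = 7) ∨ (q = 59 ∧ (q ^ k - 1) / (e * 120) = 29))) ∨
        q = 119) := by decide +kernel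
  exact key q hq240 k (by omega) e (by omega) ⟨hq, hk, he0, h', Nat.mod_eq_zero_of_dvd hm, hc⟩

def si : SL(2, ZMod 5) := ⟨!![2, 0; 0, 3], by decide⟩
def sj : SL(2, ZMod 5) := ⟨!![0, 1; 4, 0], by decide⟩


/-- The insoluble sharply doubly transitive groups: a non-solvable linear group over the prime field that is regular on the non-zero vectors of `V` occurs only for `|V| = 11², 29², 59²`, and is `SL(2,5) × C_m` with `m = 1, 7, 29` respectively. -/
theorem result {p : ℕ} [Fact p.Prime] {V : Type*} [AddCommGroup V] [Module (ZMod p) V] [Finite V] (H : Subgroup (V ≃ₗ[ZMod p] V)) (hreg : ∀ v w : V, v ≠ 0 → w ≠ 0 → ∃! h : H, (h : V ≃ₗ[ZMod p] V) v = w) (hsolv : ¬ Group.IsSolvable H) : (Nat.card V = 121 ∧ Nonempty (H ≃* Matrix.SpecialLinearGroup (Fin 2) (ZMod 5))) ∨ (Nat.card V = 841 ∧ Nonempty (H ≃* Matrix.SpecialLinearGroup (Fin 2) (ZMod 5) × Multiplicative (ZMod 7))) ∨ (Nat.card V = 3481 ∧ Nonempty (H ≃* Matrix.SpecialLinearGroup (Fin 2) (ZMod 5) ×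 Multiplicative (ZMod 29))) := by
  classical
  rcases subsingleton_or_nontrivial V with _ | _
  · haveI : Subsingleton H := ⟨fun a b => Subtype.ext (LinearEquiv.ext fun _ => Subsingleton.elim _ _)⟩
    exact (hsolv inferInstance).elim
  let ρ : H →* End (ZMod p) V := LinearEquiv.automorphismGroup.toLinearMapMonoidHom.comp H.subtype
  have hρ : ∀ (h : H) v, ρ h v = (h : V ≃ₗ[ZMod p] V) v := fun _ _ => rfl
  have hf : IsFpf ρ := fun g hg v hv => by
    by_contra h0
    exact hg ((hreg v v h0 h0).unique hv rfl)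
  obtain ⟨v0, hv0⟩ := exists_ne (0 : V)
  have hcard : Nat.card H = Nat.card V - 1 := by
    have h1 : Nat.card H = Nat.card ({0}ᶜ : Set V) :=
      Nat.card_eq_of_bijective (fun h => ⟨(h : V ≃ₗ[ZMod p] V) v0, by simpa using hv0⟩)
        ⟨fun a b h => (hreg v0 _ hv0 (by simpa using hv0)).unique (congrArg Subtype.val h) rfl,
          fun w => by
            obtain ⟨h, hh⟩ := (hreg v0 w hv0 w.2).exists
            exact ⟨h, Subtype.ext hh⟩⟩
    rw [h1, Nat.card_coe_set_eq, Set.ncard_compl, Set.ncard_singleton]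
  haveI : Finite H := Finite.of_injective (fun h : H => ((h : V ≃ₗ[ZMod p] V) : V → V))
    fun a b h => Subtype.ext (DFunLike.coe_injective h)
  have hV : Nat.card V = p ^ finrank (ZMod p) V := by
    rw [Module.natCard_eq_pow_finrank (K := ZMod p), Nat.card_zmod]
  have hpV : p ∣ Nat.card V := hV ▸ dvd_pow_self p finrank_pos.ne'
  have hG : FPF H := fpf_of_char (R := End (ZMod p) V) (Fact.out : p.Prime) (fun h => by
    rw [hcard] at h
    have := Nat.dvd_sub hpV h
    rw [Nat.sub_sub_self Nat.card_pos, Nat.dvd_one] at this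
    exact (Fact.out : p.Prime).one_lt.ne' this)
    (by rw [← map_natCast (algebraMap (ZMod p) _), ZMod.natCast_self, map_zero]) ρ hf.nz
  obtain ⟨L, M, f, _, _, ⟨e⟩, hLM, hMC, hM30, -, -, hsup, -⟩ := hG.nonsolvable hsolv
  obtain ⟨z, π, hD⟩ := exists_dc_of_equiv e
  obtain ⟨w, d, hw, hd, -, hd1, -, hwd⟩ := hD.exists_gens
  have hz1 : (z : H) ≠ 1 := fun h => hD.z1 (Subtype.ext h)
  have hz : ρ z = -1 := hf.nz.invol (congrArg Subtype.val hD.zz) hz1
  have h2 : ∀ v : V, -v = v → v = 0 := fun v hv => hf z hz1 v (by rw [hz]; exact hv)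
  have hzz : e.symm (-1) = z := (hD.uniq _ (by rw [← map_mul]; simp)).resolve_left (by
    rw [map_eq_one_iff _ e.symm.injective]; decide)
  have hI : ρ (e.symm si) * ρ (e.symm si) = -1 := by
    rw [← map_mul, ← coe_mul, ← map_mul, show si * si = -1 by decide, hzz, hz]
  have hJ : ρ (e.symm sj) * ρ (e.symm sj) = -1 := by
    rw [← map_mul, ← coe_mul, ← map_mul, show sj * sj = -1 by decide, hzz, hz]
  have hIJ : ρ (e.symm sj) * ρ (e.symm si) = -(ρ (e.symm si) * ρ (e.symm sj)) := by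
    rw [← map_mul, ← coe_mul, ← map_mul, show sj * si = -1 * (si * sj) by decide, map_mul, hzz,
      map_mul, coe_mul, coe_mul, map_mul, map_mul, hz, neg_one_mul]
  have hs := simple ρ (fun v w hv hw => (hreg v w hv hw).exists) L (e.symm si).2 (e.symm sj).2
    hI hJ hIJ h2
  let D := Subalgebra.centralizer (ZMod p) (ρ '' L)
  have hDc : ∀ (δ : D), ∀ l ∈ L, ∀ v, ρ l (δ • v) = δ • ρ l v := fun δ l hl v =>
    LinearMap.congr_fun (δ.2 _ ⟨l, hl, rfl⟩) v
  haveI : Finite (End (ZMod p) V) := Finite.of_injective _ DFunLike.coe_injective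
  haveI : NoZeroDivisors D := ⟨fun {a b} h => by
    rcases hs (LinearMap.ker a.1) (fun l hl x hx => by
      change a • ρ l x = 0
      rw [← hDc a l hl, show a • x = 0 from hx, map_zero]) with h1 | h1
    · refine Or.inr (Subtype.ext (LinearMap.ext fun v => ?_))
      exact (LinearMap.ker_eq_bot'.mp h1) _ (LinearMap.congr_fun (congrArg Subtype.val h) v)
    · exact Or.inl (Subtype.ext (LinearMap.ker_eq_top.mp h1))⟩
  haveI : IsDomain D := NoZeroDivisors.to_isDomain D
  haveI := Fintype.ofFinite D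
  letI := Fintype.divisionRingOfIsDomain D
  have hq : Nat.card V = Nat.card D ^ finrank D V := Module.natCard_eq_pow_finrank
  have hm : Nat.card M ∣ Nat.card D - 1 := by
    rw [← Nat.card_units]
    let μ : M →* D := (ρ.comp M.subtype).codRestrict D fun m => by
      rintro _ ⟨l, hl, rfl⟩
      simp only [MonoidHom.comp_apply, ← map_mul]
      exact congrArg ρ (hMC m.2 l hl)
    refine card_dvd_of_injective μ.toHomUnits ((injective_iff_map_eq_one _).mpr fun m hm => ?_)
    by_contra h1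
    refine hv0 (hf m (fun h => h1 (Subtype.ext h)) v0 ?_)
    exact LinearMap.congr_fun (congrArg (fun t : Dˣ => t.1.1) hm) v0
  have hk2 : 2 ≤ finrank D V := by
    by_contra hk
    have hk1 : finrank D V = 1 := by have := finrank_pos (R := D) (M := V); omega
    refine noDomain hI hJ hIJ h2 ⊤ (fun _ _ => trivial) (fun _ _ => trivial) trivial hv0
      fun a b c x _ y _ hx h => ?_
    obtain ⟨δ, rfl⟩ := (finrank_eq_one_iff_of_nonzero' x hx).mp hk1 y
    rw [hDc δ _ (e.symm si).2, hDc δ _ (e.symm sj).2, smul_comm a, smul_comm b, ← smul_add, h,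
      smul_comm]
  have hk4 : finrank D V ≤ 4 := by
    have hW : ρ w * ρ w = -1 := by rw [← map_mul, ← coe_mul, hw, hz]
    have hD3 : ρ d * ρ d = -1 - ρ d :=
      hf.nz.three (congrArg Subtype.val hd) fun h => hd1 (Subtype.ext h)
    have hgen : ∀ P : H → Prop, P w → P d → P 1 → (∀ x y, P x → P y → P (x * y)) →
        ∀ l ∈ L, P l := fun P h1 h2 h3 h4 l hl => by
      have : (⟨l, hl⟩ : L) ∈ Submonoid.closure ({w, d} : Set L) := by
        rw [← closure_toSubmonoid_of_finite]; simp [hwd]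
      refine Submonoid.closure_induction (motive := fun (x : L) _ => P x) ?_ h3
        (fun x y _ _ => h4 x y) this
      rintro _ (rfl | rfl)
      exacts [h1, h2]
    let τ : D := ⟨ρ d * ρ w + ρ w * ρ d + ρ w, by
      rintro _ ⟨l, hl, rfl⟩
      refine hgen (fun l => ρ l * _ = _ * ρ l) ?_ ?_ (by simp) (fun x y hx hy => ?_) l hl
      · linear_combination (norm := noncomm_ring) hW * ρ d - ρ d * hW
      · linear_combination (norm := noncomm_ring) hD3 * ρ w - ρ w * hD3
      · rw [map_mul, mul_assoc, hy, ← mul_assoc, hx, mul_assoc]⟩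
    let S := Submodule.span D (Set.range ![v0, ρ d v0, ρ w v0, ρ d (ρ w v0)])
    have m0 : v0 ∈ S := Submodule.subset_span ⟨0, rfl⟩
    have m1 : ρ d v0 ∈ S := Submodule.subset_span ⟨1, rfl⟩
    have m2 : ρ w v0 ∈ S := Submodule.subset_span ⟨2, rfl⟩
    have m3 : ρ d (ρ w v0) ∈ S := Submodule.subset_span ⟨3, rfl⟩
    have e1 : ∀ x, ρ w (ρ w x) = -x := fun x => LinearMap.congr_fun hW x
    have e2 : ∀ x, ρ d (ρ d x) = -x - ρ d x := fun x => LinearMap.congr_fun hD3 x
    have e3 : ∀ x, ρ w (ρ d x) = τ • x - ρ w x - ρ d (ρ w x) := fun x => by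
      change _ = ρ d (ρ w x) + ρ w (ρ d x) + ρ w x - _ - _
      abel
    have hS : ∀ l ∈ L, (∀ t, ρ l (![v0, ρ d v0, ρ w v0, ρ d (ρ w v0)] t) ∈ S) → ∀ x ∈ S, ρ l x ∈ S :=
      fun l hl h x hx => by
        induction hx using Submodule.span_induction with
        | mem x hx => obtain ⟨t, rfl⟩ := hx; exact h t
        | zero => simp
        | add x y _ _ hx hy => rw [map_add]; exact add_mem hx hy
        | smul δ x _ hx => rw [hDc δ l hl]; exact S.smul_mem _ hx
    have hS' : ∀ l ∈ L, ∀ x ∈ S, ρ l x ∈ S := by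
      refine hgen (fun l => ∀ x ∈ S, ρ l x ∈ S) (hS _ w.2 fun t => ?_) (hS _ d.2 fun t => ?_)
        (by simp) fun x y hx hy v hv => by rw [map_mul]; exact hx _ (hy _ hv)
      · fin_cases t
        · exact m2
        · change ρ w (ρ d v0) ∈ S
          rw [e3]; exact sub_mem (sub_mem (S.smul_mem _ m0) m2) m3
        · change ρ w (ρ w v0) ∈ S
          rw [e1]; exact neg_mem m0
        · change ρ w (ρ d (ρ w v0)) ∈ S
          rw [e3, e1, map_neg]
          exact sub_mem (sub_mem (S.smul_mem _ m2) (neg_mem m0)) (neg_mem m1)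
      · fin_cases t
        · exact m1
        · change ρ d (ρ d v0) ∈ S
          rw [e2]; exact sub_mem (neg_mem m0) m1
        · exact m3
        · change ρ d (ρ d (ρ w v0)) ∈ S
          rw [e2]; exact sub_mem (neg_mem m2) m3
    have hT : S = ⊤ := by
      rcases hs (S.restrictScalars (ZMod p)) hS' with h | h
      · exact absurd ((Submodule.eq_bot_iff _).mp h v0 m0) hv0
      · exact (Submodule.restrictScalars_eq_top_iff _ _ _).mp h
    simpa using finrank_le_of_span_eq_top hT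
  obtain ⟨eP⟩ := CF.Perm.nonempty_sup_equiv_prod L M hLM
  have hi : (L ⊔ M).index ∣ 2 := by
    rw [hsup, index_comap, ← alternatingGroup.index_eq_two (α := Fin 5)]
    exact relIndex_dvd_index_of_normal _ _
  have hc : Nat.card D ^ finrank D V - 1 = (L ⊔ M).index * (120 * Nat.card M) := by
    rw [← hq, ← hcard, ← hD.card, ← Nat.card_prod, ← Nat.card_congr eP.toEquiv, index_mul_card]
  obtain ⟨hk, h⟩ := numerics Finite.one_lt_card hk2 hk4 hi hc hm hM30
  rw [hk] at hq
  rcases h with ⟨h1, h⟩ | h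
  · have eT : H ≃* L × M := (topEquiv.symm.trans (MulEquiv.subgroupCongr (index_eq_one.mp h1).symm)).trans eP
    haveI : Fact (Nat.Prime 7) := ⟨by norm_num⟩
    haveI : Fact (Nat.Prime 29) := ⟨by norm_num⟩
    rcases h with ⟨h3, h4⟩ | ⟨h3, h4⟩ | ⟨h3, h4⟩
    · haveI : Unique M := (Nat.card_eq_one_iff_unique.mp h4).2.some |> fun _ =>
        @uniqueOfSubsingleton _ (Nat.card_eq_one_iff_unique.mp h4).1 1
      exact Or.inl ⟨by rw [hq, h3]; rfl, ⟨(eT.trans MulEquiv.prodUnique).trans e⟩⟩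
    · exact Or.inr (Or.inl ⟨by rw [hq, h3]; rfl,
        ⟨eT.trans (e.prodCongr (mulEquivOfPrimeCardEq h4 (by simp)))⟩⟩)
    · exact Or.inr (Or.inr ⟨by rw [hq, h3]; rfl,
        ⟨eT.trans (e.prodCongr (mulEquivOfPrimeCardEq h4 (by simp)))⟩⟩)
  · rw [h, hV] at hq
    have h7 := (Nat.prime_dvd_prime_iff_eq (by norm_num) (Fact.out : p.Prime)).mp
      (Nat.Prime.dvd_of_dvd_pow (p := 7) (by norm_num) (Dvd.intro (7 * 289) hq.symm))
    have h17 := (Nat.prime_dvd_prime_iff_eq (by norm_num) (Fact.out : p.Prime)).mp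
      (Nat.Prime.dvd_of_dvd_pow (p := 17) (by norm_num) (Dvd.intro (17 * 49) hq.symm))
    omega

end Cfsg.Agent.S0689
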