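import Mathlib
import Cfsg.Statements.S4127
import Cfsg.Agent.Fgs1.ClassSize2
import Cfsg.Agent.S4125

set_option autoImplicit false
open Cfsg

namespace Cfsg.Agent.S4127

open Cfsg Subgroup CF.Fgs1

/-- Let G be a finite group, p a prime and p^a the largest power of p dividing the size of any conjugacy class of G. If some element of p-power order has a conjugacy class of size exactly p^a, then G has a normal p-complement. -/
theorem result {G : Type*} [Group G] [Finite G] (p : ℕ) [Fact p.Prime]
    (a : ℕ) (hmax : ∀ y : G, ¬ p ^ (a + 1) ∣ (Subgroup.centralizer ({y} : Set G)).index)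
    (hx : ∃ x : G, (∃ k : ℕ, orderOf x = p ^ k) ∧ (Subgroup.centralizer ({x} : Set G)).index = p ^ a) :
    Cfsg.HasNormalPComplement p G := by
  obtain ⟨x, ⟨k, hk⟩, hxa⟩ := hx
  set C := centralizer ({x} : Set G) with hC
  have hreg : ∀ y : C, (orderOf y).Coprime p → ¬ p ∣ (centralizer ({y} : Set C)).index := by
    intro y hy hd
    rw [index_centralizer_coe] at hd
    have hc : Commute x (y : G) := mem_cent_iff.mp y.2
    have hcop : (orderOf x).Coprime (orderOf (y : G)) := by
      rw [hk, Subgroup.orderOf_coe]; exact (Nat.Coprime.pow_right k hy).symm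
    apply hmax (x * y)
    rw [index_cent_mul hc hcop, hxa, pow_succ']
    exact Nat.mul_dvd_mul_right hd _
  obtain ⟨P0⟩ : Nonempty (Sylow p C) := inferInstance
  haveI hP0n := sylow_normal_of_regular_index P0 hreg
  have hKc := pResidual_le_centralizer_of_regular_index P0 hreg
  have hnpc : HasNormalPComplement p C := hasNPC_of_regular_index hreg
  have hKcop : (Nat.card (CF.Transfer.pRes p C)).Coprime p :=
    CF.Transfer.hasNPC_subgroup_iff_coprime.mp hnpc
  set K := CF.Transfer.pRes p C with hK
  set P : Subgroup G := (P0 : Subgroup C).map C.subtype with hP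
  set U := pCore p G with hU
  have hxU : x ∈ U := Cfsg.Agent.S4125.wielandt hk hxa
  have hUp : IsPGroup p U := CF.Solv.pCore_isPGroup
  have hPK : P ≤ centralizer (K : Set G) := by
    rw [hK, ← CF.Transfer.map_pResidual_subtype]
    rintro _ ⟨u, hu, rfl⟩ _ ⟨w, hw, rfl⟩
    have := hKc hw u hu
    exact (congrArg Subtype.val this).symm
  have hUC : U ⊓ C ≤ P := by
    intro u hu
    have h1 : IsPGroup p (U.subgroupOf C) := hUp.comap_subtype
    haveI := Sylow.unique_of_normal P0 inferInstance
    obtain ⟨Q, hQ⟩ := h1.exists_le_sylow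
    rw [Subsingleton.elim Q P0] at hQ
    exact ⟨⟨u, hu.2⟩, hQ hu.1, rfl⟩
  have hxP : x ∈ P := hUC ⟨hxU, mem_cent_iff.mpr rfl⟩
  have hKU : K ≤ centralizer (U : Set G) := by
    apply CF.Coprime.le_centralizer_of_pxq P K U (P0.isPGroup'.map _) hKcop hUp hPK
      (by rw [normalizer_eq_top]; exact le_top) (by rw [normalizer_eq_top]; exact le_top)
    intro u hu
    exact hPK (hUC ⟨hu.1, mem_cent_iff.mpr (hu.2 x hxP)⟩)
  have hDC : centralizer (U : Set G) ≤ C := centralizer_le (by simpa using hxU)
  have hKD : CF.Transfer.pRes p (centralizer (U : Set G)) = K := CF.Transfer.pRes_eq_of_le hKU hDC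
  have hKn : K.Normal := by rw [← hKD]; infer_instance
  rw [CF.Transfer.hasNPC_iff_exists_normal]
  obtain ⟨j, hj⟩ := CF.Transfer.relIndex_pRes (p := p) C
  refine ⟨K, hKn, hKcop, j + a, ?_⟩
  rw [← relIndex_mul_index (CF.Transfer.pRes_le C), hj, hxa, pow_add]

end Cfsg.Agent.S4127
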