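import Cfsg.Statements.S3076
import Cfsg.Agent.PLocal.QdAff

set_option autoImplicit false
open Cfsg

namespace Cfsg.Agent.S3076

/-- Let P be a Sylow p-subgroup of the finite group G and H ≤ P a subgroup with N_P(H) a Sylow p-subgroup of N_G(H). Let N be the preimage in N_G(H) of O_p(N_G(H)/C_G(H)). Then H is a Sylow p-subgroup of N if and only if C_P(H) ≤ H and O_{p',p}(N_G(H)) = H·C_G(H). -/
theorem result {G : Type*} [Group G] [Finite G] {p : ℕ} [Fact p.Prime]
    (P : Sylow p G) (H : Subgroup G) (hHP : H ≤ (P : Subgroup G))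
    (hSyl : ¬ p ∣ ((P : Subgroup G) ⊓ Subgroup.normalizer (H : Set G)).relIndex (Subgroup.normalizer (H : Set G)))
    [hC : ((Subgroup.centralizer (H : Set G)).subgroupOf (Subgroup.normalizer (H : Set G))).Normal] :
    (H ≤ ((Cfsg.pCore p (↥(Subgroup.normalizer (H : Set G)) ⧸
              (Subgroup.centralizer (H : Set G)).subgroupOf (Subgroup.normalizer (H : Set G)))).comap
            (QuotientGroup.mk' _)).map (Subgroup.normalizer (H : Set G)).subtype ∧
      ¬ p ∣ H.relIndex (((Cfsg.pCore p (↥(Subgroup.normalizer (H : Set G)) ⧸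
              (Subgroup.centralizer (H : Set G)).subgroupOf (Subgroup.normalizer (H : Set G)))).comap
            (QuotientGroup.mk' _)).map (Subgroup.normalizer (H : Set G)).subtype)) ↔
    ((P : Subgroup G) ⊓ Subgroup.centralizer (H : Set G) ≤ H ∧
      (Cfsg.pPrimePCore p ↥(Subgroup.normalizer (H : Set G))).map (Subgroup.normalizer (H : Set G)).subtype =
        H ⊔ Subgroup.centralizer (H : Set G)) := by
  set N := Subgroup.normalizer (H : Set G) with hN
  have hHN : H ≤ N := Subgroup.le_normalizer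
  have hCN : Subgroup.centralizer (H : Set G) ≤ N := Subgroup.centralizer_le_normalizer _
  have hT := (CF.Transfer.IsSylowIn.mk inf_le_right (P.isPGroup'.to_le inf_le_left) hSyl).subgroupOf_top
  have hc : (Subgroup.centralizer (H : Set G)).subgroupOf N =
      Subgroup.centralizer (H.subgroupOf N : Set N) := by
    ext x
    exact ⟨fun h y hy => Subtype.ext (h y hy), fun h y hy => congrArg Subtype.val (h ⟨y, hHN hy⟩ hy)⟩
  have key := CF.PLocal.isSylowIn_comap_pCore_iff (H := H.subgroupOf N) hT
    (Subgroup.comap_mono (le_inf hHP hHN)) hc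
  have h0 : H.subgroupOf N ≤ (Cfsg.pCore p (N ⧸ (Subgroup.centralizer (H : Set G)).subgroupOf N)).comap
      (QuotientGroup.mk' _) := CF.PLocal.le_comap_pCore_iff.mpr (by
    rw [CF.Transfer.pRes_eq_bot_of_isPGroup
      (CF.Transfer.isPGroup_subgroupOf (P.isPGroup'.to_le hHP) N)]
    exact bot_le)
  have h1 : ∀ L : Subgroup N, H.relIndex (L.map N.subtype) = (H.subgroupOf N).relIndex L := fun L => by
    conv_lhs => rw [← Subgroup.map_subgroupOf_eq_of_le hHN]
    exact Subgroup.relIndex_map_map_of_injective _ _ N.subtype_injective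
  rw [h1, and_iff_right ((Subgroup.map_subgroupOf_eq_of_le hHN).ge.trans (Subgroup.map_mono h0))]
  refine key.trans (and_congr ⟨fun h x hx => h (x := ⟨x, hCN hx.2⟩) ⟨⟨hx.1, hCN hx.2⟩, hx.2⟩,
    fun h x hx => h ⟨hx.1.1, hx.2⟩⟩ ?_)
  rw [← (Subgroup.map_injective N.subtype_injective).eq_iff, Subgroup.map_sup,
    Subgroup.map_subgroupOf_eq_of_le hHN, Subgroup.map_subgroupOf_eq_of_le hCN]

end Cfsg.Agent.S3076
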