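import Cfsg.Statements.S0094
import Cfsg.Agent.Transfer.Frat

set_option autoImplicit false
open Cfsg

namespace Cfsg.Agent.S0094

/-- In a special p-group every central element has order dividing p. -/
theorem result {P : Type*} [Group P] [Finite P] {p : ℕ} [Fact p.Prime] (h : Cfsg.IsSpecial p P) (z : P) (hz : z ∈ Subgroup.center P) : z ^ p = 1 := by
  open CF.Transfer Subgroup in
  obtain ⟨hP, h1, h2⟩ := h
  have key : ∀ x ∈ commutator P, x ^ p = 1 := by
    intro x hx
    rw [commutator_eq_closure] at hx
    have hc : ∀ y ∈ closure (commutatorSet P), y ∈ center P := fun y hy => by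
      rw [← h2, commutator_eq_closure]; exact hy
    induction hx using closure_induction with
    | mem x hx =>
      obtain ⟨a, b, rfl⟩ := hx
      have hab := hc _ (subset_closure (commutator_mem_commutatorSet a b))
      rw [← commutatorElement_pow_left' (mem_center_iff.1 hab a)]
      have : a ^ p ∈ center P := h1 ▸ CF.Fgs1.pow_mem_frattini hP a
      exact commutatorElement_eq_one_iff_mul_comm.2 (mem_center_iff.1 this b).symm
    | one => simp
    | mul x y hx hy ihx ihy =>
      rw [Commute.mul_pow (mem_center_iff.1 (hc y hy) x), ihx, ihy, one_mul]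
    | inv x hx ih => rw [inv_pow, ih, inv_one]
  exact key z (h2 ▸ hz)

end Cfsg.Agent.S0094
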