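import Cfsg.Statements.S0119
import Cfsg.Agent.Coprime.Special

set_option autoImplicit false
open Cfsg

namespace Cfsg.Agent.S0119

/-- If a p'-group A of automorphisms of a p-group G satisfies G = [G, A] and acts trivially on every characteristic abelian subgroup, then G is special with centre equal to the fixed points of A. -/
theorem result {G : Type*} [Group G] [Finite G] {p : ℕ} [Fact p.Prime] (hG : IsPGroup p G) (A : Subgroup (MulAut G)) (hA : Nat.Coprime (Nat.card A) p) (hGA : Subgroup.closure {x : G | ∃ g : G, ∃ a ∈ A, x = g⁻¹ * a g} = ⊤) (hchar : ∀ H : Subgroup G, H.Characteristic → IsMulCommutative H → ∀ a ∈ A, ∀ h ∈ H, a h = h) : Cfsg.IsSpecial p G ∧ (∀ g : G, (g ∈ Subgroup.center G ↔ ∀ a ∈ A, a g = g)) := by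
  let ψ := MonoidHom.id (MulAut G)
  have h := CF.Coprime.isSpecial_of_char_abelian (CF.Coprime.sdR ψ A) (CF.Coprime.sdL ψ ⊤)
    ((CF.Coprime.isPGroup_sdL_iff ψ).mpr (CF.Fgs1.isPGroup_top hG))
    Subgroup.le_normalizer_of_normal (by rwa [CF.Coprime.card_sdR]) (by
      rw [CF.Coprime.commutator_sdL_sdR]
      congr 1
      refine eq_top_iff.mpr (hGA.ge.trans ((Subgroup.closure_le _).mpr ?_))
      rintro _ ⟨g, a, ha, rfl⟩
      exact CF.Coprime.mem_commSub_of ψ (Subgroup.mem_top g) ha) (fun H hH hn hc => by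
      obtain ⟨M, -, rfl⟩ := CF.Coprime.exists_sdL_eq ψ hH
      rw [CF.Coprime.sdL_le_centralizer_iff]
      refine fun h hh a ha => hchar M ?_ ((CF.Coprime.isMulCommutative_sdL_iff ψ).mp hc) a ha h hh
      rw [Subgroup.characteristic_iff_map_eq]
      intro σ
      exact (CF.Coprime.inr_mem_normalizer_sdL_iff ψ).mp
        (hn (Subgroup.le_normalizer_of_normal (Subgroup.mem_top _))))
  obtain ⟨h1, h2⟩ := h
  rw [CF.Coprime.isSpecial_iff, CF.Coprime.frattiniOf_sdL, CF.Coprime.sdL_inf_centralizer_sdL,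
    CF.Coprime.commutator_sdL_sdL, (CF.Coprime.sdL_injective ψ).eq_iff,
    (CF.Coprime.sdL_injective ψ).eq_iff, CF.Coprime.frattiniOf_top] at h1
  rw [CF.Coprime.sdL_inf_centralizer_sdL, CF.Coprime.sdL_inf_centralizer,
    (CF.Coprime.sdL_injective ψ).eq_iff] at h2
  simp only [top_inf_eq, Subgroup.coe_top, Subgroup.centralizer_univ] at h1 h2
  refine ⟨⟨hG, h1.2.1, h1.2.2⟩, fun g => ?_⟩
  rw [h2]
  rfl

end Cfsg.Agent.S0119
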