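import Cfsg.Statements.S3862
import Cfsg.Agent.Pgp.C

set_option autoImplicit false
open Cfsg

namespace Cfsg.Agent.S3862


/-- If every 2-element of the finite group G that is conjugate to its inverse lies in the centre of G, then G has a normal 2-complement. -/
theorem result {G : Type*} [Group G] [Finite G] (h : ∀ x : G, (∃ j : ℕ, orderOf x = 2 ^ j) → IsConj x x⁻¹ → x ∈ Subgroup.center G) : Cfsg.HasNormalPComplement 2 G := by
  open CF.BG CF.BG2 CF.Pgp in
  refine (npc_top Nat.prime_two).1 (npc_of_real fun v _ k ⟨g, _, e⟩ => ?_)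
  have := h v (k.exists_pow (orderOf_pos v).ne') (isConj_iff.2 ⟨g, e⟩ : IsConj v⁻¹ v).symm
  exact CF.BG.mem_cent.2 fun y _ => Subgroup.mem_center_iff.1 this y

end Cfsg.Agent.S3862
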