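import Cfsg.Statements.S0414
import Cfsg.Agent.Small.StAut

set_option autoImplicit false
open Cfsg

namespace Cfsg.Agent.S0414

/-- Aut of an S(3, 6, 22) has order 887040, is 3-transitive, and contains a simple subgroup of index 2. -/
theorem result {α : Type*} [Fintype α] [DecidableEq α] (hα : Fintype.card α = 22) {B : Set (Finset α)} (hB : Cfsg.IsSteinerSystem 3 6 B) : Nat.card (Cfsg.setSystemAut B) = 887040 ∧ MulAction.IsMultiplyPretransitive (Cfsg.setSystemAut B) α 3 ∧ ∃ H : Subgroup (Cfsg.setSystemAut B), H.index = 2 ∧ Cfsg.IsM22 H := by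
  obtain ⟨⟨e⟩, h⟩ := CF.Small.aut22 hα hB
  haveI := CF.Comp.Mat.isSimpleGroup_M22
  have e' := (Subgroup.subgroupOfEquivOfLe CF.Small.M22_le_M222).symm.trans
    (e.subgroupMap (Spor.M22.subgroupOf CF.Small.M222))
  refine ⟨by rw [← Nat.card_congr e.toEquiv, CF.Small.card_M222], h, _, ?_, e'.symm.isSimpleGroup,
    by rw [← Nat.card_congr e'.toEquiv, CF.Comp.Mat.card_M22]⟩
  rw [Subgroup.index_map_equiv, CF.Small.index_M22]

end Cfsg.Agent.S0414
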