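import Cfsg.Statements.S0436
import Cfsg.Agent.Fisch.TT1

set_option autoImplicit false
open Cfsg

namespace Cfsg.Agent.S0436

/-- For distinct commuting members a, b of a set of 3-transpositions E, a member e of E centralises the product a * b if and only if it centralises both a and b. -/
theorem result {G : Type*} [Group G] {E : Set G} (hE : Cfsg.IsThreeTranspositionSet E) {a b e : G} (ha : a ∈ E) (hb : b ∈ E) (he : e ∈ E) (hab : a ≠ b) (hcomm : Commute a b) : Commute e (a * b) ↔ (Commute e a ∧ Commute e b) := by
  open CF.Fisch in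
  refine ⟨fun h => ?_, fun h => h.1.mul_right h.2⟩
  have ha2 := tt_sq hE ha; have hb2 := tt_sq hE hb; have he2 := tt_sq hE he
  have h1 : Commute e a ↔ Commute e b :=
    ⟨fun h1 => by simpa [← mul_assoc, ha2] using h1.mul_right h,
      fun h1 => by simpa [mul_assoc, hb2] using h.mul_right h1⟩
  by_contra hn
  have h2 := tt_braid hE he ha (by tauto)
  have h3 := tt_braid hE he hb (by tauto)
  have h4 : (e * a * e) * (e * b * e) = a * b := by
    calc _ = e * a * (e * e) * b * e := by group
      _ = (e * (a * b)) * e := by rw [he2]; group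
      _ = _ := by rw [h.eq, mul_assoc, he2, mul_one]
  rw [h2, h3] at h4
  refine hab (tt_eq_of_mul_eq_one hE hb ?_)
  have h5 : e * (a * b) * e = 1 := by
    calc _ = a⁻¹ * (a * e * a * (b * e * b)) * b⁻¹ := by group
      _ = 1 := by rw [h4]; group
  rwa [h.eq, mul_assoc, he2, mul_one] at h5

end Cfsg.Agent.S0436
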