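import Cfsg.Statements.S0437
import Cfsg.Agent.S0436

set_option autoImplicit false
open Cfsg

namespace Cfsg.Agent.S0437

/-- For three distinct, pairwise commuting members a, b, c of a set of 3-transpositions E, a member e of E centralises a * b * c if and only if it centralises each of a, b and c. -/
theorem result {G : Type*} [Group G] {E : Set G} (hE : Cfsg.IsThreeTranspositionSet E) {a b c e : G} (ha : a ∈ E) (hb : b ∈ E) (hc : c ∈ E) (he : e ∈ E) (hab : a ≠ b) (hac : a ≠ c) (hbc : b ≠ c) (h₁ : Commute a b) (h₂ : Commute a c) (h₃ : Commute b c) : Commute e (a * b * c) ↔ (Commute e a ∧ Commute e b ∧ Commute e c) := by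
  open CF.Fisch in
  refine ⟨fun h => ?_, fun h => (h.1.mul_right h.2.1).mul_right h.2.2⟩
  have ha2 := tt_sq hE ha; have hb2 := tt_sq hE hb; have he2 := tt_sq hE he
  have hc2 := tt_sq hE hc
  by_cases h1 : Commute e c
  · have := (S0436.result hE ha hb he hab h₁).1 (by simpa [mul_assoc, hc2] using h.mul_right h1)
    exact ⟨this.1, this.2, h1⟩
  by_cases h2 : Commute e a
  · exact absurd ((S0436.result hE hb hc he hbc h₃).1
      (by simpa [← mul_assoc, ha2] using h2.mul_right h)).2 h1
  by_cases h3 : Commute e b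
  · exact absurd ((S0436.result hE ha hc he hac h₂).1
      (by simpa [h₁.eq, ← mul_assoc, hb2] using h3.mul_right h)).2 h1
  have h4 : (e * a * e) * (e * b * e) * (e * c * e) = a * b * c := by
    calc _ = e * a * (e * e) * b * (e * e) * c * e := by group
      _ = (e * (a * b * c)) * e := by rw [he2]; group
      _ = _ := by rw [h.eq, mul_assoc, he2, mul_one]
  have h5 := tt_braid hE he ha h2
  have h6 := tt_braid hE he hb h3
  rw [h5, h6, tt_braid hE he hc h1] at h4
  have h7 : a * (b * e * b) * c = b * e * b := by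
    calc _ = e⁻¹ * a⁻¹ * (a * e * a * (b * e * b) * (c * e * c)) * c⁻¹ * e⁻¹ := by group
      _ = e⁻¹ * b * e⁻¹ := by rw [h4]; group
      _ = _ := by rw [tt_inv hE he, h6]
  have h8 : c = (a * b) * e * (a * b)⁻¹ := by
    calc c = (b * e * b)⁻¹ * a⁻¹ * (a * (b * e * b) * c) := by group
      _ = b * e * (b * a * b) * e * b := by
        rw [h7]; simp [tt_inv hE ha, tt_inv hE hb, tt_inv hE he, mul_assoc]
      _ = b * (e * a * e) * b := by rw [← h₁.eq, mul_assoc a, hb2]; group
      _ = _ := by rw [h5, h₁.eq]; simp [tt_inv hE ha, tt_inv hE hb, mul_assoc]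
  rw [eq_mul_inv_iff_mul_eq, ← (h₂.mul_left h₃).eq, mul_left_cancel_iff] at h8
  exact absurd (h8 ▸ Commute.refl c) h1

end Cfsg.Agent.S0437
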