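import Cfsg.Statements.S0445
import Cfsg.Agent.Classical.Linear

set_option autoImplicit false
open Cfsg

namespace Cfsg.Agent.S0445

open Matrix

def M (a : Fin 4 → ZMod 2) (b : Fin 3 → ZMod 2) (B : Matrix (Fin 3) (Fin 3) (ZMod 2)) :
    Matrix (Fin 5) (Fin 5) (ZMod 2) :=
  !![1, a 0, a 1, a 2, a 3; 0, 1, 0, 0, 0; 0, b 0, B 0 0, B 0 1, B 0 2;
    0, b 1, B 1 0, B 1 1, B 1 2; 0, b 2, B 2 0, B 2 1, B 2 2]

theorem det_M (a : Fin 4 → ZMod 2) (b : Fin 3 → ZMod 2) (B : Matrix (Fin 3) (Fin 3) (ZMod 2)) :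
    (M a b B).det = B.det := by
  rw [det_succ_column_zero, Fin.sum_univ_succ, det_succ_row_zero]
  simp [M, Fin.sum_univ_succ, det_fin_three, Fin.succAbove]

/-- In the special linear group of dimension 5 over the field with two elements, the centraliser of a transvection has order 21504 = 2 ^ 7 · 168 (it is an extension of an extraspecial group of order 2 ^ 7 by the simple group of order 168). -/
theorem result (s : Matrix.SpecialLinearGroup (Fin 5) (ZMod 2)) (hs : (s : Matrix (Fin 5) (Fin 5) (ZMod 2)) = Matrix.transvection 0 1 1) : Nat.card (Subgroup.centralizer ({s} : Set (Matrix.SpecialLinearGroup (Fin 5) (ZMod 2)))) = 21504 := by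
  have h1 : Nat.card (SpecialLinearGroup (Fin 3) (ZMod 2)) = 168 := by
    have := CF.Classical.card_SL_fin (F := ZMod 2) 3 (by norm_num)
    simpa [Fin.prod_univ_succ] using this
  have h2 : ∀ A : SpecialLinearGroup (Fin 5) (ZMod 2), A ∈ Subgroup.centralizer {s} ↔
      A.1 * single 0 1 1 = single 0 1 1 * A.1 := fun A => by
    rw [Subgroup.mem_centralizer_singleton_iff]
    refine Subtype.ext_iff.trans ?_
    change A.1 * s.1 = s.1 * A.1 ↔ _
    simp [hs, transvection, mul_add, add_mul]
  rw [← Nat.card_eq_of_bijective (fun x : (Fin 4 → ZMod 2) × (Fin 3 → ZMod 2) ×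
    SpecialLinearGroup (Fin 3) (ZMod 2) => (⟨⟨M x.1 x.2.1 x.2.2, by rw [det_M, x.2.2.2]⟩, (h2 _).2 (by
      ext i j; fin_cases i <;> fin_cases j <;> simp [M, mul_apply, Fin.sum_univ_succ, single])⟩ :
      Subgroup.centralizer {s})) ⟨?_, ?_⟩]
  · rw [Nat.card_prod, Nat.card_prod, h1]
    simp
  · rintro ⟨a, b, B⟩ ⟨a', b', B'⟩ h
    have h := congrArg (fun x => x.1.1) h
    simp only [M, EmbeddingLike.apply_eq_iff_eq, vecCons_inj] at h
    refine Prod.ext ?_ (Prod.ext ?_ ?_)
    · ext i; fin_cases i <;> simp [h]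
    · ext i; fin_cases i <;> simp [h]
    · ext i j; fin_cases i <;> fin_cases j <;> simp [h]
  · rintro ⟨A, hA⟩
    have h3 := fun i j => congrFun₂ ((h2 A).1 hA) i j
    simp only [Fin.forall_fin_succ] at h3
    simp [mul_apply, Fin.sum_univ_succ, single] at h3
    have h4 : A 0 0 = 1 := by
      have := A.2
      rw [det_succ_column_zero, Fin.sum_univ_succ] at this
      have h5 : ∀ x y : ZMod 2, x * y = 1 → x = 1 := by decide
      rw [Finset.sum_eq_zero (by simp [Fin.forall_fin_succ]; grind), add_zero] at this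
      exact h5 _ _ (by simpa using this)
    have h5 : A.1 = M (fun i => A 0 i.succ) (fun i => A i.succ.succ 1)
        (of fun i j => A i.succ.succ j.succ.succ) := by
      ext i j; fin_cases i <;> fin_cases j <;> simp [M] <;> grind
    exact ⟨⟨fun i => A 0 i.succ, fun i => A i.succ.succ 1, _, (det_M _ _ _).symm.trans (h5 ▸ A.2)⟩, Subtype.ext (Subtype.ext h5.symm)⟩

end Cfsg.Agent.S0445
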