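import Cfsg.Statements.S0447
import Cfsg.Agent.Recog.DCEx

set_option autoImplicit false
open Cfsg

namespace Cfsg.Agent.S0447

/-- Involutions in double covers of alternating groups: for n ≤ 7, a finite non-split double cover of the alternating group of degree n has exactly one element of order 2 (the central one); for degree 8 there is a non-split double cover with two distinct involutions. -/
theorem result : (∀ (n : ℕ) (H : Type) (_ : Group H) (_ : Finite H), n ≤ 7 → Cfsg.IsNonsplitDoubleCover H (alternatingGroup (Fin n)) → ∀ x y : H, orderOf x = 2 → orderOf y = 2 → x = y) ∧ ∃ (H : Type) (_ : Group H) (_ : Finite H), Cfsg.IsNonsplitDoubleCover H (alternatingGroup (Fin 8)) ∧ ∃ x y : H, x ≠ y ∧ orderOf x = 2 ∧ orderOf y = 2 := by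
  have key : ∀ {H : Type} [Group H] {x : H}, orderOf x = 2 → x * x = 1 ∧ x ≠ 1 := fun {H} _ {x} h =>
    ⟨by rw [← pow_two, ← h, pow_orderOf_eq_one], by rintro rfl; simp at h⟩
  refine ⟨fun n H _ _ hn h x y hx hy => ?_, ?_⟩
  · obtain ⟨π, t, D, -⟩ := CF.Recog.exists_dc h
    have : ∀ x : H, orderOf x = 2 → x = t := by
      intro x hx
      have h1 := D.card_support (key hx).1
      have h2 : (π x).support.card ≤ 7 := (Finset.card_le_univ _).trans (by simpa using hn)
      have h3 : (π x).support.card = 0 := by omega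
      exact (D.ker x (Equiv.Perm.card_support_eq_zero.1 h3)).resolve_left (key hx).2
    rw [this x hx, this y hy]
  · obtain ⟨H, _, π, t, D⟩ := CF.Recog.exists_dc_fin (n := 8) (by norm_num)
    obtain ⟨z, hz⟩ := D.surj (Equiv.swap 0 1 * Equiv.swap 2 3 * Equiv.swap 4 5 * Equiv.swap 6 7)
      (by decide)
    have h1 : π z ≠ 1 := by rw [hz]; decide
    refine ⟨H, inferInstance, D.finite, D.isNonsplit (by simp), t, z, fun e => h1 (e ▸ D.πt),
      D.orderOf_t, orderOf_eq_prime ?_ fun e => h1 (by rw [e, map_one])⟩
    rw [pow_two]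
    exact D.sq_of_card (by rw [hz]; decide) (by rw [hz]; decide)

end Cfsg.Agent.S0447
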