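import Cfsg.Statements.S0454
import Cfsg.Agent.Dce.Ly.Main

set_option autoImplicit false
open Cfsg

namespace Cfsg.Agent.S0454

/-- Existence of the Lyons group: there is a transitive permutation group of degree 8835156, simple of order 51765179004000000, whose point stabiliser is simple of the order of a group of type G2, and which has an involution whose centraliser is a non-split double cover of the alternating group of degree 11. -/
theorem result : ∃ H : Subgroup (Equiv.Perm (Fin 8835156)), Cfsg.IsLy H ∧ MulAction.IsPretransitive H (Fin 8835156) ∧ Cfsg.IsG2 (MulAction.stabilizer H (0 : Fin 8835156)) ∧ ∃ t : H, orderOf t = 2 ∧ Cfsg.IsNonsplitDoubleCover (Subgroup.centralizer ({t} : Set H)) (alternatingGroup (Fin 11)) := by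
  open CF.Dce CF.Dce.Ly CF.Comp in
  have := simple_L
  have := simple_H
  obtain ⟨H', e, h1, h2⟩ := exists_realization_coset (K := H)
    (fun e => absurd ((Subgroup.index_eq_one.2 e).symm.trans index_H) (by decide)) index_H
  have e1 := equivOfIff e h2
  refine ⟨H', ⟨e.symm.isSimpleGroup, (Nat.card_congr e.toEquiv).symm.trans card_L⟩, h1,
    ⟨e1.symm.isSimpleGroup, 5, (by decide : Nat.Prime 5).prime.isPrimePow, by decide,
      (Nat.card_congr e1.toEquiv).symm.trans card_H⟩, e t, (e.orderOf_eq t).trans ord_t,
    isNonsplitDoubleCover_congr (equivOfIff e fun g => ?_) cent_tL⟩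
  simp only [Subgroup.mem_centralizer_singleton_iff, ← map_mul, e.injective.eq_iff]

end Cfsg.Agent.S0454
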