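import Cfsg.Statements.S0473
import Cfsg.Agent.Fisch.F24.He
import Cfsg.Agent.Fisch.F24.Kp
import Cfsg.Agent.Fisch.F24.Tu
-- import your own Cfsg.Agent.* helpers here

set_option autoImplicit false
open Cfsg

namespace Cfsg.Agent.S0473

open CF.Fisch
open scoped commutatorElement

open CF.Fisch F24 CF.Comp Subgroup

theorem sub {G K : Type*} [Group G] [Group K] [IsSimpleGroup K] {n : ℕ} (hn : Nat.card K = n) (h2 : ¬ n.Prime)
    {φ : K →* G} (h : Function.Injective φ) :
    ∃ L : Subgroup (commutator G), IsSimpleGroup L ∧ Nat.card L = n := by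
  have h1 : commutator K = ⊤ := (Normal.eq_bot_or_eq_top inferInstance).resolve_left fun e => h2 (by
    have := (commutator_eq_bot_iff K).1 e
    exact hn ▸ @IsSimpleGroup.prime_card K (IsMulCommutative.instCommGroup) _)
  have e := (φ.codRestrict (commutator G) fun x => by
    have := (map_commutator_eq K φ).le ⟨x, h1.ge (mem_top x), rfl⟩
    exact commutator_mono le_top le_top this).ofInjective fun x y e => h (congrArg Subtype.val e)
  exact ⟨_, e.symm.isSimpleGroup, (Nat.card_congr e.toEquiv).symm.trans hn⟩

/-- The largest Fischer 3-transposition group: a group of order 2 · 1255205709190661721292800 generated by a conjugacy class of 306936 3-transpositions, in which a transposition centraliser has order 2 · 4089470473293004800 and contains a simple subgroup of order 4089470473293004800; its subgroup of index 2 is simple and contains simple subgroups of orders 4089470473293004800 and 4030387200. -/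
theorem result : ∃ (G : Type) (_ : Group G) (_ : Finite G), Nat.card G = 2 * 1255205709190661721292800 ∧ ∃ D : Set G, Cfsg.IsThreeTranspositionClass D ∧ Nat.card D = 306936 ∧ (∀ d ∈ D, Nat.card (Subgroup.centralizer ({d} : Set G)) = 2 * 4089470473293004800 ∧ ∃ K : Subgroup G, K ≤ Subgroup.centralizer ({d} : Set G) ∧ Cfsg.IsFi23 K) ∧ ∃ H : Subgroup G, H.index = 2 ∧ Cfsg.IsFi24' H ∧ (∃ K : Subgroup H, Cfsg.IsFi23 K) ∧ (∃ K : Subgroup H, Cfsg.IsHe K) := by
  obtain ⟨E, M⟩ := model
  have := M.finite
  have := Fi23.simple
  have := He.simple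
  obtain ⟨h1, h2, -⟩ := M.commutator
  refine ⟨_, _, M.finite, M.card, _, M.cls, M.ncard, fun d hd => ?_, _, h1, ⟨h2, ?_⟩,
    sub Fi23.card (by norm_num) M.kappa.choose_spec.1, sub He.card (by norm_num) (HE.emb M).choose_spec⟩
  · obtain ⟨E', f', M', rfl⟩ := M.tup1 ⟨by simp, by simpa using hd, by simp⟩
    obtain ⟨κ, k1, k2, -⟩ := M'.kappa
    have e := κ.ofInjective k1
    have k3 := (Nat.card_congr e.toEquiv).symm.trans Fi23.card
    have k4 := card_le_ncard_mul (H := ⊤) (fun g _ x => (M.conj_D g).symm) hd
    have k5 := card_le_two_mul h1 (centralizer {el E' 0})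
    rw [← M'.base] at k2
    rw [card_top, M.card, M.ncard, top_inf_eq] at k4
    rw [← k2, k3] at k5
    exact ⟨by omega, _, k2.le.trans inf_le_left, e.symm.isSimpleGroup, k3⟩
  · have := (commutator _).card_mul_index.trans M.card
    rw [h1] at this
    omega

end Cfsg.Agent.S0473
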