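import Cfsg.Statements.S0547
import Cfsg.Agent.SolvStr.Prim

set_option autoImplicit false
open Cfsg

namespace Cfsg.Agent.S0547

/-- Let a finite solvable group G act faithfully and primitively on a set, and let M be a minimal normal subgroup of G. Then M is transitive with trivial point stabilizers, and the number of points equals the order of M, which is a prime power p ^ d with d ≥ 1. -/
theorem result {G : Type*} [Group G] [Finite G] [Group.IsSolvable G] {Ω : Type*} [Nonempty Ω] [MulAction G Ω] [FaithfulSMul G Ω] (hprim : MulAction.IsPreprimitive G Ω) (M : Subgroup G) [M.Normal] (hM : M ≠ ⊥) (hmin : ∀ K : Subgroup G, K.Normal → K ≤ M → K = ⊥ ∨ K = M) : MulAction.IsPretransitive M Ω ∧ (∀ ω : Ω, MulAction.stabilizer M ω = ⊥) ∧ ∃ p d : ℕ, p.Prime ∧ 0 < d ∧ Nat.card Ω = p ^ d ∧ Nat.card M = p ^ d := by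
  have hN : CF.Solv.IsMinNormal M := ⟨inferInstance, hM, hmin⟩
  have := hN.isMulCommutative
  have := CF.SolvStr.nontrivial_of_faithful (Ω := Ω) hM
  have hc : ∀ ω : Ω, Subgroup.IsComplement' M (MulAction.stabilizer G ω) := fun ω =>
    CF.SolvStr.corefree_isComplement'_of_comm
      (MulAction.IsPreprimitive.isCoatom_stabilizer_of_isPreprimitive G ω)
      (CF.SolvStr.normalCore_stabilizer_eq_bot ω) M hM
  refine ⟨⟨fun x y => ?_⟩, fun ω => ?_, ?_⟩
  · obtain ⟨g, rfl⟩ := MulAction.exists_smul_eq G x y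
    obtain ⟨⟨m, s⟩, h⟩ := (hc x).2 g
    refine ⟨m, ?_⟩
    have hs : (s : G) • x = x := s.2
    change (m : G) • x = g • x
    rw [← h, mul_smul, hs]
  · rw [eq_bot_iff]
    intro m hm
    have : (m : G) ∈ M ⊓ MulAction.stabilizer G ω := ⟨m.2, hm⟩
    rw [(hc ω).disjoint.eq_bot] at this
    exact Subtype.ext this
  · obtain ⟨p, hp, -, hP⟩ := hN.exists_isElementaryAbelian
    have := Fact.mk hp
    have : Nontrivial M := (Subgroup.nontrivial_iff_ne_bot M).mpr hM
    obtain ⟨d, hd, hcard⟩ := hP.nontrivial_iff_card.mp this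
    refine ⟨p, d, hp, hd, ?_, hcard⟩
    obtain ⟨ω⟩ := (inferInstance : Nonempty Ω)
    rw [← MulAction.index_stabilizer_of_transitive G ω, (hc ω).index_eq_card, hcard]

end Cfsg.Agent.S0547
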