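import Mathlib
import Cfsg.Agent.Fgs2.MaxClass
import Cfsg.Statements.S0662

set_option autoImplicit false
open Cfsg

namespace Cfsg.Agent.S0662

/-- In a p-group of maximal class of order at least p³ the normal subgroups of index at least p² are exactly the terms of the lower central series, and there are exactly p + 1 normal subgroups of index p. -/
theorem result {G : Type*} [Group G] [Finite G] {p : ℕ} [Fact p.Prime] (n : ℕ) (hG : Nat.card G = p ^ n) (hcl : Group.nilpotencyClass G = n - 1) (hn : 3 ≤ n) : (∀ (N : Subgroup G) [N.Normal] (r : ℕ), 2 ≤ r → N.index = p ^ r → N = (⊤ : Subgroup G).lowerCentralSeries (r - 1)) ∧ Nat.card {N : Subgroup G // N.Normal ∧ N.index = p} = p + 1 := by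
  have h := (CF.Fgs2.nilpotencyClass_eq_iff hG (by omega)).1 hcl
  refine ⟨fun N _ r hr hN => CF.Fgs2.eq_lcs_of_maxClass hG hn h N hr hN, ?_⟩
  have hp' := IsPGroup.of_card hG
  have hp : p.Prime := Fact.out
  have h1 : (commutator G).index = p ^ 2 :=
    CF.Fgs2.index_lcs_of_maxClass hG hn h (r := 1) le_rfl (by omega)
  have hnc : ¬ IsCyclic (G ⧸ commutator G) := by
    intro hc
    have h2 := CF.Fgs2.not_isCyclic_of_lcs_ne_bot (r := n - 3)
      (by rwa [show n - 3 + 1 = n - 2 by omega])
    refine h2 (CF.Solv.isCyclic_of_isCyclic_quotient_frattini (isCyclic_of_surjective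
      (QuotientGroup.map _ _ (MonoidHom.id G) (CF.Solv.commutator_le_frattini_of_isPGroup hp')) ?_))
    rintro ⟨x⟩
    exact ⟨x, rfl⟩
  rw [← CF.Fgs1.card_subgroups_of_elem_sq (G := G ⧸ commutator G)
    (CF.Fgs1.pow_eq_one_of_not_isCyclic h1 hnc) h1]
  symm
  refine Nat.card_congr (Equiv.ofBijective (fun H => ⟨H.1.comap (QuotientGroup.mk' _), ?_, ?_⟩)
    ⟨fun H K h => ?_, ?_⟩)
  · exact Subgroup.Normal.of_commutator_le _ (CF.Solv.le_comap_mk' _ _)
  · rw [CF.Solv.index_comap_mk']
    have := H.1.index_mul_card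
    rw [H.2, ← Subgroup.index_eq_card, h1, pow_two] at this
    exact Nat.eq_of_mul_eq_mul_right hp.pos this
  · exact Subtype.ext (Subgroup.comap_injective (QuotientGroup.mk'_surjective _)
      (congrArg Subtype.val h))
  · rintro ⟨N, hN, hNi⟩
    have h2 : commutator G ≤ N := CF.Fgs1.commutator_le_of_index_prime (hNi ▸ hp)
    refine ⟨⟨N.map (QuotientGroup.mk' _), ?_⟩, Subtype.ext ?_⟩
    · have := (N.map (QuotientGroup.mk' (commutator G))).index_mul_card
      rw [CF.Solv.index_map_mk', sup_eq_left.2 h2, hNi, ← Subgroup.index_eq_card (commutator G), h1,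
        pow_two] at this
      exact Nat.eq_of_mul_eq_mul_left hp.pos this
    · simp only [CF.Solv.comap_map_mk', sup_eq_left.2 h2]

end Cfsg.Agent.S0662
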