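import Cfsg.Statements.S0720
import Cfsg.Agent.Perm.TwoP

set_option autoImplicit false
open Cfsg

namespace Cfsg.Agent.S0720

/-- Wielandt's Theorem on primitive groups of degree `2p`: such a group is doubly transitive, or it has rank 3, `p = 2a² + 2a + 1`, and subdegrees `a(2a+1)` and `(a+1)(2a+1)`. -/
theorem result {α : Type*} [Fintype α] [DecidableEq α] {p : ℕ} (hp : p.Prime) (hα : Fintype.card α = 2 * p) (G : Subgroup (Equiv.Perm α)) (hG : MulAction.IsPreprimitive G α) (a₀ : α) : MulAction.IsMultiplyPretransitive G α 2 ∨ (Nat.card (MulAction.orbitRel.Quotient (MulAction.stabilizer G a₀) α) = 3 ∧ ∃ a : ℕ, 0 < a ∧ p = 2 * a ^ 2 + 2 * a + 1 ∧ ∀ b : α, b ≠ a₀ → Nat.card (MulAction.orbit (MulAction.stabilizer G a₀) b) = a * (2 * a + 1) ∨ Nat.card (MulAction.orbit (MulAction.stabilizer G a₀) b) = (a + 1) * (2 * a + 1)) := by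
  open CF.Perm MulAction Equiv.Perm in
  classical
  have := Fact.mk hp
  have h2 := hp.two_le
  have := Fintype.ofFinite G
  obtain ⟨x, hx⟩ := exists_prime_orderOf_dvd_card' (G := G) p ((Dvd.intro_left 2 (by
    rw [index_stabilizer_of_transitive G a₀, Nat.card_eq_fintype_card, hα])).trans
    (stabilizer G a₀).index_dvd_card)
  have hx' : orderOf x.1 = p := (Subgroup.orderOf_coe x).trans hx
  by_cases hs : x.1.support.card < 2 * p
  · have hc := isCycle_of_prime_order (hx' ▸ hp) (hx' ▸ hs)
    refine .inl (hG.is_two_pretransitive (n := p - 1) ?_ (by simp [hα]; omega)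
      (isPretransitive_of_isCycle_mem hc x.2))
    rw [← Finset.coe_compl, Set.ncard_coe_finset, Finset.card_compl, ← hc.orderOf, hx', hα]
    omega
  have hu : x.1.support = Finset.univ := Finset.eq_univ_of_card _
    (le_antisymm (Finset.card_le_univ _) (by omega))
  letI : CommGroup (Subgroup.zpowers x) := IsCyclic.commGroup
  have hP : Nat.card (Subgroup.zpowers x) = p := by rw [Nat.card_zpowers, hx]
  refine twoP hG (Subgroup.zpowers x).subtype hp (by simpa using hP) hα (fun y hy w e => ?_) a₀
  exact mem_support.1 (hu ▸ Finset.mem_univ w) ((Subgroup.zpowers_le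
    (H := stabilizer (Subgroup.zpowers x) w)).2 e
    (mem_zpowers_of_prime_card hP hy (g' := ⟨x, Subgroup.mem_zpowers x⟩)))

end Cfsg.Agent.S0720
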