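import Cfsg.Statements.S0725
import Cfsg.Agent.PrS.F
import Cfsg.Agent.PrS.N2
import Cfsg.Agent.S3681

set_option autoImplicit false
open Cfsg

namespace CF.PrS
open Finset Equiv MulAction

variable {α : Type*} [Fintype α] [DecidableEq α] {G : Subgroup (Perm α)}

theorem ex_j {n : ℕ} (h : 524288 < n) : ∃ j, 2 ^ (j + 19) ≤ n ∧ n ≤ 2 ^ (j + 20) := by
  have h1 : 19 ≤ Nat.log 2 n := Nat.le_log_of_pow_le one_lt_two (by omega)
  obtain ⟨j, hj⟩ := Nat.exists_eq_add_of_le' h1
  exact ⟨j, hj ▸ Nat.pow_log_le_self 2 (by omega),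
    (show j + 20 = (Nat.log 2 n).succ by omega) ▸ (Nat.lt_pow_succ_log_self one_lt_two n).le⟩

theorem mainU (hG : IsPreprimitive G α) (hn : 22 ≤ Fintype.card α)
    (h2 : ∃ z x y, x ≠ z ∧ y ≠ z ∧ ¬ R G {z} x y) : Nat.card G ≤ 4 ^ Fintype.card α := by
  obtain ⟨δ, hδ, h⟩ := uni hG hn h2
  have key : ∀ L : ℕ, 0 < L → ∏ i ∈ range L, (1 + ((Fintype.card α - 1 : ℕ) : ℝ) *
      (1 - (i : ℝ) / L) ^ (δ - 1)) ≤ 4 ^ L → Nat.card G ≤ 4 ^ Fintype.card α := fun L hL hp => by
    have := ent (G := G) ∅ hL (fun i => (1 - (i : ℝ) / L) ^ (δ - 1))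
      (fun i hi => pow_nonneg (sub_nonneg.2 (t_bd hi).2) _) (u := 4) (by norm_num)
      (fun i hi x _ y _ hxy => h _ (t_bd hi).1 (t_bd hi).2 x y hxy)
      (by rwa [compl_empty, card_univ])
    rw [ord_empty, compl_empty, card_univ] at this
    exact_mod_cast this
  by_cases hb : Fintype.card α ≤ 524288
  · exact key 128 (by norm_num) (finU hn hb δ hδ)
  · obtain ⟨j, h3, h4⟩ := ex_j (not_le.1 hb)
    exact key (j + 20) (by omega) (asymU h3 h4 hδ)

theorem mainM (hG : IsPreprimitive G α) (hA : ¬ alternatingGroup α ≤ G) (hn : 22 ≤ Fintype.card α)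
    {k : ℕ} (hk : Tr G k) (hkn : k < Fintype.card α) {F : Finset α} (hF : F.card + 2 = k)
    (h3 : ∃ u ∉ F, ∃ v ∉ F, u ≠ v ∧ ∃ x ∉ insert u (insert v F), ∃ y ∉ insert u (insert v F),
      ¬ R G (insert u (insert v F)) x y) : Nat.card G ≤ 4 ^ Fintype.card α := by
  have hm : Fᶜ.card + F.card = Fintype.card α := card_compl_add_card F
  have hm21 : 21 ≤ Fᶜ.card := by
    by_contra h
    exact hA (hk.jordan hG (p := 19) (by norm_num) (by omega) (by omega))
  obtain ⟨Δ, E, hb, hc⟩ := (hk.t2 hF.le).main h3 (by omega)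
  have key : ∀ (L : ℕ) (u : ℝ) (r : ℕ → ℝ), 0 < L → 0 ≤ u →
      (∀ i : ℕ, i < L → Adm ((i : ℝ) / L) (r i) Δ) →
      ∏ i ∈ range L, (1 + ((Fᶜ.card - 1 : ℕ) : ℝ) * ((1 - (i : ℝ) / L) * r i ^ E)) ≤ u ^ L →
      (ord G F : ℝ) ≤ u ^ Fᶜ.card := fun L u r hL hu hr hp =>
    ent F hL (fun i => (1 - (i : ℝ) / L) * r i ^ E)
      (fun i hi => mul_nonneg (sub_nonneg.2 (t_bd hi).2) (pow_nonneg (hr i hi).1.le _)) hu
      (fun i hi x hx y hy hxy => hb _ _ (t_bd hi).1 (t_bd hi).2 (hr i hi) x hx y hy hxy) hp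
  have hd : (Nat.card G : ℝ) ≤ (Fintype.card α).descFactorial F.card * ord G F := by
    exact_mod_cast card_le_desc F
  suffices h : ((Fintype.card α).descFactorial F.card : ℝ) * ord G F ≤ 4 ^ Fintype.card α by
    exact_mod_cast hd.trans h
  by_cases hbig : Fintype.card α ≤ 524288
  · obtain ⟨p, j, u, hp, h1, hu, h4, h5, h6, h7⟩ := finM hm21 (by omega)
    have h8 : Fintype.card α ≤ p + 2 := by
      by_contra h
      exact hA (hk.jordan hG hp (by omega) (by omega))
    obtain ⟨h9, h10⟩ := h7 _ (by omega) h8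
    rw [show Fintype.card α - Fᶜ.card = F.card by omega] at h9 h10
    have fin : Good Fᶜ.card u Δ E →
        ((Fintype.card α).descFactorial F.card : ℝ) * ord G F ≤ 4 ^ Fintype.card α :=
      fun ⟨r, hr, hp⟩ => le_trans (mul_le_mul_of_nonneg_left (key 128 u r (by norm_num) hu hr hp)
        (Nat.cast_nonneg _)) h9
    rcases hc with ⟨l, l1, l2, rfl, rfl, l3⟩ | ⟨rfl, rfl⟩
    · rcases l1.eq_or_lt with rfl | l1
      · refine le_trans (mul_le_mul_of_nonneg_left ?_ (Nat.cast_nonneg _)) h10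
        exact_mod_cast l3 rfl j h6
      · exact fin (h4 l l1 l2)
    · exact fin h5
  · obtain ⟨j, h4, h5⟩ := ex_j (not_le.1 hbig)
    have h6 := hk.big hA hkn.le h4 h5
    rw [show k - 2 = F.card by omega] at h6
    have h7 : 2 * F.card ≤ Fintype.card α := le_trans (Nat.mul_le_mul_right _ (by omega)) h6
    have hΔ : 1 ≤ Δ ∧ (Fᶜ.card - 1) / 2 ≤ E := by
      rcases hc with ⟨l, l1, l2, rfl, rfl, -⟩ | ⟨rfl, rfl⟩ <;> omega
    have h8 := key (2 * j + 40) 2 _ (by omega) zero_le_two (fun i hi =>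
      (adm_simple (t_bd hi).1 (t_bd hi).2).mono (t_bd hi).1 (t_bd hi).2 hΔ.1)
      (asymM (by omega) (by omega) hΔ.2)
    have h9 : (Fintype.card α).descFactorial F.card * 2 ^ Fᶜ.card ≤ 4 ^ Fintype.card α := by
      refine (Nat.mul_le_mul_right _ ((Nat.descFactorial_le_pow _ _).trans
        (Nat.pow_le_pow_left h5 _))).trans ?_
      rw [← pow_mul, ← pow_add, show 4 = 2 ^ 2 from rfl, ← pow_mul]
      refine Nat.pow_le_pow_right two_pos ?_
      rw [show j + 20 = j + 19 + 1 from rfl, Nat.add_mul (j + 19), one_mul]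
      omega
    refine le_trans (mul_le_mul_of_nonneg_left h8 (Nat.cast_nonneg _)) ?_
    exact_mod_cast h9

theorem main (hG : IsPreprimitive G α) (hA : ¬ alternatingGroup α ≤ G) :
    Nat.card G ≤ 4 ^ Fintype.card α := by
  classical
  by_cases hn : Fintype.card α ≤ 21
  · have h := Cfsg.Agent.S3681.result hG (by
      rwa [show (MulAction.toPermHom G α).range = G from by
        ext g
        exact ⟨fun ⟨x, e⟩ => e ▸ x.2, fun h => ⟨⟨g, h⟩, rfl⟩⟩])
    have h2 : ∀ n ≤ 21, n.factorial ≤ 4 ^ n * ((n + 1) / 2).factorial := by decide +kernel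
    exact Nat.le_of_mul_le_mul_right (h.trans (h2 _ hn)) (Nat.factorial_pos _)
  have hex : ∃ k, ¬ Tr G (k + 1) := ⟨_, fun h => hA fun σ _ => by
    obtain ⟨g, hg, e⟩ := h univ (Nat.le_succ _) σ
    exact (Perm.ext fun x => e x (mem_univ x) : g = σ) ▸ hg⟩
  have h1 := Nat.find_spec hex
  have h2 := fun j => Nat.find_min hex (m := j)
  generalize Nat.find hex = k at h1 h2
  rcases k with _ | k
  · exact absurd (tr_one hG) h1
  have hk : Tr G (k + 1) := not_not.1 (h2 k (Nat.lt_succ_self k))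
  obtain ⟨F, hF, x, hx, y, hy, h⟩ := hk.exists_not h1
  have hkn : k + 1 < Fintype.card α := hF ▸ card_lt_univ_of_notMem hx
  rcases k with _ | k
  · obtain ⟨z, rfl⟩ := card_eq_one.1 hF
    exact mainU hG (by omega) ⟨z, x, y, by simpa using hx, by simpa using hy, h⟩
  obtain ⟨u, hu, v, hv, huv⟩ := one_lt_card.1 (show 1 < F.card by omega)
  have hv' : v ∈ F.erase u := mem_erase.2 ⟨huv.symm, hv⟩
  have e : insert u (insert v ((F.erase u).erase v)) = F := by rw [insert_erase hv', insert_erase hu]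
  refine mainM hG hA (by omega) hk hkn (F := (F.erase u).erase v) (by
    rw [card_erase_of_mem hv', card_erase_of_mem hu]; omega)
    ⟨u, by simp, v, by simp, huv, x, by rwa [e], y, by rwa [e], by rwa [e]⟩

end CF.PrS

namespace Cfsg.Agent.S0725

/-- The Praeger–Saxl bound: a primitive permutation group of degree `n` not containing the alternating group has order at most `4 ^ n`. -/
theorem result {α : Type*} [Fintype α] [DecidableEq α] (G : Subgroup (Equiv.Perm α)) (hG : MulAction.IsPreprimitive G α) (hA : ¬ alternatingGroup α ≤ G) : Nat.card G ≤ 4 ^ Fintype.card α :=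
  CF.PrS.main hG hA

end Cfsg.Agent.S0725
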