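import Cfsg.Statements.S0804
import Cfsg.Agent.Classical.SmallIso

set_option autoImplicit false
open Cfsg

namespace Cfsg.Agent.S0804

/-- PSL_2(q) has a subgroup isomorphic to A_5 iff 5 ∣ q(q² − 1). -/
theorem result {F : Type*} [Field F] [Fintype F] {q : ℕ} (hF : Fintype.card F = q) : (∃ H : Subgroup (Matrix.ProjectiveSpecialLinearGroup (Fin 2) F), Nonempty (H ≃* alternatingGroup (Fin 5))) ↔ 5 ∣ q * (q ^ 2 - 1) := by
  open CF.Classical in
  rw [← hF, ← Nat.card_eq_fintype_card]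
  constructor
  · rintro ⟨H, ⟨e⟩⟩
    have h1 := H.card_subgroup_dvd_card
    rw [Nat.card_congr e.toEquiv, card_A5] at h1
    rw [← card_PSL_two']
    exact Dvd.dvd.mul_left ((by norm_num : 5 ∣ 60).trans h1) _
  · intro h
    obtain ⟨t, ht⟩ := exists_root_five h
    obtain ⟨S, h1, h2⟩ := exists_A5_le_psl ht
    exact exists_subgroup_PSL_equiv h1 h2

end Cfsg.Agent.S0804
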