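import Cfsg.Statements.S0894
import Cfsg.Agent.Clifford.Small

set_option autoImplicit false
open Cfsg

namespace Cfsg.Agent.S0894

/-- Let P be an extraspecial p-group of order p ^ (2 * n + 1). Then every irreducible character of P has degree 1 or p ^ n, and exactly p - 1 of them have degree p ^ n. -/
theorem result {P : Type*} [Group P] [Finite P] (p n : ℕ) [Fact p.Prime] (hP : Cfsg.IsExtraspecial p P) (hcard : Nat.card P = p ^ (2 * n + 1)) : (∀ χ : Cfsg.IrrCharacter P, (χ : P → ℂ) 1 = 1 ∨ (χ : P → ℂ) 1 = (p : ℂ) ^ n) ∧ Nat.card {χ : Cfsg.IrrCharacter P // (χ : P → ℂ) 1 = (p : ℂ) ^ n} = p - 1 := by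
  classical
  have hp : p.Prime := Fact.out
  obtain ⟨⟨-, -, hc⟩, hZc⟩ := hP
  have h5 : (Subgroup.center P).index = (p ^ n) ^ 2 := by
    apply Nat.eq_of_mul_eq_mul_left hp.pos
    rw [← hZc, Subgroup.card_mul_index, hZc, hcard]; ring
  have key : ∀ χ : Cfsg.IrrCharacter P, (χ : P → ℂ) 1 = 1 ∨ (χ : P → ℂ) 1 = (p : ℂ) ^ n := by
    intro χ
    refine or_iff_not_imp_left.2 fun h => ?_
    rw [CF.Char.irr_one_eq_one_iff χ.2, hc] at h
    have h4 := CF.Clifford.irr_one_sq_eq_index χ.2 _ (CF.Char.center_le_charCenter χ.2)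
      fun x hx => CF.Clifford.irr_eq_zero_of_not_mem_center χ.2 hc.le
        (hc ▸ CF.Clifford.inf_charKer_eq_bot_of_prime (hZc ▸ hp) h) hx
    obtain ⟨d, -, hd⟩ := CF.Char.irr_one_eq_nat χ.2
    rw [hd, h5] at h4
    rw [hd, show d = p ^ n from Nat.pow_left_injective two_ne_zero (by exact_mod_cast h4)]
    simp
  refine ⟨key, ?_⟩
  have hn : (p : ℂ) ^ n ≠ 1 := by
    intro h
    have h1 : p ^ n = 1 := by exact_mod_cast h
    rw [h1, one_pow, Subgroup.index_eq_one] at h5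
    rw [← hc, (commutator_eq_bot_iff_center_eq_top P).2 h5, Subgroup.card_bot] at hZc
    exact hp.one_lt.ne hZc
  have h1 := CF.Char.sum_irr_one_sq (G := P)
  have e1 : ∑ χ ∈ Finset.univ.filter (fun χ : Cfsg.IrrCharacter P => (χ : P → ℂ) 1 = 1),
      (χ : P → ℂ) 1 ^ 2 = ((p ^ n) ^ 2 : ℕ) := by
    rw [Finset.sum_congr rfl (g := fun _ => 1) (fun χ hχ => by
      rw [(Finset.mem_filter.1 hχ).2, one_pow]), Finset.sum_const, ← Fintype.card_subtype,
      ← Nat.card_eq_fintype_card, CF.Char.card_irr_one_eq_one, hc, h5]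
    simp
  have e2 : ∑ χ ∈ Finset.univ.filter (fun χ : Cfsg.IrrCharacter P => ¬ (χ : P → ℂ) 1 = 1),
      (χ : P → ℂ) 1 ^ 2 = Nat.card {χ : Cfsg.IrrCharacter P // (χ : P → ℂ) 1 = (p : ℂ) ^ n} •
        ((p : ℂ) ^ n) ^ 2 := by
    rw [Finset.sum_congr (s₂ := Finset.univ.filter fun χ : Cfsg.IrrCharacter P =>
      (χ : P → ℂ) 1 = (p : ℂ) ^ n) (g := fun _ => ((p : ℂ) ^ n) ^ 2) (by
        ext χ
        simp only [Finset.mem_filter, Finset.mem_univ, true_and]
        exact ⟨(key χ).resolve_left, fun h h' => hn (h.symm.trans h')⟩) (fun χ hχ => by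
      rw [(Finset.mem_filter.1 hχ).2]), Finset.sum_const, ← Fintype.card_subtype,
      ← Nat.card_eq_fintype_card]
  rw [← Finset.sum_filter_add_sum_filter_not Finset.univ (fun χ : Cfsg.IrrCharacter P =>
    (χ : P → ℂ) 1 = 1), e1, e2, hcard] at h1
  have h2 : (p ^ n) ^ 2 + Nat.card {χ : Cfsg.IrrCharacter P // (χ : P → ℂ) 1 = (p : ℂ) ^ n} *
      (p ^ n) ^ 2 = p ^ (2 * n + 1) := by
    simp only [nsmul_eq_mul, mul_one] at h1
    exact_mod_cast h1
  have h3 : (p ^ n) ^ 2 * (Nat.card {χ : Cfsg.IrrCharacter P // (χ : P → ℂ) 1 = (p : ℂ) ^ n} + 1)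
      = (p ^ n) ^ 2 * p := by linear_combination h2
  have := Nat.eq_of_mul_eq_mul_left (by have := hp.pos; positivity) h3
  omega

end Cfsg.Agent.S0894
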