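import Cfsg.Statements.S0910
import Cfsg.Agent.Char.PB

set_option autoImplicit false
open Cfsg

namespace Cfsg.Agent.S0910

/-- Let G be a non-abelian finite simple group and p a prime. If an irreducible character χ lies in the principal block (relative to a maximal ideal of the algebraic integers containing p) and χ 1 is a power of p, then χ is the principal character. -/
theorem result {G : Type*} [Group G] [Finite G] (p : ℕ) [Fact p.Prime] (M : Ideal Cfsg.AlgInt) (hM : Cfsg.IsPModular p M) [IsSimpleGroup G] (hna : ∃ a b : G, a * b ≠ b * a) (χ : Cfsg.IrrCharacter G) (hχ : χ ∈ Cfsg.principalBlock M G) (k : ℕ) (hdeg : (χ : G → ℂ) 1 = (p : ℂ) ^ k) : (χ : G → ℂ) = fun _ => 1 := by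
  by_contra h1
  have hk := CF.Char.charKer_eq_bot_of_simple χ.2 h1
  have hp : p ∣ Nat.card G := by
    by_contra hp
    have := CF.Char.le_charKer_of_mem_pb hM hχ ⊤ (by simpa using hp)
    rw [hk] at this
    exact top_ne_bot (le_bot_iff.1 this)
  obtain ⟨P⟩ : Nonempty (Sylow p G) := inferInstance
  have hnt : Nontrivial P := (Subgroup.nontrivial_iff_ne_bot _).2 (P.ne_bot_of_dvd_card hp)
  have := P.isPGroup'.center_nontrivial
  obtain ⟨⟨z, hz⟩, hz1⟩ := exists_ne (1 : Subgroup.center P)
  have hle : (P : Subgroup G) ≤ Subgroup.centralizer ({(z : G)} : Set G) := fun g hg =>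
    Subgroup.mem_centralizer_singleton_iff.2
      (congrArg Subtype.val (Subgroup.mem_center_iff.1 hz ⟨g, hg⟩))
  have hnd : ¬ p ∣ (Subgroup.centralizer ({(z : G)} : Set G)).index := fun h =>
    P.not_dvd_index (h.trans (Subgroup.index_dvd_of_le hle))
  rcases CF.Char.irr_eq_zero_or_mem_charCenter χ.2 (n := p ^ k) (by simpa using hdeg) z
    (((Nat.Prime.coprime_iff_not_dvd hM.1).2 hnd).pow_left k) with h0 | h0
  · have h2 := (CF.BlockB.sameBlock_iff hM CF.Char.irr_one χ.2).1 hχ z
    simp only [Cfsg.centralChar, h0, mul_one, div_one, mul_zero, zero_div, sub_zero] at h2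
    exact hnd ((CF.BlockB.v_natCast_lt_one_iff hM _).1 h2)
  · rw [CF.Char.charCenter_eq_center_of_faithful χ.2 hk] at h0
    rcases (inferInstance : (Subgroup.center G).Normal).eq_bot_or_eq_top with h | h
    · rw [h, Subgroup.mem_bot] at h0
      exact hz1 (Subtype.ext (Subtype.ext h0))
    · obtain ⟨a, b, hab⟩ := hna
      exact hab (Subgroup.mem_center_iff.1 (h ▸ Subgroup.mem_top b) a)

end Cfsg.Agent.S0910
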