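import Cfsg.Statements.S0904
import Cfsg.Agent.S0910
import Cfsg.Agent.BlockB.Height
import Cfsg.Agent.Char.PB

set_option autoImplicit false
open Cfsg

namespace Cfsg.Agent.S0904

/-- Let G be a finite simple group of order p ^ a * q ^ b * r with p, q, r distinct primes. Then every Sylow r-subgroup S of G satisfies C_G(S) = S. -/
theorem result {G : Type*} [Group G] [Finite G] [IsSimpleGroup G] (p q r a b : ℕ) (hp : p.Prime) (hq : q.Prime) [Fact r.Prime] (hpq : p ≠ q) (hpr : p ≠ r) (hqr : q ≠ r) (hcard : Nat.card G = p ^ a * q ^ b * r) (S : Sylow r G) : Subgroup.centralizer (S : Set G) = (S : Subgroup G) := by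
  open CF.BlockB CF.Char Cfsg in
  classical
  have := Fintype.ofFinite G
  have hr : r.Prime := Fact.out
  have fr : (Nat.card G).factorization r = 1 := by
    rw [hcard, Nat.factorization_mul (mul_pos (pow_pos hp.pos _) (pow_pos hq.pos _)).ne' hr.ne_zero,
      Nat.factorization_mul (pow_pos hp.pos _).ne' (pow_pos hq.pos _).ne']
    simp [hp.factorization, hq.factorization, hr.factorization, hpr, hqr]
  have cS : Nat.card S = r := by rw [S.card_eq_multiplicity, fr, pow_one]
  have key : ∀ p q a b : ℕ, p.Prime → q.Prime → p ≠ q → p ≠ r →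
      Nat.card G = p ^ a * q ^ b * r → ∀ g : G, p ∣ orderOf g → ¬ r ∣ orderOf g := by
    intro p q a b hp hq hpq hpr hcard g hg hg'
    have := Fact.mk hp
    obtain ⟨M, hM⟩ := exists_isPModular hp
    obtain ⟨L, hL⟩ := exists_isPModular hq
    have nc : ¬ ∀ x y : G, x * y = y * x := fun h => by
      let _ : CommGroup G := { mul_comm := h }
      have e : (Nat.card G).Prime := IsSimpleGroup.prime_card
      exact hpr (((Nat.prime_dvd_prime_iff_eq hp e).1 (hg.trans (orderOf_dvd_natCard g))).trans
        ((Nat.prime_dvd_prime_iff_eq hr e).1 (hg'.trans (orderOf_dvd_natCard g))).symm)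
    have h := weak_block_orth hM (isPBlock_principalBlock (G := G)) (x := 1)
      (by simpa using hp.ne_one) hg
    rw [← Finset.add_sum_erase _ _ (a := oneIrr G) (by simpa using oneIrr_mem_principalBlock hM),
      add_eq_zero_iff_neg_eq] at h
    refine absurd (h ▸ v_sum_lt_one (M := L) fun χ hχ => ?_) (by simp [oneIrr])
    simp only [Finset.mem_erase, Finset.mem_filter, Finset.mem_univ, true_and] at hχ
    have d := charDegree_dvd_card χ
    have d0 := irr_charDegree_ne_zero χ
    by_cases h1 : r ∣ charDegree (χ : G → ℂ)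
    · rw [irr_eq_zero_of_defect_zero hr ((factorization_charDegree_le χ).antisymm
        (fr.trans_le ((hr.dvd_iff_one_le_factorization d0).1 h1))) hg']
      simp
    refine v_mul_lt_one_left ?_ (irr_inv χ.2 g ▸ v_irr_le_one χ _)
    rw [← irr_charDegree_eq, v_natCast_lt_one_iff hL]
    by_contra h2
    obtain ⟨j, -, hj⟩ := (Nat.dvd_prime_pow hp).1
      ((((Nat.Prime.coprime_iff_not_dvd hq).2 h2).symm.pow_right b).dvd_of_dvd_mul_right
        (((Nat.Prime.coprime_iff_not_dvd hr).2 h1).symm.dvd_of_dvd_mul_right (hcard ▸ d)))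
    exact hχ.1 (Subtype.ext (Cfsg.Agent.S0910.result p M hM (by simpa using nc) χ hχ.2 j
      (by rw [← irr_charDegree_eq, hj, Nat.cast_pow])))
  have cyc : IsCyclic S := isCyclic_of_prime_card cS
  obtain ⟨z, hz⟩ := exists_prime_orderOf_dvd_card' (G := S) r cS.symm.dvd
  have nd : ∀ p q a b : ℕ, p.Prime → q.Prime → p ≠ q → p ≠ r → Nat.card G = p ^ a * q ^ b * r →
      (Nat.card (Subgroup.centralizer (S : Set G))).Coprime p := fun p q a b hp hq hpq hpr hc => by
    have := Fact.mk hp
    refine ((Nat.Prime.coprime_iff_not_dvd hp).2 fun d => ?_).symm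
    obtain ⟨y, hy⟩ := exists_prime_orderOf_dvd_card' p d
    have e : orderOf ((z : G) * y) = r * p := by
      rw [(show Commute (z : G) y from y.2 z z.2).orderOf_mul_eq_mul_orderOf_of_coprime] <;>
        simp only [Subgroup.orderOf_coe, hy, hz]
      exact (Nat.coprime_primes hr hp).2 (Ne.symm hpr)
    exact key p q a b hp hq hpq hpr hc _ (e ▸ dvd_mul_left _ _) (e ▸ dvd_mul_right _ _)
  refine (Subgroup.eq_of_le_of_card_ge (Subgroup.le_centralizer _) (Nat.le_of_dvd Nat.card_pos
    (cS.symm ▸ (Nat.Coprime.mul_right ((nd p q a b hp hq hpq hpr hcard).pow_right a) ((nd q p b a hq hp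
      hpq.symm hqr (by rw [hcard, mul_comm (p ^ a)])).pow_right b)).dvd_of_dvd_mul_left
        (hcard ▸ Subgroup.card_subgroup_dvd_card _)))).symm

end Cfsg.Agent.S0904
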