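import Cfsg.Statements.S0920
import Cfsg.Agent.Block.Red

set_option autoImplicit false
open Cfsg

namespace Cfsg.Agent.S0920

open CF.Block

/-- Brauer's First Main Theorem. Let D be a p-subgroup of the finite group G with normalizer N, and fix a maximal ideal M of the algebraic integers containing p. Then (i) every block b of N having D as a defect group induces some block B of G having D as a defect group; (ii) every block of G with defect group D is induced by exactly one block of N with defect group D. -/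
theorem result {G : Type*} [Group G] [Finite G] (p : ℕ) [Fact p.Prime] (M : Ideal Cfsg.AlgInt) (hM : Cfsg.IsPModular p M) (D : Subgroup G) (hD : IsPGroup p D) : (∀ b : Set (Cfsg.IrrCharacter (Subgroup.normalizer (D : Set G))), Cfsg.IsPBlock M b → Cfsg.IsDefectGroup p M b (D.subgroupOf (Subgroup.normalizer (D : Set G))) → ∃ B : Set (Cfsg.IrrCharacter G), Cfsg.IsPBlock M B ∧ Cfsg.IsDefectGroup p M B D ∧ Cfsg.IsInducedBlock M (Subgroup.normalizer (D : Set G)) b B) ∧ (∀ B : Set (Cfsg.IrrCharacter G), Cfsg.IsPBlock M B → Cfsg.IsDefectGroup p M B D → ∃! b : Set (Cfsg.IrrCharacter (Subgroup.normalizer (D : Set G))), Cfsg.IsPBlock M b ∧ Cfsg.IsDefectGroup p M b (D.subgroupOf (Subgroup.normalizer (D : Set G))) ∧ Cfsg.IsInducedBlock M (Subgroup.normalizer (D : Set G)) b B) := by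
  have := CF.BlockB.charP_k hM
  have hle : D ≤ Subgroup.normalizer (D : Set G) := Subgroup.le_normalizer
  constructor
  · intro b hb hbD
    rw [isDefectGroup_iff_subgroupOf hM hb hle] at hbD
    have hb' := isBlk_ebs hM hb
    obtain ⟨E, hI, hE, -⟩ := exists_global_of_defGrp (L := ⊤) (D := D) (p := p)
      (b := ebs M _ b) (by simpa using hb') (by simpa using hbD)
    rw [inf_top_eq] at hI
    obtain ⟨B, hB, rfl⟩ := exists_isInducedBlock_of_induces hM hb hI
    exact ⟨B, hB.2.1, (isDefectGroup_iff hM hB.2.1 D).2 hE, hB⟩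
  · intro B hB hBD
    rw [isDefectGroup_iff hM hB] at hBD
    obtain ⟨h1, h2⟩ := hBD.first_main (isBlk_eb hM hB)
    rw [inf_top_eq] at h1 h2
    obtain ⟨b, hb, he⟩ := exists_isInducedBlock_of_induces' hM hB h1
    refine ⟨b, ⟨hb.1, (isDefectGroup_iff_subgroupOf hM hb.1 hle).2 (he ▸ h2), hb⟩, ?_⟩
    rintro b' ⟨hb', -, hI⟩
    refine ebs_inj hM hb' hb.1 ?_
    rw [he]
    exact hBD.eq_Br_of_induces (by rw [inf_top_eq]; exact IsInducedBlock.induces hM hI)

end Cfsg.Agent.S0920
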