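import Cfsg.Statements.S0960
import Cfsg.Agent.Small.Def3

set_option autoImplicit false
open Cfsg

namespace Cfsg.Agent.S0960

open CF.Small CF.PF CF.BlockB

/-- Let p be an odd prime and G a finite group whose Sylow p-subgroup P has order p; let e be the index of C_G(P) in N_G(P) (a divisor of p − 1) and fix a maximal ideal M of the algebraic integers containing p. Then the principal block of G consists of exactly e + (p - 1) / e irreducible characters, and the degree d of each of them satisfies d ≡ 1, d ≡ -1, d ≡ e or d ≡ -e modulo p. -/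
theorem result {G : Type*} [Group G] [Finite G] (p : ℕ) [Fact p.Prime] (M : Ideal Cfsg.AlgInt) (hM : Cfsg.IsPModular p M) (hodd : p ≠ 2) (P : Sylow p G) (hP : Nat.card P = p) (e : ℕ) (he : (Subgroup.centralizer ((P : Subgroup G) : Set G)).relIndex (Subgroup.normalizer ((P : Subgroup G) : Set G)) = e) : Nat.card (Cfsg.principalBlock M G) = e + (p - 1) / e ∧ ∀ χ ∈ Cfsg.principalBlock M G, ((Cfsg.charDegree (χ : G → ℂ) : ℤ) ≡ 1 [ZMOD p] ∨ (Cfsg.charDegree (χ : G → ℂ) : ℤ) ≡ -1 [ZMOD p] ∨ (Cfsg.charDegree (χ : G → ℂ) : ℤ) ≡ (e : ℤ) [ZMOD p] ∨ (Cfsg.charDegree (χ : G → ℂ) : ℤ) ≡ -(e : ℤ) [ZMOD p]) := by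
  obtain ⟨S, hS⟩ := exists_pset_sylow P hP
  obtain ⟨B⟩ := PSet.nonempty_blk (triv_mem_irr S.K)
  rw [← hS] at he
  have he' : S.fi = e := he
  rw [B.principalBlock_eq' hM, card_irrSet fun _ => B.all_irr, B.card_all, PSet.ei_triv, he']
  refine ⟨rfl, fun χ hχ => ?_⟩
  have h1 := exists_degree (coe_mem_irr_top χ)
  rcases B.mem_all.1 hχ with h | h
  · have := B.X_modEq (triv_mem_irr _) h h1 (m := 1) (by simp)
    rw [PSet.orb_triv] at this
    rcases B.ε_sign _ h with e | e <;> simp_all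
  · obtain ⟨j, hj, e⟩ := B.mem_Y.1 h
    have := B.ex_modEq (triv_mem_irr _) hj (e ▸ h1) (m := 1) (by simp)
    rw [e, he'] at this
    rcases B.δ_sign with e | e <;> simp_all

end Cfsg.Agent.S0960
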