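import Cfsg.Statements.S0981
import Cfsg.Agent.Small.BT2
import Cfsg.Agent.Classical.Transport

set_option autoImplicit false
open Cfsg

namespace Cfsg.Agent.S0981

/-- A simple group of order 4080 is isomorphic to the projective special linear group of dimension 2 over the field with 16 elements. -/
theorem result {G : Type*} [Group G] [Finite G] [IsSimpleGroup G] (h : Nat.card G = 4080) {F : Type*} [Field F] [Fintype F] (hF : Fintype.card F = 16) : Nonempty (G ≃* Matrix.ProjectiveSpecialLinearGroup (Fin 2) F) := by
  have : Fact (Nat.Prime 17) := ⟨by norm_num⟩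
  have hG : ¬ IsMulCommutative G := CF.Small.not_comm_of_not_prime (by rw [h]; norm_num)
  obtain ⟨-, ⟨⟨e⟩⟩ | ⟨m, h1, h2, ⟨e⟩⟩⟩ :=
    CF.Small.concl_of_simple (p := 17) hG (by rw [h]; norm_num) (by rw [h]; norm_num)
  · have := CF.Classical.card_PSL_two' (F := ZMod 17)
    rw [← Nat.card_congr e.toEquiv, h] at this
    norm_num at this
  · obtain ⟨f⟩ := CF.Classical.nonempty_ringEquiv_of_card_eq (K := GaloisField 2 m) (K' := F)
      (by rw [GaloisField.card 2 m h1, Nat.card_eq_fintype_card]; omega)
    exact ⟨e.trans (CF.Classical.pslCongr _ f)⟩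

end Cfsg.Agent.S0981
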