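import Cfsg.Statements.S0982
import Cfsg.Agent.Small.ZassSylow

set_option autoImplicit false
open Cfsg

namespace Cfsg.Agent.S0982

/-- A simple group of order 6072 is isomorphic to the projective special linear group of dimension 2 over the field with 23 elements. -/
theorem result {G : Type*} [Group G] [Finite G] [IsSimpleGroup G] (h : Nat.card G = 6072) {F : Type*} [Field F] [Fintype F] (hF : Fintype.card F = 23) : Nonempty (G ≃* Matrix.ProjectiveSpecialLinearGroup (Fin 2) F) := by
  have : Fact (Nat.Prime 23) := ⟨by norm_num⟩
  have hG : ¬ IsMulCommutative G := CF.Small.not_comm_of_not_prime (by rw [h]; norm_num)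
  have hn := CF.Small.card_sylow_mem hG h 23 0 264 (by norm_num) (by norm_num) [23 + 1]
    (by decide +kernel)
  exact CF.Small.psl_of_prime (p := 23) hG (d := 11) rfl (by rw [h]) (by simpa using hn) hF

end Cfsg.Agent.S0982
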