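import Cfsg.Statements.S0997
import Cfsg.Agent.Small.BT3

set_option autoImplicit false
open Cfsg

namespace Cfsg.Agent.S0997

open CF.Small

/-- Let G be a non-cyclic finite simple group of order p * q^b * g₀, where p and q are distinct primes and g₀ < p - 1. Then either p has the form 2^m + 1 or 2^m - 1 and G is isomorphic to the projective special linear group of dimension 2 over the field with p elements, or p = 2^m + 1 > 3 and G is isomorphic to that group over the field with 2^m elements. -/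
theorem result {G : Type*} [Group G] [Finite G] [IsSimpleGroup G] (hG : ¬ IsCyclic G) (p q b g₀ : ℕ) (hp : p.Prime) (hq : q.Prime) (hpq : p ≠ q) (hG' : Nat.card G = p * q ^ b * g₀) (hg : g₀ < p - 1) : (∃ (m : ℕ) (F : Type) (_ : Field F) (_ : Fintype F), Fintype.card F = p ∧ (p = 2 ^ m + 1 ∨ p = 2 ^ m - 1) ∧ Nonempty (G ≃* Matrix.ProjectiveSpecialLinearGroup (Fin 2) F)) ∨ (∃ (m : ℕ) (F : Type) (_ : Field F) (_ : Fintype F), Fintype.card F = 2 ^ m ∧ p = 2 ^ m + 1 ∧ 3 < p ∧ Nonempty (G ≃* Matrix.ProjectiveSpecialLinearGroup (Fin 2) F)) := by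
  have := Fact.mk hp
  have h0 : g₀ ≠ 0 := by rintro rfl; exact Nat.card_pos.ne' hG'
  obtain ⟨c, g, h1, rfl⟩ := Nat.exists_eq_pow_mul_and_not_dvd h0 q hq.ne_one
  have := Nat.le_mul_of_pos_left g (pow_pos hq.pos c)
  obtain ⟨⟨m, hm⟩, h⟩ := brauer_tuan (p := p) (β := b + c) (not_comm_of_not_isCyclic hG) hq hpq
    (by rw [hG']; ring) h1 (by omega)
  exact h.psl.imp_left fun ⟨F, i1, i2, h1, _, h2⟩ => ⟨m, F, i1, i2, h1, by omega, h2⟩

end Cfsg.Agent.S0997
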