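import Mathlib
import Cfsg.Statements.S1001
import Cfsg.Agent.S0904
import Cfsg.Agent.Char.Integral

set_option autoImplicit false
open Cfsg

namespace Cfsg.Agent.S1001


/-- In a finite simple group whose order has the form p * 3^a * 2^b with p prime, the centralizer of any element of order p is the cyclic group it generates. -/
theorem result {G : Type*} [Group G] [Finite G] [IsSimpleGroup G] (p a b : ℕ) (hp : p.Prime) (hG : Nat.card G = p * 3 ^ a * 2 ^ b) (x : G) (hx : orderOf x = p) : Subgroup.centralizer ({x} : Set G) = Subgroup.zpowers x := by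
  have key : ∀ i j : ℕ, Nat.card G = 3 ^ i * 2 ^ j → Subgroup.centralizer ({x} : Set G) = Subgroup.zpowers x := by
    intro i j h
    haveI := CF.Char.burnside_paqb Nat.prime_three Nat.prime_two h
    haveI : IsMulCommutative G := ⟨⟨IsSimpleGroup.comm_iff_isSolvable.2 inferInstance⟩⟩
    have x1 : Subgroup.zpowers x ≠ ⊥ := by
      rw [Ne, Subgroup.zpowers_eq_bot]; rintro rfl; exact hp.one_lt.ne (by simpa using hx)
    have := (Subgroup.normal_of_isMulCommutative (Subgroup.zpowers x)).eq_bot_or_eq_top.resolve_left x1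
    rw [this, eq_top_iff]
    exact fun g _ => Subgroup.mem_centralizer_singleton_iff.2 (mul_comm' g x)
  by_cases h3 : p = 3
  · exact key (a + 1) b (by rw [hG, h3]; ring)
  by_cases h2 : p = 2
  · exact key a (b + 1) (by rw [hG, h2]; ring)
  haveI := Fact.mk hp
  have c : Nat.card (Subgroup.zpowers x) = p := by rw [Nat.card_zpowers, hx]
  have hi : ¬ p ∣ (Subgroup.zpowers x).index := by
    have := (Subgroup.zpowers x).card_mul_index
    rw [c, hG, mul_assoc] at this
    rw [Nat.eq_of_mul_eq_mul_left hp.pos this]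
    intro d
    rcases (hp.dvd_mul).1 d with d | d
    · exact h3 ((Nat.prime_dvd_prime_iff_eq hp Nat.prime_three).1 (hp.dvd_of_dvd_pow d))
    · exact h2 ((Nat.prime_dvd_prime_iff_eq hp Nat.prime_two).1 (hp.dvd_of_dvd_pow d))
  have := Cfsg.Agent.S0904.result 3 2 p a b Nat.prime_three Nat.prime_two (by decide) (Ne.symm h3) (Ne.symm h2)
    (by rw [hG]; ring) ((IsPGroup.of_card (c.trans (pow_one p).symm)).toSylow hi)
  rw [← Subgroup.centralizer_closure, ← Subgroup.zpowers_eq_closure]
  exact this

end Cfsg.Agent.S1001
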