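import Cfsg.Statements.S1007
import Cfsg.Agent.Small.O168

set_option autoImplicit false
open Cfsg

namespace Cfsg.Agent.S1007

open CF.Small CF.Small.O168 CF.Transfer

/-- Let G be a simple group of order 168 and T a Sylow 2-subgroup. Then T contains exactly two subgroups that are Klein four-groups; they are not conjugate in G; and the normalizer of every Klein four-subgroup of G is isomorphic to the symmetric group of degree 4. -/
theorem result {G : Type*} [Group G] [Finite G] [IsSimpleGroup G] (h : Nat.card G = 168) (T : Sylow 2 G) : Nat.card {U : Subgroup G // U ≤ (T : Subgroup G) ∧ IsKleinFour ↥U} = 2 ∧ (∀ U W : Subgroup G, U ≤ (T : Subgroup G) → W ≤ (T : Subgroup G) → IsKleinFour ↥U → IsKleinFour ↥W → U ≠ W → ∀ g : G, U.map (MulAut.conj g).toMonoidHom ≠ W) ∧ ∀ U : Subgroup G, IsKleinFour ↥U → Nonempty (↥(Subgroup.normalizer (U : Set G)) ≃* Equiv.Perm (Fin 4)) := by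
  obtain ⟨U, W, h1, h2, h3, h4, h5, h6⟩ := exists_pair h T
  refine ⟨Nat.card_eq_two_iff.2 ⟨⟨U, h1, h3⟩, ⟨W, h2, h4⟩, fun e => h5 1
    ((cj_one U).trans (congrArg Subtype.val e)), Set.eq_univ_of_forall fun V => ?_⟩,
    fun A B hA hB kA kB e g => ?_, fun _ => norm_four h⟩
  · exact (h6 V.1 V.2.1 V.2.2).imp Subtype.ext Subtype.ext
  · rcases h6 A hA kA with rfl | rfl <;> rcases h6 B hB kB with rfl | rfl
    exacts [absurd rfl e, h5 g, fun e => h5 g⁻¹ (cj_eq_iff.1 e).symm, absurd rfl e]

end Cfsg.Agent.S1007
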