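import Cfsg.Statements.S1164
import Cfsg.Agent.Chev.CT2

set_option autoImplicit false
open Cfsg

namespace Cfsg.Agent.S1164

open CF.Chev Cfsg.Lie in
theorem two_iff {D : ChevalleyDatum} {C : ChevBasis (Fin D.rank) (Fin D.nroots)}
    (L : IsLink D C.toLieBasis) {i j r : ℕ} (h : D.InRankTwoSub i j r) :
    C.InSub {⟨i, h.2.1⟩, ⟨j, h.2.2.1⟩} ⟨r, h.1⟩ := fun k hk =>
  (C.cov_eq_zero_iff _ k).1 (L.cov_eq ⟨r, h.1⟩ k ▸ h.2.2.2 k k.2
    (fun e => hk (Or.inl (Fin.ext e))) fun e => hk (Or.inr (Fin.ext e)))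

open CF.Chev Cfsg.Lie in
theorem two_of {D : ChevalleyDatum} {C : ChevBasis (Fin D.rank) (Fin D.nroots)}
    (L : IsLink D C.toLieBasis) {i j : Fin D.rank} {r : Fin D.nroots} (h : C.InSub {i, j} r) :
    D.InRankTwoSub i j r := ⟨r.2, i.2, j.2, fun k hk h1 h2 =>
  (L.cov_eq r ⟨k, hk⟩).trans ((C.cov_eq_zero_iff r _).2 (h _ (by
    rintro (rfl | rfl); exacts [h1 rfl, h2 rfl])))⟩

/-- Curtis–Tits: for the Chevalley datum of type D₄, F₄, E₆, E₇ or E₈ and a field `K` with at least four elements, there is an isomorphism from the group presented by the Curtis–Tits relators (additivity, the commutator relators and the `h̄`-relators only for roots inside a common rank-two subsystem spanned by two fundamental roots, all other generators killed) onto the group of Steinberg's presentation, sending each generator `x̄_r(t)` with `r` in such a subsystem to `x̄_r(t)`. -/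
theorem result (D : Cfsg.Lie.ChevalleyDatum)
    (hD : D ∈ [Cfsg.Lie.chevD4, Cfsg.Lie.chevF4, Cfsg.Lie.chevE6, Cfsg.Lie.chevE7, Cfsg.Lie.chevE8])
    (K : Type*) [Field K] [Fintype K] (hK : 4 ≤ Fintype.card K) :
    ∃ e : D.CurtisTitsGroup K ≃* D.SteinbergGroup K,
      ∀ (i j r : ℕ) (t : K), D.InRankTwoSub i j r →
        e (PresentedGroup.mk (D.curtisTitsRels K) (D.stX r t)) = D.stGen K r t := by
  classical
  obtain ⟨C, h, hi⟩ := CF.Chev.exists_good_tor (K := K) (D := D)
    (List.mem_cons_of_mem _ (List.mem_cons_of_mem _ hD))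
  have L := h.link
  set ρ := L.stRep K h.noA1
  set mk := PresentedGroup.mk (D.curtisTitsRels K)
  obtain ⟨σ, hσ⟩ := CF.Chev.exists_rep_of_rels (L.faithful_stRep K h.noA1) _ hi
    (y := fun r t => mk (FreeGroup.of (r, t)))
    (fun i => by
      obtain ⟨j, hj⟩ := @exists_ne _ h.nontrivial i
      obtain ⟨_, rfl, k, hk, e⟩ := h.conn {i} ⟨i, rfl⟩ ⟨j, hj⟩
      exact ⟨k, hk, e⟩)
    (fun i j r hr t u => by
      have := PresentedGroup.one_of_mem (rels := D.curtisTitsRels K)
        (Or.inl (Or.inl (Or.inr ⟨i, j, r, t, u, two_of L hr, rfl⟩)))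
      simp only [map_mul, map_inv, CF.Chev.stX_eq, mul_inv_eq_one] at this
      exact this.symm)
    fun i j r s hr hs h1 h2 t u => by
      have := PresentedGroup.one_of_mem (rels := D.curtisTitsRels K)
        (Or.inl (Or.inr ⟨i, j, r, s, t, u, two_of L hr, two_of L hs, fun e => h1 (Fin.ext e),
          fun e => h2 (Fin.ext (e.trans (L.neg_eq r))), rfl⟩))
      simp only [map_mul, map_inv, CF.Chev.stX_eq, mul_inv_eq_one, L.commWord_eq K h1 h2,
        CF.Chev.map_stWord] at this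
      rw [← this]
      simp only [mk]
      group
  obtain ⟨χ, hχ⟩ := L.exists_hom_st h.noA1 (CF.Chev.StRep.r3_of_finite σ)
  let f : Fin D.nroots × K → D.SteinbergGroup K := fun p =>
    if ∃ i j, C.InSub {i, j} p.1 then ρ.x p.1 p.2 else 1
  have hf : ∀ {i j r}, C.InSub {i, j} r → ∀ t, FreeGroup.lift f (D.stX r t) = ρ.x r t :=
    fun {i j r} hr t => by
      rw [CF.Chev.stX_eq, FreeGroup.lift_apply_of]; exact if_pos ⟨i, j, hr⟩
  have hw : ∀ {i j} (w : List (Fin D.nroots × K)), (∀ p ∈ w, C.InSub {i, j} p.1) →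
      FreeGroup.lift f (D.stWord (w.map (Prod.map Fin.val id))) = ρ.word w := fun w hw => by
    rw [CF.Chev.map_stWord, CF.Chev.PreSt.word]
    congr 1
    exact List.map_congr_left fun p hp => by rw [← hf (hw p hp), CF.Chev.stX_eq]
  have hn : ∀ {i j r}, C.InSub {i, j} r → ∀ t : Kˣ,
      FreeGroup.lift f (D.stH r (t : K)) = ρ.h r t := fun {i j r} hr t => by
    have e : D.stH r (t : K) = D.stN r (t : K) * D.stN r ((-1 : Kˣ) : K) := by
      simp [Lie.ChevalleyDatum.stH, Lie.ChevalleyDatum.stN, Lie.ChevalleyDatum.hWord,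
        Lie.ChevalleyDatum.stWord]
    have e' : ∀ t : Kˣ, FreeGroup.lift f (D.stN r (t : K)) = ρ.n r t := fun t => by
      rw [Lie.ChevalleyDatum.stN, L.nWord_eq, hw (i := i) (j := j) _ (by simp [hr, C.inSub_neg])]
      simp [CF.Chev.PreSt.n, mul_assoc]
    rw [e, map_mul, e', e', CF.Chev.PreSt.h]
  have hrel : ∀ g ∈ D.curtisTitsRels K, FreeGroup.lift f g = 1 := by
    rintro g (((⟨r, t, hr, h0, rfl⟩ | ⟨i, j, r, t, u, hr, rfl⟩) |
      ⟨i, j, r, s, t, u, hr, hs, h1, h2, rfl⟩) | ⟨i, j, r, t, u, hr, ht, hu, rfl⟩)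
    · lift r to Fin D.nroots using hr
      rw [CF.Chev.stX_eq, FreeGroup.lift_apply_of]
      exact if_neg fun ⟨i, j, e⟩ => h0 i j (two_of L e)
    · have := hf (two_iff L hr)
      simp only [map_mul, map_inv, this, ρ.x_add, mul_inv_cancel]
    · have h3 := two_iff L hr
      have h4 := two_iff L hs
      lift r to Fin D.nroots using hr.1
      lift s to Fin D.nroots using hs.1
      have h1' : s ≠ r := fun h => h1 (congrArg Fin.val h)
      have h2' : s ≠ C.neg r := fun h => h2 (by rw [L.neg_eq, h])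
      simp only [map_mul, map_inv, L.commWord_eq K h1' h2']
      rw [hf (r := r) h3, hf (r := s) h4]
      rw [hw (i := ⟨i, hr.2.1⟩) (j := ⟨j, hr.2.2.1⟩) _ (fun p hp k hk => by
        obtain ⟨a, b, -, -, e⟩ := C.commWord_spec hp
        simp [e, show C.vec r k = 0 from h3 k hk, show C.vec s k = 0 from h4 k hk]), mul_assoc _ (ρ.x s u), ρ.comm' h1' h2']
      group
    · have := hn (two_iff L hr)
      lift t to Kˣ using ht.isUnit
      lift u to Kˣ using hu.isUnit
      simp only [map_mul, map_inv, ← Units.val_mul, this]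
      rw [L.r3_stRep K h.noA1 _, mul_inv_cancel]
  let ψ := PresentedGroup.toGroup hrel
  have hψ : ∀ g, ψ (mk g) = FreeGroup.lift f g := fun g => rfl
  have e1 : σ.map ψ = ρ := CF.Chev.StRep.ext_simple fun r ⟨i, _, hr⟩ t => by
    have : C.InSub {i, i} r := by rcases hr with rfl | rfl <;> simp [C.inSub_neg, C.inSub_simple]
    exact (congrArg ψ (hσ i i r this t)).trans ((hψ _).trans
      ((congrArg _ (CF.Chev.stX_eq r t).symm).trans (hf this t)))
  refine ⟨MonoidHom.toMulEquiv ψ χ (PresentedGroup.ext fun p => ?_)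
    (CF.Chev.StRep.hom_ext (L.stRep_Gp K h.noA1) fun r t => ?_), fun i j r t hr => ?_⟩
  · show χ (FreeGroup.lift f (FreeGroup.of p)) = mk (FreeGroup.of p)
    rw [FreeGroup.lift_apply_of]
    by_cases e : ∃ i j, C.InSub {i, j} p.1
    · obtain ⟨i, j, e'⟩ := id e
      exact (congrArg χ (if_pos e)).trans ((hχ _ _).trans (hσ i j _ e' _))
    · refine (congrArg χ (if_neg e)).trans ((map_one χ).trans (PresentedGroup.one_of_mem
        (Or.inl (Or.inl (Or.inl ⟨p.1, p.2, p.1.2, fun i j h => e ⟨_, _, two_iff L h⟩,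
          (CF.Chev.stX_eq _ _).symm⟩)))).symm)
  · exact (congrArg ψ (hχ r t)).trans (congrArg (fun τ => τ.x r t) e1)
  · exact (hψ _).trans ((hf (two_iff L hr) t).trans (L.stGen_eq h.noA1 ⟨r, hr.1⟩ t).symm)

end Cfsg.Agent.S1164
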