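import Cfsg.Statements.S1313
import Cfsg.Agent.Sig.FStar

set_option autoImplicit false
open Cfsg

namespace Cfsg.Agent.S1313

/-- For a finite group H, |H| ≤ |F*(H)|!. -/
theorem result {H : Type*} [Group H] [Finite H] : Nat.card H ≤ Nat.factorial (Nat.card ↥(Cfsg.generalizedFittingSubgroup H)) := by
  set F := Cfsg.generalizedFittingSubgroup H
  let φ : H →* MulAut F := MulAut.conjNormal
  have hker : φ.ker ≤ F := by
    refine le_trans ?_ CF.Sig.centralizer_fstar_le
    intro g hg y hy
    have := congrArg Subtype.val (DFunLike.congr_fun (MonoidHom.mem_ker.mp hg) ⟨y, hy⟩)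
    rw [MulAut.conjNormal_apply] at this
    exact (mul_inv_eq_iff_eq_mul.mp this).symm
  have h1 : Nat.card H ≤ Nat.card (MulAut F) * Nat.card F := by
    rw [← Subgroup.index_mul_card φ.ker, Subgroup.index_ker]
    exact Nat.mul_le_mul (Subgroup.card_le_card_group _) (Subgroup.card_le_of_le hker)
  refine h1.trans ?_
  rw [← Nat.card_prod, ← Nat.card_perm]
  refine Nat.card_le_card_of_injective
    (fun x : MulAut F × F => x.1.toEquiv.trans (Equiv.mulLeft x.2)) ?_
  rintro ⟨α, x⟩ ⟨β, y⟩ h
  have hxy : x = y := by simpa using DFunLike.congr_fun h 1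
  subst hxy
  refine Prod.ext (MulEquiv.ext fun z => ?_) rfl
  simpa using DFunLike.congr_fun h z

end Cfsg.Agent.S1313
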