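import Cfsg.Statements.S1662
import Cfsg.Agent.StdZ.BbL

set_option autoImplicit false
open Cfsg

namespace Cfsg.Agent.S1662

/-- Uniqueness of the Baby Monster at the level of isomorphism: a finite simple group having an involution t whose centraliser has a normal subgroup M of index 2, containing its own centraliser in the involution centraliser, which is a non-split double cover of the twisted group ²E₆(2) (realised over a field with four elements) is isomorphic to the presented Baby Monster. -/
theorem result {G : Type*} [Group G] [Finite G] [IsSimpleGroup G] (t : G) (ht : orderOf t = 2) (M : Subgroup (Subgroup.centralizer ({t} : Set G))) [M.Normal] (hM : M.index = 2) (K : Type) [Field K] [Fintype K] (hK : Fintype.card K = 4) (hout : Subgroup.centralizer (M : Set (Subgroup.centralizer ({t} : Set G))) ≤ M) (hcov : Cfsg.IsNonsplitDoubleCover M (Cfsg.Lie.twistedE6 K 2)) : Cfsg.Spor.IsoB G := by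
  exact CF.StdZ.Bb.main ht M hM hK hout hcov

end Cfsg.Agent.S1662
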