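import Cfsg.Statements.S1745
import Cfsg.Agent.StdZ.Alt
import Cfsg.Agent.S3334

set_option autoImplicit false
open Cfsg

namespace Cfsg.Agent.S1745

/-- Let G be a non-abelian finite simple group with the strong B-property (every section of G has the B-property) possessing a standard subgroup L which is a non-split double cover of the alternating group of degree 8. Then G is a group of Lie type in characteristic 3, or an alternating group of degree at least 9, or G is isomorphic to the McLaughlin group. -/
theorem result {G : Type*} [Group G] [Finite G] [IsSimpleGroup G] (hG : ¬ IsMulCommutative G)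
    (hB : Cfsg.HasStrongBProperty G) (L : Subgroup G) (hL : Cfsg.IsStandardSubgroup L)
    (hLX : Cfsg.IsNonsplitDoubleCover ↥L ↥(alternatingGroup (Fin 8))) :
    Cfsg.IsLieTypeChar 3 G ∨ (∃ n : ℕ, 9 ≤ n ∧ Nonempty (G ≃* ↥(alternatingGroup (Fin n)))) ∨ Cfsg.Spor.IsoMcL G := by
  obtain ⟨z, o, h⟩ := CF.StdZ.Alt.cent (m := 0) hG (.inl rfl) hL hLX
  refine .inr (.inr ((Cfsg.Agent.S3334.result z o h).resolve_left fun e => ?_))
  have b : Cfsg.oddCore G = ⊥ := CF.Char.oddCore_eq_bot_of_simple (even_iff_two_dvd.2 (o ▸ orderOf_dvd_natCard _))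
  rw [b, sup_bot_eq] at e
  have c := CF.StdZ.center_simple (S := G) fun c => hG ⟨⟨c⟩⟩
  exact CF.StdZ.ne_of o (Subgroup.mem_bot.1 (c ▸ Subgroup.mem_center_iff.2 fun g =>
    Subgroup.mem_centralizer_singleton_iff.1 (e ▸ Subgroup.mem_top g)))

end Cfsg.Agent.S1745
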