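import Cfsg.Statements.S1746
import Cfsg.Agent.StdZ.Alt
import Cfsg.Agent.S1660

set_option autoImplicit false
open Cfsg

namespace Cfsg.Agent.S1746

/-- Let G be a non-abelian finite simple group with the strong B-property (every section of G has the B-property) possessing a standard subgroup L which is a non-split double cover of the alternating group of degree 11. Then G is a group of Lie type in characteristic 3, or an alternating group of degree at least 9, or G is isomorphic to the Lyons group. -/
theorem result {G : Type*} [Group G] [Finite G] [IsSimpleGroup G] (hG : ¬ IsMulCommutative G)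
    (hB : Cfsg.HasStrongBProperty G) (L : Subgroup G) (hL : Cfsg.IsStandardSubgroup L)
    (hLX : Cfsg.IsNonsplitDoubleCover ↥L ↥(alternatingGroup (Fin 11))) :
    Cfsg.IsLieTypeChar 3 G ∨ (∃ n : ℕ, 9 ≤ n ∧ Nonempty (G ≃* ↥(alternatingGroup (Fin n)))) ∨ Cfsg.Spor.IsoLy G := by
  obtain ⟨z, o, h⟩ := CF.StdZ.Alt.cent (m := 3) hG (.inr rfl) hL hLX
  exact .inr (.inr (Cfsg.Agent.S1660.result z o h))

end Cfsg.Agent.S1746
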