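import Cfsg.Statements.S1761
import Cfsg.Agent.XG.M

set_option autoImplicit false
open Cfsg

namespace Cfsg.Agent.S1761

open CF.Loc CF.Even CF.LX in
/-- Let G be a finite simple group and let z be an involution of G such that Q, the generalized Fitting subgroup of the centralizer C of z, is a 2-group of symplectic type (every characteristic abelian subgroup of Q is cyclic); suppose moreover that Q is extraspecial of order 2^(2n+1) with n ≥ 3. Then G is isomorphic to the projective special linear group of dimension n + 2 over the field with 2 elements, or n = 3 and G is isomorphic to the Mathieu group of degree 24 or to the Held group, or C acts irreducibly on Q/⟨z⟩: every normal subgroup of C lying between the subgroup generated by z and Q is one of these two. -/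
theorem result {G : Type*} [Group G] [Finite G] [IsSimpleGroup G] (z : G) (hz : orderOf z = 2) (hQ : Cfsg.IsOfSymplecticType ↥(Cfsg.generalizedFittingSubgroup ↥(Subgroup.centralizer ({z} : Set G)))) (hE : Cfsg.IsExtraspecial 2 ↥(Cfsg.generalizedFittingSubgroup ↥(Subgroup.centralizer ({z} : Set G))))
    (n : ℕ) (hn : 3 ≤ n) (hcard : Nat.card ↥(Cfsg.generalizedFittingSubgroup ↥(Subgroup.centralizer ({z} : Set G))) = 2 ^ (2 * n + 1)) :
    (∃ (F : Type) (_ : Field F) (_ : Fintype F), Fintype.card F = 2 ∧ Nonempty (G ≃* Matrix.ProjectiveSpecialLinearGroup (Fin (n + 2)) F)) ∨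
      (n = 3 ∧ (Cfsg.Spor.IsoM24 G ∨ Cfsg.Spor.IsoHe G)) ∨
      (∀ A : Subgroup ↥(Subgroup.centralizer ({z} : Set G)), A.Normal → Subgroup.zpowers (⟨z, Subgroup.mem_centralizer_singleton_iff.mpr rfl⟩ : ↥(Subgroup.centralizer ({z} : Set G))) ≤ A →
        A ≤ Cfsg.generalizedFittingSubgroup ↥(Subgroup.centralizer ({z} : Set G)) → A = Subgroup.zpowers (⟨z, Subgroup.mem_centralizer_singleton_iff.mpr rfl⟩ : ↥(Subgroup.centralizer ({z} : Set G))) ∨ A = Cfsg.generalizedFittingSubgroup ↥(Subgroup.centralizer ({z} : Set G))) := by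
  have e := Subgroup.equivMapOfInjective (generalizedFittingSubgroup 𝐂₁(z)) (𝐂₁(z)).subtype Subtype.val_injective
  obtain ⟨l, O⟩ := lq_of_fstar hz rfl (isExtraspecial_of_equiv hE e)
  rw [← or_assoc, or_iff_not_imp_right]
  intro k
  push Not at k
  obtain ⟨A, nA, h1, h2, n1, n2⟩ := k
  have inj := Subgroup.map_injective (f := (𝐂₁(z)).subtype) Subtype.val_injective
  refine (CF.XG.red l ((Nat.card_congr e.toEquiv).symm.trans hcard) hn O.ge (A := A.map (𝐂₁(z)).subtype)
    ⟨_, h1 (Subgroup.mem_zpowers _), rfl⟩ (Subgroup.map_mono h2) ?_ (fun k => n1 (inj (k.trans (by simp))))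
    fun k => n2 (inj k)).imp_left fun ⟨f⟩ => ⟨ZMod 2, inferInstance, inferInstance, rfl,
      (CF.XG.psl_equiv _).elim fun g => ⟨f.trans g⟩⟩
  have := Subgroup.le_normalizer_map (H := A) (𝐂₁(z)).subtype
  rwa [Subgroup.normalizer_eq_top, ← MonoidHom.range_eq_map, Subgroup.range_subtype] at this

end Cfsg.Agent.S1761
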