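import Cfsg.Statements.S1762
import Cfsg.Agent.XG.V

set_option autoImplicit false
open Cfsg

namespace Cfsg.Agent.S1762

open CF.Loc CF.Even CF.LX in
/-- Let G be a non-abelian finite simple group and let z be an involution of G such that Q, the generalized Fitting subgroup of the centralizer C of z, is a 2-group of symplectic type (every characteristic abelian subgroup of Q is cyclic); suppose moreover that Q is extraspecial of order 2^7. Then G is isomorphic to the projective special linear group of dimension 5 over the field with 2 elements, the projective special unitary group of dimension 5 over the field with 4 elements, the Mathieu group of degree 24, the Held group, or the sporadic Suzuki group. -/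
theorem result {G : Type*} [Group G] [Finite G] [IsSimpleGroup G]
    (hG : ¬ IsMulCommutative G) (z : G) (hz : orderOf z = 2) (hQ : Cfsg.IsOfSymplecticType ↥(Cfsg.generalizedFittingSubgroup ↥(Subgroup.centralizer ({z} : Set G)))) (hE : Cfsg.IsExtraspecial 2 ↥(Cfsg.generalizedFittingSubgroup ↥(Subgroup.centralizer ({z} : Set G)))) (hcard : Nat.card ↥(Cfsg.generalizedFittingSubgroup ↥(Subgroup.centralizer ({z} : Set G))) = 2 ^ 7) :
    (∃ (F : Type) (_ : Field F) (_ : Fintype F), Fintype.card F = 2 ∧ Nonempty (G ≃* Matrix.ProjectiveSpecialLinearGroup (Fin 5) F)) ∨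
      (∃ (F : Type) (_ : Field F) (_ : Fintype F), Fintype.card F = 4 ∧ Nonempty (G ≃* Cfsg.PSU 5 F 2)) ∨
      Cfsg.Spor.IsoM24 G ∨ Cfsg.Spor.IsoHe G ∨ Cfsg.Spor.IsoSuz G := by
  have e := Subgroup.equivMapOfInjective (generalizedFittingSubgroup 𝐂₁(z)) (𝐂₁(z)).subtype Subtype.val_injective
  obtain ⟨l, O⟩ := lq_of_fstar hz rfl (isExtraspecial_of_equiv hE e)
  exact (CF.XG.three l ((Nat.card_congr e.toEquiv).symm.trans hcard) O.ge).imp
    (fun ⟨f⟩ => ⟨ZMod 2, inferInstance, inferInstance, rfl, (CF.XG.psl_equiv _).elim fun g => ⟨f.trans g⟩⟩)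
    (.imp_left fun f => ⟨CF.Geom.Fi.K4, inferInstance, inferInstance, rfl, f⟩)

end Cfsg.Agent.S1762
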