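import Cfsg.Statements.S1892
import Cfsg.Agent.Sig.Bal
import Cfsg.Agent.Solv.PiSep

set_option autoImplicit false
open Cfsg

namespace Cfsg.Agent.S1892

open CF.BG CF.Sig Subgroup in

/-- Let S be a finite p-solvable group with no nontrivial normal subgroup of order prime to p, A a p-subgroup of S, and Q a nontrivial A-invariant subgroup of order prime to p with [A, Q] = Q. Then the commutator [O_p(S), A, Q] is nontrivial. -/
theorem result {S : Type*} [Group S] [Finite S] {p : ℕ} [Fact p.Prime]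
    (hS : Cfsg.IsPSolvable p S) (hred : Cfsg.pPrimeCore p S = ⊥)
    (A Q : Subgroup S) (hA : IsPGroup p A) (hQ : ¬ p ∣ Nat.card Q) (hQ1 : Q ≠ ⊥)
    (hinv : ∀ a ∈ A, ∀ x ∈ Q, a * x * a⁻¹ ∈ Q) (hAQ : ⁅A, Q⁆ = Q) :
    ⁅⁅Cfsg.pCore p S, A⁆, Q⁆ ≠ ⊥ := by
  have hp : p.Prime := Fact.out
  intro h
  have c := CF.Solv.centralizer_pCore_le_of_isPSolvable hS hred
  have k : PiGrp {p} (Cfsg.pCore p S) := by rw [pCore_eq hp]; exact O_pi _ _
  have n : ∀ X : Subgroup S, X ≤ 𝐍 (Cfsg.pCore p S) := fun X => by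
    rw [pCore_eq hp]; exact le_top.trans (O_normal _ _).norm
  have q : PiGrp {p}ᶜ Q := (piNat_compl_single hp).2 hQ
  generalize Cfsg.pCore p S = P at *
  have c1 : Q ≤ 𝐂 ⁅P, A⁆ := cent_symm (comm_eq_bot.1 h)
  have n1 : Q ≤ 𝐍 (centMod P ⁅P, A⁆) := norm_centMod (n Q) (norm_of_cent c1)
  have a1 : A ≤ centMod P ⁅P, A⁆ := le_centMod.2 ⟨norm_comm_right _ _, (commutator_comm _ _).le⟩
  have q1 : Q ≤ centMod P ⁅P, A⁆ := hAQ.ge.trans ((commutator_mono a1 le_rfl).trans (comm_le_left n1))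
  have : Q ≤ 𝐂 P := cent_of_stable (N := ⁅P, A⁆) (q.coprime' (k.le (comm_le_left (n A))))
    (by rw [commutator_comm]; exact (le_centMod.1 q1).2) c1
  exact hQ1 ((k.le (this.trans c)).eq_bot q)

end Cfsg.Agent.S1892
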