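import Cfsg.Statements.S1893
import Cfsg.Agent.Sig.Bal
import Cfsg.Agent.PLocal.Dickson
import Cfsg.Agent.Solv.PiSep

set_option autoImplicit false
open Cfsg

namespace Cfsg.Agent.S1893

open CF.BG CF.Sig Subgroup
open scoped commutatorElement

section
variable {G : Type*} [Group G] [Finite G] {p : ℕ} {π : Set ℕ} {A R : Subgroup G} {x : G}

theorem mem_F (hp : p.Prime) (h5 : 5 ≤ p) (s : Sol (⊤ : Subgroup G))
    (q : ⁅⁅𝐎 {p} (⊤ : Subgroup G), zpowers x⁆, zpowers x⁆ = ⊥) (c : x ∈ 𝐂 (𝐎 {p}ᶜ (𝐅 (⊤ : Subgroup G)))) :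
    x ∈ 𝐅 (⊤ : Subgroup G) := by
  haveI := Fact.mk hp
  haveI : Group.IsSolvable (⊤ : Subgroup G) := s
  haveI : Group.IsSolvable G :=
    solvable_of_surjective (f := (⊤ : Subgroup G).subtype) fun x => ⟨⟨x, trivial⟩, rfl⟩
  haveI : (𝐎 {p} (⊤ : Subgroup G)).Normal := normalIn_top.1 (O_normal _ _)
  have := (CF.PLocal.NoSL2Pair.of_isPSolvable h5 (CF.Solv.isPSolvable_of_isSolvable p)).isPStableOn
    (𝐎 {p} (⊤ : Subgroup G)) (O_pi _ _).isPGroup x q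
  rw [pCore_eq hp] at this
  set f := QuotientGroup.mk' (𝐂 (𝐎 {p} (⊤ : Subgroup G)))
  have nD : (𝐎 {p} ⊤).comap f ⊓ 𝐂 (𝐎 {p}ᶜ (𝐅 ⊤)) ⊴ ⊤ := ⟨le_top, norm_inf_cent
    (normalIn_top.2 ((normalIn_top.1 (O_normal _ _)).comap f)).norm ((F_normal ⊤).O _).norm⟩
  have xD : x ∈ (𝐎 {p} ⊤).comap f ⊓ 𝐂 (𝐎 {p}ᶜ (𝐅 ⊤)) := ⟨this, c⟩
  have e : ∀ y ∈ (𝐎 {p} ⊤).comap f ⊓ 𝐂 (𝐎 {p}ᶜ (𝐅 ⊤)), PiElt {p}ᶜ y → y ∈ 𝐎 {p}ᶜ (𝐅 ⊤) :=
    fun y hy py => by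
      have h1 : y ∈ f.ker := ((O_pi _ _).elt hy.1).eq_one (py.map f)
      rw [QuotientGroup.ker_mk'] at h1
      refine (F_nil ⊤).mem_O (s.cent_F_le ⟨trivial, ?_⟩) py
      rw [← (F_dprod {p} ⊤).sup, cent_sup, O_F]
      exact ⟨h1, hy.2⟩
  have l : (𝐎 {p} ⊤).comap f ⊓ 𝐂 (𝐎 {p}ᶜ (𝐅 ⊤)) ≤ 𝐂 (𝐎 {p}ᶜ (𝐅 ⊤)) := inf_le_right
  generalize (𝐎 {p} ⊤).comap f ⊓ 𝐂 (𝐎 {p}ᶜ (𝐅 ⊤)) = D at *
  refine le_F nD (nil_of_forall_syl fun r hr _ => ?_) xD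
  obtain ⟨P, hP⟩ := exists_syl r D
  refine ⟨P, hP, ?_⟩
  by_cases h : r = p
  · subst h
    intro y hy
    obtain ⟨a, b, ha, hb, pa, pb, rfl⟩ := exists_piPart {r} y
    have n : D ≤ 𝐍 (D ⊓ 𝐎 {r}ᶜ (𝐅 ⊤)) := norm_of_cent (l.trans (cent_anti inf_le_right))
    have h1 : D ≤ (D ⊓ 𝐎 {r}ᶜ (𝐅 ⊤)) ⊔ P := relIndex_eq_one.1 (PiNat.eq_one (π := {r}) (fun q hq d => by
      by_contra ne
      obtain ⟨Q, hQ⟩ := exists_syl q D
      exact (hQ.idx_of_le (K := (D ⊓ 𝐎 {r}ᶜ (𝐅 ⊤)) ⊔ P) fun z hz => mem_sup_left ⟨hQ.le hz, e z (hQ.le hz)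
        ((hQ.pi.of_single_ne ne).elt hz)⟩) q hq d rfl) (hP.idx_of_le le_sup_right))
    exact (h1.trans (sup_le (norm_of_cent (cent_symm ((hP.le.trans l).trans (cent_anti inf_le_right))))
      (le_norm_self P))) hy
  · exact norm_of_cent (l.trans (cent_anti fun z hz => e z (hP.le hz) ((hP.pi.of_single_ne h).elt hz)))

theorem core (s : Sol (⊤ : Subgroup G)) (h2 : 2 ∉ π) (h3 : 3 ∉ π) (h0 : 𝐎 πᶜ (⊤ : Subgroup G) = ⊥)
    (r : Nil R) (hF : 𝐅 ⊤ ≤ R) (a : SCN A R) : 𝐂 A ≤ A := by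
  have nO : ∀ (p : ℕ) (X : Subgroup G), X ≤ 𝐍 (𝐎 {p} ⊤) := fun p X => le_top.trans (O_normal _ _).norm
  have big : ∀ p : ℕ, p.Prime → 𝐎 {p} (⊤ : Subgroup G) = ⊥ ∨ 5 ≤ p := fun p hp => by
    by_cases h : p ∈ π
    · refine .inr (hp.five_le_of_ne_two_of_ne_three ?_ ?_) <;> rintro rfl <;> contradiction
    · exact .inl (eq_bot_mono h0 (le_O (O_normal _ _) ((O_pi _ _).of_single' h)))
  have key : ∀ p : ℕ, p.Prime → ∀ x : G, ⁅⁅𝐎 {p} (⊤ : Subgroup G), zpowers x⁆, zpowers x⁆ = ⊥ →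
      x ∈ 𝐂 (𝐎 {p}ᶜ (𝐅 (⊤ : Subgroup G))) → x ∈ 𝐅 (⊤ : Subgroup G) := fun p hp x q c => by
    rcases big p hp with h | h
    · refine s.cent_F_le ⟨trivial, ?_⟩
      rw [← (F_dprod {p} ⊤).sup, cent_sup, O_F, h]
      exact ⟨by simp, c⟩
    · exact mem_F hp h s q c
  have AF : A ≤ 𝐅 ⊤ := (r.mono a.le).le_of_forall fun p hp _ x hx => by
    have xA := zpowers_le.2 (O_le _ _ hx)
    refine key p hp x (comm_eq_bot.2 (a.abel.cent ((commutator_mono ((O_le_F _ _).trans hF) xA).trans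
      (comm_le_right a.normal.norm)) xA)) ?_
    exact r.cent_of_pi ((O_le _ _).trans a.le) ((O_le _ _).trans hF) (O_pi _ _) (O_pi _ _) hx
  have a' := a.of_le AF hF
  refine le_of_forall_syl fun p hp _ => ?_
  obtain ⟨P, hP⟩ := exists_syl p (𝐂 A)
  refine ⟨P, hP, fun x hx => a'.cent.le ⟨?_, hP.le hx⟩⟩
  have c := zpowers_le.2 (hP.le hx)
  have cm : ⁅𝐅 ⊤, zpowers x⁆ ≤ A := le_trans (le_inf (comm_le_left (le_top.trans (F_normal ⊤).norm))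
    (comm_eq_bot.1 (le_bot_iff.1 (three_subgroup (N := ⊥) (le_top.trans norm_bot.ge)
      (le_top.trans norm_bot.ge) (le_top.trans norm_bot.ge)
      (by rw [comm_eq_bot.2 c, commutator_bot_left])
      ((commutator_mono (comm_le_left a'.normal.norm) le_rfl).trans
        (comm_eq_bot.2 (cent_symm c)).le))))) a'.cent.le
  refine key p hp x (comm_eq_bot.2 (((commutator_mono (O_le_F _ _) le_rfl).trans cm).trans
    (cent_symm c))) ?_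
  exact cent_of_comm_le_cent (le_top.trans ((F_normal ⊤).O _).norm)
    ((hP.pi.elt hx).zpowers.coprime (O_pi _ _))
    (((commutator_mono (O_le _ _) le_rfl).trans cm).trans (cent_symm c)) (mem_zpowers x)

end


/-- Let S be a finite solvable group, π a set of primes containing neither 2 nor 3, H a Hall π-subgroup of S, and A a self-centralizing normal subgroup of the Fitting subgroup F(H). Then C_S(A) = A × D for a normal subgroup D of C_S(A) whose order has no prime divisor in π. -/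
theorem result {S : Type*} [Group S] [Finite S] [Group.IsSolvable S]
    (π : Set ℕ) (h2 : 2 ∉ π) (h3 : 3 ∉ π) (H : Subgroup S) (hH : Cfsg.IsPiHall π H)
    (A : Subgroup S) (hA : Cfsg.IsSCN ((Cfsg.fittingSubgroup H).map H.subtype) A) :
    ∃ D : Subgroup S, D ≤ Subgroup.centralizer (A : Set S) ∧
      (∀ c ∈ Subgroup.centralizer (A : Set S), ∀ d ∈ D, c * d * c⁻¹ ∈ D) ∧
      A ⊓ D = ⊥ ∧ A ⊔ D = Subgroup.centralizer (A : Set S) ∧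
      ∀ q : ℕ, q.Prime → q ∣ Nat.card D → q ∉ π := by
  have h := hall_top_iff.2 hH
  have a : SCN A (𝐅 H) := hA
  have n := O_normal πᶜ (⊤ : Subgroup S)
  have k := O_pi πᶜ (⊤ : Subgroup S)
  have h0 := O_qt_O πᶜ (⊤ : Subgroup S)
  generalize 𝐎 πᶜ (⊤ : Subgroup S) = N at *
  have nN : ∀ X : Subgroup S, X ≤ 𝐍 N := fun X => le_top.trans n.norm
  have t : qt N ⊤ = ⊤ := top_le_iff.1 ((qt_norm_eq_top N).ge.trans (qt_mono _ le_top))
  have i : ∀ {X}, X ≤ H → N ⊓ X = ⊥ := fun l => k.inf_eq_bot' (h.pi.le l)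
  have s : Sol (⊤ : Subgroup S) := inferInstance
  have AH := a.le.trans (F_le H)
  have h' := h.qt (nN _)
  rw [t] at h0 h'
  have FH : 𝐅 ⊤ ≤ qt N H := h'.le_of_normal (F_normal _) (((F_dprod π ⊤).sup.symm.trans (by
    rw [eq_bot_mono h0 (O_F_le _ _), sup_bot_eq])) ▸ O_pi _ _)
  have e := qt_inf_qp H (𝐅 (⊤ : Subgroup (Quo N)))
  rw [inf_eq_right.2 FH] at e
  have := core (A := qt N A) (R := qt N (𝐅 H)) (t ▸ s.qt N) h2 h3 h0 ((F_nil H).qt N)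
    (e.ge.trans (qt_mono _ (le_F (normalIn_inf_left (norm_qp (nN _) (le_top.trans (F_normal _).norm)))
      (Nil.of_qt (by rw [e]; exact F_nil _) (nN _) (i inf_le_left))))) (SCN.mk' (a.normal.qt N) (a.abel.qt N) (by
      rintro z ⟨hz, c⟩
      obtain ⟨x, hx, xn, rfl⟩ := mem_qt.1 hz
      refine qe_mem_qt (a.cent.le ⟨hx, ?_⟩) xn
      replace c := zpowers_le.2 (show qe N x ∈ 𝐂 (qt N A) from c)
      rw [← qt_zpowers xn, qt_cent_iff (nN _) (nN _)] at c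
      exact comm_eq_bot.1 (eq_bot_mono (i AH) (le_inf c (comm_le_right
        (zpowers_le.2 (a.normal.norm hx))))) (mem_zpowers x)))
  have c : 𝐂 A ≤ N ⊔ A := (qt_le_qt_iff (nN _) (nN _)).1 ((qt_cent N le_rfl).trans this)
  refine ⟨𝐂 A ⊓ N, inf_le_left, le_norm_iff.1 (norm_inf (le_norm_self _) (nN _)),
    eq_bot_mono (i AH) (le_inf (inf_le_right.trans inf_le_right) inf_le_left), ?_,
    fun q hq d => k q hq (d.trans (card_dvd inf_le_right))⟩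
  rw [← inf_sup_left a.abel (.inl (nN _)), sup_comm, inf_eq_left.2 c]

end Cfsg.Agent.S1893
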