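import Cfsg.Statements.S1894
import Cfsg.Agent.Sig.Amb

set_option autoImplicit false
open Cfsg

namespace Cfsg.Agent.S1894

open CF.BG CF.Sig Subgroup in

/-- Let P be a finite p-group, A a normal subgroup of P and B an abelian subgroup of A that is normal in P. Then some subgroup C of A containing B is normal in P and is self-centralizing and normal in A (C ∈ SCN(A)). -/
theorem result {P : Type*} [Group P] [Finite P] {p : ℕ} [Fact p.Prime] (hP : IsPGroup p P)
    (A : Subgroup P) [A.Normal] (B : Subgroup P) [B.Normal] (hBA : B ≤ A) (hB : IsMulCommutative B) :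
    ∃ C : Subgroup P, C.Normal ∧ B ≤ C ∧ Cfsg.IsSCN A C := by
  have k : PiGrp {p} (⊤ : Subgroup P) := piGrp_of_isPGroup Fact.out (hP.to_subgroup ⊤)
  obtain ⟨C, h1, ⟨h2, h3, h4⟩, h5⟩ := exists_maximal (P := fun X : Subgroup P => X ⊴ ⊤ ∧ X ≤ A ∧ Abel X)
    (H := B) ⟨normalIn_top.2 inferInstance, hBA, Abel.of_comm hB⟩
  refine ⟨C, normalIn_top.1 h2, h1, h3, le_top.trans h2.norm, le_antisymm ?_ (le_inf h3 h4)⟩
  by_contra hn
  have nA : A ⊴ ⊤ := normalIn_top.2 inferInstance
  have nD : A ⊓ 𝐂 C ⊴ ⊤ := ⟨le_top, norm_inf_cent nA.norm h2.norm⟩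
  obtain ⟨U, hU, c⟩ := exists_chief_above h2 nD (lt_of_le_of_ne (le_inf h3 h4) fun e => hn e.ge)
  have hp := Nil.chief_card c k.nil
  have : Abel U := abel_of_cyc_qt (K := C) (le_inf c.lt.le (cent_symm (hU.trans inf_le_right)))
    (cyc_of_prime (by rwa [card_qt (le_top.trans h2.norm)]))
  exact c.lt.ne' (h5 U ⟨c.normal, hU.trans inf_le_left, this⟩ c.lt.le)

end Cfsg.Agent.S1894
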