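import Cfsg.Statements.S1895
import Cfsg.Agent.Sig.Conn
import Cfsg.Agent.BG2.P4c

set_option autoImplicit false
open Cfsg

namespace Cfsg.Agent.S1895

open CF.BG CF.BG2 CF.Sig Subgroup
open scoped commutatorElement

universe u

/-- the chief factors of `L` inside `H` have `p`-part at most `p ^ 2` -/
def Bd {G : Type u} [Group G] (p : ℕ) (L H : Subgroup G) : Prop :=
  ∀ V U, Chief L V U → U ≤ H → logn p (V.relIndex U) ≤ 2

section
variable {G : Type u} [Group G] [Finite G] {p : ℕ} {L H N C P : Subgroup G}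

theorem Bd.of_logn (h : logn p (♯H) ≤ 2) : Bd p L H := fun V U c u => by
  have := logn_card_eq_add (p := p) c.lt.le
  have := logn_card_le (p := p) u
  omega

theorem Bd.ext (hN : N ⊴ L) (h1 : Bd p L N) (h2 : Bd p (qt N L) (qt N H)) : Bd p L H := by
  intro V U c u
  have nU := c.normal.norm
  have UN := c.normal.le.trans hN.norm
  have VN := c.lt.le.trans UN
  have hV : ∀ {X}, X ≤ U → X ≤ 𝐍 V := fun h => h.trans c.normalVU.norm
  rcases c.eq_or (W := V ⊔ (U ⊓ N)) le_sup_left (sup_le c.lt.le inf_le_left)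
    (norm_sup c.normV (norm_inf nU hN.norm)) with e | e
  · have e1 : U ⊓ N ≤ V := le_sup_right.trans e.le
    have e2 : (N ⊔ V) ⊓ U = V := by
      rw [sup_comm, sup_inf_left c.lt.le (.inl VN), inf_comm N, e]
    have := h2 (qt N V) (qt N U) ⟨lt_of_le_of_ne (qt_mono _ c.lt.le) fun h => c.lt.not_ge
      ((le_inf ((qt_le_qt_iff UN VN).1 h.ge) le_rfl).trans e2.le), qt_norm _ c.normV,
      c.normal.qt N, fun X a b n => ?_⟩ (qt_mono _ u)
    · rwa [relIndex_qt' VN UN, ← inf_relIndex_right, e2] at this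
    have e3 := qt_inf_qp U X
    rw [inf_eq_right.2 b.le] at e3
    rcases c.eq_or (W := U ⊓ qp N X) (le_inf c.lt.le ((qt_le_iff VN).1 a)) inf_le_left
      (norm_inf nU (norm_qp hN.norm n)) with e4 | e4
    · rw [← e3, e4]
    · exact absurd (e4 ▸ e3).symm b.ne
  · have := h1 (V ⊓ N) (U ⊓ N) ⟨lt_of_le_of_ne (inf_le_inf_right _ c.lt.le) fun h => c.lt.not_ge
      (e.ge.trans (sup_le le_rfl (h.ge.trans inf_le_left))), norm_inf c.normV hN.norm,
      ⟨inf_le_left.trans c.normal.le, norm_inf nU hN.norm⟩, fun X a b n => ?_⟩ inf_le_right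
    · rw [← e, relIndex_sup_norm' (.inl (hV inf_le_left)), ← inf_relIndex_right, ← inf_assoc,
        inf_eq_left.2 c.lt.le]
      exact this
    have XU := b.le.trans inf_le_left
    rcases c.eq_or (W := X ⊔ V) le_sup_right (sup_le XU c.lt.le) (norm_sup n c.normV) with e4 | e4
    · exact le_antisymm (le_inf (le_sup_left.trans e4.le) (b.le.trans inf_le_right)) a
    · rw [← e4, sup_inf_left (b.le.trans inf_le_right) (.inl (hV XU)), sup_eq_left.2 a] at b
      exact absurd b (lt_irrefl _)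

theorem comm_mem_Om (hp : p.Prime) (h2 : p ≠ 2) (k : PiGrp {p} C) (c : 𝛀 p C ≤ 𝐂 C) {x : G}
    (hx : x ∈ C) (e : x ^ p ∈ 𝐂 C) (H : Subgroup G) :
    H ≤ C → x ∈ 𝐍 H → ∀ y ∈ H, ⁅x, y⁆ ∈ 𝛀 p C := by
  induction H using WellFoundedLT.induction with
  | ind H ih =>
    intro hH n y hy
    by_cases h1 : H = ⊥
    · rw [mem_bot.1 (h1.le hy), commutatorElement_one_right]; exact one_mem _
    have lt := (k.le (zpowers_le.2 hx)).comm_lt (k.le hH) (zpowers_le.2 n) h1
    have m : ⁅x, y⁆ ∈ ⁅H, zpowers x⁆ := comm_mem_comm' hy (mem_zpowers x)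
    have := ih _ lt (lt.le.trans hH) (norm_comm_right _ _ (mem_zpowers x)) _ m
    have mC := hH (lt.le m)
    exact mem_Om mC (comm_pow_eq_one hp h2 (comm_of_cent (c this) hx) (comm_of_cent (c this) mC)
      (pow_of_mem_Om ((Om_le p C).trans (cent_symm c) |> fun h => h.trans le_rfl) this)
      (comm_of_cent e (hH hy)))

theorem bd_aux (hp : p.Prime) (h2 : p ≠ 2) (m : ℕ) : ∀ {G : Type u} [Group G] [Finite G]
    {L C : Subgroup G}, ♯C < m → C ⊴ L → PiGrp {p} C → 𝛀 p C ≤ 𝐂 C → logn p (♯(𝛀 p C)) ≤ 2 →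
    Bd p L C := by
  induction m with
  | zero => intro _ _ _ _ _ h; omega
  | succ m ih =>
    intro G _ _ L C hm n k c l
    by_cases h1 : C = ⊥
    · exact .of_logn (by rw [k.logn_eq_zero.2 h1]; omega)
    have nO := Om_normal p C
    have a : Abel (𝛀 p C) := c.trans (cent_anti nO.le)
    have hD : ∀ x ∈ C, x ^ p ∈ 𝛀 p C → x ∈ centMod C (𝛀 p C) := fun x hx e =>
      mem_centMod.2 ⟨nO.norm hx, comm_mem_Om hp h2 k c hx (c e) C le_rfl (le_norm_self C hx)⟩
    have c' : 𝛀 p (qt (𝛀 p C) C) ≤ 𝐂 (qt (𝛀 p C) C) := Om_le_iff.2 fun z hz e => by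
      obtain ⟨x, hx, xn, rfl⟩ := mem_qt.1 hz
      rw [← qe_pow xn, qe_eq_one (pow_mem xn p)] at e
      have := hD x hx e
      rw [← qp_cent_eq nO.norm] at this
      exact (mem_qp.1 this).2
    refine .ext (n.Om p) (.of_logn l) (ih ((card_qt_lt nO (k.Om_ne_bot h1)).trans_le (by omega))
      (n.qt _) (k.qt _) c' ?_)
    have DC : qp (𝛀 p C) (𝛀 p (qt (𝛀 p C) C)) ≤ C := qp_le_of_le_qt nO (Om_le p _)
    have eD : ∀ x ∈ qp (𝛀 p C) (𝛀 p (qt (𝛀 p C) C)), x ^ p ∈ 𝛀 p C := fun x hx => by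
      have := pow_of_mem_Om (c'.trans (cent_anti (Om_le p _))) (mem_qp.1 hx).2
      rwa [← qe_pow (mem_qp.1 hx).1, qe_eq_one (pow_mem (mem_qp.1 hx).1 p)] at this
    have cD := card_qp (𝛀 p (qt (𝛀 p C) C))
    have oD := Om_eq_of_le DC (le_qp _)
    generalize qp (𝛀 p C) (𝛀 p (qt (𝛀 p C) C)) = D at *
    obtain ⟨I, hI, -, e⟩ := card_Om_mul_card_range (R := D) hp fun u hu v hv => by
      have := (mem_centMod.1 (hD v (DC hv) (eD v hv))).2 u (DC hu)
      exact mul_pow_prime_class_two hp h2 (comm_of_cent (c this) (DC hu)).symm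
        (comm_of_cent (c this) (DC hv)).symm (pow_of_mem_Om a this)
    rw [oD, cD, Nat.mul_right_inj Nat.card_pos.ne'] at e
    rw [← e]
    refine (logn_card_le fun x hx => ?_).trans l
    obtain ⟨y, hy, rfl⟩ := (hI x).1 hx
    exact eD y hy

theorem bd (hp : p.Prime) (h2 : p ≠ 2) (n : P ⊴ L) (k : PiGrp {p} P) (r : pRank p P ≤ 2) :
    Bd p L P := by
  by_cases c : Cyc P
  · exact bd_aux hp h2 _ (Nat.lt_succ_self _) n k ((Om_le p P).trans c.abel)
      (((c.abel.abelem_Om hp).logn_le_pRank (Om_le p P)).trans r)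
  obtain ⟨E, hE, nE⟩ := exists_normal_elem_two hp h2 k c
  obtain ⟨Y, nY, EY, l⟩ : ∃ Y, L ≤ 𝐍 Y ∧ E ≤ Y ∧ logn p (♯P) ≤ logn p (♯(P ⊓ 𝐂 Y)) + 2 := by
    by_cases h : L ≤ 𝐍 E
    · exact ⟨E, h, le_rfl, (Elem.logn_inf_cent hE k nE.norm).trans (by omega)⟩
    obtain ⟨g, hg, ng⟩ := SetLike.not_le_iff_exists.1 h
    have e := cj_of_norm (n.norm hg)
    have hF : Elem p 2 (cj g E) P := e ▸ hE.cj g
    have nF : cj g E ⊴ P := e ▸ nE.cj g
    have a := hE.ab.le_Om (le_Z2_of_logn k nE hE.log.le)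
    have b := hF.ab.le_Om (le_Z2_of_logn k nF hF.log.le)
    have YP := (Om_le p _).trans (Z2_le P)
    have l3 := logn_le_three_of_exp hp (k.le YP) ((pRank_mono p YP).trans r) (exp_Om_Z2 hp h2 k)
    have lt : E < E ⊔ cj g E := lt_of_le_of_ne le_sup_left fun h =>
      ng (cj_eq_self.1 (hF.eq_of_le hE (le_sup_right.trans h.ge)))
    have := (k.le (sup_le hE.le hF.le)).logn_lt lt
    have e3 := (k.le YP).eq_of_logn_le (sup_le a b) (by have := hE.log; omega)
    refine ⟨_, n.norm.trans ((norm_Z2 P).trans (norm_Om p _)), a, ?_⟩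
    rw [← e3, cent_sup, ← inf_assoc]
    have l1 := Elem.logn_inf_cent hE k nE.norm
    have l2 := Elem.logn_inf_cent hF (k.inf_left (K := 𝐂 E)) (inf_le_left.trans nF.norm)
    omega
  have nD : P ⊓ 𝐂 Y ⊴ L := ⟨inf_le_left.trans n.le, norm_inf_cent n.norm nY⟩
  have o : 𝛀 p (P ⊓ 𝐂 Y) ≤ E := by
    rw [← (hE.max_of_pRank r).Om_cent hp]
    exact Om_mono p (inf_le_inf_left _ (cent_anti EY))
  refine .ext nD (bd_aux hp h2 _ (Nat.lt_succ_self _) nD k.inf_left
    (o.trans (EY.trans (cent_symm inf_le_right))) ((logn_card_le o).trans hE.log.le)) (.of_logn ?_)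
  have := logn_qt (p := p) (nD.of_le inf_le_left n.le)
  omega

end


/-- Let p be an odd prime and G a finite p-solvable group with no elementary abelian subgroup of order p³. Then every chief factor H/K of G (H, K normal in G with no normal subgroup of G strictly between them) whose order is a power of p has order p or p². -/
theorem result {G : Type*} [Group G] [Finite G] {p : ℕ} [Fact p.Prime] (hp : p ≠ 2)
    (hG : Cfsg.IsPSolvable p G) (hr : Cfsg.PRankLE p 2 G)
    (H K : Subgroup G) [H.Normal] [K.Normal] (hKH : K < H) (hpow : ∃ n : ℕ, K.relIndex H = p ^ n)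
    (hchief : ∀ L : Subgroup G, L.Normal → K ≤ L → L ≤ H → L = K ∨ L = H) :
    K.relIndex H = p ∨ K.relIndex H = p ^ 2 := by
  have hp' : p.Prime := Fact.out
  obtain ⟨m, hm⟩ := hpow
  have nK : ∀ X : Subgroup G, X ≤ 𝐍 K := fun X => le_top.trans (normalIn_top.2 inferInstance).norm
  have nH : ∀ X : Subgroup G, X ≤ 𝐍 H := fun X => le_top.trans (normalIn_top.2 inferInstance).norm
  obtain ⟨P, hP⟩ := exists_syl p H
  have e : K ⊔ P = H := le_antisymm (sup_le hKH.le hP.le) (relIndex_eq_one.1 (PiNat.eq_one (π := {p})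
    ((hm ▸ piNat_pow_self hp' m).dvd (relIndex_dvd_left H le_sup_left)) (hP.idx_of_le le_sup_right)))
  have fr := hP.syl_frattini_sup (M := ⊤) ⟨le_top, nH _⟩
  rw [top_inf_eq, ← e, sup_assoc, sup_eq_right.2 (le_norm_self P)] at fr
  have := bd hp' hp (normalIn_norm P) hP.pi ((pRank_mono p le_top).trans ((pRankLE_top_iff hp').1 hr))
    (K ⊓ P) P ⟨lt_of_le_of_ne inf_le_right fun h => hKH.not_ge
      (e.ge.trans (sup_le le_rfl (h.ge.trans inf_le_left))), norm_inf (nK _) le_rfl,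
      normalIn_norm P, fun X a b n => ?_⟩ le_rfl
  · rw [inf_relIndex_right, ← relIndex_sup_norm' (.inl (nK _)), e, hm, logn_pow hp'] at this
    have m0 : m ≠ 0 := by
      rintro rfl
      exact hKH.not_ge (relIndex_eq_one.1 hm)
    rw [hm]
    obtain rfl | rfl : m = 1 ∨ m = 2 := by omega
    · exact .inl (pow_one p)
    · exact .inr rfl
  have e2 : (X ⊔ K) ⊓ P = X := by rw [sup_inf_left b.le (.inl (nK _)), sup_eq_left.2 a]
  rcases hchief (X ⊔ K) (normalIn_top.1 ⟨le_top, fr.ge.trans (sup_le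
    (le_sup_right.trans (le_norm_self _)) (norm_sup n (nK _)))⟩) le_sup_right
    (sup_le (b.le.trans hP.le) hKH.le) with h | h
  · rw [← e2, h]
  · rw [h, inf_eq_right.2 hP.le] at e2
    exact absurd e2.symm b.ne

end Cfsg.Agent.S1895
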