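import Cfsg.Statements.S1898


set_option autoImplicit false
open Cfsg

namespace Cfsg.Agent.S1898

open Subgroup
open scoped commutatorElement

theorem sq_mul {X : Type*} [Group X] (hcen : commutator X ≤ Subgroup.center X) (a b : X) :
    (a * b) ^ 2 = ⁅b, a⁆ * (a ^ 2 * b ^ 2) := by
  have h := mem_center_iff.1 (hcen (commutator_mem_commutator (mem_top b) (mem_top a))) a
  calc (a * b) ^ 2 = (a * ⁅b, a⁆) * (a * b * b) := by simp only [commutatorElement_def, pow_two]; group
    _ = _ := by rw [h]; simp only [pow_two]; group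

theorem sq_central {X : Type*} [Group X] (h2 : ∀ x ∈ commutator X, x ^ 2 = 1)
    (hcen : commutator X ≤ Subgroup.center X) (a b : X) : a ^ 2 * b = b * a ^ 2 := by
  have m := commutator_mem_commutator (mem_top a) (mem_top b)
  have h := mem_center_iff.1 (hcen m) a
  have h' := h2 _ m
  calc a ^ 2 * b = (a * ⁅a, b⁆) * (b * a) := by simp only [commutatorElement_def, pow_two]; group
    _ = ⁅a, b⁆ * (a * b) * a := by rw [h]; group
    _ = ⁅a, b⁆ ^ 2 * (b * a * a) := by simp only [commutatorElement_def, pow_two]; group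
    _ = _ := by rw [h']; simp only [pow_two]; group

theorem four_mul {X : Type*} [Group X] (h2 : ∀ x ∈ commutator X, x ^ 2 = 1)
    (hcen : commutator X ≤ Subgroup.center X) (a b : X) :
    (a * b) ^ 4 = (a ^ 2 * b ^ 2) ^ 2 := by
  have m := commutator_mem_commutator (mem_top b) (mem_top a)
  have c : Commute ⁅b, a⁆ (a ^ 2 * b ^ 2) := (mem_center_iff.1 (hcen m) _).symm
  rw [show 4 = 2 * 2 from rfl, pow_mul, sq_mul hcen, c.mul_pow, h2 _ m, one_mul]

/-- Let X be a finite 2-group whose derived subgroup is elementary abelian and central. Then the subgroup generated by the elements of order dividing 4 has exponent dividing 4, and every automorphism of X fixing each element of order dividing 4 has 2-power order. -/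
theorem result {X : Type*} [Group X] [Finite X] (hX : IsPGroup 2 X)
    (hel : Cfsg.IsElementaryAbelian 2 (commutator X)) (hcen : commutator X ≤ Subgroup.center X) :
    (∀ x ∈ Subgroup.closure {g : X | g ^ 4 = 1}, x ^ 4 = 1) ∧
      ∀ φ : MulAut X, (∀ g : X, g ^ 4 = 1 → φ g = g) → ∃ k : ℕ, φ ^ (2 ^ k) = 1 := by
  have h2 : ∀ x ∈ commutator X, x ^ 2 = 1 := hel.2
  constructor
  · intro x hx
    induction hx using closure_induction with
    | mem x hx => exact hx
    | one => simp
    | mul a b _ _ ha hb =>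
      have c : Commute (a ^ 2) (b ^ 2) := sq_central h2 hcen a _
      rw [four_mul h2 hcen, c.mul_pow, ← pow_mul, ← pow_mul, ha, hb, one_mul]
    | inv a _ ha => rw [inv_pow, ha, inv_one]
  · intro φ hφ
    have fix : ∀ (ψ : MulAut X) (g : X), ψ g = g → ∀ n : ℕ, (ψ ^ n) g = g := fun ψ g h n => by
      induction n with
      | zero => rfl
      | succ n ih => rw [pow_succ, MulAut.mul_apply, h, ih]
    have key : ∀ k : ℕ, ∀ x : X, x ^ 2 ^ k = 1 → (φ ^ 4 ^ k) x = x := by
      intro k
      induction k with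
      | zero => intro x hx; simp at hx; simp [hx]
      | succ k ih =>
        intro x hx
        set ψ := φ ^ 4 ^ k
        have h1 : ψ (x ^ 2) = x ^ 2 := ih _ (by rw [← pow_mul, ← pow_succ', hx])
        have h3 : (x⁻¹ * ψ x) ^ 4 = 1 := by rw [four_mul h2 hcen, ← map_pow, h1]; simp
        have h4 : ψ (x⁻¹ * ψ x) = x⁻¹ * ψ x := fix φ _ (hφ _ h3) _
        have h5 : ∀ n : ℕ, (ψ ^ n) x = x * (x⁻¹ * ψ x) ^ n := fun n => by
          induction n with
          | zero => simp
          | succ n ih => rw [pow_succ', MulAut.mul_apply, ih, map_mul, map_pow, h4, pow_succ', ← mul_assoc, mul_inv_cancel_left]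
        rw [pow_succ, pow_mul, h5, h3, mul_one]
    haveI : Fact (Nat.Prime 2) := ⟨Nat.prime_two⟩
    obtain ⟨n, hn⟩ := IsPGroup.iff_card.1 hX
    refine ⟨2 * n, ?_⟩
    ext x
    rw [pow_mul]
    exact key n x (by rw [← hn, pow_card_eq_one'])

end Cfsg.Agent.S1898
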