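import Cfsg.Statements.S1899
import Cfsg.Agent.Coprime.Misc

set_option autoImplicit false
open Cfsg

namespace Cfsg.Agent.S1899

theorem aux {A : Type*} [CommGroup A] [Finite A]
    {n : ℕ} (hn : Odd n) (d t : MulAut A) (hd : d ^ n = 1) (ht : t ^ 2 = 1)
    (hdt : t * d * t⁻¹ = d⁻¹) (hfix : ∀ a : A, d a = a → a = 1) (a : A)
    (h : t a = d (t (d⁻¹ a))) : a = 1 := by
  have h1 : t * d⁻¹ * t⁻¹ = d := by
    have := congrArg (·⁻¹) hdt
    simpa [mul_assoc] using this
  have h2 : d * t * d⁻¹ = d ^ 2 * t := by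
    calc d * t * d⁻¹ = d * (t * d⁻¹ * t⁻¹) * t := by group
      _ = d ^ 2 * t := by rw [h1, sq]
  have h3 : (d ^ 2) (t a) = t a := by
    have : (d * t * d⁻¹) a = t a := h.symm
    rwa [h2] at this
  have h4 : ∀ k : ℕ, ((d ^ 2) ^ k) (t a) = t a := by
    intro k
    induction k with
    | zero => simp
    | succ k ih => rw [pow_succ, MulAut.mul_apply, h3, ih]
  obtain ⟨m, hm⟩ := hn
  have h5 : (d ^ 2) ^ (m + 1) = d := by
    rw [← pow_mul, show 2 * (m + 1) = n + 1 by omega, pow_succ, hd, one_mul]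
  have h6 := h4 (m + 1)
  rw [h5] at h6
  simpa using hfix _ h6


/-- Let a dihedral group of order 2n, n odd and n > 1, act on a finite abelian 2-group A through automorphisms d and t with d^n = 1, t² = 1 and t d t⁻¹ = d⁻¹, and suppose that d fixes only the identity. Then A is the internal direct product of C_A(t) and its image under d. -/
theorem result {A : Type*} [CommGroup A] [Finite A] (hA : IsPGroup 2 A)
    {n : ℕ} (hn : Odd n) (hn1 : 1 < n) (d t : MulAut A) (hd : d ^ n = 1) (ht : t ^ 2 = 1) (hdt : t * d * t⁻¹ = d⁻¹)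
    (hfix : ∀ a : A, d a = a → a = 1) :
    (MulEquiv.toMonoidHom t).eqLocus (MonoidHom.id A) ⊓ ((MulEquiv.toMonoidHom t).eqLocus (MonoidHom.id A)).map d.toMonoidHom = ⊥ ∧
      (MulEquiv.toMonoidHom t).eqLocus (MonoidHom.id A) ⊔ ((MulEquiv.toMonoidHom t).eqLocus (MonoidHom.id A)).map d.toMonoidHom = ⊤ := by
  set C := (MulEquiv.toMonoidHom t).eqLocus (MonoidHom.id A) with hC
  have h1 : C ⊓ C.map d.toMonoidHom = ⊥ := by
    rw [eq_bot_iff]
    rintro _ ⟨h1, c, hc, rfl⟩
    have h2 : t (d c) = d c := h1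
    have h3 : t c = c := hc
    exact aux hn d t hd ht hdt hfix (d c) (by simp [h2, h3])
  refine ⟨h1, ?_⟩
  let f : A →* A := t.toMonoidHom / MonoidHom.id A
  have hf : ∀ a, f a = t a / a := fun a => rfl
  have hk : f.ker = C := by
    ext a
    rw [MonoidHom.mem_ker, hf, div_eq_one]
    rfl
  have htt : ∀ a, t (t a) = a := fun a => by
    rw [← MulAut.mul_apply, ← sq, ht]; rfl
  have hinv : ∀ a ∈ f.range, t a = a⁻¹ := by
    rintro _ ⟨a, rfl⟩
    simp [hf, htt]
  have h2 : f.range ⊓ f.range.map d.toMonoidHom = ⊥ := by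
    rw [eq_bot_iff]
    rintro _ ⟨h1, c, hc, rfl⟩
    have h2 : t (d c) = (d c)⁻¹ := hinv _ h1
    exact aux hn d t hd ht hdt hfix (d c) (by simp [h2, hinv c hc])
  have h3 := CF.Solv.card_sup_mul_card_inf C (C.map d.toMonoidHom)
  have h4 := CF.Solv.card_sup_mul_card_inf f.range (f.range.map d.toMonoidHom)
  rw [h1, Subgroup.card_bot, mul_one, Subgroup.card_map_of_injective d.injective] at h3
  rw [h2, Subgroup.card_bot, mul_one, Subgroup.card_map_of_injective d.injective] at h4
  have h5 : Nat.card C * Nat.card f.range = Nat.card A := by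
    rw [← hk, ← Subgroup.index_ker, Subgroup.card_mul_index]
  have h6 : Nat.card f.range * Nat.card f.range ≤ Nat.card A := by
    rw [← h4]; exact Subgroup.card_le_card_group _
  have h7 : Nat.card f.range ≤ Nat.card C := by
    rw [← h5] at h6
    exact Nat.le_of_mul_le_mul_right h6 Nat.card_pos
  refine Subgroup.eq_top_of_le_card _ ?_
  rw [h3, ← h5]
  exact Nat.mul_le_mul_left _ h7

end Cfsg.Agent.S1899
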