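import Cfsg.Statements.S1900
import Cfsg.Agent.Sig.Fun

set_option autoImplicit false
open Cfsg

namespace Cfsg.Agent.S1900

open CF.BG CF.Sig Subgroup

theorem step {G : Type*} [Group G] [Finite G] {p q : ℕ} {P Q X Y D N : Subgroup G}
    (k : PiGrp {p} P) (x : PiGrp {p}ᶜ X) (n : Q ≤ 𝐍 P) (a : Abel Q) (hX : X ≤ Q) (hY : Y ≤ Q)
    (ch : Chief (P ⊔ Q) N D) (hD : D ≤ P) (e : ¬ D ⊓ 𝐂 X ≤ N) (b : P ⊓ 𝐂 Y ⊓ 𝐂 X = ⊥)
    (d : ⁅P ⊓ 𝐂 Y, P ⊓ 𝐂 X⁆ = D) : False := by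
  have nN := ch.normV
  have c : ⁅D, P⁆ ≤ N := ch.comm_le_of_nil ⟨le_sup_left, sup_le (le_norm_self P) n⟩ (k.qt N).nil
  have nQ : Q ≤ 𝐍 D := le_sup_right.trans ch.normal.norm
  have e1 := (ch.eq_or (W := N ⊔ (D ⊓ 𝐂 X)) le_sup_left (sup_le ch.lt.le inf_le_left) (sup_le
    (norm_of_comm_le ((commutator_mono (sup_le ch.lt.le inf_le_left) le_rfl).trans
      (c.trans le_sup_left))) (norm_sup (le_sup_right.trans nN) (Abel.norm_inf_cent a hX nQ)))).resolve_left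
    fun h => e (le_sup_right.trans h.le)
  have nX := (hX.trans le_sup_right).trans nN
  have c1 : D ≤ centMod X N := e1.ge.trans (sup_le (le_centMod.2 ⟨le_norm_self N, comm_le_left nX⟩)
    (le_centMod.2 ⟨inf_le_left.trans (hD.trans (le_sup_left.trans nN)),
      (comm_eq_bot.2 inf_le_right).le.trans bot_le⟩))
  have nB : X ≤ 𝐍 (P ⊓ 𝐂 Y) := hX.trans (Abel.norm_inf_cent a hY n)
  have e2 := comm_sup_inf_cent nB (x.coprime' k.inf_left) (.inr k.inf_left.sol)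
  rw [b, sup_bot_eq] at e2
  have := three_subgroup (A := P ⊓ 𝐂 Y) (B := X) (C := P ⊓ 𝐂 X) (N := N)
    (inf_le_left.trans (le_sup_left.trans nN)) nX (inf_le_left.trans (le_sup_left.trans nN))
    (by rw [comm_eq_bot.2 (cent_symm inf_le_right), commutator_bot_left]; exact bot_le)
    (by rw [commutator_comm (P ⊓ 𝐂 X), d]; exact (le_centMod.1 c1).2)
  rw [e2, d] at this
  exact ch.lt.not_ge this


/-- Let S = PQ be a finite group with P a normal Sylow p-subgroup and Q elementary abelian of order q², q a prime different from p. If exactly two subgroups X₁, X₂ of order q in Q have a nontrivial centralizer in P, then P is the internal direct product of C_P(X₁) and C_P(X₂): they commute elementwise, meet trivially and generate P. -/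
theorem result {S : Type*} [Group S] [Finite S] {p q : ℕ} [Fact p.Prime] [Fact q.Prime] (hpq : p ≠ q)
    (P : Sylow p S) [(P : Subgroup S).Normal] (Q : Subgroup S) (hQ : Cfsg.IsElementaryAbelian q Q) (hQc : Nat.card Q = q ^ 2)
    (hS : (P : Subgroup S) ⊔ Q = ⊤)
    (X₁ X₂ : Subgroup S) (h₁ : X₁ ≤ Q) (h₂ : X₂ ≤ Q) (h₁₂ : X₁ ≠ X₂) (hc₁ : Nat.card X₁ = q) (hc₂ : Nat.card X₂ = q)
    (hf₁ : (P : Subgroup S) ⊓ Subgroup.centralizer (X₁ : Set S) ≠ ⊥)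
    (hf₂ : (P : Subgroup S) ⊓ Subgroup.centralizer (X₂ : Set S) ≠ ⊥)
    (honly : ∀ X : Subgroup S, X ≤ Q → Nat.card X = q →
      (P : Subgroup S) ⊓ Subgroup.centralizer (X : Set S) ≠ ⊥ → X = X₁ ∨ X = X₂) :
    ⁅(P : Subgroup S) ⊓ Subgroup.centralizer (X₁ : Set S), (P : Subgroup S) ⊓ Subgroup.centralizer (X₂ : Set S)⁆ = ⊥ ∧
      ((P : Subgroup S) ⊓ Subgroup.centralizer (X₁ : Set S)) ⊓ ((P : Subgroup S) ⊓ Subgroup.centralizer (X₂ : Set S)) = ⊥ ∧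
      ((P : Subgroup S) ⊓ Subgroup.centralizer (X₁ : Set S)) ⊔ ((P : Subgroup S) ⊓ Subgroup.centralizer (X₂ : Set S)) = P := by
  have hp : p.Prime := Fact.out
  have hq : q.Prime := Fact.out
  have e := Elem.of_isEA hq le_rfl hQ hQc
  have k := (syl_sylow_top P).pi
  have n : Q ≤ 𝐍 (P : Subgroup S) := le_top.trans (normalIn_top.2 inferInstance).norm
  generalize (P : Subgroup S) = P at *
  have x1 : Elem q 1 X₁ Q := ⟨h₁, e.ab.le h₁, by rw [hc₁, logn_self hq]⟩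
  have x2 : Elem q 1 X₂ Q := ⟨h₂, e.ab.le h₂, by rw [hc₂, logn_self hq]⟩
  have gen : ∀ D L : Subgroup S, D ≤ P → Q ≤ 𝐍 D → D ⊓ 𝐂 X₁ ≤ L → D ⊓ 𝐂 X₂ ≤ L → D ≤ L :=
    fun D L hD nD a b => e.le_of_cent nD ((k.le hD).of_single_ne hpq) fun X x => by
      by_cases h : P ⊓ 𝐂 X = ⊥
      · exact ((inf_le_inf_right _ hD).trans h.le).trans bot_le
      · rcases honly X x.le x.card_one h with rfl | rfl <;> assumption
  have s : X₁ ⊔ X₂ = Q := (x1.sup_one x2 (e.abel.cent h₂ h₁)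
    fun h => h₁₂ (x2.eq_of_le x1 h).symm).eq_of_le e (sup_le h₁ h₂)
  have b : P ⊓ 𝐂 X₁ ⊓ 𝐂 X₂ = ⊥ := by
    by_contra h
    rw [inf_assoc, ← cent_sup, s] at h
    obtain ⟨a, a1, ha, rfl⟩ := x1.exists_gen
    obtain ⟨b, b1, hb, rfl⟩ := x2.exists_gen
    have i := (cyc_of_prime (hc₁ ▸ hq)).abel
    have ab : a * b ∈ Q := mul_mem (h₁ ha) (h₂ hb)
    have na : b ∉ zpowers a := fun h => h₁₂ (x2.eq_of_le x1 (zpowers_le.2 h)).symm
    have nb : a ∉ zpowers b := fun h => h₁₂ (x1.eq_of_le x2 (zpowers_le.2 h))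
    have x := e.ab.elem_zpowers ab fun h => na (by rw [eq_inv_of_mul_eq_one_right h]; simp)
    rcases honly _ x.le x.card_one (ne_bot_mono h (inf_le_inf_left _ (cent_anti x.le))) with h | h
    · exact na (by simpa using mul_mem (inv_mem ha) (h.le (mem_zpowers _)))
    · exact nb (by simpa using mul_mem (h.le (mem_zpowers _)) (inv_mem hb))
  have su : (P ⊓ 𝐂 X₁) ⊔ (P ⊓ 𝐂 X₂) = P :=
    le_antisymm (sup_le inf_le_left inf_le_left) (gen P _ le_rfl n le_sup_left le_sup_right)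
  refine ⟨?_, eq_bot_mono b (inf_le_inf_left _ inf_le_right), su⟩
  by_contra h
  have dP : ⁅P ⊓ 𝐂 X₁, P ⊓ 𝐂 X₂⁆ ≤ P := (commutator_mono inf_le_left inf_le_left).trans (der_le P)
  have nQ : Q ≤ 𝐍 ⁅P ⊓ 𝐂 X₁, P ⊓ 𝐂 X₂⁆ :=
    norm_commutator (Abel.norm_inf_cent e.abel h₁ n) (Abel.norm_inf_cent e.abel h₂ n)
  obtain ⟨N, -, ch⟩ := exists_chief_below (L := P ⊔ Q) ⟨dP.trans le_sup_left, sup_le (su.ge.trans
    (sup_le (norm_comm_left _ _) (norm_comm_right _ _))) nQ⟩ (bot_lt_iff_ne_bot.2 h)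
    (le_top.trans norm_bot.ge)
  by_cases c : ⁅P ⊓ 𝐂 X₁, P ⊓ 𝐂 X₂⁆ ⊓ 𝐂 X₂ ≤ N
  · exact step (q := q) k (x1.pi.of_single_ne hpq.symm) n e.abel h₁ h₂ ch dP
      (fun c' => ch.lt.not_ge (gen _ _ dP nQ c' c)) (by rw [inf_right_comm, b]) (commutator_comm _ _)
  · exact step (q := q) k (x2.pi.of_single_ne hpq.symm) n e.abel h₂ h₁ ch dP c b rfl

end Cfsg.Agent.S1900
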