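import Cfsg.Statements.S1901
import Cfsg.Agent.Sig.Bal

set_option autoImplicit false
open Cfsg

namespace Cfsg.Agent.S1901

open CF.BG CF.Sig Subgroup in

/-- Let G be a finite p-solvable group and Q a subgroup of order prime to p such that p divides the index of C_G(Q) in N_G(Q). Then Q normalizes no Sylow p-subgroup of G. -/
theorem result {G : Type*} [Group G] [Finite G] {p : ℕ} [Fact p.Prime]
    (hG : Cfsg.IsPSolvable p G) (Q : Subgroup G) (hQ : ¬ p ∣ Nat.card Q)
    (hA : p ∣ (Subgroup.centralizer (Q : Set G)).relIndex (Subgroup.normalizer (Q : Set G)))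
    (P : Sylow p G) : ¬ Q ≤ Subgroup.normalizer ((P : Subgroup G) : Set G) := by
  have hp : p.Prime := Fact.out
  intro hn
  have q : PiGrp {p}ᶜ Q := (piNat_compl_single hp).2 hQ
  have hP := syl_sylow_top P
  generalize (P : Subgroup G) = P at *
  obtain ⟨R, hR⟩ := exists_syl p (𝐍 Q)
  suffices h : ⁅Q, R⁆ = ⊥ by
    have := hR.idx_of_le (K := 𝐂 Q) (cent_symm (comm_eq_bot.1 h))
    exact (piNat_compl_single hp).1 this hA
  have e := comm_comm_eq hR.le (hR.pi.coprime q) (.inl hR.pi.sol)
  have q0 : PiGrp {p}ᶜ ⁅Q, R⁆ := q.le (comm_le_left hR.le)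
  have n0 : ⁅Q, R⁆ ≤ 𝐍 P := (comm_le_left hR.le).trans hn
  have r0 : R ≤ 𝐍 ⁅Q, R⁆ := norm_comm_right _ _
  generalize ⁅Q, R⁆ = Y at *
  obtain ⟨n, H, h0, h1, hm, hN, hi⟩ := hG
  have key : ∀ i : Fin (n + 1), Y ≤ H i := by
    intro i
    induction i using Fin.reverseInduction with
    | last => exact h1.ge.trans' le_top
    | cast i ih =>
      have nU : ∀ X : Subgroup G, X ≤ 𝐍 (H i.castSucc) := fun X =>
        le_top.trans (normalIn_top.2 (hN _)).norm
      rcases hi i with ⟨m, hm⟩ | hc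
      · exact q0.le_of_relIndex ih (nU _) (by rw [hm]; exact (piNat_pow_self hp m).compl_compl)
      have hc' : PiNat {p}ᶜ ((H i.castSucc).relIndex (H i.succ)) :=
        (piNat_compl_single hp).2 ((Nat.Prime.coprime_iff_not_dvd hp).1 hc.symm)
      have c1 : ⁅P, Y⁆ ≤ H i.castSucc := (hP.pi.le (comm_le_left n0)).le_of_relIndex
        ((commutator_mono le_rfl ih).trans (comm_le_right
          (le_top.trans (normalIn_top.2 (hN _)).norm))) (nU _) hc'
      generalize H i.castSucc = V at *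
      have c2 : P ≤ centMod (V ⊔ Y) V := le_centMod.2 ⟨nU _, by
        rw [commutator_comm]
        exact (le_centMod.1 (sup_le (le_centMod.2 ⟨nU _, comm_le_left (nU _)⟩)
          (le_centMod.2 ⟨nU _, (commutator_comm _ _).le.trans c1⟩))).2⟩
      have c3 : R ≤ centMod (V ⊔ Y) V := hR.pi.le_of_relIndex (L := 𝐍 (V ⊔ Y))
        (norm_sup (nU _) r0) (norm_centMod le_rfl (nU _))
        ((hP.of_le ((le_centMod.1 c2).2.trans' le_rfl |> fun h => norm_of_comm_le'
          (h.trans le_sup_left)) le_top).idx_of_le c2)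
      rw [← e, commutator_comm]
      exact (commutator_mono le_rfl le_sup_right).trans (le_centMod.1 c3).2
  exact le_bot_iff.1 (h0 ▸ key 0)

end Cfsg.Agent.S1901
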