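import Cfsg.Statements.S1902
import Cfsg.Agent.Sig.Bal
import Cfsg.Agent.Solv.PiSep
import Cfsg.Agent.BG2.P4c
import Cfsg.Agent.Coprime.Special

set_option autoImplicit false
open Cfsg

namespace Cfsg.Agent.S1902

open CF.BG CF.Sig Subgroup in

/-- Let p be an odd prime, G a finite p-solvable group, and B an elementary abelian subgroup of order p² such that B is the subgroup generated by the elements of order p of some Sylow p-subgroup of C_G(b₀), for some nontrivial b₀ ∈ B. Then every B-invariant subgroup of G of order prime to p lies in O_{p'}(G). -/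
theorem result {G : Type*} [Group G] [Finite G] {p : ℕ} [Fact p.Prime] (hp : p ≠ 2)
    (hG : Cfsg.IsPSolvable p G) (B : Subgroup G) (hB : Cfsg.IsElementaryAbelian p B) (hBc : Nat.card B = p ^ 2)
    (b₀ : G) (hb₀ : b₀ ∈ B) (hb₁ : b₀ ≠ 1) (P : Sylow p ↥(Subgroup.centralizer ({b₀} : Set G)))
    (hBP : B = Subgroup.closure {x : G | x ∈ ((P : Subgroup ↥(Subgroup.centralizer ({b₀} : Set G))).map
      (Subgroup.centralizer ({b₀} : Set G)).subtype : Subgroup G) ∧ orderOf x = p})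
    (Q : Subgroup G) (hQ : ¬ p ∣ Nat.card Q) (hinv : ∀ b ∈ B, ∀ x ∈ Q, b * x * b⁻¹ ∈ Q) :
    Q ≤ Cfsg.pPrimeCore p G := by
  have hp' : p.Prime := Fact.out
  let f := QuotientGroup.mk' (Cfsg.pPrimeCore p G)
  have hf : Function.Surjective f := QuotientGroup.mk'_surjective _
  have kf : PiGrp {p}ᶜ f.ker := by rw [QuotientGroup.ker_mk']; exact pPrimeCore_pi hp'
  have q : PiGrp {p}ᶜ Q := (piNat_compl_single hp').2 hQ
  have e := Elem.of_isEA hp' le_rfl hB hBc
  have c := CF.Solv.centralizer_pCore_le_of_isPSolvable (CF.Solv.isPSolvable_quotient hG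
    (Cfsg.pPrimeCore p G)) ((pPrimeCore_eq hp').trans (O_top_quot hp'))
  rw [pCore_eq hp'] at c
  have hP := syl_sylow P
  generalize Subgroup.map (Subgroup.centralizer ({b₀} : Set G)).subtype
    (P : Subgroup ↥(Subgroup.centralizer ({b₀} : Set G))) = P at *
  have hP' := hP.map f
  rw [map_cent1_of_ker hf kf (e.pi.elt hb₀)] at hP'
  have nR : ∀ X : Subgroup (G ⧸ Cfsg.pPrimeCore p G), X ≤ 𝐍 (𝐎 {p} (⊤ : Subgroup (G ⧸ Cfsg.pPrimeCore p G))) := fun X =>
    le_top.trans (O_normal _ _).norm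
  have kR := O_pi {p} (⊤ : Subgroup (G ⧸ Cfsg.pPrimeCore p G))
  generalize 𝐎 {p} (⊤ : Subgroup (G ⧸ Cfsg.pPrimeCore p G)) = R at *
  obtain ⟨D, hD, nD, -, eD, cD⟩ := CF.BG2.exists_critical_odd hp' hp kR
  have nQ : B.map f ≤ 𝐍 (Q.map f) := map_norm (le_norm_iff.2 hinv) f
  have : Q.map f ≤ 𝐂 D := CF.Coprime.le_centralizer_of_pq_odd hp (zpowers (f b₀)) _ _
    ((e.pi.elt hb₀).map f).zpowers.isPGroup (piNat_compl_single_iff_coprime hp' |>.1 (q.map f))
    (kR.le hD).isPGroup (zpowers_le.2 (nQ (mem_map_of_mem f hb₀))) ((nR _).trans nD)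
    ((nR _).trans nD) fun d hd => by
      obtain ⟨x, hx, rfl⟩ := hP'.le_of_normal (K := R ⊓ 𝐂₁ (f b₀)) (normalIn_inf_right (nR _))
        kR.inf_left ⟨hD hd.1, (cent_zpowers _).le hd.2⟩
      have xp : x ^ p = 1 := ((hP.pi.elt hx).pow p).eq_one
        (kf.elt (by rw [MonoidHom.mem_ker, map_pow]; exact eD _ hd.1))
      have xB : x ∈ B := by
        by_cases x1 : x = 1
        · exact x1 ▸ one_mem _
        · exact hBP.ge (subset_closure ⟨hx, orderOf_eq_prime xp x1⟩)
      refine comm_eq_bot.1 (eq_bot_mono (kR.inf_eq_bot (q.map f)) (le_inf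
        ((commutator_mono (zpowers_le.2 (hD hd.1)) le_rfl).trans (comm_le_left (nR _)))
        (comm_le_right (zpowers_le.2 (nQ (mem_map_of_mem f xB)))))) (mem_zpowers _)
  have := (kR.le ((cD _ (nR _) (q.map f) this).trans c)).eq_bot (q.map f)
  rwa [Subgroup.map_eq_bot_iff, QuotientGroup.ker_mk'] at this

end Cfsg.Agent.S1902
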