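import Cfsg.Statements.S1903
import Cfsg.Agent.Mx23.U5b

set_option autoImplicit false
open Cfsg

namespace Cfsg.Agent.S1903


/-- A finite group of order 320 whose derived subgroup has order 64 and has centre a Klein four-group is isomorphic to the centralizer of an involution in PSU₃(4). -/
theorem result {G : Type*} [Group G] [Finite G] (hG : Nat.card G = 320) (hD : Nat.card (commutator G) = 64)
    (hZ : IsKleinFour (Subgroup.center (commutator G)))
    {F : Type*} [Field F] [Fintype F] (hF : Fintype.card F = 16) :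
    ∃ t : Cfsg.PSU 3 F 4, orderOf t = 2 ∧ Nonempty (G ≃* Subgroup.centralizer ({t} : Set (Cfsg.PSU 3 F 4))) := by
  have hE : Fintype.card F = 4 ^ 2 := hF
  haveI : CharP F 2 := by
    obtain ⟨p, hp⟩ := CharP.exists F
    obtain ⟨n, hpp, hn⟩ := FiniteField.card F p
    have : p ∣ 2 ^ 4 := by
      rw [show 2 ^ 4 = 16 from rfl, ← hF, hn]; exact dvd_pow_self p n.ne_zero
    have h2 := (Nat.prime_dvd_prime_iff_eq hpp Nat.prime_two).1 (hpp.dvd_of_dvd_pow this)
    subst h2; exact hp
  obtain ⟨σ, h1, -, h2⟩ := CF.Geom.exists_conj hE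
  let _ : StarRing F :=
    { star := σ, star_involutive := h2, star_mul := fun a b => by rw [map_mul, mul_comm]
      star_add := map_add σ }
  have fr := CF.Bender.PU.fr_std hE h1
  obtain ⟨f⟩ := CF.Mx23.U5.psu_pgu hE h1
  obtain ⟨M⟩ := CF.Mx23.U5.cm_G hE h1 hG hD hZ
  obtain ⟨e⟩ := CF.Mx23.U5.cm_equiv M fr.cm
  refine ⟨f.symm fr.y, by rw [f.symm.orderOf_eq, fr.y_ord],
    ⟨e.trans ((f.symm.subgroupMap _).trans (MulEquiv.subgroupCongr ?_))⟩⟩
  ext z
  obtain ⟨z, rfl⟩ := f.symm.surjective z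
  simp [Subgroup.mem_centralizer_singleton_iff, ← map_mul]

end Cfsg.Agent.S1903
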