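import Cfsg.Statements.S1906
import Cfsg.Agent.Loc.Xfer
import Cfsg.Agent.Invol.Closure

set_option autoImplicit false
open Cfsg

namespace Cfsg.Agent.S1906
open Subgroup
open scoped commutatorElement Pointwise
open Matrix in
theorem fixline {F : Type*} [Field F] (h2 : (2 : F) ≠ 0) (y : Matrix (Fin 3) (Fin 3) F)
    (e : y * y = 1) (h1 : y ≠ 1) (hd : y.det = 1) :
    ∃ w : Fin 3 → F, w ≠ 0 ∧ y *ᵥ w = w ∧ ∀ v, y *ᵥ v = v → ∃ c : F, v = c • w := by
  have k : ∀ v, y *ᵥ y *ᵥ v = v := fun v => by rw [mulVec_mulVec, e]; simp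
  let U : Set (Fin 3 → F) := {u | y *ᵥ u = u ∨ y *ᵥ u = -u}
  have hU : Submodule.span F U = ⊤ := eq_top_iff.2 fun v _ => by
    rw [show v = (2 : F)⁻¹ • (v + y *ᵥ v + (v - y *ᵥ v)) by
      rw [add_add_sub_cancel, ← two_smul F, smul_smul, inv_mul_cancel₀ h2, one_smul]]
    exact Submodule.smul_mem _ _ (add_mem
      (Submodule.subset_span (Or.inl (by simp [mulVec_add, k, add_comm])))
      (Submodule.subset_span (Or.inr (by simp [mulVec_sub, k]))))
  obtain ⟨b, hb1, -, hb3⟩ := Submodule.exists_fun_fin_finrank_span_eq F U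
  have n : 3 = Module.finrank F (Submodule.span F U) := by rw [hU]; simp
  obtain ⟨P, hP⟩ := (linearIndependent_cols_iff_isUnit (A := (of (b ∘ Fin.cast n))ᵀ)).1
    (hb3.comp _ (Fin.cast_injective n))
  have kP : ∀ i, P.val *ᵥ Pi.single i 1 = b (Fin.cast n i) := fun i => by ext; simp [hP]
  have hd' : ∀ i, ∃ d : F, (d = 1 ∨ d = -1) ∧ y *ᵥ b (Fin.cast n i) = d • b (Fin.cast n i) := by
    intro i
    rcases hb1 (Fin.cast n i) with h | h
    · exact ⟨1, Or.inl rfl, by simpa using h⟩
    · exact ⟨-1, Or.inr rfl, by simpa using h⟩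
  choose d hd1 hd2 using hd'
  have hD : y * P.val = P.val * diagonal d := by
    refine ext_of_mulVec_single fun i => ?_
    rw [← mulVec_mulVec, ← mulVec_mulVec, kP, hd2, diagonal_mulVec_single, ← kP, ← mulVec_smul]
    congr 1; ext j; by_cases h : j = i <;> simp [h]
  have hdet : d 0 * d 1 * d 2 = 1 := by
    have := congrArg det hD
    rw [det_mul, det_mul, hd, one_mul, det_diagonal, Fin.prod_univ_three] at this
    have hu : P.val.det ≠ 0 := ((isUnit_iff_isUnit_det _).1 P.isUnit).ne_zero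
    exact (mul_left_cancel₀ hu (by rw [mul_one]; exact this)).symm
  have hne : ¬ ∀ i, d i = 1 := fun h => h1 (by
    have : diagonal d = 1 := by rw [show d = fun _ => 1 from funext h]; rfl
    rw [this, mul_one] at hD
    simpa [mul_assoc] using congrArg (· * (P⁻¹).val) hD)
  have m1 : (-1 : F) ≠ 1 := fun h => h2 (by linear_combination -h)
  obtain ⟨i, hi, hj⟩ : ∃ i, d i = 1 ∧ ∀ j, j ≠ i → d j = -1 := by
    rcases hd1 0 with a | a <;> rcases hd1 1 with b | b <;> rcases hd1 2 with c | c <;>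
      simp only [a, b, c, mul_one, mul_neg, neg_neg] at hdet
    · exact (hne fun i => by fin_cases i <;> simp [*]).elim
    · exact (m1 hdet).elim
    · exact (m1 hdet).elim
    · exact ⟨0, a, fun j hj => by fin_cases j <;> simp_all⟩
    · exact (m1 hdet).elim
    · exact ⟨1, b, fun j hj => by fin_cases j <;> simp_all⟩
    · exact ⟨2, c, fun j hj => by fin_cases j <;> simp_all⟩
    · exact (m1 hdet).elim
  refine ⟨b (Fin.cast n i), hb3.ne_zero _, by rw [hd2, hi, one_smul], fun v hv => ?_⟩
  have pv : P.val *ᵥ ((P⁻¹).val *ᵥ v) = v := by rw [mulVec_mulVec]; simp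
  set z := (P⁻¹).val *ᵥ v
  have hz : diagonal d *ᵥ z = z := by
    have : P.val *ᵥ (diagonal d *ᵥ z) = P.val *ᵥ z := by
      rw [mulVec_mulVec, ← hD, ← mulVec_mulVec, pv, hv]
    simpa [mulVec_mulVec, ← mul_assoc] using congrArg ((P⁻¹).val *ᵥ ·) this
  refine ⟨z i, ?_⟩
  rw [← kP, ← mulVec_smul, ← pv]
  congr 1; ext j
  by_cases h : j = i
  · simp [h]
  · have := congrFun hz j
    rw [mulVec_diagonal, hj j h] at this
    have : z j = 0 := by
      have h' : (2 : F) * z j = 0 := by linear_combination -this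
      exact (mul_eq_zero.1 h').resolve_left h2
    simp [h, this]

open Matrix in
theorem charC {F : Type*} [Field F] (h2 : (2 : F) ≠ 0) {H : Type*} [Group H]
    (n : H →* GL (Fin 3) F) (s : GL (Fin 3) F) (e : s * s = 1) (h1 : s ≠ 1)
    (hd : s.val.det = 1) (hc : ∀ x, n x * s = s * n x) :
    ∃ χ : H →* Fˣ, ∀ u, u * u = 1 → (n u).val.det = 1 → χ u = 1 → n u = 1 ∨ n u = s := by
  have e' : ∀ {u : GL (Fin 3) F}, u * u = 1 → u.val * u.val = 1 := fun h => by
    rw [← Units.val_mul, h]; rfl
  obtain ⟨w, w0, w1, hw⟩ := fixline h2 s.val (e' e) (fun h => h1 (Units.ext h)) hd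
  have ex : ∀ x, ∃ c : F, (n x).val *ᵥ w = c • w := fun x => hw _ (by
    rw [mulVec_mulVec, ← Units.val_mul, ← hc, Units.val_mul, ← mulVec_mulVec, w1])
  choose c hc' using ex
  have inj : ∀ a b : F, a • w = b • w → a = b := fun a b h => smul_left_injective F w0 h
  let φ : H →* F :=
    { toFun := c
      map_one' := inj _ _ (by rw [← hc']; simp)
      map_mul' := fun a b => inj _ _ (by
        rw [← hc', map_mul, Units.val_mul, ← mulVec_mulVec, hc', mulVec_smul, hc', smul_smul,
          mul_comm]) }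
  refine ⟨φ.toHomUnits, fun u hu hdu hχ => ?_⟩
  by_cases h : n u = 1
  · exact Or.inl h
  right
  have uu : n u * n u = 1 := by rw [← map_mul, hu, map_one]
  have uw : (n u).val *ᵥ w = w := by
    rw [hc', show c u = 1 from congrArg Units.val hχ, one_smul]
  obtain ⟨w', -, -, hw'⟩ := fixline h2 (n u).val (e' uu) (fun h' => h (Units.ext h')) hdu
  obtain ⟨a, ha⟩ := hw' w uw
  have a0 : a ≠ 0 := by rintro rfl; exact w0 (by simpa using ha)
  have k : ∀ {y : GL (Fin 3) F}, y * y = 1 → ∀ v, y.val *ᵥ y.val *ᵥ v = v := fun h v => by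
    rw [mulVec_mulVec, e' h]; simp
  refine Units.ext (ext_of_mulVec_single fun i => ?_)
  set v : Fin 3 → F := Pi.single i 1
  obtain ⟨α, hα⟩ := hw (v + s.val *ᵥ v) (by rw [mulVec_add, k e, add_comm])
  obtain ⟨β, hβ⟩ := hw' (v + (n u).val *ᵥ v) (by rw [mulVec_add, k uu, add_comm])
  have hs : s.val *ᵥ v = α • w - v := by rw [← hα]; abel
  have hn : (n u).val *ᵥ v = (β * a⁻¹) • w - v := by
    rw [mul_smul, ha, smul_smul a⁻¹, inv_mul_cancel₀ a0, one_smul, ← hβ]; abel
  have cm : (n u).val *ᵥ s.val *ᵥ v = s.val *ᵥ (n u).val *ᵥ v := by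
    rw [mulVec_mulVec, mulVec_mulVec, ← Units.val_mul, hc, Units.val_mul]
  rw [hs, hn, mulVec_sub, mulVec_sub, mulVec_smul, mulVec_smul, uw, w1, hs, hn] at cm
  have : α = β * a⁻¹ := by
    have h' : (2 * α) • w = (2 * (β * a⁻¹)) • w := by
      rw [two_mul, two_mul, add_smul, add_smul]
      have := congrArg (· + (α • w + (β * a⁻¹) • w - v)) cm
      calc α • w + α • w = α • w - ((β * a⁻¹) • w - v) + (α • w + (β * a⁻¹) • w - v) := by abel
        _ = _ := by rw [this]; abel
    exact mul_left_cancel₀ h2 (inj _ _ h')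
  rw [hs, hn, this]

theorem exists_neg {F : Type*} [Field F] (h2 : (2 : F) ≠ 0) {H : Type*} [Group H] [Finite H]
    (f : H →* GL (Fin 3) F) (hf : Function.Injective f) (hc : ∀ a b : H, a * b = b * a)
    (hs : ∀ a : H, a * a = 1) (h8 : Nat.card H = 8) : ∃ t, f t = -1 := by
  classical
  by_contra hne
  push Not at hne
  let σ : Fˣ →* GL (Fin 3) F := Units.map (algebraMap F (Matrix (Fin 3) (Fin 3) F)).toMonoidHom
  have σc : ∀ c x, σ c * x = x * σ c := fun c x => Units.ext (Algebra.commutes (c : F) x.val)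
  let δ : H →* Fˣ := Matrix.GeneralLinearGroup.det.comp f
  have pm : ∀ (χ : H →* Fˣ) a, χ a = 1 ∨ χ a = -1 := fun χ a => by
    have : (χ a : F) * χ a = 1 := by rw [← Units.val_mul, ← map_mul, hs]; simp
    rcases mul_self_eq_one_iff.1 this with h | h
    · exact Or.inl (Units.ext h)
    · exact Or.inr (Units.ext h)
  let n : H →* GL (Fin 3) F :=
    { toFun := fun a => σ (δ a) * f a
      map_one' := by simp
      map_mul' := fun a b => by
        rw [map_mul, map_mul, map_mul, mul_assoc, mul_assoc, ← mul_assoc (f a), ← σc (δ b) (f a),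
          mul_assoc] }
  have n_eq : ∀ a, n a = σ (δ a) * f a := fun _ => rfl
  have σm : σ (-1) = -1 := Units.ext (by simp [σ])
  have ndet : ∀ a, (n a).val.det = 1 := fun a => by
    have hδ : (f a).val.det = δ a := rfl
    rcases pm δ a with h | h
    · rw [n_eq, h, map_one, one_mul, hδ, h]; rfl
    · rw [n_eq, h, σm, neg_one_mul, Units.val_neg, Matrix.det_neg, hδ, h]; simp; norm_num
  have n1 : ∀ a, n a = 1 → a = 1 := fun a h => by
    rcases pm δ a with h' | h'
    · rw [n_eq, h', map_one, one_mul] at h; exact hf (by rw [h, map_one])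
    · rw [n_eq, h', σm, neg_one_mul, neg_eq_iff_eq_neg] at h; exact (hne a h).elim
  have ninj : Function.Injective n := (injective_iff_map_eq_one n).2 n1
  have := Fintype.ofFinite H
  have pick : ∀ s : Finset H, s.card < 8 → ∃ a, a ∉ s := fun s h => by
    by_contra h'
    push Not at h'
    rw [Finset.eq_univ_of_forall h', Finset.card_univ, ← Nat.card_eq_fintype_card, h8] at h
    exact lt_irrefl _ h
  obtain ⟨a, ha⟩ := pick {1} (by simp)
  obtain ⟨b, hb⟩ := pick {1, a} (Finset.card_le_two.trans_lt (by norm_num))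
  obtain ⟨c, hc'⟩ := pick {1, a, b, a * b} (Finset.card_le_four.trans_lt (by norm_num))
  simp only [Finset.mem_insert, Finset.mem_singleton, not_or] at ha hb hc'
  obtain ⟨χ, hχ⟩ := charC h2 n (n a) (by rw [← map_mul, hs, map_one]) (fun h => ha (n1 a h))
    (ndet a) (fun x => by rw [← map_mul, hc, map_mul])
  have key : ∀ u, u ≠ 1 → u ≠ a → χ u = -1 := fun u u1 ua =>
    (pm χ u).resolve_left fun h => (hχ u (hs u) (ndet u) h).elim (fun h => u1 (n1 u h))
      (fun h => ua (ninj h))
  have bi : b⁻¹ = b := inv_eq_of_mul_eq_one_right (hs b)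
  have h3 := key (b * c) (fun h => hc'.2.2.1 (by rw [← bi]; exact (inv_eq_of_mul_eq_one_right h).symm))
    (fun h => hc'.2.2.2 (by rw [← h, hc b c, mul_assoc, hs, mul_one]))
  rw [map_mul, key b hb.1 hb.2, key c hc'.1 hc'.2.1] at h3
  have := congrArg Units.val h3
  simp only [mul_neg, mul_one, neg_neg, Units.val_one, Units.val_neg] at this
  exact h2 (by linear_combination this)

/-- Let G be a finite group with no subgroup of index 2 whose Sylow 2-subgroup X embeds in GL₃(F) for a finite field F of odd order. If X contains an elementary abelian subgroup of order 8, then X is abelian. -/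
theorem result {G : Type*} [Group G] [Finite G] (hG : ∀ H : Subgroup G, H.index ≠ 2) (X : Sylow 2 G)
    {F : Type*} [Field F] [Fintype F] (hF : Odd (Fintype.card F))
    (f : ↥(X : Subgroup G) →* GL (Fin 3) F) (hf : Function.Injective f)
    (E : Subgroup G) (hE : E ≤ (X : Subgroup G)) (hEa : Cfsg.IsElementaryAbelian 2 E) (hE8 : Nat.card E = 8) :
    IsMulCommutative (X : Subgroup G) := by
  have h2 : (2 : F) ≠ 0 := fun h => by
    have : ringChar F = 2 := by
      have h' : ringChar F ∣ 2 := (ringChar.spec F 2).1 (by exact_mod_cast h)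
      rcases (Nat.dvd_prime Nat.prime_two).1 h' with h1 | h1
      · exact absurd h1 (CharP.ringChar_ne_one)
      · exact h1
    have := FiniteField.even_card_iff_char_two.1 this
    rw [Nat.odd_iff] at hF; omega
  have hSi : ¬ 2 ∣ (X : Subgroup G).index := X.not_dvd_index
  have hSp : IsPGroup 2 (X : Subgroup G) := X.isPGroup'
  generalize (X : Subgroup G) = S at *
  have m1 : (-1 : Fˣ) ≠ 1 := fun h => h2 (by
    have := congrArg Units.val h; simp only [Units.val_neg, Units.val_one] at this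
    linear_combination -this)
  obtain ⟨t0, ht⟩ := exists_neg h2 (f.comp (inclusion hE)) (hf.comp (inclusion_injective hE))
    (fun a b => hEa.1.is_comm.comm a b) (fun a => Subtype.ext (by simpa [sq] using hEa.2 a a.2)) hE8
  set t : S := inclusion hE t0
  have ft : f t = -1 := ht
  let δ : S →* Fˣ := Matrix.GeneralLinearGroup.det.comp f
  have δt : δ t = -1 := Units.ext (by
    change (f t).val.det = _
    rw [ft, Units.val_neg, Matrix.det_neg]; simp; norm_num)
  have tt : t * t = 1 := hf (by rw [map_mul, ft]; simp)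
  have tc : ∀ x : S, x * t = t * x := fun x => hf (by rw [map_mul, map_mul, ft]; simp)
  have kill : ∀ (χ : S →* Fˣ) (x : S), (x : G) ∈ ⁅S, S⁆ → χ x = 1 := fun χ x hx => by
    rw [← map_subtype_commutator] at hx
    obtain ⟨y, hy, e⟩ := hx
    obtain rfl : y = x := Subtype.ext e
    exact Abelianization.commutator_subset_ker χ hy
  by_contra hna
  have hne : ⁅S, S⁆ ≠ ⊥ := fun h => hna ⟨⟨fun a b => Subtype.ext (by
    have : ⁅(a : G), (b : G)⁆ ∈ ⁅S, S⁆ := commutator_mem_commutator a.2 b.2
    rw [h, mem_bot, commutatorElement_eq_one_iff_mul_comm] at this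
    exact this)⟩⟩
  have cle : ⁅S, S⁆ ≤ S := by rw [← map_subtype_commutator]; exact map_subtype_le _
  obtain ⟨u, hu, u2⟩ : ∃ u ∈ ⁅S, S⁆, orderOf u = 2 := by
    have hp : IsPGroup 2 ↥⁅S, S⁆ := hSp.to_le cle
    have : Nontrivial ↥⁅S, S⁆ := (nontrivial_iff_ne_bot _).2 hne
    obtain ⟨k, hk0, hk⟩ := hp.nontrivial_iff_card.1 this
    obtain ⟨u, hu⟩ := exists_prime_orderOf_dvd_card' (G := ↥⁅S, S⁆) 2
      (hk ▸ dvd_pow_self 2 hk0.ne')
    exact ⟨u, u.2, by rw [← hu]; exact orderOf_coe u⟩
  have t2 : (t : G) * t = 1 := congrArg Subtype.val tt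
  have hM : (t : G) ∈ δ.ker.map S.subtype := by
    refine CF.Loc.extremal_transfer_ab (S := S) (T := S) (M := δ.ker.map S.subtype) hSi
      (fun x hx => ⟨⟨x, cle hx⟩, kill δ _ hx, rfl⟩) t2
      (CF.Invol.mem_commutator_of_no_index_two hG ?_) t.2 hSp t.2
      (fun x hx => mem_centralizer_singleton_iff.2 (congrArg Subtype.val (tc ⟨x, hx⟩))) ?_
    · obtain ⟨k, hk⟩ := (IsPGroup.iff_orderOf.1 hSp) t
      exact ⟨k, by rw [← hk]; exact orderOf_coe t⟩
    intro g hg
    have hg' : S.map (MulAut.conj g⁻¹).toMonoidHom = S :=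
      eq_of_le_of_card_ge hg (card_map_of_injective (MulAut.conj g⁻¹).injective).ge
    have gS : ∀ x ∈ S, g⁻¹ * x * g ∈ S := fun x hx => hg ⟨x, hx, by simp⟩
    have gS' : ∀ x ∈ S, g * x * g⁻¹ ∈ S := fun x hx => by
      rw [← hg'] at hx
      obtain ⟨y, hy, rfl⟩ := hx
      simpa [mul_assoc] using hy
    set s : S := ⟨g⁻¹ * t * g, gS _ t.2⟩
    have ss : s * s = 1 := Subtype.ext (by
      change g⁻¹ * t * g * (g⁻¹ * t * g) = 1
      rw [show g⁻¹ * t * g * (g⁻¹ * t * g) = g⁻¹ * (t * t) * g by group, t2]; group)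
    have sc : ∀ x : S, x * s = s * x := fun x => Subtype.ext (by
      have : g * x * g⁻¹ * t = t * (g * x * g⁻¹) := congrArg Subtype.val (tc ⟨_, gS' _ x.2⟩)
      change x * (g⁻¹ * t * g) = g⁻¹ * t * g * x
      calc x * (g⁻¹ * t * g) = g⁻¹ * (g * x * g⁻¹ * t) * g := by group
        _ = _ := by rw [this]; group)
    refine ⟨t⁻¹ * s, ?_, rfl⟩
    have : (δ s : F) * δ s = 1 := by rw [← Units.val_mul, ← map_mul, ss]; simp
    rcases mul_self_eq_one_iff.1 this with h | h
    · exfalso
      have s1 : s ≠ 1 := fun h => by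
        have : (t : G) = 1 := by
          have e : g⁻¹ * t * g = 1 := congrArg Subtype.val h
          calc (t : G) = g * (g⁻¹ * t * g) * g⁻¹ := by group
            _ = 1 := by rw [e]; group
        rw [show t = 1 from Subtype.ext this, map_one] at δt
        exact m1 δt.symm
      obtain ⟨χ, hχ⟩ := charC h2 f (f s) (by rw [← map_mul, ss, map_one])
        (fun e => s1 (hf (by rw [e, map_one]))) h (fun x => by rw [← map_mul, sc, map_mul])
      have us : (⟨u, cle hu⟩ : S) = s := by
        refine hf ((hχ ⟨u, cle hu⟩ (Subtype.ext ?_) (congrArg Units.val (kill δ _ hu))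
          (kill χ _ hu)).resolve_left fun e => ?_)
        · change u * u = 1
          rw [← sq, ← u2, pow_orderOf_eq_one]
        · have : u = 1 := congrArg Subtype.val (hf (e.trans (map_one f).symm))
          rw [this, orderOf_one] at u2; omega
      have e : (t : G) = (MulAut.conj g).toMonoidHom u := by
        rw [show u = g⁻¹ * t * g from congrArg Subtype.val us]; simp [mul_assoc]
      have : (t : G) ∈ ⁅S, S⁆ := by
        have h' := mem_map_of_mem (MulAut.conj g).toMonoidHom hu
        rw [map_commutator, ← e] at h'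
        have l : S.map (MulAut.conj g).toMonoidHom ≤ S := by
          rintro _ ⟨y, hy, rfl⟩; exact gS' y hy
        exact commutator_mono l l h'
      exact m1 (δt.symm.trans (kill δ t this))
    · change δ (t⁻¹ * s) = 1
      rw [map_mul, map_inv, δt, show δ s = -1 from Units.ext h]; simp
  obtain ⟨y, hy, e⟩ := hM
  obtain rfl : y = t := Subtype.ext e
  exact m1 (δt.symm.trans hy)

end Cfsg.Agent.S1906
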