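import Cfsg.Statements.S1907
import Cfsg.Agent.BG.Sec6

set_option autoImplicit false
open Cfsg

namespace Cfsg.Agent.S1907

open CF.BG Subgroup in

/-- Let P be a Sylow p-subgroup of a finite group G, H = P ∩ O_{p',p}(G), N = N_G(H) and D = O_{p'}(G). (a) If y is an element of p-power order of N and d ∈ D with d⁻¹ y d ∈ N, then d = d₁ d₂ with d₁ ∈ C_D(y) and d₂ ∈ C_D(H). (b) Two elements of P that are conjugate in G are conjugate in N. -/
theorem result {G : Type*} [Group G] [Finite G] {p : ℕ} [Fact p.Prime] (P : Sylow p G) :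
    (∀ y ∈ Subgroup.normalizer (((P : Subgroup G) ⊓ Cfsg.pPrimePCore p G : Subgroup G) : Set G), (∃ k : ℕ, orderOf y = p ^ k) →
      ∀ d ∈ Cfsg.pPrimeCore p G, d⁻¹ * y * d ∈ Subgroup.normalizer (((P : Subgroup G) ⊓ Cfsg.pPrimePCore p G : Subgroup G) : Set G) →
        ∃ d₁ ∈ Cfsg.pPrimeCore p G ⊓ Subgroup.centralizer ({y} : Set G),
          ∃ d₂ ∈ Cfsg.pPrimeCore p G ⊓ Subgroup.centralizer (((P : Subgroup G) ⊓ Cfsg.pPrimePCore p G : Subgroup G) : Set G), d = d₁ * d₂) ∧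
    ∀ x y : G, x ∈ (P : Subgroup G) → y ∈ (P : Subgroup G) → IsConj x y →
      ∃ n ∈ Subgroup.normalizer (((P : Subgroup G) ⊓ Cfsg.pPrimePCore p G : Subgroup G) : Set G), n * x * n⁻¹ = y := by
  have hp : p.Prime := Fact.out
  have sP := syl_sylow_top P
  rw [pPrimePCore_eq hp, pPrimeCore_eq hp]
  set H := (P : Subgroup G) ⊓ O2 {p}ᶜ {p} ⊤
  set O := 𝐎 {p}ᶜ (⊤ : Subgroup G)
  have sH : Syl p H (O2 {p}ᶜ {p} ⊤) := sP.inf_O2
  have nO : O ⊴ ⊤ := O_normal _ _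
  have e : O ⊔ 𝐍 H = ⊤ := by
    have := sH.syl_frattini_sup (O2_normal _ _ _)
    rw [← sH.O_sup_eq, top_inf_eq, sup_assoc, sup_eq_right.2 (le_norm_self H)] at this
    exact this
  have key : ∀ y ∈ 𝐍 H, PiElt {p} y → ∀ g : G, g * y * g⁻¹ ∈ 𝐍 H →
      ∃ u ∈ 𝐍 H, ∃ c ∈ O ⊓ 𝐂₁ y, g = u * c := fun y hy py g hg => by
    have := cj_le_of_coprime nO e (zpowers_le.2 hy) (py.zpowers.coprime (O_pi _ _))
      (Or.inl (cyc_zpowers y).sol) (mem_top g) (by rw [cj_zpowers]; exact zpowers_le.2 hg)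
    rwa [cent_zpowers] at this
  refine ⟨fun y hy ⟨k, hk⟩ d hd h => ?_, fun x y hx hy h => ?_⟩
  · obtain ⟨u, hu, c, hc, e⟩ := key y hy (by change PiNat _ _; rw [hk]; exact piNat_pow_self hp k) d⁻¹
      (by rwa [inv_inv])
    have hu' : u ∈ O := by
      rw [eq_mul_inv_of_mul_eq e.symm]; exact mul_mem (inv_mem hd) (inv_mem hc.1)
    refine ⟨c⁻¹, inv_mem hc, u⁻¹, inv_mem ⟨hu', ?_⟩, by rw [← mul_inv_rev, ← e, inv_inv]⟩
    exact cent_of_inf_eq_bot (H := O ⊓ 𝐍 H) inf_le_right (norm_inf (le_top.trans nO.norm)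
      (norm_of_le (le_norm_self H))) (((O_pi _ _).inf_left).inf_eq_bot' sH.pi) ⟨hu', hu⟩
  · obtain ⟨g, rfl⟩ := isConj_iff.1 h
    have nP : (P : Subgroup G) ≤ 𝐍 H := norm_inf (le_norm_self _) (le_top.trans (O2_normal _ _ _).norm)
    obtain ⟨u, hu, c, hc, rfl⟩ := key x (nP hx) (sP.pi.elt hx) g (nP hy)
    refine ⟨u, hu, ?_⟩
    calc u * x * u⁻¹ = u * (x * c * c⁻¹) * u⁻¹ := by group
      _ = _ := by rw [← mem_cent1.1 hc.2]; group

end Cfsg.Agent.S1907
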