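import Cfsg.Statements.S1908
import Cfsg.Agent.BG.B11
import Cfsg.Agent.Hyp.FTProof

set_option autoImplicit false
open Cfsg

namespace Cfsg.Agent.S1908

open CF.BG Subgroup in
theorem step {G : Type*} [Group G] [Finite G] {π : Set ℕ} {N M : Subgroup G} [hN : N.Normal]
    [hM : M.Normal] (l : N ≤ M) (h : PiNat π (N.relIndex M) ∨ PiNat πᶜ (N.relIndex M))
    (k : ∃ K, M ≤ K ∧ PiNat π (M.relIndex K) ∧ PiNat πᶜ (K.relIndex ⊤) ∧
      ∀ U : Subgroup G, PiGrp π U → ∃ g, cj g U ≤ K) :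
    ∃ K, N ≤ K ∧ PiNat π (N.relIndex K) ∧ PiNat πᶜ (K.relIndex ⊤) ∧
      ∀ U : Subgroup G, PiGrp π U → ∃ g, cj g U ≤ K := by
  obtain ⟨K, a, b, c, d⟩ := k
  have n : ∀ X : Subgroup G, X ≤ 𝐍 N := fun X => le_top.trans (normalIn_top.2 hN).norm
  rcases h with h | h
  · exact ⟨K, l.trans a, relIndex_mul_relIndex N M K l a ▸ h.mul b, c, d⟩
  have hl : Hall πᶜ (qt N M) (qt N K) := ⟨qt_mono _ a, (piGrp_qt_iff (n M)).2 h,
    by rw [relIndex_qt l (n K)]; exact b.compl_compl⟩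
  obtain ⟨H, sd, hH⟩ := hl.exists_compl (qt_norm _ (le_top.trans (normalIn_top.2 hM).norm))
  have hK : qp N H ≤ K := qp_le_of_le_qt ⟨l.trans a, n K⟩ hH.le
  refine ⟨qp N H, le_qp _, by rw [relIndex_qp]; exact hH.pi.of_compl_compl, ?_, fun U u => ?_⟩
  · rw [← relIndex_mul_relIndex _ K ⊤ hK le_top, relIndex_qp_left _ (n K)]
    exact PiNat.mul (by simpa using hH.idx) c
  obtain ⟨g, hg⟩ := d U u
  have co : (♯(qt N (cj g U))).Coprime (♯(qt N M)) := PiNat.coprime ((u.cj g).qt N) hl.pi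
  obtain ⟨z, -, hz⟩ := exists_cj_le_of_le_sup sd.norm (sd.sup ▸ qt_mono N hg) co
    (CF.Hyp.isSolvable_or_of_coprime co)
  obtain ⟨y, hy, rfl⟩ := exists_qe z
  exact ⟨y * g, by rw [← cj_cj, ← qt_le_iff (n _), qt_cj hy]; exact hz⟩

open CF.BG Subgroup in

/-- Let π be a set of primes and G a finite π-separable group: G has a chain of normal subgroups from 1 to G in which each successive index is divisible only by primes in π or only by primes outside π. Then G has a Hall π-subgroup, any two Hall π-subgroups of G are conjugate, and every subgroup of G whose order is divisible only by primes in π lies in some Hall π-subgroup. -/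
theorem result {G : Type*} [Group G] [Finite G] (π : Set ℕ)
    (hsep : ∃ (n : ℕ) (H : Fin (n + 1) → Subgroup G), H 0 = ⊥ ∧ H (Fin.last n) = ⊤ ∧ Monotone H ∧ (∀ i, (H i).Normal) ∧
      ∀ i : Fin n, (∀ q : ℕ, q.Prime → q ∣ (H i.castSucc).relIndex (H i.succ) → q ∈ π) ∨
        (∀ q : ℕ, q.Prime → q ∣ (H i.castSucc).relIndex (H i.succ) → q ∉ π)) :
    (∃ K : Subgroup G, Cfsg.IsPiHall π K) ∧
      (∀ K L : Subgroup G, Cfsg.IsPiHall π K → Cfsg.IsPiHall π L → ∃ g : G, L = K.map (MulAut.conj g).toMonoidHom) ∧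
      ∀ U : Subgroup G, (∀ q : ℕ, q.Prime → q ∣ Nat.card U → q ∈ π) → ∃ K : Subgroup G, Cfsg.IsPiHall π K ∧ U ≤ K := by
  obtain ⟨n, H, h0, h1, hm, hn, hs⟩ := hsep
  have key : ∀ i : Fin (n + 1), ∃ K, H i ≤ K ∧ PiNat π ((H i).relIndex K) ∧
      PiNat πᶜ (K.relIndex ⊤) ∧ ∀ U : Subgroup G, PiGrp π U → ∃ g, cj g U ≤ K := fun i => by
    induction i using Fin.reverseInduction with
    | last => exact ⟨⊤, le_top, by simp [h1, piNat_one], by simp [piNat_one], fun _ _ => ⟨1, le_top⟩⟩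
    | cast i ih =>
      haveI := hn i.castSucc
      haveI := hn i.succ
      exact step (hm i.castSucc_lt_succ.le) (hs i) ih
  obtain ⟨K, -, a, b, c⟩ := key 0
  rw [h0, relIndex_bot_left] at a
  have hK : Hall π K ⊤ := ⟨le_top, a, b⟩
  refine ⟨⟨K, hall_top_iff.1 hK⟩, fun X Y hX hY => ?_, fun U u => ?_⟩
  · rw [← hall_top_iff] at hX hY
    obtain ⟨g, hg⟩ := c X hX.pi
    obtain ⟨f, hf⟩ := c Y hY.pi
    refine ⟨f⁻¹ * g, ?_⟩
    rw [← cj_def, ← cj_cj, (hX.cj_top g).eq_of_le' hK hg, ← (hY.cj_top f).eq_of_le' hK hf, cj_cj,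
      inv_mul_cancel, cj_one]
  · obtain ⟨g, hg⟩ := c U u
    exact ⟨cj g⁻¹ K, hall_top_iff.1 (hK.cj_top _), cj_le_iff.1 hg⟩

end Cfsg.Agent.S1908
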