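import Cfsg.Statements.S1924
import Cfsg.Agent.BG.B9
import Cfsg.Agent.Small.Auto
import Cfsg.Agent.Transfer.Tate

set_option autoImplicit false
open Cfsg

namespace Cfsg.Agent.S1924
open CF.BG Subgroup
open scoped commutatorElement Pointwise
theorem not_mem_res {H : Type*} [Group H] [Finite H] (T : Subgroup H) {c : H} {m : ℕ}
    (e : Even (orderOf c)) (hm : Odd m) (i : T.index = orderOf c * m)
    (h : ∀ (j : ℕ) (g : H), g⁻¹ * c ^ j * g ∈ T → c ^ j = 1) : c ∉ pResidual 2 H := fun k => by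
  classical
  have := Fintype.ofFinite (H ⧸ T)
  have := Fact.mk Nat.prime_two
  have fx : ∀ (j : ℕ) (x : H ⧸ T), (MulAction.toPermHom H (H ⧸ T) c ^ j) x = x → c ^ j = 1 := by
    intro j x hx
    obtain ⟨g, rfl⟩ := QuotientGroup.mk_surjective x
    rw [← map_pow] at hx
    have := inv_mem (QuotientGroup.eq.1 hx)
    exact h j g (by simpa [mul_assoc] using this)
  obtain ⟨n, h1, h2⟩ := CF.Small.sign_of_semiregular (MulAction.toPermHom H (H ⧸ T) c)
    fun j x hx => .inr (by rw [← map_pow, fx j x hx, map_one])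
  have o : orderOf (MulAction.toPermHom H (H ⧸ T) c) = orderOf c :=
    Nat.dvd_antisymm (orderOf_map_dvd _ _) (orderOf_dvd_of_pow_eq_one
      (fx _ (1 : H) (by rw [pow_orderOf_eq_one]; rfl)))
  have c1 : c ≠ 1 := fun j => by rw [j, orderOf_one] at e; exact absurd e (by decide)
  rw [Finset.eq_univ_of_forall fun x => Equiv.Perm.mem_support.2 fun j =>
    c1 (pow_one c ▸ fx 1 x (by rwa [pow_one])), Finset.card_univ, ← Nat.card_eq_fintype_card,
    ← index_eq_card, i, o, mul_right_inj' (orderOf_pos c).ne'] at h1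
  have := CF.Transfer.pResidual_le_ker (p := 2) (G' := ℤˣ) (IsPGroup.of_card (n := 1) (by simp))
    (Equiv.Perm.sign.comp (MulAction.toPermHom H (H ⧸ T))) k
  rw [MonoidHom.mem_ker, MonoidHom.comp_apply, h2, o, ← h1, (e.add_one.mul hm).neg_one_pow] at this
  exact absurd this (by decide)

theorem card_mul_le {G : Type*} [Group G] [Finite G] {T D S : Subgroup G} (i : D ⊓ T = ⊥)
    (a : T ≤ S) (b : D ≤ S) : Function.Injective
      fun x : T × D => (⟨x.1 * x.2, mul_mem (a x.1.2) (b x.2.2)⟩ : S) := fun x y e => by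
  have e : (x.1 : G) * x.2 = y.1 * y.2 := congrArg Subtype.val e
  have k : (x.2 : G) * (y.2 : G)⁻¹ = (x.1 : G)⁻¹ * y.1 := by
    rw [mul_inv_eq_iff_eq_mul, mul_assoc, ← e, inv_mul_cancel_left]
  have : (x.2 : G) * (y.2 : G)⁻¹ = 1 :=
    i.le (mem_inf.2 ⟨mul_mem x.2.2 (inv_mem y.2.2), k ▸ mul_mem (inv_mem x.1.2) y.1.2⟩)
  exact Prod.ext (Subtype.ext (inv_mul_eq_one.1 (k ▸ this))) (Subtype.ext (mul_inv_eq_one.1 this))

theorem dih {n : ℕ} (n2 : 2 ≤ n) (C : Subgroup (DihedralGroup n)) (c : IsCyclic C) (i : C.index = 2)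
    {x : DihedralGroup n} (hx : x ∉ C) : x * x = 1 := by
  have : NeZero n := ⟨by omega⟩
  have e := C.card_mul_index
  rw [i, DihedralGroup.nat_card] at e
  obtain ⟨y, rfl⟩ := Cyc.exists_gen (H := C) c
  rw [Nat.card_zpowers] at e
  rcases x with x | x
  · rcases y with y | y
    · refine (hx ?_).elim
      have : zpowers (DihedralGroup.r y) = zpowers (DihedralGroup.r (1 : ZMod n)) := eq_of_card_eq
        (zpowers_le.2 ⟨y.val, by simp⟩)
        (by rw [Nat.card_zpowers, Nat.card_zpowers, DihedralGroup.orderOf_r_one]; omega)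
      exact this ▸ ⟨x.val, by simp⟩
    · rw [DihedralGroup.orderOf_sr] at e
      obtain rfl : n = 2 := by omega
      clear hx; revert x; decide
  · exact DihedralGroup.sr_mul_self x


/-- A consequence of Thompson's transfer lemma. Let G be a finite group, L a subgroup with O²(L) = L, T a Sylow 2-subgroup of L and S a Sylow 2-subgroup of G containing T. Suppose D ≤ S is a dihedral subgroup of order at least 4 (the four-group counts) with D ∩ T = 1 and S = TD as a set of products (so |S| = |T|·|D|), and C ≤ D is cyclic of index 2 in D. If no involution of D outside C is G-conjugate to an involution of the subgroup generated by T and C, and the involution of C is not G-conjugate to any involution of T, then G has a normal subgroup K, containing every Sylow 2-subgroup of L as a Sylow 2-subgroup, with G = KD. -/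
theorem result {G : Type*} [Group G] [Finite G] (L T S D C : Subgroup G) (hL : Cfsg.pResidual 2 ↥L = ⊤)
    (hTL : T ≤ L) (hT2 : IsPGroup 2 T) (hTsyl : ¬ 2 ∣ T.relIndex L)
    (hS2 : IsPGroup 2 S) (hSsyl : ¬ 2 ∣ S.index) (hTS : T ≤ S)
    (hDS : D ≤ S) (hDih : ∃ n : ℕ, 2 ≤ n ∧ Nonempty (↥D ≃* DihedralGroup n)) (hDT : D ⊓ T = ⊥) (hTD : T ⊔ D = S) (hTDc : Nat.card T * Nat.card D = Nat.card S)
    (hCD : C ≤ D) (hC : IsCyclic ↥C) (hCi : C.relIndex D = 2)
    (h1 : ∀ x ∈ D, x ∉ C → orderOf x = 2 → ∀ g : G, g * x * g⁻¹ ∈ T ⊔ C → False)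
    (h2 : ∀ c ∈ C, orderOf c = 2 → ∀ g : G, g * c * g⁻¹ ∈ T → False) :
    ∃ K : Subgroup G, K.Normal ∧ K ⊔ D = ⊤ ∧
      ∀ T' : Subgroup G, T' ≤ L → IsPGroup 2 T' → ¬ 2 ∣ T'.relIndex L → T' ≤ K ∧ ¬ 2 ∣ T'.relIndex K := by
  have p2 := Nat.prime_two
  have := Fact.mk p2
  obtain ⟨n, n2, ⟨e⟩⟩ := hDih
  have pS := piGrp_of_isPGroup p2 hS2
  have s : Syl 2 S ⊤ := syl_mk p2 le_top pS (by rwa [relIndex_top_right])
  have iv : ∀ x ∈ D, x ∉ C → orderOf x = 2 := fun x hx k => by
    refine orderOf_eq_prime ?_ fun j => k (j ▸ one_mem _)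
    have := dih n2 ((C.subgroupOf D).map e.toMonoidHom) (Cyc.map (Cyc.subgroupOf hC D) _)
      (by rw [index_map_of_bijective e.bijective]; exact hCi) (x := e ⟨x, hx⟩)
      fun ⟨y, hy, j⟩ => k (by rw [e.injective j] at hy; exact hy)
    rw [← map_mul, map_eq_one_iff _ e.injective] at this
    rw [pow_two]; exact congrArg Subtype.val this
  have l : T ⊔ C ≤ S := sup_le hTS (hCD.trans hDS)
  have i2 : (T ⊔ C).relIndex S = 2 := by
    obtain ⟨x, hx, k⟩ := SetLike.not_le_iff_exists.1 fun j : D ≤ C => by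
      rw [relIndex_eq_one.2 j] at hCi; omega
    have c1 := Nat.card_le_card_of_injective _ (card_mul_le
      (CF.BG.eq_bot_mono hDT (inf_le_inf_right T hCD)) le_sup_left le_sup_right)
    have c2 := card_mul_relIndex hCD
    have c3 := card_mul_relIndex l
    obtain ⟨j, ej⟩ := (pS.relIndex (T ⊔ C)).exists_pow (relIndex_ne_zero' _ _)
    rw [Nat.card_prod] at c1
    rw [← hTDc, ← c2, hCi, ← mul_assoc] at c3
    have c4 : (T ⊔ C).relIndex S ≤ 2 := Nat.le_of_mul_le_mul_left (c3.le.trans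
      (Nat.mul_le_mul_right 2 c1)) Nat.card_pos
    have c5 : (T ⊔ C).relIndex S ≠ 1 := fun j =>
      h1 x hx k (iv x hx k) 1 (by simpa using relIndex_eq_one.1 j (hDS hx))
    have := relIndex_pos (T ⊔ C) S
    omega
  have nK := normalIn_top.2 (inferInstance : (pResidual 2 G).Normal)
  have lK : L ≤ pResidual 2 G := by
    rw [← map_top_subtype L, ← hL, CF.Transfer.map_pResidual_subtype]
    exact CF.Transfer.pRes_le_pResidual L
  have dC : D ⊓ pResidual 2 G ≤ C := fun x hx => by_contra fun k => by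
    obtain ⟨K, _, i, m⟩ := CF.Transfer.thompson_transfer hSsyl i2 (hDS hx.1) (iv x hx.1 k)
      (h1 x hx.1 k (iv x hx.1 k))
    exact m (CF.Transfer.pResidual_le_of_index (k := 1) i hx.2)
  have tK := hTL.trans lK
  have sK := s.inf_normal nK
  have cK : ♯T * ♯(D ⊓ pResidual 2 G : Subgroup G) = ♯(S ⊓ pResidual 2 G : Subgroup G) := by
    rw [← Nat.card_prod]
    refine Nat.card_congr (.ofBijective _ ⟨card_mul_le (CF.BG.eq_bot_mono hDT
      (inf_le_inf_right T inf_le_left)) (le_inf hTS tK) (inf_le_inf_right _ hDS), fun x => ?_⟩)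
    obtain ⟨⟨t, d⟩, j⟩ := ((Nat.bijective_iff_injective_and_card _).2 ⟨card_mul_le hDT hTS hDS,
      by rw [Nat.card_prod, hTDc]⟩).2 ⟨x, x.2.1⟩
    have j : (t : G) * d = x := congrArg Subtype.val j
    exact ⟨⟨t, d, d.2, (mul_mem_cancel_left (tK t.2)).1 (j ▸ x.2.2)⟩, Subtype.ext j⟩
  obtain ⟨c, hc⟩ := Cyc.exists_gen (Cyc.mono hC dC)
  have m : c ∈ D ⊓ pResidual 2 G := hc ▸ mem_zpowers c
  have c1 : c = 1 := by_contra fun c1 => by
    refine not_mem_res (T.subgroupOf (pResidual 2 G)) (c := ⟨c, m.2⟩)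
      (m := (S ⊓ pResidual 2 G).relIndex (pResidual 2 G)) ?_
      (Nat.odd_iff.2 (Nat.two_dvd_ne_zero.1 (sK.not_dvd p2))) ?_ (fun j g k => by_contra fun k1 => ?_)
      (CF.Transfer.pResidual_pResidual.ge (mem_top _))
    · rw [orderOf_mk, ← Nat.card_zpowers]
      exact even_iff_two_dvd.2 ((pS.le (zpowers_le.2 (hDS m.1))).dvd_card (by simpa using c1))
    · rw [orderOf_mk, ← Nat.card_zpowers, hc, ← relIndex,
        ← relIndex_mul_relIndex T _ _ (le_inf hTS tK) inf_le_right]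
      congr 1
      exact Nat.eq_of_mul_eq_mul_left Nat.card_pos ((card_mul_relIndex (le_inf hTS tK)).trans cK.symm)
    · have lz : zpowers (c ^ j) ≤ D ⊓ pResidual 2 G := zpowers_le.2 (pow_mem m j)
      obtain ⟨y, hy, o⟩ := exists_mem_orderOf_eq p2 ((pS.le (lz.trans (inf_le_left.trans hDS))).dvd_card
        (by simpa [Subtype.ext_iff] using k1))
      refine h2 y (dC (lz hy)) o (g : G)⁻¹ ?_
      obtain ⟨i, rfl⟩ := hy
      have := zpow_mem (show (g : G)⁻¹ * c ^ j * (g : G)⁻¹⁻¹ ∈ T by simpa [mem_subgroupOf] using k) i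
      rwa [conj_zpow] at this
  rw [← hc, c1, zpowers_one_eq_bot, card_bot, mul_one] at cK
  refine ⟨_, inferInstance, ?_, fun T' a b c => ⟨a.trans lK, ?_⟩⟩
  · obtain ⟨P, rfl⟩ := s.exists_sylow_top
    rw [eq_top_iff, ← CF.Transfer.sylow_sup_pResidual P, ← hTD]
    exact sup_le (sup_le (tK.trans le_sup_left) le_sup_right) le_sup_left
  · exact (sK.of_card (a.trans lK) (((syl_mk p2 a (piGrp_of_isPGroup p2 b) c).card_eq
      (syl_mk p2 hTL (piGrp_of_isPGroup p2 hT2) hTsyl)).trans cK)).not_dvd p2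

end Cfsg.Agent.S1924
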