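import Cfsg.Statements.S1935
import Cfsg.Agent.Lynd.Top

set_option autoImplicit false
open Cfsg

namespace Cfsg.Agent.S1935

/-- Let p ≥ 5 be a prime and, inside an ambient finite group, let G be a p-subgroup acting faithfully by conjugation on an elementary abelian p-subgroup V that it normalizes (only the identity of G centralizes V). Suppose V is an F-module for G: some nontrivial elementary abelian subgroup E of G satisfies #E · #C_V(E) ≥ #V. Then G contains such an offender A that moreover acts quadratically on V ([V, A, A] = 1) and is normal in its normal closure in G. -/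
theorem result {Ω : Type*} [Group Ω] [Finite Ω] (p : ℕ) [Fact p.Prime] (hp : 5 ≤ p) (V G : Subgroup Ω) (hV : Cfsg.IsElementaryAbelian p V) (hG : IsPGroup p ↥G) (hGV : G ≤ Subgroup.normalizer (V : Set Ω)) (hfaith : G ⊓ Subgroup.centralizer (V : Set Ω) = ⊥) (hF : ∃ E : Subgroup Ω, E ≤ G ∧ E ≠ ⊥ ∧ Cfsg.IsElementaryAbelian p E ∧ Nat.card ↥V ≤ Nat.card ↥E * Nat.card ↥(V ⊓ Subgroup.centralizer (E : Set Ω))) : ∃ A : Subgroup Ω, A ≤ G ∧ A ≠ ⊥ ∧ Cfsg.IsElementaryAbelian p A ∧ Nat.card ↥V ≤ Nat.card ↥A * Nat.card ↥(V ⊓ Subgroup.centralizer (A : Set Ω)) ∧ ⁅⁅V, A⁆, A⁆ = ⊥ ∧ ∀ g ∈ Subgroup.closure {x : Ω | ∃ h ∈ G, ∃ a ∈ A, x = h * a * h⁻¹}, ∀ a ∈ A, g * a * g⁻¹ ∈ A := by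
  obtain ⟨E, EG, E0, eE, off⟩ := hF
  have hc : E ⊓ Subgroup.centralizer (V : Set Ω) = ⊥ := le_bot_iff.1 (hfaith ▸ inf_le_inf_right _ EG)
  obtain ⟨B, BE, nB, qB, best⟩ := CF.FF.exists_best_quad (p := p) (V := V) (A := E)
    (Subgroup.le_centralizer_iff_isMulCommutative.2 hV.1)
    (fun v => ⟨1, Subtype.ext (by simpa using hV.2 v v.2)⟩) (hG.to_le EG) (EG.trans hGV)
    (by rw [Subgroup.commutator_eq_bot_iff_le_centralizer.2 (Subgroup.le_centralizer_iff_isMulCommutative.2 eE.1)]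
        exact bot_le) (fun h => E0 (by rwa [inf_eq_left.2 h] at hc)) (by rw [hc]; simpa using off)
  obtain ⟨A, AG, h1, h2, h3, h4, h5⟩ := CF.Lynd.top hp hV hG hGV hfaith (BE.trans EG) qB
  refine ⟨A, AG, fun e => nB ?_, h3, le_trans ?_ (Nat.mul_le_mul h1 h2), h4, h5⟩
  · rw [e, Subgroup.card_bot] at h1
    rw [Subgroup.eq_bot_of_card_le B h1]; exact bot_le
  · have := best ⊥ bot_le
    rwa [Subgroup.card_bot, one_mul, inf_eq_left.2 (Subgroup.le_centralizer_iff.2 bot_le)] at this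

end Cfsg.Agent.S1935
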