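import Cfsg.Statements.S1939
import Cfsg.Agent.Sig.Amb

set_option autoImplicit false
open Cfsg

namespace Cfsg.Agent.S1939

open CF.BG CF.Sig Subgroup in

/-- Let S be a Sylow p-subgroup of the finite group G and a an element of S that is the only G-conjugate of a lying in S. Then every power of a has the same property: for every n, the only G-conjugate of a^n lying in S is a^n. -/
theorem result {G : Type*} [Group G] [Finite G] {p : ℕ} [Fact p.Prime] (S : Sylow p G) (a : G)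
    (haS : a ∈ (S : Subgroup G)) (hwc : ∀ g : G, g * a * g⁻¹ ∈ (S : Subgroup G) → g * a * g⁻¹ = a) (n : ℕ) :
    ∀ g : G, g * a ^ n * g⁻¹ ∈ (S : Subgroup G) → g * a ^ n * g⁻¹ = a ^ n := by
  intro g hg
  have hp : p.Prime := Fact.out
  have hS := syl_sylow_top S
  have c : (S : Subgroup G) ≤ 𝐂₁ a := fun s hs => by
    have := hwc s (mul_mem (mul_mem hs haS) (inv_mem hs))
    exact mem_cent1.2 (mul_inv_eq_iff_eq_mul.1 this)
  set b := g * a ^ n * g⁻¹ with hb
  have c1 : (S : Subgroup G) ≤ 𝐂₁ (a ^ n) := fun s hs =>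
    mem_cent1.2 ((Commute.pow_right (mem_cent1.1 (c hs)) n).eq)
  have c2 : cj g S ≤ 𝐂₁ b := by rw [hb, ← cj_cent1]; exact cj_mono g c1
  have s2 : Syl p (cj g S) (𝐂₁ b) := (hS.cj_top g).of_le c2 le_top
  have hab : zpowers a ≤ 𝐂₁ b := zpowers_le.2 (mem_cent1_comm.1 (c hg))
  obtain ⟨h, hh, e⟩ := s2.syl_cj_le hab (hS.pi.elt haS).zpowers
  have h1 := e (conj_mem_cj.2 (mem_zpowers a))
  rw [mem_cj] at h1
  have h2 := hwc (g⁻¹ * h) (by simpa [mul_assoc] using h1)
  have h3 : h * a ^ n * h⁻¹ = b := by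
    rw [hb, ← conj_pow, ← conj_pow]
    congr 1
    calc h * a * h⁻¹ = g * (g⁻¹ * h * a * (g⁻¹ * h)⁻¹) * g⁻¹ := by group
      _ = g * a * g⁻¹ := by rw [h2]
  have h4 := mem_cent1.1 hh
  have : a ^ n = h⁻¹ * b * h := by rw [← h3]; group
  rw [this, mul_assoc, ← h4]; group

end Cfsg.Agent.S1939
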