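import Cfsg.Statements.S1940
import Cfsg.Agent.Sig.Avg

set_option autoImplicit false
open Cfsg

namespace Cfsg.Agent.S1940

open CF.BG CF.Sig Subgroup in

/-- Let the finite group L act by automorphisms on the finite abelian group M, and let N be an L-invariant subgroup of M such that M/N is a p-group on which L acts trivially (every l • m lies in the coset mN). If every element of M is a product of an element of N and an element fixed by a Sylow p-subgroup T of L, then every element of M is a product of an element of N and an element fixed by all of L. -/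
theorem result {L : Type*} [Group L] [Finite L] {M : Type*} [CommGroup M] [Finite M] [MulDistribMulAction L M]
    {p : ℕ} [Fact p.Prime] (N : Subgroup M) (hN : ∀ (l : L) (m : M), m ∈ N → l • m ∈ N)
    (hquot : IsPGroup p (M ⧸ N)) (htriv : ∀ (l : L) (m : M), (l • m) * m⁻¹ ∈ N) (T : Sylow p L)
    (hT : ∀ m : M, ∃ n ∈ N, ∃ c : M, (∀ t ∈ (T : Subgroup L), t • c = c) ∧ m = n * c) :
    ∀ m : M, ∃ n ∈ N, ∃ c : M, (∀ l : L, l • c = c) ∧ m = n * c := by
  intro m
  obtain ⟨τ, h1, h2⟩ := exists_avg (MulDistribMulAction.toMulAut L M) (T : Subgroup L)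
  obtain ⟨n, hn, c, hc, rfl⟩ := hT m
  have a := h2 N c fun l => htriv l c
  obtain ⟨k, hk⟩ := hquot (QuotientGroup.mk c)
  obtain ⟨j, -, hj⟩ := Nat.exists_mul_mod_eq_one_of_coprime (Nat.Coprime.pow_right (k + 1)
    ((Nat.Prime.coprime_iff_not_dvd Fact.out).2 T.not_dvd_index).symm)
    (Nat.one_lt_pow k.succ_ne_zero (Fact.out : p.Prime).one_lt)
  refine ⟨n * (c * (τ c ^ j)⁻¹), mul_mem hn ?_, τ c ^ j, fun l => ?_, by group⟩
  · rw [← QuotientGroup.eq_one_iff, QuotientGroup.mk_mul, QuotientGroup.mk_inv, mul_inv_eq_one] at a ⊢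
    rw [QuotientGroup.mk_pow, a, QuotientGroup.mk_pow, ← pow_mul, ← Nat.div_add_mod (_ * j) (p ^ (k + 1)),
      hj, pow_add, pow_mul, pow_succ p, pow_mul, hk]
    simp
  · rw [smul_pow']; exact congrArg (· ^ j) (h1 c hc l)

end Cfsg.Agent.S1940
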