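import Cfsg.Statements.S1941
import Cfsg.Agent.Sig.Amb
import Cfsg.Agent.Solv.Gaschutz

set_option autoImplicit false
open Cfsg

namespace Cfsg.Agent.S1941

open CF.BG CF.Sig Subgroup in

/-- Let G be a finite group with no nontrivial normal subgroup of order prime to p, T a Sylow p-subgroup of G and E(G) the layer of G (the subgroup generated by its components). An automorphism of G of p-power order that fixes T and E(G) elementwise is inner. -/
theorem result {G : Type*} [Group G] [Finite G] {p : ℕ} [Fact p.Prime] (hcore : Cfsg.pPrimeCore p G = ⊥)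
    (T : Sylow p G) (α : MulAut G) (hα : ∃ j : ℕ, orderOf α = p ^ j) (hfixT : ∀ x ∈ (T : Subgroup G), α x = x)
    (hfixE : ∀ x ∈ Cfsg.layer G, α x = x) : ∃ g : G, ∀ x : G, α x = g * x * g⁻¹ := by
  have hp : p.Prime := Fact.out
  have h0 : 𝐎 {p}ᶜ (⊤ : Subgroup G) = ⊥ := by rw [← pPrimeCore_eq hp, hcore]
  have hF : 𝐅 (⊤ : Subgroup G) = 𝐎 {p} ⊤ := F_eq_O_of h0
  have sT := syl_sylow_top T
  -- α fixes F*
  have hfix : ∀ x ∈ Fst (⊤ : Subgroup G), α x = x := by
    have : Fst (⊤ : Subgroup G) ≤ α.toMonoidHom.eqLocus (MonoidHom.id G) := by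
      rw [Fst_eq, Lay_top, hF]
      exact sup_le (fun x hx => hfixE x hx) (fun x hx => hfixT x (sT.O_le hx))
    exact fun x hx => this hx
  set K : Subgroup G := 𝐂 (Fst (⊤ : Subgroup G)) with hK
  have hKF : K ≤ 𝐅 (⊤ : Subgroup G) := le_trans (le_inf le_top le_rfl) (cent_Fst_le ⊤)
  have hKn : K ⊴ ⊤ := ⟨le_top, norm_cent (Fst_normal ⊤).2⟩
  haveI : K.Normal := normalIn_top.1 hKn
  have hKa : Abel K := cent_anti (hKF.trans (F_le_Fst ⊤))
  haveI : IsMulCommutative K := hKa.comm
  have hKp : PiGrp {p} K := (O_pi _ _).le (hF ▸ hKF)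
  have hcop : (Nat.card K).Coprime (T : Subgroup G).index := by
    have := sT.idx
    rw [relIndex_top_right] at this
    exact hKp.coprime this
  have hmem : ∀ g : G, α g * g⁻¹ ∈ K := by
    intro g
    rw [hK, mem_cent]
    intro f hf
    have h1 : g⁻¹ * f * g ∈ Fst (⊤ : Subgroup G) := (Fst_normal ⊤).conj_mem' (mem_top g) hf
    have h2 := hfix _ h1
    rw [map_mul, map_mul, map_inv, hfix f hf] at h2
    calc f * (α g * g⁻¹) = α g * ((α g)⁻¹ * f * α g) * g⁻¹ := by group
      _ = α g * (g⁻¹ * f * g) * g⁻¹ := by rw [h2]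
      _ = _ := by group
  obtain ⟨m, hm⟩ := CF.Solv.exists_principal_of_crossed (K := K) hcop
    (fun g => ⟨α g * g⁻¹, hmem g⟩) (fun u v => by
      apply Subtype.ext
      simp only [map_mul, coe_mul, MulAut.conjNormal_apply]
      group) (fun u hu => by
      apply Subtype.ext
      simp [hfixT u hu])
  refine ⟨m, fun x => ?_⟩
  have := congrArg Subtype.val (hm x)
  simp only [coe_mul, MulAut.conjNormal_apply] at this
  calc α x = (α x * x⁻¹ * (x * m * x⁻¹)) * x * (m : G)⁻¹ := by group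
    _ = _ := by rw [this]

end Cfsg.Agent.S1941
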