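import Cfsg.Statements.S1945
import Cfsg.Agent.Sig.Avg
import Cfsg.Agent.Fus.S4

set_option autoImplicit false
open Cfsg

namespace Cfsg.Agent.S1945

open CF.BG CF.Sig Subgroup CF.PLocal in

/-- Let S be a Sylow p-subgroup of the finite group G, and assume that p is odd or that G is solvable. The elements of S each of which is its only G-conjugate in S form a subgroup W of Z(S); W is then a direct factor of Z(S): there is a subgroup K of Z(S) with W ∩ K = 1 and WK = Z(S). (For p = 2 and G not solvable this can fail.) -/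
theorem result {G : Type*} [Group G] [Finite G] {p : ℕ} [Fact p.Prime] (S : Sylow p G) (h : p ≠ 2 ∨ Group.IsSolvable G) :
    ∃ W K : Subgroup G, (∀ x : G, x ∈ W ↔ (x ∈ (S : Subgroup G) ∧ ∀ g : G, g * x * g⁻¹ ∈ (S : Subgroup G) → g * x * g⁻¹ = x)) ∧
      K ≤ ((S : Subgroup G) ⊓ Subgroup.centralizer ((S : Subgroup G) : Set G)) ∧ W ⊓ K = ⊥ ∧ W ⊔ K = ((S : Subgroup G) ⊓ Subgroup.centralizer ((S : Subgroup G) : Set G)) := by
  have s := syl_sylow_top S
  rcases h with h | h
  · exact wc_factor s (thompson_le 0 _) ((le_norm_self _).trans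
      (normalizer_le_normalizer_thompson 0 _)) (fun x hx => mem_thompson_of_centralizer hx.1
        (cent_anti (thompson_le 0 _) hx.2) (pow_zero x)) fun x hx c =>
      CF.Fus.weakly_closed_of_thompson (CF.Fus.sylIn_top S) hx
        (fun g hg => mul_inv_eq_iff_eq_mul.2 (mem_cent.1 c g hg)) (.inl h)
  · exact wc_factor_O2 s (le_trans (le_inf le_top (inf_le_right.trans (cent_anti inf_le_left)))
      (Sol.cent_le_O2 inferInstance s.inf_O2))

end Cfsg.Agent.S1945
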