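import Cfsg.Statements.S1948
import Cfsg.Agent.Transfer.Ctrl
import Cfsg.Agent.PLocal.Constraint

set_option autoImplicit false
open Cfsg

namespace Cfsg.Agent.S1948

/-- Let S be a Sylow p-subgroup of the finite group G. Then G = N_G(S)·O_{p'}(G) if and only if G is p-constrained and N_G(S) controls fusion in S, in the sense that whenever a subgroup Q of S has a conjugate g Q g⁻¹ inside S, the element g is a product n c with n normalizing S and c centralizing Q. -/
theorem result {G : Type*} [Group G] [Finite G] {p : ℕ} [Fact p.Prime] (S : Sylow p G) :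
    Subgroup.normalizer ((S : Subgroup G) : Set G) ⊔ Cfsg.pPrimeCore p G = ⊤ ↔
      (Cfsg.IsPConstrained p G ∧
        ∀ Q : Subgroup G, Q ≤ (S : Subgroup G) → ∀ g : G, Q.map (MulAut.conj g).toMonoidHom ≤ (S : Subgroup G) →
          ∃ n ∈ Subgroup.normalizer ((S : Subgroup G) : Set G), ∃ c ∈ Subgroup.centralizer (Q : Set G), g = n * c) := by
  open CF.Transfer Subgroup in
  have hcop := CF.Solv.pPrimeCore_coprime (p := p) (G := G)
  constructor
  · intro h
    have hS := isSylowIn_map_top S (QuotientGroup.mk'_surjective (Cfsg.pPrimeCore p G))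
    have hn : ((S : Subgroup G).map (QuotientGroup.mk' (Cfsg.pPrimeCore p G))).Normal := by
      rw [← normalizer_eq_top_iff, ← map_mk'_normalizer_of_coprime hcop S.isPGroup', eq_top_iff,
        ← map_top_of_surjective _ (QuotientGroup.mk'_surjective (Cfsg.pPrimeCore p G)), ← h,
        Subgroup.map_sup, QuotientGroup.map_mk'_self, sup_bot_eq]
    refine ⟨CF.PLocal.isPConstrained_iff.2 (isCharPGroup_of_inf_le hS.toSylowTop
      CF.Solv.pPrimeCore_quotient_pPrimeCore (inf_le_left.trans (CF.Solv.le_pCore (hN := hn) hS.isPGroup))),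
      fun Q hQ g hg => ?_⟩
    obtain ⟨n, hn, c, hc, rfl⟩ := mem_sup_of_normal_right.1 (h.ge (mem_top g))
    refine ⟨n, hn, c, fun q hq => ?_, rfl⟩
    have h1 : c * q * c⁻¹ ∈ (S : Subgroup G) := by
      have := inv_conj_mem_of_mem_normalizer hn (hg (conj_mem_cj hq))
      simpa [mul_assoc] using this
    have h2 : q⁻¹ * (c * q * c⁻¹) = 1 := eq_one_of_mem_pGroup_of_coprime S.isPGroup'
      (mul_mem (inv_mem (hQ hq)) h1) (coprime_orderOf_of_mem hcop (by
        have := mul_mem (Normal.conj_mem inferInstance c hc q⁻¹) (inv_mem hc)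
        simpa [mul_assoc] using this))
    rw [inv_mul_eq_one, eq_mul_inv_iff_mul_eq] at h2
    exact h2
  · rintro ⟨h1, h2⟩
    have hT := isSylowIn_inf_normal S (Cfsg.pPrimePCore p G)
    obtain ⟨T, hT'⟩ := isSylowIn_iff_exists_sylow.1 hT
    have h3 := h1 T
    rw [hT'] at h3
    have h4 : Cfsg.pPrimePCore p G ≤
        normalizer ((S : Subgroup G) : Set G) ⊔ Cfsg.pPrimeCore p G := by
      refine le_trans ?_ (sup_le_sup_right (inf_le_left.trans le_normalizer :
        (S : Subgroup G) ⊓ Cfsg.pPrimePCore p G ≤ _) _)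
      have := comap_map_eq (QuotientGroup.mk' (Cfsg.pPrimeCore p G))
        ((S : Subgroup G) ⊓ Cfsg.pPrimePCore p G)
      rw [CF.PLocal.map_mk'_eq_pCore hT, QuotientGroup.ker_mk'] at this
      exact this.le
    rw [eq_top_iff]
    intro g _
    obtain ⟨y, hy, m, hm, rfl⟩ := hT.frattini' (h := g) (le_normalizer_of_normal (mem_top g))
    obtain ⟨n, hn, c, hc, rfl⟩ := h2 _ inf_le_left y
      ((cj_eq_of_mem_normalizer hy).le.trans inf_le_left)
    exact mul_mem (mul_mem (mem_sup_left hn) (h4 (h3 hc))) (h4 hm)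

end Cfsg.Agent.S1948
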