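import Cfsg.Statements.S1950
import Cfsg.Agent.CIT.FiA
import Cfsg.Agent.PLocal.NPC
import Cfsg.Agent.GW.DG
import Cfsg.Agent.CIT.App

set_option autoImplicit false
open Cfsg

namespace Cfsg.Agent.S1950

open CF.BG CF.CIT Subgroup in
theorem aux {G : Type*} [Group G] [Finite G] {p : ℕ} [Fact p.Prime] {P : Subgroup G} (hP : Syl p P ⊤)
    (c : Cyc P) (O : 𝐎 {p}ᶜ (⊤ : Subgroup G) = ⊥)
    (h : ∀ x y : G, orderOf x = p → orderOf y = p → IsPSolvable p (closure ({x, y} : Set G))) :
    IsPSolvable p G := by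
  have n : P.Normal := by
    by_cases o : p = 2
    · subst o
      have := ((CF.GW.npc_of_cyc hP c).sdprod hP).sup
      rw [O, bot_sup_eq] at this
      exact this ▸ inferInstance
    refine FG.normal ⟨Fact.out, hP, fun x hx y hy ⟨g, e⟩ => ?_, fun x hx ox => ?_, h⟩ o O
    · obtain ⟨P, rfl⟩ := hP.exists_sylow_top
      haveI := c.abel.comm
      obtain ⟨n, hn, k⟩ := P.conj_eq_normalizer_conj_of_mem x g⁻¹ hx (by rwa [inv_inv, e])
      exact ⟨n⁻¹, inv_mem hn, by simpa [e] using k.symm⟩
    · have l : P ≤ 𝐂₁ x := fun y hy => mem_cent1.2 (c.abel.mul_comm hy hx)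
      refine (hP.of_le l le_top).burnside ?_
      obtain ⟨A, d, hA⟩ := (hP.of_le (le_inf l (le_norm_self P)) le_top).exists_compl inf_le_right
      have nA := d.right_le.trans inf_le_right
      have cA := hA.pi.coprime' hP.pi
      rw [← d.sup]
      refine sup_le c.abel ((c.comm_eq_bot_or hP.pi nA cA).resolve_right fun e => ?_)
      have := (c.abel.comm_inf_cent nA cA).le ⟨e.ge hx, mem_centralizer_iff.2 fun a ha =>
        mem_cent1.1 (d.right_le ha).1⟩
      exact (Fact.out : p.Prime).one_lt.ne (by rw [← ox, mem_bot.1 this, orderOf_one])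
  exact CF.Solv.isPSolvable_of_normal_of_quotient P (CF.PLocal.isPSolvable_of_isPGroup hP.pi.isPGroup)
    (CF.PLocal.isPSolvable_of_coprime ((piNat_compl_single_iff_coprime Fact.out).1 (show PiNat _ P.index by simpa using hP.idx)))

/-- Let G be a finite group whose Sylow p-subgroups are cyclic. Then G is p-solvable if and only if every two elements of order p of G generate a p-solvable subgroup. -/
theorem result {G : Type*} [Group G] [Finite G] {p : ℕ} [Fact p.Prime] (P : Sylow p G) (hP : IsCyclic ↥(P : Subgroup G)) :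
    Cfsg.IsPSolvable p G ↔ ∀ x y : G, orderOf x = p → orderOf y = p → Cfsg.IsPSolvable p ↥(Subgroup.closure ({x, y} : Set G)) := by
  open CF.BG CF.CIT Subgroup in
  refine ⟨fun h _ _ _ _ => CF.Solv.isPSolvable_subgroup h _, fun h => ?_⟩
  have hp : p.Prime := Fact.out
  haveI := normalIn_top.1 (O_normal {p}ᶜ (⊤ : Subgroup G))
  set N := 𝐎 {p}ᶜ (⊤ : Subgroup G)
  have s := QuotientGroup.mk'_surjective N
  have l : ∀ x : G ⧸ N, orderOf x = p → ∃ y : G, orderOf y = p ∧ QuotientGroup.mk' N y = x := fun x o => by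
    obtain ⟨g, rfl⟩ := s x
    obtain ⟨y, z, -, hz, a, b, rfl⟩ := exists_piPart {p} g
    have z1 : QuotientGroup.mk' N z = 1 := (PiElt.of_mem_zpowers (by rw [PiElt, o]; exact piNat_self hp)
      (by simpa using mem_map_of_mem (QuotientGroup.mk' N) hz)).eq_one (b.map _)
    rw [map_mul, z1, mul_one] at o ⊢
    refine ⟨y, orderOf_eq_prime ((a.pow p).eq_one ((O_pi _ ⊤).elt ((QuotientGroup.eq_one_iff _).1 ?_))) ?_, rfl⟩
    · rw [← QuotientGroup.mk'_apply, map_pow]
      exact orderOf_dvd_iff_pow_eq_one.1 o.dvd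
    · rintro rfl
      exact hp.one_lt.ne (by simpa using o)
  refine CF.Solv.isPSolvable_of_normal_of_quotient N (CF.PLocal.isPSolvable_of_coprime
    ((piNat_compl_single_iff_coprime hp).1 (O_pi _ _))) (aux (by
      simpa [← MonoidHom.range_eq_map, MonoidHom.range_eq_top.2 s] using (syl_sylow_top P).map (QuotientGroup.mk' N))
      (Cyc.map hP _) (O_quot rfl) fun x y ox oy => ?_)
  obtain ⟨x, ox', rfl⟩ := l x ox
  obtain ⟨y, oy', rfl⟩ := l y oy
  rw [← Set.image_pair, ← MonoidHom.map_closure]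
  exact CF.Solv.isPSolvable_of_surjective (h x y ox' oy') (MonoidHom.subgroupMap_surjective _ _)

end Cfsg.Agent.S1950
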