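import Cfsg.Statements.S1952
import Cfsg.Agent.Transfer.Ctrl

set_option autoImplicit false
open Cfsg

namespace Cfsg.Agent.S1952

/-- Let P be a finite p-group with a normal elementary abelian subgroup A of index p, and let x ∈ A and y ∈ P with y outside A. If the product of the p conjugates y^(-i) x y^i (i = 0, …, p−1) is not the identity, then the wreath product Z_p ≀ Z_p, realised as a Sylow p-subgroup of the symmetric group of degree p², is a homomorphic image of P. -/
theorem result {P : Type*} [Group P] [Finite P] {p : ℕ} [Fact p.Prime] (hP : IsPGroup p P) (A : Subgroup P) [A.Normal]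
    (hA : Cfsg.IsElementaryAbelian p A) (hidx : A.index = p) (x y : P) (hx : x ∈ A) (hy : y ∉ A)
    (hprod : ((List.range p).map (fun i => (y ^ i)⁻¹ * x * y ^ i)).prod ≠ 1) :
    ∃ (Q : Sylow p (Equiv.Perm (Fin (p ^ 2)))) (f : P →* ↥(Q : Subgroup (Equiv.Perm (Fin (p ^ 2))))), Function.Surjective f := by
  open CF.Transfer Subgroup in
  have hp : p.Prime := Fact.out
  set z := ((List.range p).map (fun i => (y ^ i)⁻¹ * x * y ^ i)).prod with hz
  have hm : ∀ i : ℕ, (y ^ i)⁻¹ * x * y ^ i ∈ A := fun i => Normal.conj_mem' inferInstance x hx _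
  have hzA : z ∈ A := list_prod_mem (by
    intro a ha
    obtain ⟨i, -, rfl⟩ := List.mem_map.1 ha
    exact hm i)
  have hAp := hP.to_subgroup A
  obtain ⟨M, hM, hzM⟩ : ∃ M : Subgroup A, IsCoatom M ∧ (⟨z, hzA⟩ : A) ∉ M := by
    by_contra! h
    have h1 : z ∈ frat A := ⟨⟨z, hzA⟩, mem_iInf.2 fun M => mem_iInf.2 fun hM => h M hM, rfl⟩
    rw [(frat_eq_bot_iff hAp).2 hA] at h1
    exact hprod h1
  set B := M.map A.subtype with hB
  have hBi : B.index = p ^ 2 := by
    rw [hB, index_map_subtype, CF.Solv.index_eq_of_isCoatom_of_isPGroup hAp hM, hidx, sq]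
  have hC : B.normalCore ≤ A := (normalCore_le B).trans (map_subtype_le _)
  have hAA : ⁅A, A⁆ ≤ B.normalCore := by
    rw [commutator_eq_bot_iff_le_centralizer.2 (le_centralizer_iff_isMulCommutative.2 hA.1)]
    exact bot_le
  have h1 : ¬ Cfsg.iterCommutator A (zpowers y⁻¹) (p - 1) ≤ B.normalCore := by
    intro h
    obtain ⟨X, _, ψ, h2, h3⟩ := exists_sectionFun hAA
    have h4 := prod_conj_eq_one (p := p) ψ h2 (fun a ha ha' => (h3 a ha').2 ha)
      (fun a ha => by rw [← map_pow_of_mul h2 ha, hA.2 a ha, map_one_of_mul h2])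
      (le_normalizer_of_normal (mem_top y⁻¹)) h hx
    have h5 : ∀ n : ℕ, ψ ((List.range n).map (fun i => (y ^ i)⁻¹ * x * y ^ i)).prod =
        ∏ i ∈ Finset.range n, ψ (y⁻¹ ^ i * x * (y⁻¹ ^ i)⁻¹) := by
      intro n
      induction n with
      | zero => simpa using map_one_of_mul h2
      | succ n ih =>
        rw [List.range_succ, List.map_append, List.prod_append, h2 _ (list_prod_mem (by
          intro a ha
          obtain ⟨i, -, rfl⟩ := List.mem_map.1 ha
          exact hm i)) _ (by simpa using hm n), ih, Finset.prod_range_succ]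
        simp
    obtain ⟨a, ha, e⟩ := normalCore_le B ((h3 z hzA).1 ((h5 p).trans h4))
    exact hzM ((Subtype.ext e : a = ⟨z, hzA⟩) ▸ ha)
  have hlt : ∀ H K : Subgroup P, H ≤ K → ¬ K ≤ H → p * Nat.card H ≤ Nat.card K := by
    intro H K h h'
    rw [← card_mul_relIndex h, mul_comm]
    exact Nat.mul_le_mul_left _ (Nat.le_of_dvd (Nat.pos_of_ne_zero (relIndex_ne_zero' _ _))
      (dvd_relIndex_of_not_le (hP.to_subgroup K) h'))
  have h2 : ∀ i, ¬ Cfsg.iterCommutator A (zpowers y⁻¹) i ≤ B.normalCore →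
      p ^ i * Nat.card (Cfsg.iterCommutator A (zpowers y⁻¹) i ⊔ B.normalCore : Subgroup P) ≤
        Nat.card A := by
    intro i
    induction i with
    | zero => intro _; rw [iterC_zero, sup_eq_left.2 hC, pow_zero, one_mul]
    | succ i ih =>
      intro h
      have h3 := iterC_succ_le (V := A) (K := zpowers y⁻¹) le_normalizer_of_normal i
      have h4 : ¬ _ ≤ B.normalCore := fun e => h (h3.trans e)
      refine le_trans ?_ (ih h4)
      rw [pow_succ, mul_assoc]
      refine Nat.mul_le_mul_left _ (hlt _ _ (sup_le_sup_right h3 _) fun e => h4 ?_)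
      have := (hP.to_subgroup ⊤).isNilpotent
      exact le_of_le_commutator_sup_of_nilpotent this le_top le_normalizer_of_normal
        ((le_sup_left.trans e).trans (sup_le_sup_right (commutator_mono le_rfl le_top) _))
  have h3 : p ^ (p + 1) ≤ B.normalCore.index := by
    have h4 := hlt _ _ le_sup_right fun e => h1 (le_sup_left.trans e)
    have h5 := (Nat.mul_le_mul_left (p ^ (p - 1)) h4).trans (h2 _ h1)
    rw [← mul_assoc, ← pow_succ, Nat.sub_add_cancel hp.one_le] at h5
    refine Nat.le_of_mul_le_mul_left ?_ (card_pos' B.normalCore)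
    rw [card_mul_index, ← A.card_mul_index, hidx, pow_succ, ← mul_assoc, mul_comm _ (p ^ p)]
    exact Nat.mul_le_mul_right _ h5
  have e : (P ⧸ B) ≃ Fin (p ^ 2) := Finite.equivFinOfCardEq hBi
  let f : P →* Equiv.Perm (Fin (p ^ 2)) :=
    (Equiv.permCongrHom e).toMonoidHom.comp (MulAction.toPermHom P (P ⧸ B))
  have hk : f.ker = B.normalCore := by
    rw [normalCore_eq_ker]
    exact MonoidHom.ker_comp_of_injective _ _ (Equiv.permCongrHom e).injective
  have hf : IsPGroup p f.range := hP.of_surjective _ f.rangeRestrict_surjective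
  obtain ⟨Q, hQ⟩ := hf.exists_le_sylow
  have h6 : Nat.card Q = p ^ (p + 1) := by
    rw [Q.card_eq_multiplicity, Nat.card_perm, Nat.card_fin, sq, Nat.factorization_factorial_mul hp]
    have := Nat.factorization_factorial_mul (n := 1) hp
    rw [mul_one] at this
    rw [this]
    simp [add_comm]
  have h7 : f.range = Q := eq_of_le_of_card_ge hQ (by rwa [h6, ← index_ker, hk])
  exact ⟨Q, f.codRestrict _ fun a => hQ ⟨a, rfl⟩, fun q => by
    obtain ⟨a, ha⟩ := h7.ge q.2
    exact ⟨a, Subtype.ext ha⟩⟩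

end Cfsg.Agent.S1952
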