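import Cfsg.Statements.S1953
import Cfsg.Agent.Transfer.Ctrl2

set_option autoImplicit false
open Cfsg

namespace Cfsg.Agent.S1953

/-- Let p be an odd prime and P a Sylow p-subgroup of the finite group G, and suppose that for no p-subgroup Q of G does N_G(Q)/C_G(Q) have a section isomorphic to SL₂(p). Call a subgroup Q of P centric-radical when Z(Q) is a Sylow p-subgroup of C_G(Q) and the only normal subgroup X of N_G(Q) containing Q·C_G(Q) such that the index of Q·C_G(Q) in X is a power of p is Q·C_G(Q) itself (that is, N_G(Q)/Q·C_G(Q) has no nontrivial normal p-subgroup). Then there is a centric-radical subgroup Q of P contained in every centric-radical subgroup of P; it is normal in P, and N_G(Q) controls strong fusion in P: whenever a subgroup A of P has g A g⁻¹ ≤ P, the element g is a product h c with h in N_G(Q) and c centralizing A. -/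
theorem result {G : Type*} [Group G] [Finite G] {p : ℕ} [Fact p.Prime] (hp : p ≠ 2) (P : Sylow p G)
    (hfree : ∀ Q : Subgroup G, IsPGroup p ↥Q → ¬ ∃ (H K : Subgroup G) (_ : (K.subgroupOf H).Normal),
      Subgroup.centralizer (Q : Set G) ≤ K ∧ K ≤ H ∧ H ≤ Subgroup.normalizer (Q : Set G) ∧
      Nonempty ((↥H ⧸ K.subgroupOf H) ≃* Matrix.SpecialLinearGroup (Fin 2) (ZMod p)))
    (cr : Subgroup G → Prop)
    (hcr : ∀ Q : Subgroup G, cr Q ↔ (Q ≤ (P : Subgroup G) ∧
      (∃ R : Sylow p ↥(Subgroup.centralizer (Q : Set G)),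
        (R : Subgroup ↥(Subgroup.centralizer (Q : Set G))).map (Subgroup.centralizer (Q : Set G)).subtype = Q ⊓ Subgroup.centralizer (Q : Set G)) ∧
      ∀ X : Subgroup G, X ≤ Subgroup.normalizer (Q : Set G) →
        (∀ n ∈ Subgroup.normalizer (Q : Set G), X.map (MulAut.conj n).toMonoidHom = X) →
        Q ⊔ Subgroup.centralizer (Q : Set G) ≤ X → (∃ k : ℕ, (Q ⊔ Subgroup.centralizer (Q : Set G)).relIndex X = p ^ k) →
        X = Q ⊔ Subgroup.centralizer (Q : Set G))) :
    ∃ Q : Subgroup G, cr Q ∧ (∀ R : Subgroup G, cr R → Q ≤ R) ∧ (∀ x ∈ (P : Subgroup G), Q.map (MulAut.conj x).toMonoidHom = Q) ∧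
      ∀ A : Subgroup G, A ≤ (P : Subgroup G) → ∀ g : G, A.map (MulAut.conj g).toMonoidHom ≤ (P : Subgroup G) →
        ∃ h ∈ Subgroup.normalizer (Q : Set G), ∃ c ∈ Subgroup.centralizer (A : Set G), g = h * c := by
  open CF.Transfer Subgroup in
  have hS := isSylowIn_top P
  have hqd : ¬ Cfsg.Involves (Cfsg.qd p) G := by
    rw [CF.PLocal.qd_eq_qdOver]
    intro h
    obtain ⟨Q, h1, h2⟩ := exists_automizer_SL2_of_involves_qdOver (p := p) h
    exact hfree Q h1 h2
  have hU : FNormal (P : Subgroup G) ⊤ (kLo (P : Subgroup G)) := by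
    have hn := le_normalizer.trans (normalizer_le_normalizer_kLo (P : Subgroup G))
    have h := isKInf_lower.controlsStrongFusion_of_qdFree hp hqd P
    rw [ind_kInfLower, controlsStrongFusion_iff P (kLo_le _) hn] at h
    exact ⟨kLo_le _, hn, fun A hA g _ hg => MulRel.imp (h A hA g hg) (le_inf le_top le_rfl)⟩
  have hQ := fNormal_fCore hS
  set Q := fCore (P : Subgroup G) ⊤ with hQd
  have hC : (P : Subgroup G) ⊓ centralizer (Q : Set G) = Q ⊓ centralizer (Q : Set G) :=
    le_antisymm (le_inf (((inf_le_inf_left _ (CF.PLocal.centralizer_anti hU.le_fCore)).trans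
      (centralizer_kLo_le P.isPGroup')).trans hU.le_fCore) inf_le_right) (inf_le_inf_right _ hQ.1)
  have hZ := (isExtremalIn_of_normalized hS hQ.1 hQ.2.1).isSylowIn_centralizer
  rw [hC, top_inf_eq] at hZ
  refine ⟨Q, (hcr Q).2 ⟨hQ.1, isSylowIn_iff_exists_sylow.1 hZ, fun X h1 h2 h3 ⟨k, h4⟩ => ?_⟩,
    fun R hR => ?_, fun x hx => mem_normalizer_iff_cj.1 (hQ.2.1 hx),
    fun A hA g hg => (hQ.2.2 A hA g (mem_top g) hg).imp inf_le_right⟩
  · have h5 : normalizer (Q : Set G) ≤ normalizer (X : Set G) :=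
      fun n hn => mem_normalizer_iff_cj.2 (h2 n hn)
    have hN : IsSylowIn p (P : Subgroup G) (⊤ ⊓ normalizer (Q : Set G)) :=
      hS.of_le (le_inf le_top hQ.2.1) le_top
    have h6 := hasNPC_subgroup_iff_coprime.1 (hZ.hasNPC_of_normalizer_le
      (inf_le_left.trans (CF.PLocal.centralizer_anti inf_le_left)))
    have h7 : pRes p X = pRes p (centralizer (Q : Set G)) := by
      rw [← pRes_sup_eq (P.isPGroup'.to_le hQ.1)
        (le_normalizer.trans (normalizer_le_normalizer_centralizer Q))]
      exact (pRes_eq_of_le (pRes_le_of_relIndex (CF.PLocal.le_normalizer_sup h1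
        (h1.trans (normalizer_le_normalizer_centralizer Q))) h4) h3).symm
    have h8 := (hQ.trans (fNormal_inf_of_coprime hN (le_inf le_top h1) (inf_le_right.trans h5)
      (h7 ▸ h6))).le_fCore
    have h9 := (hN.inf_of_normalized (le_inf le_top h1)
      (inf_le_right.trans h5)).le_sup_of_relIndex h3 h4
    exact le_antisymm (h9.ge.trans (sup_le (h8.trans le_sup_left) le_rfl)) h3
  · obtain ⟨h1, h2, h3⟩ := (hcr R).1 hR
    have h4 := isSylowIn_iff_exists_sylow.2 h2
    have h5 : Q ⊓ normalizer (R : Set G) ≤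
        normalizer ((R ⊔ centralizer (R : Set G) : Subgroup G) : Set G) :=
      CF.PLocal.le_normalizer_sup inf_le_right
        (inf_le_right.trans (normalizer_le_normalizer_centralizer R))
    have h6 := h3 _ (sup_le inf_le_right (sup_le le_normalizer (centralizer_le_normalizer _)))
      (fun n hn => mem_normalizer_iff_cj.1 (hQ.le_normalizer_sup h1 ⟨mem_top n, hn⟩)) le_sup_right
      (relIndex_of_pRes_le (pRes_sup_le (P.isPGroup'.to_le (inf_le_left.trans hQ.1)) h5))
    refine le_of_inf_normalizer_le P.isPGroup' h1 hQ.1 (h1.trans hQ.2.1) fun y hy => ?_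
    obtain ⟨r, hr, c, hc, rfl⟩ := (CF.PLocal.mem_sup_of_le_normalizer
      (le_normalizer.trans (normalizer_le_normalizer_centralizer R))).1 (h6.le (mem_sup_left hy))
    have h7 := h4.eq_of_le (P.isPGroup'.to_le (inf_le_left : _ ⊓ centralizer (R : Set G) ≤ _))
      (inf_le_inf_right _ h1) inf_le_right
    exact mul_mem hr (h7.le ⟨((P : Subgroup G).mul_mem_cancel_left (h1 hr)).1 (hQ.1 hy.1), hc⟩).1

end Cfsg.Agent.S1953
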