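import Cfsg.Statements.S1954
import Cfsg.Agent.Transfer.Ctrl

set_option autoImplicit false
open Cfsg

namespace Cfsg.Agent.S1954

/-- Let N be a normal subgroup of the finite group G, P a Sylow p-subgroup of G, and V a subgroup of P ∩ N normal in P ∩ N such that N_N(V) controls strong fusion in P ∩ N with respect to N (whenever a subgroup A of P ∩ N has n A n⁻¹ ≤ P ∩ N for some n in N, then n = h c with h in N_N(V) and c in C_N(A)). Let W be the subgroup generated by the conjugates of V under N_G(P ∩ N). Then N_G(W) controls strong fusion in P with respect to G. -/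
theorem result {G : Type*} [Group G] [Finite G] {p : ℕ} [Fact p.Prime] (N : Subgroup G) [N.Normal] (P : Sylow p G) (V : Subgroup G)
    (hV : V ≤ (P : Subgroup G) ⊓ N) (hVn : ∀ x ∈ (P : Subgroup G) ⊓ N, V.map (MulAut.conj x).toMonoidHom = V)
    (hctrl : ∀ A : Subgroup G, A ≤ (P : Subgroup G) ⊓ N → ∀ n ∈ N, A.map (MulAut.conj n).toMonoidHom ≤ (P : Subgroup G) ⊓ N →
      ∃ h ∈ N ⊓ Subgroup.normalizer (V : Set G), ∃ c ∈ N ⊓ Subgroup.centralizer (A : Set G), n = h * c)
    (W : Subgroup G) (hW : W = Subgroup.closure (⋃ x ∈ Subgroup.normalizer (((P : Subgroup G) ⊓ N : Subgroup G) : Set G),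
      ((V.map (MulAut.conj x).toMonoidHom : Subgroup G) : Set G))) :
    ∀ A : Subgroup G, A ≤ (P : Subgroup G) → ∀ g : G, A.map (MulAut.conj g).toMonoidHom ≤ (P : Subgroup G) →
        ∃ h ∈ Subgroup.normalizer (W : Set G), ∃ c ∈ Subgroup.centralizer (A : Set G), g = h * c := by
  open CF.Transfer Subgroup in
  have hT := isSylowIn_inf_normal P N
  set T := (P : Subgroup G) ⊓ N with hTdef
  have hW' : W = ⨆ x : normalizer (T : Set G), cj (x : G) V := by
    rw [hW, Subgroup.iSup_eq_closure]
    congr 1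
    ext y
    simp only [Set.mem_iUnion, Subtype.exists]
    rfl
  have hNW : normalizer (T : Set G) ≤ normalizer (W : Set G) := by
    intro y hy
    refine mem_normalizer_of_cj_le ?_
    rw [hW', cj_iSup]
    refine iSup_le fun x => ?_
    rw [cj_cj]
    exact le_iSup (fun x : normalizer (T : Set G) => cj (x : G) V) ⟨y * x, mul_mem hy x.2⟩
  have hWT : W ≤ T := hW' ▸ iSup_le fun x =>
    (cj_mono _ hV).trans (cj_eq_of_mem_normalizer x.2).le
  have h1 : CtrlIn (MulRel (N ⊓ normalizer (W : Set G))) T N := by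
    rw [hW']
    refine ctrlIn_iSup hT (fun x => (cj_mono _ hV).trans (cj_eq_of_mem_normalizer x.2).le)
      (fun x => ?_) fun x A hA g hg hgA => ?_
    · rw [normalizer_cj, le_cj_iff, cj_eq_of_mem_normalizer (inv_mem x.2)]
      exact fun y hy => mem_normalizer_iff_cj.2 (hVn y hy)
    · obtain ⟨n, hn, c, hc, e⟩ := hctrl (cj (x : G)⁻¹ A)
        ((cj_mono _ hA).trans (cj_eq_of_mem_normalizer (inv_mem x.2)).le) ((x : G)⁻¹ * g * x)
        (Normal.conj_mem' inferInstance g hg x) (by
          rw [map_conj_eq_cj, cj_cj, mul_inv_cancel_right, cj_mul]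
          exact (cj_mono _ hgA).trans (cj_eq_of_mem_normalizer (inv_mem x.2)).le)
      refine ⟨x * n * (x : G)⁻¹, ⟨Normal.conj_mem inferInstance n hn.1 x, ?_⟩,
        x * c * (x : G)⁻¹, ?_, ?_⟩
      · rw [normalizer_cj]
        exact conj_mem_cj hn.2
      · have := hc.2
        rw [centralizer_cj] at this
        exact mem_cj_inv.1 this
      · calc g = x * ((x : G)⁻¹ * g * x) * (x : G)⁻¹ := by group
          _ = _ := by rw [e]; group
  have hPT : (P : Subgroup G) ≤ normalizer (T : Set G) :=
    CF.PLocal.le_normalizer_inf le_normalizer le_normalizer_of_normal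
  have h2 := ctrlIn_of_elementwise (isSylowIn_top P) (hWT.trans inf_le_left) (hPT.trans hNW)
    fun a ha g _ hga => by
      obtain ⟨y, hy, n, hn, rfl⟩ := hT.frattini' (h := g) (le_normalizer_of_normal (mem_top g))
      have h3 : n * a * n⁻¹ ∈ T := by
        have := inv_conj_mem_of_mem_normalizer hy
          (⟨hga, Normal.conj_mem inferInstance a (hWT ha).2 _⟩ : y * n * a * (y * n)⁻¹ ∈ T)
        simpa [mul_assoc] using this
      obtain ⟨m, hm, e⟩ := mulRel_iff.1 (h1 (zpowers a) (zpowers_le.2 (hWT ha)) n hn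
        (by rw [cj_zpowers]; exact zpowers_le.2 h3))
      refine ⟨y * m, mul_mem (hNW hy) hm.2, ?_⟩
      calc y * m * a * (y * m)⁻¹ = y * (m * a * m⁻¹) * y⁻¹ := by group
        _ = _ := by rw [e a (mem_zpowers a)]; group
  exact fun A hA g hg => (h2 A hA g (mem_top g) hg).imp inf_le_right

end Cfsg.Agent.S1954
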