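import Cfsg.Statements.S2001
import Cfsg.Agent.Transfer.Functor2

set_option autoImplicit false
open Cfsg

namespace Cfsg.Agent.S2001

/-- Let p be a prime dividing the order of the finite group G, P a Sylow p-subgroup, W a conjugacy functor for p on G with Z(H) ≤ W(H) for every nontrivial p-subgroup H, and V a central functor: a conjugacy functor with V(H) ≤ Z(H), and V(H) ≤ V(K) whenever Z(H) ≤ Z(K), for nontrivial p-subgroups H, K. Say that W with V controls transfer in a subgroup L when some Sylow p-subgroup Q of L satisfies Q ∩ L' = (Q ∩ (N_L(W(Q)))')·(Q ∩ (C_L(V(Q)))') as a product of two subgroups. If W with V controls transfer in N_G(H) for every subgroup H with Z(P) ≤ H ≤ P, then W with V controls transfer in G. -/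
theorem result {G : Type*} [Group G] [Finite G] {p : ℕ} [Fact p.Prime] (hdiv : p ∣ Nat.card G) (P : Sylow p G) (W V : Subgroup G → Subgroup G) (hW : Cfsg.IsConjugacyFunctor p W) (hV : Cfsg.IsConjugacyFunctor p V) (hWZ : ∀ H : Subgroup G, IsPGroup p ↥H → H ⊓ Subgroup.centralizer ((H : Subgroup G) : Set G) ≤ W H) (hVZ : ∀ H : Subgroup G, IsPGroup p ↥H → V H ≤ H ⊓ Subgroup.centralizer ((H : Subgroup G) : Set G)) (hVmono : ∀ H K : Subgroup G, IsPGroup p ↥H → IsPGroup p ↥K → H ≠ ⊥ → K ≠ ⊥ → H ⊓ Subgroup.centralizer ((H : Subgroup G) : Set G) ≤ K ⊓ Subgroup.centralizer ((K : Subgroup G) : Set G) → V H ≤ V K) (hloc : ∀ H : Subgroup G, (P : Subgroup G) ⊓ Subgroup.centralizer (((P : Subgroup G) : Subgroup G) : Set G) ≤ H → H ≤ (P : Subgroup G) → ∃ Q : Subgroup G, Q ≤ Subgroup.normalizer ((H : Subgroup G) : Set G) ∧ IsPGroup p ↥Q ∧ ¬ p ∣ (Q).relIndex (Subgroup.normalizer ((H : Subgroup G) : Set G)) ∧ ∀ x : G, x ∈ Q ⊓ ⁅Subgroup.normalizer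 ((H : Subgroup G) : Set G), Subgroup.normalizer ((H : Subgroup G) : Set G)⁆ ↔ ∃ a ∈ Q ⊓ ⁅Subgroup.normalizer ((H : Subgroup G) : Set G) ⊓ Subgroup.normalizer ((W Q : Subgroup G) : Set G), Subgroup.normalizer ((H : Subgroup G) : Set G) ⊓ Subgroup.normalizer ((W Q : Subgroup G) : Set G)⁆, ∃ b ∈ Q ⊓ ⁅Subgroup.normalizer ((H : Subgroup G) : Set G) ⊓ Subgroup.centralizer ((V Q : Subgroup G) : Set G), Subgroup.normalizer ((H : Subgroup G) : Set G) ⊓ Subgroup.centralizer ((V Q : Subgroup G) : Set G)⁆, x = a * b) : ∃ Q : Subgroup G, IsPGroup p ↥Q ∧ ¬ p ∣ Q.index ∧ ∀ x : G, x ∈ Q ⊓ commutator G ↔ ∃ a ∈ Q ⊓ ⁅Subgroup.normalizer ((W Q : Subgroup G) : Set G), Subgroup.normalizer ((W Q : Subgroup G) : Set G)⁆, ∃ b ∈ Q ⊓ ⁅Subgroup.centralizer ((V Q : Subgroup G) : Set G), Subgroup.centralizer ((V Q : Subgroup G) : Set G)⁆, x = a * b := by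
  open CF.Transfer Subgroup in
  have hS := isSylowIn_top P
  have hP0 : (P : Subgroup G) ≠ ⊥ := fun h => hS.eq_bot_iff.1 h (by rwa [card_top])
  set D₁ := (P : Subgroup G) ⊓ ⁅normalizer (W P : Set G), normalizer (W P : Set G)⁆ with hD₁
  set D₂ := (P : Subgroup G) ⊓ ⁅centralizer (V P : Set G), centralizer (V P : Set G)⁆ with hD₂
  have hPV : (P : Subgroup G) ≤ centralizer (V P : Set G) :=
    le_centralizer_iff.1 ((hVZ P P.isPGroup').trans inf_le_right)
  have hn : D₁ ≤ normalizer (D₂ : Set G) := fun x hx => by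
    rw [mem_normalizer_iff_cj, hD₂, cj_inf, cj_commutator, cj_eq_of_mem hx.1, cj_eq_of_mem (hPV hx.1)]
  have hR := focRel_fusRel (P : Subgroup G) (D₁ ⊔ D₂)
  refine ⟨P, P.isPGroup', P.not_dvd_index, fun x => ⟨fun hx => ?_, ?_⟩⟩
  swap
  · rintro ⟨a, ha, b, hb, rfl⟩
    exact mul_mem (inf_le_inf_left _ (commutator_mono le_top le_top) ha)
      (inf_le_inf_left _ (commutator_mono le_top le_top) hb)
  suffices h : CtrlIn (FocRel (D₁ ⊔ D₂)) P ⊤ by
    obtain ⟨a, ha, b, hb, e⟩ := (CF.Solv.mem_sup_of_le_normalizer hn).1 (hS.ctrlIn_focRel_iff.1 h hx)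
    exact ⟨a, ha, b, hb, e.symm⟩
  refine hR.local_global_center hS hW hWZ (ctrlIn_focRel_of_le
    (le_inf le_top (cf_le_normalizer hW P.isPGroup')) (by rw [top_inf_eq]; exact le_sup_left))
    fun T hT hZ h => ?_
  obtain ⟨Q, h1, h2, h3, h4⟩ := hloc T hZ hT.1
  have hT2 := hT.2
  rw [top_inf_eq] at hT2 h ⊢
  obtain ⟨k, hk, e⟩ := (IsSylowIn.mk h1 h2 h3).exists_cj_eq hT2
  refine hT2.ctrlIn_focRel_iff.2 fun y hy => ?_
  have hy' : y ∈ cj k (Q ⊓ ⁅normalizer (T : Set G), normalizer (T : Set G)⁆) := by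
    rwa [cj_inf, cj_commutator, cj_eq_of_mem hk, e]
  obtain ⟨z, hz, rfl⟩ := mem_cj'.1 hy'
  obtain ⟨a, ha, b, hb, rfl⟩ := (h4 z).1 hz
  have ha' := conj_mem_cj (g := k) ha
  have hb' := conj_mem_cj (g := k) hb
  rw [cj_inf, cj_commutator, cj_inf, cj_eq_of_mem hk, ← normalizer_cj, ← cf_cj hW h2, e] at ha'
  rw [cj_inf, cj_commutator, cj_inf, cj_eq_of_mem hk, ← centralizer_cj, ← cf_cj hV h2, e] at hb'
  have e2 : k * (a * b) * k⁻¹ = k * a * k⁻¹ * (k * b * k⁻¹) := by group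
  rw [e2]
  refine mul_mem ((hT2.of_le (le_inf hT2.le (cf_le_normalizer hW hT2.isPGroup))
    inf_le_left).ctrlIn_focRel_iff.1 h ha') (mem_sup_right ⟨hb'.1.1, ?_⟩)
  have hZ0 : (P : Subgroup G) ⊓ centralizer ((P : Subgroup G) : Set G) ≠ ⊥ :=
    have := P.isPGroup'.isNilpotent
    CF.Solv.inf_centralizer_ne_bot_of_isNilpotent le_rfl le_normalizer hP0
  have hle : (P : Subgroup G) ⊓ centralizer ((P : Subgroup G) : Set G) ≤
      (P : Subgroup G) ⊓ normalizer (T : Set G) := le_inf inf_le_left (hZ.trans le_normalizer)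
  have hVV := hVmono P _ P.isPGroup' hT2.isPGroup hP0 (fun h => hZ0 (eq_bot_iff.2 (h ▸ hle)))
      (le_inf hle (inf_le_right.trans (centralizer_le fun x hx => hx.1)))
  have := inf_le_right.trans (centralizer_le hVV) (a := normalizer (T : Set G) ⊓ _)
  exact commutator_mono this this hb'.2

end Cfsg.Agent.S2001
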