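import Cfsg.Statements.S2002
import Cfsg.Agent.Transfer.Functor2

set_option autoImplicit false
open Cfsg

namespace Cfsg.Agent.S2002

/-- Let p be a prime dividing the order of the finite group G, P a Sylow p-subgroup, W a conjugacy functor for p on G with Z(H) ≤ W(H) for every nontrivial p-subgroup H, and V a central functor (a conjugacy functor with V(H) ≤ Z(H), and V(H) ≤ V(K) whenever Z(H) ≤ Z(K)). Say that W with V controls strong fusion in a subgroup L when some Sylow p-subgroup Q of L has the property: whenever X ⊆ Q and a ∈ L with a⁻¹Xa ⊆ Q, then a = c b with c ∈ C_L(X) and b = b₁ ⋯ bₙ a product of elements each in N_L(W(Q)) or in C_L(V(Q)) such that every partial conjugate (b₁ ⋯ bₖ)⁻¹ X (b₁ ⋯ bₖ) lies in Q. If W with V controls strong fusion in N_G(H) for every subgroup H with Z(P) ≤ H ≤ P, then W with V controls strong fusion in G. -/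
theorem result {G : Type*} [Group G] [Finite G] {p : ℕ} [Fact p.Prime] (hdiv : p ∣ Nat.card G) (P : Sylow p G) (W V : Subgroup G → Subgroup G) (hW : Cfsg.IsConjugacyFunctor p W) (hV : Cfsg.IsConjugacyFunctor p V) (hWZ : ∀ H : Subgroup G, IsPGroup p ↥H → H ⊓ Subgroup.centralizer ((H : Subgroup G) : Set G) ≤ W H) (hVZ : ∀ H : Subgroup G, IsPGroup p ↥H → V H ≤ H ⊓ Subgroup.centralizer ((H : Subgroup G) : Set G)) (hVmono : ∀ H K : Subgroup G, IsPGroup p ↥H → IsPGroup p ↥K → H ≠ ⊥ → K ≠ ⊥ → H ⊓ Subgroup.centralizer ((H : Subgroup G) : Set G) ≤ K ⊓ Subgroup.centralizer ((K : Subgroup G) : Set G) → V H ≤ V K) (hloc : ∀ H : Subgroup G, (P : Subgroup G) ⊓ Subgroup.centralizer (((P : Subgroup G) : Subgroup G) : Set G) ≤ H → H ≤ (P : Subgroup G) → ∃ Q : Subgroup G, Q ≤ Subgroup.normalizer ((H : Subgroup G) : Set G) ∧ IsPGroup p ↥Q ∧ ¬ p ∣ (Q).relIndex (Subgroup.normalizer ((H : Subgroup G) : Set G)) ∧ ∀ (X : Set G) (a : G), X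 ⊆ Q → a ∈ Subgroup.normalizer ((H : Subgroup G) : Set G) → (fun x => a⁻¹ * x * a) '' X ⊆ Q → ∃ c ∈ Subgroup.normalizer ((H : Subgroup G) : Set G) ⊓ Subgroup.centralizer X, ∃ (n : ℕ) (b : Fin n → G), (∀ i, b i ∈ Subgroup.normalizer ((H : Subgroup G) : Set G) ⊓ Subgroup.normalizer ((W Q : Subgroup G) : Set G) ∨ b i ∈ Subgroup.normalizer ((H : Subgroup G) : Set G) ⊓ Subgroup.centralizer ((V Q : Subgroup G) : Set G)) ∧ a = c * (List.ofFn b).prod ∧ ∀ k : ℕ, k ≤ n → (fun x => (((List.ofFn b).take k).prod)⁻¹ * x * ((List.ofFn b).take k).prod) '' ((fun x => c⁻¹ * x * c) '' X) ⊆ Q) : ∃ Q : Subgroup G, IsPGroup p ↥Q ∧ ¬ p ∣ Q.index ∧ ∀ (X : Set G) (a : G), X ⊆ Q → (fun x => a⁻¹ * x * a) '' X ⊆ Q → ∃ c ∈ Subgroup.centralizer X, ∃ (n : ℕ) (b : Fin n → G), (∀ i, b i ∈ ⊤ ⊓ Subgroup.normalizer ((W Q : Subgroup G) : Set G) ∨ b i ∈ ⊤ ⊓ Subgroup.centralizer ((V Q : Subgroup G) : Set G)) ∧ a = c * (List.ofFn b).prod ∧ ∀ k : ℕ, k ≤ n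 → (fun x => (((List.ofFn b).take k).prod)⁻¹ * x * ((List.ofFn b).take k).prod) '' ((fun x => c⁻¹ * x * c) '' X) ⊆ Q := by
  open CF.Transfer Subgroup in
  have hS := isSylowIn_top P
  have hP0 : (P : Subgroup G) ≠ ⊥ := fun h => hS.eq_bot_iff.1 h (by rwa [card_top])
  let F : Subgroup G → Subgroup G → G → Prop := fun Q L x =>
    x ∈ L ⊓ normalizer (W Q : Set G) ∨ x ∈ L ⊓ centralizer (V Q : Set G)
  have hF : ∀ Q L x, F Q L x → F Q L x⁻¹ := fun Q L x h => h.imp inv_mem inv_mem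
  have hFL : ∀ Q L x, F Q L x → x ∈ L := fun Q L x h => h.elim (fun h => h.1) fun h => h.1
  have hR := reach_fusRel (P : Subgroup G) (hF P ⊤)
  refine ⟨P, P.isPGroup', P.not_dvd_index, fun X a hX haX => ?_⟩
  suffices h : CtrlIn (Reach P (F P ⊤)) P ⊤ by
    obtain ⟨c, hc, h⟩ := (ctrlIn_reach_iff_fin (hF P ⊤) (hFL P ⊤)).1 h X a hX (mem_top a) haX
    exact ⟨c, hc.2, h⟩
  refine hR.local_global_center hS hW hWZ (fun A hA g hg hgA => Reach.single hA (Or.inl hg) hgA)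
    fun T hT hZ h => ?_
  obtain ⟨Q, h1, h2, h3, h4⟩ := hloc T hZ hT.1
  have h5 := (ctrlIn_reach_iff_fin (hF Q _) (hFL Q _)).2 h4
  have hT2 := hT.2
  rw [top_inf_eq] at hT2 h ⊢
  obtain ⟨k, hk, e⟩ := (IsSylowIn.mk h1 h2 h3).exists_cj_eq hT2
  have h6 := ctrlIn_reach_cj (F' := F (cj k Q) (normalizer (T : Set G))) h5 k (by
    intro x hx
    rcases hx with hx | hx
    · left
      rw [cf_cj hW h2, normalizer_cj, ← cj_eq_of_mem hk, ← cj_inf]
      exact conj_mem_cj hx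
    · right
      rw [cf_cj hV h2, centralizer_cj, ← cj_eq_of_mem hk, ← cj_inf]
      exact conj_mem_cj hx)
  rw [e, cj_eq_of_mem hk] at h6
  intro A hA g hg hgA
  refine (h6 A hA g hg hgA).elim hR inf_le_left fun B hB x hx hxB => ?_
  rcases hx with hx | hx
  · exact h B hB x hx hxB
  · refine Reach.single (hB.trans inf_le_left) (Or.inr ⟨mem_top x, centralizer_le ?_ hx.2⟩)
      (hxB.trans inf_le_left)
    have hZ0 : (P : Subgroup G) ⊓ centralizer ((P : Subgroup G) : Set G) ≠ ⊥ :=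
      have := P.isPGroup'.isNilpotent
      CF.Solv.inf_centralizer_ne_bot_of_isNilpotent le_rfl le_normalizer hP0
    have hle : (P : Subgroup G) ⊓ centralizer ((P : Subgroup G) : Set G) ≤
        (P : Subgroup G) ⊓ normalizer (T : Set G) := le_inf inf_le_left (hZ.trans le_normalizer)
    exact hVmono P _ P.isPGroup' hT2.isPGroup hP0 (fun h => hZ0 (eq_bot_iff.2 (h ▸ hle)))
      (le_inf hle (inf_le_right.trans (centralizer_le fun x hx => hx.1)))

end Cfsg.Agent.S2002
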