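import Cfsg.Statements.S2091
import Cfsg.Agent.Schur.U62
import Cfsg.Agent.S0280

set_option autoImplicit false
open Cfsg

namespace Cfsg.Agent.S2091

/-- Exceptional Schur multiplier: PSU₆(2), realised over the field with 4 elements, has Schur multiplier isomorphic to the product of cyclic groups of orders 3, 2 and 2 (order 12, not cyclic; here the Schur multiplier is described through stem extensions, as in the definitions). -/
theorem result {F : Type*} [Field F] [Fintype F] (hF : Fintype.card F = 4) : Cfsg.HasSchurMultiplier (Cfsg.PSU 6 F 2) (Multiplicative (ZMod 3 × ZMod 2 × ZMod 2)) := by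
  have hF' : Fintype.card F = 2 ^ 2 := hF
  have h := Cfsg.Agent.S0280.result hF' 6 (by norm_num)
  obtain ⟨el, hT⟩ := CF.Comp.exists_ok_four hF
  refine CF.Schur.U62.schur_of (CF.Schur.U62.linU.hasReps_PSU hT hF' (by norm_num) CF.Schur.U62.memU) ?_
  simp [Finset.prod_range_succ] at h
  norm_num at h
  omega

end Cfsg.Agent.S2091
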