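import Cfsg.Statements.S2099
import Cfsg.Agent.BN.OMin
import Cfsg.Agent.BN.OStep
import Cfsg.Agent.BN.O82m
import Cfsg.Agent.BN.O83m
import Cfsg.Agent.S0294
import Cfsg.Agent.Schur.CovM
import Cfsg.Agent.Classical.LowDim4

set_option autoImplicit false
open Cfsg

namespace Cfsg.Agent.S2099

open CF CF.Schur CF.BN CF.Geom CF.Chev Module

universe u

theorem form {F : Type*} [Field F] {L : List (List ℕ)} (a : ℕ) (h : ∀ i j, Comp.ent L
    ((((finSumFinEquiv (m := 3) (n := 3)).sumCongr (.refl _)).trans (finSumFinEquiv (m := 6) (n := 2))) i)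
    ((((finSumFinEquiv (m := 3) (n := 3)).sumCongr (.refl _)).trans (finSumFinEquiv (m := 6) (n := 2))) j) =
      (Matrix.fromBlocks (Matrix.fromBlocks 0 1 0 0) 0 0 !![1, a; 0, 1] :
        Matrix ((Fin 3 ⊕ Fin 3) ⊕ Fin 2) ((Fin 3 ⊕ Fin 3) ⊕ Fin 2) ℕ) i j) (v : (Fin 3 ⊕ Fin 3) ⊕ Fin 2 → F) :
    v ⬝ᵥ (Comp.mat Nat.cast (((finSumFinEquiv (m := 3) (n := 3)).sumCongr (.refl _)).trans
      (finSumFinEquiv (m := 6) (n := 2))) L).mulVec v = qMinus 3 F a 1 v := by
  simp only [Comp.mat, dotProduct, Matrix.mulVec, Matrix.of_apply, h]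
  simp [qMinus_apply, Matrix.one_apply]
  ring

theorem an : (∀ x y : ZMod 2, x ^ 2 + 1 * x * y + 1 * y ^ 2 = 0 → x = 0 ∧ y = 0) ∧
    ∀ x y : ZMod 3, x ^ 2 + y ^ 2 = 0 → x = 0 ∧ y = 0 := by decide

theorem base {F : Type u} [Field F] [Fintype F] {a b : F}
    (hab : ∀ z₁ z₂ : F, z₁ ^ 2 + a * z₁ * z₂ + b * z₂ ^ 2 = 0 → z₁ = 0 ∧ z₂ = 0) (p : ℕ) [Fact p.Prime]
    [CharP F p] : ∃ a b : F, (∀ z₁ z₂ : F, z₁ ^ 2 + a * z₁ * z₂ + b * z₂ ^ 2 = 0 → z₁ = 0 ∧ z₂ = 0) ∧
      ¬ p ∣ Nat.card (Mult (Omega F (qMinus 3 F a b))) := by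
  have key : ∀ a b : F, (∀ z₁ z₂ : F, z₁ ^ 2 + a * z₁ * z₂ + b * z₂ ^ 2 = 0 → z₁ = 0 ∧ z₂ = 0) →
      ¬ p ∣ Nat.card (Mult (POmega F (qMinus 3 F a b))) →
      ¬ p ∣ Nat.card (Mult (Omega F (qMinus 3 F a b))) := fun a b h h' hd => h' (hd.trans (Dvd.intro _
    (card_mult_cover (cext_mk' _ le_rfl) (perfect_congr (omegaEquiv _).symm
      (commutator_omega_eq_top (qMinus_nondegenerate 3 h) (by simp))))))
  have hp : ∀ r : ℕ, r.Prime → Fintype.card F = r → p = r := fun r hr e =>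
    (Nat.prime_dvd_prime_iff_eq Fact.out hr).1 (by
      rw [← e, ← CharP.cast_eq_zero_iff F, FiniteField.cast_card_eq_zero])
  obtain hF | hF | hF : Fintype.card F = 2 ∨ Fintype.card F = 3 ∨ 4 ≤ Fintype.card F := by
    have := Fintype.one_lt_card (α := F); omega
  · obtain rfl := hp 2 Nat.prime_two hF
    have h1 : ∀ z₁ z₂ : F, z₁ ^ 2 + 1 * z₁ * z₂ + 1 * z₂ ^ 2 = 0 → z₁ = 0 ∧ z₂ = 0 := by
      let e := ZMod.ringEquivOfPrime F Nat.prime_two hF
      simp only [e.surjective.forall, ← map_one e, ← map_pow, ← map_mul, ← map_add, map_eq_zero]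
      exact an.1
    have h := Cfsg.Agent.S0294.result hF 4 le_rfl 1 1 h1
    refine ⟨1, 1, h1, key _ _ h1 (O82m.not_dvd (O82m.linU.hasReps_POmega (Pc.exists_ok_prime Nat.prime_two hF)
      (((finSumFinEquiv (m := 3) (n := 3)).sumCongr (.refl _)).trans (finSumFinEquiv (m := 6) (n := 2)))
      (qMinus_nondegenerate 3 h1) (by norm_num) (B := O82m.UB) (fun v => ?_) O82m.memU) ?_)⟩
    · rw [form (L := O82m.UB) 1 (by simp only [Sum.forall]; decide +kernel), Nat.cast_one]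
    · simp [Finset.prod_range_succ] at h
      exact h
  · obtain rfl := hp 3 Nat.prime_three hF
    have h1 : ∀ z₁ z₂ : F, z₁ ^ 2 + 0 * z₁ * z₂ + 1 * z₂ ^ 2 = 0 → z₁ = 0 ∧ z₂ = 0 := by
      let e := ZMod.ringEquivOfPrime F Nat.prime_three hF
      simp only [e.surjective.forall, zero_mul, add_zero, one_mul, ← map_pow, ← map_add, map_eq_zero]
      exact an.2
    have h := Cfsg.Agent.S0294.result hF 4 le_rfl 0 1 h1
    refine ⟨0, 1, h1, key _ _ h1 (O83m.not_dvd (O83m.linU.hasReps_POmega (Pc.exists_ok_prime Nat.prime_three hF)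
      (((finSumFinEquiv (m := 3) (n := 3)).sumCongr (.refl _)).trans (finSumFinEquiv (m := 6) (n := 2)))
      (qMinus_nondegenerate 3 h1) (by norm_num) (B := O83m.UB) (fun v => ?_) O83m.memU) ?_)⟩
    · rw [form (L := O83m.UB) 0 (by simp only [Sum.forall]; decide +kernel), Nat.cast_zero]
    · simp [Finset.prod_range_succ] at h
      exact (by omega : Nat.card (POmega F (quadFormMinus 3 F 0 1)) = 10151968619520)
  · obtain ⟨K, _, _, G, _, ρ, T, φ, h1, h2, h3, h4, h5, h6, M, h7, θ, h8, h9⟩ :=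
      exists_covO hab (n := 3) (by omega) p
    have := M.finite
    have := M.char
    refine ⟨a, b, hab, ?_⟩
    rw [← card_mult_cover h8 h7, (Fact.out : p.Prime).dvd_mul, not_or]
    refine ⟨not_dvd_D4 h5 h6 h2 h3 h1 hF M, fun h => h4.r3.not_dvd_card_H (p := p) (h.trans ?_)⟩
    rw [← Subgroup.card_map_of_injective T.Fix.subtype_injective]
    refine Subgroup.card_dvd_of_le (le_trans ?_ (StRep.center_le_H h4.faith h4.top))
    rintro _ ⟨g, hg, rfl⟩
    exact (h9 g).1 (by rw [show θ g = 1 from hg]; exact one_mem _)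

theorem step {F : Type u} [Field F] [Fintype F] {a b : F}
    (hab : ∀ z₁ z₂ : F, z₁ ^ 2 + a * z₁ * z₂ + b * z₂ ^ 2 = 0 → z₁ = 0 ∧ z₂ = 0) (p : ℕ) [Fact p.Prime]
    [CharP F p] (m : ℕ) (hm : 4 ≤ m) (V : Type u) [AddCommGroup V] [Module F V] [FiniteDimensional F V]
    (Q : QuadraticForm F V) (hQ : (QuadraticMap.polarBilin Q).Nondegenerate) (h : ¬ IsPlus Q)
    (hV : finrank F V = 2 * m) : ¬ p ∣ Nat.card (Mult (commutator (OG Q))) := by
  induction m, hm using Nat.le_induction generalizing V with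
  | base =>
    obtain ⟨a, b, hab, h1⟩ := base hab p
    obtain ⟨g, hg⟩ := exists_equiv_qMinus hQ h (m := 3) hV hab
    rwa [← Pc.card_mult_congr ((omegaEquiv _).trans (Classical.commutatorEquiv (ogCongr g hg)).symm)]
  | succ m hm ih => exact om_step hQ hV hm h fun U h1 h2 h3 => ih U _ h1 h2 h3

/-- Schur multipliers of the even-dimensional orthogonal groups of minus type: for l ≥ 4 and a field F with q elements, the Schur multiplier of PΩ⁻_2l(F) (for the form Σ_{i<l−1} xᵢyᵢ + z₁² + a z₁z₂ + b z₂² with the binary part anisotropic) is cyclic of order gcd(4, q^l + 1); here the Schur multiplier is described through stem extensions, as in the definitions. -/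
theorem result {F : Type*} [Field F] [Fintype F] {q : ℕ} (hF : Fintype.card F = q) (l : ℕ) (hl : 4 ≤ l) (a b : F) (hab : ∀ z₁ z₂ : F, z₁ ^ 2 + a * z₁ * z₂ + b * z₂ ^ 2 = 0 → z₁ = 0 ∧ z₂ = 0) : Cfsg.HasCyclicSchurMultiplier (Cfsg.POmega F (Cfsg.quadFormMinus (l - 1) F a b)) (Nat.gcd 4 (q ^ l + 1)) := by
    obtain ⟨n, rfl⟩ : ∃ n, l = n + 1 := ⟨l - 1, by omega⟩
    obtain ⟨p, _⟩ := CharP.exists F
    have : Fact p.Prime := ⟨CharP.char_is_prime F p⟩
    obtain ⟨K, _, _, G, _, ρ, T, φ, h1, h2, h3, h4, h5, -, M, h7, θ, h8, h9⟩ :=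
      exists_covO hab (n := n) (by omega) p
    have := M.finite
    have := M.char
    rw [hF] at h1 h2
    obtain ⟨h10, h11⟩ := kerD_cyc h2 h3 h1 (by omega) h5
    refine hasSchur_of_univ h4 h7 (trivial_of_not_dvd fun r hr _ => ?_)
      (θ := (QuotientGroup.mk' _).comp θ) ((QuotientGroup.mk'_surjective _).comp h8.surj)
      (fun g => (QuotientGroup.eq_one_iff _).trans (h9 g)) h10 h11
    obtain rfl | e := eq_or_ne r p
    · refine fun hd => step hab r (n + 1) hl _ _ (qMinus_nondegenerate n hab) (not_isPlus_qMinus n hab)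
        (by simp; omega) ?_
      rw [← Pc.card_mult_congr (omegaEquiv _), ← card_mult_cover h8 h7]
      exact hd.mul_right _
    refine not_dvd_mult_of_rank_one M.form h4 M.gen hr e fun i => ?_
    by_cases h : pD n i = i
    exacts [r1₁ h5 M.form h4 hr e h, r1₂ h5 M.form h4 hr e h (pD_pD i) (car_pD' (by omega) i h)
      (by simpa [pD_pD] using car_pD' (n := n) (by omega) (pD n i) (by rw [pD_pD]; exact Ne.symm h)) h3]

end Cfsg.Agent.S2099
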