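import Cfsg.Statements.S2112
import Cfsg.Agent.BN.SzSchur8

set_option autoImplicit false
open Cfsg

namespace Cfsg.Agent.S2112

/-- Exceptional Schur multiplier: the Suzuki group Sz(8), built over the field with 8 elements using the map x ↦ x⁴, has Schur multiplier a four-group, the product of two cyclic groups of order 2 (here the Schur multiplier is described through stem extensions, as in the definitions). -/
theorem result {F : Type*} [Field F] [Fintype F] (hF : Fintype.card F = 8) : Cfsg.HasSchurMultiplier ↥(Cfsg.Lie.Sz F 4) (Multiplicative (ZMod 2 × ZMod 2)) := by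
  have hF' : Fintype.card F = 2 ^ (2 * 1 + 1) := hF
  have D : CF.BN.Suz.SzData _ (Cfsg.Lie.Sz F 4) := CF.BN.Suz.lieD F 1 hF'
  have hθ := CF.BN.Suz.titsOfCard_θ hF'
  have := CF.BN.Suz.charP_of_card hF'
  rw [← Nat.card_eq_fintype_card] at hF
  have := D.finite
  have hc : Nat.card (F ⧸ AddSubgroup.zmultiples (1 : F)) = 4 := by
    have := (AddSubgroup.zmultiples (1 : F)).card_eq_card_quotient_mul_card_addSubgroup
    rw [hF, Nat.card_zmultiples, addOrderOf_eq_prime (p := 2) (by rw [two_nsmul, CharTwo.add_self_eq_zero]) one_ne_zero] at this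
    omega
  have : Nontrivial (F ⧸ AddSubgroup.zmultiples (1 : F)) := Finite.one_lt_card_iff_nontrivial.1 (by omega)
  have : Fact (Nat.Prime 2) := ⟨Nat.prime_two⟩
  have : IsAddKleinFour (F ⧸ AddSubgroup.zmultiples (1 : F)) :=
    ⟨hc, (AddMonoid.exponent_eq_prime_iff Nat.prime_two).2 fun g hg => addOrderOf_eq_prime (by
      obtain ⟨g, rfl⟩ := QuotientAddGroup.mk_surjective g
      rw [← QuotientAddGroup.mk_nsmul, two_nsmul, CharTwo.add_self_eq_zero]; rfl) hg⟩
  obtain ⟨e⟩ := IsAddKleinFour.nonempty_addEquiv (G₁ := F ⧸ AddSubgroup.zmultiples (1 : F))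
    (G₂ := ZMod 2 × ZMod 2)
  refine ⟨?_, fun Γ _ _ σ hσ => ?_⟩
  · obtain ⟨c, hc⟩ := D.exists_coc hF hθ
    exact ⟨c.Ext, inferInstance, c.finite, c.σ, hc, ⟨c.kerEquiv.trans e.toMultiplicative⟩⟩
  · obtain ⟨φ, h1, h2⟩ := D.exists_hom_ker hσ hF hθ
    let ψ := QuotientAddGroup.lift (AddSubgroup.zmultiples (1 : F)) φ.toAdditiveRight
      (AddSubgroup.zmultiples_le_of_mem (congrArg Additive.ofMul h2))
    refine ⟨(ψ.comp e.symm.toAddMonoidHom).toMultiplicativeLeft, fun z => ?_⟩
    obtain ⟨d, rfl⟩ := h1 z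
    exact ⟨.ofAdd (e (d.toAdd : F)), by simp [ψ]⟩

end Cfsg.Agent.S2112
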