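import Cfsg.Statements.S2114
import Cfsg.Agent.BN.TF4

set_option autoImplicit false
open Cfsg

namespace Cfsg.Agent.S2114

open CF.BN CF.Chev CF.Schur

/-- Schur multipliers of the large Ree groups: for q = 2^(2m+1) with m ≥ 1 the Schur multiplier of ²F₄(q) is trivial (here the Schur multiplier is described through stem extensions, as in the definitions). -/
theorem result {K : Type*} [Field K] [Fintype K] {m : ℕ} (hm : 1 ≤ m) (hK : Fintype.card K = 2 ^ (2 * m + 1)) : Cfsg.HasCyclicSchurMultiplier ↥(Cfsg.Lie.twistedF4 K (2 ^ m)) 1 := by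
  obtain ⟨_, θ, h1, h2⟩ := exists_theta Nat.prime_two hK
  have M := ltF4 h1 h2
  have h := isIs_twF4 θ
  have hU : Univ (repF4 K) := ⟨(twF4 θ).faith, (twF4 θ).top, r3_repF4, tor_injective_F4⟩
  have h3 := M.form.eq_Fix (by
    rw [(twF4 θ).H_inf_Fix hU.r3 hU.inj]; rintro _ ⟨c, hc, rfl⟩; exact tor_memF4 h h2 h1 _ hc)
  have e : Lie.twistedF4 K _ ≃* gF4 (repF4 K) _ := (packF4 h1 h2).e
  rw [h3] at M e
  have := M.finite
  refine HasSchur.congr_left (trivial_of_not_dvd fun l hl _ => ?_) e.symm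
  obtain rfl | hp := eq_or_ne l 2
  · exact TF4.not_two_dvd h M h1 h2 (Nat.le_self_pow (by omega) 2)
      (by rw [Nat.card_eq_fintype_card, hK]; ring)
  · exact not_dvd_mult_of_rank_one M.form hU M.gen hl hp (TF4.r1 h M h2 hU hl hp)

end Cfsg.Agent.S2114
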