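import Cfsg.Statements.S2136
import Cfsg.Agent.Bt.Xc.Co2

set_option autoImplicit false
open Cfsg

set_option maxRecDepth 1000000

namespace Cfsg.Agent.S2136

/-- The Conway group Co₂ (the stabiliser of a minimal vector of the rank-24 lattice) has an involution whose centraliser C has largest normal 2-subgroup extraspecial of order 2^9 with quotient C / O₂(C) isomorphic to the symplectic group Sp(6, 2) (shape 2^{1+8}Sp(6, 2)). -/
theorem result : ∃ t : ↥Cfsg.Spor.Co2, orderOf t = 2 ∧ Cfsg.IsExtraspecial 2 (Cfsg.pCore 2 ↥(Subgroup.centralizer ({t} : Set ↥Cfsg.Spor.Co2))) ∧ Nat.card (Cfsg.pCore 2 ↥(Subgroup.centralizer ({t} : Set ↥Cfsg.Spor.Co2))) = 2 ^ 9 ∧ Nonempty (↥(Subgroup.centralizer ({t} : Set ↥Cfsg.Spor.Co2)) ⧸ Cfsg.pCore 2 ↥(Subgroup.centralizer ({t} : Set ↥Cfsg.Spor.Co2)) ≃* Matrix.symplecticGroup (Fin 3) (ZMod 2)) := by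
  obtain ⟨z, Q, h⟩ := CF.Bt.XcCo2.xc
  have : Finite Cfsg.Co0 := Nat.finite_of_card_ne_zero (CF.Leech.card_Co0 ▸ by decide)
  have : Finite Cfsg.Spor.Co2 := Finite.of_equiv _ CF.Leech.Co2Equiv.toEquiv
  have e := h.core CF.Bt.simple_Sp6 (CF.Bt.not_pgroup_of_card CF.Bt.card_Sp6 (by decide))
  exact ⟨z, h.ord, e ▸ h.xs', e ▸ h.card', h.quot e⟩

end Cfsg.Agent.S2136
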