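import Cfsg.Statements.S2162
import Cfsg.Agent.Cls.SS

set_option autoImplicit false
open Cfsg

namespace Cfsg.Agent.S2162

open CF.Cls

/-- Conjugacy of involutions in the special linear group over a finite field of characteristic two, in dimension at least 3: two elements of order 2 of SL_n(F) are conjugate in SL_n(F) exactly when the matrices a − 1 and b − 1 have the same rank (the rank of a − 1 is the dimension of the commutator space [V, a]). -/
theorem result {F : Type*} [Field F] [Fintype F] [CharP F 2] {n : ℕ} (hn : 3 ≤ n) (a b : Matrix.SpecialLinearGroup (Fin n) F) (ha : orderOf a = 2) (hb : orderOf b = 2) :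
    IsConj a b ↔ ((a : Matrix (Fin n) (Fin n) F) - 1).rank = ((b : Matrix (Fin n) (Fin n) F) - 1).rank := by
  have key : ∀ a : Matrix.SpecialLinearGroup (Fin n) F, orderOf a = 2 →
      ((a : Matrix (Fin n) (Fin n) F) - 1) ^ 2 = 0 := by
    intro a ha
    have h1 := (pow_char_pow_eq_one_iff (F := F) 2 (a : Matrix (Fin n) (Fin n) F) 1).1 (by
      rw [pow_one, ← ha, ← Matrix.SpecialLinearGroup.coe_pow, pow_orderOf_eq_one]; rfl)
    simpa using h1
  refine ⟨fun h => rank_sub_one_eq_of_isConj (isConj_matrix_of_SL h), fun h =>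
    isConj_SL_of_detC (isConj_of_sq_zero (key a ha) (key b hb) h) ?_⟩
  have : Nonempty (Fin n) := ⟨⟨0, by omega⟩⟩
  obtain ⟨x, hx⟩ := Multiset.exists_mem_of_ne_zero
    (ed_ne_zero (Matrix.toLin' (a : Matrix (Fin n) (Fin n) F)))
  have h1 : x.natDegree ∈ jtM (a : Matrix (Fin n) (Fin n) F) := Multiset.mem_map_of_mem _ hx
  have h2 := (unipM_pow_eq_zero_iff ⟨2, key a ha⟩ 2).1 (key a ha) _ h1
  have h3 := jtM_pos _ _ h1
  rcases (show x.natDegree = 1 ∨ x.natDegree = 2 by omega) with h4 | h4
  · exact detC_eq_top_of_one_mem (h4 ▸ h1)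
  · rw [eq_top_iff]; intro c _
    obtain ⟨d, hd⟩ := FiniteField.isSquare_of_char_two (ringChar.eq F 2) (c : F)
    have hd0 : d ≠ 0 := by rintro rfl; exact c.ne_zero (by simpa using hd)
    have := pow_mem_detC h1 (Units.mk0 d hd0)
    rw [h4] at this
    convert this
    ext; simp [hd, pow_two]

end Cfsg.Agent.S2162
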