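import Cfsg.Statements.S2163
import Cfsg.Agent.Cls.Misc

set_option autoImplicit false
open Cfsg

namespace Cfsg.Agent.S2163

open CF.Cls

/-- Over a finite field of characteristic two and for n ≥ 3: for every ℓ with 1 ≤ ℓ and 2ℓ ≤ n, the matrix j_ℓ that is the identity plus the entries 1 in positions (n − ℓ + i, i) for i < ℓ (an identity block of size ℓ in the lower left corner) lies in SL_n(F), has order 2, and j_ℓ − 1 has rank ℓ. Together with the conjugacy criterion by rank, these matrices represent the conjugacy classes of involutions of SL_n(F). -/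
theorem result {F : Type*} [Field F] [Fintype F] [CharP F 2] {n : ℕ} (hn : 3 ≤ n) (ℓ : ℕ) (h1 : 1 ≤ ℓ) (h2 : 2 * ℓ ≤ n) :
    ∃ a : Matrix.SpecialLinearGroup (Fin n) F, (a : Matrix (Fin n) (Fin n) F) = 1 + Matrix.of (fun i j : Fin n => if j.val < ℓ ∧ i.val = j.val + (n - ℓ) then (1 : F) else 0) ∧ orderOf a = 2 ∧ ((a : Matrix (Fin n) (Fin n) F) - 1).rank = ℓ := by
  let P : Matrix (Fin n) (Fin ℓ) F := Matrix.of fun i k => if i.val = k.val + (n - ℓ) then 1 else 0
  let Q : Matrix (Fin ℓ) (Fin n) F := Matrix.of fun k j => if j.val = k.val then 1 else 0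
  have hE : Matrix.of (fun i j : Fin n =>
      if j.val < ℓ ∧ i.val = j.val + (n - ℓ) then (1 : F) else 0) = P * Q := by
    ext i j
    simp only [P, Q, Matrix.of_apply, Matrix.mul_apply]
    by_cases hj : j.val < ℓ
    · rw [Finset.sum_eq_single ⟨j, hj⟩]
      · simp [hj]
      · intro k _ hk
        rw [if_neg (show ¬ j.val = k.val from fun h => hk (Fin.ext h.symm)), mul_zero]
      · simp
    · rw [if_neg (fun h => hj h.1)]
      refine (Finset.sum_eq_zero (fun k _ => ?_)).symm
      rw [if_neg (show ¬ j.val = k.val by omega), mul_zero]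
  have hQP : Q * P = 0 := by
    ext k l
    simp only [P, Q, Matrix.of_apply, Matrix.mul_apply, Matrix.zero_apply]
    refine Finset.sum_eq_zero (fun i _ => ?_)
    split_ifs <;> first | omega | simp
  have hPP : P.transpose * P = 1 := by
    ext k l
    simp only [P, Matrix.of_apply, Matrix.mul_apply, Matrix.transpose_apply, Matrix.one_apply,
      Fin.ext_iff]
    rw [Finset.sum_eq_single ⟨k + (n - ℓ), by omega⟩]
    · simp
    · intro i _ hi
      rw [if_neg (fun h => hi (Fin.ext h)), zero_mul]
    · simp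
  have hQQ : Q * Q.transpose = 1 := by
    ext k l
    simp only [Q, Matrix.of_apply, Matrix.mul_apply, Matrix.transpose_apply, Matrix.one_apply,
      Fin.ext_iff]
    rw [Finset.sum_eq_single ⟨k, by omega⟩]
    · simp
    · intro i _ hi
      rw [if_neg (fun h => hi (Fin.ext h)), zero_mul]
    · simp
  rw [hE]
  have h3 : (1 + P * Q - 1) ^ 2 = 0 := by
    rw [add_sub_cancel_left, pow_two, Matrix.mul_assoc, ← Matrix.mul_assoc Q, hQP]; simp
  have h4 : (1 + P * Q - 1).rank = ℓ := by
    rw [add_sub_cancel_left, rank_eq_of_factor P Q _ _ hPP hQQ, Fintype.card_fin]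
  refine ⟨⟨1 + P * Q, det_eq_one_of_unip ⟨2, h3⟩⟩, rfl, orderOf_eq_prime ?_ ?_, h4⟩
  · apply Subtype.ext
    have := (pow_char_pow_eq_one_iff (F := F) 2 (1 + P * Q) 1).2 (by simpa using h3)
    rw [pow_one] at this
    exact this
  · intro h
    have h5 : 1 + P * Q = 1 := congrArg Subtype.val h
    rw [h5, sub_self, Matrix.rank_zero] at h4
    omega

end Cfsg.Agent.S2163
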