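import Cfsg.Statements.S2164
import Cfsg.Agent.Cls.GU

set_option autoImplicit false
open Cfsg

namespace Cfsg.Agent.S2164

open CF.Cls CF.Geom


/-- Conjugacy of involutions in the special unitary group SU_n(q), q even, n ≥ 3, realised over the field F with q² elements as the matrices of determinant 1 preserving the form Σ u_i v_i^q: for two elements of order 2 of SU_n(q) the following are equivalent — they are conjugate in SU_n(q); they are conjugate in SL_n(F); the matrices a − 1 and b − 1 have the same rank. -/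
theorem result {F : Type*} [Field F] [Fintype F] [CharP F 2] {n q : ℕ} (hF : Fintype.card F = q ^ 2) (hn : 3 ≤ n) (a b : ↥(Cfsg.SU n F q)) (ha : orderOf a = 2) (hb : orderOf b = 2) :
    (IsConj a b ↔ IsConj (a : Matrix.SpecialLinearGroup (Fin n) F) (b : Matrix.SpecialLinearGroup (Fin n) F)) ∧
    (IsConj a b ↔ (((a : Matrix.SpecialLinearGroup (Fin n) F) : Matrix (Fin n) (Fin n) F) - 1).rank = (((b : Matrix.SpecialLinearGroup (Fin n) F) : Matrix (Fin n) (Fin n) F) - 1).rank) := by
  obtain ⟨σ, hσ, hσ1, hσ2⟩ := exists_conj hF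
  have key : ∀ a : Cfsg.SU n F q, orderOf a = 2 → (a.1.1 - 1) ^ 2 = 0 := by
    intro a ha
    have h0 : a ^ 2 = 1 := by rw [← ha, pow_orderOf_eq_one]
    have h1 := (pow_char_pow_eq_one_iff (F := F) 2 a.1.1 1).1 (by
      rw [pow_one]; exact congrArg (fun x : Cfsg.SU n F q => x.1.1) h0)
    simpa using h1
  have h1 : (a.1.1 - 1).rank = (b.1.1 - 1).rank → IsConj a b := fun h => by
    refine isConj_SU_of hσ hσ1 hσ2 (isConj_of_sq_zero (key a ha) (key b hb) h) (fun l hl => ?_)
    have : Nonempty (Fin n) := ⟨⟨0, by omega⟩⟩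
    obtain ⟨x, hx⟩ := Multiset.exists_mem_of_ne_zero (ed_ne_zero (Matrix.toLin' a.1.1))
    have h1 : x.natDegree ∈ jtM a.1.1 := Multiset.mem_map_of_mem _ hx
    have h2 := (unipM_pow_eq_zero_iff ⟨2, key a ha⟩ 2).1 (key a ha) _ h1
    have h3 := jtM_pos _ _ h1
    have h5 := fun l hl => (eh_hermSesq hσ2 _).detU_pow hσ1 (pres_SU hσ a)
      ((unip_toLin'_iff _).2 ⟨2, key a ha⟩) h1 (l := l) hl
    rcases (show x.natDegree = 1 ∨ x.natDegree = 2 by omega) with h4 | h4
    · simpa [h4] using h5 l hl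
    · obtain ⟨d, rfl⟩ := FiniteField.isSquare_of_char_two (ringChar.eq F 2) l
      rw [← pow_two, ← h4]
      refine h5 d ?_
      have h6 : (σ d * d - 1) ^ 2 = 0 := by
        rw [map_mul] at hl
        linear_combination hl - (σ d * d - 1) * CharTwo.two_eq_zero (R := F)
      exact sub_eq_zero.1 (pow_eq_zero_iff two_ne_zero |>.1 h6)
  have h2 : IsConj a b → IsConj a.1 b.1 := (Cfsg.SU n F q).subtype.map_isConj
  have h3 : IsConj a.1 b.1 → (a.1.1 - 1).rank = (b.1.1 - 1).rank :=
    fun h => rank_sub_one_eq_of_isConj (isConj_matrix_of_SL h)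
  exact ⟨⟨h2, fun h => h1 (h3 h)⟩, fun h => h3 (h2 h), h1⟩

end Cfsg.Agent.S2164
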