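import Cfsg.Statements.S2165
import Cfsg.Agent.Cls.Misc

set_option autoImplicit false
open Cfsg

namespace Cfsg.Agent.S2165

open CF.Cls CF.Geom

/-- In SU_n(q), q even, n ≥ 3 (matrices of determinant 1 over the field with q² elements preserving Σ u_i v_i^q): for every ℓ with 1 ≤ ℓ and 2ℓ ≤ n, the permutation matrix of the involution of {0, …, n−1} exchanging i and n − ℓ + i for each i < ℓ lies in SU_n(q), has order 2, and differs from the identity by a matrix of rank ℓ. So every rank between 1 and n/2 occurs for involutions of SU_n(q). -/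
theorem result {F : Type*} [Field F] [Fintype F] [CharP F 2] {n q : ℕ} (hF : Fintype.card F = q ^ 2) (hn : 3 ≤ n) (ℓ : ℕ) (h1 : 1 ≤ ℓ) (h2 : 2 * ℓ ≤ n) :
    ∃ a : ↥(Cfsg.SU n F q), (((a : Matrix.SpecialLinearGroup (Fin n) F) : Matrix (Fin n) (Fin n) F) = Matrix.of (fun i j : Fin n => if (j.val < ℓ ∧ i.val = j.val + (n - ℓ)) ∨ (i.val < ℓ ∧ j.val = i.val + (n - ℓ)) ∨ (i = j ∧ ℓ ≤ i.val ∧ i.val < n - ℓ) then (1 : F) else 0)) ∧ orderOf a = 2 ∧ ((((a : Matrix.SpecialLinearGroup (Fin n) F) : Matrix (Fin n) (Fin n) F)) - 1).rank = ℓ := by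
  obtain ⟨σ, hσ, -, -⟩ := exists_conj hF
  let P : Matrix (Fin n) (Fin ℓ) F := Matrix.of fun i k =>
    if i.val = k.val + (n - ℓ) ∨ i.val = k.val then 1 else 0
  let Q : Matrix (Fin ℓ) (Fin n) F := Matrix.of fun k j => if j.val = k.val then 1 else 0
  have h11 : (1 : F) + 1 = 0 := CharTwo.add_self_eq_zero 1
  have hE : Matrix.of (fun i j : Fin n => if (j.val < ℓ ∧ i.val = j.val + (n - ℓ)) ∨
      (i.val < ℓ ∧ j.val = i.val + (n - ℓ)) ∨ (i = j ∧ ℓ ≤ i.val ∧ i.val < n - ℓ) then (1 : F)
      else 0) = 1 + P * P.transpose := by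
    ext i j
    simp only [P, Matrix.of_apply, Matrix.mul_apply, Matrix.add_apply, Matrix.one_apply,
      Matrix.transpose_apply, Fin.ext_iff]
    by_cases hi : i.val < ℓ
    · rw [Finset.sum_eq_single ⟨i, hi⟩]
      · dsimp only
        split_ifs <;> first | omega | simp [h11]
      · intro k _ hk
        have : k.val ≠ i.val := fun h => hk (Fin.ext h)
        rw [if_neg (by omega), zero_mul]
      · simp
    · by_cases hi2 : i.val < n - ℓ
      · rw [Finset.sum_eq_zero (fun k _ => by rw [if_neg (by omega), zero_mul])]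
        split_ifs <;> first | omega | simp
      · rw [Finset.sum_eq_single ⟨i - (n - ℓ), by omega⟩]
        · dsimp only
          split_ifs <;> first | omega | simp [h11]
        · intro k _ hk
          have : k.val ≠ i.val - (n - ℓ) := fun h => hk (Fin.ext h)
          rw [if_neg (by omega), zero_mul]
        · simp
  have hPP : P.transpose * P = 0 := by
    ext k l
    simp only [P, Matrix.of_apply, Matrix.mul_apply, Matrix.transpose_apply, Matrix.zero_apply]
    rw [Finset.sum_eq_add_of_mem (⟨k + (n - ℓ), by omega⟩ : Fin n) ⟨k, by omega⟩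
      (Finset.mem_univ _) (Finset.mem_univ _) (by simp; omega)]
    · dsimp only
      split_ifs <;> first | omega | simp [h11]
    · intro i _ hi
      have h1 : i.val ≠ k + (n - ℓ) := fun h => hi.1 (Fin.ext h)
      have h2 : i.val ≠ k := fun h => hi.2 (Fin.ext h)
      rw [if_neg (by omega), zero_mul]
  have hQP : Q * P = 1 := by
    ext k l
    simp only [P, Q, Matrix.of_apply, Matrix.mul_apply, Matrix.one_apply, Fin.ext_iff]
    rw [Finset.sum_eq_single ⟨k, by omega⟩]
    · dsimp only
      split_ifs <;> first | omega | simp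
    · intro i _ hi
      rw [if_neg (fun h => hi (Fin.ext h)), zero_mul]
    · simp
  rw [hE]
  have h3 : (1 + P * P.transpose - 1) ^ 2 = 0 := by
    rw [add_sub_cancel_left, pow_two, Matrix.mul_assoc, ← Matrix.mul_assoc P.transpose, hPP]; simp
  have h4 : (1 + P * P.transpose - 1).rank = ℓ := by
    rw [add_sub_cancel_left, rank_eq_of_factor P _ Q Q.transpose hQP
      (by rw [← Matrix.transpose_mul, hQP, Matrix.transpose_one]), Fintype.card_fin]
  have h5 := (pow_char_pow_eq_one_iff (F := F) 2 (1 + P * P.transpose) 1).2 (by simpa using h3)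
  rw [pow_one] at h5
  have h6 : (1 + P * P.transpose).map σ = 1 + P * P.transpose := by
    rw [← hE]; ext i j; simp only [Matrix.map_apply, Matrix.of_apply]; split_ifs <;> simp
  refine ⟨⟨⟨1 + P * P.transpose, det_eq_one_of_unip ⟨2, h3⟩⟩, mem_SU.2 (fun u v => ?_)⟩, rfl,
    orderOf_eq_prime (Subtype.ext (Subtype.ext h5)) ?_, h4⟩
  · have h7 : ∀ u v : Fin n → F, Cfsg.hermForm n F q u v = u ⬝ᵥ (σ ∘ v) := by
      intro u v; simp [Cfsg.hermForm, dotProduct, hσ]
    have h8 : σ ∘ (1 + P * P.transpose).mulVec v = (1 + P * P.transpose).mulVec (σ ∘ v) := by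
      ext i; rw [Function.comp_apply, RingHom.map_mulVec, h6]
    dsimp only
    rw [h7, h7, h8, Matrix.dotProduct_mulVec, Matrix.vecMul_mulVec, Matrix.transpose_add,
      Matrix.transpose_one, Matrix.transpose_mul, Matrix.transpose_transpose, ← pow_two, h5,
      Matrix.vecMul_one]
  · intro h
    have h5 : 1 + P * P.transpose = 1 := congrArg (fun x => x.1.1) h
    rw [h5, sub_self, Matrix.rank_zero] at h4
    omega

end Cfsg.Agent.S2165
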