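import Cfsg.Statements.S2167
import Cfsg.Agent.Cls.Misc
import Cfsg.Agent.Geom.Forms

set_option autoImplicit false
open Cfsg

namespace Cfsg.Agent.S2167

open CF.Cls CF.Geom Module

theorem aux {F V : Type*} [Field F] [Fintype F] [CharP F 2] [AddCommGroup V] [Module F V]
    [FiniteDimensional F V] (B : LinearMap.BilinForm F V) (hB : B.Nondegenerate) (hA : B.IsAlt)
    (a : Module.End F V) (h1 : ∀ u v, B (a u) (a v) = B u v) (h2 : ∀ v, a (a v) = v) :
    (Nat.card {v // B v (a v) = 0} = Fintype.card F ^ finrank F V ∨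
      Nat.card {v // B v (a v) = 0} * Fintype.card F = Fintype.card F ^ finrank F V) ∧
    ((∀ v, B v (a v) = 0) → Even (finrank F (LinearMap.range (a - 1)))) := by
  have hsymm : ∀ u v, B u v = B v u := fun u v => by rw [← hA.neg_eq, CharTwo.neg_eq]
  have hadj : ∀ u v, B u (a v) = B (a u) v := fun u v => by rw [← h1, h2]
  constructor
  · let φ : V →+ F :=
      { toFun := fun v => B v (a v)
        map_zero' := by simp
        map_add' := fun u v => by
          simp only [map_add, LinearMap.add_apply]
          rw [hadj u v, hsymm (a u) v]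
          linear_combination (CharTwo.add_self_eq_zero (B v (a u))) }
    have hc := AddSubgroup.card_mul_index φ.ker
    rw [AddSubgroup.index_ker, Module.natCard_eq_pow_finrank (K := F) (V := V),
      Nat.card_eq_fintype_card (α := F)] at hc
    by_cases h0 : ∀ v, φ v = 0
    · left
      rw [AddMonoidHom.range_eq_bot_iff.2 (AddMonoidHom.ext h0), AddSubgroup.card_bot,
        mul_one] at hc
      exact hc
    · right
      push Not at h0
      obtain ⟨v, hv⟩ := h0
      have : φ.range = ⊤ := by
        rw [eq_top_iff]; intro c _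
        obtain ⟨d, hd⟩ := isSquare_of_two_eq_zero (CharTwo.two_eq_zero) (c / φ v)
        refine ⟨d • v, ?_⟩
        show B (d • v) (a (d • v)) = c
        have : φ v = B v (a v) := rfl
        simp only [map_smul, LinearMap.smul_apply, smul_eq_mul, ← this]
        rw [← mul_assoc, ← hd, div_mul_cancel₀ _ hv]
      rw [this, AddSubgroup.card_top, Nat.card_eq_fintype_card (α := F)] at hc
      exact hc
  · intro h
    let K := LinearMap.ker (a - 1)
    let β : LinearMap.BilinForm F V := B.compl₂ (a - 1)
    have hβ : ∀ u v, β u v = B u (a v - v) := fun _ _ => rfl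
    have hβs : ∀ u v, β u v = β v u := fun u v => by
      rw [hβ, hβ, map_sub, map_sub, hadj, hsymm (a u), hsymm u]
    have hK : ∀ v, v ∈ K ↔ ∀ u, β u v = 0 := fun v => by
      simp only [hβ]
      exact ⟨fun hv u => by rw [show a v - v = 0 from hv, map_zero], fun hv => hB.2 _ hv⟩
    obtain ⟨C, hC⟩ := K.exists_isCompl
    have h3 : (β.restrict C).Nondegenerate := by
      have key : ∀ x : C, (∀ y : C, β y x = 0) → x = 0 := by
        intro x hx
        have : (x : V) ∈ K := (hK x).2 (fun u => by
          obtain ⟨k, hk, c, hc, rfl⟩ := Submodule.mem_sup.1 (hC.sup_eq_top.ge (Submodule.mem_top (x := u)))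
          rw [map_add, LinearMap.add_apply, hβs k, (hK k).1 hk, hx ⟨c, hc⟩, add_zero])
        exact Subtype.ext ((Submodule.disjoint_def.1 hC.disjoint) _ this x.2)
      exact ⟨fun x hx => key x (fun y => (hβs _ _).trans (hx y)), key⟩
    have h4 := even_finrank_of_alt h3 (fun x => by
      show β x x = 0
      rw [hβ, map_sub, h, hA, sub_zero])
    have h5 := Submodule.finrank_add_eq_of_isCompl hC
    have h6 := LinearMap.finrank_range_add_finrank_ker (a - 1)
    rwa [show finrank F (LinearMap.range (a - 1)) = finrank F C by unfold K at h5; omega]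

/-- For an involution t of the symplectic group Sp_{2m}(F), m ≥ 2, F a finite field of characteristic two (matrices A with A J Aᵀ = J acting on column vectors, alternating form f(u, v) = u ⬝ (J v)): the set V(t) of vectors v with f(v, t v) = 0 has either q^{2m} or q^{2m−1} elements, q the order of F (it is a subspace of codimension at most 1), and if it is the whole space then t − 1 has even rank. -/
theorem result {F : Type*} [Field F] [Fintype F] [CharP F 2] {m : ℕ} (hm : 2 ≤ m) (a : ↥(Matrix.symplecticGroup (Fin m) F)) (ha : orderOf a = 2) :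
    (Nat.card {v : Fin m ⊕ Fin m → F // Cfsg.sympForm m F v (Matrix.mulVec ((a : ↥(Matrix.symplecticGroup (Fin m) F)) : Matrix (Fin m ⊕ Fin m) (Fin m ⊕ Fin m) F) v) = 0} = Fintype.card F ^ (2 * m) ∨ Nat.card {v : Fin m ⊕ Fin m → F // Cfsg.sympForm m F v (Matrix.mulVec ((a : ↥(Matrix.symplecticGroup (Fin m) F)) : Matrix (Fin m ⊕ Fin m) (Fin m ⊕ Fin m) F) v) = 0} * Fintype.card F = Fintype.card F ^ (2 * m)) ∧
    ((∀ v : Fin m ⊕ Fin m → F, Cfsg.sympForm m F v (Matrix.mulVec ((a : ↥(Matrix.symplecticGroup (Fin m) F)) : Matrix (Fin m ⊕ Fin m) (Fin m ⊕ Fin m) F) v) = 0) → Even (((a : ↥(Matrix.symplecticGroup (Fin m) F)) : Matrix (Fin m ⊕ Fin m) (Fin m ⊕ Fin m) F) - 1).rank) := by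
  have h := aux (sympBilin m F) (sympBilin_nondegenerate m) (sympBilin_isAlt m)
    (Matrix.toLin' (a : Matrix (Fin m ⊕ Fin m) (Fin m ⊕ Fin m) F))
    (fun u v => mem_SpG.1 (spEquiv m F a).2 u v) (fun v => by
      rw [Matrix.toLin'_apply, Matrix.toLin'_apply, Matrix.mulVec_mulVec, ← pow_two,
        ← SubmonoidClass.coe_pow, ← ha, pow_orderOf_eq_one]; simp)
  simp only [sympBilin_apply, Matrix.toLin'_apply, finrank_fintype_fun_eq_card, Fintype.card_sum,
    Fintype.card_fin, ← two_mul] at h
  refine ⟨h.1, fun h' => ?_⟩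
  have h1 := toLin'_sub_one_pow (a : Matrix (Fin m ⊕ Fin m) (Fin m ⊕ Fin m) F) 1
  rw [pow_one, pow_one] at h1
  have := h.2 h'
  rwa [h1] at this

end Cfsg.Agent.S2167
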