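import Cfsg.Statements.S2166
import Cfsg.Agent.Cls.Inv2M
import Cfsg.Agent.S2167

set_option autoImplicit false
open Cfsg

namespace Cfsg.Agent.S2166

open CF.Cls CF.Geom Module QuadraticMap

/-- Conjugacy of involutions in the symplectic group Sp_{2m}(F), F a finite field of characteristic two, m ≥ 2 (Sp taken as the matrices A with A J Aᵀ = J, acting on column vectors, with the alternating form f(u, v) = u ⬝ (J v)). For an involution t write V(t) for the set of vectors v with f(v, t v) = 0 (a subspace). Two involutions a, b are conjugate in Sp_{2m}(F) exactly when a − 1 and b − 1 have the same rank and, in case that rank is even, V(a) and V(b) have the same number of elements. -/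
theorem result {F : Type*} [Field F] [Fintype F] [CharP F 2] {m : ℕ} (hm : 2 ≤ m) (a b : ↥(Matrix.symplecticGroup (Fin m) F)) (ha : orderOf a = 2) (hb : orderOf b = 2) :
    IsConj a b ↔ ((((a : ↥(Matrix.symplecticGroup (Fin m) F)) : Matrix (Fin m ⊕ Fin m) (Fin m ⊕ Fin m) F) - 1).rank = (((b : ↥(Matrix.symplecticGroup (Fin m) F)) : Matrix (Fin m ⊕ Fin m) (Fin m ⊕ Fin m) F) - 1).rank ∧
      (Even (((a : ↥(Matrix.symplecticGroup (Fin m) F)) : Matrix (Fin m ⊕ Fin m) (Fin m ⊕ Fin m) F) - 1).rank → Nat.card {v : Fin m ⊕ Fin m → F // Cfsg.sympForm m F v (Matrix.mulVec ((a : ↥(Matrix.symplecticGroup (Fin m) F)) : Matrix (Fin m ⊕ Fin m) (Fin m ⊕ Fin m) F) v) = 0} = Nat.card {v : Fin m ⊕ Fin m → F // Cfsg.sympForm m F v (Matrix.mulVec ((b : ↥(Matrix.symplecticGroup (Fin m) F)) : Matrix (Fin m ⊕ Fin m) (Fin m ⊕ Fin m) F) v) = 0})) := by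
  have h2 : (2 : F) = 0 := CharTwo.two_eq_zero
  have hs : ∀ x : Matrix.symplecticGroup (Fin m) F, orderOf x = 2 →
      SI (sympBilin m F) (spEquiv m F x).1 := fun x hx =>
    si_of h2 (sympBilin_nondegenerate m) (sympBilin_isAlt m)
      (sq_map_eq_one (spEquiv m F) (orderOf_eq_two_iff.1 hx).1)
  have key : ∀ x : Matrix.symplecticGroup (Fin m) F,
      (∀ v, sympBilin m F v ((spEquiv m F x).1 v) = 0) ↔
      Nat.card {v // Cfsg.sympForm m F v (x.1.mulVec v) = 0} = Fintype.card F ^ (2 * m) := by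
    intro x
    have h1 : Fintype.card F ^ (2 * m) = Nat.card (Fin m ⊕ Fin m → F) := by simp [two_mul]
    rw [h1]
    simp only [sympBilin_apply, spEquiv_apply]
    refine ⟨fun h => Nat.card_congr (Equiv.subtypeUnivEquiv h), fun h => ?_⟩
    exact fun v => (Set.eq_univ_iff_forall.1 ((Set.eq_univ_iff_ncard
      {v | Cfsg.sympForm m F v (x.1.mulVec v) = 0}).2 h)) v
  rw [← isConj_equiv_iff (spEquiv m F), isConj_isom_iff (isWittPair_symp m) (hs a ha) (hs b hb)
    fun _ _ _ => rfl, ← finrank_RU_spEquiv, ← finrank_RU_spEquiv]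
  refine and_congr_right fun hr => ⟨fun h _ => ?_, fun h => ?_⟩
  · rw [key, key] at h
    rcases (Cfsg.Agent.S2167.result hm a ha).1 with h3 | h3
    · rw [h3, h.1 h3]
    rcases (Cfsg.Agent.S2167.result hm b hb).1 with h4 | h4
    · rw [h4, h.2 h4]
    exact Nat.eq_of_mul_eq_mul_right Fintype.card_pos (h3.trans h4.symm)
  · by_cases he : Even (finrank F (RU (spEquiv m F a).1))
    · rw [key, key, h he]
    · exact iff_of_false (fun h => he ((hs a ha).even_of_alt h))
        (fun h => he (hr ▸ (hs b hb).even_of_alt h))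

end Cfsg.Agent.S2166
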