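import Cfsg.Statements.S2172
import Cfsg.Agent.Cls.Inv2M

set_option autoImplicit false
open Cfsg

namespace Cfsg.Agent.S2172

open CF.Cls CF.Geom Module QuadraticMap

/-- Splitting of involution classes from O to Ω for the hyperbolic quadratic form Q = Σ x_i y_i in dimension 2m over a finite field F of characteristic two, m ≥ 4. Let t, s be involutions of the commutator subgroup Ω that are conjugate in the full isometry group O. If it is not the case that t − 1 has rank m and Q(v + t v) = 0 for every vector v, then t and s are conjugate by an element of Ω. If t − 1 has rank m and Q(v + t v) = 0 for all v, then t and s are conjugate by an element of Ω exactly when the intersection of the images of t − 1 and s − 1 has even dimension (so the class of t in O meets at most two classes of Ω). -/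
theorem result {F : Type*} [Field F] [Fintype F] [CharP F 2] {m : ℕ} (hm : 4 ≤ m) (t s : ↥(Cfsg.isometryGroup F (Cfsg.quadFormPlus m F))) (ht : orderOf t = 2) (hs : orderOf s = 2) (htO : t ∈ Cfsg.Omega F (Cfsg.quadFormPlus m F)) (hsO : s ∈ Cfsg.Omega F (Cfsg.quadFormPlus m F)) (hconj : IsConj t s) :
    (¬ (((((t : ↥(Cfsg.isometryGroup F (Cfsg.quadFormPlus m F))) : GL (Fin m ⊕ Fin m) F) : Matrix (Fin m ⊕ Fin m) (Fin m ⊕ Fin m) F) - 1).rank = m ∧ ∀ v : Fin m ⊕ Fin m → F, Cfsg.quadFormPlus m F (v + Matrix.mulVec (((t : ↥(Cfsg.isometryGroup F (Cfsg.quadFormPlus m F))) : GL (Fin m ⊕ Fin m) F) : Matrix (Fin m ⊕ Fin m) (Fin m ⊕ Fin m) F) v) = 0) →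
      ∃ g ∈ Cfsg.Omega F (Cfsg.quadFormPlus m F), g * t * g⁻¹ = s) ∧
    ((((((t : ↥(Cfsg.isometryGroup F (Cfsg.quadFormPlus m F))) : GL (Fin m ⊕ Fin m) F) : Matrix (Fin m ⊕ Fin m) (Fin m ⊕ Fin m) F) - 1).rank = m ∧ ∀ v : Fin m ⊕ Fin m → F, Cfsg.quadFormPlus m F (v + Matrix.mulVec (((t : ↥(Cfsg.isometryGroup F (Cfsg.quadFormPlus m F))) : GL (Fin m ⊕ Fin m) F) : Matrix (Fin m ⊕ Fin m) (Fin m ⊕ Fin m) F) v) = 0) →
      ((∃ g ∈ Cfsg.Omega F (Cfsg.quadFormPlus m F), g * t * g⁻¹ = s) ↔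
        Even (Module.finrank F ↥(LinearMap.range (Matrix.toLin' ((((t : ↥(Cfsg.isometryGroup F (Cfsg.quadFormPlus m F))) : GL (Fin m ⊕ Fin m) F) : Matrix (Fin m ⊕ Fin m) (Fin m ⊕ Fin m) F) - 1)) ⊓ LinearMap.range (Matrix.toLin' ((((s : ↥(Cfsg.isometryGroup F (Cfsg.quadFormPlus m F))) : GL (Fin m ⊕ Fin m) F) : Matrix (Fin m ⊕ Fin m) (Fin m ⊕ Fin m) F) - 1)))))) := by
  revert t s
  rw [← coe_qPlus]
  intro t s ht hs htO hsO hconj
  have h2 : (2 : F) = 0 := CharTwo.two_eq_zero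
  have hQ := qPlus_nondegenerate (F := F) m
  have htop := reflSub_eq_top_fin hQ (Or.inr (by simp; omega))
  have hc := (isConj_equiv_iff (oEquiv (qPlus m F))).2 hconj
  have key : MaxTS (qPlus m F) (RU (oEquiv (qPlus m F) t).1) ↔
      ((((t : GL (Fin m ⊕ Fin m) F) : Matrix (Fin m ⊕ Fin m) (Fin m ⊕ Fin m) F) - 1).rank = m ∧
      ∀ v : Fin m ⊕ Fin m → F, qPlus m F (v + Matrix.mulVec
        ((t : GL (Fin m ⊕ Fin m) F) : Matrix (Fin m ⊕ Fin m) (Fin m ⊕ Fin m) F) v) = 0) := by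
    rw [maxTS_qPlus_iff, finrank_RU_oEquiv]
    refine and_congr_right fun _ => (sing_RU_oEquiv (Q := qPlus m F) t).trans
      (forall_congr' fun v => ?_)
    rw [Matrix.sub_mulVec, Matrix.one_mulVec, sub_eq_add_neg, add_comm,
      show -v = v from funext fun i => CharTwo.neg_eq (v i)]
  rw [← key, exists_conj_Omega_iff]
  refine ⟨fun h => exists_conj_commutator h2 hQ htop
    (sq_map_eq_one _ (orderOf_eq_two_iff.1 ht).1) h hc, fun h => ?_⟩
  rw [conj_commutator_iff h2 hQ htop h hc, Nat.even_sub (Submodule.finrank_mono inf_le_left),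
    ← mem_commutator_iff h2 hQ htop, ← mem_Omega_iff, RU_oEquiv, RU_oEquiv]
  exact ⟨fun h => h.1 htO, fun h => iff_of_true htO h⟩

end Cfsg.Agent.S2172
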