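import Cfsg.Statements.S2177
import Cfsg.Agent.Chev.G2Inv

set_option autoImplicit false
open Cfsg

namespace Cfsg.Agent.S2177

open CF.Chev CF.BN

/-- The representatives. -/
def reps : List (List (Fin Lie.chevG2.nroots)) := [[⟨11, by decide⟩], [⟨9, by decide⟩]]

theorem invReps (F : Type*) [Field F] [Fintype F] [CharP F 2] : certG2.InvReps F reps where
  ord L hL := by
    have key : ∀ r, orderOf ((certG2.basis.adSt F).x r 1) = 2 := fun r =>
      orderOf_eq_prime (by
        rw [sq, ← (certG2.basis.adSt F).x_add, CharTwo.add_self_eq_zero, PreSt.x_zero]) fun e =>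
          one_ne_zero (StRep.faithful_adSt.x_injective r
            (e.trans ((certG2.basis.adSt F).x_zero r).symm))
    simp only [reps, List.mem_cons, List.not_mem_nil, or_false] at hL
    rcases hL with rfl | rfl <;> simpa using key _
  ex g hg h := by
    obtain ⟨n, hn', hn⟩ := G2i.p_inv (ρ := certG2.basis.adSt F) StRep.faithful_adSt hg h
    rcases hn with hn | hn
    · exact ⟨[⟨11, by decide⟩], by simp [reps], n, hn', hn.trans (mul_one _).symm⟩
    · exact ⟨[⟨9, by decide⟩], by simp [reps], n, hn', hn.trans (mul_one _).symm⟩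
  inj _ hL _ hL' _ hg := certG2.eq_of_conj' StRep.faithful_adSt
    (fun L => if L = [9] then [9, 10, 11] else L)
    (by decide +kernel) (by decide +kernel) hL hL' hg

/-- Conjugacy classes of involutions in the Chevalley group of type G₂ over a finite field F of characteristic two with at least four elements (the matrix group generated by the root elements x_r(t)). In this problem's root numbering for type G₂ (the Chevalley data module; p₁ = a short, p₂ = b long; roots indexed by coefficient vectors in increasing order) let 11 be the highest root 3a + 2b (long) and 9 the short root 2a + b; consider x_{3a+2b}(1) and x_{2a+b}(1). Then: each invertible matrix equal to one of these two products lies in the group and has order 2; every element of order 2 of the group is conjugate in the group to one of them; and no two of them are conjugate in the group (so, the two matrices being distinct, the group has exactly two conjugacy classes of involutions). -/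
theorem result {F : Type*} [Field F] [Fintype F] [CharP F 2] (hF : 4 ≤ Fintype.card F) :
    (∀ y : GL Cfsg.Lie.chevG2.Idx F, ((y : GL Cfsg.Lie.chevG2.Idx F) : Matrix Cfsg.Lie.chevG2.Idx Cfsg.Lie.chevG2.Idx F) ∈ [Cfsg.Lie.chevG2.x F 11 1, Cfsg.Lie.chevG2.x F 9 1] → y ∈ Cfsg.Lie.chevG2.group F ∧ orderOf y = 2) ∧
    (∀ g ∈ Cfsg.Lie.chevG2.group F, orderOf g = 2 → ∃ y ∈ Cfsg.Lie.chevG2.group F, ((y : GL Cfsg.Lie.chevG2.Idx F) : Matrix Cfsg.Lie.chevG2.Idx Cfsg.Lie.chevG2.Idx F) ∈ [Cfsg.Lie.chevG2.x F 11 1, Cfsg.Lie.chevG2.x F 9 1] ∧ ∃ h ∈ Cfsg.Lie.chevG2.group F, h * g * h⁻¹ = y) ∧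
    (∀ y₁ ∈ Cfsg.Lie.chevG2.group F, ∀ y₂ ∈ Cfsg.Lie.chevG2.group F, ((y₁ : GL Cfsg.Lie.chevG2.Idx F) : Matrix Cfsg.Lie.chevG2.Idx Cfsg.Lie.chevG2.Idx F) ∈ [Cfsg.Lie.chevG2.x F 11 1, Cfsg.Lie.chevG2.x F 9 1] → ((y₂ : GL Cfsg.Lie.chevG2.Idx F) : Matrix Cfsg.Lie.chevG2.Idx Cfsg.Lie.chevG2.Idx F) ∈ [Cfsg.Lie.chevG2.x F 11 1, Cfsg.Lie.chevG2.x F 9 1] →
      (∃ h ∈ Cfsg.Lie.chevG2.group F, h * y₁ * h⁻¹ = y₂) → ((y₁ : GL Cfsg.Lie.chevG2.Idx F) : Matrix Cfsg.Lie.chevG2.Idx Cfsg.Lie.chevG2.Idx F) = ((y₂ : GL Cfsg.Lie.chevG2.Idx F) : Matrix Cfsg.Lie.chevG2.Idx Cfsg.Lie.chevG2.Idx F)) := by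
  exact (invReps F).classes (by simp [reps])

end Cfsg.Agent.S2177
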