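import Cfsg.Statements.S2179
import Cfsg.Agent.Chev.CentT
import Cfsg.Agent.Chev.Mult

set_option autoImplicit false
open Cfsg

namespace Cfsg.Agent.S2179

open CF.Chev

/-- Centralizers of the two remaining classes of involutions in the Chevalley group G of type F₄ over a finite field F of characteristic two (this problem's root numbering for type F₄, from the Chevalley data module: p₁, p₂ short, p₃, p₄ long with indices 33, 27, 25, 24 and negatives 14, 20, 22, 23; U generated by the positive root subgroups). For an element of G with matrix x_47(1)x_44(1) (highest root times highest short root): its centralizer in G is generated by U, X_{−p₂} and X_{−p₃}. For an element of G with matrix x_39(1)x_45(1) (roots (1,2,2,1) and (2,4,2,1), an orthogonal short/long pair): its centralizer in G is generated by X_{p₁}, X_{−p₁}, X_{p₄}, X_{−p₄} and the root subgroups of all positive roots other than p₂ (27), p₃ (25), p₁ + p₂ (34) and p₃ + p₄ (26). -/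
theorem result {F : Type*} [Field F] [Fintype F] [CharP F 2] (w v : GL Cfsg.Lie.chevF4.Idx F) (hw : (w : Matrix Cfsg.Lie.chevF4.Idx Cfsg.Lie.chevF4.Idx F) = Cfsg.Lie.chevF4.x F 47 1 * Cfsg.Lie.chevF4.x F 44 1) (hv : (v : Matrix Cfsg.Lie.chevF4.Idx Cfsg.Lie.chevF4.Idx F) = Cfsg.Lie.chevF4.x F 39 1 * Cfsg.Lie.chevF4.x F 45 1) :
    Cfsg.Lie.chevF4.group F ⊓ Subgroup.centralizer {w} = Cfsg.Lie.chevF4.posUnipotent F ⊔ Cfsg.Lie.chevF4.rootSubgroup F 20 ⊔ Cfsg.Lie.chevF4.rootSubgroup F 22 ∧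
    Cfsg.Lie.chevF4.group F ⊓ Subgroup.centralizer {v} = Cfsg.Lie.chevF4.rootSubgroup F 33 ⊔ Cfsg.Lie.chevF4.rootSubgroup F 14 ⊔ Cfsg.Lie.chevF4.rootSubgroup F 24 ⊔ Cfsg.Lie.chevF4.rootSubgroup F 23 ⊔
      Subgroup.closure {g : GL Cfsg.Lie.chevF4.Idx F | ∃ (r : ℕ) (c : F), Cfsg.Lie.chevF4.IsPosRoot r ∧ r ∉ [27, 25, 34, 26] ∧ (g : Matrix Cfsg.Lie.chevF4.Idx Cfsg.Lie.chevF4.Idx F) = Cfsg.Lie.chevF4.x F r c} := by
  constructor
  · rw [certF4.eq_prodL (L := [⟨47, by decide⟩, ⟨44, by decide⟩]) (hw.trans (by simp)),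
      certF4.isLink.group_eq, certF4.isLink.posUnipotent_eq, certF4.centralizer_dom (M := [20, 22])
      StRep.r3_adSt StRep.faithful_adSt (fun _ _ _ => cm_of_n3 n3F4 CharTwo.two_eq_zero)
      (by refine ⟨?_, ?_, ?_, ?_⟩ <;> decide +kernel), certF4.U_eq F (by decide)]
    simp only [closure_cons, closure_nil, sup_assoc, sup_bot_eq]
  rw [certF4.eq_prodL (L := [⟨39, by decide⟩, ⟨45, by decide⟩]) (hv.trans (by simp)),
    certF4.isLink.group_eq, certF4.centralizer_word (S := [39, 40, 44, 45, 46, 47])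
    (M := 33 :: 14 :: 24 :: 23 :: (List.range' 24 24).filter (· ∉ [27, 25, 34, 26]))
    StRep.r3_adSt StRep.faithful_adSt [(27, [44, 46, 47]), (34, [46, 47]), (25, [47]), (26, [])]
    (fun a => if a = 39 then 3 else 2) (fun i a => if i = 2 ∧ a = 39 then 2 else 1)
    (by refine ⟨?_, ?_, ?_, ?_, ?_, ?_⟩ <;> decide +kernel), certF4.U_eq F (by decide)]
  simp only [closure_cons, sup_assoc]
  congr 5
  ext g
  have h : ∀ r < 48, (∀ c ∈ (Lie.chevF4.coroot.getD r #[]).toList, 0 ≤ c) ↔ r ∈ List.range' 24 24 := by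
    decide +kernel
  have : ∀ r, Lie.chevF4.IsPosRoot r ↔ r ∈ List.range' 24 24 := fun r =>
    ⟨fun h' => (h r h'.1).1 h'.2, fun h' => have := (List.mem_range'_1.1 h').2; ⟨this, (h r this).2 h'⟩⟩
  simp only [this, List.mem_filter, decide_eq_true_eq, Set.mem_ofPred_eq, exists_and_left, and_assoc]

end Cfsg.Agent.S2179
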