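import Cfsg.Statements.S2190
import Cfsg.Agent.Chev.BGLX

set_option autoImplicit false
open Cfsg

namespace Cfsg.Agent.S2190

/-- Subfield subgroups of prime degree are maximal. Let K be a finite field with q^r elements, r a prime, q a power of the characteristic, and G the Chevalley group of type G₂, B₂, D₄, F₄, E₆, E₇ or E₈ over K (the matrix group generated by the root elements). Let M be the subgroup of G consisting of the matrices all of whose entries lie in the subfield with q elements (entries c with c^q = c). Then M is a proper subgroup of G and is maximal: every subgroup of G containing M is M or G. -/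
theorem result {K : Type*} [Field K] [Fintype K] (p : ℕ) [Fact p.Prime] [CharP K p] (D : Cfsg.Lie.ChevalleyDatum) (hD : D ∈ [Cfsg.Lie.chevG2, Cfsg.Lie.chevB2, Cfsg.Lie.chevD4, Cfsg.Lie.chevF4, Cfsg.Lie.chevE6, Cfsg.Lie.chevE7, Cfsg.Lie.chevE8]) (a r : ℕ) (ha : 1 ≤ a) (hr : r.Prime) (hK : Fintype.card K = (p ^ a) ^ r) (M : Subgroup (GL D.Idx K))
    (hM : ∀ g : GL D.Idx K, g ∈ M ↔ g ∈ D.group K ∧ ∀ i j : D.Idx, ((g : Matrix D.Idx D.Idx K) i j) ^ (p ^ a) = (g : Matrix D.Idx D.Idx K) i j) :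
    M ≠ D.group K ∧ ∀ H : Subgroup (GL D.Idx K), M ≤ H → H ≤ D.group K → H = M ∨ H = D.group K := by
  classical
  obtain ⟨C, hC⟩ := CF.Chev.exists_good hD
  have L := hC.link
  have hp := (Fact.out : p.Prime)
  have key : ∀ d, 1 ≤ d → d ∣ a * r → ∃ t : K, orderOf t = p ^ d - 1 := fun d hd h => by
    have h1 : p ^ d - 1 ∣ Fintype.card Kˣ := by
      rw [Fintype.card_units, hK, ← pow_mul]; exact Nat.pow_sub_one_dvd_pow_sub_one p h
    obtain ⟨t, ht⟩ := Finset.card_pos.1 ((IsCyclic.card_orderOf_eq_totient h1).symm ▸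
      Nat.totient_pos.2 (Nat.pos_of_dvd_of_pos h1 Fintype.card_pos))
    exact ⟨t, orderOf_units.trans (by simpa using ht)⟩
  have h0 : ∀ P : K → Prop, Subgroup.closure {g : GL D.Idx K | ∃ (s : ℕ) (t : K), P t ∧
      (g : Matrix D.Idx D.Idx K) = D.x K s t} ≤ D.group K := fun P => by
    rw [L.closure_eq_Sub P]; exact Subgroup.map_subtype_le _
  have h1 : Subgroup.closure {g : GL D.Idx K | ∃ (s : ℕ) (t : K), t ^ p ^ a = t ∧
      (g : Matrix D.Idx D.Idx K) = D.x K s t} ≤ M := by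
    rw [L.closure_eq_Sub fun t => t ^ p ^ a = t]
    rintro _ ⟨g, hg, rfl⟩
    exact (hM _).2 ⟨g.2, (L.fieldAut_eq_iff (iterateFrobeniusEquiv K p a) g).1
      (CF.Chev.StRep.Sub_fix (σ := (iterateFrobeniusEquiv K p a : K →+* K))
        ((L.isAdj K).fieldAut_x _) hg)⟩
  have h2 : ∀ t : K, t ^ p ^ (a * r) = t := fun t => by rw [pow_mul, ← hK, FiniteField.pow_card]
  refine ⟨fun e => ?_, fun H h3 h4 => ?_⟩
  · obtain ⟨t, ht⟩ := key (a * r) (Nat.mul_pos ha hr.pos) dvd_rfl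
    obtain ⟨i⟩ := hC.nonempty
    have h5 := ((hM _).1 (e.ge ((L.gpRep K).x (C.neg (C.neg (C.simple i))) t).2)).2
      (Sum.inl i) (Sum.inr (C.neg (C.neg (C.neg (C.simple i)))))
    rw [L.val_gpRep_x, L.x_eq, C.X_entry, if_pos rfl, C.neg_neg, C.cov_simple] at h5
    have := Nat.le_of_dvd ha (CF.Chev.dvd_of_pow_eq hp.one_lt ht (Nat.mul_pos ha hr.pos)
      fun _ => by simpa using h5)
    nlinarith [hr.two_le]
  obtain ⟨n, hn, h5, h6⟩ := CF.Chev.ovr (p := p) hD H inferInstance h4 (fun t => t ^ p ^ a = t)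
    (one_pow _) (h1.trans h3)
  obtain ⟨t, ht⟩ := key a ha (dvd_mul_right a r)
  obtain ⟨m, rfl⟩ := CF.Chev.dvd_of_pow_eq hp.one_lt ht ha ((h5 _).1 (h1.trans h3) t)
  by_cases h7 : r ∣ m
  · refine Or.inr (le_antisymm h4 (((h5 fun _ => True).2 fun t _ => ?_).trans' ?_))
    · obtain ⟨m, rfl⟩ := h7
      rw [← mul_assoc, pow_mul, pow_mul p, ← hK, FiniteField.pow_card_pow]
    · rw [L.closure_eq_Sub fun _ => True]
      exact fun g hg => ⟨⟨g, hg⟩, (L.gpRep_Gp K).ge.trans ((L.gpRep K).U_le_iff.2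
        fun r _ t => CF.Chev.StRep.x_mem_Sub r trivial) trivial, rfl⟩
  refine Or.inl (le_antisymm (fun g hg => (hM g).2 ⟨h4 hg, fun i j => ?_⟩) h3)
  have h8 : ∀ (n : ℕ) (t : K), Function.IsPeriodicPt (frobenius K p) n t ↔ t ^ p ^ n = t :=
    fun n t => by rw [← iterate_frobenius]; rfl
  have := ((h8 _ _).2 (h6 g hg i j)).gcd ((h8 _ _).2 (h2 _))
  rwa [Nat.gcd_mul_left, ((Nat.Prime.coprime_iff_not_dvd hr).2 h7).symm, mul_one, h8] at this

end Cfsg.Agent.S2190
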