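import Cfsg.Statements.S2194
import Cfsg.Agent.Rk.Main
import Cfsg.Agent.Rk.Z1

set_option autoImplicit false
open Cfsg

namespace Cfsg.Agent.S2194

/-- Primitive rank 3 actions of the projective special linear groups in dimension at least 5. Let G ≅ PSL_n(F), n ≥ 5, F a finite field with q elements, act faithfully and primitively on a finite set X so that a point stabilizer has exactly three orbits on X. Then X has as many points as there are 2-dimensional subspaces of F^n: |X|·(q² − 1)(q − 1) = (q^n − 1)(q^(n−1) − 1). (The action is in fact the one on the lines of the projective space, or on its subspaces of dimension n − 2; only the number of points is asserted here.) -/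
theorem result {G X : Type*} [Group G] [Finite G] [MulAction G X] [FaithfulSMul G X] [Fintype X] {F : Type*} [Field F] [Fintype F] (n : ℕ) (hn : 5 ≤ n) (e : G ≃* Matrix.ProjectiveSpecialLinearGroup (Fin n) F) (hprim : MulAction.IsPreprimitive G X) (x : X) (h3 : Nat.card (MulAction.orbitRel.Quotient ↥(MulAction.stabilizer G x) X) = 3) :
    Fintype.card X * ((Fintype.card F ^ 2 - 1) * (Fintype.card F - 1)) = (Fintype.card F ^ n - 1) * (Fintype.card F ^ (n - 1) - 1) := by
  classical
  exact CF.Rk.Z.final_of n hn e hprim x h3 fun _ h => h.main

end Cfsg.Agent.S2194
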