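import Cfsg.Statements.S2195
import Cfsg.Agent.Rs.Fin

set_option autoImplicit false
open Cfsg

namespace Cfsg.Agent.S2195

/-- Primitive rank 3 actions of the projective symplectic groups in dimension at least 6 over fields of odd order. Let G ≅ PSp_{2k}(F), k ≥ 3, F a finite field with q elements, q odd, act faithfully and primitively on a finite set X so that a point stabilizer has exactly three orbits. Then X has as many points as the projective space of F^{2k}: |X|·(q − 1) = q^{2k} − 1. (The action is in fact the one on the points of the projective space, all of which are isotropic for the symplectic form; only the number of points is asserted here.) -/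
theorem result {G X : Type*} [Group G] [Finite G] [MulAction G X] [FaithfulSMul G X] [Fintype X] {F : Type*} [Field F] [Fintype F] (k : ℕ) (hk : 3 ≤ k) (hq : Odd (Fintype.card F)) (e : G ≃* Cfsg.PSp k F) (hprim : MulAction.IsPreprimitive G X) (x : X) (h3 : Nat.card (MulAction.orbitRel.Quotient ↥(MulAction.stabilizer G x) X) = 3) :
    Fintype.card X * (Fintype.card F - 1) = Fintype.card F ^ (2 * k) - 1 := by
  obtain ⟨B, f, h, b, ⟨ψ⟩⟩ := CF.Rs.exists_std k hk (CF.Rs.two_ne_of_odd hq)
  let φ : CF.Rs.GG B →* G := (e.symm.toMonoidHom.comp (QuotientGroup.mk' _)).comp ψ.toMonoidHom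
  have hφ : Function.Surjective φ :=
    (e.symm.surjective.comp (QuotientGroup.mk'_surjective _)).comp ψ.surjective
  have hc : ∀ g, φ g = 1 ↔ g ∈ Subgroup.center (CF.Rs.GG B) := fun g => by
    have h1 : φ g = 1 ↔ ψ g ∈ Subgroup.center (Matrix.symplecticGroup (Fin k) F) := by
      rw [← QuotientGroup.eq_one_iff]
      exact e.symm.map_eq_one_iff
    rw [h1, Subgroup.mem_center_iff, Subgroup.mem_center_iff]
    refine ⟨fun h2 a => ψ.injective (by rw [map_mul, map_mul, h2]), fun h2 a => ?_⟩
    obtain ⟨a, rfl⟩ := ψ.surjective a
    rw [← map_mul, ← map_mul, h2]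
  letI := MulAction.compHom X φ
  obtain ⟨r, pr⟩ := CF.Rs.transfer φ hφ hprim x h3
  have hm := CF.Rs.main h b r pr
    (fun g hg => (hc g).1 (eq_of_smul_eq_smul (α := X) fun y => by rw [one_smul]; exact hg y))
    fun g hg y => by
      have h1 := (hc g).2 (Subgroup.mem_center_iff.2 fun a => Subtype.ext (LinearEquiv.ext fun v => by
        rw [CF.Rs.GG.mul_apply, CF.Rs.GG.mul_apply, hg, hg, map_neg]))
      change φ g • y = y
      rw [h1, one_smul]
  rw [Nat.card_eq_fintype_card, Nat.card_eq_fintype_card, Fintype.card_fun, Fintype.card_sum,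
    Fintype.card_fin, ← two_mul] at hm
  omega

end Cfsg.Agent.S2195
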