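import Cfsg.Statements.S2196
import Cfsg.Agent.Rq.Fin
import Cfsg.Agent.S0285

set_option autoImplicit false
open Cfsg

namespace Cfsg.Agent.S2196

/-- Primitive rank 3 actions of the projective special unitary groups in dimension at least 6 with q ≥ 3. Let G ≅ PSU_n(q), n ≥ 6, q ≥ 3 (realised over the field with q² elements), act faithfully and primitively on a finite set X so that a point stabilizer has exactly three orbits. Then X has as many points as there are isotropic points of the unitary space: |X|·(q² − 1) = (q^n − (−1)^n)(q^(n−1) − (−1)^(n−1)), written with natural numbers as |X|·(q² − 1) = (q^n − 1)(q^(n−1) + 1) for n even and (q^n + 1)(q^(n−1) − 1) for n odd. -/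
theorem result {G X : Type*} [Group G] [Finite G] [MulAction G X] [FaithfulSMul G X] [Fintype X] {F : Type*} [Field F] [Fintype F] (n q : ℕ) (hn : 6 ≤ n) (hq : 3 ≤ q) (hF : Fintype.card F = q ^ 2) (e : G ≃* Cfsg.PSU n F q) (hprim : MulAction.IsPreprimitive G X) (x : X) (h3 : Nat.card (MulAction.orbitRel.Quotient ↥(MulAction.stabilizer G x) X) = 3) :
    (Even n → Fintype.card X * (q ^ 2 - 1) = (q ^ n - 1) * (q ^ (n - 1) + 1)) ∧
    (Odd n → Fintype.card X * (q ^ 2 - 1) = (q ^ n + 1) * (q ^ (n - 1) - 1)) := by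
  obtain ⟨σ, B, f, h, b, hB⟩ := CF.Rq.exists_std n q hn hq hF
  obtain ⟨ψ⟩ := CF.Rq.exists_iso hB
  let φ : CF.Rq.GG B →* G := (e.symm.toMonoidHom.comp (QuotientGroup.mk' _)).comp ψ.toMonoidHom
  have hφ : Function.Surjective φ :=
    (e.symm.surjective.comp (QuotientGroup.mk'_surjective _)).comp ψ.surjective
  let _ := MulAction.compHom X φ
  obtain ⟨r, pr⟩ := CF.Rq.transfer φ hφ hprim x h3
  have hm := CF.Rq.main h b r pr fun g hg => by
    have h1 : φ g = 1 := eq_of_smul_eq_smul (α := X) fun y => by rw [one_smul]; exact hg y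
    have h2 : ψ g ∈ Subgroup.center (Cfsg.SU n F q) := by
      rw [← QuotientGroup.eq_one_iff]
      exact e.symm.injective (by rw [map_one]; exact h1)
    rw [Subgroup.mem_center_iff] at h2 ⊢
    exact fun k => ψ.injective (by rw [map_mul, map_mul, h2])
  have h4 : Nat.card {v : Fin n → F // B v v = 0} =
      Nat.card {v : Fin n → F // Cfsg.hermForm n F q v v = 0} := by
    simp only [hB, Cfsg.hermForm]
  rw [h4, Cfsg.Agent.S0285.result hF n, Nat.card_eq_fintype_card, hF, Nat.add_right_cancel_iff] at hm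
  refine ⟨fun hn => by rw [hm, if_pos hn], fun hn => by rw [hm, if_neg (Nat.not_even_iff_odd.2 hn)]⟩


end Cfsg.Agent.S2196
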