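import Mathlib
import Cfsg.Agent.Fgs2.PSq4
import Cfsg.Statements.S2205

set_option autoImplicit false
open Cfsg

namespace Cfsg.Agent.S2205

open CF.Fgs2.PSq CF.BG MulAction Subgroup

/-- A finite group acting faithfully and 2-transitively on a set with p² + 1 points, p a prime, is doubly primitive — a point stabilizer acts primitively on the remaining p² points — unless p = 2 and the group is the Frobenius group of order 20. -/
theorem result {G Ω : Type*} [Group G] [Finite G] [Fintype Ω] [MulAction G Ω] [FaithfulSMul G Ω] (p : ℕ) (hp : p.Prime) (hΩ : Fintype.card Ω = p ^ 2 + 1) (h2 : MulAction.IsMultiplyPretransitive G Ω 2) (a : Ω) :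
    MulAction.IsPreprimitive ↥(MulAction.stabilizer G a) ↥(SubMulAction.ofStabilizer G a) ∨ (p = 2 ∧ Nat.card G = 20) := by
  rw [is_two_pretransitive_iff] at h2
  have h : Cfg G Ω p := ⟨hp, Nat.card_eq_fintype_card.trans hΩ, fun x y x' y' => @h2 x y x' y',
    fun g hg => eq_of_smul_eq_smul (α := Ω) fun x => by rw [hg, one_smul]⟩
  obtain ⟨b, hb⟩ := h.exists_ne a
  obtain ⟨c, hc, cb⟩ := h.exists_ne2 a b
  let b' : SubMulAction.ofStabilizer G a := ⟨b, hb⟩
  haveI : Nontrivial (SubMulAction.ofStabilizer G a) :=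
    ⟨⟨⟨c, hc⟩, b', fun e => cb (congrArg Subtype.val e)⟩⟩
  haveI : IsPretransitive (stabilizer G a) (SubMulAction.ofStabilizer G a) := ⟨fun x y => by
    obtain ⟨g, hg, e⟩ := h.trans (a := a) x.2 y.2
    exact ⟨⟨g, hg⟩, Subtype.ext e⟩⟩
  rw [← isCoatom_stabilizer_iff_preprimitive _ b', or_iff_not_imp_left]
  intro hn
  have e : (stabilizer (stabilizer G a) b').map (stabilizer G a).subtype =
      stabilizer G a ⊓ stabilizer G b := by
    ext g
    exact ⟨fun ⟨x, hx, e⟩ => e ▸ ⟨x.2, congrArg Subtype.val hx⟩,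
      fun hg => ⟨⟨g, hg.1⟩, Subtype.ext hg.2, rfl⟩⟩
  have n : stabilizer (stabilizer G a) b' ≠ ⊤ := fun k => by
    obtain ⟨g, hg, e⟩ := h.trans hb hc
    exact cb (e.symm.trans (congrArg Subtype.val (k.ge (mem_top ⟨g, hg⟩))))
  rw [IsCoatom, not_and_or, not_not] at hn
  have hn := hn.resolve_left n
  push Not at hn
  obtain ⟨M, h1, h2⟩ := hn
  have k1 : stabilizer G a ⊓ stabilizer G b < M.map (stabilizer G a).subtype :=
    e ▸ (map_lt_map_iff_of_injective (subtype_injective _)).2 h1
  have k2 : M.map (stabilizer G a).subtype < stabilizer G a := by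
    have := (map_lt_map_iff_of_injective (subtype_injective _)).2 h2.lt_top
    rwa [map_top_subtype] at this
  by_cases p2 : p = 2
  · subst p2
    exact ⟨rfl, h.mid_two hb k1 k2⟩
  · exact (h.no_mid p2 hb k1 k2).elim

end Cfsg.Agent.S2205
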