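import Cfsg.Statements.S2207
import Cfsg.Agent.R3f.H
import Cfsg.Agent.Classical.SL25
import Cfsg.Agent.S0547

set_option autoImplicit false
open Cfsg

namespace Cfsg.Agent.S2207

/-- Primitive rank 3 groups whose point stabilizer acts as a Frobenius group on one of its two non-trivial orbits. Let a finite group G of even order act faithfully and primitively on a finite set X so that the stabilizer of a point A has exactly three orbits, and suppose that on one of its non-trivial orbits I the stabilizer of A acts faithfully as a Frobenius group: transitively, some non-identity element fixing a point of I, and no non-identity element fixing two points of I. Then either G ≅ A₅ and X has 10 points (the action on unordered pairs), or G is solvable and has a normal subgroup of order 16 acting regularly on X. -/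
theorem result {G X : Type*} [Group G] [Finite G] [Fintype X] [MulAction G X] [FaithfulSMul G X] (heven : Even (Nat.card G)) (hprim : MulAction.IsPreprimitive G X) (A : X)
    (h3 : Nat.card (MulAction.orbitRel.Quotient ↥(MulAction.stabilizer G A) X) = 3) (B : X) (hBA : B ≠ A)
    (hfaith : ∀ g ∈ MulAction.stabilizer G A, (∀ h ∈ MulAction.stabilizer G A, g • (h • B) = h • B) → g = 1)
    (hfix : ∃ g ∈ MulAction.stabilizer G A, g ≠ 1 ∧ g • B = B)
    (hfrob : ∀ g ∈ MulAction.stabilizer G A, ∀ h ∈ MulAction.stabilizer G A, g • B = B → g • (h • B) = h • B → h • B ≠ B → g = 1) :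
    (Nonempty (G ≃* ↥(alternatingGroup (Fin 5))) ∧ Fintype.card X = 10) ∨
    (IsSolvable G ∧ ∃ N : Subgroup G, N.Normal ∧ Nat.card N = 16 ∧ ∀ x y : X, ∃! n : ↥N, (n : G) • x = y) := by
  letI := Fintype.ofFinite G
  obtain ⟨Γ, K, h⟩ := CF.R3f.exists_st heven h3 hBA hfaith hfix hfrob
  obtain ⟨k, c, l, w, y, la, mu, h⟩ := h.pm
  have : Nonempty X := ⟨A⟩
  have reg : Group.IsSolvable G → ∃ N : Subgroup G, N.Normal ∧ Nat.card N = Fintype.card X ∧
      (∀ x y : X, ∃! n : ↥N, (n : G) • x = y) ∧ IsPrimePow (Fintype.card X) := fun s => by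
    obtain ⟨g, -, g1, -⟩ := hfix
    have : Nontrivial G := ⟨⟨g, 1, g1⟩⟩
    obtain ⟨N, hN, n, m⟩ := CF.Solv.exists_isMinNormal (G := G)
    obtain ⟨t, f, p, d, hp, hd, e1, e2⟩ := S0547.result hprim N n m
    rw [Nat.card_eq_fintype_card] at e1
    refine ⟨N, hN, e2.trans e1.symm, fun x y => ?_, p, d, hp.prime, hd, e1.symm⟩
    obtain ⟨a, ha⟩ := t.1 x y
    refine ⟨a, ha, fun b hb => (inv_mul_eq_one.1 (Subgroup.mem_bot.1 ((f x).le ?_))).symm⟩
    show (a⁻¹ * b) • x = x
    rw [mul_smul, show b • x = y from hb, ← ha, inv_smul_smul]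
  have hn := h.hn
  have hG := h.hG
  have c2 := h.c2
  have cd := h.cdvd
  have s16 : ∀ q b, q.Prime → Nat.card G ∣ 2 ^ 7 * q ^ b → Fintype.card X = 16 → IsSolvable G ∧
      ∃ N : Subgroup G, N.Normal ∧ Nat.card N = 16 ∧ ∀ x y : X, ∃! n : ↥N, (n : G) • x = y := fun q b hq d e => by
    have s := CF.Char.isSolvable_of_card_dvd Nat.prime_two hq G d
    obtain ⟨N, a, b, c, -⟩ := reg s
    exact ⟨s, N, a, b.trans e, c⟩
  rcases h.main heven with ⟨rfl, rfl⟩ | ⟨rfl, rfl⟩ | ⟨rfl, rfl⟩
  · obtain rfl : c = 2 := le_antisymm (Nat.le_of_dvd two_pos cd) c2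
    refine Or.inl ⟨CF.Classical.equiv_A5_of_not_isSolvable hG fun s => ?_, hn⟩
    obtain ⟨-, -, -, -, e⟩ := reg s
    rw [hn] at e
    exact absurd e (by decide)
  · exact Or.inr (s16 5 1 (by decide) (hG ▸ (mul_dvd_mul_left _ (mul_dvd_mul_left _ cd)).trans (by decide)) hn)
  · exact Or.inr (s16 3 2 (by decide) (hG ▸ (mul_dvd_mul_left _ (mul_dvd_mul_left _ cd)).trans (by decide)) hn)

end Cfsg.Agent.S2207
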