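import Cfsg.Statements.S2212
import Cfsg.Agent.Bender.PU2

set_option autoImplicit false
open Cfsg

namespace Cfsg.Agent.S2212

/-- Characterization of the three-dimensional projective unitary groups over finite fields of characteristic two by the centralizer of an involution. Let q = 2^n > 2 and let PGU₃(q) be the quotient of the full unitary group of a non-degenerate Hermitian form in three variables over the field with q² elements by its centre. Let G be a finite group of even order in which all involutions are conjugate, the centralizer of an involution is isomorphic to the centralizer of an involution in PGU₃(q), and a Sylow 2-subgroup is not normal. Then G ≅ PGU₃(q). -/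
theorem result {G : Type*} [Group G] [Finite G] {F : Type*} [Field F] [Fintype F] [CharP F 2] (q : ℕ) (hq : 2 < q) (hF : Fintype.card F = q ^ 2)
    (heven : Even (Nat.card G)) (hconj : ∀ s t : G, orderOf s = 2 → orderOf t = 2 → IsConj s t)
    (hC : ∀ (x : G) (y : (↥(Cfsg.GU 3 F q) ⧸ Subgroup.center ↥(Cfsg.GU 3 F q))), orderOf x = 2 → orderOf y = 2 →
      Nonempty (↥(Subgroup.centralizer ({x} : Set G)) ≃* ↥(Subgroup.centralizer ({y} : Set (↥(Cfsg.GU 3 F q) ⧸ Subgroup.center ↥(Cfsg.GU 3 F q))))))
    (hS : ∀ P : Sylow 2 G, ¬ (P : Subgroup G).Normal) :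
    Nonempty (G ≃* (↥(Cfsg.GU 3 F q) ⧸ Subgroup.center ↥(Cfsg.GU 3 F q))) := by
  obtain ⟨σ, h1, -, h2⟩ := CF.Geom.exists_conj hF
  let _ : StarRing F :=
    { star := σ, star_involutive := h2, star_mul := fun a b => by rw [map_mul, mul_comm]
      star_add := map_add σ }
  have h3 : ∀ x : F, starRingEnd F x = x ^ q := h1
  have e := CF.Geom.guEquiv 3 h3
  have f := (QuotientGroup.congr (Subgroup.center _) (Subgroup.center _) e (by
    ext y
    simp only [Subgroup.mem_map, Subgroup.mem_center_iff]
    refine ⟨?_, fun h => ⟨e.symm y, fun x => e.injective (by simp [h]), by simp⟩⟩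
    rintro ⟨x, hx, rfl⟩ y
    obtain ⟨y, rfl⟩ := e.surjective y
    simp [← map_mul, hx])).symm
  have fr := CF.Bender.PU.fr_std hF h1
  refine (CF.Bender.PU.main (fun x hx => ?_) hq hF h1 heven hS).map fun i => i.trans f
  obtain ⟨j⟩ := hC x (f fr.y) hx.orderOf (by rw [f.orderOf_eq, fr.y_ord])
  refine ⟨(fr.cm.congr ((f.subgroupMap _).trans (MulEquiv.subgroupCongr ?_))).congr j.symm⟩
  ext z
  obtain ⟨z, rfl⟩ := f.surjective z
  simp [Subgroup.mem_centralizer_singleton_iff, ← map_mul]

end Cfsg.Agent.S2212
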