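import Cfsg.Statements.S2214
import Cfsg.Agent.Chev.Sub

set_option autoImplicit false
open Cfsg

namespace Cfsg.Agent.S2214

/-- Let k be an algebraically closed field of prime characteristic p, G the adjoint Chevalley group of type G₂, B₂, D₄, F₄, E₆, E₇ or E₈ over k (the matrix group generated by the root elements x_s(t), t ∈ k, acting on the Lie algebra), q = p^a with a ≥ 1, and K a subgroup of G containing every root element x_s(t) with t^q = t and consisting of matrices all of whose entries c satisfy c^q = c. Then the centralizer of K in G is trivial, and the normalizer of K in G is exactly the set of elements of G all of whose entries c satisfy c^q = c. -/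
theorem result {k : Type*} [Field k] [IsAlgClosed k] (p : ℕ) [Fact p.Prime] [CharP k p] (D : Cfsg.Lie.ChevalleyDatum) (hD : D ∈ [Cfsg.Lie.chevG2, Cfsg.Lie.chevB2, Cfsg.Lie.chevD4, Cfsg.Lie.chevF4, Cfsg.Lie.chevE6, Cfsg.Lie.chevE7, Cfsg.Lie.chevE8]) (a : ℕ) (ha : 1 ≤ a) (K : Subgroup (GL D.Idx k)) (hKG : K ≤ D.group k)
    (hLK : Subgroup.closure {g : GL D.Idx k | ∃ (s : ℕ) (t : k), t ^ (p ^ a) = t ∧ (g : Matrix D.Idx D.Idx k) = D.x k s t} ≤ K)
    (hKfix : ∀ g ∈ K, ∀ i j : D.Idx, ((g : Matrix D.Idx D.Idx k) i j) ^ (p ^ a) = (g : Matrix D.Idx D.Idx k) i j) :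
    D.group k ⊓ Subgroup.centralizer (K : Set (GL D.Idx k)) = ⊥ ∧
    ∀ g : GL D.Idx k, g ∈ D.group k → (g ∈ Subgroup.normalizer (K : Set (GL D.Idx k)) ↔ ∀ i j : D.Idx, ((g : Matrix D.Idx D.Idx k) i j) ^ (p ^ a) = (g : Matrix D.Idx D.Idx k) i j) := by
  obtain ⟨C, L⟩ := CF.Chev.exists_link hD
  let σ : RingAut k := iterateFrobeniusEquiv k p a
  have hθ : ∀ r t, (L.isAdj k).fieldAut σ ((L.gpRep k).x r t) =
      (L.gpRep k).x r ((σ : k →+* k) t) := (L.isAdj k).fieldAut_x σ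
  rw [L.closure_eq_Sub fun t => t ^ p ^ a = t, Subgroup.map_le_iff_le_comap] at hLK
  have h1 : ∀ r, (L.gpRep k).x r 1 ∈ K.subgroupOf (D.group k) := fun r =>
    hLK (CF.Chev.StRep.x_mem_Sub r (one_pow _))
  have h2 : ∀ y ∈ K.subgroupOf (D.group k), (L.isAdj k).fieldAut σ y = y := fun y hy =>
    (L.fieldAut_eq_iff σ y).2 (hKfix y hy)
  refine ⟨eq_bot_iff.2 fun g ⟨hg, hc⟩ => ?_, fun g hg => ?_⟩
  · exact congrArg Subtype.val ((L.isAdj k).eq_one_of_actsT (g := ⟨g, hg⟩)
      (CF.Chev.StRep.actsT_one_of_commute (L.faithful_gpRep k) (L.gpRep_Gp k ▸ Subgroup.mem_top _)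
        fun r => Subtype.ext (Subgroup.mem_centralizer_iff.1 hc _
          (Subgroup.mem_subgroupOf.1 (h1 r))).symm))
  · have : g ∈ Subgroup.normalizer (K : Set (GL D.Idx k)) ↔ (⟨g, hg⟩ : D.group k) ∈
        Subgroup.normalizer (K.subgroupOf (D.group k) : Set (D.group k)) := by
      rw [← Subgroup.subgroupOf_normalizer_eq hKG, Subgroup.mem_subgroupOf]
    rw [this]
    refine Iff.trans ⟨CF.Chev.StRep.fix_of_mem_normalizer hθ (L.isAdj k) h1 h2,
      CF.Chev.StRep.fix_mem_normalizer hθ (L.isAdj k) ((L.isAdj k).fieldAut_mem_Stab σ)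
        hLK h2⟩ (L.fieldAut_eq_iff σ _)

end Cfsg.Agent.S2214
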