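import Cfsg.Statements.S2221
import Cfsg.Agent.Xs.K

set_option autoImplicit false
open Cfsg

namespace Cfsg.Agent.S2221


/-- Direct decomposability of the Sylow 2-subgroups of the alternating groups. Let n ≥ 4 and let P be a Sylow 2-subgroup of the alternating group of degree n. Then P is the internal direct product of two nontrivial subgroups if and only if n = 4, n = 5, or n ≡ 2, 3 (mod 4) with 4⌊n/4⌋ not a power of 2. In the remaining cases (n ≡ 0, 1 (mod 4) with n ≥ 8, or n ≡ 2, 3 (mod 4) with 4⌊n/4⌋ a power of 2) P is directly indecomposable. -/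
theorem result (n : ℕ) (hn : 4 ≤ n)
    (P : Sylow 2 (alternatingGroup (Fin n))) :
    (∃ S₁ S₂ : Subgroup (alternatingGroup (Fin n)), S₁ ≠ ⊥ ∧ S₂ ≠ ⊥ ∧
        Cfsg.IsInternalDirectProduct S₁ S₂ (P : Subgroup (alternatingGroup (Fin n)))) ↔
      (n = 4 ∨ n = 5 ∨ ((n % 4 = 2 ∨ n % 4 = 3) ∧ ∀ r : ℕ, 4 * (n / 4) ≠ 2 ^ r)) := by
    change CF.Xs.Dec _ ↔ _
    have small : (n = 4 ∨ n = 5) → CF.Xs.Dec (P : Subgroup (alternatingGroup (Fin n))) := by
      intro h
      refine CF.Xs.dec_of_four ?_ fun x _ h4 => Subtype.ext ?_
      · have : Nontrivial (Fin n) := Fin.nontrivial_iff_two_le.2 (by omega)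
        have h1 := two_mul_nat_card_alternatingGroup (α := Fin n)
        rw [Nat.card_perm, Nat.card_eq_fintype_card (α := Fin n), Fintype.card_fin] at h1
        rw [P.card_eq_multiplicity]
        rcases h with rfl | rfl
        · rw [show Nat.card (alternatingGroup (Fin 4)) = 2 ^ 2 * 3 by
            simp only [Nat.factorial] at h1; omega, Nat.factorization_mul (by norm_num) (by norm_num),
            Nat.Prime.factorization_pow Nat.prime_two, Nat.Prime.factorization Nat.prime_three]
          simp
        · rw [show Nat.card (alternatingGroup (Fin 5)) = 2 ^ 2 * 15 by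
            simp only [Nat.factorial] at h1; omega, Nat.factorization_mul (by norm_num) (by norm_num),
            Nat.Prime.factorization_pow Nat.prime_two]
          simp [Nat.factorization_eq_zero_of_not_dvd]
      · have h5 : x.1 ^ 4 = 1 := congrArg Subtype.val h4
        have h6 : Equiv.Perm.sign x.1 = 1 := x.2
        change x.1 ^ 2 = 1
        generalize x.1 = y at h5 h6
        revert y
        rcases h with rfl | rfl <;> decide +kernel
    by_cases h6 : 6 ≤ n
    · obtain ⟨S, hS⟩ := CF.Classical.exists_sylow_perm_of_alt P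
      obtain ⟨z, Z⟩ := CF.Classical.exists_pairing S
      rw [← CF.Xs.dec_map_iff (alternatingGroup (Fin n)).subtype_injective, hS,
        Subgroup.subgroupOf_map_subtype, CF.Xs.dec_iff Z (by simpa using h6), Fintype.card_fin]
      exact ⟨fun h => Or.inr (Or.inr ⟨by omega, h.2⟩), fun h => by
        rcases h with h | h | h
        · omega
        · omega
        · exact ⟨by omega, h.2⟩⟩
    · exact iff_of_true (small (by omega)) (by omega)

end Cfsg.Agent.S2221
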