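import Cfsg.Statements.S2222
import Cfsg.Agent.Classical.SymSyl2
import Cfsg.Agent.Classical.Pronormal
import Cfsg.Agent.Classical.MaxL2b

set_option autoImplicit false
open Cfsg

namespace Cfsg.Agent.S2222

/-- In the alternating group of degree n ≥ 5 every subgroup H of odd index is pronormal: for every element g, the subgroups H and gHg⁻¹ are conjugate by an element of the subgroup they generate. -/
theorem result (n : ℕ) (hn : 5 ≤ n)
    (H : Subgroup (alternatingGroup (Fin n))) (hH : Odd H.index) : Cfsg.IsPronormal H := by
  open CF.Classical Subgroup in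
  obtain ⟨P, hP⟩ := exists_sylow_le_of_not_dvd_index (p := 2) (H := H) hH.not_two_dvd_nat
  rcases hn.eq_or_lt with rfl | h6
  · have hc := card_mul_index H
    rw [card_A5] at hc
    have h4 : Nat.card P = 2 ^ 2 := card_sylow_eq P (m := 15) card_A5 (by norm_num)
    obtain ⟨r, hr⟩ := card_dvd_of_le hP
    rw [h4] at hr
    have h15 : H.index ∣ 15 := ⟨r, by rw [hr] at hc; nlinarith⟩
    have : H.index ∈ Nat.divisors 15 := Nat.mem_divisors.2 ⟨h15, by norm_num⟩
    have e : Nat.divisors 15 = {1, 3, 5, 15} := by decide
    simp only [e, Finset.mem_insert, Finset.mem_singleton] at this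
    rcases this with h | h | h | h
    · rw [index_eq_one.1 h]; exact isPronormal_top
    · obtain ⟨f, hf⟩ := exists_injective_perm_of_simple H h (by norm_num)
      have := card_dvd_factorial_of_injective f hf
      rw [card_A5] at this
      exact absurd this (by decide)
    · exact isPronormal_of_isCoatom (isCoatom_of_index_prime (by rw [h]; norm_num))
    · rw [← eq_of_le_of_card_ge hP (by rw [h] at hc; omega)]
      exact isPronormal_sylow P
  · refine isPronormal_of_sylow_le P hP fun g hg => Or.inr (mem_sup_left (hP ?_))
    rwa [normalizer_sylow_two_alt (by simp; omega)] at hg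

end Cfsg.Agent.S2222
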