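import Cfsg.Statements.S2231
import Cfsg.Agent.PLocal.Qd2

set_option autoImplicit false
open Cfsg

namespace Cfsg.Agent.S2231

/-- Let p be an odd prime and K a finite field of characteristic p. Then Qd(p) (the natural semidirect product of an elementary abelian group of order p² by SL₂(p)) is not involved in the projective special linear group PSL₂(K). -/
theorem result {p : ℕ} [Fact p.Prime] (hp : p ≠ 2) {K : Type*} [Field K] [Fintype K] [CharP K p] : ¬ Cfsg.Involves ↥(Cfsg.qd p) (Matrix.ProjectiveSpecialLinearGroup (Fin 2) K) := by
  refine CF.PLocal.not_involves_qdOver_of_abelian (F := ZMod p) (p := p) fun A hA => ?_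
  obtain ⟨T, hT⟩ := hA.exists_le_sylow
  have h1 := (CF.PLocal.isSylowIn_upU (F := K) p).map (QuotientGroup.mk' (Subgroup.center _))
  rw [Subgroup.map_top_of_surjective _ (QuotientGroup.mk'_surjective _)] at h1
  have := (CF.PLocal.isEA_upU (F := K) p).1
  exact CF.PLocal.isMulCommutative_of_isPGroup_of_sylow h1.toSylowTop
    (Subgroup.map_isMulCommutative _ _) hA

end Cfsg.Agent.S2231
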