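import Cfsg.Statements.S2232
import Cfsg.Agent.Geom.QdU

set_option autoImplicit false
open Cfsg

namespace Cfsg.Agent.S2232

/-- Let p be an odd prime, q a power of p and K a finite field with q² elements. Then Qd(p) (the natural semidirect product of an elementary abelian group of order p² by SL₂(p)) is not involved in the projective special unitary group PSU₃(q) realised over K. -/
theorem result {p : ℕ} [Fact p.Prime] (hp : p ≠ 2) {K : Type*} [Field K] [Fintype K] [CharP K p] (n : ℕ) (hn : 1 ≤ n) (hK : Fintype.card K = (p ^ n) ^ 2) : ¬ Cfsg.Involves ↥(Cfsg.qd p) (Cfsg.PSU 3 K (p ^ n)) := by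
  obtain ⟨σ, a, b, c⟩ := CF.Geom.exists_conj hK
  exact fun h => CF.Geom.QdU.not_involves (CF.Geom.isHerm_hermSesq (ι := Fin 3) b c) (CF.Geom.hermSesq_nondegenerate σ)
    (by simp) p (CF.Transfer.involves_trans (CF.Transfer.involves_trans h (CF.Transfer.involves_quotient _))
      (CF.Transfer.involves_of_equiv (CF.Geom.suEquiv 3 a).symm))

end Cfsg.Agent.S2232
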