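import Cfsg.Statements.S2238
import Cfsg.Agent.BN.SzTori

set_option autoImplicit false
open Cfsg

namespace Cfsg.Agent.S2238

/-- The partition of the Suzuki group: with q = 2^(2m+1), m ≥ 1, r = 2^m and the Suzuki group realised as the stabiliser in SL₄ of the Suzuki–Tits ovoid, every non-identity element lies in exactly one subgroup that is either a Sylow 2-subgroup or a cyclic subgroup of order q − 1, q + 2r + 1 or q − 2r + 1. -/
theorem result {F : Type*} [Field F] [Fintype F] {m : ℕ} (hm : 1 ≤ m) (hF : Fintype.card F = 2 ^ (2 * m + 1)) (g : ↥(Cfsg.Sz F m)) (hg : g ≠ 1) :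
    ∃! U : Subgroup ↥(Cfsg.Sz F m), ((∃ P : Sylow 2 ↥(Cfsg.Sz F m), U = (P : Subgroup ↥(Cfsg.Sz F m))) ∨
      (IsCyclic ↥U ∧ Nat.card ↥U ∈ ({2 ^ (2 * m + 1) - 1, 2 ^ (2 * m + 1) + 2 ^ (m + 1) + 1, 2 ^ (2 * m + 1) - 2 ^ (m + 1) + 1} : Set ℕ))) ∧ g ∈ U := by
  have D := CF.BN.Suz.ovD F hm hF
  have := D.finite
  have h8 := CF.BN.Suz.eight_le_card hm hF
  rw [← Nat.card_eq_fintype_card] at hF h8
  have hr := CF.BN.Suz.sq_two_pow hF
  rw [← hF]
  have key : ∀ U : Subgroup (Cfsg.Sz F m), (IsCyclic U ∧ Nat.card U ∈ ({Nat.card F - 1,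
      Nat.card F + 2 ^ (m + 1) + 1, Nat.card F - 2 ^ (m + 1) + 1} : Set ℕ)) → g ∈ U →
      U = Subgroup.centralizer {g} ∧ ∀ k, g ∉ (D.conj k).U := by
    rintro U ⟨hU, h | h⟩ hgU
    · obtain ⟨k, rfl⟩ := D.exists_eq_conj_H hU h
      exact ⟨((D.conj k).centralizer_of_mem_H hgU hg).symm,
        fun k' h' => hg (D.eq_one_of_mem_conj_U_H h' hgU)⟩
    · obtain ⟨x, hx, rfl⟩ := D.exists_eq_centralizer hr h8 hU h
      exact ⟨(hx.centralizer_eq hgU hg).symm, fun k h' =>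
        (hx.of_mem_centralizer hgU hg).not_mem_conj_B k ((D.conj k).U_le_B h')⟩
  by_cases h : ∃ k, g ∈ (D.conj k).U
  · obtain ⟨k, hk⟩ := h
    refine ⟨(D.conj k).U, ⟨Or.inl ⟨(D.conj k).sylow, rfl⟩, hk⟩, ?_⟩
    rintro U ⟨⟨P, rfl⟩ | hU, hgU⟩
    · obtain ⟨l, hl⟩ := (D.conj k).exists_conj_U_eq P
      rw [← hl] at hgU ⊢
      have hB := (D.conj k).mem_B_of_commute (g := l⁻¹) hk hg (by
        rw [inv_inv]; exact (D.conj k).mem_conj_U.1 hgU)
      ext x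
      rw [(D.conj k).mem_conj_U]
      rw [← (D.conj k).normalizer_U, Subgroup.mem_normalizer_iff] at hB
      rw [hB x, inv_inv]
    · exact absurd hk ((key U hU hgU).2 k)
  · refine ⟨Subgroup.centralizer {g}, ⟨Or.inr ⟨D.isCyclic_centralizer (not_exists.1 h), ?_⟩,
      Subgroup.mem_centralizer_singleton_iff.2 rfl⟩, ?_⟩
    · rcases D.trichotomy g with h' | ⟨k, hk⟩ | hx
      · exact absurd h' h
      · left; rw [(D.conj k).centralizer_of_mem_H hk hg, (D.conj k).card_H]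
      · exact Or.inr (hx.card_centralizer hr h8)
    · rintro U ⟨⟨P, rfl⟩ | hU, hgU⟩
      · obtain ⟨l, hl⟩ := D.exists_conj_U_eq P
        exact absurd ⟨l, hl ▸ hgU⟩ h
      · exact (key U hU hgU).1

end Cfsg.Agent.S2238
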