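import Cfsg.Statements.S2240
import Cfsg.Agent.BN.SzSub

set_option autoImplicit false
open Cfsg

namespace Cfsg.Agent.S2240

theorem aux {F : Type*} [Field F] [Finite F] {T : CF.BN.Suz.Tits F} {G : Type*} [Group G]
    (D : CF.BN.Suz.SzData T G) {f : ℕ} (hF : Nat.card F = 2 ^ f) (n : ℕ) (hn : 2 ≤ n) :
    (∃ E : Subgroup G, Cfsg.IsElementaryAbelian 2 E ∧ Nat.card ↥E = 2 ^ n ∧
      ∀ x : G, E ⊓ E.map (MulAut.conj x).toMonoidHom ≠ ⊥ →
        x ∈ Subgroup.normalizer (E : Set G)) ↔ n ∣ f := by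
  have := D.finite
  have := T.charP
  have card_eq : ∀ (D : CF.BN.Suz.SzData T G) (E : Subgroup G) (K : Subfield F) (b : F), b ≠ 0 →
      (∀ x, x ∈ E ↔ ∃ c ∈ K, x = D.u 0 (b * c)) → Nat.card E = Nat.card K := by
    intro D E K b hb h
    refine (Nat.card_eq_of_bijective (fun c : K => (⟨D.u 0 (b * c), (h _).2 ⟨c, c.2, rfl⟩⟩ : E))
      ⟨fun c c' e => ?_, ?_⟩).symm
    · exact Subtype.ext (mul_left_cancel₀ hb (D.u_inj.1 (Subtype.ext_iff.1 e)).2)
    · rintro ⟨x, hx⟩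
      obtain ⟨c, hc, rfl⟩ := (h x).1 hx
      exact ⟨⟨c, hc⟩, rfl⟩
  constructor
  · rintro ⟨E, ⟨-, h1⟩, h2, h3⟩
    obtain ⟨g, hg⟩ := D.exists_conj_le_U (P := E) fun x => ⟨1, Subtype.ext (h1 x x.2)⟩
    generalize D.conj g = D at hg
    have hZ : ∀ x ∈ E, ∃ b, x = D.u 0 b := fun x hx =>
      (D.mem_Z_iff_sq (hg hx)).2 (sq x ▸ h1 x hx)
    obtain ⟨⟨x, hx⟩, hx1⟩ := (Subgroup.ne_bot_iff_exists_ne_one (H := E)).1 (by
      rintro rfl
      rw [Subgroup.card_bot] at h2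
      exact (Nat.one_lt_two_pow (by omega)).ne h2)
    obtain ⟨b, rfl⟩ := hZ x hx
    have hb : b ≠ 0 := fun h => hx1 (Subtype.ext (D.u_eq_one.2 ⟨rfl, h⟩))
    have key : ∀ c d, D.u 0 (b * c) ∈ E → D.u 0 d ∈ E → D.u 0 (c * d) ∈ E ∧ D.u 0 (c⁻¹ * d) ∈ E := by
      intro c d hc hd
      by_cases h0 : c = 0
      · simp [h0, D.u_zero]
      obtain ⟨t, rfl⟩ := T.exists_θ_mul_sq h0
      have hN := h3 (D.h t) (by
        rw [Subgroup.ne_bot_iff_exists_ne_one]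
        refine ⟨⟨_, hc, D.u 0 b, hx, ?_⟩, fun h => mul_ne_zero hb h0
          (D.u_eq_one.1 (congrArg Subtype.val h)).2⟩
        change D.h t * _ * (D.h t)⁻¹ = _
        rw [D.h_conj_u, mul_zero, mul_comm])
      constructor
      · have := (Subgroup.mem_normalizer_iff.1 hN _).1 hd
        rwa [D.h_conj_u, mul_zero] at this
      · rw [Subgroup.mem_normalizer_iff.1 hN, D.h_conj_u, mul_zero, mul_inv_cancel_left₀ h0]
        exact hd
    let K : Subfield F :=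
      { carrier := {c | D.u 0 (b * c) ∈ E}
        zero_mem' := by change D.u 0 (b * 0) ∈ E; rw [mul_zero, D.u_zero]; exact one_mem _
        one_mem' := by change D.u 0 (b * 1) ∈ E; rwa [mul_one]
        add_mem' := fun {c d} hc hd => by
          change D.u 0 (b * (c + d)) ∈ E; rw [mul_add, ← D.u_zero_mul]; exact mul_mem hc hd
        neg_mem' := fun {c} hc => by change D.u 0 (b * -c) ∈ E; rwa [CharTwo.neg_eq]
        mul_mem' := fun {c d} hc hd => by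
          change D.u 0 (b * (c * d)) ∈ E
          rw [mul_left_comm]; exact (key _ _ hc hd).1
        inv_mem' := fun c hc => by
          change D.u 0 (b * c⁻¹) ∈ E
          rw [mul_comm]; exact (key _ _ hc hx).2 }
    obtain ⟨k, hk, hK⟩ := CF.BN.Suz.card_subfield_dvd hF K
    rw [card_eq D E K b hb (fun x => ⟨fun hx => by
      obtain ⟨c, rfl⟩ := hZ x hx
      refine ⟨b⁻¹ * c, ?_, by rw [mul_inv_cancel_left₀ hb]⟩
      change D.u 0 (b * _) ∈ E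
      rwa [mul_inv_cancel_left₀ hb], by rintro ⟨c, hc, rfl⟩; exact hc⟩), hK] at h2
    rwa [← Nat.pow_right_injective le_rfl h2]
  · intro h
    obtain ⟨K, hK⟩ := CF.BN.Suz.exists_subfield_card hF h
    have mem : ∀ x, x ∈ D.sub K ⊓ D.Z ↔ ∃ c ∈ K, x = D.u 0 (1 * c) := fun x =>
      ⟨by rintro ⟨h, c, rfl⟩; exact ⟨c, (D.u_mem_sub_iff.1 h).2, by rw [one_mul]⟩, by
        rintro ⟨c, hc, rfl⟩; exact ⟨D.u_mem_sub_iff.2 ⟨zero_mem K, by rwa [one_mul]⟩, _, rfl⟩⟩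
    refine ⟨D.sub K ⊓ D.Z, ⟨⟨⟨fun x y => Subtype.ext (D.commute_of_mem_Z x.2.2 (D.Z_le_U y.2.2))⟩⟩,
      fun x hx => (sq x).trans ((D.mem_Z_iff_sq (D.Z_le_U hx.2)).1 hx.2)⟩,
      (card_eq D _ K 1 one_ne_zero mem).trans hK, fun x hx => ?_⟩
    obtain ⟨⟨_, hy, z, hz, rfl⟩, h1⟩ := Subgroup.ne_bot_iff_exists_ne_one.1 hx
    change x * z * x⁻¹ ∈ _ at hy
    have hz1 : z ≠ 1 := by rintro rfl; exact h1 (Subtype.ext (map_one _))
    obtain ⟨a, b, t, rfl⟩ := D.mem_B_of_commute (D.Z_le_U hz.2) hz1 (D.Z_le_U hy.2)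
    obtain ⟨c, hc, rfl⟩ := (mem z).1 hz
    rw [D.conj_u_zero, one_mul, mul_comm] at hy
    have hs := (CF.BN.Suz.mul_mem_cancel_left₀' hc fun h => hz1 (by rw [h, mul_zero, D.u_zero])).1
      (D.u_mem_sub_iff.1 hy.1).2
    refine Subgroup.mem_normalizer_fintype fun y hy => ?_
    obtain ⟨d, hd, rfl⟩ := (mem y).1 hy
    rw [D.conj_u_zero, one_mul]
    exact (mem _).2 ⟨_, mul_mem hs hd, by rw [one_mul]⟩

/-- Elementary abelian TI-subgroups of the Suzuki group: let q = 2^(2m+1) with m ≥ 1, the group realised as the stabiliser in SL₄ of the Suzuki–Tits ovoid, and n ≥ 2. There is an elementary abelian 2-subgroup E of order 2^n that is a TI-subgroup (every conjugate of E meeting E nontrivially is E itself) if and only if n divides 2m + 1. -/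
theorem result {F : Type*} [Field F] [Fintype F] {m : ℕ} (hm : 1 ≤ m) (hF : Fintype.card F = 2 ^ (2 * m + 1)) (n : ℕ) (hn : 2 ≤ n) :
    (∃ E : Subgroup ↥(Cfsg.Sz F m), Cfsg.IsElementaryAbelian 2 E ∧ Nat.card ↥E = 2 ^ n ∧
      ∀ x : ↥(Cfsg.Sz F m), E ⊓ E.map (MulAut.conj x).toMonoidHom ≠ ⊥ → x ∈ Subgroup.normalizer (E : Set ↥(Cfsg.Sz F m))) ↔ n ∣ 2 * m + 1 := by
  exact aux (CF.BN.Suz.ovD F hm hF) (Nat.card_eq_fintype_card.trans hF) n hn

end Cfsg.Agent.S2240
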