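import Cfsg.Statements.S2245
import Cfsg.Agent.Classical.SymSyl2

set_option autoImplicit false
open Cfsg

namespace Cfsg.Agent.S2245

/-- For n ≥ 5 with n ≠ 6, a Sylow 2-subgroup of the alternating group A_n lies in exactly one maximal subgroup of A_n if and only if n = 2^k + 1 for some k ≥ 2; the same holds for the symmetric group S_n. -/
theorem result (n : ℕ) (hn : 5 ≤ n) (h6 : n ≠ 6) :
    ((∀ R : Sylow 2 ↥(alternatingGroup (Fin n)), (∃! M : Subgroup ↥(alternatingGroup (Fin n)), IsCoatom M ∧ (R : Subgroup ↥(alternatingGroup (Fin n))) ≤ M) ↔ ∃ k : ℕ, 2 ≤ k ∧ n = 2 ^ k + 1) ∧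
    (∀ R : Sylow 2 (Equiv.Perm (Fin n)), (∃! M : Subgroup (Equiv.Perm (Fin n)), IsCoatom M ∧ (R : Subgroup (Equiv.Perm (Fin n))) ≤ M) ↔ ∃ k : ℕ, 2 ≤ k ∧ n = 2 ^ k + 1)) := by
  open CF.Classical Subgroup Equiv MulAction in
  have hnt : Nontrivial (Fin n) := Fin.nontrivial_iff_two_le.2 (by omega)
  have hA : ∀ ω : Fin n, ¬ alternatingGroup (Fin n) ≤ stabilizer (Perm (Fin n)) ω := by
    intro ω h
    obtain ⟨a, ha⟩ := exists_ne ω
    obtain ⟨b, hb⟩ := exists_not_mem_of_card_lt {ω, a}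
      (lt_of_le_of_lt (card_pair_le _ _) (by simp; omega))
    simp only [Finset.mem_insert, Finset.mem_singleton, not_or] at hb
    have : (swap ω a * swap ω b) ω = ω := h (swap_mul_swap_mem_alt ha.symm (Ne.symm hb.1))
    rw [Perm.mul_apply, swap_apply_left, swap_apply_of_ne_of_ne hb.1 hb.2] at this
    exact hb.1 this
  refine ⟨fun R => ?_, fun S => ?_⟩
  · obtain ⟨S, hS⟩ := exists_sylow_perm_of_alt R
    constructor
    · rintro ⟨M, ⟨hM, -⟩, hu⟩
      refine (alt_le_or_card (by simpa using hn) S (M := M.map (alternatingGroup (Fin n)).subtype)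
        fun X h1 h2 => ?_).elim (fun h => absurd ?_ hM.1) (by simp)
      · obtain ⟨M', hM', hle⟩ := (eq_top_or_exists_le_coatom (X.subgroupOf (alternatingGroup _))).resolve_left
          (fun e => h2 (subgroupOf_eq_top.1 e))
        rw [← hu M' ⟨hM', hS ▸ (subgroupOf_mono _ h1).trans hle⟩, ← subgroupOf_map_subtype]
        exact map_mono hle
      · rw [eq_top_iff]
        intro x _
        obtain ⟨y, hy, e⟩ := h x.2
        rwa [← Subtype.ext e]
    · rintro ⟨k, hk, rfl⟩
      obtain ⟨ω, h1, h2⟩ := exists_fixed_of_card hk (by simp) S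
      have h3 : ∀ M : Subgroup (alternatingGroup (Fin (2 ^ k + 1))), R ≤ M → M ≠ ⊤ →
          M ≤ (stabilizer (Perm _) ω).subgroupOf _ := by
        intro M hM hM'
        rcases h2 (M.map (alternatingGroup _).subtype) (by
          rw [← subgroupOf_map_subtype, ← hS]; exact map_mono hM) with h | h
        · exact map_le_iff_le_comap.1 h
        · refine absurd (eq_top_iff.2 fun x _ => ?_) hM'
          obtain ⟨y, hy, e⟩ := h x.2
          rwa [← Subtype.ext e]
      have h4 : (R : Subgroup (alternatingGroup (Fin (2 ^ k + 1)))) ≤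
          (stabilizer (Perm _) ω).subgroupOf _ := hS ▸ subgroupOf_mono _ h1
      have h5 : (stabilizer (Perm (Fin (2 ^ k + 1))) ω).subgroupOf (alternatingGroup _) ≠ ⊤ :=
        fun e => hA ω (subgroupOf_eq_top.1 e)
      refine ⟨_, ⟨⟨h5, fun M hM => ?_⟩, h4⟩, fun M hM => ?_⟩
      · by_contra h; exact hM.not_ge (h3 M (h4.trans hM.le) h)
      · exact ((hM.1.le_iff.1 (h3 M hM.2 hM.1.1)).resolve_left h5).symm
  · have htop : ∀ M : Subgroup (Perm (Fin n)), S ≤ M → alternatingGroup _ ≤ M → M = ⊤ := by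
      intro M h1 h2
      obtain ⟨z, P⟩ := exists_pairing S
      obtain ⟨a, -, ha⟩ := P.exists_moved ∅ (by simp; omega)
      rw [eq_top_iff]
      intro σ _
      rcases Int.units_eq_one_or (Perm.sign σ) with h | h
      · exact h2 h
      · refine (M.mul_mem_cancel_left (h1 (P.swap_mem a))).1 (h2 ?_)
        rw [Perm.mem_alternatingGroup, map_mul, h, Perm.sign_swap ha.symm]; simp
    constructor
    · rintro ⟨M, ⟨hM, hM'⟩, hu⟩
      refine (alt_le_or_card (by simpa using hn) S (M := M) fun X h1 h2 => ?_).elim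
        (fun h => absurd (htop M hM' h) hM.1) (by simp)
      obtain ⟨M', hM2, hle⟩ := (eq_top_or_exists_le_coatom X).resolve_left
          (fun e => h2 (e ▸ le_top))
      rw [← hu M' ⟨hM2, h1.trans hle⟩]
      exact inf_le_left.trans hle
    · rintro ⟨k, hk, rfl⟩
      obtain ⟨ω, h1, h2⟩ := exists_fixed_of_card hk (by simp) S
      have h3 : ∀ M : Subgroup (Perm (Fin (2 ^ k + 1))), S ≤ M → M ≠ ⊤ →
          M ≤ stabilizer (Perm _) ω := fun M hM hM' =>
        (h2 M (inf_le_left.trans hM)).resolve_right fun h => hM' (htop M hM h)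
      have h5 : stabilizer (Perm (Fin (2 ^ k + 1))) ω ≠ ⊤ := fun e => hA ω (e ▸ le_top)
      refine ⟨_, ⟨⟨h5, fun M hM => ?_⟩, h1⟩, fun M hM => ?_⟩
      · by_contra h; exact hM.not_ge (h3 M (le_trans h1 hM.le) h)
      · exact ((hM.1.le_iff.1 (h3 M hM.2 hM.1.1)).resolve_left h5).symm

end Cfsg.Agent.S2245
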