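import Cfsg.Statements.S2251
import Cfsg.Agent.BN.SzSub

set_option autoImplicit false
open Cfsg

namespace Cfsg.Agent.S2251

/-- The subgroups of the Suzuki group: with q = 2^(2m+1), m ≥ 1, r = 2^m and the group realised as the stabiliser in SL₄ of the Suzuki–Tits ovoid, every proper subgroup is contained in the normalizer of a Sylow 2-subgroup, or in the normalizer of a cyclic subgroup of order q − 1, q + 2r + 1 or q − 2r + 1, or in a subgroup isomorphic to a smaller Suzuki group Sz(s) with s = 2^(2k+1) ≥ 8 and 2k+1 a proper divisor of 2m+1. -/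
theorem result {F : Type*} [Field F] [Fintype F] {m : ℕ} (hm : 1 ≤ m) (hF : Fintype.card F = 2 ^ (2 * m + 1)) (M : Subgroup ↥(Cfsg.Sz F m)) (hM : M ≠ ⊤) :
    (∃ P : Sylow 2 ↥(Cfsg.Sz F m), M ≤ Subgroup.normalizer ((P : Subgroup ↥(Cfsg.Sz F m)) : Set ↥(Cfsg.Sz F m))) ∨
    (∃ U : Subgroup ↥(Cfsg.Sz F m), IsCyclic ↥U ∧ Nat.card ↥U ∈ ({2 ^ (2 * m + 1) - 1, 2 ^ (2 * m + 1) + 2 ^ (m + 1) + 1, 2 ^ (2 * m + 1) - 2 ^ (m + 1) + 1} : Set ℕ) ∧
      M ≤ Subgroup.normalizer (U : Set ↥(Cfsg.Sz F m))) ∨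
    (∃ (K : Type) (_ : Field K) (_ : Fintype K) (k : ℕ), 1 ≤ k ∧ k < m ∧ Fintype.card K = 2 ^ (2 * k + 1) ∧ 2 * k + 1 ∣ 2 * m + 1 ∧
      ∃ S : Subgroup ↥(Cfsg.Sz F m), Nonempty (↥S ≃* ↥(Cfsg.Sz K k)) ∧ M ≤ S) := by
  set D := CF.BN.Suz.ovD F hm hF
  have h8 := CF.BN.Suz.eight_le_card hm hF
  have hF' := hF
  rw [← Nat.card_eq_fintype_card] at hF' h8
  have hr := CF.BN.Suz.sq_two_pow hF'
  rcases D.isSolvable_or_eq_sub M with h | ⟨g, K, hK, rfl⟩
  · rcases D.solvable_cases h with ⟨g, hg⟩ | ⟨g, hg⟩ | ⟨x, hx, hg⟩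
    · exact Or.inl ⟨(D.conj g).sylow, by rwa [(D.conj g).coe_sylow, (D.conj g).normalizer_U]⟩
    · exact Or.inr (Or.inl ⟨_, (D.conj g).isCyclic_H, Or.inl (by rw [(D.conj g).card_H, hF']), hg⟩)
    · exact Or.inr (Or.inl ⟨_, hx.isCyclic_centralizer, Or.inr (hF' ▸ hx.card_centralizer hr h8), hg⟩)
  · obtain ⟨k, h1, h2, h3⟩ := CF.BN.Suz.exists_card_subfield hF' K
    have h4 := h3 (by rintro rfl; exact hM (D.conj g).sub_top)
    have hk : 1 ≤ k := by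
      rcases Nat.eq_zero_or_pos k with rfl | h
      · rw [h2] at hK; simp at hK
      · exact h
    have := Fact.mk Nat.prime_two
    let := Fintype.ofFinite (GaloisField 2 (2 * k + 1))
    have hc := GaloisField.card 2 (2 * k + 1) (by omega)
    obtain ⟨φ⟩ := CF.BN.Suz.exists_ringHom_of_dvd hc hF' h1
    have e : φ.fieldRange = K :=
      CF.BN.Suz.subfield_eq_of_card (by rw [CF.BN.Suz.card_fieldRange, hc, h2])
    rw [Nat.card_eq_fintype_card] at hc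
    exact Or.inr (Or.inr ⟨GaloisField 2 (2 * k + 1), inferInstance, inferInstance, k, hk, by omega,
      hc, h1, _, e ▸ (D.conj g).nonempty_sub_equiv (CF.BN.Suz.ovD _ hk hc)
        (CF.BN.Suz.titsOfCard_compat hc hF h1 φ), le_rfl⟩)

end Cfsg.Agent.S2251
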