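import Cfsg.Statements.S2254
import Cfsg.Agent.Perm.NilSub

set_option autoImplicit false
open Cfsg

namespace Cfsg.Agent.S2254

open CF.Perm Equiv Equiv.Perm Subgroup

/-- Let n ≡ 3 (mod 4). Then every nilpotent subgroup of the symmetric group on n letters has order at most 3 times the order of a Sylow 2-subgroup of the symmetric group on n − 3 letters; the bound is attained by a nilpotent subgroup isomorphic to the direct product of such a Sylow 2-subgroup with a cyclic group of order 3; and any two nilpotent subgroups attaining the bound are conjugate. -/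
theorem result  (n : ℕ) (hn : n % 4 = 3)
    (P : Sylow 2 (Equiv.Perm (Fin (n - 3)))) :
    (∀ N : Subgroup (Equiv.Perm (Fin n)), Group.IsNilpotent N → Nat.card N ≤ 3 * Nat.card P) ∧
    (∃ M : Subgroup (Equiv.Perm (Fin n)), Group.IsNilpotent M ∧ Nat.card M = 3 * Nat.card P ∧
      Nonempty (M ≃* (↥(P : Subgroup (Equiv.Perm (Fin (n - 3)))) × Multiplicative (ZMod 3)))) ∧
    (∀ N₁ N₂ : Subgroup (Equiv.Perm (Fin n)), Group.IsNilpotent N₁ → Group.IsNilpotent N₂ →
      Nat.card N₁ = 3 * Nat.card P → Nat.card N₂ = 3 * Nat.card P →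
      ∃ g : Equiv.Perm (Fin n), N₂ = N₁.map (MulAut.conj g).toMonoidHom) := by
  have hP : Nat.card P = 2 ^ v2 (n - 3) := by rw [card_sylow_perm, Nat.card_fin]
  refine ⟨fun N _ => (card_le_nilB N).trans (by rw [Nat.card_fin, nilB_of_eq hn, hP]), ?_,
    fun N₁ N₂ _ _ h1 h2 => ?_⟩
  · obtain ⟨f, hf, -⟩ := exists_hom_prod_three (n := n) (by omega)
    have := P.isPGroup'.isNilpotent
    let e := MonoidHom.ofInjective (f := f.comp (P.1.subtype.prodMap (.id _)))
      (hf.comp ((subtype_injective _).prodMap Function.injective_id))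
    exact ⟨_, Group.nilpotent_of_mulEquiv e, by rw [← Nat.card_congr e.toEquiv]; simp [mul_comm],
      ⟨e.symm⟩⟩
  · have hj : 6 ≤ Nat.card (Fin n) → v2 (Nat.card (Fin n) - 4) < v2 (n - 3) := fun h => by
      rw [Nat.card_fin] at h ⊢
      have := v2_sub_four hn h
      omega
    obtain ⟨c, hc, Q, h3, h4, rfl⟩ := exists_threeCycle_split (hP ▸ h1) hj
    obtain ⟨d, hd, R, h5, h6, rfl⟩ := exists_threeCycle_split (hP ▸ h2) hj
    obtain ⟨g, hg⟩ := isConj_iff.1 (isConj_iff_cycleType_eq.2 (hc.cycleType.trans hd.cycleType.symm))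
    obtain ⟨k, -, hk⟩ := conj_of_threeCycle_split (mem_top g) hg le_top le_top h4 h6 (h3.trans h5.symm)
      (by rw [inf_top_eq, ← Nat.card_congr (MonoidHom.ofInjective ofSubtype_injective).toEquiv,
        Nat.card_perm, card_compl_support hd, h5, Nat.card_fin])
    exact ⟨k, hk⟩

end Cfsg.Agent.S2254
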