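import Cfsg.Statements.S2256
import Cfsg.Agent.Perm.NilSub

set_option autoImplicit false
open Cfsg

namespace Cfsg.Agent.S2256

open CF.Perm Equiv Equiv.Perm Subgroup

/-- Let n ≡ 3 (mod 4) with n ≥ 7. Then every nilpotent subgroup of the alternating group on n letters has order at most 3 times the order of a Sylow 2-subgroup of the alternating group on n − 3 letters; the bound is attained by a nilpotent subgroup isomorphic to the direct product of such a Sylow 2-subgroup with a cyclic group of order 3; and any two nilpotent subgroups of the alternating group attaining the bound are conjugate in it. -/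
theorem result  (n : ℕ) (hn : n % 4 = 3) (h7 : 7 ≤ n)
    (P : Sylow 2 (alternatingGroup (Fin (n - 3)))) :
    (∀ N : Subgroup (alternatingGroup (Fin n)), Group.IsNilpotent N → Nat.card N ≤ 3 * Nat.card P) ∧
    (∃ M : Subgroup (alternatingGroup (Fin n)), Group.IsNilpotent M ∧ Nat.card M = 3 * Nat.card P ∧
      Nonempty (M ≃* (↥(P : Subgroup (alternatingGroup (Fin (n - 3)))) × Multiplicative (ZMod 3)))) ∧
    (∀ N₁ N₂ : Subgroup (alternatingGroup (Fin n)), Group.IsNilpotent N₁ → Group.IsNilpotent N₂ →
      Nat.card N₁ = 3 * Nat.card P → Nat.card N₂ = 3 * Nat.card P →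
      ∃ g : alternatingGroup (Fin n), N₂ = N₁.map (MulAut.conj g).toMonoidHom) := by
  have hP := two_mul_card_sylow_alt (by simp; omega) P
  have h0 := factorization_card_alt (Ω := Fin (n - 3)) (by simp; omega)
  rw [Nat.card_fin] at hP h0
  have hn' : ∀ N : Subgroup (alternatingGroup (Fin n)), Group.IsNilpotent N →
      Group.IsNilpotent (N.map (Subgroup.subtype _)) := fun N _ =>
    Group.nilpotent_of_mulEquiv (N.equivMapOfInjective _ (subtype_injective _))
  refine ⟨fun N hN => ?_, ?_, fun N₁ N₂ e1 e2 h1 h2 => ?_⟩
  · have := hn' N hN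
    have h := two_mul_card_le_nilB (Ω := Fin n) (by simp; omega) (map_subtype_le N)
    rw [card_map_of_injective (subtype_injective _), Nat.card_fin, nilB_of_eq hn, ← hP] at h
    omega
  · obtain ⟨f, hf, hs⟩ := exists_hom_prod_three (n := n) (by omega)
    have := P.isPGroup'.isNilpotent
    let e := MonoidHom.ofInjective (f := (f.comp (((Subgroup.subtype _).comp P.1.subtype).prodMap
      (.id _))).codRestrict (alternatingGroup _) fun x => (hs _).trans x.1.1.2)
      ((MonoidHom.injective_codRestrict _ _ _).2 (hf.comp (((subtype_injective _).comp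
        (subtype_injective _)).prodMap Function.injective_id)))
    exact ⟨_, Group.nilpotent_of_mulEquiv e, by rw [← Nat.card_congr e.toEquiv]; simp [mul_comm],
      ⟨e.symm⟩⟩
  · rw [P.card_eq_multiplicity, ← card_map_of_injective (subtype_injective _)] at h1 h2
    have hj : 6 ≤ Nat.card (Fin n) → v2 (Nat.card (Fin n) - 4) <
        (Nat.card (alternatingGroup (Fin (n - 3)))).factorization 2 := fun h => by
      rw [Nat.card_fin] at h ⊢
      have := v2_sub_four hn h
      omega
    have := hn' _ e1
    have := hn' _ e2
    obtain ⟨c, hc, Q, h3, h4, e3⟩ := exists_threeCycle_split h1 hj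
    obtain ⟨d, hd, R, h5, h6, e4⟩ := exists_threeCycle_split h2 hj
    obtain ⟨g, hg⟩ := isConj_iff.1 (alternatingGroup.isThreeCycle_isConj (by simp; omega)
      (σ := ⟨c, hc.mem_alternatingGroup⟩) (τ := ⟨d, hd.mem_alternatingGroup⟩) hc hd)
    obtain ⟨k, hk, e⟩ := conj_of_threeCycle_split g.2 (congrArg Subtype.val hg)
      (le_sup_left.trans (e3.ge.trans (map_subtype_le N₁)))
      (le_sup_left.trans (e4.ge.trans (map_subtype_le N₂))) h4 h6 (h3.trans h5.symm) (by
        have h := factorization_card_alt (Ω := {x // x ∈ d.supportᶜ})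
          (by rw [card_compl_support hd]; simp; omega)
        rw [card_compl_support hd, Nat.card_fin, ← h0] at h
        rw [← alternatingGroup.map_ofSubtype, card_map_of_injective ofSubtype_injective, h5,
          Nat.succ_injective h])
    refine ⟨⟨k, hk⟩, map_injective (subtype_injective _) ?_⟩
    rw [e4, e, ← e3, Subgroup.map_map, Subgroup.map_map]
    rfl

end Cfsg.Agent.S2256
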