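import Cfsg.Statements.S2257
import Cfsg.Agent.Classical.Solub

set_option autoImplicit false
open Cfsg

namespace Cfsg.Agent.S2257

/-- Let G = PSL_2(F) with F a field of order q = 2^p, p prime, and for x ∈ G call the solubilizer of x the set of y ∈ G such that x and y generate a solvable subgroup. Then the solubilizer of an involution has 3q(q − 1) elements; that of a non-identity element of order dividing q − 1 has 2q(q − 1) elements; and that of a non-identity element of order dividing q + 1 has 2(q + 1) elements. -/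
theorem result (p : ℕ) (hp : p.Prime) {F : Type*} [Field F] [Fintype F]
    (hF : Fintype.card F = 2 ^ p) (x : Matrix.ProjectiveSpecialLinearGroup (Fin 2) F) :
    (orderOf x = 2 → Nat.card {y : Matrix.ProjectiveSpecialLinearGroup (Fin 2) F // Group.IsSolvable ↥(Subgroup.closure ({x, y} : Set (Matrix.ProjectiveSpecialLinearGroup (Fin 2) F)))} = 3 * 2 ^ p * (2 ^ p - 1)) ∧
    (x ≠ 1 → orderOf x ∣ 2 ^ p - 1 → Nat.card {y : Matrix.ProjectiveSpecialLinearGroup (Fin 2) F // Group.IsSolvable ↥(Subgroup.closure ({x, y} : Set (Matrix.ProjectiveSpecialLinearGroup (Fin 2) F)))} = 2 * 2 ^ p * (2 ^ p - 1)) ∧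
    (x ≠ 1 → orderOf x ∣ 2 ^ p + 1 → Nat.card {y : Matrix.ProjectiveSpecialLinearGroup (Fin 2) F // Group.IsSolvable ↥(Subgroup.closure ({x, y} : Set (Matrix.ProjectiveSpecialLinearGroup (Fin 2) F)))} = 2 * (2 ^ p + 1)) := by
  open CF.Classical in
  have L := isL2_PSL F (AlgebraicClosure F)
  have hF' : Nat.card F = 2 ^ p := by rwa [Nat.card_eq_fintype_card]
  have he : Even (2 ^ p) := (Nat.even_pow' hp.ne_zero).2 even_two
  have hi := index_range_pslToPGL (F := F)
  rw [hF', gcd_two_of_even he (by positivity)] at hi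
  have h2 : ∀ {n}, Odd n → x ≠ 1 → orderOf x ∣ n → x * x ≠ 1 := fun hn h1 h e => by
    rw [orderOf_eq_prime (p := 2) (by rwa [pow_two]) h1] at h
    exact hn.not_two_dvd_nat h
  refine ⟨fun h => ?_, fun h1 h => ?_, fun h1 h => ?_⟩
  · have := L.ncard_Sol_invol_two range_pslToPGL hp hF' (x := x) (by rintro rfl; simp at h)
      (by have := pow_orderOf_eq_one x; rwa [h, pow_two] at this)
    rw [hF', ← mul_assoc] at this
    exact this
  · have := L.ncard_Sol_split range_pslToPGL hp hF' (Or.inl rfl)
      (h2 (Nat.Even.sub_odd Nat.one_le_two_pow he odd_one) h1 h) (hF' ▸ h)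
    rw [hF', hi, mul_one, ← mul_assoc] at this
    exact this
  · have := L.ncard_Sol_nonsplit range_pslToPGL hp hF' (Or.inl rfl) (h2 he.add_one h1 h) (hF' ▸ h)
    rw [hF', hi, mul_one] at this
    exact this

end Cfsg.Agent.S2257
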