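import Cfsg.Statements.S2258
import Cfsg.Agent.Classical.Solub

set_option autoImplicit false
open Cfsg

namespace Cfsg.Agent.S2258

section
open CF.Classical MulAction Subgroup Matrix OnePoint
open scoped MatrixGroups

variable {F k : Type*} [Field F] [Field k] [Algebra F k]
  {Γ : Type*} [Group Γ] [MulAction Γ (OnePoint k)] {φ : Γ →* PGL(2, F)} (L : IsL2 φ k)
  [IsKlein Γ (OnePoint k)] [Finite F] (hr : φ.range = psl F) {p : ℕ} (hp : p.Prime) (ho : Odd p)
  (hF : Nat.card F = 3 ^ p)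

theorem eq_one_of_two_three {G : Type*} [Group G] {y : G} (h2 : y * y = 1) (h3 : y ^ 3 = 1) :
    y = 1 := by
  rwa [pow_succ, pow_two, h2, one_mul] at h3

include ho hF in
omit [Finite F] in
theorem mod_eight : Nat.card F % 8 = 3 := hF ▸ pow_odd_mod_eight (a := 3) rfl ho

include hr ho hF in
theorem index_two : φ.range.index = 2 := by
  have := mod_eight ho hF
  rw [hr, index_psl, gcd_two_of_odd (Nat.odd_iff.2 (by omega))]

include L hr ho hF

omit [IsKlein Γ (OnePoint k)] in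
theorem eq_one_of_fix {y : Γ} (h2 : y * y = 1) {a : OnePoint F} (h : y • ratPt k a = ratPt k a) :
    y = 1 := by
  by_contra h1
  have h3 := orderOf_dvd_natCard (stabilizer Γ (ratPt k a)) h
  have h4 := L.card_stabilizer_ratPt a
  have h5 := mod_eight ho hF
  rw [orderOf_eq_prime (p := 2) (by rwa [pow_two]) h1] at h3
  rw [index_two hr ho hF] at h4
  obtain ⟨m, hm⟩ := h3
  obtain ⟨n, hn⟩ : ∃ n, Nat.card F = 8 * n + 3 := ⟨Nat.card F / 8, by omega⟩
  rw [hm, hn, show 8 * n + 3 - 1 = 8 * n + 2 from rfl] at h4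
  have : 2 * m * 2 = 4 * (16 * n ^ 2 + 10 * n + 1) + 2 := by rw [h4]; ring
  omega

include hp
variable [IsAlgClosed k]

theorem ncard_three {x : Γ} (x1 : x ≠ 1) (x3 : x ^ 3 = 1) :
    2 * (Sol x).ncard = Nat.card F * (Nat.card F + 5) := by
  have := L.finite
  have := Fintype.ofFinite F
  have : Fact (Nat.Prime 3) := ⟨Nat.prime_three⟩
  have : CharP F 3 := charP_of_card_eq_prime_pow (by rwa [← Nat.card_eq_fintype_card])
  obtain ⟨a, ha⟩ := L.exists_mem_unip 3 (g := x) (n := 1) (by simpa using x3)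
  have ha' := (mem_unip.1 ha).resolve_left x1
  have h2 := L.card_stabilizer_ratPt a
  rw [index_two hr ho hF] at h2
  set J := {t : Γ | t • ratPt k a ≠ ratPt k a ∧ t * t = 1 ∧ (t * x) ^ 3 = 1} with hJ
  have h1 : J.ncard = Nat.card F := by
    rw [ncard_eq_mul_of_rel (Set.toFinite _) (T := {a}ᶜ) (fun y b => y • ratPt k a = ratPt k b)
      (m := 1) ?_ (fun y _ b b' h h' => ratPt_injective (h.symm.trans h')) (Set.toFinite _) ?_,
      mul_one, Set.ncard_compl, Set.ncard_singleton, card_onePoint, Nat.add_sub_cancel]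
    · rintro y ⟨h, -⟩
      obtain ⟨c, hc⟩ := (L.smul_mem_range_iff y).2 ⟨a, rfl⟩
      exact ⟨c, fun e => h (by rw [← hc, e]), hc.symm⟩
    · intro c hc
      have hc : a ≠ c := fun e => hc e.symm
      have h1 : ratPt k a ≠ ratPt k c := ratPt_injective.ne hc
      rw [← L.ncard_tri_swap hr hc ha']
      congr 1
      ext t
      constructor
      · rintro ⟨⟨-, h3, h4⟩, h5⟩
        exact ⟨⟨h5, by rw [← h5, ← mul_smul, h3, one_smul]⟩, h4⟩
      · rintro ⟨⟨h3, h4⟩, h5⟩
        exact ⟨⟨h3 ▸ h1.symm, mul_self_eq_one_of_swap h1 h3 h4, h5⟩, h3⟩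
  have h3 : ∀ y, (x * y) • ratPt k a = ratPt k a ↔ y • ratPt k a = ratPt k a := fun y => by
    rw [mul_smul, smul_eq_iff_eq_inv_smul, ha'.inv.1]
  have h5 : ∀ t ∈ J, t ∈ Sol x := fun t h =>
    mem_Sol_symm (mem_Sol_of_tri (by rw [pow_two, h.2.1]) x3 h.2.2)
  have h4 : Sol x = (((stabilizer Γ (ratPt k a) : Set Γ) ∪ J) ∪ {y | x * y ∈ J}) ∪
      {y | x * y ∈ {y | x * y ∈ J}} := by
    ext y
    constructor
    · intro hy
      simp only [Set.mem_union, SetLike.mem_coe, mem_stabilizer_iff, hJ, Set.mem_setOf_eq, ne_eq, h3]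
      by_cases h6 : y • ratPt k a = ratPt k a
      · tauto
      rcases L.mem_Sol_cases hr hp hF (Or.inr ⟨rfl, ho⟩) hy with
        ⟨b, h5, h7⟩ | ⟨u, v, huv, h5, -⟩ | h5 | ⟨-, ⟨e⟩⟩
      · exact absurd (ha'.2 _ h5 ▸ h7) h6
      · exact absurd ((ha'.2 _ h5.1).trans (ha'.2 _ h5.2).symm) huv
      · exact absurd (eq_one_of_two_three h5.1 x3) x1
      have h7 := A4_three (e ⟨x, Sol.left _ _⟩) (e ⟨y, Sol.right _ _⟩)
        (by rw [Ne, e.map_eq_one_iff]; exact fun h => x1 (congrArg Subtype.val h))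
        (by rw [← map_pow, e.map_eq_one_iff]; exact Subtype.ext x3)
      simp only [← map_mul, ← map_pow, e.map_eq_one_iff, e.apply_eq_iff_eq, Subtype.ext_iff,
        coe_mul, SubmonoidClass.coe_pow, OneMemClass.coe_one] at h7
      rcases h7 with (rfl | rfl | rfl) | h7 | h7 | h7
      · simp at h6
      · exact absurd ha'.1 h6
      · exact absurd ((h3 x).2 ha'.1) h6
      all_goals tauto
    · rintro (((h6 | h6) | h6) | h6)
      · exact mem_Sol_of_mem (L.isSolvable_stabilizer a) ha'.1 h6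
      · exact h5 _ h6
      · exact mem_Sol_of_mul (h5 _ h6)
      · exact mem_Sol_of_mul (mem_Sol_of_mul (h5 _ h6))
  have h6 : ∀ y ∈ J, x * y ∉ J := fun y h h' => by
    have h7 : (x * y) ^ 3 = 1 := by
      rw [show x * y = x * (y * x) * x⁻¹ by group, conj_pow, h.2.2]; simp
    exact h'.1 (by rw [eq_one_of_two_three h'.2.1 h7, one_smul])
  rw [h4, Set.ncard_union_eq, Set.ncard_union_eq, Set.ncard_union_eq,
    ncard_mul_preimage x {y | x * y ∈ J}, ncard_mul_preimage, ncard_subgroup, h1]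
  · obtain ⟨n, hn⟩ : ∃ n, Nat.card F = n + 1 := ⟨_, (Nat.succ_pred_eq_of_pos Nat.card_pos).symm⟩
    rw [hn, Nat.add_sub_cancel] at h2
    rw [hn]
    linear_combination h2
  · exact Set.disjoint_left.2 fun y h7 h8 => h8.1 h7
  · rw [Set.disjoint_left]
    rintro y (h7 | h7) h8
    exacts [h8.1 ((h3 y).2 h7), h6 y h7 h8]
  · rw [Set.disjoint_left]
    rintro y ((h7 | h7) | h7) h8
    · exact h8.1 ((h3 _).2 ((h3 y).2 h7))
    · refine h6 _ h8 ?_
      rwa [← mul_assoc, ← mul_assoc, ← pow_three', x3, one_mul]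
    · exact h6 _ h7 h8

theorem ncard_invol {x : Γ} (x1 : x ≠ 1) (x2 : x * x = 1) :
    (Sol x).ncard = Nat.card F * (Nat.card F + 1) := by
  have := L.finite
  have := Fintype.ofFinite F
  have : Fact (Nat.Prime 3) := ⟨Nat.prime_three⟩
  have : CharP F 3 := charP_of_card_eq_prime_pow (by rwa [← Nat.card_eq_fintype_card])
  have h2 : (2 : F) ≠ 0 := fun e => by
    have := (CharP.cast_eq_zero_iff F 3 2).1 (by exact_mod_cast e)
    omega
  have hi := index_two hr ho hF
  have nf : ∀ a : OnePoint F, x • ratPt k a ≠ ratPt k a := fun a h =>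
    x1 (eq_one_of_fix L hr ho hF x2 h)
  obtain ⟨u, v, huv, hx⟩ := L.exists_torus_of_mul_self h2 x2
  obtain ⟨⟨t, t1, t2⟩, ⟨⟨a, b, -, rfl, -⟩, -⟩ | ⟨-, -, hT⟩⟩ :=
    L.torus_cases huv ((ne_bot_iff_exists_ne_one).2 ⟨⟨x, hx⟩, by simpa using x1⟩)
  · exact absurd hx.1 (nf a)
  have hN := card_pairStab huv t1 t2
  have hC := centralizer_eq_pairStab huv x1 hx x2
  set J := {y : Γ | y ≠ 1 ∧ y ^ 3 = 1 ∧ (x * y) ^ 3 = 1} with hJ
  have h1 : J.ncard = (Nat.card F + 1) * 2 := by
    rw [ncard_eq_mul_of_rel (Set.toFinite _) (T := Set.univ)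
      (fun y (a : OnePoint F) => IsUnip y (ratPt k a))
      (m := 2) ?_ (fun y _ b b' h h' => ratPt_injective (h.eq h')) (Set.toFinite _) ?_,
      Set.ncard_univ, card_onePoint]
    · rintro y ⟨h3, h4, -⟩
      obtain ⟨a, ha⟩ := L.exists_mem_unip 3 (g := y) (n := 1) (by simpa using h4)
      exact ⟨a, trivial, (mem_unip.1 ha).resolve_left h3⟩
    · intro a _
      obtain ⟨c, hc⟩ := (L.smul_mem_range_iff x).2 ⟨a, rfl⟩
      rw [← L.ncard_tri_unip hr h2 (a := a) (b := c) (t := x) (fun e => nf a (by rw [← hc, e]))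
        hc.symm (by rw [hc, ← mul_smul, x2, one_smul])]
      congr 1
      ext y
      exact ⟨fun h => ⟨h.2, h.1.2.2⟩, fun h => ⟨⟨h.1.ne_one,
        L.pow_eq_one_of_mem_unip 3 (mem_unip.2 (Or.inr h.1)), h.2⟩, h.1⟩⟩
  set I := {y : Γ | y * y = 1} with hI
  have h3 : I.ncard * 2 = Nat.card F * (Nat.card F - 1) + 2 := by
    have h4 := L.ncard_invol_move ∞
    rw [hi] at h4
    rw [← h4, show I = insert 1 {y : Γ | y * y = 1 ∧
        y • ratPt k (∞ : OnePoint F) ≠ ratPt k (∞ : OnePoint F)} from ?_,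
      Set.ncard_insert_of_notMem (by simp)]
    · ring
    ext y
    refine ⟨fun h => ?_, by rintro (rfl | h); exacts [mul_one 1, h.1]⟩
    by_cases e : y = 1
    exacts [Or.inl e, Or.inr ⟨h, fun e' => e (eq_one_of_fix L hr ho hF h e')⟩]
  have h4 : (I ∩ pairStab Γ u v).ncard = Nat.card (torus Γ u v) + 2 := by
    have h5 := Set.ncard_diff_add_ncard_of_subset
      (show (torus Γ u v : Set Γ) ⊆ pairStab Γ _ _ from torus_le_pairStab _ _)
    simp only [ncard_subgroup] at h5
    rw [show I ∩ pairStab Γ u v = insert 1 (insert x ((pairStab Γ u v : Set Γ) \ torus Γ u v)) from ?_,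
      Set.ncard_insert_of_notMem (by simp [x1.symm]), Set.ncard_insert_of_notMem (by simp [hx])]
    · omega
    ext y
    constructor
    · rintro ⟨h6, h7⟩
      by_cases e : y ∈ torus Γ u v
      · by_cases e' : y = 1
        exacts [Or.inl e', Or.inr (Or.inl
          (eq_of_mul_self_of_isCyclic (isCyclic_torus huv) e hx h6 x2 e' x1))]
      · exact Or.inr (Or.inr ⟨h7, e⟩)
    · rintro (rfl | rfl | ⟨h6, h7⟩)
      · exact ⟨mul_one 1, one_mem _⟩
      · exact ⟨x2, torus_le_pairStab _ _ hx⟩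
      · exact ⟨mul_self_eq_one_of_swap huv (h6.resolve_left h7).1 (h6.resolve_left h7).2, h6⟩
  have h5 := Set.ncard_inter_add_ncard_diff_eq_ncard I (pairStab Γ u v)
  set W := I \ pairStab Γ u v with hW
  have h6 : ∀ y, x * y ∈ pairStab Γ u v ↔ y ∈ pairStab Γ u v := fun y =>
    mul_mem_cancel_left (torus_le_pairStab _ _ hx)
  have h7 : Sol x = (((pairStab Γ u v : Set Γ) ∪ W) ∪ {y | x * y ∈ W}) ∪ J := by
    ext y
    constructor
    · intro hy
      simp only [Set.mem_union, SetLike.mem_coe, hJ, hW, hI, Set.mem_setOf_eq, ne_eq, h6,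
        Set.mem_diff]
      rcases L.mem_Sol_cases hr hp hF (Or.inr ⟨rfl, ho⟩) hy with
        ⟨b, h8, -⟩ | ⟨u', v', huv', h8, h9⟩ | h8 | ⟨-, ⟨e⟩⟩
      · exact absurd h8 (nf b)
      · exact Or.inl (Or.inl (Or.inl ((pairStab_eq_of_mem huv huv' x1 hx h8).1 ▸ h9)))
      · tauto
      have h8 := A4_invol (e ⟨x, Sol.left _ _⟩) (e ⟨y, Sol.right _ _⟩)
        (by rw [← map_mul, e.map_eq_one_iff]; exact Subtype.ext x2)
      simp only [← map_mul, ← map_pow, e.map_eq_one_iff, Subtype.ext_iff,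
        coe_mul, SubmonoidClass.coe_pow, OneMemClass.coe_one] at h8
      by_cases e : y = 1
      · exact Or.inl (Or.inl (Or.inl (e ▸ one_mem _)))
      · tauto
    · rintro (((h8 | h8) | h8) | h8)
      · exact mem_Sol_of_mem (isSolvable_pairStab huv) (torus_le_pairStab _ _ hx) h8
      · exact L.mem_Sol_of_invol x2 h8.1
      · exact mem_Sol_of_mul (L.mem_Sol_of_invol x2 h8.1)
      · exact mem_Sol_of_tri (by rwa [pow_two]) h8.2.1 h8.2.2
  rw [hi] at hT
  rw [h7, Set.ncard_union_eq, Set.ncard_union_eq, Set.ncard_union_eq, ncard_mul_preimage,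
    ncard_subgroup, h1, hN]
  · obtain ⟨n, hn⟩ : ∃ n, Nat.card F = n + 1 := ⟨_, (Nat.succ_pred_eq_of_pos Nat.card_pos).symm⟩
    rw [hn, Nat.add_sub_cancel] at h3
    rw [hn] at hT ⊢
    rw [h4] at h5
    linear_combination h3 + 2 * h5
  · exact Set.disjoint_left.2 fun y h8 h9 => h9.2 h8
  · rw [Set.disjoint_left]
    rintro y (h8 | h8) h9
    · exact h9.2 ((h6 y).2 h8)
    · refine h8.2 (hC ▸ mem_centralizer_singleton_iff.2 ?_)
      have h10 : x * y * (x * y) = 1 := h9.1
      rw [mul_eq_one_iff_eq_inv, _root_.mul_inv_rev, inv_eq_of_mul_eq_one_right x2,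
        inv_eq_of_mul_eq_one_right h8.1] at h10
      exact h10.symm
  · rw [Set.disjoint_left]
    rintro y ((h8 | h8) | h8) ⟨h9, h10, h11⟩
    · have h12 := orderOf_dvd_natCard _ h8
      rw [orderOf_eq_prime h10 h9, hN, mul_comm, hT, hF] at h12
      have := (Nat.dvd_add_right (dvd_pow_self 3 hp.ne_zero)).1 h12
      omega
    · exact h9 (eq_one_of_two_three h8.1 h10)
    · have h12 := eq_one_of_two_three h8.1 h11
      rw [mul_eq_one_iff_inv_eq, inv_eq_of_mul_eq_one_right x2] at h12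
      exact h9 (eq_one_of_two_three (h12 ▸ x2) h10)


end

/-- Let G = PSL_2(F) with F a field of order q = 3^p, p an odd prime, and for x ∈ G call the solubilizer of x the set of y ∈ G such that x and y generate a solvable subgroup. Then the solubilizer of an involution has q(q + 1) elements; that of an element of order 3 has q(q + 5)/2 elements; that of an element of order neither 1 nor 2 dividing q − 1 has q(q − 1) elements; and that of an element of order neither 1 nor 2 dividing q + 1 has q + 1 elements. -/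
theorem result (p : ℕ) (hp : p.Prime) (hodd : Odd p) {F : Type*} [Field F] [Fintype F]
    (hF : Fintype.card F = 3 ^ p) (x : Matrix.ProjectiveSpecialLinearGroup (Fin 2) F) :
    (orderOf x = 2 → Nat.card {y : Matrix.ProjectiveSpecialLinearGroup (Fin 2) F // Group.IsSolvable ↥(Subgroup.closure ({x, y} : Set (Matrix.ProjectiveSpecialLinearGroup (Fin 2) F)))} = 3 ^ p * (3 ^ p + 1)) ∧
    (orderOf x = 3 → 2 * Nat.card {y : Matrix.ProjectiveSpecialLinearGroup (Fin 2) F // Group.IsSolvable ↥(Subgroup.closure ({x, y} : Set (Matrix.ProjectiveSpecialLinearGroup (Fin 2) F)))} = 3 ^ p * (3 ^ p + 5)) ∧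
    (x ≠ 1 → orderOf x ≠ 2 → orderOf x ∣ 3 ^ p - 1 → Nat.card {y : Matrix.ProjectiveSpecialLinearGroup (Fin 2) F // Group.IsSolvable ↥(Subgroup.closure ({x, y} : Set (Matrix.ProjectiveSpecialLinearGroup (Fin 2) F)))} = 3 ^ p * (3 ^ p - 1)) ∧
    (x ≠ 1 → orderOf x ≠ 2 → orderOf x ∣ 3 ^ p + 1 → Nat.card {y : Matrix.ProjectiveSpecialLinearGroup (Fin 2) F // Group.IsSolvable ↥(Subgroup.closure ({x, y} : Set (Matrix.ProjectiveSpecialLinearGroup (Fin 2) F)))} = 3 ^ p + 1) := by
  open CF.Classical in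
  have L := isL2_PSL F (AlgebraicClosure F)
  have hF' : Nat.card F = 3 ^ p := by rwa [Nat.card_eq_fintype_card]
  have hi := index_two (range_pslToPGL (F := F)) hodd hF'
  have h2 : x ≠ 1 → orderOf x ≠ 2 → x * x ≠ 1 := fun h1 h e =>
    h (orderOf_eq_prime (by rwa [pow_two]) h1)
  refine ⟨fun h => ?_, fun h => ?_, fun h1 h3 h => ?_, fun h1 h3 h => ?_⟩
  · exact hF' ▸ ncard_invol L range_pslToPGL hp hodd hF' (x := x) (by rintro rfl; simp at h)
      (by have := pow_orderOf_eq_one x; rwa [h, pow_two] at this)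
  · exact hF' ▸ ncard_three L range_pslToPGL hp hodd hF' (x := x) (by rintro rfl; simp at h)
      (by have := pow_orderOf_eq_one x; rwa [h] at this)
  · have := L.ncard_Sol_split range_pslToPGL hp hF' (Or.inr ⟨rfl, hodd⟩) (h2 h1 h3) (hF' ▸ h)
    rw [hF', hi, mul_comm] at this
    exact Nat.eq_of_mul_eq_mul_left two_pos this
  · have := L.ncard_Sol_nonsplit range_pslToPGL hp hF' (Or.inr ⟨rfl, hodd⟩) (h2 h1 h3) (hF' ▸ h)
    rw [hF', hi, mul_comm] at this
    exact Nat.eq_of_mul_eq_mul_left two_pos this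

end Cfsg.Agent.S2258
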