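import Cfsg.Statements.S2259
import Cfsg.Agent.BN.SzSol

set_option autoImplicit false
open Cfsg

namespace Cfsg.Agent.S2259

/-- Let G be the Suzuki group Sz(q), q = 2^(2m+1) with 2m + 1 prime and m ≥ 1, realised inside Sp_4(F) for F the field of order q, write r = 2^(m+1) (so r² = 2q), and for x ∈ G call the solubilizer of x the set of y ∈ G such that x and y generate a solvable subgroup. Then the solubilizer of an involution has q²(4q − 3) elements; that of an element of order 4 has q²(q + 3) elements; that of a non-identity element of order dividing q − 1 has 2q²(q − 1) elements; that of a non-identity element of order dividing q + r + 1 has 4(q + r + 1) elements; and that of a non-identity element of order dividing q − r + 1 has 4(q − r + 1) elements. -/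
theorem result {F : Type*} [Field F] [Fintype F] {m : ℕ} (hm : 1 ≤ m)
    (hp : (2 * m + 1).Prime) (hF : Fintype.card F = 2 ^ (2 * m + 1)) (x : ↥(Cfsg.Lie.Sz F (2 ^ (m + 1)))) :
    (orderOf x = 2 → Nat.card {y : ↥(Cfsg.Lie.Sz F (2 ^ (m + 1))) // Group.IsSolvable ↥(Subgroup.closure ({x, y} : Set (↥(Cfsg.Lie.Sz F (2 ^ (m + 1))))))} = (2 ^ (2 * m + 1)) ^ 2 * (4 * 2 ^ (2 * m + 1) - 3)) ∧
    (orderOf x = 4 → Nat.card {y : ↥(Cfsg.Lie.Sz F (2 ^ (m + 1))) // Group.IsSolvable ↥(Subgroup.closure ({x, y} : Set (↥(Cfsg.Lie.Sz F (2 ^ (m + 1))))))} = (2 ^ (2 * m + 1)) ^ 2 * (2 ^ (2 * m + 1) + 3)) ∧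
    (x ≠ 1 → orderOf x ∣ 2 ^ (2 * m + 1) - 1 →
      Nat.card {y : ↥(Cfsg.Lie.Sz F (2 ^ (m + 1))) // Group.IsSolvable ↥(Subgroup.closure ({x, y} : Set (↥(Cfsg.Lie.Sz F (2 ^ (m + 1))))))} = 2 * (2 ^ (2 * m + 1)) ^ 2 * (2 ^ (2 * m + 1) - 1)) ∧
    (x ≠ 1 → orderOf x ∣ 2 ^ (2 * m + 1) + 2 ^ (m + 1) + 1 → Nat.card {y : ↥(Cfsg.Lie.Sz F (2 ^ (m + 1))) // Group.IsSolvable ↥(Subgroup.closure ({x, y} : Set (↥(Cfsg.Lie.Sz F (2 ^ (m + 1))))))} = 4 * (2 ^ (2 * m + 1) + 2 ^ (m + 1) + 1)) ∧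
    (x ≠ 1 → orderOf x ∣ 2 ^ (2 * m + 1) - 2 ^ (m + 1) + 1 → Nat.card {y : ↥(Cfsg.Lie.Sz F (2 ^ (m + 1))) // Group.IsSolvable ↥(Subgroup.closure ({x, y} : Set (↥(Cfsg.Lie.Sz F (2 ^ (m + 1))))))} = 4 * (2 ^ (2 * m + 1) - 2 ^ (m + 1) + 1)) := by
  set D := CF.BN.Suz.lieD F m hF
  have h8 := CF.BN.Suz.eight_le_card hm hF
  have hF' := hF
  rw [← Nat.card_eq_fintype_card] at hF' h8
  have hr := CF.BN.Suz.sq_two_pow hF'
  rw [← hF']
  refine ⟨fun h => ?_, fun h => ?_, fun h1 h => ?_, fun h1 h => ?_, fun h1 h => ?_⟩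
  · have h2 : x * x = 1 := by
      have := pow_orderOf_eq_one x
      rwa [h, sq] at this
    obtain ⟨g, hg⟩ := D.exists_conj_mem_Z h2
    rw [(D.conj g).card_sol_U hr h8 ((D.conj g).Z_le_U hg) (by rintro rfl; simp at h), if_pos h2]
  · obtain ⟨g, hg⟩ := D.exists_conj_mem_U (x := x) (k := 2) (CF.BN.Suz.SzData.pow_four_of_orderOf h)
    rw [(D.conj g).card_sol_U hr h8 hg (by rintro rfl; simp at h), if_neg]
    intro h2
    have := orderOf_dvd_of_pow_eq_one ((sq x).trans h2)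
    rw [h] at this
    omega
  · obtain ⟨g, hg⟩ := D.exists_mem_conj_H_of_orderOf_dvd h
    exact (D.conj g).card_sol_H hr h8 hg h1
  · obtain ⟨a, b⟩ := (D.card_centralizer_of_dvd hr h8 h1).1 h
    rw [D.card_sol_reg hr h8 a, b]
  · obtain ⟨a, b⟩ := (D.card_centralizer_of_dvd hr h8 h1).2 h
    rw [D.card_sol_reg hr h8 a, b]

end Cfsg.Agent.S2259
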