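import Cfsg.Statements.S2268


set_option autoImplicit false
open Cfsg

namespace Cfsg.Agent.S2268

open Subgroup
open scoped Pointwise

/-- Let G be a finite group with an abelian Sylow p-subgroup P and let Q ≤ P. Then N_G(Q) = (N_G(Q) ∩ N_G(P))·C_G(Q), so that N_G(Q)/C_G(Q) is a homomorphic image of the subgroup (N_G(Q) ∩ N_G(P))/C_G(P) of N_G(P)/C_G(P); in particular the order of N_G(Q)/C_G(Q) divides the order of N_G(P)/C_G(P). -/
theorem result {G : Type*} [Group G] [Finite G] {p : ℕ} [Fact p.Prime]
    (P : Sylow p G) (hP : IsMulCommutative (P : Subgroup G)) (Q : Subgroup G) (hQ : Q ≤ (P : Subgroup G)) :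
    Subgroup.normalizer (Q : Set G) =
      (Subgroup.normalizer (Q : Set G) ⊓ Subgroup.normalizer ((P : Subgroup G) : Set G)) ⊔ Subgroup.centralizer (Q : Set G) ∧
    ((Subgroup.centralizer (Q : Set G)).subgroupOf (Subgroup.normalizer (Q : Set G))).index ∣ ((Subgroup.centralizer ((P : Subgroup G) : Set G)).subgroupOf (Subgroup.normalizer ((P : Subgroup G) : Set G))).index := by
  have hPC : (P : Subgroup G) ≤ centralizer (Q : Set G) := by
    intro x hx
    rw [mem_centralizer_iff]
    intro y hy
    exact congrArg Subtype.val (hP.is_comm.comm ⟨y, hQ hy⟩ ⟨x, hx⟩)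
  have hCN : centralizer (Q : Set G) ≤ normalizer (Q : Set G) := centralizer_le_normalizer _
  have h1 : normalizer (Q : Set G) = (normalizer (Q : Set G) ⊓
      normalizer ((P : Subgroup G) : Set G)) ⊔ centralizer (Q : Set G) := by
    refine le_antisymm ?_ (sup_le inf_le_left hCN)
    intro x hx
    have hxP : ((x • P : Sylow p G) : Subgroup G) ≤ centralizer (Q : Set G) := by
      intro y hy
      rw [Sylow.coe_subgroup_smul, mem_pointwise_smul_iff_inv_smul_mem] at hy
      have h2 := hPC hy
      rw [mem_centralizer_iff] at h2 ⊢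
      intro z hz
      have h3 := h2 (x⁻¹ * z * x) (by
        have := (mem_normalizer_iff.1 (inv_mem hx) z).1 hz
        simpa using this)
      simp only [MulAut.smul_def, MulAut.conj_inv_apply, ← map_inv, MulAut.conj_apply,
        inv_inv] at h3
      calc z * y = x * (x⁻¹ * z * x * (x⁻¹ * y * x)) * x⁻¹ := by group
        _ = _ := by rw [h3]; group
    obtain ⟨c, hc⟩ := MulAction.exists_smul_eq (centralizer (Q : Set G)) ((x • P).subtype hxP)
      (P.subtype hPC)
    rw [Sylow.smul_subtype] at hc
    have h4 := Sylow.subtype_injective hc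
    replace h4 : ((c : G) * x) • P = P := by rw [mul_smul]; exact h4
    have h5 : (c : G) * x ∈ normalizer ((P : Subgroup G) : Set G) := by
      exact Sylow.smul_eq_iff_mem_normalizer.1 h4
    have : x = (c : G)⁻¹ * (c * x) := by group
    rw [this]
    exact mul_mem (mem_sup_right (inv_mem c.2)) (mem_sup_left ⟨mul_mem (hCN c.2) hx, h5⟩)
  refine ⟨h1, ?_⟩
  set M := normalizer (Q : Set G) ⊓ normalizer ((P : Subgroup G) : Set G) with hM
  have hCPQ : centralizer ((P : Subgroup G) : Set G) ≤ centralizer (Q : Set G) :=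
    centralizer_le hQ
  have h2 : ((centralizer (Q : Set G)).subgroupOf (normalizer (Q : Set G))).index =
      (centralizer (Q : Set G)).relIndex M := by
    have h3 : M.subgroupOf (normalizer (Q : Set G)) ⊔
        (centralizer (Q : Set G)).subgroupOf (normalizer (Q : Set G)) = ⊤ := by
      rw [← subgroupOf_sup inf_le_left hCN, ← h1, subgroupOf_self]
    rw [← relIndex_top_right, ← h3, relIndex_sup_right, relIndex_subgroupOf inf_le_left]
  rw [h2]
  refine (relIndex_dvd_of_le_left M hCPQ).trans ?_
  have h4 : centralizer ((P : Subgroup G) : Set G) ≤ M :=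
    le_inf (hCPQ.trans hCN) (centralizer_le_normalizer _)
  exact Dvd.intro _ (relIndex_mul_relIndex _ _ _ h4 inf_le_right)

end Cfsg.Agent.S2268
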