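import Cfsg.Statements.S2270
import Cfsg.Agent.Perm.SylP2

set_option autoImplicit false
open Cfsg

namespace Cfsg.Agent.S2270

/-- Let n ≥ 3, p an odd prime, and P an abelian Sylow p-subgroup of the symmetric group S_n (with p dividing n!, so that P ≠ 1). Then N(P)/C(P) has even order. -/
theorem result (n : ℕ) (hn : 3 ≤ n) {p : ℕ} [Fact p.Prime] (hp : p ≠ 2) (hpn : p ≤ n)
    (P : Sylow p (Equiv.Perm (Fin n))) (hP : IsMulCommutative (P : Subgroup (Equiv.Perm (Fin n)))) :
    2 ∣ ((Subgroup.centralizer ((P : Subgroup (Equiv.Perm (Fin n))) : Set (Equiv.Perm (Fin n)))).subgroupOf (Subgroup.normalizer ((P : Subgroup (Equiv.Perm (Fin n))) : Set (Equiv.Perm (Fin n))))).index := by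
  obtain ⟨x, hx⟩ := (Equiv.Perm.exists_with_cycleType_iff (Fin n) (m := {p})).2
    ⟨by simpa using hpn, by simpa using (Fact.out : p.Prime).two_le⟩
  have h : orderOf x = p := by simp [← Equiv.Perm.lcm_cycleType, hx]
  exact CF.Perm.two_dvd_automizer P hP (CF.Perm.isPGroup_zpowers_of_orderOf h)
    (CF.Perm.inv_ne_of_orderOf hp h) (Equiv.Perm.isConj_iff_cycleType_eq.2 (by simp))

end Cfsg.Agent.S2270
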