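import Cfsg.Statements.S2296
import Cfsg.Agent.Known.Pres.TypeC

set_option autoImplicit false
open Cfsg

namespace Cfsg.Agent.S2296

/-- Let F be a finite field. Sp_2n(F) has a presentation with 10 generators and at most 58 relations for n ≥ 4, with 9 generators and at most 57 relations for n = 4 or 5, and with 8 generators and at most 52 relations for n = 3; in each case PSp_2n(F) has a presentation with the same number of generators and at most one more relation. -/
theorem result {F : Type*} [Field F] [Fintype F] (n : ℕ) :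
    (4 ≤ n → (∃ rels : Finset (FreeGroup (Fin 10)), rels.card ≤ 58 ∧ Nonempty (PresentedGroup (↑rels : Set (FreeGroup (Fin 10))) ≃* Matrix.symplecticGroup (Fin n) F)) ∧ (∃ rels : Finset (FreeGroup (Fin 10)), rels.card ≤ 59 ∧ Nonempty (PresentedGroup (↑rels : Set (FreeGroup (Fin 10))) ≃* Cfsg.PSp n F))) ∧
    ((n = 4 ∨ n = 5) → (∃ rels : Finset (FreeGroup (Fin 9)), rels.card ≤ 57 ∧ Nonempty (PresentedGroup (↑rels : Set (FreeGroup (Fin 9))) ≃* Matrix.symplecticGroup (Fin n) F)) ∧ (∃ rels : Finset (FreeGroup (Fin 9)), rels.card ≤ 58 ∧ Nonempty (PresentedGroup (↑rels : Set (FreeGroup (Fin 9))) ≃* Cfsg.PSp n F))) ∧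
    (n = 3 → (∃ rels : Finset (FreeGroup (Fin 8)), rels.card ≤ 52 ∧ Nonempty (PresentedGroup (↑rels : Set (FreeGroup (Fin 8))) ≃* Matrix.symplecticGroup (Fin n) F)) ∧ (∃ rels : Finset (FreeGroup (Fin 8)), rels.card ≤ 53 ∧ Nonempty (PresentedGroup (↑rels : Set (FreeGroup (Fin 8))) ≃* Cfsg.PSp n F))) := by
  open CF.Known.Pres in
  have key : ∀ g r, 3 ≤ n → 8 ≤ g → 41 + g ≤ r → HasPres g r (Matrix.symplecticGroup (Fin n) F) ∧
      HasPres g (r + 1) (PSp n F) := fun g r hn hg hr => by
    have h := hasPres_Sp (K := F) (n := n) (by omega)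
    have := isCyclic_center_Sp (K := F) (n := n) (by omega)
    simp only [show n ≠ 2 by omega, if_false] at h
    exact ⟨h.add' hg (by omega), h.quot_center.add' hg (by omega)⟩
  exact ⟨fun h => key _ _ (by omega) (by omega) (by omega), fun h => key _ _ (by omega) (by omega) (by omega), fun h => key _ _ (by omega) (by omega) (by omega)⟩

end Cfsg.Agent.S2296
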