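import Cfsg.Statements.S2297
import Cfsg.Agent.Known.Pres.AltSmall

set_option autoImplicit false
open Cfsg

namespace Cfsg.Agent.S2297

/-- Let n ≥ 5 and let G be the symmetric group S_n or the alternating group A_n. If a and b generate G, then G has a presentation on two generators mapping to a and b with at most 9 relations: there is a set of at most 9 relators in the free group on two letters and an isomorphism from the presented group onto G sending the two letters to a and b. -/
theorem result (n : ℕ) (hn : 5 ≤ n) :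
    (∀ a b : Equiv.Perm (Fin n), Subgroup.closure ({a, b} : Set (Equiv.Perm (Fin n))) = ⊤ →
      ∃ rels : Finset (FreeGroup (Fin 2)), rels.card ≤ 9 ∧
        ∃ e : PresentedGroup (↑rels : Set (FreeGroup (Fin 2))) ≃* Equiv.Perm (Fin n),
          e (PresentedGroup.of 0) = a ∧ e (PresentedGroup.of 1) = b) ∧
    (∀ a b : ↥(alternatingGroup (Fin n)), Subgroup.closure ({a, b} : Set ↥(alternatingGroup (Fin n))) = ⊤ →
      ∃ rels : Finset (FreeGroup (Fin 2)), rels.card ≤ 9 ∧
        ∃ e : PresentedGroup (↑rels : Set (FreeGroup (Fin 2))) ≃* ↥(alternatingGroup (Fin n)),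
          e (PresentedGroup.of 0) = a ∧ e (PresentedGroup.of 1) = b) := by
  obtain ⟨h1, h2⟩ := CF.Known.Pres.hasPres_three (n := n) (by omega)
  obtain ⟨x, hx⟩ := h1.exists_presOn
  obtain ⟨y, hy⟩ := h2.exists_presOn
  refine ⟨fun a b hab => ?_, fun a b hab => ?_⟩
  · obtain ⟨R, hR, e, he⟩ := (hx.pair hab).exists_equiv
    exact ⟨R, hR, e, he 0, he 1⟩
  · obtain ⟨R, hR, e, he⟩ := (hy.pair hab).exists_equiv
    exact ⟨R, hR, e, he 0, he 1⟩

end Cfsg.Agent.S2297
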