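import Cfsg.Statements.S2332
import Cfsg.Agent.Classical.MinDegSL2

set_option autoImplicit false
open Cfsg

namespace Cfsg.Agent.S2332

/-- Smallest degree of a non-linear irreducible complex representation of SL_n over a finite field with q elements, for n ≥ 3 and (n, q) not one of (3, 2), (3, 4), (4, 2), (4, 3): every irreducible complex representation of SL_n(F) of degree at least 2 has degree at least (q^n − q)/(q − 1), and there is an irreducible complex representation of exactly that degree. -/
theorem result {F : Type*} [Field F] [Fintype F] [DecidableEq F] (n : ℕ) (hn : 3 ≤ n)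
    (hex : (n, Fintype.card F) ≠ (3, 2) ∧ (n, Fintype.card F) ≠ (3, 4) ∧ (n, Fintype.card F) ≠ (4, 2) ∧ (n, Fintype.card F) ≠ (4, 3)) :
    (∀ (k : ℕ) (ρ : Representation ℂ (Matrix.SpecialLinearGroup (Fin n) F) (Fin k → ℂ)), ρ.IsIrreducible → 2 ≤ k → (Fintype.card F ^ n - Fintype.card F) / (Fintype.card F - 1) ≤ k) ∧
    (∃ ρ : Representation ℂ (Matrix.SpecialLinearGroup (Fin n) F) (Fin ((Fintype.card F ^ n - Fintype.card F) / (Fintype.card F - 1)) → ℂ), ρ.IsIrreducible) := by
  open CF.Classical CF.Char in
  have hq : 2 ≤ Fintype.card F := Fintype.one_lt_card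
  refine ⟨fun k ρ hρ hk => ?_, ?_⟩
  · obtain ⟨g, hg⟩ := exists_ne_one_of_irr ρ hρ (by simpa using hk)
    have := sl_bound_mat (F := F) hn (by rintro rfl; simpa using And.intro hex.1 hex.2.1)
      (by rintro rfl; simpa using hex.2.2) ρ hg
    rw [Module.finrank_fin_fun, Nat.card_eq_fintype_card] at this
    exact Nat.div_le_of_le_mul this
  · have h1 := card_proj_mul F n
    rw [Nat.card_eq_fintype_card (α := F)] at h1
    have h2 : Fintype.card F ^ 2 ≤ Fintype.card F ^ n := Nat.pow_le_pow_right (by omega) (by omega)
    have : Finite (Projectivization F (Fin n → F)) := inferInstance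
    have h3 : 2 ≤ Nat.card (Projectivization F (Fin n → F)) := by
      by_contra! h
      have := Nat.mul_le_mul_right (Fintype.card F - 1) (Nat.le_of_lt_succ h)
      nlinarith [Nat.sub_add_cancel (show 1 ≤ Fintype.card F by omega),
        Nat.sub_add_cancel (show 1 ≤ Fintype.card F ^ n by nlinarith)]
    have : Nontrivial (Projectivization F (Fin n → F)) := Finite.one_lt_card_iff_nontrivial.1 h3
    obtain ⟨m, ρ, hρ, hχ⟩ := (irr_fixedBy_sub_one_iff (G := Matrix.SpecialLinearGroup (Fin n) F)
      (Projectivization F (Fin n → F))).2 inferInstance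
    have h4 := congrFun hχ 1
    rw [Representation.char_one, Module.finrank_fin_fun, MulAction.fixedBy_one_eq_univ,
      Nat.card_univ, eq_sub_iff_add_eq] at h4
    have h5 : m + 1 = Nat.card (Projectivization F (Fin n → F)) := by exact_mod_cast h4
    obtain rfl : m = (Fintype.card F ^ n - Fintype.card F) / (Fintype.card F - 1) := by
      refine (Nat.div_eq_of_eq_mul_left (by omega) ?_).symm
      rw [← h5, add_mul] at h1
      omega
    exact ⟨ρ, hρ⟩

end Cfsg.Agent.S2332
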