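import Cfsg.Statements.S2333
import Cfsg.Agent.Classical.MinDegSp

set_option autoImplicit false
open Cfsg

namespace Cfsg.Agent.S2333

/-- For a finite field F of even order q and n ≥ 2 with (n, q) ≠ (2, 2), every irreducible complex representation of the symplectic group Sp_{2n}(F) of degree at least 2 has degree at least (q^n − 1)(q^n − q)/(2(q + 1)). -/
theorem result {F : Type*} [Field F] [Fintype F] [DecidableEq F] (n : ℕ) (hn : 2 ≤ n) (heven : Even (Fintype.card F)) (hex : (n, Fintype.card F) ≠ (2, 2)) :
    (∀ (k : ℕ) (ρ : Representation ℂ (Matrix.symplecticGroup (Fin n) F) (Fin k → ℂ)), ρ.IsIrreducible → 2 ≤ k → (Fintype.card F ^ n - 1) * (Fintype.card F ^ n - Fintype.card F) / (2 * (Fintype.card F + 1)) ≤ k) := by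
  open CF.Classical CF.Geom in
  intro k ρ hρ hk
  obtain ⟨g, hg⟩ := exists_ne_one_of_irr ρ hρ (by simpa using hk)
  have h2 : (2 : F) = 0 := by
    by_contra h
    exact (Nat.not_even_iff_odd.2 (odd_card_of_two_ne_zero h)) heven
  have hP := commutator_symplecticGroup_eq_top (F := F) n (by
    have : 2 ≤ Fintype.card F := Fintype.one_lt_card
    have : ¬ (n = 2 ∧ Fintype.card F = 2) := fun h => hex (by rw [h.1, h.2])
    omega)
  have := sp_bound_even (sympBilin_nondegenerate n) (sympBilin_isAlt n)
    (eq_top_iff.2 fun x _ => by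
      rw [← (spEquiv n F).apply_symm_apply x, ← mem_commutator_iff_of_equiv, hP]; trivial)
    (MonoidHom.comp ρ (spEquiv n F).symm.toMonoidHom) (stdLag_iso n) (by rwa [finrank_stdLag])
    two_ne_zero h2 (g := spEquiv n F g) (by simpa using hg)
  rw [finrank_stdLag, Module.finrank_fin_fun, Nat.card_eq_fintype_card] at this
  exact Nat.div_le_of_le_mul this

end Cfsg.Agent.S2333
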