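import Cfsg.Statements.S2336
import Cfsg.Agent.Classical.MinDegSL
import Cfsg.Agent.Classical.Lev2
import Cfsg.Agent.Char.More

set_option autoImplicit false
open Cfsg

namespace Cfsg.Agent.S2336

open CF.Char CF.Classical MulAction

theorem irr_of_sum {G ι : Type*} [Group G] [Fintype G] [Fintype ι] {ψ : ι → G → ℂ}
    (h : ∀ i, IsCharacter G (ψ i)) (h0 : ∀ i, ψ i ≠ 0) {N : ℕ}
    (hN : classInner (∑ i, ψ i) (∑ i, ψ i) = N) (hle : N ≤ Fintype.card ι) :
    (∀ i, IsIrrCharacter G (ψ i)) ∧ Function.Injective ψ := by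
  classical
  choose m hm using fun i j => inner_char_eq_nat (h i) (h j)
  have h1 : ∀ i, 1 ≤ m i i := fun i => Nat.one_le_iff_ne_zero.2 fun e =>
    h0 i (inner_self_eq_zero.1 (by rw [hm, e, Nat.cast_zero]))
  have h2 : ∑ i, ∑ j, m i j = N := by
    simp only [inner_sum_left, inner_sum_right, hm] at hN
    rw [Finset.sum_comm]
    exact_mod_cast hN
  have h3 : ∀ i, 1 ≤ ∑ j, m i j := fun i =>
    (h1 i).trans (Finset.single_le_sum (f := m i) (fun _ _ => Nat.zero_le _) (Finset.mem_univ i))
  have h4 : ∀ i, ∑ j, m i j = 1 := fun i =>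
    ((Finset.sum_eq_sum_iff_of_le (s := Finset.univ) (f := fun _ => 1) (fun i _ => h3 i)).1
      (le_antisymm (Finset.sum_le_sum fun i _ => h3 i) (by simpa [h2] using hle)) i
      (Finset.mem_univ i)).symm
  have h5 : ∀ i, m i i = 1 := fun i => le_antisymm ((Finset.single_le_sum (f := m i)
    (fun _ _ => Nat.zero_le _) (Finset.mem_univ i)).trans (h4 i).le) (h1 i)
  refine ⟨fun i => (irr_iff_inner_self (h i)).2 (by rw [hm, h5, Nat.cast_one]), fun i j e => ?_⟩
  by_contra hij
  have h6 : m i j = m i i := by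
    have := hm i j
    rw [← e, hm] at this
    symm
    exact_mod_cast this
  have h7 := Finset.add_le_sum (f := m i) (s := Finset.univ) (fun _ _ => Nat.zero_le _)
    (Finset.mem_univ i) (Finset.mem_univ j) hij
  have := h4 i
  have := h5 i
  omega

theorem perm_decomp {G A X : Type*} [Group G] [Finite G] [CommGroup A] [Finite A] [MulAction G X]
    [Finite X] [IsPretransitive G X] (x : X) (P : Subgroup G) (hP : P ≠ ⊤)
    (hQ : stabilizer G x ≤ P) (φ : P →* A) (hφ : Function.Surjective φ)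
    (hk : ∀ g : P, φ g = 1 ↔ g.1 • x = x)
    (horb : Nat.card (orbitRel.Quotient G (X × X)) ≤ Nat.card A + 1) :
    ∃ χ : Fin (Nat.card A) → G → ℂ, (∀ i, IsIrrCharacter G (χ i)) ∧ Function.Injective χ ∧
      ∀ g, (Nat.card (fixedBy X g) : ℂ) = 1 + ∑ i, χ i g := by
  classical
  have := Fintype.ofFinite G
  have := Fintype.ofFinite A
  have hc : Nat.card (IrrCharacter A) = Nat.card A := by
    rw [card_irr]
    exact (Nat.card_congr (Equiv.ofBijective _ (ConjClasses.mk_bijective (α := A)))).symm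
  have h1 : (fun g : G => (Nat.card (fixedBy X g) : ℂ)) =
      ∑ l : IrrCharacter A, indFun P fun g => (l : A → ℂ) (φ g) := by
    rw [fixedBy_eq_indFun X x, ← indFun_indFun _ P hQ, ← indFun_sum]
    congr 1
    rw [show (stabilizer G x).subgroupOf P = (⊥ : Subgroup A).comap φ from
      Subgroup.ext fun g => by simpa [Subgroup.mem_subgroupOf] using (hk g).symm]
    have := indFun_comap φ hφ ⊥ (fun _ => 1)
    rw [this, indFun_bot, regChar_eq_sum]
    funext g
    have h1 : ∀ l : IrrCharacter A, (l : A → ℂ) 1 = 1 := fun l =>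
      irr_one_eq_one_of_comm (fun a b => mul_comm a b) l.2
    simp [h1]
  let ψ : Option (IrrCharacter A) → G → ℂ := fun o => o.elim (fun _ => 1) fun l =>
    (indFun P fun g => (l : A → ℂ) (φ g)) - if l = oneIrr A then (fun _ => 1 : G → ℂ) else 0
  have h2 : (fun g : G => (Nat.card (fixedBy X g) : ℂ)) = ∑ o, ψ o := by
    rw [h1, Fintype.sum_option]
    simp [ψ]
  have h3 : ∀ l : IrrCharacter A, IsCharacter G (indFun P fun g => (l : A → ℂ) (φ g)) :=
    fun l => char_indFun _ (char_comp (irr_isCharacter l.2) φ)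
  obtain ⟨h4, h5⟩ := irr_of_sum (ψ := ψ) (N := Nat.card (orbitRel.Quotient G (X × X))) (by
    rintro (_ | l)
    · exact char_const_one
    · by_cases e : l = oneIrr A
      · subst e
        simp only [ψ, Option.elim, if_true]
        exact char_sub_of_inner_ne_zero (h3 _) irr_one (by
          simp [coe_oneIrr, inner_indFun_one_one])
      · simpa [ψ, e] using h3 l) (by
    rintro (_ | l) h
    · simpa [ψ] using congrFun h 1
    · have h6 := congrFun h 1
      have h7 : P.index ≠ 0 := Subgroup.index_ne_zero_of_finite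
      have h8 : P.index ≠ 1 := fun e => hP (Subgroup.index_eq_one.1 e)
      by_cases e : l = oneIrr A
      · simp [ψ, e, indFun_one, sub_eq_zero, h8] at h6
      · simp [ψ, e, indFun_one, h7, irr_one_ne_zero l.2] at h6)
    (by rw [← h2, inner_fixedBy_fixedBy])
    (by rw [Fintype.card_option, ← Nat.card_eq_fintype_card, hc]; exact horb)
  let e := (Finite.equivFinOfCardEq hc).symm
  refine ⟨fun i => ψ (some (e i)), fun i => h4 _,
    fun i j h => e.injective (Option.some_injective _ (h5 h)), fun g => ?_⟩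
  have := congrFun h2 g
  rw [this, Fintype.sum_option, Pi.add_apply, Finset.sum_apply,
    ← Equiv.sum_comp e (fun l => ψ (some l) g)]
  rfl

variable {F : Type*} [Field F] {n : ℕ}

/-- The action on non-zero vectors. -/
@[reducible] def act : MulAction (Matrix.SpecialLinearGroup (Fin n) F) {v : Fin n → F // v ≠ 0} where
  smul g v := ⟨g.1.mulVec v.1, fun h => v.2 (by
    have := congrArg (g⁻¹).1.mulVec h
    rwa [Matrix.mulVec_mulVec, ← Matrix.SpecialLinearGroup.coe_mul, inv_mul_cancel,
      Matrix.SpecialLinearGroup.coe_one, Matrix.one_mulVec, Matrix.mulVec_zero] at this)⟩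
  one_smul v := Subtype.ext (Matrix.one_mulVec v.1)
  mul_smul g h v := Subtype.ext (Matrix.mulVec_mulVec v.1 g.1 h.1).symm

theorem exists_pair (hn : 3 ≤ n) {e w e' w' : Fin n → F} (he : e ≠ 0)
    (hw : w ∉ F ∙ e) (he' : e' ≠ 0) (hw' : w' ∉ F ∙ e') :
    ∃ g : Matrix.SpecialLinearGroup (Fin n) F, g.1.mulVec e = e' ∧ g.1.mulVec w = w' := by
  obtain ⟨g, h1, h2⟩ := exists_slg_pair (F := F) (W := Fin n → F) (by simpa using hn) he hw he' hw'
  obtain ⟨z, hz⟩ := exists_SL_toLin' (CF.Geom.mem_SLG.1 g.2)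
  exact ⟨z, by rw [← Matrix.toLin'_apply, hz]; exact h1, by rw [← Matrix.toLin'_apply, hz]; exact h2⟩

theorem exists_not_mem (hn : 3 ≤ n) (e : Fin n → F) : ∃ w, w ∉ F ∙ e := by
  by_contra h
  push Not at h
  have h1 := finrank_span_le_card (R := F) ({e} : Set (Fin n → F))
  rw [Submodule.eq_top_iff'.2 h] at h1
  simp at h1
  omega

theorem exists_vec (hn : 3 ≤ n) {e e' : Fin n → F} (he : e ≠ 0) (he' : e' ≠ 0) :
    ∃ g : Matrix.SpecialLinearGroup (Fin n) F, g.1.mulVec e = e' := by
  obtain ⟨w, hw⟩ := exists_not_mem hn e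
  obtain ⟨w', hw'⟩ := exists_not_mem hn e'
  obtain ⟨g, h, -⟩ := exists_pair hn he hw he' hw'
  exact ⟨g, h⟩

/-- The stabiliser of a line. -/
def lineStab (e : Fin n → F) : Subgroup (Matrix.SpecialLinearGroup (Fin n) F) where
  carrier := {g | ∃ c : Fˣ, g.1.mulVec e = (c : F) • e}
  one_mem' := ⟨1, by simp⟩
  mul_mem' := by
    rintro g h ⟨c, hc⟩ ⟨d, hd⟩
    exact ⟨d * c, by
      rw [Matrix.SpecialLinearGroup.coe_mul, ← Matrix.mulVec_mulVec, hd, Matrix.mulVec_smul, hc,
        smul_smul, Units.val_mul]⟩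
  inv_mem' := by
    rintro g ⟨c, hc⟩
    refine ⟨c⁻¹, ?_⟩
    have := congrArg (g⁻¹).1.mulVec hc
    rw [Matrix.mulVec_mulVec, ← Matrix.SpecialLinearGroup.coe_mul, inv_mul_cancel,
      Matrix.SpecialLinearGroup.coe_one, Matrix.one_mulVec, Matrix.mulVec_smul] at this
    conv_rhs => rw [this, smul_smul]
    simp

theorem exists_hom {e : Fin n → F} (he : e ≠ 0) :
    ∃ φ : lineStab e →* Fˣ, ∀ g : lineStab e, g.1.1.mulVec e = (φ g : F) • e := by
  choose c hc using fun g : lineStab e => g.2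
  refine ⟨MonoidHom.mk' c fun g h => Units.ext (smul_left_injective F he ?_), hc⟩
  simp only
  rw [← hc, Subgroup.coe_mul, Matrix.SpecialLinearGroup.coe_mul, ← Matrix.mulVec_mulVec, hc,
    Matrix.mulVec_smul, hc, smul_smul, Units.val_mul, mul_comm]


/-- Let F be a finite field with q elements and n ≥ 3. The permutation character of SL_n(F) on the non-zero vectors of F^n (the function sending a matrix to the number of non-zero vectors it fixes) is the sum of the principal character and q − 1 pairwise distinct irreducible complex characters. -/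
theorem result {F : Type*} [Field F] [Fintype F] [DecidableEq F] (n : ℕ) (hn : 3 ≤ n) :
    ∃ χ : Fin (Fintype.card F - 1) → (Matrix.SpecialLinearGroup (Fin n) F → ℂ),
      (∀ i, Cfsg.IsIrrCharacter (Matrix.SpecialLinearGroup (Fin n) F) (χ i)) ∧ Function.Injective χ ∧
      ∀ g : Matrix.SpecialLinearGroup (Fin n) F,
        (Nat.card {v : Fin n → F // v ≠ 0 ∧ (g : Matrix (Fin n) (Fin n) F).mulVec v = v} : ℂ) = 1 + ∑ i, χ i g := by
  open MulAction in
  let _ := act (F := F) (n := n)
  have hs : ∀ (g : Matrix.SpecialLinearGroup (Fin n) F) (v : {v : Fin n → F // v ≠ 0}),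
      (g • v).1 = g.1.mulVec v.1 := fun _ _ => rfl
  have : IsPretransitive (Matrix.SpecialLinearGroup (Fin n) F) {v : Fin n → F // v ≠ 0} :=
    ⟨fun v w => (exists_vec hn v.2 w.2).imp fun g hg => Subtype.ext hg⟩
  obtain ⟨e, he⟩ := exists_not_mem (F := F) hn 0
  have he : e ≠ 0 := by rintro rfl; simp at he
  obtain ⟨w, hw⟩ := exists_not_mem hn e
  have w0 : w ≠ 0 := by rintro rfl; simp at hw
  obtain ⟨φ, hφ⟩ := exists_hom he
  have hc : Nat.card Fˣ = Fintype.card F - 1 := by rw [Nat.card_units, Nat.card_eq_fintype_card]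
  obtain ⟨χ, h1, h2, h3⟩ := perm_decomp (⟨e, he⟩ : {v : Fin n → F // v ≠ 0}) (lineStab e) (by
      intro h
      obtain ⟨g, hg⟩ := exists_vec hn he w0
      obtain ⟨c, hc⟩ : g ∈ lineStab e := h ▸ Subgroup.mem_top g
      exact hw (Submodule.mem_span_singleton.2 ⟨c, hc.symm.trans hg⟩))
    (fun g hg => ⟨1, by simpa [hs] using congrArg Subtype.val hg⟩) φ (by
      intro c
      obtain ⟨g, hg⟩ := exists_vec hn he (smul_ne_zero c.ne_zero he)
      exact ⟨⟨g, c, hg⟩, Units.ext (smul_left_injective F he ((hφ ⟨g, c, hg⟩).symm.trans hg))⟩)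
    (fun g => by
      rw [Subtype.ext_iff, hs, hφ]
      exact ⟨fun h => by simp [h], fun h =>
        Units.ext (smul_left_injective F he (by simpa using h))⟩) (by
      have : Finite (orbitRel.Quotient (Matrix.SpecialLinearGroup (Fin n) F)
        ({v : Fin n → F // v ≠ 0} × {v : Fin n → F // v ≠ 0})) := inferInstance
      rw [← Finite.card_option]
      refine Nat.card_le_card_of_surjective (fun o : Option Fˣ => Quotient.mk'' (⟨e, he⟩,
        o.elim ⟨w, w0⟩ fun c => ⟨(c : F) • e, smul_ne_zero c.ne_zero he⟩)) fun q => ?_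
      induction q using Quotient.inductionOn' with
      | h p =>
      obtain ⟨a, b⟩ := p
      by_cases hb : b.1 ∈ F ∙ a.1
      · obtain ⟨c, hc⟩ := Submodule.mem_span_singleton.1 hb
        have c0 : c ≠ 0 := by rintro rfl; exact b.2 (by simpa using hc.symm)
        obtain ⟨g, hg⟩ := exists_vec hn a.2 he
        refine ⟨some (Units.mk0 c c0), Quotient.sound' (orbitRel_apply.2 ⟨g, Prod.ext
          (Subtype.ext hg) (Subtype.ext ?_)⟩)⟩
        change g.1.mulVec b.1 = c • e
        rw [← hc, Matrix.mulVec_smul, hg]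
      · obtain ⟨g, h1, h2⟩ := exists_pair hn a.2 hb he hw
        exact ⟨none, Quotient.sound' (orbitRel_apply.2 ⟨g, Prod.ext
          (Subtype.ext h1) (Subtype.ext h2)⟩)⟩)
  rw [← hc]
  refine ⟨χ, h1, h2, fun g => ?_⟩
  rw [← h3]
  congr 1
  exact Nat.card_congr
    { toFun := fun v => ⟨⟨v.1, v.2.1⟩, Subtype.ext v.2.2⟩
      invFun := fun v => ⟨v.1.1, v.1.2, congrArg Subtype.val v.2⟩
      left_inv := fun _ => rfl
      right_inv := fun _ => rfl }

end Cfsg.Agent.S2336
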