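import Cfsg.Statements.S2337
import Cfsg.Agent.BN.SzTable

set_option autoImplicit false
open Cfsg

namespace Cfsg.Agent.S2337

/-- For the Suzuki group Sz(q), q = 2^(2m+1) with m ≥ 1 (realised inside Sp₄ over the field with q elements), every irreducible complex representation of degree at least 2 has degree at least 2^m·(q − 1). -/
theorem result {F : Type*} [Field F] [Fintype F] (m : ℕ) (hm : 1 ≤ m) (hF : Fintype.card F = 2 ^ (2 * m + 1)) :
    (∀ (k : ℕ) (ρ : Representation ℂ (Cfsg.Lie.Sz F (2 ^ (m + 1))) (Fin k → ℂ)), ρ.IsIrreducible → 2 ≤ k → 2 ^ m * (2 ^ (2 * m + 1) - 1) ≤ k) := by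
  intro k ρ hρ hk
  set D := CF.BN.Suz.lieD F m hF
  have h8 := CF.BN.Suz.eight_le_card hm hF
  have hF' := hF
  rw [← Nat.card_eq_fintype_card] at hF' h8
  have hr := CF.BN.Suz.sq_two_pow hF'
  have := D.finite
  have := Fintype.ofFinite (Cfsg.Lie.Sz F (2 ^ (m + 1)))
  obtain ⟨P⟩ := D.nonempty_table hr h8
  have h1 := (P.degree_iff k).1 ⟨_, CF.Char.isIrrCharacter_character ρ, by simp⟩
  have h2 : P.d = 2 ^ m := by have := P.hrd; omega
  have h3 := P.r_le
  have h4 := P.hrd
  have h5 := P.q_eq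
  have h6 := P.two_le
  rw [← hF', ← h2, mul_comm]
  generalize P.d = d at *
  rw [h4] at h1 h3
  generalize Nat.card F = q at *
  have h7 : d ≤ q := by omega
  have h8 : (q - 1) * d ≤ q ^ 2 := by rw [sq]; exact Nat.mul_le_mul (by omega) h7
  have h9 : 3 * d ≤ q := by nlinarith
  rcases h1 with h | h | h | h | h | h
  · omega
  · omega
  · omega
  · omega
  · rw [h]; exact Nat.mul_le_mul_left _ (by omega)
  · rw [h]; exact Nat.mul_le_mul_left _ (by omega)

end Cfsg.Agent.S2337
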