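import Cfsg.Statements.S2338
import Cfsg.Agent.BN.MdI
import Cfsg.Agent.BN.MdE
import Cfsg.Agent.Chev.Types

set_option autoImplicit false
open Cfsg

namespace Cfsg.Agent.S2338

open CF.Chev CF.BN CF.BN.Md CF.Char Cfsg.Lie

theorem arith {y k : ℤ} (h : 81 ≤ y) (h1 : y ^ 2 + y ≤ k + 2) (h2 : k ∣ y ^ 3 * (y - 1) * (y ^ 3 - 1)) :
    y ^ 2 + y + 1 ≤ k := by
  by_contra! h3
  have key : ∀ r s : ℤ, y ^ 3 * (y - 1) * (y ^ 3 - 1) = k * s + r → 0 < r → k ≤ r := fun r s e h0 =>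
    Int.le_of_dvd h0 ((dvd_add_right (dvd_mul_right k s)).1 (e ▸ h2))
  obtain rfl | rfl | rfl : k = y ^ 2 + y - 2 ∨ k = y ^ 2 + y - 1 ∨ k = y ^ 2 + y := by omega
  · have := key (72 * y - 72) (y ^ 5 - 2 * y ^ 4 + 4 * y ^ 3 - 9 * y ^ 2 + 18 * y - 36) (by ring) (by omega)
    nlinarith
  · have := key (26 * y - 16) (y ^ 5 - 2 * y ^ 4 + 3 * y ^ 3 - 6 * y ^ 2 + 10 * y - 16) (by ring) (by omega)
    nlinarith
  · have := key (4 * y) (y ^ 5 - 2 * y ^ 4 + 2 * y ^ 3 - 3 * y ^ 2 + 4 * y - 4) (by ring) (by omega)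
    nlinarith

/-- Lower bounds for the degrees of non-linear irreducible complex representations of the Chevalley group of type G₂ over a finite field with q elements: the degree is at least q³ + 1 when q ≡ 1 (mod 3) and q > 4, at least q³ − 1 when q ≡ 2 (mod 3) and q > 2, and at least q⁴ + q² + 1 when q ≡ 0 (mod 3) and q > 3. -/
theorem result {F : Type*} [Field F] [Fintype F] (k : ℕ) (ρ : Representation ℂ (Cfsg.Lie.chevG2.group F) (Fin k → ℂ)) (hρ : ρ.IsIrreducible) (hk : 2 ≤ k) :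
    (Fintype.card F % 3 = 1 → 4 < Fintype.card F → Fintype.card F ^ 3 + 1 ≤ k) ∧
    (Fintype.card F % 3 = 2 → 2 < Fintype.card F → Fintype.card F ^ 3 - 1 ≤ k) ∧
    (Fintype.card F % 3 = 0 → 3 < Fintype.card F → Fintype.card F ^ 4 + Fintype.card F ^ 2 + 1 ≤ k) := by
    classical
    have hq := FiniteField.isPrimePow_card F
    have hc := cardG2 F Nat.card_eq_fintype_card
    have : Finite (chevG2.group F) := Nat.finite_of_card_ne_zero (hc ▸ by
      have := fun n : ℕ => Nat.sub_ne_zero_of_lt (Nat.one_lt_pow n.succ_ne_zero hq.one_lt)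
      simp [this, hq.ne_zero])
    have hχ := isIrrCharacter_character ρ
    have key : 2 < Fintype.card F → ∀ r, ∃ (V : Type) (_ : NormedAddCommGroup V) (_ : InnerProductSpace ℂ V)
        (_ : FiniteDimensional ℂ V) (τ : chevG2.group F →* Module.End ℂ V), Un τ ∧
          Module.finrank ℂ V = k ∧ ∃ v, τ ((repG2 F).x r 1) v ≠ v := fun h r => by
      obtain ⟨a, h0, h1⟩ := exists_pow_ne (K := F) one_pos h
      have := StRep.isSimpleGroup (linkG2.faithful_gpRep F) (linkG2.gpRep_Gp F) goodG2.conn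
        (goodG2.perf_of_two_lt ⟨a, h0, by simpa using h1⟩) (linkG2.center_group F) (B := Fin 2)
      obtain ⟨V, _, _, _, τ, h2, h3, -, h4⟩ := exists_rep (.id _) (g := (repG2 F).x r 1)
        (fun e => one_ne_zero (((linkG2.faithful_gpRep F).x_injective r (e.trans
          ((repG2 F).x_zero r).symm)))) hχ (n := k) (by simp) hk
      exact ⟨V, _, _, ‹_›, τ, h2, h3, h4⟩
    obtain ⟨ψ, hψ⟩ := exists_ψ F
    obtain ⟨p, _, n, hp, hn⟩ := FiniteField.card' F
    have h3 : Fintype.card F % 3 ≠ 0 → 4 < Fintype.card F → Fintype.card F ^ 3 ≤ k + 1 ∧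
        (Fintype.card F % 3 = 1 → Fintype.card F ^ 3 + 1 ≤ k) := fun h h4 => by
      obtain ⟨V, _, _, _, τ, h2, rfl, h3⟩ := key (by omega) (11 : Fin 12)
      refine g2_ne_three ⟨h2, hψ, (repG2 F).x_add, krG _ Int.cast_zero⟩ (fun e => h ?_) h4 h3
      rw [hn, (Nat.prime_dvd_prime_iff_eq hp Nat.prime_three).1 ((CharP.cast_eq_zero_iff F p 3).1 e)]
      exact Nat.mod_eq_zero_of_dvd (dvd_pow_self 3 n.ne_zero)
    refine ⟨fun h h4 => (h3 (by omega) h4).2 h, fun h h4 => by have := (h3 (by omega) (by omega)).1; omega,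
      fun h h4 => ?_⟩
    obtain rfl : 3 = p := (Nat.prime_dvd_prime_iff_eq Nat.prime_three hp).1
      (Nat.prime_three.dvd_of_dvd_pow (hn ▸ Nat.dvd_of_mod_eq_zero h))
    have h9 : 9 ≤ Fintype.card F := by
      rw [hn] at h4 ⊢
      exact Nat.pow_le_pow_right (n := 3) three_pos ((Nat.pow_lt_pow_iff_right (a := 3) (n := 1) (by norm_num)).1 h4)
    obtain ⟨V, _, _, _, τ, h2, h5, h6⟩ := key (by omega) (9 : Fin 12)
    have h7 := g2_eq_three (cx3 h2 hψ).1 (cx3 h2 hψ).2 h9 h6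
    have h8 := irr_one_dvd_card hχ (n := k) (by simp)
    rw [hc] at h8
    rw [h5] at h7
    generalize Fintype.card F = q at *
    zify [Nat.one_le_pow _ _ hq.pos] at h7 h8 h9 ⊢
    have := arith (y := q ^ 2) (k := k) (by nlinarith) (by linarith) (by convert h8 using 2 <;> ring)
    linarith

end Cfsg.Agent.S2338
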