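import Cfsg.Statements.S2340
import Cfsg.Agent.BN.MdE
import Cfsg.Agent.Chev.Types
import Cfsg.Agent.Chev.Mult
import Cfsg.Agent.Char.Galois

set_option autoImplicit false
open Cfsg

namespace Cfsg.Agent.S2340

open CF.Chev CF.BN CF.BN.Md CF.Char Cfsg.Lie

/-- Certificates. -/
def cert : List (ℕ × List ℤ × List ℤ × List (ℤ × List ℤ)) :=
  [(1, [1, -1, 1], [-1, 0, 1, 1, 1, 1, 0, 0, 1, 1],
    [(5, [-2, 3]),
     (25, [-14, 16, -4, 1, 6]),
     (40, [-12, 13, -7, 8, 3, 3]),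
     (5, [-3, 2, -3, 2, 2, -3, 2, 2]),
     (10, [-7, 8, -7, 3, -2, 3, 3, -2, 3]),
     (80, [-32, 13, -27, 28, 3, -17, 8, 13, 13, -12, 3, 23])]),
   (2, [1, 0, 1], [-2, 1, 2, -1, -1, 2, 1, -1, 0, 1],
    [(2, [0, 1]),
     (62, [-5, 13, -9, 11, 21]),
     (10, [-2, -1, -2, 3, 4, 3]),
     (48, [-13, 5, -11, 7, 11, 5, 13, 7]),
     (10, [-3, 1, -3, 2, 1, 2, 2, 1, 2]),
     (360, [-101, -23, -91, 59, 67, 49, 29, -13, 19, 49, 77, 59])]),
   (3, [1], [-3, 1, 0, 0, 1, 1, 0, 1, 1, 0, 0, 1],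
    [(15, [1, 4]),
     (363, [-61, 20, 47, 56, 59]),
     (30, [-6, 1, 4, 6, 4, 1]),
     (15, [-6, 1, 4, 1, -1, 1, 4, 1]),
     (18, [-4, 1, 1, 2, 1, 1, 2, 1, 1]),
     (120, [-42, 2, 23, 12, -7, 2, 18, 2, -7, 12, 23, 2])]),
   (4, [1], [-4, 1, 0, 0, 1, 1, 0, 1, 1, 0, 0, 1],
    [(6, [1, 2]),
     (682, [-57, 71, 103, 111, 113]),
     (126, [-13, 10, 17, 22, 17, 10]),
     (24, [-5, 2, 4, 2, 1, 2, 4, 2]),
     (28, [-4, 2, 2, 3, 2, 2, 3, 2, 2]),
     (630, [-127, 25, 74, 55, 11, 25, 62, 25, 11, 55, 74, 25])]),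
   (5, [1], [-5, 1, 0, 0, 1, 1, 0, 1, 1, 0, 0, 1],
    [(7, [3, 4]),
     (781, [39, 164, 189, 194, 195]),
     (112, [2, 19, 23, 26, 23, 19]),
     (105, [-8, 15, 20, 15, 13, 15, 20, 15]),
     (40, [-2, 5, 5, 6, 5, 5, 6, 5, 5]),
     (2016, [-206, 171, 263, 234, 151, 171, 242, 171, 151, 234, 263, 171])]),
   (6, [-1, 1], [6, 5, 5, 5, 4, 3, 3, 2, 1, 1, 1],
    [(36, [5, -4]),
     (11196, [1927, -1493, -197, 19, 55]),
     (540, [73, -68, -11, -8, 13, 16]),
     (144, [26, -25, -4, 5, 2, -1, -4, 5]),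
     (324, [49, -47, 1, -5, 7, 1, -5, 7, 1]),
     (7560, [1186, -1151, -212, 79, 226, -23, -164, 199, 58, -191, -44, 247])])]


theorem rc : Rc cE6 id 71 70 (9 + 1) := by decide +kernel

theorem qp : ∀ s, Qp cE6 id 71 s := by decide +kernel

theorem hts : ({r | 0 < hgt cE6 r} : Finset (Fin 72)).val.map (fun r => (hgt cE6 r - 1).toNat) =
    ([1, 4, 5, 7, 8, 11].flatMap List.range : List ℕ) := by decide +kernel

theorem par : ∀ r, 0 < hgt cE6 r ∨ (∀ i ∉ [0, 2, 3, 4, 5], cE6.vec r i = 0) → 0 ≤ cE6.A r 71 := by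
  decide +kernel

theorem dvd_card {K G : Type*} [Field K] [Fintype K] [Group G] [Finite G] {ρ : StRep cE6 K G}
    (hρ : ρ.Faithful) (hq : Fintype.card K ∈ [2, 4]) (a : K) :
    31 ∣ Nat.card (Subgroup.centralizer {ρ.x 71 a}) := by
  have : Fact (Nat.Prime 31) := ⟨by decide⟩
  have h1 : 31 ∣ Nat.card (ρ.PJ {j | j ∈ [0, 2, 3, 4, 5]}) := by
    rw [StRep.card_PJ_eq hρ, RootSys.poin_eq_prod carE6' _ 20 _ (by decide) (by decide +kernel),
      Nat.card_eq_fintype_card (α := K)]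
    refine Dvd.dvd.mul_left ?_ _
    generalize Fintype.card K = q at hq
    revert q; decide +kernel
  obtain ⟨g, hg⟩ := exists_prime_orderOf_dvd_card' 31 h1
  have h2 := nm_of_A sameLenE6 (C := cE6) (S := {71}) (T := {r | cE6.Pos r ∨ cE6.InSub
    {j | j ∈ [0, 2, 3, 4, 5]} r}) (by rintro r hr _ rfl; exact par r (hr.imp_left pos_iff_hgt.1))
  have h3 := (ρ.PJ_eq _).trans_le (sup_le (ρ.H_le_normalizer_U _)
    (ρ.U_le_normalizer (h2.ideal sameLenE6) h2.neg)) g.2
  let f := (MulAut.toPerm _).comp (ρ.U {71}).normalizerMonoidHom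
  have h4 : f ⟨g, h3⟩ = 1 := by
    have h5 := orderOf_dvd_natCard (f ⟨g, h3⟩)
    have h6 := orderOf_map_dvd f ⟨g, h3⟩
    rw [Nat.card_perm, hρ.card_U (cE6.closed_singleton _) (cE6.isNil_singleton _), Set.ncard_singleton,
      pow_one, Nat.card_eq_fintype_card] at h5
    rw [Subgroup.orderOf_mk, Subgroup.orderOf_coe, hg] at h6
    refine orderOf_eq_one_iff.1 (Nat.eq_one_of_dvd_coprimes ?_ h5 h6)
    generalize Fintype.card K = q at hq
    revert q; decide +kernel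
  have h5 := congrArg Subtype.val (Equiv.congr_fun h4 ⟨_, ρ.x_mem_U (Set.mem_singleton _) a⟩)
  rw [← hg, ← Subgroup.orderOf_coe]
  exact Subgroup.orderOf_dvd_natCard _ (Subgroup.mem_centralizer_singleton_iff.2
    (mul_inv_eq_iff_eq_mul.1 h5))

/-- For the Chevalley group of type E₆ over a finite field with q elements (the group generated by the root elements), every irreducible complex representation of degree at least 2 has degree at least q(q⁶ + q³ + 1)(q⁴ + 1). -/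
theorem result {F : Type*} [Field F] [Fintype F] :
    (∀ (k : ℕ) (ρ : Representation ℂ (Cfsg.Lie.chevE6.group F) (Fin k → ℂ)), ρ.IsIrreducible → 2 ≤ k → Fintype.card F * (Fintype.card F ^ 6 + Fintype.card F ^ 3 + 1) * (Fintype.card F ^ 4 + 1) ≤ k) := by
  intro k ρ hρ hk
  have hq := FiniteField.isPrimePow_card F
  have hc := cardE6 F Nat.card_eq_fintype_card
  have : Finite (chevE6.group F) := Nat.finite_of_card_ne_zero (right_ne_zero_of_mul (hc.trans_ne <| by
    have := fun n : ℕ => Nat.sub_ne_zero_of_lt (Nat.one_lt_pow n.succ_ne_zero hq.one_lt)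
    simp [this, hq.ne_zero]))
  have := goodE6.nonempty
  have := StRep.isSimpleGroup (linkE6.faithful_gpRep F) (linkE6.gpRep_Gp F) goodE6.conn
    (.inr (.inl a2NbE6)) (linkE6.center_group F)
  have hχ := isIrrCharacter_character ρ
  have h1 := chev_bound (C := cE6) (linkE6.faithful_gpRep F) (linkE6.gpRep_Gp F) (linkE6.r3_gpRep F)
    sameLenE6 rc qp hts hχ (n := k) (by simp) hk rfl
  have h2 := (irr_one_dvd_card hχ (n := k) (by simp)).mul_left (Nat.gcd 3 (Fintype.card F - 1))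
  have h4 := fun h => dvd_card (linkE6.faithful_gpRep F) h
  rw [hc] at h2
  generalize Fintype.card F = q at *
  have h3 := hq.two_le
  rcases h1 with ⟨⟨a, h0⟩, h1⟩ | h1
  · rcases Pl.le_of_dvd (N := [1, 0, 0, 1, 1, 0, 1, 1, 0, 0, 1]) (q0 := 59) (a := 36) (J := 6)
      (ds := [2, 5, 6, 8, 9, 12].map (·, 1)) (cs := cert) (P := [2, 4]) (by decide +kernel) hq
      (n := k) (by
        zify [hq.one_lt.le] at h1
        simp [Pl.ev, List.range_succ] at h1 ⊢
        linarith) (by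
        zify [Nat.one_le_pow _ _ hq.pos] at h2
        simpa [mul_assoc] using h2) with h | ⟨h5, h6⟩
    · simp [Pl.ev] at h
      zify; linarith
    have h7 := isIntegral_index_mul_div hχ ((linkE6.gpRep F).x (71 : Fin 72) a)
    have h8 := (Subgroup.centralizer {(linkE6.gpRep F).x (71 : Fin 72) a}).index_mul_card
    obtain ⟨c, h9⟩ := h4 h5 a
    rw [h0, Representation.char_one, Module.finrank_fin_fun] at h7
    rw [← h8, h9] at hc
    generalize (Subgroup.centralizer {(linkE6.gpRep F).x (71 : Fin 72) a}).index = i at *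
    have h10 := int_dvd_of_isIntegral_div (a := i * (k - q * q ^ 10)) (b := k) (by omega)
      (by simpa using h7)
    simp only [List.mem_cons, List.not_mem_nil, or_false] at h5
    rcases h5 with rfl | rfl <;> simp [Pl.ev] at h6 <;> rw [h6] at h10 <;>
      obtain ⟨i, rfl⟩ : 31 ∣ i := by omega
    all_goals
      have := hc ▸ (show 31 * 31 ∣ _ * (31 * i * (31 * c)) from Dvd.dvd.mul_left ⟨i * c, by ring⟩ _)
      exact absurd this (by decide)
  · obtain ⟨q, rfl⟩ := Nat.exists_eq_add_of_le h3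
    refine le_trans ?_ h1
    rw [show 2 + q - 1 = q + 1 by omega]
    ring_nf
    omega

end Cfsg.Agent.S2340
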