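import Cfsg.Statements.S2345
import Cfsg.Agent.OmDeg.G

set_option autoImplicit false
open Cfsg

namespace Cfsg.Agent.S2345

/-- For a finite field F with q > 3 elements and n ≥ 4, every irreducible complex representation of degree at least 2 of Ω⁺_{2n}(F) (the commutator subgroup of the isometry group of the hyperbolic quadratic form x₁y₁ + ⋯ + x_ny_n) has degree at least (q^n − 1)(q^{n−1} + q)/(q² − 1). -/
theorem result {F : Type*} [Field F] [Fintype F] (n : ℕ) (hn : 4 ≤ n) (h3 : 3 < Fintype.card F) :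
    (∀ (k : ℕ) (ρ : Representation ℂ (Cfsg.Omega F (Cfsg.quadFormPlus n F)) (Fin k → ℂ)), ρ.IsIrreducible → 2 ≤ k → (Fintype.card F ^ n - 1) * (Fintype.card F ^ (n - 1) + Fintype.card F) / (Fintype.card F ^ 2 - 1) ≤ k) := by
  intro k ρ hρ hk
  classical
  obtain ⟨m, rfl⟩ : ∃ m, n = m + 4 := ⟨n - 4, by omega⟩
  have hQ := CF.Geom.qPlus_nondegenerate (F := F) (m + 4)
  obtain ⟨V, _, _, _, R, rfl, h, g, hg, hne⟩ := CF.OmDeg.exists_orep hQ (by simp; omega) ρ hρ hk
  rw [← Nat.card_eq_fintype_card] at *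
  refine CF.OmDeg.div_le (by omega) ?_
  rw [Nat.cast_mul, Nat.cast_sub (Nat.one_le_pow _ _ (by omega))]
  refine le_of_eq_of_le (by push_cast; rfl) (h.plus h3 (k := m) ⟨?_, ?_⟩ hg hne)
  · rw [CF.OmDeg.finrank_perp_bot]; simp; omega
  · rw [CF.Geom.cnt_bot, map_zero, CF.Geom.card_singular_plus hQ (CF.Geom.isPlus_qPlus _) (m := m + 3)
      (by simp; omega)]
    zify [Nat.one_le_pow _ _ (Nat.card_pos (α := F))]; ring

end Cfsg.Agent.S2345
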