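import Cfsg.Statements.S2346
import Cfsg.Agent.OmDeg.G

set_option autoImplicit false
open Cfsg

namespace Cfsg.Agent.S2346

/-- For a finite field F with q elements, n ≥ 4, and a, b ∈ F with z₁² + a z₁z₂ + b z₂² anisotropic, every irreducible complex representation of degree at least 2 of Ω⁻_{2n}(F) (the commutator subgroup of the isometry group of x₁y₁ + ⋯ + x_{n−1}y_{n−1} + z₁² + a z₁z₂ + b z₂²) has degree at least (q^n + 1)(q^{n−1} − q)/(q² − 1). -/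
theorem result {F : Type*} [Field F] [Fintype F] (n : ℕ) (hn : 4 ≤ n) (a b : F) (hab : ∀ z₁ z₂ : F, z₁ ^ 2 + a * z₁ * z₂ + b * z₂ ^ 2 = 0 → z₁ = 0 ∧ z₂ = 0) :
    (∀ (k : ℕ) (ρ : Representation ℂ (Cfsg.Omega F (Cfsg.quadFormMinus (n - 1) F a b)) (Fin k → ℂ)), ρ.IsIrreducible → 2 ≤ k → (Fintype.card F ^ n + 1) * (Fintype.card F ^ (n - 1) - Fintype.card F) / (Fintype.card F ^ 2 - 1) ≤ k) := by
  intro k ρ hρ hk
  classical
  obtain ⟨m, rfl⟩ : ∃ m, n = m + 4 := ⟨n - 4, by omega⟩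
  have hQ := CF.Geom.qMinus_nondegenerate (m + 3) hab
  obtain ⟨V, _, _, _, R, rfl, h, g, hg, hne⟩ := CF.OmDeg.exists_orep hQ (by simp; omega) ρ hρ hk
  rw [← Nat.card_eq_fintype_card] at *
  have hq : 1 ≤ Nat.card F := Nat.card_pos
  refine CF.OmDeg.div_le hq ?_
  rw [Nat.cast_mul, Nat.cast_sub (Nat.le_self_pow (by omega) _)]
  refine le_of_eq_of_le (by push_cast; rfl) (h.minus (k := m) ⟨?_, ?_⟩ hg hne)
  · rw [CF.OmDeg.finrank_perp_bot]; simp; omega
  · rw [CF.Geom.cnt_bot, map_zero, CF.Geom.card_singular_minus hQ (CF.Geom.not_isPlus_qMinus _ hab)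
      (m := m + 3) (by simp; omega)]
    zify [Nat.one_le_pow _ _ hq]; ring

end Cfsg.Agent.S2346
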