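import Cfsg.Statements.S2347
import Cfsg.Agent.Classical.Weil

set_option autoImplicit false
open Cfsg

namespace Cfsg.Agent.S2347

/-- Smallest degree of a non-linear irreducible complex representation of the symplectic group Sp_{2n} over a finite field of odd order q, n ≥ 2: every irreducible complex representation of degree at least 2 has degree at least (q^n − 1)/2, and there is an irreducible complex representation of exactly that degree (a Weil representation). -/
theorem result {F : Type*} [Field F] [Fintype F] [DecidableEq F] (n : ℕ) (hn : 2 ≤ n) (hodd : Odd (Fintype.card F)) :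
    (∀ (k : ℕ) (ρ : Representation ℂ (Matrix.symplecticGroup (Fin n) F) (Fin k → ℂ)), ρ.IsIrreducible → 2 ≤ k → (Fintype.card F ^ n - 1) / 2 ≤ k) ∧
    (∃ ρ : Representation ℂ (Matrix.symplecticGroup (Fin n) F) (Fin ((Fintype.card F ^ n - 1) / 2) → ℂ), ρ.IsIrreducible) := by
  open CF.Classical CF.Geom in
  have h2 : (2 : F) ≠ 0 := two_ne_zero_of_odd_card hodd
  refine ⟨fun k ρ hρ hk => ?_, ?_⟩
  · obtain ⟨g, hg⟩ := exists_ne_one_of_irr ρ hρ (by simpa using hk)
    have := symp_bound_odd ρ (p := ringChar F)
      (Nat.cast_ne_zero.2 (CharP.ringChar_ne_zero_of_finite F)) h2 hg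
    rw [Module.finrank_fin_fun, Nat.card_eq_fintype_card] at this
    omega
  · have hψ : AddChar.FiniteField.primitiveChar_to_Complex F ≠ 1 := by
      simpa using AddChar.FiniteField.primitiveChar_to_Complex_isPrimitive F one_ne_zero
    have h := heis_schr n hψ h2
    have hd := h.finrank_part.2
    rw [Module.finrank_fintype_fun_eq_card, Fintype.card_fun, Fintype.card_fin] at hd
    have h1 : 1 < Fintype.card F ^ n := Nat.one_lt_pow (by omega) Fintype.one_lt_card
    have hirr := h.irr_weilP (ε := -1) fun e => by
      rw [e, finrank_bot] at hd; omega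
    obtain ⟨k, ρ, hρ, e⟩ := CF.Char.irr_comp_equiv
      (CF.Char.isIrrCharacter_character (h.weilP (-1)).toRepresentation) (spEquiv n F)
    have e1 := congrFun e 1
    rw [map_one, Representation.char_one, Representation.char_one, Module.finrank_fin_fun,
      Nat.cast_inj] at e1
    have : k = (Fintype.card F ^ n - 1) / 2 := by
      have : Module.finrank ℂ (h.weilP (-1)).toSubmodule = Module.finrank ℂ (h.part (-1)) := rfl
      omega
    subst this
    exact ⟨ρ, hρ⟩

end Cfsg.Agent.S2347
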