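import Cfsg.Statements.S2354
import Cfsg.Agent.BN.SzFin

set_option autoImplicit false
open Cfsg

namespace Cfsg.Agent.S2354

open CF.BN.Suz Polynomial

/-- exponent attached to a letter -/
def ex (l : ℕ × Bool) : ℕ := if l.2 then 2 * l.1 + 1 else 2 * l.1 + 2

theorem key {F : Type*} [Field F] {T : Tits F} {G : Type*} [Group G] (D : SzData T G) {r : ℕ}
    (hr : 2 ≤ r) (hθ : ∀ x, T.θ x = x ^ r) (L : List (ℕ × Bool)) : ∀ l : ℕ × Bool,
    FreeGroup.IsReduced (l :: L) → ∃ p : Fin 4 → F[X], p 3 ≠ 0 ∧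
      (∀ i, (p i).natDegree ≤ (p 3).natDegree) ∧
      (p 3).natDegree + r * (2 * l.1 + 2) ≤ r * ((l :: L).map fun l => 4 * l.1 + 4).sum ∧ ∀ x i,
      D.ρ (D.u 0 (x ^ ex l) * ((l :: L).map fun l =>
        D.u 0 (x ^ ex l) * D.w * D.u 0 (x ^ ex (l.1, !l.2))).prod) i 0 = (p i).eval x := by
  have := T.charP
  induction L with
  | nil =>
    refine fun l _ => ⟨![0, 0, 0, 1], by simp, fun i => by fin_cases i <;> simp,
      by simpa using Nat.mul_le_mul_left r (by omega),
      fun x i => ?_⟩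
    rw [List.map_singleton, List.prod_singleton, ← mul_assoc, ← mul_assoc, D.u_zero_sq, one_mul,
      map_mul, D.ρ_w, D.ρ_u]
    fin_cases i <;> simp [wM, Tits.uM, Matrix.mul_apply, Fin.sum_univ_four]
  | cons l' L ih =>
    intro l h
    obtain ⟨h1, h2⟩ := List.isChain_cons_cons.1 h
    obtain ⟨p, a, b, c, d⟩ := ih l' h2
    set s : F[X] := X ^ ex (l.1, !l.2) + X ^ ex l' with hs
    have h3 : ex (l.1, !l.2) ≠ ex l' := by
      obtain ⟨n, _ | _⟩ := l <;> obtain ⟨n', _ | _⟩ := l' <;> simp [ex] at h1 ⊢ <;> omega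
    have h4 : 1 ≤ ex (l.1, !l.2) ∧ ex (l.1, !l.2) ≤ 2 * l.1 + 2 := by unfold ex; split_ifs <;> simp
    have h5 : s.natDegree = max (ex (l.1, !l.2)) (ex l') := by
      rcases h3.lt_or_gt with h | h
      · rw [hs, natDegree_add_eq_right_of_natDegree_lt (by simpa), natDegree_X_pow, max_eq_right h.le]
      · rw [hs, natDegree_add_eq_left_of_natDegree_lt (by simpa), natDegree_X_pow, max_eq_left h.le]
    have h6 : 1 ≤ s.natDegree := h5 ▸ h4.1.trans (le_max_left _ _)
    have h7 : s ≠ 0 := by rintro h; simp [h] at h6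
    have h8 : (s ^ r * p 3).natDegree = r * s.natDegree + (p 3).natDegree := by
      rw [natDegree_mul (pow_ne_zero _ h7) a, natDegree_pow]
    have h9 : ∀ i j, (p i + s * p j).natDegree ≤ s.natDegree + (p 3).natDegree := fun i j =>
      (natDegree_add_le _ _).trans (max_le ((b i).trans (Nat.le_add_left _ _))
        (natDegree_mul_le.trans (Nat.add_le_add_left (b j) _)))
    have h10 : s.natDegree < r * s.natDegree := by nlinarith
    have h11 : (p 0 + s * p 2 + s ^ r * p 3).natDegree = r * s.natDegree + (p 3).natDegree := by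
      rw [natDegree_add_eq_right_of_natDegree_lt, h8]
      have := h9 0 2; omega
    refine ⟨![p 3, p 2, p 1 + s * p 3, p 0 + s * p 2 + s ^ r * p 3], ?_, fun i => ?_, ?_,
      fun x i => ?_⟩
    · intro h
      change p 0 + s * p 2 + s ^ r * p 3 = 0 at h
      rw [h, natDegree_zero] at h11
      omega
    · have := h9 1 3
      have := b 2
      fin_cases i <;> simp [h11] <;> omega
    · have h12 : s.natDegree ≤ 2 * l.1 + 2 + (2 * l'.1 + 2) := by
        have : ex l' ≤ 2 * l'.1 + 2 := by unfold ex; split_ifs <;> simp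
        omega
      have := Nat.mul_le_mul_left r h12
      change (p 0 + s * p 2 + s ^ r * p 3).natDegree + _ ≤ _
      rw [h11, List.map_cons, List.sum_cons]
      linarith
    · have e : ∀ y : G, D.u 0 (x ^ ex l) * (D.u 0 (x ^ ex l) * D.w * D.u 0 (x ^ ex (l.1, !l.2)) * y) =
          D.w * (D.u 0 (s.eval x) * (D.u 0 (x ^ ex l') * y)) := fun y => by
        simp only [← mul_assoc, D.u_zero_sq, one_mul]
        rw [mul_assoc _ _ (D.u 0 (x ^ ex l')), D.u_zero_mul]
        congr 3
        simp [hs, add_assoc, CharTwo.add_self_eq_zero]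
      rw [List.map_cons, List.prod_cons, e, map_mul, map_mul, D.ρ_w, D.ρ_u]
      have d := d x
      generalize D.ρ _ = M at d ⊢
      fin_cases i <;>
        simp [wM, Tits.uM, Tits.f, Matrix.mul_apply, Matrix.vecMul, dotProduct, Fin.sum_univ_four,
          d, hθ, show r ≠ 0 by omega]

/-- A non-trivial law holds in only finitely many Suzuki groups: for every non-trivial element w of the free group on countably many generators there is N such that for q = 2^(2m+1) with m ≥ N some substitution of elements of the Suzuki group over the field with q elements into w is not the identity. -/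
theorem result (w : FreeGroup ℕ) (hw : w ≠ 1) :
    ∃ N : ℕ, ∀ (F : Type*) [Field F] [Fintype F] (m : ℕ), 1 ≤ m → N ≤ m →
      Fintype.card F = 2 ^ (2 * m + 1) →
      ∃ f : ℕ → ↥(Cfsg.Lie.Sz F (2 ^ (m + 1))), FreeGroup.lift f w ≠ 1 := by
  refine ⟨(w.toWord.map fun l => 4 * l.1 + 4).sum, fun F _ _ m hm hN hF => ?_⟩
  set D := CF.BN.Suz.lieD F m hF
  obtain ⟨l, L, e⟩ := List.exists_cons_of_ne_nil (mt FreeGroup.toWord_eq_nil_iff.1 hw)
  obtain ⟨p, a, -, c, d⟩ := key D (r := 2 ^ (m + 1)) (le_self_pow₀ one_le_two (by omega))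
    (CF.BN.Suz.titsOfCard_θ hF) L l (e ▸ FreeGroup.isReduced_toWord)
  rw [← e] at c d
  obtain ⟨x, hx⟩ : ∃ x, (p 3).eval x ≠ 0 := by
    by_contra! h
    refine a (Polynomial.eq_zero_of_natDegree_lt_card_of_eval_eq_zero _ Function.injective_id h ?_)
    have h1 := Nat.mul_le_mul_left (2 ^ (m + 1)) (hN.trans (Nat.lt_two_pow_self (n := m)).le)
    have h2 : 0 < 2 ^ (m + 1) * (2 * l.1 + 2) := by positivity
    rw [← pow_add, show m + 1 + m = 2 * m + 1 by ring] at h1
    omega
  refine ⟨fun n => D.u 0 (x ^ (2 * n + 1)) * D.w * D.u 0 (x ^ (2 * n + 2)), fun h => hx ?_⟩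
  rw [← FreeGroup.mk_toWord (x := w), FreeGroup.lift_mk] at h
  rw [← d x 3, ← D.mem_B_iff, List.map_congr_left (g := fun l => cond l.2 _ _), h, mul_one]
  · exact D.u_mem_B _ _
  · rintro ⟨n, _ | _⟩ -
    · simp [ex, D.u_inv, D.w_inv, mul_assoc]
    · simp [ex]

end Cfsg.Agent.S2354
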