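import Cfsg.Statements.S2355
import Cfsg.Agent.Classical.Law

set_option autoImplicit false
open Cfsg

namespace Cfsg.Agent.S2355

/-- A non-trivial law is satisfied by only finitely many finite simple groups that are alternating or classical, up to isomorphism: for every non-trivial element w of the free group on countably many generators there is a bound N such that every alternating group of degree ≥ 5 and every simple classical group (linear, symplectic, unitary or orthogonal, in this problem's sense) in which w is a law has order at most N. -/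
theorem result (w : FreeGroup ℕ) (hw : w ≠ 1) :
    ∃ N : ℕ, ∀ (G : Type*) [Group G] [Finite G],
      (Cfsg.IsAlternating G ∨ Cfsg.IsPSL G ∨ Cfsg.IsPSp G ∨ Cfsg.IsPSU G ∨ Cfsg.IsPOmegaOdd G ∨
          Cfsg.IsPOmegaPlus G ∨ Cfsg.IsPOmegaMinus G) →
      (∀ f : ℕ → G, FreeGroup.lift f w = 1) → Nat.card G ≤ N := by
  open CF.Classical CF.Geom in
  obtain ⟨N1, h1⟩ := Cfsg.Agent.S2352.result w hw
  obtain ⟨N2, h2⟩ := exists_bound_cLaw_SL hw
  obtain ⟨N3, h3⟩ := exists_bound_cLaw_SU hw
  let N := 2 * N2 + N3 + 2
  refine ⟨max N1.factorial (N ^ (N * N)), fun G _ _ hG h => ?_⟩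
  rcases hG with ⟨n, -, ⟨e⟩⟩ | ⟨F, _, _, n, hn, -, ⟨e⟩⟩ | ⟨F, _, _, n, hn, -, ⟨e⟩⟩ |
    ⟨F, _, _, n, q, hF, hn, -, ⟨e⟩⟩ | ⟨F, _, _, n, hn, -, ⟨e⟩⟩ | ⟨F, _, _, n, hn, ⟨e⟩⟩ |
    ⟨F, _, _, n, a, b, hn, -, ⟨e⟩⟩
  · refine le_max_of_le_left ?_
    have hn : n ≤ N1 := by
      by_contra! hn
      obtain ⟨f, hf⟩ := h1 n hn.le
      refine hf ?_
      rw [← e.symm.map_eq_one_iff, ← h (e.symm.toMonoidHom ∘ f), ← map_lift]
      rfl
    rw [Nat.card_congr e.toEquiv]
    refine (Nat.card_le_card_of_injective _ Subtype.val_injective).trans ?_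
    simpa [Fintype.card_perm] using Nat.factorial_le hn
  all_goals refine le_max_of_le_right ?_
  · obtain ⟨h4, h5⟩ := h2 F n hn (CLaw.of_quotient e h)
    exact card_le_of_matrix e _ Subtype.val_injective (by simp; omega) (by omega)
  · obtain ⟨h4, h5⟩ := h2 F n hn ((CLaw.of_quotient e h).of_injective
      ((spLevi n F).comp Matrix.SpecialLinearGroup.toGL) fun A B e =>
        Matrix.SpecialLinearGroup.toGL_injective (leviGL_injective (Units.ext (congrArg (·.1) e))))
    exact card_le_of_matrix e _ Subtype.val_injective (by simp; omega) (by omega)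
  · obtain ⟨h4, h5⟩ := h3 F n q (by omega) hF (CLaw.of_quotient e h)
    exact card_le_of_matrix e _ (Subtype.val_injective.comp Subtype.val_injective)
      (by simp; omega) (by omega)
  · obtain ⟨h4, h5⟩ := h2 F n (by omega) ((CLaw.of_quotient e h).of_Omega hn _
      (blkMat_injective (Equiv.sumComm _ Unit)) fun A hA v => by
        have := hA (v ∘ .inr)
        simp only [Cfsg.quadFormOdd, blkMat_mulVec, Cfsg.quadFormPlus] at this ⊢
        simpa [Function.comp_def] using this)
    exact card_le_of_matrix e _ (Units.val_injective.comp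
      (Subtype.val_injective.comp Subtype.val_injective)) (by simp; omega) (by omega)
  · obtain ⟨h4, h5⟩ := h2 F n (by omega) ((CLaw.of_quotient e h).of_Omega (by omega) (.id _)
      Function.injective_id fun A hA => hA)
    exact card_le_of_matrix e _ (Units.val_injective.comp
      (Subtype.val_injective.comp Subtype.val_injective)) (by simp; omega) (by omega)
  · obtain ⟨h4, h5⟩ := h2 F (n - 1) (by omega) ((CLaw.of_quotient e h).of_Omega (by omega) _
      (blkMat_injective (Equiv.refl (_ ⊕ Fin 2))) fun A hA v => by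
        have := hA (v ∘ .inl)
        simp only [Cfsg.quadFormMinus, blkMat_mulVec, Cfsg.quadFormPlus] at this ⊢
        simpa [Function.comp_def] using this)
    exact card_le_of_matrix e _ (Units.val_injective.comp
      (Subtype.val_injective.comp Subtype.val_injective)) (by simp; omega) (by omega)

end Cfsg.Agent.S2355
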