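import Cfsg.Statements.S2357
import Cfsg.Agent.BN.ReeLink
import Cfsg.Agent.BN.ReeTori

set_option autoImplicit false
open Cfsg

namespace Cfsg.Agent.S2357

/-- Let R be the small Ree group over the field with q = 3^(2m+1) ≥ 27 elements and write φ for Euler's totient function. Then R has exactly q²(q²−q+1) involutions, (q²−1)(q³+1) elements of order 3, and q²(q−1)(q³+1) elements of order 6 and as many of order 9; for i > 2 dividing q−1 it has φ(i)q³(q³+1)/2 elements of order i; for i > 1 dividing (q+1)/4 it has φ(i)q³(q−1)(q²−q+1)/6 elements of order i and φ(i)q³(q−1)(q²−q+1)/2 elements of order 2i; and for i > 1 dividing q − 3^(m+1) + 1 (respectively q + 3^(m+1) + 1) it has φ(i)q³(q²−1)(q + 3^(m+1) + 1)/6 (respectively φ(i)q³(q²−1)(q − 3^(m+1) + 1)/6) elements of order i. -/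
theorem result {K : Type*} [Field K] [Fintype K] {m : ℕ} (hm : 1 ≤ m)
    (hK : Fintype.card K = 3 ^ (2 * m + 1)) :
    Nat.card {g : ↥(Cfsg.Lie.twistedG2 K (3 ^ m)) // orderOf g = 2} = (3 ^ (2 * m + 1)) ^ 2 * ((3 ^ (2 * m + 1)) ^ 2 - 3 ^ (2 * m + 1) + 1) ∧
    Nat.card {g : ↥(Cfsg.Lie.twistedG2 K (3 ^ m)) // orderOf g = 3} = ((3 ^ (2 * m + 1)) ^ 2 - 1) * ((3 ^ (2 * m + 1)) ^ 3 + 1) ∧
    Nat.card {g : ↥(Cfsg.Lie.twistedG2 K (3 ^ m)) // orderOf g = 6} = (3 ^ (2 * m + 1)) ^ 2 * (3 ^ (2 * m + 1) - 1) * ((3 ^ (2 * m + 1)) ^ 3 + 1) ∧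
    Nat.card {g : ↥(Cfsg.Lie.twistedG2 K (3 ^ m)) // orderOf g = 9} = (3 ^ (2 * m + 1)) ^ 2 * (3 ^ (2 * m + 1) - 1) * ((3 ^ (2 * m + 1)) ^ 3 + 1) ∧
    (∀ i : ℕ, 2 < i → i ∣ 3 ^ (2 * m + 1) - 1 →
      2 * Nat.card {g : ↥(Cfsg.Lie.twistedG2 K (3 ^ m)) // orderOf g = i} = Nat.totient i * (3 ^ (2 * m + 1)) ^ 3 * ((3 ^ (2 * m + 1)) ^ 3 + 1)) ∧
    (∀ i : ℕ, 1 < i → i ∣ (3 ^ (2 * m + 1) + 1) / 4 →
      6 * Nat.card {g : ↥(Cfsg.Lie.twistedG2 K (3 ^ m)) // orderOf g = i} =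
          Nat.totient i * (3 ^ (2 * m + 1)) ^ 3 * (3 ^ (2 * m + 1) - 1) * ((3 ^ (2 * m + 1)) ^ 2 - 3 ^ (2 * m + 1) + 1) ∧
        2 * Nat.card {g : ↥(Cfsg.Lie.twistedG2 K (3 ^ m)) // orderOf g = 2 * i} =
          Nat.totient i * (3 ^ (2 * m + 1)) ^ 3 * (3 ^ (2 * m + 1) - 1) * ((3 ^ (2 * m + 1)) ^ 2 - 3 ^ (2 * m + 1) + 1)) ∧
    (∀ i : ℕ, 1 < i → i ∣ 3 ^ (2 * m + 1) - 3 ^ (m + 1) + 1 →
      6 * Nat.card {g : ↥(Cfsg.Lie.twistedG2 K (3 ^ m)) // orderOf g = i} =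
        Nat.totient i * (3 ^ (2 * m + 1)) ^ 3 * ((3 ^ (2 * m + 1)) ^ 2 - 1) * (3 ^ (2 * m + 1) + 3 ^ (m + 1) + 1)) ∧
    (∀ i : ℕ, 1 < i → i ∣ 3 ^ (2 * m + 1) + 3 ^ (m + 1) + 1 →
      6 * Nat.card {g : ↥(Cfsg.Lie.twistedG2 K (3 ^ m)) // orderOf g = i} =
        Nat.totient i * (3 ^ (2 * m + 1)) ^ 3 * ((3 ^ (2 * m + 1)) ^ 2 - 1) * (3 ^ (2 * m + 1) - 3 ^ (m + 1) + 1)) := by
    obtain ⟨T, ⟨D⟩⟩ := CF.BN.Ree.nonempty_ree hK
    have hq := CF.BN.Ree.three_lt_card hK hm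
    have e := CF.BN.Ree.natCard_eq hK
    have := D.finite
    have hr : (3 ^ (m + 1)) ^ 2 = 3 * Nat.card K := by rw [e]; ring
    rw [← e]
    generalize 3 ^ (m + 1) = r at hr
    have h4 := T.card_mod_four
    obtain ⟨-, -, ⟨A, a⟩, ⟨B, b⟩⟩ := D.exists_torData hq hr
    obtain ⟨c, hc⟩ := D.exists_ns_w
    have hg := D.card_G
    rw [← CF.BN.Ree.ReeData.N_mul, CF.BN.Ree.ReeData.N_eq hq hr] at hg
    have e2 : Nat.card K ^ 2 - 1 = (Nat.card K + 1) * (Nat.card K - 1) := by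
      rw [← Nat.sq_sub_sq, one_pow]
    refine ⟨D.card_orderOf_two, D.card_orderOf_three', D.card_orderOf_six, D.card_orderOf_nine,
      fun i h1 h2 => ?_, fun i h1 h2 => ⟨?_, ?_⟩, fun i h1 h2 => ?_, fun i h1 h2 => ?_⟩
    · have h := D.index_normalizer_H₂ hq
      rw [← D.card_H₂] at h2
      rcases Nat.even_or_odd' i with ⟨i, rfl | rfl⟩
      · have h3 := Nat.dvd_of_mul_dvd_mul_left two_pos h2
        rw [(D.oTor_H₂ hq).card_orderOf_eq_two_mul (D.torData_H₂ hq).cent (by omega) h3,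
          Nat.totient_two_mul_of_odd (D.odd_H₂.of_dvd_nat h3), mul_assoc, ← h]
        ring
      · rw [(D.oTor_H₂ hq).card_orderOf_eq (by omega) ((Nat.coprime_two_right.2
          (odd_two_mul_add_one i)).dvd_of_dvd_mul_left h2), mul_assoc, ← h]
        ring
    · rw [(hc.oTor hq).card_orderOf_eq h1 (hc.card_A' ▸ h2), ← mul_assoc, hc.index_normalizer_A hq]
      ring
    · rw [(hc.oTor hq).card_orderOf_eq_two_mul (hc.torData hq).cent h1 (hc.card_A' ▸ h2), mul_assoc,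
        mul_assoc, ← mul_assoc (_ ^ 3), ← hc.index_normalizer_A hq]
      ring
    · have h := (Subgroup.normalizer (A : Set (Cfsg.Lie.twistedG2 K (3 ^ m)))).card_mul_index
      rw [a.norm, hg] at h
      rw [a.tor.card_orderOf_eq h1 (a.card ▸ h2), e2]
      apply Nat.eq_of_mul_eq_mul_left (Nat.add_one_pos (Nat.card K - r))
      linear_combination i.totient * h
    · have h := (Subgroup.normalizer (B : Set (Cfsg.Lie.twistedG2 K (3 ^ m)))).card_mul_index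
      rw [b.norm, hg] at h
      rw [b.tor.card_orderOf_eq h1 (b.card ▸ h2), e2]
      apply Nat.eq_of_mul_eq_mul_left (Nat.add_one_pos (Nat.card K + r))
      linear_combination i.totient * h

end Cfsg.Agent.S2357
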