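import Cfsg.Statements.S2359
import Cfsg.Agent.BN.ReeLink
import Cfsg.Agent.BN.ReeTori

set_option autoImplicit false
open Cfsg

namespace Cfsg.Agent.S2359

/-- Let R be the small Ree group over the field with q = 3^(2m+1) ≥ 27 elements. If H is a cyclic subgroup of R of order (q−1)/2, then the centralizer of H in R is cyclic of order q−1, and every non-trivial subgroup of H has the same centralizer as H. If H is a cyclic subgroup of order (q+1)/4, then the centralizer of H is abelian of order q+1 with no element of order 4 (so it is the direct product of H and a group of order 4 whose non-identity elements all have order 2), and every non-trivial subgroup of H has the same centralizer as H. -/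
theorem result {K : Type*} [Field K] [Fintype K] {m : ℕ} (hm : 1 ≤ m)
    (hK : Fintype.card K = 3 ^ (2 * m + 1)) (H : Subgroup ↥(Cfsg.Lie.twistedG2 K (3 ^ m))) (hH : IsCyclic H) :
    (Nat.card H = (3 ^ (2 * m + 1) - 1) / 2 →
      IsCyclic ↥(Subgroup.centralizer (H : Set ↥(Cfsg.Lie.twistedG2 K (3 ^ m)))) ∧
        Nat.card ↥(Subgroup.centralizer (H : Set ↥(Cfsg.Lie.twistedG2 K (3 ^ m)))) = 3 ^ (2 * m + 1) - 1 ∧
        ∀ A : Subgroup ↥(Cfsg.Lie.twistedG2 K (3 ^ m)), A ≤ H → A ≠ ⊥ →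
          Subgroup.centralizer (A : Set ↥(Cfsg.Lie.twistedG2 K (3 ^ m))) = Subgroup.centralizer (H : Set ↥(Cfsg.Lie.twistedG2 K (3 ^ m)))) ∧
    (Nat.card H = (3 ^ (2 * m + 1) + 1) / 4 →
      IsMulCommutative ↥(Subgroup.centralizer (H : Set ↥(Cfsg.Lie.twistedG2 K (3 ^ m)))) ∧
        Nat.card ↥(Subgroup.centralizer (H : Set ↥(Cfsg.Lie.twistedG2 K (3 ^ m)))) = 3 ^ (2 * m + 1) + 1 ∧
        (∀ x ∈ Subgroup.centralizer (H : Set ↥(Cfsg.Lie.twistedG2 K (3 ^ m))), orderOf x ≠ 4) ∧
        ∀ A : Subgroup ↥(Cfsg.Lie.twistedG2 K (3 ^ m)), A ≤ H → A ≠ ⊥ →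
          Subgroup.centralizer (A : Set ↥(Cfsg.Lie.twistedG2 K (3 ^ m))) = Subgroup.centralizer (H : Set ↥(Cfsg.Lie.twistedG2 K (3 ^ m)))) := by
    obtain ⟨T, ⟨D⟩⟩ := CF.BN.Ree.nonempty_ree hK
    have hq := CF.BN.Ree.three_lt_card hK hm
    have e := CF.BN.Ree.natCard_eq hK
    have := D.finite
    rw [← e]
    refine ⟨fun h => ?_, fun h => ?_⟩
    · obtain ⟨g, rfl⟩ := (D.oTor_H₂ hq).exists_eq_map_conj hH (h.trans D.card_H₂'.symm)
      refine ⟨?_, ?_, fun A h1 h2 => ((D.oTor_H₂ hq).map_conj g).centralizer_eq h1 h2⟩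
      · rw [CF.BN.centralizer_map_conj, D.centralizer_H₂ hq]
        have := D.isCyclic_H
        exact isCyclic_of_surjective _ ((MulAut.conj g).toMonoidHom.subgroupMap_surjective _)
      · rw [CF.BN.centralizer_map_conj, D.centralizer_H₂ hq, CF.BN.card_map_conj, D.card_H]
    · obtain ⟨c, hc⟩ := D.exists_ns_w
      obtain ⟨g, rfl⟩ := (hc.oTor hq).exists_eq_map_conj hH (h.trans hc.card_A'.symm)
      have := (hc.oTor hq).map_conj g
      refine ⟨⟨⟨fun a b => Subtype.ext (this.comm a.2 b.2)⟩⟩, ?_,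
        fun x _ h => D.not_four_dvd x h.symm.dvd, fun A h1 h2 => this.centralizer_eq h1 h2⟩
      rw [CF.BN.centralizer_map_conj, hc.centralizer_A hq, CF.BN.card_map_conj, hc.card_E]

end Cfsg.Agent.S2359
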