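import Cfsg.Statements.S2385
import Cfsg.Agent.Cls.SpO3

set_option autoImplicit false
open Cfsg

namespace Cfsg.Agent.S2385

open CF.Cls CF.Geom Polynomial

theorem exists_sp {F : Type*} [Field F] [Fintype F] {n : ℕ} {χ : F[X]} (h1 : χ.Monic)
    (h2 : χ.natDegree = 2 * n) (h3 : χ.coeff 0 = 1) (h4 : cr (RingHom.id F) χ = χ) :
    ∃ g : Matrix.symplecticGroup (Fin n) F, g.1.charpoly = χ := by
  classical
  obtain ⟨s, s1, s2, s3, s4, s5⟩ := exists_irred_cr (fun _ => rfl) h1 (by simp [h3]) h4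
  have c1 : cr (RingHom.id F) (X + 1) = X + 1 := by
    simpa using cr_X_sub_C (σ := RingHom.id F) (c := -1) (by simp)
  obtain ⟨a, s', e1, n1⟩ : ∃ a s', s = Multiset.replicate a (X - 1) + s' ∧ X - 1 ∉ s' :=
    ⟨s.count (X - 1), s.filter (fun x => ¬ X - 1 = x),
      by rw [← Multiset.filter_eq, Multiset.filter_add_not], by simp⟩
  obtain ⟨b, t, e2, n2⟩ : ∃ b t, s' = Multiset.replicate b (X + 1) + t ∧ X + 1 ∉ t :=
    ⟨s'.count (X + 1), s'.filter (fun x => ¬ X + 1 = x),
      by rw [← Multiset.filter_eq, Multiset.filter_add_not], by simp⟩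
  subst e1 e2
  simp only [Multiset.map_add, Multiset.map_replicate, c1, cr_X_sub_one, add_right_inj] at s4
  obtain ⟨f, hf⟩ := exists_end_ed (V := Fin (t.map natDegree).sum → F) t
    (fun x hx => isPP_of_irreducible (s1 x (by simp [hx])).1 (s1 x (by simp [hx])).2) (by simp)
  have h5 : ∀ x ∈ ed f, x ∈ t := fun x hx => by rwa [hf] at hx
  obtain ⟨B, b1, b2, b3⟩ := exists_alt_of_ed
    ((isUnit_iff_ed f).2 (fun x hx => s3 x (by simp [h5 x hx]))) (by rw [hf, s4])
    (isUnit_sq_sub_one_of_ed (fun x hx => ⟨(s1 x (by simp [h5 x hx])).2,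
      fun h => n1 (by simp [← h, h5 x hx]), fun h => n2 (h ▸ h5 x hx)⟩))
  obtain ⟨k, hk⟩ := even_finrank_of_alt b1 b2
  have h6 : t.prod.coeff 0 = 1 := by
    obtain ⟨g, hg⟩ := exists_SpG_ed (sympBilin_nondegenerate k) (sympBilin_isAlt k) b1 b2 b3
      (a := 0) (b := 0) (by simp [hk])
    obtain ⟨g, rfl⟩ := (spEquiv k F).surjective g
    have h7 := SymplecticGroup.det_eq_one g.2
    rw [Matrix.det_eq_sign_charpoly_coeff, charpoly_eq_edM, show edM g.1 = _ from hg, hf] at h7
    simpa [← two_mul] using h7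
  have h7 : (X + 1 : F[X]).natDegree = 1 := by simpa using natDegree_X_add_C (1 : F)
  simp only [Multiset.map_add, Multiset.map_replicate, Multiset.sum_add, Multiset.sum_replicate,
    natDegree_X_sub_one, h7, smul_eq_mul, mul_one, h2] at s5
  rw [Module.finrank_fin_fun] at hk
  have h8 : (-1 : F) ^ a = 1 := by
    rw [← s2] at h3
    simpa [h6, coeff_zero_eq_eval_zero (_ ^ _)] using h3
  have h9 : Even a := by
    by_contra h9
    rw [(Nat.not_even_iff_odd.1 h9).neg_one_pow] at h8
    rcases b with _ | b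
    · exact h9 ⟨n - k, by omega⟩
    · exact n1 (by rw [sub_eq_add_neg, ← C_1, ← C_neg, h8]; simp [Multiset.replicate_succ])
  obtain ⟨a, rfl⟩ := h9
  obtain ⟨b, rfl⟩ : ∃ c, b = 2 * c := ⟨n - k - a, by omega⟩
  obtain ⟨g, hg⟩ := exists_SpG_ed (sympBilin_nondegenerate n) (sympBilin_isAlt n) b1 b2 b3
    (a := a) (b := b) (by simp; omega)
  obtain ⟨g, rfl⟩ := (spEquiv n F).surjective g
  refine ⟨g, ?_⟩
  rw [charpoly_eq_edM, show edM g.1 = _ from hg, hf, ← s2, two_mul a]
  congr 1; abel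


/-- In the symplectic group `Sp_{2n}(q)`, `q` a power of the prime `p`, the number of conjugacy classes of elements of order prime to `p` is `q^n`. -/
theorem result {F : Type*} [Field F] [Fintype F] {q : ℕ} (hq : Fintype.card F = q) (p : ℕ) [Fact p.Prime] [CharP F p] (n : ℕ) :
    Nat.card {c : ConjClasses ↥(Matrix.symplecticGroup (Fin n) F) //
      ∃ g : ↥(Matrix.symplecticGroup (Fin n) F), ConjClasses.mk g = c ∧ (orderOf g).Coprime p} = q ^ n := by
  rw [card_ss_classes (Matrix.symplecticGroup (Fin n) F).subtype p (fun x y hx h =>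
    isConj_Sp_of (natCast_ne_zero_of_coprime p hx) (pow_orderOf_eq_one x) h)]
  rcases n with _ | n
  · rw [pow_zero, Nat.card_eq_one_iff_exists]
    exact ⟨⟨1, 1, by simp⟩, fun ⟨_, g, hg⟩ => Subtype.ext (by simp [← hg])⟩
  have h1 : Nat.card {d : Fin (2 * n + 1) → F // (fun i => d i.rev) = d} = q ^ (n + 1) := by
    rw [← hq, ← Nat.card_eq_fintype_card, ← Nat.card_fin (n + 1), ← Nat.card_fun]
    exact Nat.card_congr
      { toFun := fun d i => d.1 ⟨i, by omega⟩
        invFun := fun c => ⟨fun i => c ⟨min i (2 * n - i), by omega⟩, funext (fun i =>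
          congrArg c (Fin.ext (by simp only [Fin.val_rev]; omega)))⟩
        left_inv := fun d => Subtype.ext (funext (fun i => by
          by_cases h : (i : ℕ) ≤ n
          · exact congrArg d.1 (Fin.ext (by simp; omega))
          · exact (congrArg d.1 (Fin.ext (by simp [Fin.val_rev]; omega))).trans (congrFun d.2 i)))
        right_inv := fun c => funext (fun i => congrArg c (Fin.ext (by simp; omega))) }
  rw [← h1, ← card_fun_zero_succ (2 * n + 1) (1 : F) (fun d => (fun i => d i.rev) = d),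
    ← card_monic (2 * n + 1 + 1)]
  refine Nat.card_congr (Equiv.subtypeEquivRight (fun χ => ⟨?_, ?_⟩))
  · rintro ⟨g, rfl⟩
    have h2 : g.1.charpoly.coeff 0 = 1 := by
      have := SymplecticGroup.det_eq_one g.2
      rw [Matrix.det_eq_sign_charpoly_coeff] at this
      simpa [← two_mul] using this
    have h3 : g.1.charpoly.natDegree = 2 * n + 1 + 1 := by simp; omega
    have h4 := (eh_alt (sympBilin_nondegenerate _) (sympBilin_isAlt _)).cr_charpoly
      (f := Matrix.toLin' g.1) (mem_SpG.1 (spEquiv (n + 1) F g).2)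
    rw [Matrix.charpoly_toLin', cr_eq_iff_coeff (by simp [h2])] at h4
    refine ⟨⟨Matrix.charpoly_monic _, h3⟩, h2, funext (fun i => ?_)⟩
    have h5 := h4 (i + 1) (by omega)
    rw [h3, h2] at h5
    simp only [Fin.val_succ, Fin.val_rev]
    rw [show 2 * n + 1 - (i + 1) + 1 = 2 * n + 1 + 1 - (i + 1) by omega]
    simpa using h5
  · rintro ⟨⟨h2, h3⟩, h4, h5⟩
    have h4 : χ.coeff 0 = 1 := h4
    refine exists_sp h2 h3 h4 ?_
    rw [cr_eq_iff_coeff (by simp [h4]), h3, h4]
    intro i hi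
    simp only [RingHom.id_apply, one_mul]
    rcases i with _ | i
    · rw [Nat.sub_zero, ← h3, h2.coeff_natDegree, h4]
    by_cases hi' : i = 2 * n + 1
    · rw [hi', Nat.sub_self, h4, ← h3, h2.coeff_natDegree]
    have h6 := congrFun h5 ⟨i, by omega⟩
    simp only [Fin.val_succ, Fin.val_rev] at h6
    rw [← h6, show 2 * n + 1 - (i + 1) + 1 = 2 * n + 1 + 1 - (i + 1) by omega]

end Cfsg.Agent.S2385
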