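import Cfsg.Statements.S2386
import Cfsg.Agent.Cls.Fix

set_option autoImplicit false
open Cfsg

namespace Cfsg.Agent.S2386

open CF.Cls CF.Geom Polynomial


/-- In the special unitary group `SU_n(q)` (matrices of determinant one over the field with `q²` elements preserving the standard Hermitian form), `q` a power of the prime `p`, the number of conjugacy classes of elements of order prime to `p` is `q^(n-1)`. -/
theorem result {F : Type*} [Field F] [Fintype F] {q : ℕ} (hF : Fintype.card F = q ^ 2) (p : ℕ) [Fact p.Prime] [CharP F p] (n : ℕ) (hn : 1 ≤ n) :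
    Nat.card {c : ConjClasses ↥(Cfsg.SU n F q) // ∃ g : ↥(Cfsg.SU n F q), ConjClasses.mk g = c ∧ (orderOf g).Coprime p} = q ^ (n - 1) := by
  obtain ⟨σ, hσ, hσ1, hσ2⟩ := exists_conj hF
  obtain ⟨n, rfl⟩ := Nat.exists_eq_add_of_le' hn
  let ρ := Matrix.SpecialLinearGroup.coeMonoidHom.comp (Cfsg.SU (n + 1) F q).subtype
  rw [card_ss_classes ρ p (fun x y hx h => isConj_SU_of hσ hσ1 hσ2 h (fun l hl =>
    (eh_hermSesq hσ2 _).detU_of_ss hσ1 (pres_SU hσ x) (ss_of_coprime ρ p hx) hl))]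
  set ε : F := (-1) ^ (n + 1) with hε
  have hε1 : ε * ε = 1 := by rw [hε, ← mul_pow]; simp
  have hε2 : σ ε = ε := by rw [hε]; simp
  have hε0 : ε ≠ 0 := left_ne_zero_of_mul_eq_one hε1
  let T : (Fin n → F) → (Fin n → F) := fun d i => ε * σ (d i.rev)
  have h1 := card_fix_sq hσ1 hσ2 T (fun x y => by ext i; simp [T, mul_add])
    (fun c x => by ext i; simp [T, mul_left_comm]) (fun x => by
      ext i; simp [T, hε2, hσ2, ← mul_assoc, hε1])
  rw [Nat.card_fun, Nat.card_eq_fintype_card (α := F), hF, Nat.card_fin, ← pow_mul, mul_comm,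
    pow_mul] at h1
  rw [Nat.add_sub_cancel, ← (pow_left_inj₀ (Nat.zero_le _) (Nat.zero_le _) two_ne_zero).1 h1,
    ← card_fun_zero_succ n ε (fun d => T d = d), ← card_monic (n + 1)]
  refine Nat.card_congr (Equiv.subtypeEquivRight (fun χ => ⟨?_, ?_⟩))
  · rintro ⟨g, rfl⟩
    have h2 : (ρ g).charpoly.coeff 0 = ε := by
      have := g.1.det_coe
      rw [Matrix.det_eq_sign_charpoly_coeff, Fintype.card_fin] at this
      rw [← one_mul (coeff _ 0), ← hε1, mul_assoc]
      exact (congrArg (ε * ·) this).trans (mul_one ε)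
    have h3 : (ρ g).charpoly.natDegree = n + 1 := by simp
    have h4 := (eh_hermSesq hσ2 _).cr_charpoly (pres_SU hσ g)
    rw [Matrix.charpoly_toLin'] at h4
    replace h4 := (cr_eq_iff_coeff (h2.trans_ne hε0)).1 h4
    refine ⟨⟨Matrix.charpoly_monic _, h3⟩, h2, funext (fun i => ?_)⟩
    have h5 := h4 (i + 1) (by omega)
    rw [h3, h2, hε2] at h5
    simp only [T, Fin.val_succ, Fin.val_rev]
    rw [show n - (i + 1) + 1 = n + 1 - (i + 1) by omega]
    exact (congrArg (ε * ·) h5).trans (by rw [← mul_assoc, hε1, one_mul])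
  · rintro ⟨⟨h2, h3⟩, h4, h5⟩
    have h4 : χ.coeff 0 = ε := h4
    obtain ⟨A, hA⟩ := exists_GU_charpoly hσ hσ1 hσ2 h2 h3 (h4.trans_ne hε0) (by
      rw [cr_eq_iff_coeff (h4.trans_ne hε0), h3, h4, hε2]
      intro i hi
      rcases i with _ | i
      · rw [Nat.sub_zero, ← h3, h2.coeff_natDegree, h4, hε1, map_one]
      by_cases hi' : i = n
      · rw [hi', Nat.sub_self, h4, ← h3, h2.coeff_natDegree, hε2, mul_one]
      have h6 := congrFun h5 ⟨i, by omega⟩
      simp only [T, Fin.val_succ, Fin.val_rev] at h6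
      rw [← h6, ← mul_assoc, hε1, one_mul, show n - (i + 1) + 1 = n + 1 - (i + 1) by omega])
    refine ⟨⟨⟨_, ?_⟩, mem_SU.2 (mem_GU.1 A.2)⟩, hA⟩
    rw [Matrix.det_eq_sign_charpoly_coeff, hA, Fintype.card_fin, h4, hε1]

end Cfsg.Agent.S2386
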