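import Cfsg.Statements.S2387
import Cfsg.Agent.Cls.SS

set_option autoImplicit false
open scoped MatrixGroups
open Cfsg

namespace Cfsg.Agent.S2387

open CF.Cls Polynomial

/-- In `GL_n(q)` with `n ≥ 1`, `q` a power of the prime `p`, the number of conjugacy classes of elements of order prime to `p` (diagonalisable over the algebraic closure; determined by the characteristic polynomial) is `(q - 1) q^(n-1)`. -/
theorem result {F : Type*} [Field F] [Fintype F] {q : ℕ} (hq : Fintype.card F = q) (p : ℕ) [Fact p.Prime] [CharP F p] (n : ℕ) (hn : 1 ≤ n) :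
    Nat.card {c : ConjClasses (GL (Fin n) F) // ∃ g : GL (Fin n) F, ConjClasses.mk g = c ∧ (orderOf g).Coprime p} = (q - 1) * q ^ (n - 1) := by
  obtain ⟨n, rfl⟩ := Nat.exists_eq_succ_of_ne_zero (show n ≠ 0 by omega)
  rw [card_ss_classes (Units.coeHom _) p (fun x y _ h => (isConj_units_iff x y).2 h)]
  have h1 := card_monic_zero (F := F) n (· ≠ 0)
  rw [Nat.card_eq_fintype_card (α := F), hq] at h1
  have h2 : Nat.card {a : F // a ≠ 0} = q - 1 := by
    rw [← hq, ← Nat.card_eq_fintype_card, ← Nat.card_units]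
    exact Nat.card_congr unitsEquivNeZero.symm
  rw [h2] at h1
  refine (Nat.card_congr (Equiv.subtypeEquivRight (fun χ => ⟨?_, ?_⟩))).trans h1
  · rintro ⟨g, rfl⟩
    refine ⟨⟨Matrix.charpoly_monic _, by simp⟩, fun h => ?_⟩
    have := Matrix.GeneralLinearGroup.det_ne_zero g
    rw [Matrix.det_eq_sign_charpoly_coeff] at this
    exact this (by simpa using h)
  · rintro ⟨⟨h1, h2⟩, h3⟩
    obtain ⟨A, -, hA⟩ := exists_matrix_cyc (ι := Fin (n + 1)) h1 (by simpa using h2)
    refine ⟨Matrix.GeneralLinearGroup.mkOfDetNeZero A ?_, hA⟩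
    rw [Matrix.det_eq_sign_charpoly_coeff, hA]; simpa using h3

end Cfsg.Agent.S2387
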