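import Cfsg.Statements.S2444
import Cfsg.Agent.Classical.Lev2

set_option autoImplicit false
open Cfsg

namespace Cfsg.Agent.S2444

/-- In the special linear group SL(n,F) over a finite field F, with n ≥ 2 and (n, |F|) not (2,2) or (2,3), every element is a commutator a·b·a⁻¹·b⁻¹ of two elements of SL(n,F). -/
theorem result {F : Type*} [Field F] [Fintype F] (n : ℕ) (hn : 2 ≤ n) (hex : n = 2 → 4 ≤ Fintype.card F) :
    ∀ g : Matrix.SpecialLinearGroup (Fin n) F, ∃ a b : Matrix.SpecialLinearGroup (Fin n) F, g = a * b * a⁻¹ * b⁻¹ := by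
  open CF.Classical CF.Cls Polynomial in
  intro g
  have : Nonempty (Fin n) := ⟨⟨0, by omega⟩⟩
  by_cases hg : g ∈ Subgroup.center _
  · exact center_SL_commutator hg
  have key : ∃ (s : F[X]) (α : F), s.Monic ∧ s.natDegree + 1 = Fintype.card (Fin n) ∧
      s.eval α ≠ 0 ∧ α * ((-1) ^ s.natDegree * s.coeff 0) = 1 := by
    rcases hn.eq_or_lt with rfl | hn
    · classical
      obtain ⟨α, -, hα⟩ := Finset.exists_mem_notMem_of_card_lt_card (s := ({0, 1, -1} : Finset F))
        (t := Finset.univ) (Finset.card_le_three.trans_lt (hex rfl))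
      simp only [Finset.mem_insert, Finset.mem_singleton, not_or] at hα
      refine ⟨X - C α⁻¹, α, monic_X_sub_C _, by simp, fun h => ?_, by simp [hα.1]⟩
      have h1 : α * α = 1 := by
        rw [eval_sub, eval_X, eval_C, sub_eq_zero] at h
        nth_rw 2 [h]
        exact mul_inv_cancel₀ hα.1
      exact (mul_self_eq_one_iff.1 h1).elim hα.2.1 hα.2.2
    · obtain ⟨d, rfl⟩ : ∃ d, n = d + 3 := ⟨n - 3, by omega⟩
      have h1 : (C ((-1 : F) ^ d) * (1 - X)).degree < ((d + 2 : ℕ) : WithBot ℕ) := by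
        compute_degree!
        norm_cast
        omega
      have h2 : (X ^ (d + 2) + C ((-1 : F) ^ d) * (1 - X)).natDegree = d + 2 := by
        rw [natDegree_add_eq_left_of_degree_lt (by rwa [degree_X_pow]), natDegree_X_pow]
      refine ⟨X ^ (d + 2) + C ((-1) ^ d) * (1 - X), 1, monic_X_pow_add h1,
        by rw [h2, Fintype.card_fin], by simp, ?_⟩
      rw [h2, coeff_zero_eq_eval_zero]
      simp [pow_add, ← mul_pow]
  obtain ⟨s, α, h1, h2, h3, h4⟩ := key
  obtain ⟨z, -, -, hz⟩ := exists_SL_prod_conj h1 h2 h3 h4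
  obtain ⟨u, v, h⟩ := hz g hg
  exact ⟨u * v⁻¹, v * z * v⁻¹, by rw [h]; group⟩

end Cfsg.Agent.S2444
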