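import Cfsg.Statements.S2450
import Cfsg.Agent.Classical.PSL2

set_option autoImplicit false
open Cfsg

namespace Cfsg.Agent.S2450

/-- The Arad–Herzog conjecture for PSL(2,q): let F be a finite field with q ≥ 4 elements. For any two non-identity elements a, b of PSL(2,F), the set of products of a conjugate of a with a conjugate of b is not a single conjugacy class. -/
theorem result {F : Type*} [Field F] [Fintype F] (h4 : 4 ≤ Fintype.card F)
    (a b : Matrix.ProjectiveSpecialLinearGroup (Fin 2) F) (ha : a ≠ 1) (hb : b ≠ 1) (c : Matrix.ProjectiveSpecialLinearGroup (Fin 2) F) :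
    {g : Matrix.ProjectiveSpecialLinearGroup (Fin 2) F | ∃ u v : Matrix.ProjectiveSpecialLinearGroup (Fin 2) F, g = (u * a * u⁻¹) * (v * b * v⁻¹)} ≠ {g | IsConj c g} := by
  open CF.Classical CF.Char MatrixGroups in
  rw [← Nat.card_eq_fintype_card] at *
  intro h
  obtain ⟨a, rfl⟩ := slToPSL_surjective a
  obtain ⟨b, rfl⟩ := slToPSL_surjective b
  obtain ⟨c, rfl⟩ := slToPSL_surjective c
  have h1 : ∀ χ : SL(2, F) → ℂ, IsIrrCharacter _ χ → χ (-1) = χ 1 → χ a * χ b = χ 1 * χ c :=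
    fun χ h1 h2 => by
      obtain ⟨ψ, h3, rfl⟩ := exists_irr_PSL2 h1 h2
      simpa using irr_mul_eq_of_class_mul h3 fun u => h.le ⟨u, 1, by simp⟩
  have ha' := mt (fun e => slToPSL_eq_one_iff.2 (isScal_toGL.1 e)) ha
  have hb' := mt (fun e => slToPSL_eq_one_iff.2 (isScal_toGL.1 e)) hb
  have h2 := h1 _ irr_stSL (stSL_neg_one.trans stSL_one.symm)
  have h4' : (4 : ℝ) ≤ Nat.card F := by exact_mod_cast h4
  have h3 : stSL F c = 0 := by
    have h5 := congrArg norm h2
    have h6 := mul_le_mul (norm_stSL_le ha') (norm_stSL_le hb') (norm_nonneg _) zero_le_one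
    rw [norm_mul, norm_mul, stSL_one, Complex.norm_natCast] at h5
    rcases sl2_cases c with (rfl | rfl) | ⟨e, -, h7, h8⟩ | ⟨e, h7, h8⟩ | h7
    · rw [stSL_one, Complex.norm_natCast] at h5; nlinarith
    · rw [stSL_neg_one, Complex.norm_natCast] at h5; nlinarith
    · exact h8.stSL_jor h7
    · rw [h8.stSL_split (Units.val_injective.ne h7), norm_one] at h5; linarith
    · rw [h7.stSL_eq, norm_neg, norm_one] at h5; linarith
  obtain ⟨g₀, h₀⟩ := exists_noEig F
  obtain ⟨θ, h5, h6⟩ := h₀.exists_cuspSL_neg_one h4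
  have h7 := congrArg norm (h1 _ (h₀.irr_cuspSL h5) h6)
  obtain ⟨e, -, h8, h9⟩ := exists_jor_of_stSL_eq_zero h3
  rw [norm_mul, norm_mul, h₀.norm_cuspSL_jor θ h9 h8, h₀.cuspSL_one, ← Nat.cast_pred Nat.card_pos,
    Complex.norm_natCast, Nat.cast_pred Nat.card_pos] at h7
  rw [h3, mul_zero, mul_eq_zero] at h2
  rcases h2 with h2 | h2 <;> obtain ⟨e, -, h8, h9⟩ := exists_jor_of_stSL_eq_zero h2 <;>
    rw [h₀.norm_cuspSL_jor θ h9 h8] at h7
  · linarith [h₀.norm_cuspSL_le θ hb']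
  · linarith [h₀.norm_cuspSL_le θ ha']

end Cfsg.Agent.S2450
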