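import Cfsg.Statements.S2455
import Cfsg.Agent.Classical.PSL2

set_option autoImplicit false
open Cfsg

namespace Cfsg.Agent.S2455

/-- A strong covering result in the direction of Thompson's conjecture (non-identity elements) for PSL(2,q), q odd: let F be a finite field of odd characteristic p with at least 5 elements and let x ∈ PSL(2,F) have order greater than 2 and not divisible by p (so x is not unipotent). Then every non-identity element of PSL(2,F) is a product of two conjugates of x. -/
theorem result {F : Type*} [Field F] [Fintype F] (p : ℕ) [Fact p.Prime] [CharP F p] (hp : p ≠ 2) (h5 : 5 ≤ Fintype.card F)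
    (x : Matrix.ProjectiveSpecialLinearGroup (Fin 2) F) (hx2 : 2 < orderOf x) (hxp : ¬ p ∣ orderOf x) : ∀ g : Matrix.ProjectiveSpecialLinearGroup (Fin 2) F, g ≠ 1 → ∃ u v : Matrix.ProjectiveSpecialLinearGroup (Fin 2) F, g = (u * x * u⁻¹) * (v * x * v⁻¹) := by
  open CF.Classical MatrixGroups in
  obtain ⟨s, rfl⟩ := slToPSL_surjective x
  have h2 := two_ne_zero_of_char_ne_two F p hp
  have h3 := tr2_ne_zero_of_orderOf (s := s) fun e => absurd (Nat.le_of_dvd two_pos e) (by omega)
  refine fun g hg => (isSS_of_orderOf_slToPSL p fun e => hxp ?_).exists_mul_conj_PSL (fun x hx => ?_) hg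
  · rw [((Nat.dvd_prime Fact.out).1 e).resolve_left (by omega)]
  · set t := tr2 (Matrix.SpecialLinearGroup.toGL s)
    refine ⟨sl2 0 (-(x / (2 * t))) (2 * t / x) t (by field_simp; ring),
      sl2 (-t) (-(t * x + x / (2 * t))) (2 * t / x) (2 * t) (by field_simp; ring),
      by simp [tr2, toGL_apply'], by simp only [tr2, toGL_apply', coe_sl2]; simp; ring, ?_⟩
    refine slToPSL_eq_iff.2 (Or.inr ?_)
    rw [sl2_mul, sbor, neg_sl2, sl2_eq_sl2_iff]
    refine ⟨?_, ?_, ?_, ?_⟩ <;> (try simp only [inv_one, Units.val_one]) <;> field_simp <;> ring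

end Cfsg.Agent.S2455
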