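import Cfsg.Statements.S2456
import Cfsg.Agent.Classical.PSL2

set_option autoImplicit false
open Cfsg

namespace Cfsg.Agent.S2456

/-- A strong covering result in the direction of Thompson's conjecture (non-identity elements) for PSL(2,q), q even: let F be a finite field of characteristic 2 with q ≥ 4 elements and let x ∈ PSL(2,F) have order greater than 2 and not dividing q + 1. Then every non-identity element of PSL(2,F) is a product of two conjugates of x. -/
theorem result {F : Type*} [Field F] [Fintype F] [CharP F 2] (h4 : 4 ≤ Fintype.card F)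
    (x : Matrix.ProjectiveSpecialLinearGroup (Fin 2) F) (hx2 : 2 < orderOf x) (hxq : ¬ orderOf x ∣ Fintype.card F + 1) : ∀ g : Matrix.ProjectiveSpecialLinearGroup (Fin 2) F, g ≠ 1 → ∃ u v : Matrix.ProjectiveSpecialLinearGroup (Fin 2) F, g = (u * x * u⁻¹) * (v * x * v⁻¹) := by
  open CF.Classical MatrixGroups in
  rw [← Nat.card_eq_fintype_card] at *
  obtain ⟨s, rfl⟩ := slToPSL_surjective x
  have h : IsSS (Matrix.SpecialLinearGroup.toGL s) :=
    isSS_of_orderOf_slToPSL 2 fun e => absurd (Nat.le_of_dvd two_pos e) (by omega)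
  obtain ⟨a, b, -, h1⟩ := h.cases.resolve_left fun e => hxq (orderOf_dvd_of_pow_eq_one (by
    rw [← map_pow, e.pow_eq_one, map_one]))
  obtain rfl := h1.eq_inv
  refine fun g hg => h.exists_mul_conj_PSL (fun x hx => ⟨sbor a (x * (a⁻¹ : Fˣ)), sbor a⁻¹ 0,
    (hasEig_sbor _ _).1.trans h1.1.symm, (hasEig_sbor _ _).symm.1.trans h1.1.symm, ?_⟩) hg
  rw [sbor_mul]; simp

end Cfsg.Agent.S2456
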