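import Cfsg.Statements.S2459
import Cfsg.Agent.Classical.Lev2

set_option autoImplicit false
open Cfsg

namespace Cfsg.Agent.S2459

/-- A form of Thompson's conjecture for PSL(3,q), q > 2 (covering the non-identity elements), with a semisimple class: for F a finite field of characteristic p with more than 2 elements there is an element x of PSL(3,F) of order prime to p such that every non-identity element of PSL(3,F) is a product of two conjugates of x. -/
theorem result {F : Type*} [Field F] [Fintype F] (p : ℕ) [Fact p.Prime] [CharP F p] (h3 : 3 ≤ Fintype.card F) :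
    ∃ x : Matrix.ProjectiveSpecialLinearGroup (Fin 3) F, ¬ p ∣ orderOf x ∧ ∀ g : Matrix.ProjectiveSpecialLinearGroup (Fin 3) F, g ≠ 1 → ∃ u v : Matrix.ProjectiveSpecialLinearGroup (Fin 3) F, g = (u * x * u⁻¹) * (v * x * v⁻¹) := by
  open CF.Classical CF.Cls Polynomial in
  have key : ∃ (s : F[X]) (m : ℕ), s.Monic ∧ s.natDegree = 2 ∧ s.eval 1 ≠ 0 ∧ s.coeff 0 = 1 ∧
      ¬ p ∣ m + 1 ∧ (X - C 1) * s ∣ X ^ (m + 1) - 1 ∧
      (X - C 1) * s ∣ ((X - C 1) * s).comp (X ^ m) ∧ (X - C 1) * s ∣ (X ^ m).comp (X ^ m) - X := by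
    have hp : p.Prime := Fact.out
    by_cases h : p = 3
    · subst h
      refine ⟨X ^ 2 + 1, 3, by monicity!, by compute_degree!, fun h => ?_, by simp, by norm_num,
        ⟨X + 1, by simp; ring⟩, ⟨(X ^ 2 + X + 1) * (X ^ 4 - X ^ 2 + 1), by simp; ring⟩,
        ⟨X * (X + 1) * (X ^ 4 + 1), by simp; ring⟩⟩
      have : ((2 : ℕ) : F) = 0 := by simpa [one_add_one_eq_two] using h
      exact absurd ((CharP.cast_eq_zero_iff F 3 2).1 this) (by norm_num)
    · have h' : ¬ p ∣ 3 := fun h' => h ((Nat.prime_dvd_prime_iff_eq hp Nat.prime_three).1 h')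
      refine ⟨X ^ 2 + X + 1, 2, by monicity!, by compute_degree!, fun h => ?_, by simp, h',
        ⟨1, by simp; ring⟩, ⟨X ^ 3 + 1, by simp; ring⟩, ⟨X, by simp; ring⟩⟩
      have : ((3 : ℕ) : F) = 0 := by rw [← h]; norm_num
      exact h' ((CharP.cast_eq_zero_iff F p 3).1 this)
  obtain ⟨s, m, h1, h2, h3, h4, h5, h6, h7, h8⟩ := key
  obtain ⟨z, k1, k2, k3⟩ := exists_SL_prod_conj (ι := Fin 3) h1 (by simp [h2]) h3 (by simp [h2, h4])
  have k4 : z ^ (m + 1) = 1 := by
    have := (k1.aeval_eq_zero_iff _).1 ((aeval_cyc_eq_zero_iff _ _).2 h6)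
    rw [aeval_toLin', map_eq_zero_iff _ Matrix.toLin'.injective] at this
    exact Subtype.ext (by simpa [sub_eq_zero] using this)
  have k5 : z⁻¹ = z ^ m := inv_eq_of_mul_eq_one_left (by rw [← pow_succ, k4])
  obtain ⟨w, hw⟩ := isConj_iff.1 (isConj_SL_of_sim k2 k1 (v := z⁻¹) (by
    have := (sim_cyc_aeval ((monic_X_sub_C 1).mul h1).ne_zero h7 h8).trans (k1.aeval (X ^ m))
    rw [aeval_toLin'] at this
    simpa [k5] using this))
  refine ⟨QuotientGroup.mk z, fun h => h5 (h.trans (orderOf_dvd_of_pow_eq_one ?_)), fun g hg => ?_⟩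
  · rw [← QuotientGroup.mk_pow, k4, QuotientGroup.mk_one]
  · obtain ⟨g, rfl⟩ := QuotientGroup.mk_surjective g
    obtain ⟨u, v, h⟩ := k3 g fun h => hg ((QuotientGroup.eq_one_iff g).2 h)
    refine ⟨QuotientGroup.mk u, QuotientGroup.mk (v * w), ?_⟩
    rw [h, ← hw]
    simp [mul_assoc]

end Cfsg.Agent.S2459
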