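import Cfsg.Statements.S2460
import Cfsg.Agent.Chev.Rk2b
import Cfsg.Agent.Chev.ClsSp

set_option autoImplicit false
open Cfsg

namespace Cfsg.Agent.S2460

/-- A form of Thompson's conjecture for the simple groups PSp(4,q), q ≥ 3 (covering the non-identity elements), with a semisimple class: for F a finite field of characteristic p with at least 3 elements there is an element x of PSp(4,F) of order prime to p such that every non-identity element of PSp(4,F) is a product of two conjugates of x. -/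
theorem result {F : Type*} [Field F] [Fintype F] (p : ℕ) [Fact p.Prime] [CharP F p] (h3 : 3 ≤ Fintype.card F) :
    ∃ x : Cfsg.PSp 2 F, ¬ p ∣ orderOf x ∧ ∀ g : Cfsg.PSp 2 F, g ≠ 1 → ∃ u v : Cfsg.PSp 2 F, g = (u * x * u⁻¹) * (v * x * v⁻¹) := by
  obtain ⟨γ, -, h⟩ := CF.Chev.Tab.chkR_B2
  obtain ⟨x, h1, h2⟩ := CF.Chev.certB2.class_sq_two CF.Chev.goodB2 h (K := F)
    (by rwa [Nat.card_eq_fintype_card]) p
  obtain ⟨e⟩ := CF.Chev.nonempty_B2_equiv_PSp F
  refine ⟨e x, by rwa [e.orderOf_eq], fun g hg => ?_⟩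
  obtain ⟨u, v, h⟩ := h2 (e.symm g) (by simpa using hg)
  exact ⟨e u, e v, e.symm.injective (by simpa using h)⟩

end Cfsg.Agent.S2460
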