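import Cfsg.Statements.S2462
import Cfsg.Agent.BN.CsD3

set_option autoImplicit false
open Cfsg

namespace Cfsg.Agent.S2462

/-- A form of Thompson's conjecture for the triality groups ³D₄(q) (covering the non-identity elements) with a semisimple class: for q a power of the prime p and K the field with q³ elements there is an element x of ³D₄(q) (realised over K) of order prime to p such that every non-identity element of ³D₄(q) is a product of two conjugates of x. -/
theorem result {K : Type*} [Field K] [Fintype K] (p : ℕ) [Fact p.Prime] [CharP K p] (q : ℕ) (hq : IsPrimePow q) (hK : Fintype.card K = q ^ 3) :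
    ∃ x : Cfsg.Lie.twistedD4 K q, ¬ p ∣ orderOf x ∧ ∀ g : Cfsg.Lie.twistedD4 K q, g ≠ 1 → ∃ u v : Cfsg.Lie.twistedD4 K q, g = (u * x * u⁻¹) * (v * x * v⁻¹) := by
    obtain ⟨φ, hφ, h3⟩ := CF.BN.exists_frobD4 hq hK
    have := (CF.BN.D4_simple hq hK).1
    have : IsSimpleGroup (CF.BN.gD4 (CF.BN.repD4 K) q) := (CF.BN.packD4 hφ h3).e.symm.isSimpleGroup
    have hr := (CF.BN.repD4 K).r3_of_finite
    have hT := CF.BN.twD4 φ
    have : Finite (Cfsg.Lie.chevD4.group K) := hr.finite hT.faith hT.top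
    obtain ⟨x, hx, h1, h2⟩ := CF.BN.TG.classD4 (CF.BN.isGr_twD4 φ) hφ h3 hq.one_lt hK
      ⟨hT.faith, hT.top, (CF.BN.packD4 hφ h3).center⟩ p
    obtain ⟨y, h4, h5⟩ := CF.BN.TG.PQ.sub hx h2 (CF.BN.packD4 hφ h3).e
    exact ⟨y, h4 ▸ h1, h5⟩

end Cfsg.Agent.S2462
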