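import Cfsg.Statements.S2471
import Cfsg.Agent.Classical.PSL2

set_option autoImplicit false
open Cfsg

namespace Cfsg.Agent.S2471

/-- In PSL(2,q) with q odd, the characteristic p is isolated from 2 in the prime graph: for F a finite field of odd characteristic p with at least 5 elements, PSL(2,F) has no element of order 2p. -/
theorem result {F : Type*} [Field F] [Fintype F] (p : ℕ) [Fact p.Prime] [CharP F p] (hp : p ≠ 2) (h5 : 5 ≤ Fintype.card F) (g : Matrix.ProjectiveSpecialLinearGroup (Fin 2) F) :
    orderOf g ≠ 2 * p := by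
  open CF.Classical MatrixGroups in
  rw [← Nat.card_eq_fintype_card] at *
  have hp' : p.Prime := Fact.out
  obtain ⟨m, h0, hm⟩ := exists_card_eq_pow F p
  have h1 : p ∣ Nat.card F := hm ▸ dvd_pow_self p h0.ne'
  have h3 : ¬ p ∣ 1 := hp'.one_lt.ne' ∘ Nat.dvd_one.1
  intro h
  rcases (isL2_PSL F (AlgebraicClosure F)).orderOf_cases p g with e | e | e
  · have := Nat.le_of_dvd hp'.pos (h ▸ orderOf_dvd_of_pow_eq_one e)
    have := hp'.pos
    omega
  · refine h3 ?_
    rw [← show Nat.card F - (Nat.card F - 1) = 1 by omega]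
    exact Nat.dvd_sub h1 (((h ▸ dvd_mul_left p 2).mul_right _).trans e)
  · exact h3 ((Nat.dvd_add_right h1).1 (((h ▸ dvd_mul_left p 2).mul_right _).trans e))

end Cfsg.Agent.S2471
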