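import Cfsg.Statements.S2478
import Cfsg.Agent.Cls.KN5
import Cfsg.Agent.S2387

set_option autoImplicit false
open Cfsg

namespace Cfsg.Agent.S2478

open CF.Cls CF.Geom


/-- The number of conjugacy classes of GL(n,q): for F a finite field with q elements and n ≥ 1, the number k of conjugacy classes of GL(n,F) satisfies q^n − q^(n−1) ≤ k ≤ q^n. -/
theorem result {F : Type*} [Field F] [Fintype F] (n : ℕ) (hn : 1 ≤ n) :
    Fintype.card F ^ n - Fintype.card F ^ (n - 1) ≤ Nat.card (ConjClasses (Matrix.GeneralLinearGroup (Fin n) F)) ∧ Nat.card (ConjClasses (Matrix.GeneralLinearGroup (Fin n) F)) ≤ Fintype.card F ^ n := by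
  classical
  obtain ⟨p, hp, -, hp', -⟩ := FiniteField.card' F
  have := Fact.mk hp'
  constructor
  · refine le_trans (le_of_eq ?_) ((Cfsg.Agent.S2387.result rfl p n hn).symm.trans_le
      (Finite.card_subtype_le _))
    obtain ⟨n, rfl⟩ := Nat.exists_eq_add_of_le' hn
    rw [Nat.add_sub_cancel, Nat.sub_mul, one_mul, pow_succ']
  let K := AlgebraicClosure F
  obtain ⟨s, h1, h2⟩ := card_le_sum_gg (fun g : GL (Fin n) F => ev K (toE (Units.coeHom _) g))
    (fun _ => True) (fun _ => 1) fun J => Finite.card_le_one_iff_subsingleton.2 ⟨by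
      rintro ⟨_, a, rfl, ha⟩ ⟨_, b, rfl, hb⟩
      exact Subtype.ext (ConjClasses.mk_eq_mk_iff_isConj.2 ((isConj_GL_iff_sim a b).2
        ((sim_iff_ev ((Group.isUnit a).map _) ((Group.isUnit b).map _)).2 (ha.trans hb.symm))))⟩
  rw [card_conj_eq, ← Nat.card_eq_fintype_card]
  rw [← Finset.card_eq_sum_ones] at h2
  have h3 := (ct_gl (F := F) (K := K) p).card_le_coeff (n := n) s fun J hJ => by
    obtain ⟨-, g, rfl⟩ := h1 J hJ
    simpa using adm_ev' (K := K) p ((Group.isUnit g).map (toE (Units.coeHom _)))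
  obtain ⟨t, ht⟩ := Nat.exists_eq_add_one_of_ne_zero (Nat.card_pos (α := F)).ne'
  rw [ht] at h3 ⊢
  exact h2.trans (h3.trans (coeff_gl_lt t hn).le)

end Cfsg.Agent.S2478
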