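import Cfsg.Statements.S2481
import Cfsg.Agent.Cls.KN5
import Cfsg.Agent.S2386

set_option autoImplicit false
open Cfsg

namespace Cfsg.Agent.S2481

open CF.Cls CF.Geom


/-- The number of conjugacy classes of SU(n,q): for n ≥ 2, q a prime power and F the field with q² elements, the number k of conjugacy classes of SU(n,q) (the determinant-one isometries of the standard Hermitian form on F^n) satisfies q^(n−1) ≤ k ≤ 8.26·q^(n−1). -/
theorem result {F : Type*} [Field F] [Fintype F] (n q : ℕ) (hn : 2 ≤ n) (hF : Fintype.card F = q ^ 2) :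
    q ^ (n - 1) ≤ Nat.card (ConjClasses (Cfsg.SU n F q)) ∧ 100 * Nat.card (ConjClasses (Cfsg.SU n F q)) ≤ 826 * q ^ (n - 1) := by
  obtain ⟨p, hp, -, hp', -⟩ := FiniteField.card' F
  have := Fact.mk hp'
  refine ⟨(Cfsg.Agent.S2386.result hF p n (by omega)).symm.trans_le (Finite.card_subtype_le _), ?_⟩
  have hq : 2 ≤ q := by
    have := Fintype.one_lt_card (α := F)
    rw [hF] at this
    nlinarith
  rw [← Nat.card_eq_fintype_card] at hF
  have h1 := card_SU_le p (show 0 < n by omega) hF
  refine Nat.le_of_mul_le_mul_left (le_trans ?_ (BB_gu hq (show 0 < n by omega))) q.succ_pos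
  rw [mul_left_comm]
  exact Nat.mul_le_mul_left _ h1

end Cfsg.Agent.S2481
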