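import Cfsg.Statements.S2482
import Cfsg.Agent.Cls.KO6
import Cfsg.Agent.S2385

set_option autoImplicit false
open Cfsg

namespace Cfsg.Agent.S2482

open CF.Cls CF.Geom


/-- The number of conjugacy classes of Sp(2n,q), q odd: for F a finite field of odd order q and n ≥ 1, the number k of conjugacy classes of Sp(2n,F) satisfies q^n ≤ k ≤ 10.8·q^n. -/
theorem result {F : Type*} [Field F] [Fintype F] (hodd : Odd (Fintype.card F)) (n : ℕ) (hn : 1 ≤ n) :
    Fintype.card F ^ n ≤ Nat.card (ConjClasses (Matrix.symplecticGroup (Fin n) F)) ∧ 5 * Nat.card (ConjClasses (Matrix.symplecticGroup (Fin n) F)) ≤ 54 * Fintype.card F ^ n := by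
  obtain ⟨p, _, _⟩ := exists_charP F
  refine ⟨(Cfsg.Agent.S2385.result rfl p n).symm.trans_le (Finite.card_subtype_le _), ?_⟩
  rw [card_conj_congr (spEquiv n F), ← Nat.card_eq_fintype_card]
  exact card_SpG_le (two_ne_zero_of_odd_card hodd) (sympBilin_nondegenerate n) (sympBilin_isAlt n) hn
    (by simp [two_mul])

end Cfsg.Agent.S2482
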