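import Cfsg.Statements.S2485
import Cfsg.Agent.Classical.PSL2

set_option autoImplicit false
open scoped Pointwise
open Cfsg

namespace Cfsg.Agent.S2485

open CF.Classical Subgroup MulAction MatrixGroups in
theorem aux {F : Type*} [Field F] [Finite F] (h2 : (2 : F) ≠ 0) {z w : PGL(2, F)} (hz : z * z = 1)
    (hz1 : z ≠ 1) (hw : w * w = 1)
    (h : ∀ x : OnePoint F, z • ratPt (AlgebraicClosure F) x ≠ ratPt (AlgebraicClosure F) x) :
    ∃ g ≠ 1, g * z = z * g ∧ g * w = w * g := by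
  have L := isL2_PGL F (AlgebraicClosure F)
  have hi : z * (z * w) * z⁻¹ = (z * w)⁻¹ := by
    rw [← mul_assoc, hz, one_mul, mul_inv_rev, inv_eq_of_mul_eq_one_right hw]
  by_cases h1 : z * w * (z * w) = 1
  · refine ⟨z, hz1, rfl, ?_⟩
    rw [eq_inv_of_mul_eq_one_left h1, mul_inv_rev, inv_eq_of_mul_eq_one_right hw,
      inv_eq_of_mul_eq_one_right hz]
  have h3 : z * w ≠ 1 := fun e => h1 (by rw [e, one_mul])
  rcases isUnip_or_mem_torus (OnePoint (AlgebraicClosure F)) h3 with ⟨x, hx⟩ | ⟨x, y, hxy, hx⟩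
  · obtain ⟨x, rfl⟩ := L.mem_range_of_isUnip hx
    exact absurd ((hi ▸ hx.conj z).eq hx.inv) (h x)
  have h4 : z • x = y ∧ z • y = x :=
    (mem_pairStab_of_conj_mem hxy h3 hx (hi ▸ inv_mem hx)).resolve_left fun e => h1 (by
      rw [← torus_mul_comm hxy hx e, mul_inv_cancel_right] at hi
      exact mul_eq_one_iff_eq_inv.2 hi)
  have h5 : 2 ∣ Nat.card (torus PGL(2, F) x y) := by
    have := odd_card_of_two_ne_zero h2
    rw [Nat.odd_iff] at this
    rcases (L.torus_cases hxy (ne_bot_iff_exists_ne_one.2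
      ⟨⟨_, hx⟩, fun e => h3 (congrArg Subtype.val e)⟩)).2 with e | e
    · have := e.2; rw [index_range_id] at this; omega
    · have := e.2.2; rw [index_range_id] at this; omega
  obtain ⟨g, hg, ho⟩ := exists_orderOf_eq_of_isCyclic (isCyclic_torus hxy) h5
  have h6 : g⁻¹ = g := inv_eq_of_mul_eq_one_right (by rw [← sq, orderOf_dvd_iff_pow_eq_one.1 ho.dvd])
  have h7 : z * g = g * z := by
    rw [← mul_inv_eq_iff_eq_mul, conj_eq_inv_of_swap hxy h4.1 h4.2 hg, h6]
  refine ⟨g, by rintro rfl; simp at ho, h7.symm, mul_left_cancel (a := z) ?_⟩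
  rw [← mul_assoc, h7, mul_assoc, torus_mul_comm hxy hg hx, mul_assoc]


/-- Let q = 2^k − 1 ≥ 7 be a prime and let G = PGL(2,q), the general linear group of degree 2 over the field with q elements modulo its centre. Then any two Sylow 2-subgroups of G have a non-trivial intersection: for a Sylow 2-subgroup H and every x ∈ G, H ∩ H^x ≠ 1. -/
theorem result {q k : ℕ} [Fact q.Prime] (hk : q + 1 = 2 ^ k) (hq : 7 ≤ q)
    (H : Sylow 2 (GL (Fin 2) (ZMod q) ⧸ Subgroup.center (GL (Fin 2) (ZMod q))))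
    (x : GL (Fin 2) (ZMod q) ⧸ Subgroup.center (GL (Fin 2) (ZMod q))) :
    (H : Subgroup (GL (Fin 2) (ZMod q) ⧸ Subgroup.center (GL (Fin 2) (ZMod q)))) ⊓ MulAut.conj x • (H : Subgroup _) ≠ ⊥ := by
  open CF.Classical Subgroup MulAction MatrixGroups in
  revert H x
  change ∀ (H : Sylow 2 PGL(2, ZMod q)) (x : PGL(2, ZMod q)),
    (H : Subgroup PGL(2, ZMod q)) ⊓ MulAut.conj x • (H : Subgroup PGL(2, ZMod q)) ≠ ⊥
  intro H x
  have L := isL2_PGL (ZMod q) (AlgebraicClosure (ZMod q))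
  have h2 : (2 : ZMod q) ≠ 0 := two_ne_zero_of_char_ne_two _ q (by omega)
  have hq' : Nat.card (ZMod q) = q := Nat.card_zmod q
  have hodd := Nat.odd_iff.1 (hq' ▸ odd_card_of_two_ne_zero h2)
  have hH : 2 ^ (k + 1) ∣ Nat.card H := H.pow_dvd_card_of_pow_dvd_card (by
    rw [card_PGL_two, hq', pow_succ, ← hk, Nat.sq_sub_sq q 1]
    exact (Nat.mul_dvd_mul_left _ (by omega)).mul_left _)
  have hH' := Nat.le_of_dvd Nat.card_pos hH
  rw [pow_succ, ← hk] at hH'
  have : Nontrivial H := Finite.one_lt_card_iff_nontrivial.1 (by omega)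
  have := H.isPGroup'.center_nontrivial
  obtain ⟨n, hn, e⟩ := (H.isPGroup'.to_subgroup (center H)).nontrivial_iff_card.1 this
  obtain ⟨z, hz⟩ := exists_prime_orderOf_dvd_card' (G := center H) 2 (e ▸ dvd_pow_self 2 hn.ne')
  have h1 : (H : Subgroup PGL(2, ZMod q)) ≤ centralizer {(z.1 : PGL(2, ZMod q))} := fun g hg =>
    mem_centralizer_singleton_iff.2 (congrArg Subtype.val (mem_center_iff.1 z.2 ⟨g, hg⟩))
  rw [← orderOf_coe, ← orderOf_coe] at hz
  generalize (z.1 : PGL(2, ZMod q)) = z at hz h1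
  have hz1 : z ≠ 1 := by rintro rfl; simp at hz
  have hz2 : z * z = 1 := by rw [← sq, orderOf_dvd_iff_pow_eq_one.1 hz.dvd]
  obtain ⟨u, v, huv, hu⟩ := L.exists_torus_of_mul_self h2 hz2
  have h3 := L.card_centralizer_of_mem_torus huv hz1 hu
  rw [if_pos hz2] at h3
  have h4 := card_le_of_le h1
  obtain ⟨h5, h6, h7⟩ := (L.torus_cases huv (ne_bot_iff_exists_ne_one.2
      ⟨⟨_, hu⟩, fun e => hz1 (congrArg Subtype.val e)⟩)).2.resolve_left fun e => by
    have := e.2; rw [index_range_id] at this; omega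
  rw [index_range_id] at h7
  have h8 := eq_of_le_of_card_ge h1 (by omega)
  obtain ⟨g, g1, g2, g3⟩ := aux h2 hz2 hz1 (w := x * z * x⁻¹) (by rw [conj_mul, hz2]; simp)
    fun a ha => (eq_or_eq_of_fixed hz1 huv hu.1 hu.2 ha).elim (fun e => h5 ⟨a, e⟩) fun e => h6 ⟨a, e⟩
  refine ne_bot_iff_exists_ne_one.2 ⟨⟨g, mem_inf.2 ⟨h8 ▸ mem_centralizer_singleton_iff.2 g2, ?_⟩⟩,
    fun e => g1 (congrArg Subtype.val e)⟩
  rw [Subgroup.mem_pointwise_smul_iff_inv_smul_mem, h8, Subgroup.mem_centralizer_singleton_iff,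
    MulAut.smul_def, MulAut.conj_inv_apply]
  calc _ = x⁻¹ * (g * (x * z * x⁻¹)) * x := by group
    _ = _ := by rw [g3]; group

end Cfsg.Agent.S2485
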