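import Cfsg.Statements.S2486
import Cfsg.Agent.Mx23.Opp

set_option autoImplicit false
open scoped Pointwise
open Cfsg

namespace Cfsg.Agent.S2486


/-- Let n ≥ 4 and let G be a finite group with a normal subgroup N of index 2 isomorphic to SL(n,2) and with trivial centralizer in G (so G is the extension of the simple group L_n(2) by its inverse-transpose automorphism, its full automorphism group). Then any two Sylow 2-subgroups of G have a non-trivial intersection: for a Sylow 2-subgroup H and every x ∈ G, H ∩ H^x ≠ 1. -/
theorem result {G : Type*} [Group G] [Finite G] {n : ℕ} (hn : 4 ≤ n) (N : Subgroup G) [N.Normal]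
    (e : N ≃* Matrix.SpecialLinearGroup (Fin n) (ZMod 2)) (hidx : N.index = 2)
    (hC : Subgroup.centralizer (N : Set G) = ⊥)
    (H : Sylow 2 G) (x : G) :
    (H : Subgroup G) ⊓ MulAut.conj x • (H : Subgroup G) ≠ ⊥ := by
  have hb : Function.Bijective (Matrix.SpecialLinearGroup.toGL :
      Matrix.SpecialLinearGroup (Fin n) (ZMod 2) →* Matrix.GeneralLinearGroup (Fin n) (ZMod 2)) := by
    refine ⟨Matrix.SpecialLinearGroup.toGL_injective, fun g => ⟨⟨g.1, ?_⟩, Units.ext rfl⟩⟩
    have h := Subsingleton.elim (Matrix.GeneralLinearGroup.det g) 1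
    exact congrArg Units.val h
  let f := (MulEquiv.ofBijective _ hb).symm.trans e.symm
  refine CF.Opp.main (n := n) (by omega) hidx (N.subtype.comp f.toMonoidHom)
    (N.subtype_injective.comp f.injective) ?_ H x
  rw [MonoidHom.range_comp, MonoidHom.range_eq_top_of_surjective _ f.surjective,
    ← MonoidHom.range_eq_map, Subgroup.range_subtype]

end Cfsg.Agent.S2486
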