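import Cfsg.Statements.S2487
import Cfsg.Agent.Geom.SylO

set_option autoImplicit false
open scoped Pointwise
open Cfsg

namespace Cfsg.Agent.S2487

open CF.Geom Subgroup

/-- Let m ≥ 4 and let G be the full isometry group of the hyperbolic quadratic form x₁y₁ + ⋯ + x_m y_m on the 2m-dimensional space over the field with 2 elements (the orthogonal group O⁺(2m,2), which contains Ω⁺(2m,2) with index 2). Then any two Sylow 2-subgroups of G have a non-trivial intersection: for a Sylow 2-subgroup H and every x ∈ G, H ∩ H^x ≠ 1. -/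
theorem result {F : Type*} [Field F] [Fintype F] (hF : Fintype.card F = 2) {m : ℕ} (hm : 4 ≤ m)
    (H : Sylow 2 (Cfsg.isometryGroup F (Cfsg.quadFormPlus m F)))
    (x : Cfsg.isometryGroup F (Cfsg.quadFormPlus m F)) :
    (H : Subgroup (Cfsg.isometryGroup F (Cfsg.quadFormPlus m F))) ⊓ MulAut.conj x • (H : Subgroup _) ≠ ⊥ := by
  obtain ⟨k, rfl⟩ := Nat.exists_eq_add_of_le' (show 1 ≤ m by omega)
  have : Fact (Nat.Prime 2) := ⟨Nat.prime_two⟩
  let φ := (OG (qPlus (k + 1) F)).subtype.comp (oEquiv (qPlus (k + 1) F)).toMonoidHom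
  have i : Function.Injective φ := Subtype.val_injective.comp (oEquiv _).injective
  have mx : ∀ P : Sylow 2 (Cfsg.isometryGroup F (Cfsg.quadFormPlus (k + 1) F)),
      SylO.Mx (fixSub (OG (qPlus (k + 1) F)) ⊥) (P.1.map φ) := fun P => by
    rw [fixSub_bot]
    refine ⟨by rintro _ ⟨g, -, rfl⟩; exact (oEquiv _ g).2, P.2.map φ, fun L a b c g hg => ?_⟩
    refine ⟨(oEquiv _).symm ⟨g, b hg⟩, (P.3 (c.comap_of_injective φ i) (map_le_iff_le_comap.1 a)).le ?_, by simp [φ]⟩
    exact (congrArg (· ∈ L) (show φ ((oEquiv _).symm ⟨g, b hg⟩) = g by simp [φ])).mpr hg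
  have hQ := qPlus_nondegenerate (F := F) (k + 1)
  refine fun h => SylO.main hF hQ k ⊥ _ _ disjoint_bot_left (by rw [perp_bot, finrank_top]; simp; ring) ?_ (mx H) (mx (x • H)) ?_
  · rw [cnt_bot, map_zero, card_singular_plus hQ (isPlus_qPlus _) (m := k) (by simp; ring), Nat.card_eq_fintype_card, hF,
      show 4 ^ k = 2 ^ k * 2 ^ k from mul_pow 2 2 k, pow_succ]
    obtain ⟨n, hn⟩ := Nat.exists_eq_add_of_le' (Nat.one_le_two_pow (n := k))
    rw [hn, show (n + 1) * 2 - 1 = 2 * n + 1 by omega]; ring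
  · exact (Subgroup.map_inf _ _ _ i).symm.trans ((congrArg (map φ) h).trans (Subgroup.map_bot φ))

end Cfsg.Agent.S2487
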