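import Cfsg.Statements.S2490
import Cfsg.Agent.Small.M11b

set_option autoImplicit false
open Cfsg

namespace Cfsg.Agent.S2490

/-- Let G be a finite group of order 7920 = 2⁴·3²·5·11 (the order of the smallest Mathieu group) and suppose its prime graph (vertices the prime divisors of the order, distinct p, q joined when there is an element of order pq) is disconnected: the prime divisors split into two non-empty parts with no element of order pq for p in one part and q in the other. Then G is simple. -/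
theorem result {G : Type*} [Group G] [Finite G] (hord : Nat.card G = 7920)
    (hdisc : (∃ A : Set ℕ, (∃ a ∈ A, a.Prime ∧ a ∣ Nat.card G) ∧ (∃ b ∉ A, b.Prime ∧ b ∣ Nat.card G) ∧
      ∀ a ∈ A, ∀ b ∉ A, a.Prime → b.Prime → a ∣ Nat.card G → b ∣ Nat.card G → ¬ ∃ g : G, orderOf g = a * b)) :
    IsSimpleGroup G := by
  obtain ⟨A, ⟨a, ha, a1, a2⟩, ⟨b, hb, b1, b2⟩, h⟩ := hdisc
  have hq : ∀ q, q.Prime → q ∣ Nat.card G → q = 2 ∨ q = 3 ∨ q = 5 ∨ q = 11 := fun q e e' => by
    have := (Nat.mem_primeFactorsList (n := 7920) (by norm_num)).2 ⟨e, hord ▸ e'⟩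
    rw [show Nat.primeFactorsList 7920 = [2, 2, 2, 2, 3, 3, 5, 11] by simp] at this
    simpa using this
  have h1 : ∀ a ∈ [2, 3, 5, 11], ∀ b ∈ [2, 3, 5, 11], (a ∈ A ↔ b ∉ A) → ∀ g : G, orderOf g ≠ a * b :=
    fun a ha b hb e g hg => by
      have k : ∀ a ∈ [2, 3, 5, 11], a.Prime ∧ a ∣ Nat.card G := by norm_num [hord]
      by_cases e' : a ∈ A
      · exact h a e' b (e.1 e') (k a ha).1 (k b hb).1 (k a ha).2 (k b hb).2 ⟨g, hg⟩
      · exact h b (by tauto) a e' (k b hb).1 (k a ha).1 (k b hb).2 (k a ha).2 ⟨g, hg.trans (mul_comm _ _)⟩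
  have := hq a a1 a2
  have := hq b b1 b2
  by_cases e : 11 ∈ A
  · exact CF.Small.simple_of_disc hord Aᶜ (by simpa) (by grind) fun a ha b hb e => h1 a ha b hb (by grind)
  · exact CF.Small.simple_of_disc hord A e (by grind) h1

end Cfsg.Agent.S2490
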