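import Cfsg.Statements.S2493
import Cfsg.Agent.Schur.DCComm

set_option autoImplicit false
open Cfsg

namespace Cfsg.Agent.S2493

/-- Let n ≥ 5 and let G be a finite perfect group whose centre has order 2 with G/Z(G) isomorphic to the alternating group of degree n (the double cover of the alternating group). Then every element of G is a commutator. -/
theorem result {G : Type*} [Group G] [Finite G] (hperf : commutator G = ⊤) {n : ℕ} (hn : 5 ≤ n)
    (hZ : Nat.card (Subgroup.center G) = 2) (e : G ⧸ Subgroup.center G ≃* alternatingGroup (Fin n))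
    (g : G) :
    ∃ a b : G, a * b * a⁻¹ * b⁻¹ = g := by
  obtain ⟨π, t, D, -⟩ := CF.Recog.exists_dc (H := G) (n := n) ⟨hZ, ⟨e⟩, fun L hL => by
    have hn : L.Normal := ⟨fun x hx g => by
      obtain ⟨⟨z, l⟩, e⟩ := hL.2 g
      have hz := Subgroup.mem_center_iff.1 z.2
      have : g * x * g⁻¹ = l * x * (l : G)⁻¹ := by
        rw [← e]
        show (z : G) * l * x * ((z : G) * l)⁻¹ = _
        rw [mul_inv_rev, mul_assoc (z : G), ← mul_assoc _ (l : G)⁻¹, mul_assoc (z : G), ← hz]
        simp [mul_assoc]
      rw [this]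
      exact L.mul_mem (L.mul_mem l.2 hx) (L.inv_mem l.2)⟩
    have hc : commutator G ≤ L := by
      rw [commutator_def, Subgroup.commutator_le]
      intro x _ y _
      obtain ⟨⟨z, l⟩, e⟩ := hL.2 x
      have hz := Subgroup.mem_center_iff.1 z.2
      rw [commutatorElement_def]
      have : x * y * x⁻¹ * y⁻¹ = l * (y * (l : G)⁻¹ * y⁻¹) := by
        rw [← e]
        show (z : G) * l * y * ((z : G) * l)⁻¹ * y⁻¹ = _
        rw [mul_inv_rev, mul_assoc (z : G), ← mul_assoc _ (l : G)⁻¹, mul_assoc (z : G), ← hz]
        simp [mul_assoc]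
      rw [this]
      exact L.mul_mem l.2 (hn.conj_mem _ (L.inv_mem l.2) y)
    rw [hperf, top_le_iff] at hc
    have h1 := hL.card_mul_card
    rw [hc, hZ, Subgroup.card_top] at h1
    have := Nat.card_pos (α := G)
    omega⟩
  exact CF.Schur.DCC.comm D (by simpa using hn) g

end Cfsg.Agent.S2493
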