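import Cfsg.Statements.S2495
import Cfsg.Agent.Cls.Rep
import Cfsg.Agent.Cls.Spec2
import Cfsg.Agent.Fgs2.Zsigmondy

set_option autoImplicit false
open Cfsg

namespace Cfsg.Agent.S2495

/-- Let q be an odd prime power, n ≥ 4 even, and L = PSL(n,q). Then L has an element of order q^(n/2) + 1 if and only if the 2-part of n exceeds the 2-part of q − 1. -/
theorem result {F : Type*} [Field F] [Fintype F] {q : ℕ} (hF : Fintype.card F = q) (hodd : Odd q)
    {n : ℕ} (hn : 4 ≤ n) (heven : Even n) :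
    (∃ g : Matrix.ProjectiveSpecialLinearGroup (Fin n) F, orderOf g = q ^ (n / 2) + 1) ↔
      padicValNat 2 (q - 1) < padicValNat 2 n := by
  obtain ⟨h, rfl⟩ := heven.two_dvd
  obtain ⟨p, _⟩ := CharP.exists F
  have := Fact.mk (CharP.char_is_prime F p)
  have hq : 2 ≤ q := hF ▸ Fintype.one_lt_card
  obtain ⟨r, h1, h2, h3⟩ := CF.Fgs2.zsigmondy hq (by omega : 2 ≤ 2 * h)
    (fun h => by rw [h.1] at hodd; exact absurd hodd (by decide)) (by omega)
  have h4 : ∀ d, (r : ℤ) ∣ (q : ℤ) ^ d - 1 ↔ r ∣ q ^ d - 1 := fun d => by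
    rw [← Nat.cast_pow, ← Nat.cast_pred (by positivity), Int.natCast_dvd_natCast]
  have hR := CF.Cls.rep_PSL (F := F) (K := AlgebraicClosure F) p (2 * h)
  have hQ := CF.Cls.pq_card (F := F) p
  rw [Nat.card_eq_fintype_card, hF] at hR hQ
  have := CF.Cls.Rep.half_iff (CF.Cls.ta_ac F p) hQ (by omega) hR h1 ((h4 _).2 h2)
    fun d a b c => h3 d a b ((h4 d).1 c)
  rw [← Nat.cast_pred (by omega), Int.natAbs_natCast, ← Nat.cast_pow, ← Nat.cast_succ,
    Int.natAbs_natCast] at this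
  rw [Nat.mul_div_cancel_left _ two_pos]
  exact this

end Cfsg.Agent.S2495
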