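import Cfsg.Statements.S2496
import Cfsg.Agent.Cls.Rep
import Cfsg.Agent.Cls.Spec2
import Cfsg.Agent.Fgs2.Zsigmondy

set_option autoImplicit false
open Cfsg

namespace Cfsg.Agent.S2496

theorem zs {q n : ℕ} (hq : 2 ≤ q) (ho : Odd q) (hn : 3 ≤ n) :
    ∃ r : ℕ, r.Prime ∧ orderOf (q : ZMod r) = n := by
  obtain ⟨r, h1, h2, h3⟩ := CF.Fgs2.zsigmondy hq (by omega : 2 ≤ n)
    (fun h => by rw [h.1] at ho; exact absurd ho (by decide)) (by omega)
  simp only [CF.Fgs2.prime_dvd_pow_sub_one_iff q _ (by omega : 1 ≤ q)] at h2 h3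
  refine ⟨r, h1, ?_⟩
  by_contra h
  exact h3 _ (Nat.pos_of_dvd_of_pos h2 (by omega))
    (lt_of_le_of_ne (Nat.le_of_dvd (by omega) h2) h) dvd_rfl

theorem zs' {q h : ℕ} (hq : 2 ≤ q) (ho : Odd q) (hh : 2 ≤ h) :
    ∃ r : ℕ, r.Prime ∧ (r : ℤ) ∣ (-(q : ℤ)) ^ (2 * h) - 1 ∧
      ∀ d, 0 < d → d < 2 * h → ¬ (r : ℤ) ∣ (-(q : ℤ)) ^ d - 1 := by
  have key : ∀ r d : ℕ, (r : ℤ) ∣ (-(q : ℤ)) ^ d - 1 → orderOf (q : ZMod r) ∣ 2 * d :=
    fun r d h => (CF.Cls.int_dvd_pow_iff q r _).1 (h.trans ⟨(-(q : ℤ)) ^ d + 1, by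
      rw [← (even_two_mul d).neg_pow]; ring⟩)
  have k2 : ∀ d, 0 < d → d < 2 * h → h ∣ d → d = h := by
    rintro _ h1 h2 ⟨c, rfl⟩
    rcases c with _ | _ | c
    · omega
    · simp
    · nlinarith
  rcases Nat.even_or_odd h with he | he
  · obtain ⟨r, h1, h2⟩ := zs hq ho (by omega : 3 ≤ 2 * h)
    refine ⟨r, h1, by rw [(even_two_mul h).neg_pow, CF.Cls.int_dvd_pow_iff, h2],
      fun d a b c => ?_⟩
    obtain rfl := k2 d a b (Nat.dvd_of_mul_dvd_mul_left two_pos (h2 ▸ key r d c))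
    rw [he.neg_pow, CF.Cls.int_dvd_pow_iff, h2] at c
    have := Nat.le_of_dvd a c
    omega
  · obtain ⟨r, h1, h2⟩ := zs hq ho (by rcases he with ⟨k, rfl⟩; omega : 3 ≤ h)
    refine ⟨r, h1, by
      rw [(even_two_mul h).neg_pow, CF.Cls.int_dvd_pow_iff, h2]; exact dvd_mul_left _ _,
      fun d a b c => ?_⟩
    obtain rfl := k2 d a b ((Nat.coprime_two_right.2 he).dvd_of_dvd_mul_left (h2 ▸ key r d c))
    have h3 := (CF.Cls.int_dvd_pow_iff q r d).2 (h2 ▸ dvd_rfl)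
    have h4 : (r : ℤ) ∣ (2 : ℕ) := by
      have := (h3.add c).neg_right
      rwa [he.neg_pow, show -((q : ℤ) ^ d - 1 + (-(q : ℤ) ^ d - 1)) = (2 : ℕ) by
        push_cast; ring] at this
    obtain rfl := (Nat.prime_dvd_prime_iff_eq h1 Nat.prime_two).1 (Int.natCast_dvd_natCast.1 h4)
    have := (CF.Cls.int_dvd_pow_iff q 2 1).1 (by
      obtain ⟨k, rfl⟩ := ho
      exact ⟨k, by push_cast; ring⟩)
    rw [h2, Nat.dvd_one] at this
    omega


/-- Let q be an odd prime power, n ≥ 4 even, and U = PSU(n,q) (realised over the field with q² elements). Then U has an element of order q^(n/2) + (−1)^(n/2) — that is, q^(n/2) + 1 when n/2 is even and q^(n/2) − 1 when n/2 is odd — if and only if the 2-part of n exceeds the 2-part of q + 1. -/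
theorem result {F : Type*} [Field F] [Fintype F] {q : ℕ} (hF : Fintype.card F = q ^ 2) (hodd : Odd q)
    {n : ℕ} (hn : 4 ≤ n) (heven : Even n) :
    (∃ g : Cfsg.PSU n F q, orderOf g = if Even (n / 2) then q ^ (n / 2) + 1 else q ^ (n / 2) - 1) ↔
      padicValNat 2 (q + 1) < padicValNat 2 n := by
  obtain ⟨h, rfl⟩ := heven.two_dvd
  obtain ⟨p, _⟩ := CharP.exists F
  have := Fact.mk (CharP.char_is_prime F p)
  have hq := CF.Geom.two_le_of_card_eq_sq hF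
  have hF' := Nat.card_eq_fintype_card.trans hF
  obtain ⟨r, h1, h2, h3⟩ := zs' hq hodd (by omega : 2 ≤ h)
  have := (CF.Cls.rep_PSU (K := AlgebraicClosure F) p hF' (n := 2 * h) (by omega)).half_iff
    (CF.Cls.ta_ac F p) (CF.Cls.pq_neg p hF') (by omega) h1 h2 h3
  rw [show (-(q : ℤ) - 1).natAbs = q + 1 by omega] at this
  rw [Nat.mul_div_cancel_left _ two_pos, ← this]
  congr! 2
  split_ifs with he
  · rw [he.neg_pow, ← Nat.cast_pow, ← Nat.cast_succ, Int.natAbs_natCast]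
  · rw [(Nat.not_even_iff_odd.1 he).neg_pow, ← Nat.cast_pow]
    have : 0 < q ^ h := by positivity
    omega

end Cfsg.Agent.S2496
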