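import Cfsg.Statements.S2504
import Cfsg.Agent.Perm.AbSub

set_option autoImplicit false
open Cfsg

namespace Cfsg.Agent.S2504

/-- The largest order of an abelian subgroup of the alternating group of degree n is 3^k when n = 3k, 4·3^(k−1) when n = 3k + 1, and 16·3^(k−2) when n = 3k + 2, for every k ≥ 2 (so for all degrees n ≥ 6). -/
theorem result (k : ℕ) (hk : 2 ≤ k) :
    IsGreatest {c : ℕ | ∃ A : Subgroup (alternatingGroup (Fin (3 * k))), IsMulCommutative A ∧ Nat.card A = c} (3 ^ k) ∧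
    IsGreatest {c : ℕ | ∃ A : Subgroup (alternatingGroup (Fin (3 * k + 1))), IsMulCommutative A ∧ Nat.card A = c}
      (4 * 3 ^ (k - 1)) ∧
    IsGreatest {c : ℕ | ∃ A : Subgroup (alternatingGroup (Fin (3 * k + 2))), IsMulCommutative A ∧ Nat.card A = c}
      (16 * 3 ^ (k - 2)) := by
  have h : CF.Perm.abA (3 * k) = 3 ^ k ∧ CF.Perm.abA (3 * k + 1) = 4 * 3 ^ (k - 1) ∧
      CF.Perm.abA (3 * k + 2) = 16 * 3 ^ (k - 2) := by
    induction k, hk using Nat.le_induction with
    | base => decide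
    | succ k hk ih =>
      obtain ⟨k, rfl⟩ := Nat.exists_eq_add_of_le' hk
      rw [mul_add_one 3 (k + 2), add_right_comm _ 3 1, add_right_comm _ 3 2,
        CF.Perm.abA_add_three (by omega), CF.Perm.abA_add_three (by omega),
        CF.Perm.abA_add_three (by omega), ih.1, ih.2.1, ih.2.2]
      simp only [show k + 2 - 1 = k + 1 from rfl, show k + 2 + 1 - 2 = k + 1 from rfl,
        Nat.add_sub_cancel]
      refine ⟨?_, ?_, ?_⟩ <;> ring
  exact ⟨h.1 ▸ CF.Perm.isGreatest_abA _, h.2.1 ▸ CF.Perm.isGreatest_abA _,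
    h.2.2 ▸ CF.Perm.isGreatest_abA _⟩

end Cfsg.Agent.S2504
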