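import Cfsg.Statements.S2505
import Cfsg.Agent.Perm.AbSub

set_option autoImplicit false
open Cfsg

namespace Cfsg.Agent.S2505

/-- The largest order of an abelian subgroup of the symmetric group of degree n is 3^k when n = 3k, 4·3^(k−1) when n = 3k + 1, and 2·3^k when n = 3k + 2, for every k ≥ 1. -/
theorem result (k : ℕ) (hk : 1 ≤ k) :
    IsGreatest {c : ℕ | ∃ A : Subgroup (Equiv.Perm (Fin (3 * k))), IsMulCommutative A ∧ Nat.card A = c} (3 ^ k) ∧
    IsGreatest {c : ℕ | ∃ A : Subgroup (Equiv.Perm (Fin (3 * k + 1))), IsMulCommutative A ∧ Nat.card A = c}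
      (4 * 3 ^ (k - 1)) ∧
    IsGreatest {c : ℕ | ∃ A : Subgroup (Equiv.Perm (Fin (3 * k + 2))), IsMulCommutative A ∧ Nat.card A = c}
      (2 * 3 ^ k) := by
  have h : CF.Perm.abS (3 * k) = 3 ^ k ∧ CF.Perm.abS (3 * k + 1) = 4 * 3 ^ (k - 1) ∧
      CF.Perm.abS (3 * k + 2) = 2 * 3 ^ k := by
    induction k, hk using Nat.le_induction with
    | base => decide
    | succ k hk ih =>
      obtain ⟨k, rfl⟩ := Nat.exists_eq_add_of_le' hk
      rw [mul_add_one 3 (k + 1), add_right_comm _ 3 1, add_right_comm _ 3 2,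
        CF.Perm.abS_add_three (by omega), CF.Perm.abS_add_three (by omega),
        CF.Perm.abS_add_three (by omega), ih.1, ih.2.1, ih.2.2]
      simp only [Nat.add_sub_cancel]
      refine ⟨?_, ?_, ?_⟩ <;> ring
  exact ⟨h.1 ▸ CF.Perm.isGreatest_abS _, h.2.1 ▸ CF.Perm.isGreatest_abS _,
    h.2.2 ▸ CF.Perm.isGreatest_abS _⟩

end Cfsg.Agent.S2505
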