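import Cfsg.Statements.S2506
import Cfsg.Agent.Perm.AbSub

set_option autoImplicit false
open scoped Pointwise
open Cfsg

namespace Cfsg.Agent.S2506

open Equiv Equiv.Perm Subgroup MulAction CF.Perm
open scoped Pointwise

variable {Ω : Type*} [Fintype Ω] [DecidableEq Ω]

structure Big (A : Subgroup (Perm Ω)) : Prop where
  comm : IsMulCommutative A
  le : A ≤ alternatingGroup Ω
  card : abA (Nat.card Ω) ≤ Nat.card A
  three : 3 ≤ Nat.card Ω
  five : Nat.card Ω ≠ 5

variable {A B : Subgroup (Perm Ω)}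

theorem Big.prod (h : Big A) : (orbLens A Ω).prod ≤ Nat.card A ∧
    (∀ a ∈ orbLens A Ω, a = 3 ∨ a = 4) ∧ (orbLens A Ω).count 4 ≤ 2 := by
  have := h.comm
  have h1 := h.card
  have h3 := h.three
  have h2 : 2 ∉ orbLens A Ω := fun h2 => by
    have := two_mul_card_le_abS h.le h2
    have := abS_lt (Nat.card Ω)
    omega
  have h4 := sum_orbLens (G := A) (Ω := Ω)
  exact ⟨(prod_le_abA h2).trans (h4 ▸ h1), parts_of_abA_le h2 (h4 ▸ h3) (h4 ▸ h.five)
    (h4 ▸ h1.trans card_le_prod_orbLens)⟩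

theorem Big.sq (h : Big A) {x : Ω} (hx : (orbit A x).ncard = 4) (a : A) : a • a • x = x := by
  classical
  have := h.comm
  obtain ⟨g, hg⟩ := exists_smul_of_prod_le h.prod.1 fun y => if y ∈ orbit A x then a else 1
  have h1 : ∀ y, g • y = if y ∈ orbit A x then a • y else y := fun y => by
    rw [hg, ite_smul, one_smul]
    simp only [← orbit_eq_iff, orbit_eq_iff.2 (mem_orbit_out (G := A) y)]
  by_cases h2 : a • x = x
  · rw [h2, h2]
  have h3 : (g : Perm Ω).cycleType.sum = 4 := by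
    rw [sum_cycleType, ← hx, ← Set.ncard_coe_finset]
    congr 1
    ext y
    rw [Finset.mem_coe, mem_support, show (g : Perm Ω) y = g • y from rfl, h1]
    split_ifs with h3
    · exact iff_of_true (fun e => h2 ((smul_eq_of_comm (b := (1 : A)) (e.trans (one_smul _ _).symm)
        (mem_orbit_symm.1 h3)).trans (one_smul _ _))) h3
    · simpa
  have h4 := mem_alt_iff_even.1 (h.le g.2)
  have h5 : (g : Perm Ω) ^ 2 = 1 := (pow_prime_eq_one_iff (p := 2)).2 fun c hc => by
    have h5 := fun c => two_le_of_mem_cycleType (σ := (g : Perm Ω)) (n := c)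
    obtain ⟨m, hm⟩ := Multiset.exists_cons_of_mem hc
    rw [hm] at h3 h4 h5
    obtain ⟨d, hd⟩ := Multiset.exists_mem_of_ne_zero (s := m) (by
      rintro rfl; simp [Nat.even_iff] at h3 h4; omega)
    have := Multiset.le_sum_of_mem hd
    have := h5 c (by simp)
    have := h5 d (by simp [hd])
    simp at h3
    omega
  have h6 : g • g • x = x := DFunLike.congr_fun h5 x
  rwa [h1 x, if_pos (mem_orbit_self x), h1, if_pos (mem_orbit x a)] at h6

def Good (S : Set Ω) (a : Perm Ω) : Prop := (∀ y ∈ S, a y ∈ S) ∧ (∀ y ∈ S, ∀ z ∈ S, a y = y → a z = z) ∧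
  (S.ncard = 4 → ∀ y ∈ S, a (a y) = y)

theorem Big.good (h : Big A) (x : Ω) (a : A) : Good (orbit A x) a := by
  have := h.comm
  refine ⟨fun y hy => mapsTo_smul_orbit a x hy, fun y hy z hz e => ?_, fun h4 y hy =>
    h.sq (orbit_eq_iff.2 hy ▸ h4) a⟩
  exact (smul_eq_of_comm (b := (1 : A)) (a := a) (e.trans (one_smul _ _).symm)
    (orbit_eq_iff.2 hy ▸ hz)).trans (one_smul _ _)

omit [Fintype Ω] in
theorem Good.uniq {S : Set Ω} (hS : S.ncard = 3 ∨ S.ncard = 4) {a g : Perm Ω} (ha : Good S a)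
    (hg : Good S g) {x : Ω} (hx : x ∈ S) (e : a x = g x) : ∀ y ∈ S, a y = g y := by
  obtain ⟨a1, a2, a3⟩ := ha
  obtain ⟨g1, g2, g3⟩ := hg
  have a4 := a.injective
  have g4 := g.injective
  by_cases h : a x = x
  · exact fun y hy => (a2 x hx y hy h).trans (g2 x hx y hy (e ▸ h)).symm
  replace a2 : ∀ y ∈ S, a y ≠ y := fun y hy e => h (a2 y hy x hx e)
  replace g2 : ∀ y ∈ S, g y ≠ y := fun y hy e' => h (e ▸ g2 y hy x hx e')
  rcases hS with hS | hS
  · obtain ⟨p, q, r, h1, h2, h3, rfl⟩ := Set.ncard_eq_three.1 hS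
    simp only [Set.mem_insert_iff, Set.mem_singleton_iff, forall_eq_or_imp, forall_eq] at *
    grind
  · specialize a3 hS
    specialize g3 hS
    obtain ⟨p, q, r, s, h1, h2, h3, h4, h5, h6, rfl⟩ := Set.ncard_eq_four.1 hS
    simp only [Set.mem_insert_iff, Set.mem_singleton_iff, forall_eq_or_imp, forall_eq] at *
    grind

theorem Big.le_of_orbit (hA : Big A) (hB : Big B) (h : ∀ x : Ω, orbit A x = orbit B x) : B ≤ A := by
  intro b hb
  have := hA.comm
  choose f hf using fun x : Ω => show b x ∈ orbit A x from h x ▸ mem_orbit x (⟨b, hb⟩ : B)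
  obtain ⟨g, hg⟩ := exists_smul_of_prod_le hA.prod.1 f
  convert g.2
  ext x
  exact ((hg x).trans (Good.uniq (hA.prod.2.1 _ (mem_orbLens.2 ⟨_, rfl⟩)) (hA.good _ _)
    (h _ ▸ hB.good _ ⟨b, hb⟩) (mem_orbit_self _) (hf _) x (mem_orbit_out x))).symm

theorem Big.conj (hA : Big A) (hB : Big B) :
    ∃ σ ∈ alternatingGroup Ω, B = A.map (MulAut.conj σ).toMonoidHom := by
  obtain ⟨σ, hσ, h⟩ : ∃ σ ∈ alternatingGroup Ω, ∀ x y, σ x ∈ orbit B (σ y) ↔ x ∈ orbit A y := by
    obtain ⟨σ, h⟩ := exists_perm_of_orbLens_eq (eq_of_parts hA.prod.2.1 hB.prod.2.1 hA.prod.2.2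
      hB.prod.2.2 (sum_orbLens.trans sum_orbLens.symm))
    rcases Int.units_eq_one_or (sign σ) with e | e
    · exact ⟨σ, e, h⟩
    obtain ⟨x⟩ : Nonempty Ω := (Nat.card_pos_iff.1 (by have := hA.three; omega)).1
    obtain ⟨y, hy, e'⟩ := Set.exists_ne_of_one_lt_ncard (s := orbit A x)
      (by have := hA.prod.2.1 _ (mem_orbLens.2 ⟨x, rfl⟩); omega) x
    have h1 : ∀ z, orbit A (swap y x z) = orbit A z := fun z => by
      rw [swap_apply_def]
      split_ifs with h1 h2
      · rw [h1, orbit_eq_iff.2 hy]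
      · rw [h2, orbit_eq_iff.2 hy]
      · rfl
    exact ⟨σ * swap y x, by simp [e, e'], fun a b => by
      rw [Perm.mul_apply, Perm.mul_apply, h, ← orbit_eq_iff, h1, h1, orbit_eq_iff]⟩
  have := hA.comm
  have h1 : Big (A.map (MulAut.conj σ).toMonoidHom) := ⟨inferInstance,
    by rintro _ ⟨a, ha, rfl⟩; exact alternatingGroup.normal.conj_mem _ (hA.le ha) σ,
    by rw [card_map_of_injective (MulAut.conj σ).injective]; exact hA.card, hA.three, hA.five⟩
  have h2 : ∀ x : Ω, orbit (A.map (MulAut.conj σ).toMonoidHom) x = orbit B x := fun x => by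
    ext y
    obtain ⟨x, rfl⟩ := σ.surjective x
    obtain ⟨y, rfl⟩ := σ.surjective y
    rw [h]
    exact ⟨fun ⟨⟨_, a, ha, rfl⟩, e⟩ => ⟨⟨a, ha⟩, by
        simpa using (show (σ * a * σ⁻¹) (σ x) = σ y from e)⟩,
      fun ⟨a, e⟩ => ⟨⟨_, a, a.2, rfl⟩, show (σ * a * σ⁻¹) (σ x) = σ y by
        simpa [Subgroup.smul_def] using e⟩⟩
  exact ⟨σ, hσ, le_antisymm (h1.le_of_orbit hB h2) (hB.le_of_orbit h1 fun x => (h2 x).symm)⟩

/-- In the alternating group of any degree, any two abelian subgroups of the largest possible order (among abelian subgroups) are conjugate. -/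
theorem result (n : ℕ)
    (A B : Subgroup (alternatingGroup (Fin n))) (hA : IsMulCommutative A) (hB : IsMulCommutative B)
    (hAmax : ∀ C : Subgroup (alternatingGroup (Fin n)), IsMulCommutative C → Nat.card C ≤ Nat.card A)
    (hBmax : ∀ C : Subgroup (alternatingGroup (Fin n)), IsMulCommutative C → Nat.card C ≤ Nat.card B) :
    ∃ g : alternatingGroup (Fin n), B = MulAut.conj g • A := by
  obtain ⟨⟨C, h1, h2⟩, h3⟩ := isGreatest_abA n
  have h4 := h2 ▸ hAmax C h1
  have h5 := h2 ▸ hBmax C h1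
  by_cases h : n ≤ 2
  · have : Subsingleton (alternatingGroup (Fin n)) := by
      rw [alternatingGroup.eq_bot_of_card_le_two (by simpa using h)]; infer_instance
    exact ⟨1, Subsingleton.elim _ _⟩
  by_cases h' : n = 5
  · subst h'
    have : Fact (Nat.Prime 5) := ⟨by norm_num⟩
    have e : 5 = 5 ^ (Nat.card (alternatingGroup (Fin 5))).factorization 5 := by
      rw [nat_card_alternatingGroup, Nat.card_fin, show Nat.factorial 5 / 2 = 5 * 12 by rfl,
        Nat.factorization_mul (by simp) (by simp)]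
      simp [this.out.factorization, Nat.factorization_eq_zero_of_not_dvd]
    obtain ⟨g, hg⟩ := exists_smul_eq (alternatingGroup (Fin 5))
      (Sylow.ofCard A ((le_antisymm (h3 ⟨A, hA, rfl⟩) h4).trans e))
      (Sylow.ofCard B ((le_antisymm (h3 ⟨B, hB, rfl⟩) h5).trans e))
    exact ⟨g, (congrArg Sylow.toSubgroup hg).symm⟩
  have hi := (alternatingGroup (Fin n)).subtype_injective
  obtain ⟨σ, hσ, e⟩ := Big.conj (A := A.map (alternatingGroup _).subtype)
    (B := B.map (alternatingGroup _).subtype)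
    ⟨inferInstance, map_subtype_le _, by rwa [card_map_of_injective hi, Nat.card_fin],
      by simp; omega, by simpa⟩
    ⟨inferInstance, map_subtype_le _, by rwa [card_map_of_injective hi, Nat.card_fin],
      by simp; omega, by simpa⟩
  refine ⟨⟨σ, hσ⟩, map_injective hi (e.trans ?_)⟩
  rw [pointwise_smul_def, map_map]
  erw [map_map]
  rfl

end Cfsg.Agent.S2506
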