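import Cfsg.Statements.S2507
import Cfsg.Agent.Classical.PSL2

set_option autoImplicit false
open Cfsg

namespace Cfsg.Agent.S2507

/-- Let F be a finite field with q = 2^f ≥ 4 elements. The conjugacy class sizes of PSL(2,F) are exactly 1, q(q − 1), q² − 1 and q(q + 1). -/
theorem result {F : Type*} [Field F] [Fintype F]
    (h2 : 2 ∣ Fintype.card F) (h4 : 4 ≤ Fintype.card F) :
    Set.range (fun g : (Matrix.ProjectiveSpecialLinearGroup (Fin 2) F) => (Subgroup.centralizer ({g} : Set (Matrix.ProjectiveSpecialLinearGroup (Fin 2) F))).index) =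
      {1, Fintype.card F * (Fintype.card F - 1), Fintype.card F ^ 2 - 1, Fintype.card F * (Fintype.card F + 1)} := by
  open CF.Classical MatrixGroups in
  rw [← Nat.card_eq_fintype_card] at *
  have L := isL2_PSL F (AlgebraicClosure F)
  have h1 := (index_range_pslToPGL F).trans (gcd_two_of_even (even_iff_two_dvd.2 h2) (by omega))
  have h3 := fun g => L.index_centralizer_mul g
  have h5 := fun n m => L.exists_card_centralizer (n := n) (m := m)
  have h6 : Nat.card F ^ 2 - 1 = (Nat.card F + 1) * (Nat.card F - 1) := Nat.sq_sub_sq _ 1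
  simp only [h1, mul_one] at h3 h5
  have h7 : ∀ (g : PSL(2, F)) (n i : ℕ), n ≠ 0 → Nat.card (Subgroup.centralizer {g}) = n →
      i * n = Nat.card F * (Nat.card F ^ 2 - 1) → (Subgroup.centralizer {g}).index = i :=
    fun g n i hn e e' => mul_right_cancel₀ hn (by rw [e', ← h3 g, e])
  ext i
  simp only [Set.mem_range, Set.mem_insert_iff, Set.mem_singleton_iff]
  refine ⟨?_, ?_⟩
  · rintro ⟨g, rfl⟩
    by_cases hg : g = 1
    · exact Or.inl (by rw [hg, Subgroup.index_eq_one, Subgroup.centralizer_eq_top_iff_subset]; simp)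
    rcases L.card_centralizer_cases hg with e | ⟨n, h8, h9, e⟩
    · exact Or.inr (Or.inr (Or.inl (h7 g _ _ (by omega) e (mul_comm _ _))))
    rw [h1, mul_one] at h8
    rw [if_neg fun e' => by rw [orderOf_eq_prime ((sq g).trans e') hg] at h9; omega] at e
    rcases h8 with rfl | rfl
    · exact Or.inr (Or.inr (Or.inr (h7 g _ _ (by omega) e (by rw [h6]; ring))))
    · exact Or.inr (Or.inl (h7 g _ _ (by omega) e (by rw [h6]; ring)))
  · rintro (rfl | rfl | rfl | rfl)
    · exact ⟨1, by rw [Subgroup.index_eq_one, Subgroup.centralizer_eq_top_iff_subset]; simp⟩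
    · obtain ⟨g, -, e⟩ := h5 _ _ (Or.inr rfl) dvd_rfl (by omega)
      exact ⟨g, h7 g _ _ (by omega) (e.trans (if_neg (by omega))) (by rw [h6]; ring)⟩
    · obtain ⟨g, hg⟩ := L.exists_isUnip OnePoint.infty
      exact ⟨g, h7 g _ _ (by omega) (L.card_centralizer_of_isUnip hg) (mul_comm _ _)⟩
    · obtain ⟨g, -, e⟩ := h5 _ _ (Or.inl rfl) dvd_rfl (by omega)
      exact ⟨g, h7 g _ _ (by omega) (e.trans (if_neg (by omega))) (by rw [h6]; ring)⟩

end Cfsg.Agent.S2507
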