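import Cfsg.Statements.S2508
import Cfsg.Agent.Classical.PSL2

set_option autoImplicit false
open Cfsg

namespace Cfsg.Agent.S2508

open CF.Classical MatrixGroups in
theorem aux {F : Type*} [Field F] [Finite F] {m : ℕ} (hm : Nat.card F = 2 * m + 1) (h3 : 3 ≤ m) (i : ℕ) :
    i ∈ Set.range (fun g : PSL(2, F) => (Subgroup.centralizer ({g} : Set PSL(2, F))).index) ↔
      i = 1 ∨ i = 2 * m * (m + 1) ∨ i = (2 * m + 1) * (2 * m) ∨ i = (2 * m + 1) * (2 * m + 2) ∨
        (2 ∣ m ∧ i = (2 * m + 1) * (m + 1)) ∨ (2 ∣ m + 1 ∧ i = (2 * m + 1) * m) := by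
  have L := isL2_PSL F (AlgebraicClosure F)
  have h1 := (index_range_pslToPGL F).trans (gcd_two_of_odd ⟨m, hm⟩)
  have h3 := fun g => L.index_centralizer_mul g
  have h5 := fun n m => L.exists_card_centralizer (n := n) (m := m)
  have h6 : Nat.card F ^ 2 - 1 = (Nat.card F + 1) * (Nat.card F - 1) := Nat.sq_sub_sq _ 1
  simp only [h1, h6] at h3 h5
  simp only [hm, Nat.add_sub_cancel] at h3 h5
  have h7 : ∀ (g : PSL(2, F)) (n i : ℕ), n ≠ 0 → Nat.card (Subgroup.centralizer {g}) = n →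
      i * (n * 2) = (2 * m + 1) * ((2 * m + 1 + 1) * (2 * m)) → (Subgroup.centralizer {g}).index = i :=
    fun g n i hn e e' => mul_right_cancel₀ (mul_ne_zero hn two_ne_zero) (by rw [e', ← h3 g, e])
  refine ⟨?_, ?_⟩
  · rintro ⟨g, rfl⟩
    by_cases hg : g = 1
    · exact Or.inl (by simp only [hg, Subgroup.index_eq_one, Subgroup.centralizer_eq_top_iff_subset]; simp)
    rcases L.card_centralizer_cases hg with e | ⟨n, h8, h9, e⟩
    · exact Or.inr (Or.inl (h7 g _ _ (by omega) (e.trans hm) (by ring)))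
    rw [h1, hm] at h8
    obtain rfl | rfl : n = m ∨ n = m + 1 := by omega
    all_goals split_ifs at e with h10
    · rw [orderOf_eq_prime ((sq g).trans h10) hg] at h9
      exact Or.inr (Or.inr (Or.inr (Or.inr (Or.inl ⟨h9, h7 g _ _ (by omega) e (by ring)⟩))))
    · exact Or.inr (Or.inr (Or.inr (Or.inl (h7 g _ _ (by omega) e (by ring)))))
    · rw [orderOf_eq_prime ((sq g).trans h10) hg] at h9
      exact Or.inr (Or.inr (Or.inr (Or.inr (Or.inr ⟨h9, h7 g _ _ (by omega) e (by ring)⟩))))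
    · exact Or.inr (Or.inr (Or.inl (h7 g _ _ (by omega) e (by ring))))
  · rintro (rfl | rfl | rfl | rfl | ⟨h, rfl⟩ | ⟨h, rfl⟩)
    · exact ⟨1, by simp only [Subgroup.index_eq_one, Subgroup.centralizer_eq_top_iff_subset]; simp⟩
    · obtain ⟨g, hg⟩ := L.exists_isUnip OnePoint.infty
      exact ⟨g, h7 g _ _ (by omega) ((L.card_centralizer_of_isUnip hg).trans hm) (by ring)⟩
    · obtain ⟨g, -, e⟩ := h5 (m + 1) _ (Or.inr (by ring)) dvd_rfl (by omega)
      exact ⟨g, h7 g _ _ (by omega) (e.trans (if_neg (by omega))) (by ring)⟩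
    · obtain ⟨g, -, e⟩ := h5 m _ (Or.inl (by ring)) dvd_rfl (by omega)
      exact ⟨g, h7 g _ _ (by omega) (e.trans (if_neg (by omega))) (by ring)⟩
    · obtain ⟨g, -, e⟩ := h5 m _ (Or.inl (by ring)) h (by omega)
      exact ⟨g, h7 g _ _ (by omega) (e.trans (if_pos rfl)) (by ring)⟩
    · obtain ⟨g, -, e⟩ := h5 (m + 1) _ (Or.inr (by ring)) h (by omega)
      exact ⟨g, h7 g _ _ (by omega) (e.trans (if_pos rfl)) (by ring)⟩


/-- Let F be a finite field with q elements, q odd and q ≥ 7. If q ≡ 1 (mod 4) the conjugacy class sizes of PSL(2,F) are exactly 1, (q² − 1)/2, q(q + 1)/2, q(q − 1) and q(q + 1); if q ≡ 3 (mod 4) they are exactly 1, (q² − 1)/2, q(q − 1)/2, q(q + 1) and q(q − 1). -/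
theorem result {F : Type*} [Field F] [Fintype F]
    (hodd : ¬ 2 ∣ Fintype.card F) (h7 : 7 ≤ Fintype.card F) :
    (Fintype.card F % 4 = 1 →
      Set.range (fun g : (Matrix.ProjectiveSpecialLinearGroup (Fin 2) F) => (Subgroup.centralizer ({g} : Set (Matrix.ProjectiveSpecialLinearGroup (Fin 2) F))).index) =
        {1, (Fintype.card F ^ 2 - 1) / 2, Fintype.card F * (Fintype.card F + 1) / 2,
          Fintype.card F * (Fintype.card F - 1), Fintype.card F * (Fintype.card F + 1)}) ∧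
    (Fintype.card F % 4 = 3 →
      Set.range (fun g : (Matrix.ProjectiveSpecialLinearGroup (Fin 2) F) => (Subgroup.centralizer ({g} : Set (Matrix.ProjectiveSpecialLinearGroup (Fin 2) F))).index) =
        {1, (Fintype.card F ^ 2 - 1) / 2, Fintype.card F * (Fintype.card F - 1) / 2,
          Fintype.card F * (Fintype.card F + 1), Fintype.card F * (Fintype.card F - 1)}) := by
  rw [← Nat.card_eq_fintype_card] at *
  obtain ⟨m, hm⟩ : ∃ m, Nat.card F = 2 * m + 1 := ⟨Nat.card F / 2, by omega⟩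
  have h1 : ((2 * m + 1) ^ 2 - 1) / 2 = 2 * m * (m + 1) := by
    rw [show (2 * m + 1) ^ 2 = 2 * (2 * m * (m + 1)) + 1 by ring]; omega
  have h2 : (2 * m + 1) * (2 * m + 1 + 1) / 2 = (2 * m + 1) * (m + 1) := by
    rw [show (2 * m + 1) * (2 * m + 1 + 1) = 2 * ((2 * m + 1) * (m + 1)) by ring]; omega
  have h3 : (2 * m + 1) * (2 * m) / 2 = (2 * m + 1) * m := by
    rw [show (2 * m + 1) * (2 * m) = 2 * ((2 * m + 1) * m) by ring]; omega
  refine ⟨fun h => Set.ext fun i => ?_, fun h => Set.ext fun i => ?_⟩ <;>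
    rw [aux hm (by omega), hm, Nat.add_sub_cancel] <;>
    simp only [h1, h2, h3, Set.mem_insert_iff, Set.mem_singleton_iff]
  · have h4 : 2 ∣ m := by omega
    have h5 : ¬ 2 ∣ m + 1 := by omega
    tauto
  · have h4 : ¬ 2 ∣ m := by omega
    have h5 : 2 ∣ m + 1 := by omega
    tauto

end Cfsg.Agent.S2508
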