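import Cfsg.Statements.S2512
import Cfsg.Agent.Cls.Spec5

set_option autoImplicit false
open Cfsg

namespace Cfsg.Agent.S2512

/-- Let F be a finite field of odd order q = p^a, n ≥ 2 (with q ≥ 3 automatic), and L = PSp(2n, F). Then for every m the direct product L × L × L × (ℤ/2)^m has the same set of element orders as L × L × L; and if 2n − 1 is not a power of p, then already L × L × (ℤ/2)^m has the same set of element orders as L × L. -/
theorem result {F : Type*} [Field F] [Fintype F] (p a n m : ℕ) (hp : p.Prime) (ha : 1 ≤ a) (hF : Fintype.card F = p ^ a) (hodd : Odd (Fintype.card F))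
    (hn : 2 ≤ n) :
    Set.range (orderOf : Cfsg.PSp n F × Cfsg.PSp n F × Cfsg.PSp n F × Multiplicative (Fin m → ZMod 2) → ℕ) = Set.range (orderOf : Cfsg.PSp n F × Cfsg.PSp n F × Cfsg.PSp n F → ℕ) ∧
    ((¬ ∃ j : ℕ, 2 * n - 1 = p ^ j) →
      Set.range (orderOf : Cfsg.PSp n F × Cfsg.PSp n F × Multiplicative (Fin m → ZMod 2) → ℕ) = Set.range (orderOf : Cfsg.PSp n F × Cfsg.PSp n F → ℕ)) := by
  have := Fact.mk hp
  have := charP_of_card_eq_prime_pow hF
  have := Fact.mk Nat.prime_two
  refine (CF.Cls.rep_PSp (F := F) (K := AlgebraicClosure F) p (m := n) (by omega)).range_pow_SpA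
    (CF.Cls.ta_ac F p) (CF.Cls.pq_card p) ?_ hn CF.Cls.orderOf_zmod_dvd
  rintro rfl
  rw [hF, Nat.odd_pow_iff (by omega)] at hodd
  exact absurd hodd (by decide)

end Cfsg.Agent.S2512
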