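import Cfsg.Statements.S2514
import Mathlib


set_option autoImplicit false
open Cfsg

namespace Cfsg.Agent.S2514

theorem mem_range_of_dvd {X : Type*} [Group X] [Finite X] {n : ℕ} {x : X} (h : n ∣ orderOf x) :
    n ∈ Set.range (orderOf : X → ℕ) :=
  ⟨x ^ (orderOf x / n), orderOf_pow_orderOf_div (orderOf_pos x).ne' h⟩

theorem exists_max {X : Type*} [Group X] [Finite X] (x : X) : ∃ y : X, orderOf x ∣ orderOf y ∧
    ∀ m ∈ Set.range (orderOf : X → ℕ), orderOf y ∣ m → m = orderOf y := by
  obtain ⟨y, hy, hmax⟩ := Set.exists_max_image {y : X | orderOf x ∣ orderOf y} orderOf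
    (Set.toFinite _) ⟨x, dvd_refl _⟩
  refine ⟨y, hy, ?_⟩
  rintro _ ⟨z, rfl⟩ hz
  exact le_antisymm (hmax z (dvd_trans hy hz)) (Nat.le_of_dvd (orderOf_pos z) hz)

/-- For a finite group X write μ(X) for the set of element orders of X that are maximal under divisibility. Let G and H be finite groups and k ≥ 1 such that μ(H) ⊆ μ(G) and μ(G) has fewer than k elements outside μ(H). Then the direct product of k copies of G has the same set of element orders as the direct product of k − 1 copies of G with H. -/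
theorem result {G H : Type*} [Group G] [Finite G] [Group H] [Finite H] (k : ℕ) (hk : 1 ≤ k)
    (hsub : {n : ℕ | n ∈ Set.range (orderOf : H → ℕ) ∧ ∀ m ∈ Set.range (orderOf : H → ℕ), n ∣ m → m = n} ⊆ {n : ℕ | n ∈ Set.range (orderOf : G → ℕ) ∧ ∀ m ∈ Set.range (orderOf : G → ℕ), n ∣ m → m = n})
    (hfew : ({n : ℕ | n ∈ Set.range (orderOf : G → ℕ) ∧ ∀ m ∈ Set.range (orderOf : G → ℕ), n ∣ m → m = n} \ {n : ℕ | n ∈ Set.range (orderOf : H → ℕ) ∧ ∀ m ∈ Set.range (orderOf : H → ℕ), n ∣ m → m = n}).ncard < k) :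
    Set.range (orderOf : (Fin k → G) → ℕ) = Set.range (orderOf : (Fin (k - 1) → G) × H → ℕ) := by
  obtain ⟨k, rfl⟩ : ∃ j, k = j + 1 := ⟨k - 1, by omega⟩
  show Set.range (orderOf : (Fin (k + 1) → G) → ℕ) = Set.range (orderOf : (Fin k → G) × H → ℕ)
  apply le_antisymm
  · rintro _ ⟨g, rfl⟩
    choose x hx hmax using fun i => exists_max (g i)
    have key : ∀ (i : Fin (k + 1)) (h : H), (∀ N, (∀ j, j ≠ i → orderOf (x j) ∣ N) →
        orderOf h ∣ N → orderOf (x i) ∣ N) →
        orderOf g ∈ Set.range (orderOf : (Fin k → G) × H → ℕ) := by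
      intro i h hi
      refine mem_range_of_dvd (x := (fun j => x (i.succAbove j), h)) ?_
      set N := orderOf ((fun j => x (i.succAbove j), h) : (Fin k → G) × H) with hN
      have h1 := pow_orderOf_eq_one ((fun j => x (i.succAbove j), h) : (Fin k → G) × H)
      rw [← hN] at h1
      have h2 : ∀ j, j ≠ i → orderOf (x j) ∣ N := by
        intro j hj
        obtain ⟨l, rfl⟩ := Fin.exists_succAbove_eq hj
        exact orderOf_dvd_of_pow_eq_one (congrFun (congrArg Prod.fst h1) l)
      have h3 : orderOf h ∣ N := orderOf_dvd_of_pow_eq_one (congrArg Prod.snd h1)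
      apply orderOf_dvd_of_pow_eq_one
      ext j
      apply orderOf_dvd_iff_pow_eq_one.1
      refine (hx j).trans ?_
      by_cases hj : j = i
      · subst hj; exact hi N h2 h3
      · exact h2 j hj
    by_cases hc : ∃ i, orderOf (x i) ∈ Set.range (orderOf : H → ℕ)
    · obtain ⟨i, h, hh⟩ := hc
      exact key i h (fun N _ h2 => hh ▸ h2)
    · push Not at hc
      have : ∃ i j, i ≠ j ∧ orderOf (x i) = orderOf (x j) := by
        by_contra! hne
        have hinj : Function.Injective (fun i => orderOf (x i)) := by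
          intro i j h; by_contra h'; exact hne i j h' h
        have h1 := Set.ncard_range_of_injective hinj
        refine absurd hfew (not_lt.2 ?_)
        rw [show k + 1 = Nat.card (Fin (k + 1)) by simp, ← h1]
        refine Set.ncard_le_ncard ?_ ((Set.finite_range _).subset (fun n hn => hn.1.1))
        rintro _ ⟨i, rfl⟩
        exact ⟨⟨⟨_, rfl⟩, hmax i⟩, fun h => hc i h.1⟩
      obtain ⟨i, j, hij, h⟩ := this
      exact key i 1 (fun N h1 _ => h ▸ h1 j hij.symm)
  · rintro _ ⟨⟨g, h⟩, rfl⟩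
    obtain ⟨y, hy, hmax⟩ := exists_max h
    obtain ⟨⟨z, hz⟩, -⟩ := hsub ⟨⟨y, rfl⟩, hmax⟩
    refine mem_range_of_dvd (x := Fin.cons z g) ?_
    have h1 := pow_orderOf_eq_one (Fin.cons z g : Fin (k + 1) → G)
    apply orderOf_dvd_of_pow_eq_one
    ext j
    · exact congrFun h1 j.succ
    · apply orderOf_dvd_iff_pow_eq_one.1
      refine hy.trans ?_
      rw [← hz]
      exact orderOf_dvd_of_pow_eq_one (congrFun h1 0)

end Cfsg.Agent.S2514
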