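import Cfsg.Statements.S2515
import Cfsg.Agent.BN.ReeSpec
import Cfsg.Agent.BN.ReeLink

set_option autoImplicit false
open Cfsg

namespace Cfsg.Agent.S2515

open CF.BN.Ree Subgroup

variable {K : Type*} [Field K] {T : RT K} {G : Type*} [Group G] (D : ReeData T G) [Finite K]

theorem orderOf_aff' {n : ℕ} (z : D.Aff n) : orderOf z ∣ 6 ∨ orderOf z ∣ 9 ∨
    orderOf z ∣ Nat.card K - 1 ∨ orderOf z ∣ (Nat.card K + 1) / 2 := by
  obtain ⟨p, hp⟩ := D.ι.rangeRestrict_surjective z.right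
  have key : ∀ k, D.ι p ^ k = 1 → orderOf z ∣ k * 3 := fun k hk => by
    obtain ⟨m, hm, -⟩ := sd_pow z (k := k) (Subtype.ext (by rw [← hp]; exact hk))
    rw [orderOf_dvd_iff_pow_eq_one, pow_mul, hm, ← map_pow, ReeData.cube_eq_one T, map_one]
  obtain ⟨m, hm, hm'⟩ := sd_pow z (pow_orderOf_eq_one _)
  obtain ⟨ε, g⟩ := p
  by_cases h1 : m = 1
  · have h2 : orderOf z ∣ orderOf (D.ι (ε, g)) := by
      rw [orderOf_dvd_iff_pow_eq_one, ← MonoidHom.coe_rangeRestrict, hp, Subgroup.orderOf_coe, hm,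
        h1, map_one]
    have h3 : ∀ k, 2 ∣ k → orderOf (D.φ g) ∣ k → orderOf z ∣ k := fun k a b => h2.trans (by
      rcases Int.units_eq_one_or ε with rfl | rfl
      · rwa [D.ι_one]
      · rw [D.ι_neg_one]
        exact (D.commute_j (D.φ_mem_L g)).orderOf_mul_dvd_lcm.trans
          (Nat.lcm_dvd (D.orderOf_j ▸ a) b))
    have h4 := T.card_mod_four
    rcases D.orderOf_cases_L (D.φ_mem_L g) with h | h | h
    · exact Or.inl (h3 6 (by decide) ((orderOf_dvd_of_pow_eq_one h).trans (by decide)))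
    · exact Or.inr (Or.inr (Or.inl (h3 _ (by omega) ((dvd_mul_right _ _).trans h))))
    · exact Or.inr (Or.inr (Or.inr (h3 _ (by omega) ((Nat.dvd_div_iff_mul_dvd (by omega)).2
        (mul_comm _ 2 ▸ h)))))
  obtain ⟨i, hi⟩ : ∃ i, m.toAdd i ≠ 0 := by
    by_contra! h
    exact h1 (funext h)
  rw [← hp, D.actC_ι] at hm'
  rcases T.of_act_eq hi (congrFun hm' i) with h | ⟨rfl, h⟩
  · refine Or.inl (key 2 ?_)
    rw [← map_pow, sq, Prod.mk_mul_mk, Int.units_mul_self, D.ι_one, D.φ_eq_one]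
    exact Or.inr h
  · refine Or.inr (Or.inl (key 3 ?_))
    rwa [D.ι_one, ← map_pow, D.φ_eq_one]

theorem exists_aff {n d : ℕ}
    (h : d ∈ ({6, 9, Nat.card K - 1, (Nat.card K + 1) / 2} : Set ℕ)) :
    ∃ z : D.Aff (n + 1), orderOf z = d := by
  rcases h with rfl | rfl | rfl | rfl
  · have h6 : orderOf (D.j * D.u 0 1 0) = 6 := by
      rw [(D.commute_j_m 1).orderOf_mul_eq_mul_orderOf_of_coprime, D.orderOf_j,
        orderOf_eq_prime (D.u_cube_eq_one.2 rfl) (by simp [D.u_eq_one])]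
      rw [D.orderOf_j, orderOf_eq_prime (D.u_cube_eq_one.2 rfl) (by simp [D.u_eq_one])]
      decide
    exact D.exists_aff_of_commute _ ((Commute.refl _).mul_right (D.commute_j_m 1)) h6.symm.dvd
  · exact D.exists_aff_nine n
  · obtain ⟨t, ht⟩ := IsCyclic.exists_ofOrder_eq_natCard (α := Kˣ)
    refine D.exists_aff_of_commute _ (D.commute_j_h t) ?_
    rw [orderOf_injective _ D.h_injective, ht, Nat.card_units]
  · obtain ⟨c, hc⟩ := D.exists_ns_w
    refine D.exists_aff_of_commute _ (D.commute_j hc.mem) ?_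
    rw [show orderOf c = (Nat.card K + 1) / 2 by have := hc.ord; omega]

/-- Let q = 3^α with α ≥ 3 odd. There is a finite group H having a non-trivial normal 3-subgroup and whose element orders maximal under divisibility are exactly 6, 9, q − 1 and (q + 1)/2. -/
theorem result (α : ℕ) (hα : 3 ≤ α) (hodd : Odd α) :
    ∃ (H : Type) (_ : Group H) (_ : Fintype H), (∃ P : Subgroup H, P.Normal ∧ P ≠ ⊥ ∧ IsPGroup 3 ↥P) ∧
      {n : ℕ | n ∈ Set.range (orderOf : H → ℕ) ∧ ∀ m ∈ Set.range (orderOf : H → ℕ), n ∣ m → m = n} = ({6, 9, 3 ^ α - 1, (3 ^ α + 1) / 2} : Set ℕ) := by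
  obtain ⟨m, rfl⟩ := hodd
  have : Fact (Nat.Prime 3) := ⟨Nat.prime_three⟩
  have := Fintype.ofFinite (GaloisField 3 (2 * m + 1))
  have e : Nat.card (GaloisField 3 (2 * m + 1)) = 3 ^ (2 * m + 1) := GaloisField.card _ _ (by omega)
  obtain ⟨T, ⟨D⟩⟩ := nonempty_ree (Nat.card_eq_fintype_card.symm.trans e)
  have hq := T.le_card (three_lt_card (Nat.card_eq_fintype_card.symm.trans e) (by omega))
  have : Finite (D.Aff 1) := Nat.finite_of_card_ne_zero (D.lt_card_aff _).ne_bot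
  refine ⟨D.Aff 1, inferInstance, Fintype.ofFinite _,
    ⟨SemidirectProduct.rightHom.ker, inferInstance, ?_, ?_⟩, ?_⟩
  · rw [← SemidirectProduct.range_inl_eq_ker_rightHom]
    intro h
    obtain ⟨x, hx⟩ := exists_ne (1 : Multiplicative (Fin 1 → Matrix (Fin 2) (Fin 2)
      (GaloisField 3 (2 * m + 1))))
    exact hx (SemidirectProduct.inl_injective ((Subgroup.mem_bot.1 (h.le ⟨x, rfl⟩)).trans
      (map_one _).symm))
  · rw [← SemidirectProduct.range_inl_eq_ker_rightHom]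
    rintro ⟨_, x, rfl⟩
    exact ⟨1, Subtype.ext (by rw [pow_one, Subgroup.coe_pow, ← map_pow, ReeData.cube_eq_one T, map_one]; rfl)⟩
  · rw [← e]
    have h3 := T.three_dvd
    have h4 := T.card_mod_four
    generalize hq' : Nat.card (GaloisField 3 (2 * m + 1)) = q at h3 h4 hq
    have key : ∀ a ∈ ({6, 9, q - 1, (q + 1) / 2} : Set ℕ), ∀ b ∈ ({6, 9, q - 1, (q + 1) / 2} : Set ℕ),
        a ∣ b → b = a := by
      rintro a (rfl | rfl | rfl | rfl) b (rfl | rfl | rfl | rfl) h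
      all_goals first | rfl | omega | skip
      all_goals have := Nat.le_of_dvd (by omega) h
      all_goals try omega
      obtain ⟨k, hk⟩ := h
      rcases k with _ | _ | k
      · omega
      · omega
      · rw [mul_add, mul_add] at hk; omega
    have key2 : ∀ z : D.Aff 1, ∃ b ∈ ({6, 9, q - 1, (q + 1) / 2} : Set ℕ), orderOf z ∣ b := fun z => by
      rcases hq' ▸ orderOf_aff' D z with h | h | h | h
      all_goals exact ⟨_, by simp, h⟩
    ext n
    constructor
    · rintro ⟨⟨z, rfl⟩, h⟩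
      obtain ⟨b, hb, h'⟩ := key2 z
      rwa [← h b (exists_aff D (hq' ▸ hb)) h']
    · intro h
      refine ⟨exists_aff D (hq' ▸ h), ?_⟩
      rintro _ ⟨z, rfl⟩ h'
      obtain ⟨b, hb, h''⟩ := key2 z
      exact Nat.dvd_antisymm (key _ h _ hb (h'.trans h'') ▸ h'') h'

end Cfsg.Agent.S2515
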