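import Mathlib
import Cfsg.Statements.S2516

set_option autoImplicit false
open Cfsg

namespace Cfsg.Agent.S2516

/-- Let F be a field of characteristic p > 0, V a non-zero finite-dimensional F-vector space, G a finite group and ρ a representation of G on V; form the semidirect product V ⋊ G. For g ∈ G of order k, the coset Vg contains an element of order pk if and only if the minimal polynomial of ρ(g) does not divide 1 + X + ⋯ + X^(k−1). -/
theorem result {F : Type*} [Field F] (p : ℕ) [Fact p.Prime] [CharP F p] {V : Type*} [AddCommGroup V] [Module F V] [FiniteDimensional F V] [Nontrivial V]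
    {G : Type*} [Group G] [Finite G] (ρ : Representation F G V) (g : G) :
    (∃ x : Multiplicative V ⋊[(MulAutMultiplicative V).symm.toMonoidHom.comp
        ((DistribMulAction.toAddAut ((V →ₗ[F] V)ˣ) V).comp ρ.asGroupHom)] G,
        x.right = g ∧ orderOf x = p * orderOf g) ↔
      ¬ (minpoly F (ρ g) ∣ ∑ i ∈ Finset.range (orderOf g), (Polynomial.X : Polynomial F) ^ i) := by
  have hpp : p.Prime := Fact.out
  set φ := (MulAutMultiplicative V).symm.toMonoidHom.comp
        ((DistribMulAction.toAddAut ((V →ₗ[F] V)ˣ) V).comp ρ.asGroupHom) with hφ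
  have hφa : ∀ (h : G) (v : Multiplicative V), (φ h v).toAdd = ρ h v.toAdd := fun h v => rfl
  have hpow : ∀ (x : Multiplicative V ⋊[φ] G) (n : ℕ),
      (x ^ n).left.toAdd = ∑ i ∈ Finset.range n, (ρ x.right ^ i) x.left.toAdd := by
    intro x n
    induction n with
    | zero => simp
    | succ n ih =>
      rw [pow_succ, SemidirectProduct.mul_left, toAdd_mul, ih, Finset.sum_range_succ, hφa,
        ← SemidirectProduct.rightHom_eq_right, map_pow, map_pow]
  have hk : 0 < orderOf g := orderOf_pos g
  have hmin : (minpoly F (ρ g) ∣ ∑ i ∈ Finset.range (orderOf g), (Polynomial.X : Polynomial F) ^ i) ↔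
      ∀ v, ∑ i ∈ Finset.range (orderOf g), (ρ g ^ i) v = 0 := by
    rw [minpoly.dvd_iff, map_sum]
    simp only [map_pow, Polynomial.aeval_X]
    rw [LinearMap.ext_iff]
    simp only [LinearMap.sum_apply, LinearMap.zero_apply]
  have hr : ∀ x : Multiplicative V ⋊[φ] G, x.right = g → (x ^ orderOf g).right = 1 := by
    intro x hx
    rw [← SemidirectProduct.rightHom_eq_right, map_pow, SemidirectProduct.rightHom_eq_right, hx,
      pow_orderOf_eq_one]
  rw [hmin]
  constructor
  · rintro ⟨x, hx, ho⟩ h
    have : x ^ orderOf g = 1 := by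
      refine SemidirectProduct.ext ?_ (hr x hx)
      apply Multiplicative.toAdd.injective
      rw [hpow, hx, h]; rfl
    have := Nat.le_of_dvd hk (orderOf_dvd_of_pow_eq_one this)
    rw [ho] at this
    nlinarith [hpp.one_lt]
  · intro h
    push Not at h
    obtain ⟨v, hv⟩ := h
    let x : Multiplicative V ⋊[φ] G := ⟨Multiplicative.ofAdd v, g⟩
    refine ⟨x, rfl, ?_⟩
    have e : x ^ orderOf g = SemidirectProduct.inl (Multiplicative.ofAdd
        (∑ i ∈ Finset.range (orderOf g), (ρ g ^ i) v)) := by
      refine SemidirectProduct.ext ?_ (hr x rfl)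
      apply Multiplicative.toAdd.injective
      rw [hpow]; rfl
    have h1 : orderOf (x ^ orderOf g) = p := by
      rw [e, orderOf_injective _ SemidirectProduct.inl_injective, orderOf_ofAdd_eq_addOrderOf]
      refine addOrderOf_eq_prime ?_ hv
      rw [← Nat.cast_smul_eq_nsmul F, CharP.cast_eq_zero, zero_smul]
    have h2 : orderOf g ∣ orderOf x := orderOf_map_dvd SemidirectProduct.rightHom x
    rw [orderOf_pow_of_dvd hk.ne' h2] at h1
    rw [← h1, Nat.div_mul_cancel h2]

end Cfsg.Agent.S2516
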