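import Cfsg.Statements.S2517
import Cfsg.Agent.Cls.Om9

set_option autoImplicit false
open Cfsg

namespace Cfsg.Agent.S2517

open CF.Cls CF.Geom


/-- Let F be a finite field of odd order q, let Ω₉ be the simple orthogonal group PΩ(9, F), and let Ω₈⁻ be the commutator subgroup of the isometry group of a minus-type non-singular quadratic form on V = F⁸ (the simple group PΩ⁻(8, F), acting on its natural module V). Then Ω₉ and the semidirect product V ⋊ Ω₈⁻ have exactly the same set of element orders. -/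
theorem result {F : Type*} [Field F] [Fintype F] (hF : Odd (Fintype.card F)) (a b : F)
    (hab : ∀ z₁ z₂ : F, z₁ ^ 2 + a * z₁ * z₂ + b * z₂ ^ 2 = 0 → z₁ = 0 ∧ z₂ = 0) :
    Set.range (orderOf : Cfsg.POmega F (Cfsg.quadFormOdd 4 F) → ℕ) =
      Set.range (orderOf :
        (Multiplicative (((Fin 3 ⊕ Fin 3) ⊕ Fin 2) → F)) ⋊[
          (MulAutMultiplicative (((Fin 3 ⊕ Fin 3) ⊕ Fin 2) → F)).symm.toMonoidHom.comp
           ((DistribMulAction.toAddAut (LinearMap.GeneralLinearGroup F (((Fin 3 ⊕ Fin 3) ⊕ Fin 2) → F))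
              (((Fin 3 ⊕ Fin 3) ⊕ Fin 2) → F)).comp
            (Matrix.GeneralLinearGroup.toLin.toMonoidHom.comp
              ((Cfsg.isometryGroup F (Cfsg.quadFormMinus 3 F a b)).subtype.comp
                (Cfsg.Omega F (Cfsg.quadFormMinus 3 F a b)).subtype)))]
          ↥(Cfsg.Omega F (Cfsg.quadFormMinus 3 F a b)) → ℕ) := by
  obtain ⟨p, hp⟩ := CharP.exists F
  have := Fact.mk (CharP.char_is_prime F p)
  have hQ := qOdd_nondegenerate (two_ne_zero_of_odd_card hF) 4
  have h := repW_affine (K := AlgebraicClosure F) p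
    (ρ := (subE _).comp (omegaToOG (qMinus 3 F a b)))
    ((subE_injective _).comp (omegaToOG_injective (qMinus 3 F a b)))
    (φ := (MulAutMultiplicative (((Fin 3 ⊕ Fin 3) ⊕ Fin 2) → F)).symm.toMonoidHom.comp
           ((DistribMulAction.toAddAut (LinearMap.GeneralLinearGroup F (((Fin 3 ⊕ Fin 3) ⊕ Fin 2) → F))
              (((Fin 3 ⊕ Fin 3) ⊕ Fin 2) → F)).comp
            (Matrix.GeneralLinearGroup.toLin.toMonoidHom.comp
              ((Cfsg.isometryGroup F (Cfsg.quadFormMinus 3 F a b)).subtype.comp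
                (Cfsg.Omega F (Cfsg.quadFormMinus 3 F a b)).subtype)))) fun g v => rfl
  rw [omA_eq] at h
  exact @range_orderOf_nine _ _ _ _ _ _ _ _ p _ _ _ _ _ _ _ _ _ _ _ _ hQ
    (qMinus_nondegenerate 3 hab) (by simp) (by simp) (not_isPlus_qMinus 3 hab) _ _ _ _ _
    (Finite.of_equiv _ SemidirectProduct.equivProd.symm) (rep_POmega p hQ (by simp)).repW h

end Cfsg.Agent.S2517
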