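import Cfsg.Statements.S2518
import Cfsg.Agent.BN.LangCyc
import Cfsg.Agent.Classical.PSL2
import Cfsg.Agent.Classical.SmallIso

set_option autoImplicit false
open Cfsg

namespace Cfsg.Agent.S2518

open scoped Pointwise in
theorem not_order {G : Type*} [Group G] [Finite G] {H : Subgroup G} {r s : ℕ} (hr : r.Prime)
    (hs : s.Prime) (hrs : r ≠ s) (h1 : Nat.card H = s) (h2 : Subgroup.centralizer (H : Set G) = H)
    (h3 : ¬ s * s ∣ Nat.card G) (x : G) : orderOf x ≠ r * s := by
  intro hx
  have := Fact.mk hs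
  have h4 : orderOf (x ^ r) = s := by
    rw [orderOf_pow_of_dvd hr.ne_zero (hx ▸ dvd_mul_right r s), hx, Nat.mul_div_cancel_left _ hr.pos]
  have h5 : ∀ A : Subgroup G, Nat.card A = s → ¬ s ∣ A.index := fun A hA h =>
    h3 (by rw [← A.card_mul_index, hA]; exact Nat.mul_dvd_mul_left _ h)
  have h6 : Nat.card (Subgroup.zpowers (x ^ r)) = s := by rw [Nat.card_zpowers, h4]
  obtain ⟨g, hg⟩ := MulAction.exists_smul_eq G
    ((IsPGroup.of_card (h6.trans (pow_one s).symm)).toSylow (h5 _ h6))
    ((IsPGroup.of_card (h1.trans (pow_one s).symm)).toSylow (h5 _ h1))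
  have h7 : MulAut.conj g x ∈ H := by
    rw [← h2]
    intro y hy
    have : y ∈ MulAut.conj g • Subgroup.zpowers (x ^ r) := (congrArg Sylow.toSubgroup hg).ge hy
    obtain ⟨_, ⟨k, rfl⟩, rfl⟩ := this
    exact ((((Commute.refl x).pow_left r).zpow_left k).map (MulAut.conj g)).eq
  have h8 := H.orderOf_dvd_natCard h7
  rw [MulEquiv.orderOf_eq, hx, h1] at h8
  exact hr.one_lt.ne' (Nat.eq_one_of_mul_eq_one_right (n := 1) (by
    simpa using (Nat.mul_dvd_mul_iff_right hs.pos).1 (h8.trans (one_mul s).symm.dvd)))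

/-- Let F₃ be the field with 3 elements and F₁₃ the field with 13 elements. The Chevalley group G₂(F₃) and PSL(2, F₁₃) have the same prime graph: the same prime divisors of their orders, and for distinct primes r, s an element of order rs in one iff in the other. -/
theorem result {F : Type*} [Field F] [Fintype F] (hF : Fintype.card F = 3) {E : Type*} [Field E] [Fintype E] (hE : Fintype.card E = 13) :
    ((∀ r : ℕ, r.Prime → (r ∣ Nat.card ↥(Cfsg.Lie.chevG2.group F) ↔ r ∣ Nat.card (Matrix.ProjectiveSpecialLinearGroup (Fin 2) E))) ∧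
      (∀ r s : ℕ, r.Prime → s.Prime → r ≠ s → ((∃ x : ↥(Cfsg.Lie.chevG2.group F), orderOf x = r * s) ↔ (∃ y : (Matrix.ProjectiveSpecialLinearGroup (Fin 2) E), orderOf y = r * s)))) := by
  open CF.Chev CF.BN CF.Classical Cfsg.Lie in
  have h1 : Nat.card (chevG2.group F) = 4245696 := by
    rw [cardG2 F (q := 3) (by simpa using hF)]; norm_num
  have hE' : Nat.card E = 13 := by simpa using hE
  have h2 := card_PSL2_of_card (n := 1092) hE' (by norm_num)
  have : Finite (chevG2.group F) := Nat.finite_of_card_ne_zero (by omega)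
  have h3 : ∀ r : ℕ, r.Prime → ∀ a b : ℕ, a ≠ 0 → b ≠ 0 →
      (r ∣ 2 ^ a * 3 ^ b * 7 * 13 ↔ r = 2 ∨ r = 3 ∨ r = 7 ∨ r = 13) := fun r hr a b ha hb => by
    simp only [hr.dvd_mul, hr.prime.dvd_pow_iff_dvd ha, hr.prime.dvd_pow_iff_dvd hb, or_assoc,
      Nat.prime_dvd_prime_iff_eq hr Nat.prime_two, Nat.prime_dvd_prime_iff_eq hr Nat.prime_three,
      Nat.prime_dvd_prime_iff_eq hr (by norm_num : Nat.Prime 7),
      Nat.prime_dvd_prime_iff_eq hr (by norm_num : Nat.Prime 13)]
  refine ⟨fun r hr => by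
    rw [h1, h2]; exact (h3 r hr 6 6 (by simp) (by simp)).trans (h3 r hr 2 1 (by simp) (by simp)).symm,
    fun r s hr hs hrs => ?_⟩
  have hi : (Matrix.ProjectiveSpecialLinearGroup.toPGL (n := Fin 2) (R := E)).range.index = 2 := by
    rw [range_pslToPGL, index_psl, hE']; norm_num
  have L := isL2_PSL (F := E) (k := AlgebraicClosure E)
  trans r * s = 6
  · refine ⟨fun ⟨x, hx⟩ => ?_, fun h => ?_⟩
    · obtain ⟨A, -, hA, hA'⟩ := cyc_G2 hF le_rfl 1 (.inl rfl) (N := 13) (by norm_num)
      obtain ⟨B, -, hB, hB'⟩ := cyc_G2 hF le_rfl (-1) (.inr rfl) (N := 7) (by norm_num)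
      have h4 := fun r hr h => not_order (r := r) hr (by norm_num) h hA hA' (by rw [h1]; norm_num) x
      have h5 := fun r hr h => not_order (r := r) hr (by norm_num) h hB hB' (by rw [h1]; norm_num) x
      have h6 := orderOf_dvd_natCard x
      rw [hx, h1] at h6
      have h7 := (h3 r hr 6 6 (by simp) (by simp)).1 ((dvd_mul_right r s).trans h6)
      have h8 := (h3 s hs 6 6 (by simp) (by simp)).1 ((dvd_mul_left s r).trans h6)
      have h9 : s ≠ 13 := by rintro rfl; exact h4 r hr hrs hx
      have h10 : s ≠ 7 := by rintro rfl; exact h5 r hr hrs hx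
      have h11 : r ≠ 13 := by rintro rfl; exact h4 s hs hrs.symm (hx.trans (mul_comm _ _))
      have h12 : r ≠ 7 := by rintro rfl; exact h5 s hs hrs.symm (hx.trans (mul_comm _ _))
      rcases h7 with rfl | rfl | h | h <;> omega
    · have : CharP F 3 := charP_of_card_eq_prime hF
      have : Fact (Nat.Prime 3) := ⟨Nat.prime_three⟩
      let ρ := linkG2.gpRep F
      have h4 := linkG2.r3_gpRep F
      have h5 := linkG2.faithful_gpRep F
      have h6 := h4.tor_injective_of_ker h5 (cenG2.ker_eq_bot F)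
      let i : Fin chevG2.rank := ⟨0, by decide⟩
      have h7 : orderOf (ρ.h (cbG2.simple i) (-1)) = 2 := by
        rw [← h4.tor_single, orderOf_injective _ h6]
        refine orderOf_eq_prime (by rw [← Pi.mulSingle_pow]; simp) fun e => ?_
        have e' := congrArg Units.val (congrFun e i)
        simp only [Pi.mulSingle_eq_same, Units.val_neg, Units.val_one, Pi.one_apply] at e'
        exact @CharP.neg_one_ne_one F _ 3 _ ⟨by norm_num⟩ e'
      have h8 : orderOf (ρ.x (cbG2.simple i) 1) = 3 := by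
        refine orderOf_eq_prime ?_ fun e => one_ne_zero (h5.x_eq_one_iff.1 e)
        rw [← ρ.x_nsmul, CharP.cast_eq_zero, zero_mul, ρ.x_zero]
      have h9 : Commute (ρ.h (cbG2.simple i) (-1)) (ρ.x (cbG2.simple i) 1) := by
        have := ρ.h_conj_x (cbG2.simple i) (-1) (cbG2.simple i) 1
        rw [RootSys.A_self, zpow_two, mul_inv_eq_iff_eq_mul] at this
        simpa [commute_iff_eq] using this
      exact ⟨_, by rw [h9.orderOf_mul_eq_mul_orderOf_of_coprime (by rw [h7, h8]; norm_num), h7, h8, h]⟩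
  · refine ⟨fun h => ?_, fun ⟨y, hy⟩ => ?_⟩
    · obtain ⟨g, hg, -⟩ := L.exists_card_centralizer (n := 6) (m := 6) (.inl (by rw [hi, hE'])) dvd_rfl
        (by simp)
      exact ⟨g, hg.trans h.symm⟩
    · have : Fact (Nat.Prime 13) := ⟨by norm_num⟩
      have : CharP E 13 := charP_of_card_eq_prime hE
      have h4 := L.orderOf_cases 13 y
      rw [← orderOf_dvd_iff_pow_eq_one, hy, hi, hE'] at h4
      have h5 := hr.two_le
      have h6 := hs.two_le
      have h7 : r * s ≤ 14 := by rcases h4 with h | h | h <;> have := Nat.le_of_dvd (by norm_num) h <;> omega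
      have h8 : r ≤ 7 := by nlinarith
      have h9 : s ≤ 7 := by nlinarith
      interval_cases r <;> interval_cases s <;> first | omega | simp_all

end Cfsg.Agent.S2518
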