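import Cfsg.Statements.S2519
import Cfsg.Agent.BN.SpecG2

set_option autoImplicit false
open Cfsg

namespace Cfsg.Agent.S2519

/-- Let F be a finite field of odd order q = p^a ≥ 5. The element orders of the Chevalley group G₂(F) that are maximal under divisibility are exactly p(q + 1), p(q − 1), q² − 1, q² + q + 1, q² − q + 1, together with p² when p is 3 or 5. -/
theorem result {F : Type*} [Field F] [Fintype F] (p a : ℕ) (hp : p.Prime) (hp2 : p ≠ 2) (ha : 1 ≤ a) (hF : Fintype.card F = p ^ a) (hq5 : 5 ≤ Fintype.card F) :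
    {n : ℕ | n ∈ Set.range (orderOf : ↥(Cfsg.Lie.chevG2.group F) → ℕ) ∧ ∀ m ∈ Set.range (orderOf : ↥(Cfsg.Lie.chevG2.group F) → ℕ), n ∣ m → m = n} =
      ({p * (p ^ a + 1), p * (p ^ a - 1), p ^ (2 * a) - 1, p ^ (2 * a) + p ^ a + 1, p ^ (2 * a) - p ^ a + 1} : Set ℕ) ∪
        (if p = 3 ∨ p = 5 then ({p ^ 2} : Set ℕ) else ∅) := by
  have := Fact.mk hp
  have : CharP F p := charP_of_card_eq_prime_pow hF
  obtain ⟨L⟩ := CF.BN.exists_LS_G2 F p
  rw [hF] at L hq5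
  have h0 : p ∣ p ^ a := dvd_pow_self p (by omega)
  have h5 : p ≠ 3 → ¬ 3 ∣ p ^ a := fun h e =>
    h ((Nat.prime_dvd_prime_iff_eq Nat.prime_three hp).1 (Nat.prime_three.dvd_of_dvd_pow e)).symm
  have h6 : 3 ≤ p := by have := hp.two_le; omega
  rw [pow_mul']
  generalize p ^ a = q at *
  have h1 : q ≤ q ^ 2 := Nat.le_self_pow two_ne_zero q
  generalize hS : ({p * (q + 1), p * (q - 1), q ^ 2 - 1, q ^ 2 + q + 1, q ^ 2 - q + 1} : Set ℕ) ∪
    (if p = 3 ∨ p = 5 then ({p ^ 2} : Set ℕ) else ∅) = S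
  have hS' : ∀ n, n ∈ S ↔ n = p * (q + 1) ∨ n = p * (q - 1) ∨ n = q ^ 2 - 1 ∨ n = q ^ 2 + q + 1 ∨
      n = q ^ 2 - q + 1 ∨ (p = 3 ∨ p = 5) ∧ n = p ^ 2 := fun n => by simp [← hS, or_assoc]
  have h2 : S ⊆ Set.range (orderOf : ↥(Cfsg.Lie.chevG2.group F) → ℕ) := fun n hn => by
    rcases (hS' n).1 hn with rfl | rfl | rfl | rfl | rfl | ⟨rfl | rfl, rfl⟩
    exacts [L.exists_G2.2.2, L.exists_G2.2.1, L.exists_G2.1,
      CF.BN.exists_cyc_G2 hF (by omega) 1 (by simp) (by simp),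
      CF.BN.exists_cyc_G2 hF (by omega) (-1) (by simp) (by push_cast [h1]; ring),
      CF.BN.exists_orderOf_word CF.Chev.certG2 F 3 [(7, 1), (6, 1)] 9
        3 0 (by decide +kernel),
      CF.BN.exists_orderOf_word CF.Chev.certG2 F 5 [(7, 1), (6, 1)] 25
        6 1 (by decide +kernel)]
  have h3 : ∀ g : Cfsg.Lie.chevG2.group F, ∃ m ∈ S, orderOf g ∣ m := fun g => by
    simp only [hS', exists_eq_or_imp]
    rcases L.dvd_G2 g with h | h | h | h | h | h | h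
    rotate_right 2
    · by_cases e : p = 3 ∨ p = 5
      · refine .inr (.inr (.inr (.inr (.inr ⟨_, ⟨e, rfl⟩, h 2 (by nlinarith)⟩))))
      · have : p ≠ 4 := by rintro rfl; exact absurd hp (by decide)
        exact .inl ((h 1 (by rw [pow_one]; omega)).trans (by simp))
    · have h7 := h.2 1 (by simpa)
      rw [pow_one, mul_comm] at h7
      have := h5 h.1
      rcases (by omega : 3 ∣ q + 1 ∨ 3 ∣ q - 1) with h | h
      exacts [.inl (h7.trans (mul_dvd_mul_left _ h)), .inr (.inl (h7.trans (mul_dvd_mul_left _ h)))]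
    all_goals zify [h1, (by omega : 1 ≤ q), (by omega : 1 ≤ q ^ 2)] at h ⊢; simp [h]
  have h4 : ∀ n ∈ S, ∀ m ∈ S, n ∣ m → m = n := by
    have key : ∀ x y, p ∣ y → x + 1 = y ∨ x = y + 1 → ¬ p ∣ x := by
      rintro x y h (rfl | rfl) e
      exacts [hp.ne_one (Nat.dvd_one.1 ((Nat.dvd_add_right e).1 h)),
        hp.ne_one (Nat.dvd_one.1 ((Nat.dvd_add_right h).1 e))]
    have k0 : p ∣ q ^ 2 := h0.trans (dvd_pow_self q two_ne_zero)
    have k1 := key (q + 1) q h0 (by omega)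
    have k2 := key (q - 1) q h0 (by omega)
    have k3 := key (q ^ 2 - 1) _ k0 (by omega)
    have k4 := key (q ^ 2 + q + 1) _ (dvd_add k0 h0) (by omega)
    have k5 := key (q ^ 2 - q + 1) _ (Nat.dvd_sub k0 h0) (by omega)
    have k6 : 5 * q ≤ q ^ 2 := by nlinarith
    have k7 := Nat.le_of_dvd (by omega) h0
    have k8 : ∀ {x y}, ¬ p ∣ x → 0 < y → x ∣ p * y → x ≤ y := fun h h' e => Nat.le_of_dvd h'
      (((Nat.Prime.coprime_iff_not_dvd hp).2 h).symm.dvd_of_dvd_mul_left e)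
    intro n hn m hm e
    rw [hS', pow_two p] at hn hm
    rcases hn with rfl | rfl | rfl | rfl | rfl | ⟨-, rfl⟩ <;>
      rcases hm with rfl | rfl | rfl | rfl | rfl | ⟨-, rfl⟩ <;> first
      | rfl
      | exact absurd ((dvd_mul_right _ _).trans e) ‹_›
      | exact absurd (k8 ‹_› (by omega) e) (by omega)
      | exact Nat.eq_of_dvd_of_lt_two_mul (by omega) e (by omega)
      | exact absurd (Nat.dvd_of_mul_dvd_mul_left hp.pos e) ‹_›
      | exact congrArg _ (Nat.eq_of_dvd_of_lt_two_mul (by omega)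
          (Nat.dvd_of_mul_dvd_mul_left hp.pos e) (by omega))
  ext n
  refine ⟨?_, fun hn => ⟨h2 hn, ?_⟩⟩
  · rintro ⟨⟨g, rfl⟩, h⟩
    obtain ⟨m, h3, h4⟩ := h3 g
    exact h m (h2 h3) h4 ▸ h3
  · rintro _ ⟨g, rfl⟩ h
    obtain ⟨m, h7, h8⟩ := h3 g
    exact Nat.dvd_antisymm (h4 n hn m h7 (h.trans h8) ▸ h8) h

end Cfsg.Agent.S2519
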