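import Cfsg.Statements.S2520
import Cfsg.Agent.BN.SpecG2

set_option autoImplicit false
open Cfsg

namespace Cfsg.Agent.S2520

/-- Let F be a finite field with q = 2^a ≥ 4 elements and G₂(F) the Chevalley group of type G₂ over it. Every element order of G₂(F) maximal under divisibility lies in the set {8, 12, 2(q + 1), 2(q − 1), q² − 1, q² + q + 1, q² − q + 1}, and every member of that set is an element order of G₂(F). -/
theorem result {F : Type*} [Field F] [Fintype F] (a : ℕ) (ha : 2 ≤ a) (hF : Fintype.card F = 2 ^ a) :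
    {n : ℕ | n ∈ Set.range (orderOf : ↥(Cfsg.Lie.chevG2.group F) → ℕ) ∧ ∀ m ∈ Set.range (orderOf : ↥(Cfsg.Lie.chevG2.group F) → ℕ), n ∣ m → m = n} ⊆ ({8, 12, 2 * (2 ^ a + 1), 2 * (2 ^ a - 1), 2 ^ (2 * a) - 1, 2 ^ (2 * a) + 2 ^ a + 1, 2 ^ (2 * a) - 2 ^ a + 1} : Set ℕ) ∧
    ({8, 12, 2 * (2 ^ a + 1), 2 * (2 ^ a - 1), 2 ^ (2 * a) - 1, 2 ^ (2 * a) + 2 ^ a + 1, 2 ^ (2 * a) - 2 ^ a + 1} : Set ℕ) ⊆ Set.range (orderOf : ↥(Cfsg.Lie.chevG2.group F) → ℕ) := by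
  have : CharP F 2 := charP_of_card_eq_prime_pow hF
  obtain ⟨L⟩ := CF.BN.exists_LS_G2 F 2
  rw [hF] at L
  have h0 : 4 ≤ 2 ^ a := Nat.pow_le_pow_right (n := 2) two_pos ha
  rw [pow_mul']
  generalize 2 ^ a = q at *
  have h1 : q ≤ q ^ 2 := Nat.le_self_pow two_ne_zero q
  have h2 : ({8, 12, 2 * (q + 1), 2 * (q - 1), q ^ 2 - 1, q ^ 2 + q + 1, q ^ 2 - q + 1} : Set ℕ) ⊆
      Set.range (orderOf : ↥(Cfsg.Lie.chevG2.group F) → ℕ) := by
    simp only [Set.insert_subset_iff, Set.singleton_subset_iff]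
    exact ⟨CF.BN.exists_orderOf_word CF.Chev.certG2 F 2 [(7, 1), (6, 1)] 8
        6 1 (by decide +kernel),
      CF.BN.exists_orderOf_word CF.Chev.certG2 F 2 [(0, 1), (2, 1), (9, 1)] 12
        0 1 (by decide +kernel), L.exists_G2.2.2, L.exists_G2.2.1, L.exists_G2.1,
      CF.BN.exists_cyc_G2 hF (by omega) 1 (by simp) (by simp),
      CF.BN.exists_cyc_G2 hF (by omega) (-1) (by simp) (by push_cast [h1]; ring)⟩
  refine ⟨?_, h2⟩
  rintro _ ⟨⟨g, rfl⟩, h⟩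
  suffices ∃ m ∈ ({8, 12, 2 * (q + 1), 2 * (q - 1), q ^ 2 - 1, q ^ 2 + q + 1, q ^ 2 - q + 1} : Set ℕ),
      orderOf g ∣ m by
    obtain ⟨m, h3, h4⟩ := this
    exact h m (h2 h3) h4 ▸ h3
  simp only [Set.mem_insert_iff, Set.mem_singleton_iff, exists_eq_or_imp, exists_eq_left]
  rcases L.dvd_G2 g with h | h | h | h | h | h | h
  all_goals first
    | exact .inl (h 3 (by decide))
    | exact .inr (.inl (h.2 2 (by decide)))
    | zify [h1, (by omega : 1 ≤ q), (by omega : 1 ≤ q ^ 2)] at h ⊢; simp [h]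

end Cfsg.Agent.S2520
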