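import Cfsg.Statements.S2522
import Cfsg.Agent.Classical.Lev3

set_option autoImplicit false
open Cfsg

namespace Cfsg.Agent.S2522

/-- Let K be a field with at least four elements (finite or infinite), n ≥ 3, and J ∈ GL(n, K) the regular unipotent matrix (ones on the diagonal and the superdiagonal, zeros elsewhere). Then every non-scalar g ∈ GL(n, K) with det g = 1 is a product of two GL(n, K)-conjugates of J. -/
theorem result {K : Type*} [Field K] (hK : 4 ≤ Cardinal.mk K) (n : ℕ) (hn : 3 ≤ n) (J g : GL (Fin n) K)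
    (hJ : ∀ i j : Fin n, (J : Matrix (Fin n) (Fin n) K) i j = if i = j then 1 else if j.val = i.val + 1 then 1 else 0)
    (hg : ¬ ∃ c : K, (g : Matrix (Fin n) (Fin n) K) = c • (1 : Matrix (Fin n) (Fin n) K))
    (hdet : (g : Matrix (Fin n) (Fin n) K).det = 1) :
    ∃ x y : GL (Fin n) K, g = (x * J * x⁻¹) * (y * J * y⁻¹) := by
  open CF.Classical CF.Cls Polynomial Module in
  have hF : ∃ t : K, t ≠ 0 ∧ t ≠ 1 := by
    obtain ⟨t, h1, h2⟩ := Cardinal.exists_ne_ne_of_three_le (α := K)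
      (le_trans (by norm_num) hK) 0 1
    exact ⟨t, h1, h2⟩
  have hJ' : RUn (Matrix.toLin' (J : Matrix (Fin n) (Fin n) K)) := by
    have : (J : Matrix (Fin n) (Fin n) K) = (Cfsg.jordanBlock n K).transpose := by
      ext i j
      simp [hJ, Cfsg.jordanBlock, Fin.ext_iff, eq_comm]
    exact rUn_of_sim_cyc (by omega) ((sim_jordanBlock n).symm.trans
      ((isConj_iff_sim _ _).1 (this ▸ isConj_transpose _)))
  obtain ⟨Z, h1, h2⟩ := lev_unip (g := Matrix.toLin' (g : Matrix (Fin n) (Fin n) K)) hF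
    (by simp; omega) (fun c hc => hg ⟨c, Matrix.toLin'.injective (by
      rw [hc, map_smul, Matrix.toLin'_one]; rfl)⟩) (by rw [LinearMap.det_toLin', hdet])
  obtain ⟨z, rfl⟩ : ∃ z : GL (Fin n) K, Matrix.toLin' (z : Matrix (Fin n) (Fin n) K) = Z := by
    have : IsUnit (LinearMap.toMatrix' Z) := by
      have := (h1.1.isUnit_add_one).map (LinearMap.toMatrixAlgEquiv' (R := K) (n := Fin n))
      rwa [sub_add_cancel] at this
    exact ⟨this.unit, by simp⟩
  have h3 : RUn (Matrix.toLin' ((z⁻¹ : GL (Fin n) K) : Matrix (Fin n) (Fin n) K)) :=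
    h1.inv (by rw [Module.End.mul_eq_comp, ← Matrix.toLin'_mul, Units.inv_mul, Matrix.toLin'_one]; rfl)
  obtain ⟨y, hy⟩ := isConj_iff.1 ((isConj_GL_iff_sim _ _).2 (hJ'.sim h3 rfl))
  obtain ⟨x, hx⟩ := isConj_iff.1 ((isConj_GL_iff_sim J (g * z)).2 (hJ'.sim
    (by rw [Units.val_mul, Matrix.toLin'_mul]; exact h2) rfl))
  exact ⟨x, y, by rw [hx, hy, mul_inv_cancel_right]⟩

end Cfsg.Agent.S2522
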