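import Cfsg.Statements.S2523
import Cfsg.Agent.Chev.Thom2

set_option autoImplicit false
open Cfsg

namespace Cfsg.Agent.S2523

/-- Let F be a finite field with at least 9 elements and let G be one of PSL(n, F) (n ≥ 2), PSp(2m, F) (m ≥ 2), PΩ(2m+1, F) (m ≥ 3, here q odd), PΩ⁺(2m, F) (m ≥ 4), or the Chevalley group of type G₂, F₄, E₆, E₇ or E₈ over F. Then G is the square of one of its conjugacy classes (Thompson's conjecture on products of conjugacy classes, not his conjecture on class sizes): there is a conjugacy class C of G with C·C = G, i.e. every element of G is a product of two elements of C. -/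
theorem result {F : Type*} [Field F] [Fintype F] (hF : 9 ≤ Fintype.card F) {G : Type*} [Group G] [Finite G]
    (hG : (∃ n : ℕ, 2 ≤ n ∧ Nonempty (G ≃* Matrix.ProjectiveSpecialLinearGroup (Fin n) F)) ∨
      (∃ m : ℕ, 2 ≤ m ∧ Nonempty (G ≃* Cfsg.PSp m F)) ∨
      (∃ m : ℕ, 3 ≤ m ∧ Odd (Fintype.card F) ∧ Nonempty (G ≃* Cfsg.POmega F (Cfsg.quadFormOdd m F))) ∨
      (∃ m : ℕ, 4 ≤ m ∧ Nonempty (G ≃* Cfsg.POmega F (Cfsg.quadFormPlus m F))) ∨
      Nonempty (G ≃* ↥(Cfsg.Lie.chevG2.group F)) ∨ Nonempty (G ≃* ↥(Cfsg.Lie.chevF4.group F)) ∨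
      Nonempty (G ≃* ↥(Cfsg.Lie.chevE6.group F)) ∨ Nonempty (G ≃* ↥(Cfsg.Lie.chevE7.group F)) ∨ Nonempty (G ≃* ↥(Cfsg.Lie.chevE8.group F))) :
    ∃ c : G, ∀ g : G, ∃ x y : G, g = (x * c * x⁻¹) * (y * c * y⁻¹) := by
  have hK : 9 ≤ Nat.card F := by rwa [Nat.card_eq_fintype_card]
  have H : ∀ {G' : Type _} [Group G'], Nonempty (G ≃* G') →
      (∃ c : G', ∀ g, ∃ a b, g = a * c * a⁻¹ * (b * c * b⁻¹)) →
      ∃ c : G, ∀ g : G, ∃ x y : G, g = (x * c * x⁻¹) * (y * c * y⁻¹) := by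
    rintro G' _ ⟨e⟩ ⟨c, h⟩
    refine ⟨e.symm c, fun g => ?_⟩
    obtain ⟨a, b, h⟩ := h (e g)
    exact ⟨e.symm a, e.symm b, e.injective (by simpa using h)⟩
  obtain ⟨n, hn, e⟩ | ⟨n, hn, e⟩ | ⟨n, hn, -, e⟩ | ⟨n, hn, e⟩ | e | e | e | e | e := hG
  · exact H e (CF.Chev.class_sq_PSL hK hn)
  · exact H e (CF.Chev.class_sq_PSp hK hn)
  · exact H e (CF.Chev.class_sq_POmegaB hK (by omega))
  · exact H e (CF.Chev.class_sq_POmegaD hK (by omega))
  · exact H e (CF.Chev.certG2.class_sq CF.Chev.goodG2 CF.Chev.Tab.chkT_G2 hK)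
  · exact H e (CF.Chev.certF4.class_sq CF.Chev.goodF4 CF.Chev.Tab.chkT_F4 hK)
  · exact H e (CF.Chev.certE6.class_sq CF.Chev.goodE6 CF.Chev.Tab.chkT_E6 hK)
  · exact H e (CF.Chev.certE7.class_sq CF.Chev.goodE7 CF.Chev.Tab.chkT_E7 hK)
  · exact H e (CF.Chev.certE8.class_sq CF.Chev.goodE8 CF.Chev.Tab.chkT_E8 hK)

end Cfsg.Agent.S2523
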