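import Cfsg.Statements.S2524
import Cfsg.Agent.Classical.WeilCls2

set_option autoImplicit false
open Cfsg

namespace Cfsg.Agent.S2524

open Module CF.Geom CF.Classical in
theorem small {F W L : Type*} [Field F] [Fintype F] [AddCommGroup W] [Module F W] [Fintype W]
    [AddCommGroup L] [Module ℂ L] [FiniteDimensional ℂ L] {B : LinearMap.BilinForm F W}
    {ψ : AddChar F ℂ} {e : F} (he : ¬ IsSquare e) {T T' : W → Module.End ℂ L} (h : Heis B ψ T)
    (h' : Heis B (ψ.mulShift e) T') (h4 : 4 ≤ finrank F W) {X : Submodule F W}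
    (hX : ∀ x ∈ X, ∀ y ∈ X, B x y = 0) (hX2 : 2 ≤ finrank F X) {χ : SpG B → ℂ}
    (hχ : Cfsg.IsIrrCharacter _ χ) {k : ℕ} (hk : χ 1 = k) (hk1 : k ≠ 1)
    (hlt : 2 * (Nat.card F + 1) * k <
      (Nat.card F ^ finrank F X - 1) * (Nat.card F ^ finrank F X - Nat.card F)) :
    (χ = (h.weilP 1).toRepresentation.character ∨ χ = (h.weilP (-1)).toRepresentation.character) ∨
    (χ = (h'.weilP 1).toRepresentation.character ∨
      χ = (h'.weilP (-1)).toRepresentation.character) := by
  have : FiniteDimensional F W := Module.Finite.of_finite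
  have hk0 : k ≠ 0 := fun e => CF.Char.irr_one_ne_zero hχ (by simp [hk, e])
  obtain ⟨m, ρ, hρ, rfl⟩ := hχ
  rw [Representation.char_one, Nat.cast_inj] at hk
  subst hk
  obtain ⟨g, hg⟩ := exists_ne_one_of_irr ρ hρ (by omega)
  have hirr := ((CF.Char.isIrreducible_iff ρ).1 hρ).2
  have hG : ∀ x, (∀ g, ρ g x = x) → x = 0 := fun x hx => by
    rcases hirr ρ.invariants (fun g v hv => by rwa [hv g]) with e | e
    · exact (Submodule.mem_bot ℂ).1 (e ▸ hx)
    · exact (hg (LinearMap.ext fun v => (e.ge Submodule.mem_top : v ∈ ρ.invariants) g)).elim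
  obtain ⟨v, c, hv⟩ := exists_spTrans_ne_one h.nondeg h.alt ρ hg
  obtain ⟨z, x, hz, hx0, hx⟩ : ∃ z x, z ≠ 0 ∧ x ≠ 0 ∧ x ∈ zwt h.alt ρ ψ v z := by
    by_contra! hc
    refine hv (LinearMap.eqLocus_eq_top.1 (eq_top_iff.2 (zwt_ind (hA := h.alt) (ρ := ρ) h.ne_one v ⊤
      (fun _ _ _ => trivial) fun z x _ h0 hx => ?_)))
    obtain rfl : z = 0 := by_contra fun hz => hc z x hz h0 hx
    simpa using hx c
  have key : ∀ {ψ : AddChar F ℂ} {T : W → Module.End ℂ L} (h : Heis B ψ T) (y : F), y ≠ 0 →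
      x ∈ zwt h.alt ρ ψ v (-1 * y ^ 2) → ρ.character = (h.weilP 1).toRepresentation.character ∨
        ρ.character = (h.weilP (-1)).toRepresentation.character := fun {ψ T} h y hy hx => by
    have h1 : RankOne h.alt ρ ψ := rankOne_of_lt h.nondeg h.ne_one hX hX2 hlt
    exact h.char_eq h4 ρ h1 hG fun w z x' h0 hx' => h1.exists_eq_type h.nondeg h.ne_one h.two h4 hG
      hirr (neg_ne_zero.2 one_ne_zero) hy (fun e => hx0 (by rwa [e] at hx)) h0 hx'
  have he0 : e ≠ 0 := fun h => he (by simp [h])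
  by_cases hs : IsSquare (-z)
  · obtain ⟨y, hy⟩ := hs
    refine Or.inl (key h y (fun e => hz (by simpa [e] using hy)) ?_)
    rwa [show -1 * y ^ 2 = z by linear_combination hy]
  · obtain ⟨y, hy⟩ : IsSquare (-z * e) :=
      (isSquare_mul_iff (neg_ne_zero.2 hz) he0).2 (iff_of_false hs he)
    refine Or.inr (key h' (y / e) (div_ne_zero (fun e' => hz (by simpa [e', he0] using hy)) he0)
      fun c => (hx c).trans ?_)
    simp only [AddChar.mulShift_apply]
    congr 2
    field_simp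
    linear_combination -c * hy

open Module CF.Geom CF.Classical in
theorem ne_char {F W L : Type*} [Field F] [Fintype F] [AddCommGroup W] [Module F W] [Fintype W]
    [AddCommGroup L] [Module ℂ L] [FiniteDimensional ℂ L] {B : LinearMap.BilinForm F W}
    {ψ : AddChar F ℂ} {e : F} (he : ¬ IsSquare e) {T T' : W → Module.End ℂ L} (h : Heis B ψ T)
    (h' : Heis B (ψ.mulShift e) T') (h4 : 4 ≤ finrank F W) {ε : ℂ} (hε : ε * ε = 1) :
    (h.weilP ε).toRepresentation.character ≠ (h'.weilP ε).toRepresentation.character := fun hc => by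
  have : Finite (SpG B) := Finite.of_injective (fun g : SpG B => (g.1 : W → W))
    fun a b e => spG_ext (congrFun e)
  have : Nontrivial W := Module.nontrivial_of_finrank_pos (R := F) (by omega)
  obtain ⟨v, hv⟩ := exists_ne (0 : W)
  obtain ⟨φ⟩ := CF.Char.nonempty_equiv_of_character_eq _ _ hc
  obtain ⟨x, hx, hx0, hx1⟩ := h.exists_mem_part h4 hv hε
  have he0 : e ≠ 0 := fun h => he (by simp [h])
  obtain ⟨y, hy⟩ := h'.exists_eq_neg_sq h4 (x := (φ ⟨x, hx⟩ : h'.part ε)) (v := v) (z := -e⁻¹)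
    (fun e => hx0 (congrArg Subtype.val (φ.toLinearEquiv.injective
      (a₁ := ⟨x, hx⟩) (a₂ := 0) (Subtype.ext (by simpa using e))))) fun c => by
      have e1 := φ.isIntertwining' (spTrans h.alt v c)
      have e2 := congrArg Subtype.val (DFunLike.congr_fun e1 ⟨x, hx⟩)
      have e3 : (h.weilP ε).toRepresentation (spTrans h.alt v c) ⟨x, hx⟩ =
        ψ (c * -1) • ⟨x, hx⟩ := Subtype.ext (hx1 c)
      simp only [LinearMap.comp_apply, e3, map_smul] at e2
      refine e2.symm.trans ?_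
      simp only [AddChar.mulShift_apply]
      rw [show e * (c * -e⁻¹) = c * -1 by field_simp]; rfl
  exact he ⟨y * e, by field_simp at hy; linear_combination -e * hy⟩


/-- Let F be a finite field of odd order q and G = Sp(2n, F) with n ≥ 2. Then G has exactly four irreducible complex characters of degree (q^n + 1)/2 or (q^n − 1)/2 (two of each), and every other non-principal irreducible character has degree at least (q^n − 1)(q^n − q)/(2(q + 1)). -/
theorem result {F : Type*} [Field F] [Fintype F] (hodd : Odd (Fintype.card F)) (n : ℕ) (hn : 2 ≤ n) :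
    Nat.card {χ : Cfsg.IrrCharacter ↥(Matrix.symplecticGroup (Fin n) F) // (χ : ↥(Matrix.symplecticGroup (Fin n) F) → ℂ) 1 = (((Fintype.card F) ^ n + 1 : ℕ) : ℂ) / 2} = 2 ∧
    Nat.card {χ : Cfsg.IrrCharacter ↥(Matrix.symplecticGroup (Fin n) F) // (χ : ↥(Matrix.symplecticGroup (Fin n) F) → ℂ) 1 = (((Fintype.card F) ^ n - 1 : ℕ) : ℂ) / 2} = 2 ∧
    ∀ χ : Cfsg.IrrCharacter ↥(Matrix.symplecticGroup (Fin n) F),
      (χ : ↥(Matrix.symplecticGroup (Fin n) F) → ℂ) 1 ≠ 1 →
      (χ : ↥(Matrix.symplecticGroup (Fin n) F) → ℂ) 1 ≠ (((Fintype.card F) ^ n + 1 : ℕ) : ℂ) / 2 →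
      (χ : ↥(Matrix.symplecticGroup (Fin n) F) → ℂ) 1 ≠ (((Fintype.card F) ^ n - 1 : ℕ) : ℂ) / 2 →
      (((Fintype.card F) ^ n - 1 : ℕ) : ℝ) * (((Fintype.card F) ^ n - Fintype.card F : ℕ) : ℝ) / (2 * ((Fintype.card F : ℕ) + 1 : ℝ)) ≤ ‖(χ : ↥(Matrix.symplecticGroup (Fin n) F) → ℂ) 1‖ := by
  open CF.Classical CF.Geom in
  classical
  have h2 : (2 : F) ≠ 0 := two_ne_zero_of_odd_card hodd
  have hψ : AddChar.FiniteField.primitiveChar_to_Complex F ≠ 1 := by
    simpa using AddChar.FiniteField.primitiveChar_to_Complex_isPrimitive F one_ne_zero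
  obtain ⟨e, he⟩ := FiniteField.exists_nonsquare (F := F) fun h => h2 (by
    simpa [h] using ringChar.Nat.cast_ringChar (R := F))
  have h := heis_schr n hψ h2
  have h' := heis_schr n (AddChar.FiniteField.primitiveChar_to_Complex_isPrimitive F
    (a := e) fun h => he (by simp [h])) h2
  have h4 : 4 ≤ Module.finrank F (Fin n ⊕ Fin n → F) := by simp; omega
  have hq : 3 ≤ Fintype.card F := by
    have : 2 ≤ Fintype.card F := Fintype.one_lt_card
    obtain ⟨k, hk⟩ := hodd; omega
  have hy : Fintype.card F ^ 2 ≤ Fintype.card F ^ n := Nat.pow_le_pow_right (by omega) hn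
  have hdim : ∀ {ψ : AddChar F ℂ} (h : Heis (sympBilin n F) ψ (schr n ψ)),
      2 * Module.finrank ℂ (h.part 1) = Fintype.card F ^ n + 1 ∧
      2 * Module.finrank ℂ (h.part (-1)) = Fintype.card F ^ n - 1 := fun h => by
    have := h.finrank_part
    rw [Module.finrank_fintype_fun_eq_card, Fintype.card_fun, Fintype.card_fin] at this
    omega
  have hy9 : 9 ≤ Fintype.card F ^ n := le_trans (by nlinarith) hy
  have hirr : ∀ {ψ : AddChar F ℂ} (h : Heis (sympBilin n F) ψ (schr n ψ)) (ε : ℂ), h.part ε ≠ ⊥ →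
      Cfsg.IsIrrCharacter _ fun g => (h.weilP ε).toRepresentation.character (spEquiv n F g) :=
    fun h ε h0 => by
      have := h.irr_weilP h0
      exact CF.Char.irr_comp_equiv (CF.Char.isIrrCharacter_character _) _
  have hp : ∀ {ψ : AddChar F ℂ} (h : Heis (sympBilin n F) ψ (schr n ψ)),
      h.part 1 ≠ ⊥ ∧ h.part (-1) ≠ ⊥ := fun h => by
    have := hdim h
    constructor <;> intro e <;> rw [e, finrank_bot] at this <;> omega
  have hd1 : ∀ {ψ : AddChar F ℂ} (h : Heis (sympBilin n F) ψ (schr n ψ)),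
      (h.weilP 1).toRepresentation.character 1 = ((Fintype.card F ^ n + 1 : ℕ) : ℂ) / 2 ∧
      (h.weilP (-1)).toRepresentation.character 1 = ((Fintype.card F ^ n - 1 : ℕ) : ℂ) / 2 :=
    fun h => by
      rw [Representation.char_one, Representation.char_one, ← (hdim h).1, ← (hdim h).2]
      push_cast
      rw [mul_div_cancel_left₀ _ two_ne_zero, mul_div_cancel_left₀ _ two_ne_zero]
      exact ⟨rfl, rfl⟩
  have key := fun (χ : Cfsg.IrrCharacter (Matrix.symplecticGroup (Fin n) F)) (k : ℕ)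
      (hk : χ.1 1 = k) => small he h h' h4 (stdLag_iso n) (by rwa [finrank_stdLag])
        (CF.Char.irr_comp_equiv χ.2 (spEquiv n F).symm) (k := k) (by simpa using hk)
  rw [finrank_stdLag, Nat.card_eq_fintype_card] at key
  have hne : ((Fintype.card F ^ n + 1 : ℕ) : ℂ) / 2 ≠ ((Fintype.card F ^ n - 1 : ℕ) : ℂ) / 2 := by
    rw [Ne, div_left_inj' two_ne_zero, Nat.cast_inj]; omega
  have key2 : ∀ (χ : Cfsg.IrrCharacter (Matrix.symplecticGroup (Fin n) F)) (m : ℕ),
      χ.1 1 = (m : ℂ) / 2 → 4 ≤ m → m ≤ Fintype.card F ^ n + 1 →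
      ((fun x => χ.1 ((spEquiv n F).symm x)) = (h.weilP 1).toRepresentation.character ∨
        (fun x => χ.1 ((spEquiv n F).symm x)) = (h.weilP (-1)).toRepresentation.character) ∨
      (fun x => χ.1 ((spEquiv n F).symm x)) = (h'.weilP 1).toRepresentation.character ∨
        (fun x => χ.1 ((spEquiv n F).symm x)) = (h'.weilP (-1)).toRepresentation.character :=
      fun χ m hm h1 h3 => by
    obtain ⟨k, -, hk⟩ := CF.Char.irr_one_eq_nat χ.2
    have e : m = 2 * k := by
      rw [hk, eq_div_iff two_ne_zero] at hm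
      exact_mod_cast hm.symm.trans (mul_comm _ _)
    refine key χ k hk (by omega) ?_
    obtain ⟨y, hy'⟩ : ∃ y, Fintype.card F ^ n = y + Fintype.card F :=
      ⟨_, (Nat.sub_add_cancel (le_trans (by nlinarith) hy)).symm⟩
    rw [hy'] at hy h3 ⊢
    obtain ⟨q, hq'⟩ : ∃ q, Fintype.card F = q + 3 := ⟨_, (Nat.sub_add_cancel hq).symm⟩
    rw [hq'] at hy h3 ⊢
    rw [Nat.add_sub_cancel, show y + (q + 3) - 1 = y + q + 2 by omega]
    have : 2 * (q + 3 + 1) * k ≤ (q + 4) * (y + q + 4) := by nlinarith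
    have : q + 6 ≤ y := by nlinarith
    nlinarith
  have ext : ∀ (χ : Cfsg.IrrCharacter (Matrix.symplecticGroup (Fin n) F)) (θ : SpG _ → ℂ),
      (fun x => χ.1 ((spEquiv n F).symm x)) = θ → χ.1 = fun g => θ (spEquiv n F g) :=
    fun χ θ e => by rw [← e]; simp
  have hne2 : ∀ ε : ℂ, ε * ε = 1 → (fun g => (h.weilP ε).toRepresentation.character
      (spEquiv n F g)) ≠ fun g => (h'.weilP ε).toRepresentation.character (spEquiv n F g) :=
    fun ε hε e' => ne_char he h h' h4 hε (funext fun g => by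
      simpa using congrFun e' ((spEquiv n F).symm g))
  refine ⟨Nat.card_eq_two_iff.2 ⟨⟨⟨_, hirr h 1 (hp h).1⟩, by simpa using (hd1 h).1⟩,
      ⟨⟨_, hirr h' 1 (hp h').1⟩, by simpa using (hd1 h').1⟩,
      fun e => hne2 1 (by simp) (congrArg (fun x => x.1.1) e), Set.eq_univ_of_forall fun χ => ?_⟩,
    Nat.card_eq_two_iff.2 ⟨⟨⟨_, hirr h (-1) (hp h).2⟩, by simpa using (hd1 h).2⟩,
      ⟨⟨_, hirr h' (-1) (hp h').2⟩, by simpa using (hd1 h').2⟩,
      fun e => hne2 (-1) (by simp) (congrArg (fun x => x.1.1) e),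
      Set.eq_univ_of_forall fun χ => ?_⟩, fun χ h1 h3 h5 => ?_⟩
  · have h0 := χ.2
    rcases key2 χ.1 _ χ.2 (by omega) le_rfl with (e | e) | (e | e) <;> replace e := ext _ _ e
    · exact Or.inl (Subtype.ext (Subtype.ext e))
    · rw [e] at h0; exact (hne (h0.symm.trans (by simpa using (hd1 h).2))).elim
    · exact Or.inr (Subtype.ext (Subtype.ext e))
    · rw [e] at h0; exact (hne (h0.symm.trans (by simpa using (hd1 h').2))).elim
  · have h0 := χ.2
    rcases key2 χ.1 _ χ.2 (by omega) (by omega) with (e | e) | (e | e) <;> replace e := ext _ _ e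
    · rw [e] at h0; exact (hne (h0.symm.trans (by simpa using (hd1 h).1)).symm).elim
    · exact Or.inl (Subtype.ext (Subtype.ext e))
    · rw [e] at h0; exact (hne (h0.symm.trans (by simpa using (hd1 h').1)).symm).elim
    · exact Or.inr (Subtype.ext (Subtype.ext e))
  · obtain ⟨k, -, hk⟩ := CF.Char.irr_one_eq_nat χ.2
    by_contra! hlt
    rw [hk, Complex.norm_natCast, lt_div_iff₀ (by positivity)] at hlt
    rcases key χ k hk (fun e => h1 (by simp [hk, e])) (by
      rw [mul_comm]; exact_mod_cast hlt) with (e | e) | (e | e) <;> replace e := ext _ _ e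
    · exact h3 (by rw [e]; simpa using (hd1 h).1)
    · exact h5 (by rw [e]; simpa using (hd1 h).2)
    · exact h3 (by rw [e]; simpa using (hd1 h').1)
    · exact h5 (by rw [e]; simpa using (hd1 h').2)

end Cfsg.Agent.S2524
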