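import Cfsg.Statements.S2525
import Cfsg.Agent.BN.SpecF4

set_option autoImplicit false
open Cfsg

namespace Cfsg.Agent.S2525

/-- Let F be a finite field with q = 2^n elements and G = F₄(F). For an odd prime r let e(r, q) be the multiplicative order of q modulo r. Two distinct primes r, s dividing the order of G are non-adjacent in the prime graph of G (no element of order rs) if and only if, up to swapping r and s, either r = 2 and e(s, q) ∈ {8, 12}, or r, s are both odd with k = e(r, q) < l = e(s, q) and one of: l ∈ {8, 12}; l = 6 and k ∈ {3, 4}; l = 4 and k = 3. -/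
theorem result {F : Type*} [Field F] [Fintype F] (n : ℕ) (hn : 1 ≤ n) (hF : Fintype.card F = 2 ^ n)
    (r s : ℕ) (hr : r.Prime) (hs : s.Prime) (hrs : r ≠ s) (hrG : r ∣ Nat.card ↥(Cfsg.Lie.chevF4.group F)) (hsG : s ∣ Nat.card ↥(Cfsg.Lie.chevF4.group F)) :
    (¬ ∃ x : ↥(Cfsg.Lie.chevF4.group F), orderOf x = r * s) ↔
      ((r = 2 ∧ orderOf ((Fintype.card F : ℕ) : ZMod s) ∈ ({8, 12} : Finset ℕ)) ∨ (s = 2 ∧ orderOf ((Fintype.card F : ℕ) : ZMod r) ∈ ({8, 12} : Finset ℕ)) ∨
       (r ≠ 2 ∧ s ≠ 2 ∧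
         ((orderOf ((Fintype.card F : ℕ) : ZMod r) < orderOf ((Fintype.card F : ℕ) : ZMod s) ∧ (orderOf ((Fintype.card F : ℕ) : ZMod s) ∈ ({8, 12} : Finset ℕ) ∨ (orderOf ((Fintype.card F : ℕ) : ZMod s) = 6 ∧ orderOf ((Fintype.card F : ℕ) : ZMod r) ∈ ({3, 4} : Finset ℕ)) ∨ (orderOf ((Fintype.card F : ℕ) : ZMod s) = 4 ∧ orderOf ((Fintype.card F : ℕ) : ZMod r) = 3))) ∨
          (orderOf ((Fintype.card F : ℕ) : ZMod s) < orderOf ((Fintype.card F : ℕ) : ZMod r) ∧ (orderOf ((Fintype.card F : ℕ) : ZMod r) ∈ ({8, 12} : Finset ℕ) ∨ (orderOf ((Fintype.card F : ℕ) : ZMod r) = 6 ∧ orderOf ((Fintype.card F : ℕ) : ZMod s) ∈ ({3, 4} : Finset ℕ)) ∨ (orderOf ((Fintype.card F : ℕ) : ZMod r) = 4 ∧ orderOf ((Fintype.card F : ℕ) : ZMod s) = 3)))))) := by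
  have : CharP F 2 := charP_of_card_eq_prime_pow hF
  obtain ⟨L⟩ := CF.BN.exists_LS_F4 F 2
  rw [CF.Chev.cardF4 F Nat.card_eq_fintype_card] at hrG hsG
  have h0 : ∀ r, r.Prime → r ≠ 2 → r ∣ Fintype.card F ^ 24 * (Fintype.card F ^ 2 - 1) *
      (Fintype.card F ^ 6 - 1) * (Fintype.card F ^ 8 - 1) * (Fintype.card F ^ 12 - 1) →
      orderOf ((Fintype.card F : ℕ) : ZMod r) ∈ [1, 2, 3, 4, 6, 8, 12] := fun r hr h2 h => by
    have key : ∀ k, r ∣ Fintype.card F ^ k - 1 → orderOf ((Fintype.card F : ℕ) : ZMod r) ∣ k :=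
      fun k h => orderOf_dvd_of_pow_eq_one (by
        simpa [Nat.one_le_pow k _ Fintype.card_pos, sub_eq_zero] using
          (ZMod.natCast_eq_zero_iff _ _).2 h)
    have h1 : ∀ e, e ∣ 8 ∨ e ∣ 12 → e ∈ [1, 2, 3, 4, 6, 8, 12] := fun e h => by
      have : e ≤ 12 := h.elim (fun h => (Nat.le_of_dvd (by decide) h).trans (by decide))
        (Nat.le_of_dvd (by decide))
      revert h; revert e; decide
    simp only [hr.dvd_mul] at h
    rcases h with (((h | h) | h) | h) | h
    · rw [hF, ← pow_mul] at h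
      exact absurd ((Nat.prime_dvd_prime_iff_eq hr Nat.prime_two).1 (hr.dvd_of_dvd_pow h)) h2
    exacts [h1 _ (.inl ((key _ h).trans (by decide))), h1 _ (.inr ((key _ h).trans (by decide))),
      h1 _ (.inl (key _ h)), h1 _ (.inr (key _ h))]
  rcases eq_or_ne r 2 with rfl | h1
  · rw [L.adj_F4' hs hrs.symm hrs.symm]
    have := h0 s hs hrs.symm hsG
    simp only [hrs.symm, false_and, ne_eq, not_true, or_false, true_and]
    generalize orderOf ((Fintype.card F : ℕ) : ZMod s) = e at *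
    revert this; revert e; decide
  rcases eq_or_ne s 2 with rfl | h2
  · rw [mul_comm, L.adj_F4' hr hrs hrs]
    have := h0 r hr hrs hrG
    simp only [hrs, false_and, ne_eq, not_true, or_false, true_and, false_or, and_false]
    generalize orderOf ((Fintype.card F : ℕ) : ZMod r) = e at *
    revert this; revert e; decide
  rw [L.adj_F4 hr hs hrs h1 h2 h1 h2]
  have h3 := h0 r hr h1 hrG
  have h4 := h0 s hs h2 hsG
  simp only [h1, h2, false_and, ne_eq, not_false_eq_true, false_or, true_and]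
  generalize orderOf ((Fintype.card F : ℕ) : ZMod r) = e at *
  generalize orderOf ((Fintype.card F : ℕ) : ZMod s) = e' at *
  revert h4; revert e'; revert h3; revert e; decide

end Cfsg.Agent.S2525
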