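import Cfsg.Statements.S2556
import Cfsg.Agent.BN.SzPA

set_option autoImplicit false
open Cfsg

namespace Cfsg.Agent.S2556

/-- Let S be a Sylow 2-subgroup of the Suzuki group Sz(q), q = 2ⁿ with n = 2m + 1 ≥ 3 (realised as 4 × 4 matrices over the field with q elements). Then the largest normal 2-subgroup of the automorphism group of S is elementary abelian of order 2^(n²), and the automorphism group of S has order 2^(n²) · n · (q − 1). -/
theorem result {S : Type*} [Group S] [Finite S] (m : ℕ) (hm : 1 ≤ m)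
    {F : Type*} [Field F] [Fintype F] (hF : Fintype.card F = 2 ^ (2 * m + 1))
    (P : Sylow 2 ↥(Cfsg.Lie.Sz F (2 ^ (m + 1)))) (hS : Nonempty (S ≃* ↥(P : Subgroup ↥(Cfsg.Lie.Sz F (2 ^ (m + 1)))))) :
    Cfsg.IsElementaryAbelian 2 (Cfsg.pCore 2 (MulAut S)) ∧ Nat.card ↥(Cfsg.pCore 2 (MulAut S)) = 2 ^ ((2 * m + 1) ^ 2) ∧
      Nat.card (MulAut S) = 2 ^ ((2 * m + 1) ^ 2) * ((2 * m + 1) * (2 ^ (2 * m + 1) - 1)) := by
  obtain ⟨e⟩ := hS
  obtain ⟨g, hg⟩ := (CF.BN.Suz.lieD F m hF).exists_conj_U_eq P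
  set D := (CF.BN.Suz.lieD F m hF).conj g
  let f : F × F → D.U := fun x => ⟨D.u x.1 x.2, D.u_mem_U _ _⟩
  have hf : Function.Bijective f := ⟨fun x y h => Prod.ext_iff.2 (D.u_inj.1 (congrArg Subtype.val h)),
    fun ⟨_, a, b, h⟩ => ⟨(a, b), Subtype.ext h.symm⟩⟩
  let e' : D.U ≃* S := (MulEquiv.subgroupCongr hg).trans e.symm
  let Q : CF.BN.Suz.SzP (CF.BN.Suz.titsOfCard F m hF) S :=
    ⟨(Equiv.ofBijective f hf).trans e'.toEquiv, fun a b c d => by
      change e' (f (a, b)) * e' (f (c, d)) = e' (f _)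
      rw [← map_mul]
      exact congrArg e' (Subtype.ext (D.u_mul a b c d))⟩
  exact Q.main (Nat.card_eq_fintype_card.trans hF) (odd_two_mul_add_one m) (CF.BN.Suz.two_lt_card hm hF)

end Cfsg.Agent.S2556
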