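import Cfsg.Statements.S2560
import Cfsg.Agent.Cls.KO8
import Cfsg.Agent.S4200

set_option autoImplicit false
open Cfsg

namespace Cfsg.Agent.S2560

open CF.Cls CF.Geom


/-- The number of conjugacy classes of Ω(2n+1,q), q odd, n ≥ 2: for F a finite field of odd order q, the number k of conjugacy classes of the commutator subgroup of the isometry group of the quadratic form x₀² + Σ xᵢyᵢ on F^{2n+1} satisfies q^n/2 ≤ k ≤ 7.3·q^n. -/
theorem result {F : Type*} [Field F] [Fintype F] (hodd : Odd (Fintype.card F)) (n : ℕ) (hn : 2 ≤ n) :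
    Fintype.card F ^ n ≤ 2 * Nat.card (ConjClasses ↥(Cfsg.Omega F (Cfsg.quadFormOdd n F))) ∧
      10 * Nat.card (ConjClasses ↥(Cfsg.Omega F (Cfsg.quadFormOdd n F))) ≤ 73 * Fintype.card F ^ n := by
  have h2 := two_ne_zero_of_odd_card hodd
  have hQ := qOdd_nondegenerate h2 n
  have hV : Module.finrank F (Unit ⊕ Fin n ⊕ Fin n → F) = 2 * n + 1 := by simp; omega
  have : Finite ((Unit ⊕ Fin n ⊕ Fin n → F) ≃ₗ[F] (Unit ⊕ Fin n ⊕ Fin n → F)) := DFunLike.finite _
  rw [show Nat.card (ConjClasses ↥(Cfsg.Omega F (Cfsg.quadFormOdd n F))) = _ from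
    card_conj_congr (omegaEquiv (qOdd n F)), ← Nat.card_eq_fintype_card]
  refine ⟨?_, card_commutator_le h2 hQ (by omega) hV⟩
  have h1 := (Cfsg.Agent.S4200.result (commutator (OG (qOdd n F)))).2.1
  have h3 := le_card_OG_odd h2 hQ hV
  rw [index_commutator_odd hQ h2 (by omega)] at h1
  omega

end Cfsg.Agent.S2560
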