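import Cfsg.Statements.S2796
import Cfsg.Agent.Sig.S4H

set_option autoImplicit false
universe u
open Cfsg

namespace Cfsg.Agent.S2796

/-- Let G be a finite group in which the symmetric group of degree 4 is not involved, such that for every section K/R of G with C(O₂(K/R)) ≤ O₂(K/R) every non-abelian composition factor of K/R is a Suzuki group Sz(2^(2n+1)) or PSL₂ over a field with 3^(2n+1) elements. Let S be a Sylow 2-subgroup, J_e(S) the subgroup generated by its elementary abelian subgroups of largest order, and A the normal closure of Ω₁(Z(S)) in N_G(J_e(S)). Then A is an elementary abelian subgroup of S, strongly closed in S with respect to G, and A controls strong fusion in G. -/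
theorem result {G : Type u} [Group G] [Finite G] (hfree : ¬ Cfsg.Involves (Equiv.Perm (Fin 4)) G) (hsec : ∀ (K R : Subgroup G) [hR : (R.subgroupOf K).Normal], Subgroup.centralizer (Cfsg.pCore 2 (K ⧸ R.subgroupOf K) : Set (K ⧸ R.subgroupOf K)) ≤ Cfsg.pCore 2 (K ⧸ R.subgroupOf K) → Cfsg.IsCompositionKGroupWith Cfsg.IsSuzukiOrPSL2OddPowerThree (K ⧸ R.subgroupOf K)) (S : Sylow 2 G) (N : Subgroup G) (hN : N = Subgroup.normalizer (Cfsg.thompsonSubgroupOf 2 (S : Subgroup G) : Set G)) (A : Subgroup G) (hA : A = (Subgroup.normalClosure (((Cfsg.omegaOne 2 ((S : Subgroup G) ⊓ Subgroup.centralizer ((S : Subgroup G) : Set G))).subgroupOf N : Subgroup ↥N) : Set ↥N)).map N.subtype) : A ≤ S ∧ Cfsg.IsElementaryAbelian 2 A ∧ Cfsg.IsStronglyClosed A (S : Subgroup G) ∧ Cfsg.ControlsStrongFusion 2 A := by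
  have h : CF.Sig.Sec2 G := by
    rintro Y _ _ ⟨K, R, hR, ⟨e⟩⟩ c
    have c' := CF.Transfer.IsCharPGroup.of_equiv c e.symm
    exact (CF.Sig.fr3_top (CF.Sig.not_inv_of_charP c' fun i => hfree
      (CF.Transfer.involves_trans i (CF.Transfer.involves_section K R))) (hsec K R c')).of_involves
      (CF.Transfer.involves_of_equiv e)
  have s := CF.BG.syl_sylow_top S
  rw [CF.Sig.map_normalClosure ((CF.BG.Om_le 2 _).trans (inf_le_left.trans (hN ▸
    (CF.BG.le_norm_self _).trans (CF.PLocal.normalizer_le_normalizer_thompson 2 _)))), hN] at hA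
  obtain ⟨a, sc⟩ := h.sc s hA
  refine ⟨sc.1, a.isEA, sc, S, sc.1, fun B hB => ⟨hB, fun g hg => ?_⟩⟩
  obtain ⟨n, hn, c, hc, rfl⟩ := h.ctrl (g := g) (B := Subgroup.closure B) s hA
    ((Subgroup.closure_le _).2 hB) (by
      rw [CF.BG.cj, MonoidHom.map_closure]
      exact (Subgroup.closure_le _).2 hg)
  refine ⟨n, hn, fun x hx => ?_⟩
  rw [show n * c * x * (n * c)⁻¹ = n * (c * x * c⁻¹) * n⁻¹ by group,
    ← CF.BG.mem_cent.1 hc x (Subgroup.subset_closure hx), mul_inv_cancel_right]

end Cfsg.Agent.S2796
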