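import Cfsg.Statements.S2896
import Cfsg.Agent.Loc.SPE
-- import your own Cfsg.Agent.* helpers here

set_option autoImplicit false
open Cfsg

namespace Cfsg.Agent.S2896

open Cfsg CF.Loc Subgroup
open scoped commutatorElement


/-- Let p be a prime dividing the order of the finite group G, S a Sylow p-subgroup of G and X a subgroup of S. (i) If some nontrivial element z of the centre of X has F*(C_G(z)) = O_p(C_G(z)), then F*(N_G(X)) = O_p(N_G(X)). (ii) G has parabolic characteristic p if and only if F*(C_G(z)) = O_p(C_G(z)) for every nontrivial z ∈ Ω₁(Z(S)). (iii) If F*(C_G(z)) = O_p(C_G(z)) for every element z of S of order p, then G has local characteristic p. -/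
theorem result {G : Type*} [Group G] [Finite G] {p : ℕ} [Fact p.Prime] (hdiv : p ∣ Nat.card G) (S : Sylow p G) (X : Subgroup G) (hX : X ≤ (S : Subgroup G)) : (∀ z : G, z ≠ 1 → z ∈ X → (∀ x ∈ X, x * z = z * x) → Cfsg.generalizedFittingSubgroup ↥(Subgroup.centralizer ({z} : Set G)) = Cfsg.pCore p ↥(Subgroup.centralizer ({z} : Set G)) → Cfsg.generalizedFittingSubgroup ↥(Subgroup.normalizer (X : Set G)) = Cfsg.pCore p ↥(Subgroup.normalizer (X : Set G))) ∧ (Cfsg.IsOfParabolicCharacteristic p G ↔ ∀ z : G, z ≠ 1 → z ∈ Cfsg.omegaOne p ((S : Subgroup G) ⊓ Subgroup.centralizer ((S : Subgroup G) : Set G)) → Cfsg.generalizedFittingSubgroup ↥(Subgroup.centralizer ({z} : Set G)) = Cfsg.pCore p ↥(Subgroup.centralizer ({z} : Set G))) ∧ ((∀ z : G, z ∈ (S : Subgroup G) → orderOf z = p → Cfsg.generalizedFittingSubgroup ↥(Subgroup.centralizer ({z} : Set G)) = Cfsg.pCore p ↥(Subgroup.centralizer ({z} : Set G))) → Cfsg.IsOfLocalCharacteristic p G) := by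
  simp only [← isCharP_iff_fstar]
  refine ⟨fun z _ h1 h2 h3 => isCharP_normalizer_of_elt (S.isPGroup'.to_le hX) h1
    (mem_centralizer_iff'.2 h2) h3, ?_, fun h => ⟨hdiv, fun T hT h1 => ?_⟩⟩
  · rw [parabolic_iff_centralizer (isSyl_top S), omegaOneCenter_def]
    exact ⟨fun h z a b => h z b a, fun h z a b => h z b a⟩
  · rw [← isCharP_iff]
    obtain ⟨g, -, hg⟩ := (isSyl_top S).exists_cj_le hT le_top
    obtain ⟨z, ⟨hz1, hz2⟩, hz⟩ := exists_orderOf_eq_of_isPGroup
      (hT.to_inf_left (K := 𝐂(T))) (center_ne_bot hT h1)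
    have := isCharP_centralizer_elt_cj (h _ (hg (conj_mem_cj g hz1))
      (by rw [CF.Loc.orderOf_conj, hz])) g⁻¹
    rw [show g⁻¹ * (g * z * g⁻¹) * g⁻¹⁻¹ = z by group] at this
    exact isCharP_normalizer_of_elt hT hz1 hz2 this

end Cfsg.Agent.S2896
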