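import Cfsg.Statements.S2898
import Cfsg.Agent.Loc.SPE
-- import your own Cfsg.Agent.* helpers here

set_option autoImplicit false
open Cfsg

namespace Cfsg.Agent.S2898

open Cfsg CF.Loc Subgroup
open scoped commutatorElement


/-- Let G be a finite group of even order with parabolic characteristic 2. If the centre of G ⧸ O(G) is trivial, then O(G) = 1. -/
theorem result {G : Type*} [Group G] [Finite G] (h2 : 2 ∣ Nat.card G) (hG : Cfsg.IsOfParabolicCharacteristic 2 G) [hN : (Cfsg.oddCore G).Normal] (hZ : Subgroup.center (G ⧸ Cfsg.oddCore G) = ⊥) : Cfsg.oddCore G = ⊥ := by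
  by_contra hne
  obtain ⟨T, hT⟩ := exists_isSyl 2 (⊤ : Subgroup G)
  have hT1 := hT.ne_bot_iff.2 (by rwa [card_top])
  have hc : (Nat.card (oddCore G)).Coprime 2 := CF.Solv.pPrimeCore_coprime
  have key : ∀ z ∈ omegaOneCenter 2 T, z ≠ 1 → oddCore G ⊓ centralizer {z} = ⊥ := by
    intro z hz h1
    have h := (parabolic_iff_centralizer hT).1 hG z hz h1
    have h3 : (Nat.card ↥(oddCore G ⊓ centralizer {z})).Coprime 2 :=
      Nat.Coprime.coprime_dvd_left (card_dvd_of_le inf_le_left) hc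
    have h4 : oddCore G ⊓ centralizer {z} ≤ pCoreOf 2 (centralizer {z}) := by
      refine h.le_pCoreOf inf_le_right (commutator_eq_bot_iff_le_centralizer'.1 ?_)
      rw [eq_bot_iff, ← inf_eq_bot_of_coprime_card (isPGroup_pCoreOf 2 (centralizer {z})) h3]
      exact commutator_le_inf_of_normalize (inf_le_right.trans (le_normalizer_pCoreOf _ _))
        (le_normalizer_inf (le_normalizer_of_normal' _ _) ((pCoreOf_le _ _).trans le_normalizer))
    have := inf_eq_bot_of_coprime_card (isPGroup_pCoreOf 2 (centralizer {z})) h3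
    rwa [inf_of_le_right h4] at this
  have hCn : (𝐂(oddCore G)).Normal := normal_of_top_le_normalizer
    (le_normalizer_centralizer (le_normalizer_of_normal' _ _))
  have hC : 𝐂(oddCore G) ≤ oddCore G := by
    apply CF.Solv.le_pPrimeCore
    rw [Nat.coprime_comm, Nat.prime_two.coprime_iff_not_dvd]
    intro hd
    have h1 : IsSyl 2 (T ⊓ 𝐂(oddCore G)) 𝐂(oddCore G) := hT.inf_normal
    obtain ⟨z, ⟨⟨hz1, hz2⟩, hz3⟩, hz⟩ := exists_orderOf_eq_of_isPGroup
      (h1.isPGroup.to_inf_left (K := 𝐂(T))) (inf_centralizer_ne_bot h1.isPGroup hT.isPGroup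
        (le_normalizer_inf le_normalizer (le_normalizer_of_normal' _ _)) (h1.ne_bot_iff.2 hd))
    have := key z (mem_omegaOneCenter.2 ⟨hz1, hz3, hz ▸ pow_orderOf_eq_one z⟩)
      (by rintro rfl; simp at hz)
    rw [← centralizer_zpowers, inf_of_le_left (le_centralizer_comm.1 (zpowers_le.2 hz2))] at this
    exact hne this
  obtain ⟨z, hz, hz1⟩ := (omegaOneCenter 2 T).bot_or_exists_ne_one.resolve_left
    (omegaOneCenter_ne_bot hT.isPGroup hT1)
  have hz2 := (mem_omegaOneCenter.1 hz).2.2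
  have inv : ∀ k ∈ oddCore G, z * k * z⁻¹ = k⁻¹ := fun k hk =>
    CF.Coprime.fpf_conj_eq_inv (le_normalizer_of_normal' ⊤ _ (mem_top z)) (key z hz hz1)
      (by rw [hz2]; exact one_mem _) hk
  have : (z : G ⧸ oddCore G) ∈ center (G ⧸ oddCore G) := by
    rw [mem_center_iff]
    intro g
    obtain ⟨g, rfl⟩ := QuotientGroup.mk_surjective g
    rw [← QuotientGroup.mk_mul, ← QuotientGroup.mk_mul, QuotientGroup.eq]
    apply hC
    refine mem_centralizer_of_conj_eq fun k hk => ?_
    have a := inv _ (hN.conj_mem k hk g)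
    have b := inv k⁻¹ (inv_mem hk)
    calc (g * z)⁻¹ * (z * g) * k * ((g * z)⁻¹ * (z * g))⁻¹
        = z⁻¹ * g⁻¹ * (z * (g * k * g⁻¹) * z⁻¹) * g * z := by group
      _ = z⁻¹ * k⁻¹ * z := by rw [a]; group
      _ = z⁻¹ * (z * k * z⁻¹) * z := by rw [inv k hk]
      _ = k := by group
  rw [hZ, mem_bot, QuotientGroup.eq_one_iff] at this
  exact hz1 (eq_one_of_coprime_of_mem hT.isPGroup (omegaOneCenter_le _ _ hz)
    (orderOf_coprime_of_mem hc this))

end Cfsg.Agent.S2898
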