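import Cfsg.Statements.S2905
import Cfsg.Agent.Loc.PMin2
-- import your own Cfsg.Agent.* helpers here

set_option autoImplicit false
open Cfsg

namespace Cfsg.Agent.S2905

open Cfsg CF.Loc Subgroup
open scoped commutatorElement


/-- Let P be a finite p-minimal group (a Sylow p-subgroup S is not normal and lies in a unique maximal subgroup M of P) and let F be the normal core of M. Then: every subnormal subgroup N of P contained in M satisfies N ∩ S ≤ O_p(P); if O^p(P) has a normal Sylow p-subgroup then the order of P has at most two prime divisors; every normal subgroup N of P either contains O^p(P) or is contained in F; and O^p(P)F ⧸ F is a minimal normal subgroup of P ⧸ F. -/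
theorem result {P : Type*} [Group P] [Finite P] {p : ℕ} [Fact p.Prime] (hP : Cfsg.IsPMinimal p P) (S : Sylow p P) (M : Subgroup P) (hM : IsCoatom M) (hSM : (S : Subgroup P) ≤ M) [hF : M.normalCore.Normal] : (∀ N : Subgroup P, N.IsSubnormal → N ≤ M → N ⊓ (S : Subgroup P) ≤ Cfsg.pCore p P) ∧ ((∀ T : Sylow p ↥(Cfsg.pResidual p P), (T : Subgroup ↥(Cfsg.pResidual p P)).Normal) → (Nat.card P).primeFactors.card ≤ 2) ∧ (∀ N : Subgroup P, N.Normal → Cfsg.pResidual p P ≤ N ∨ N ≤ M.normalCore) ∧ (∀ N : Subgroup P, N.Normal → M.normalCore ≤ N → N ≤ Cfsg.pResidual p P ⊔ M.normalCore → N = M.normalCore ∨ N = Cfsg.pResidual p P ⊔ M.normalCore) ∧ M.normalCore < Cfsg.pResidual p P ⊔ M.normalCore := by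
  obtain ⟨h, hn⟩ := uMax_top_of_isPMinimal hP S hM hSM
  have hS := isSyl_top S
  have k : ∀ N : Subgroup P, N.Normal → pResidual p P ≤ N ∨ N ≤ M.normalCore := fun N _ =>
    (h.le_or_le hS.isPGroup le_top (le_normalizer_of_normal' _ N)).imp
      (fun c => pResidualOf_top p P ▸ c) normal_le_normalCore.2
  refine ⟨fun N h1 h2 => ?_, fun hc => ?_, k, fun N h1 h2 h3 => ?_, ?_⟩
  · rw [← pCoreOf_top]
    exact (h.pClosed_of_sn hS.isPGroup h2 (sn_top_iff.2 h1)).le_pCoreOf_of_sn (sn_top_iff.2 h1)
      (hS.isPGroup.to_le inf_le_right) inf_le_left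
  · have hc' : PClosed p 𝐑[p]((⊤ : Subgroup P)) := by
      rw [pResidualOf_top]
      obtain ⟨T⟩ : Nonempty (Sylow p (pResidual p P)) := inferInstance
      haveI := hc T
      exact pClosed_of_syl (isSyl_map T) (le_normalizer_map_subtype _)
    obtain ⟨q, hq, U, a, b, c⟩ := h.exists_pq hS hc'
    haveI := Fact.mk hq
    have d1 := card_sup_dvd (Or.inr b)
    have d2 := card_sup_dvd (Or.inl ((le_top : U ≤ ⊤).trans (le_normalizer_pCoreOf p ⊤)))
    rw [c, card_top] at d1
    obtain ⟨i, hi⟩ := IsPGroup.iff_card.1 a.isPGroup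
    obtain ⟨j, hj⟩ := IsPGroup.iff_card.1 (isPGroup_pCoreOf p (⊤ : Subgroup P))
    obtain ⟨l, hl⟩ := IsPGroup.iff_card.1 hS.isPGroup
    have d3 := d1.trans (Nat.mul_dvd_mul_right d2 _)
    rw [hi, hj, hl] at d3
    refine le_trans (Finset.card_le_card (t := {p, q}) fun r hr => ?_) Finset.card_le_two
    have hr' := Nat.prime_of_mem_primeFactors hr
    have d4 := (Nat.dvd_of_mem_primeFactors hr).trans d3
    simp only [Finset.mem_insert, Finset.mem_singleton]
    rcases (hr'.dvd_mul.1 d4) with d | d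
    · rcases (hr'.dvd_mul.1 d) with d | d
      · exact Or.inr ((Nat.prime_dvd_prime_iff_eq hr' hq).1 (hr'.dvd_of_dvd_pow d))
      · exact Or.inl ((Nat.prime_dvd_prime_iff_eq hr' Fact.out).1 (hr'.dvd_of_dvd_pow d))
    · exact Or.inl ((Nat.prime_dvd_prime_iff_eq hr' Fact.out).1 (hr'.dvd_of_dvd_pow d))
  · rcases k N h1 with c | c
    · exact Or.inr (le_antisymm h3 (sup_le c h2))
    · exact Or.inl (le_antisymm c h2)
  · refine lt_of_le_of_ne le_sup_right fun e => h.not_pResidualOf_le hS ?_
    rw [pResidualOf_top]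
    exact (le_sup_left.trans e.ge).trans (normalCore_le M)

end Cfsg.Agent.S2905
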