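import Cfsg.Statements.S2906
import Cfsg.Agent.Loc.PMin2
-- import your own Cfsg.Agent.* helpers here

set_option autoImplicit false
open Cfsg

namespace Cfsg.Agent.S2906

open Cfsg CF.Loc Subgroup
open scoped commutatorElement


/-- Let P be a finite p-minimal group with O_p(P) = 1, S a Sylow p-subgroup of P and K a component of P. Then O^p(P) = F*(P) = E(P) is generated by the S-conjugates of K, and the subgroup K·N_S(K) is again p-minimal. -/
theorem result {P : Type*} [Group P] [Finite P] {p : ℕ} [Fact p.Prime] (hP : Cfsg.IsPMinimal p P) (hOp : Cfsg.pCore p P = ⊥) (S : Sylow p P) (K : Subgroup P) (hK : Cfsg.IsComponent K) : Cfsg.pResidual p P = Cfsg.generalizedFittingSubgroup P ∧ Cfsg.generalizedFittingSubgroup P = Cfsg.layer P ∧ Cfsg.layer P = ⨆ s : ↥(S : Subgroup P), K.map (MulAut.conj (s : P)).toMonoidHom ∧ Cfsg.IsPMinimal p ↥(K ⊔ ((S : Subgroup P) ⊓ Subgroup.normalizer (K : Set P))) := by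
  obtain ⟨M, ⟨hM, hSM⟩, -⟩ := (hP S).2
  obtain ⟨h, hn⟩ := uMax_top_of_isPMinimal hP S hM hSM
  have hS := isSyl_top S
  have hs : Sn K ⊤ := sn_top_iff.2 hK.1
  have hperf := CF.Sig.comp_perfect hK
  have hKM : ¬ K ≤ M := fun c => by
    haveI := h.isNilpotent_of_sn hS.isPGroup hOp c hs
    exact CF.Sig.qs_not_isSolvable hK.2 inferInstance
  have gen : ∀ K₀ ≤ K, ¬ ncl K₀ S ≤ M → 𝐑[p]((⊤ : Subgroup P)) ≤ ncl K₀ S := fun K₀ _ c => by
    rw [← h.eq_of_not_le (X := ncl K₀ S ⊔ S) le_sup_right le_top fun d => c (le_sup_left.trans d)]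
    exact pResidualOf_sup_le hS.isPGroup (le_normalizer_ncl _ _)
  have h1 : ncl K S ≤ layer P :=
    ncl_le (CF.Sig.comp_le_layer hK) (le_normalizer_of_normal' _ _)
  have h2 := gen K le_rfl fun c => hKM ((le_ncl _ _).trans c)
  rw [pResidualOf_top] at h2
  have h3 := fstar_le_pResidual hOp
  have h4 : layer P ≤ generalizedFittingSubgroup P := CF.Sig.layer_le_fstar
  refine ⟨le_antisymm (h2.trans (h1.trans h4)) h3, le_antisymm (h3.trans (h2.trans h1)) h4,
    le_antisymm (h4.trans (h3.trans h2)) h1, ?_⟩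
  set S₀ := (S : Subgroup P) ⊓ 𝐍(K) with hS₀
  have s1 : IsSyl p S₀ (K ⊔ S₀) := by
    rw [sup_comm]
    exact (isSyl_self (hS.isPGroup.to_le inf_le_left)).sup_of_normal (hs.isSyl_inf hS)
      (inf_le_inf le_rfl le_normalizer) (Or.inl inf_le_right)
  have u : UMax S₀ ((K ⊔ S₀) ⊓ M) (K ⊔ S₀) := by
    refine ⟨le_inf le_sup_right (inf_le_left.trans hSM), lt_of_le_of_ne inf_le_left
      fun e => hKM (le_sup_left.trans (inf_eq_left.1 e)), fun X a b => le_inf b.le ?_⟩
    have e := sup_inf_of_le_normalizer_right (N := K) (H := S₀) inf_le_right a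
    rw [inf_eq_right.2 b.le] at e
    by_contra c
    have c1 : ¬ ncl (K ⊓ X) S ≤ M := fun d => c
      (e.le.trans (sup_le ((le_ncl _ _).trans d) (inf_le_left.trans hSM)))
    have c2 := gen _ inf_le_left c1
    have c3 : ncl (K ⊓ X) S ≤ (K ⊓ X) ⊔ 𝐂(K) := by
      refine ncl_le_iff.2 fun s hs => ?_
      by_cases d : cj[s] K = K
      · exact le_sup_of_le_left (cj_le_of_mem_normalizer (le_normalizer_inf inf_le_right
          (a.trans le_normalizer) (show s ∈ S₀ from ⟨hs, cj_eq_self_iff.1 d⟩)) le_rfl)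
      · exact le_sup_of_le_right ((cj_mono s inf_le_left).trans
          (commutator_eq_bot_iff_le_centralizer.1 (CF.Sig.comp_commutator_eq_bot_of_ne
            (CF.Sig.comp_map_conj hK s) hK d)))
    have c4 : K ≤ (K ⊓ X) ⊔ 𝐂(K) :=
      (le_pResidualOf_of_perfect hperf le_top).trans (c2.trans c3)
    have n1 : 𝐂(K) ≤ 𝐍(K ⊓ X) := centralizer_le_normalizer_of_le inf_le_left
    have c5 : ⁅K, K ⊓ X⁆ ≤ K ⊓ X := commutator_le_right_of_le_normalizer
      (c4.trans (sup_le le_normalizer n1))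
    have c6 : K ≤ K ⊓ X := by
      refine hperf.ge.trans ((commutator_mono le_rfl c4).trans
        (commutator_sup_right_le le_normalizer n1 c5 ?_))
      rw [commutator_eq_bot_iff_le_centralizer'.2 le_rfl]; exact bot_le
    exact b.not_ge (sup_le (c6.trans inf_le_right) a)
  refine isPMinimal_of_uMax u s1 fun c => ?_
  obtain ⟨x, hx, hx'⟩ := SetLike.not_le_iff_exists.1 hKM
  have e := u.eq_of_not_le (X := S₀ ⊔ zpowers x) le_sup_left
    (sup_le le_sup_right (le_sup_of_le_left (zpowers_le.2 hx)))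
    fun d => hx' (d (mem_sup_right (mem_zpowers x))).2
  have n : zpowers x ≤ 𝐍(S₀) := (le_sup_of_le_left (zpowers_le.2 hx)).trans c
  have d1 : ⁅S₀ ⊔ zpowers x, S₀ ⊔ zpowers x⁆ ≤ S₀ := by
    refine commutator_sup_left_le le_normalizer n
      (commutator_le_left_of_le_normalizer (sup_le le_normalizer n))
      (commutator_sup_right_le le_normalizer n (commutator_le_right_of_le_normalizer n) ?_)
    rw [commutator_eq_bot_iff_le_centralizer.2 le_centralizer_of_isMulCommutative]
    exact bot_le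
  rw [e] at d1
  exact hKM (hperf.ge.trans (((commutator_mono le_sup_left le_sup_left).trans d1).trans
    (inf_le_left.trans hSM)))

end Cfsg.Agent.S2906
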