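import Cfsg.Statements.S2907
import Cfsg.Agent.Loc.Iso
import Cfsg.Agent.Fgs1.PGroup
-- import your own Cfsg.Agent.* helpers here

set_option autoImplicit false
open Cfsg

namespace Cfsg.Agent.S2907

open Cfsg CF.Loc Subgroup
open scoped commutatorElement


/-- Let X be a finite semi-extraspecial p-group and x an element of X outside the centre. Then the index of C_X(x) in X equals the order of Z(X), and the commutators [x, y], y ∈ X, form exactly the centre Z(X). -/
theorem result {X : Type*} [Group X] [Finite X] {p : ℕ} [Fact p.Prime] (hX : Cfsg.IsSemiExtraspecial p X) (x : X) (hx : x ∉ Subgroup.center X) : (Subgroup.centralizer ({x} : Set X)).index = Nat.card ↥(Subgroup.center X) ∧ {z : X | ∃ y : X, z = x * y * x⁻¹ * y⁻¹} = (Subgroup.center X : Set X) := by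
  obtain ⟨⟨hp, -, h1⟩, h2⟩ := hX
  have h3 : ∀ y, x * y * x⁻¹ * y⁻¹ ∈ center X := fun y =>
    h1.le (commutator_mem_commutator (mem_top x) (mem_top y))
  let f : X →* X := MonoidHom.mk' (fun y => x * y * x⁻¹ * y⁻¹) fun a b => by
    calc _ = x * a * x⁻¹ * a⁻¹ * (a * (x * b * x⁻¹ * b⁻¹)) * a⁻¹ := by group
      _ = _ := by rw [mem_center_iff.1 (h3 b) a]; group
  have h4 : f.ker = centralizer {x} := by
    ext y
    rw [MonoidHom.mem_ker, mem_centralizer_singleton_iff]
    change x * y * x⁻¹ * y⁻¹ = 1 ↔ _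
    rw [mul_inv_eq_one, mul_inv_eq_iff_eq_mul, eq_comm]
  have h5 : f.range ≤ center X := by rintro _ ⟨y, rfl⟩; exact h3 y
  have h6 : f.range = center X := by
    by_contra hne
    obtain ⟨M, hM, h7⟩ := (eq_top_or_exists_le_coatom (f.range.subgroupOf (center X))).resolve_left
      fun e => hne (le_antisymm h5 (subgroupOf_eq_top.1 e))
    have h8 : (M.map (center X).subtype).subgroupOf (center X) = M :=
      comap_map_eq_self_of_injective (subtype_injective _) M
    obtain ⟨hn, -, h9⟩ := h2 (M.map (center X).subtype) (map_subtype_le _) (by rwa [h8])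
    have h10 : (center X).map (QuotientGroup.mk' (M.map (center X).subtype)) = center _ := by
      refine eq_of_le_of_card_ge ?_ ?_
      · rintro _ ⟨z, hz, rfl⟩
        refine mem_center_iff.2 fun g => ?_
        obtain ⟨g, rfl⟩ := QuotientGroup.mk'_surjective _ g
        rw [← map_mul, ← map_mul, mem_center_iff.1 hz]
      · rw [h9, CF.Solv.card_map_mk', relIndex, h8,
          CF.Fgs1.index_eq_of_isCoatom (hp.to_subgroup _) hM]
    have h11 : QuotientGroup.mk' (M.map (center X).subtype) x ∈ center _ := by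
      refine mem_center_iff.2 fun g => ?_
      obtain ⟨g, rfl⟩ := QuotientGroup.mk'_surjective _ g
      rw [← map_mul, ← map_mul, eq_comm]
      refine QuotientGroup.eq_iff_div_mem.2 ?_
      have : x * g / (g * x) = f g := by
        change _ = x * g * x⁻¹ * g⁻¹
        rw [div_eq_mul_inv]; group
      rw [this]
      exact ⟨⟨_, h3 g⟩, h7 ⟨g, rfl⟩, rfl⟩
    rw [← h10, ← mem_comap, comap_map_eq, QuotientGroup.ker_mk',
      sup_of_le_left (map_subtype_le _)] at h11
    exact hx h11
  refine ⟨by rw [← h4, index_ker, h6], ?_⟩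
  rw [← h6]
  ext z
  exact ⟨fun ⟨y, e⟩ => ⟨y, e.symm⟩, fun ⟨y, e⟩ => ⟨y, e.symm⟩⟩

end Cfsg.Agent.S2907
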