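import Cfsg.Statements.S2908
import Cfsg.Agent.Loc.Misc
-- import your own Cfsg.Agent.* helpers here

set_option autoImplicit false
open Cfsg

namespace Cfsg.Agent.S2908

open Cfsg CF.Loc Subgroup
open scoped commutatorElement


/-- Let P be a p-subgroup of a finite group, normalized by a p-subgroup A and by a subgroup B of order prime to p that commutes elementwise with A. If [P, B] ≤ [P, A], then B centralizes P. -/
theorem result {G : Type*} [Group G] [Finite G] {p : ℕ} [Fact p.Prime] (P A B : Subgroup G) (hP : IsPGroup p ↥P) (hA : IsPGroup p ↥A) (hB : ¬ p ∣ Nat.card ↥B) (hnA : A ≤ Subgroup.normalizer (P : Set G)) (hnB : B ≤ Subgroup.normalizer (P : Set G)) (hAB : ⁅A, B⁆ = ⊥) (hcomm : ⁅P, B⁆ ≤ ⁅P, A⁆) : ⁅P, B⁆ = ⊥ := by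
  have hc : (Nat.card B).Coprime p :=
    ((Nat.Prime.coprime_iff_not_dvd Fact.out).2 hB).symm
  have hBA : B ≤ 𝐍(A) :=
    (commutator_eq_bot_iff_le_centralizer'.1 hAB).trans (centralizer_le_normalizer _)
  have hAB' : A ≤ 𝐍(B) :=
    (commutator_eq_bot_iff_le_centralizer.1 hAB).trans (centralizer_le_normalizer _)
  have hW : ⁅P, B⁆ ≤ P := commutator_le_left_of_le_normalizer hnB
  have hPA : IsPGroup p ↥(P ⊔ A) := by
    rw [sup_comm]; exact IsPGroup.to_sup_of_normal_right' hA hP hnA
  refine eq_bot_of_le_commutator hPA (hW.trans le_sup_left) le_rfl ?_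
  have h1 : ⁅⁅A, P⁆, B⁆ ≤ ⁅⁅P, B⁆, P ⊔ A⁆ := by
    refine three_subgroups (le_sup_right.trans (normalizer_commutator_ge_right _ _))
      (le_sup_left.trans (normalizer_commutator_ge_right _ _))
      (le_normalizer_commutator (normalizer_commutator_ge_right _ _) (le_normalizer_sup hnB hBA))
      (commutator_mono le_rfl le_sup_right) ?_
    rw [commutator_comm B A, hAB, commutator_bot_left]
    exact bot_le
  refine le_trans ?_ h1
  conv_lhs => rw [← commutator_commutator_of_coprime hP hnB hc]
  rw [commutator_comm A P]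
  exact commutator_mono hcomm le_rfl

end Cfsg.Agent.S2908
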