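import Cfsg.Statements.S2909
import Cfsg.Agent.Coprime.Misc

set_option autoImplicit false
open Cfsg

namespace Cfsg.Agent.S2909

/-- Let p be a prime, E a normal p-subgroup of the finite group G, and U a non-cyclic elementary abelian p-subgroup of G such that either C_E(U) = C_E(u) for every nontrivial u ∈ U, or [E, U] = [E, ⟨u⟩] for every nontrivial u ∈ U. If R is a subgroup of order prime to p normalized by U, then [R, U] centralizes E. -/
theorem result {G : Type*} [Group G] [Finite G] {p : ℕ} [Fact p.Prime] (E : Subgroup G) [E.Normal] (hE : IsPGroup p ↥E) (U : Subgroup G) (hU : Cfsg.IsElementaryAbelian p U) (hnc : ¬ IsCyclic ↥U) (hcond : (∀ u ∈ U, u ≠ 1 → E ⊓ Subgroup.centralizer (U : Set G) = E ⊓ Subgroup.centralizer ({u} : Set G)) ∨ (∀ u ∈ U, u ≠ 1 → ⁅E, U⁆ = ⁅E, Subgroup.zpowers u⁆)) (R : Subgroup G) (hR : ¬ p ∣ Nat.card ↥R) (hRU : U ≤ Subgroup.normalizer (R : Set G)) : ⁅R, U⁆ ≤ Subgroup.centralizer (E : Set G) := by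
  have hp : p.Prime := Fact.out
  have := hU.1
  have hUp := CF.Solv.isElementaryAbelian_isPGroup hU
  have hRp : (Nat.card R).Coprime p := (hp.coprime_iff_not_dvd.mpr hR).symm
  refine CF.Coprime.commutator_le_of_forall_centralizer U R hnc hRU
    (CF.Solv.coprime_card_of_isPGroup hUp hRp) _ fun u hu hu1 => ?_
  have hzU : Subgroup.zpowers u ≤ U := Subgroup.zpowers_le_of_mem hu
  have hn : U ≤ Subgroup.normalizer ((R ⊓ Subgroup.centralizer {u} : Subgroup G) : Set G) := by
    rw [← CF.Coprime.centralizer_zpowers_eq]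
    exact CF.Coprime.le_normalizer_inf hRU (CF.Coprime.le_normalizer_centralizer_of_comm hzU)
  have hle := CF.Coprime.commutator_le_of_le_normalizer hn
  have hQ : (Nat.card (⁅R ⊓ Subgroup.centralizer {u}, U⁆ : Subgroup G)).Coprime p :=
    hRp.coprime_dvd_left (Subgroup.card_dvd_of_le (hle.trans inf_le_left))
  have hPQ : Subgroup.zpowers u ≤
      Subgroup.centralizer ((⁅R ⊓ Subgroup.centralizer {u}, U⁆ : Subgroup G) : Set G) := by
    rw [Subgroup.le_centralizer_iff, CF.Coprime.centralizer_zpowers_eq]
    exact hle.trans inf_le_right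
  have hnz : R ⊓ Subgroup.centralizer {u} ≤ Subgroup.normalizer (Subgroup.zpowers u : Set G) := by
    rw [← CF.Coprime.centralizer_zpowers_eq]
    exact inf_le_right.trans (Subgroup.centralizer_le_normalizer _)
  rcases hcond with h | h
  · refine CF.Coprime.le_centralizer_of_pxq (Subgroup.zpowers u) _ E (hUp.to_le hzU) hQ hE hPQ
      Subgroup.le_normalizer_of_normal Subgroup.le_normalizer_of_normal ?_
    rw [Subgroup.le_centralizer_iff]
    refine CF.Coprime.commutator_le_centralizer_of_centralizes
      (CF.Coprime.le_normalizer_inf Subgroup.le_normalizer_of_normal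
        (CF.Coprime.le_normalizer_centralizer hnz)) ?_
    rw [CF.Coprime.centralizer_zpowers_eq, ← h u hu hu1, Subgroup.le_centralizer_iff]
    exact inf_le_right
  · refine CF.Coprime.le_centralizer_of_pxq_dual (Subgroup.zpowers u) _ E (hUp.to_le hzU) hQ hE
      hPQ Subgroup.le_normalizer_of_normal Subgroup.le_normalizer_of_normal ?_
    have h1 : R ⊓ Subgroup.centralizer {u} ≤
        Subgroup.normalizer ((⁅E, Subgroup.zpowers u⁆ : Subgroup G) : Set G) :=
      CF.Coprime.le_normalizer_commutator Subgroup.le_normalizer_of_normal hnz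
    rw [Subgroup.commutator_comm E]
    refine CF.Coprime.three_subgroups_le h1 ?_ (Subgroup.normalizer_commutator_ge_left _ _) ?_ ?_
    · rw [← h u hu hu1]; exact Subgroup.normalizer_commutator_ge_right _ _
    · rw [Subgroup.commutator_comm U E, h u hu hu1]
      exact CF.Coprime.commutator_le_of_le_normalizer h1
    · rw [← h u hu hu1]
      exact Subgroup.commutator_mono (Subgroup.commutator_le_left _ _) le_rfl

end Cfsg.Agent.S2909
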