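import Cfsg.Statements.S2912
import Cfsg.Agent.Xs.A
import Cfsg.Agent.Solv.Symplectic

set_option autoImplicit false
open Cfsg

namespace Cfsg.Agent.S2912


/-- Let p and r be distinct primes, let E be an extraspecial subgroup of order p^(2w+1) of a finite group, and let A be an elementary abelian r-subgroup normalized by E on which E acts faithfully (C_E(A) = 1). If n ≥ 1 is least with p dividing rⁿ − 1 (the smallest dimension of a faithful representation of a group of order p over the field with r elements), then the order of A is at least r^(n·p^w). -/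
theorem result {G : Type*} [Group G] [Finite G] {p r : ℕ} [Fact p.Prime] [hr : Fact r.Prime] (hpr : p ≠ r) (E A : Subgroup G) (w : ℕ) (hE : Cfsg.IsExtraspecial p ↥E) (hEcard : Nat.card ↥E = p ^ (2 * w + 1)) (hA : Cfsg.IsElementaryAbelian r A) (hnorm : E ≤ Subgroup.normalizer (A : Set G)) (hfaith : E ⊓ Subgroup.centralizer (A : Set G) = ⊥) (n : ℕ) (hn : 1 ≤ n) (hdiv : p ∣ r ^ n - 1) (hmin : ∀ k : ℕ, 1 ≤ k → p ∣ r ^ k - 1 → n ≤ k) : r ^ (n * p ^ w) ≤ Nat.card ↥A := by
    open CF.BG CF.BG2 in
    have hp : p.Prime := Fact.out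
    obtain ⟨k, cd, ce, na, ix, -, ez⟩ := extra_facts hp hE
    have a := Abelem.of_isEA hr.out hA
    have c := coprime_mono (k.coprime (a.pi.of_single_ne hpr.symm)) (der_le E) le_rfl
    have l := comm_le_left ((der_le E).trans hnorm)
    refine (CF.Xs.Alm.main hpr hmin w E _ ⟨hp, k, cd, der_le E, ce, le_rfl, fun x hx =>
      ez ▸ (CF.Solv.isExtraspecial_facts hE).2.2 x hx⟩ ?_ (norm_commutator hnorm (der_normal E).norm)
      (a.le l) (fun e => na (der_eq_bot.1 (eq_bot_mono hfaith (le_inf (der_le E) (comm_eq_bot'.1 e)))))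
      (a.abel.comm_inf_cent ((der_le E).trans hnorm) c)).trans (card_le l)
    rw [hEcard, pow_succ'] at ix
    exact (Nat.eq_of_mul_eq_mul_left hp.pos ix).ge

end Cfsg.Agent.S2912
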