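import Cfsg.Statements.S2917
import Cfsg.Agent.G23.Main
import Cfsg.Agent.Classical.Linear

set_option autoImplicit false
open Cfsg

namespace Cfsg.Agent.S2917

open Subgroup CF.Loc CF.Comp CF.Cod CF.Recog CF.Recog.U43 CF.G23


/-- Let G be a finite group with subgroups H and M such that: H has normal subgroups H₁, H₂ both isomorphic to SL₂(3) with H₁ ∩ H₂ = Z(H₁) = Z(H₂), the product H₁H₂ has index 2 in H, and H = C_G(H₁ ∩ H₂); and M ⧸ O₂(M) ≅ SL₃(2) with O₂(M) elementary abelian of order 8 containing Z(H₁). Then G is isomorphic to the Chevalley group G₂(3). -/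
theorem result {G : Type*} [Group G] [Finite G] (H H₁ H₂ M : Subgroup G) (h1 : H₁ ≤ H) (h2 : H₂ ≤ H) (hn1 : (H₁.subgroupOf H).Normal) (hn2 : (H₂.subgroupOf H).Normal) (hiso1 : Nonempty (↥H₁ ≃* Matrix.SpecialLinearGroup (Fin 2) (ZMod 3))) (hiso2 : Nonempty (↥H₂ ≃* Matrix.SpecialLinearGroup (Fin 2) (ZMod 3))) (hidx : (H₁ ⊔ H₂).relIndex H = 2) (hint1 : H₁ ⊓ H₂ = H₁ ⊓ Subgroup.centralizer (H₁ : Set G)) (hint2 : H₁ ⊓ H₂ = H₂ ⊓ Subgroup.centralizer (H₂ : Set G)) (hHC : H = Subgroup.centralizer ((H₁ ⊓ H₂ : Subgroup G) : Set G)) [hOM : (Cfsg.pCore 2 ↥M).Normal] (hM : Nonempty ((↥M ⧸ Cfsg.pCore 2 ↥M) ≃* Matrix.SpecialLinearGroup (Fin 3) (ZMod 2))) (hOel : Cfsg.IsElementaryAbelian 2 (Cfsg.pCore 2 ↥M)) (hOcard : Nat.card ↥(Cfsg.pCore 2 ↥M) = 8) (hZin : H₁ ⊓ H₂ ≤ (Cfsg.pCore 2 ↥M).map M.subtype) : ∃ (F : Type) (_ : Field F) (_ : Fintype F), Fintype.card F = 3 ∧ Nonempty (G ≃* ↥(Cfsg.Lie.chevG2.group F)) := by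
  obtain ⟨e₁⟩ := hiso1
  obtain ⟨e₂⟩ := hiso2
  obtain ⟨eM⟩ := hM
  have c1 : ∀ u : Matrix.SpecialLinearGroup (Fin 2) (ZMod 3), (∀ v, v * u = u * v) ↔ u = 1 ∨ u = -1 := by
    decide +kernel
  let z : G := e₁.symm (-1)
  have z1 : z ≠ 1 := fun e => absurd (e₁.symm.injective ((Subtype.ext e).trans (map_one _).symm))
    (by decide +kernel)
  have zz : z * z = 1 := congrArg Subtype.val (show e₁.symm (-1) * e₁.symm (-1) = 1 by
    rw [← map_mul, neg_mul_neg, one_mul, map_one])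
  have oz := CF.Invol.orderOf_eq_two_iff.2 ⟨zz, z1⟩
  have hm : H₁ ⊓ H₂ = zpowers z := hint1.trans (le_antisymm (fun u hu => by
    rcases (c1 (e₁ ⟨u, hu.1⟩)).1 (fun v => by
      obtain ⟨v, rfl⟩ := e₁.surjective v
      rw [← map_mul, ← map_mul]; exact congrArg e₁ (Subtype.ext (hu.2 v v.2))) with e | e
    · rw [show u = 1 from congrArg Subtype.val ((map_eq_one_iff e₁ e₁.injective).1 e)]; exact one_mem _
    · rw [show u = z from congrArg Subtype.val (e₁.eq_symm_apply.2 e)]; exact mem_zpowers _)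
    (zpowers_le.2 ⟨(e₁.symm (-1)).2, fun v hv => congrArg Subtype.val (show ⟨v, hv⟩ * e₁.symm (-1) =
      e₁.symm (-1) * ⟨v, hv⟩ from e₁.injective (by simp))⟩))
  have hH : H = Cen z := by
    rw [hHC, hm, zpowers_eq_closure, centralizer_closure]
  subst hH
  have n1 := (normal_subgroupOf_iff_le_normalizer h1).1 hn1
  have n2 := (normal_subgroupOf_iff_le_normalizer h2).1 hn2
  obtain ⟨φ, inj, φZ, rg, x1, cx⟩ := exists_K z1 zz h1 (h2.trans n1) (h1.trans n2) e₁ e₂ hm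
  rw [← rg] at hidx
  have hc := card_cen inj (rg.le.trans (sup_le h1 h2)) hidx
  set V := (Cfsg.pCore 2 ↥M).map M.subtype
  have zV : z ∈ V := hZin (hm.ge (mem_zpowers z))
  have cV : Nat.card V = 7 + 1 := (card_map_of_injective Subtype.val_injective).trans hOcard
  have nV : M ≤ 𝐍(V) := fun m hm => le_normalizer_map _ ⟨⟨m, hm⟩, le_normalizer_of_normal (K := ⊤) trivial, rfl⟩
  have VC : V ≤ Cen z := by
    obtain ⟨w, hw, e⟩ := zV
    rintro _ ⟨v, hv, rfl⟩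
    rw [mem_cen, ← e]
    exact congrArg (fun a : Cfsg.pCore 2 ↥M => ((a : M) : G)) (hOel.1.1.1 ⟨v, hv⟩ ⟨w, hw⟩)
  have h7 : 7 ∣ Nat.card M := by
    have h := CF.Classical.card_SL_fin (F := ZMod 2) 3 (by decide)
    rw [ZMod.card, Fin.prod_univ_three] at h
    rw [card_eq_card_quotient_mul_card_subgroup (Cfsg.pCore 2 ↥M), Nat.card_congr eM.toEquiv,
      show Nat.card (Matrix.SpecialLinearGroup (Fin 3) (ZMod 2)) = 168 from (one_mul _).symm.trans h]
    exact Dvd.dvd.mul_right (by norm_num) _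
  obtain ⟨v, hv, vz⟩ : ∃ v ∈ φ.range ⊓ V, v ∉ zpowers z := SetLike.not_le_iff_exists.1 fun k => by
    have a1 := card_le_of_le k
    have a2 := card_mul_relIndex (inf_le_right : φ.range ⊓ V ≤ V)
    have a3 : φ.range.relIndex V ≤ 2 := hidx ▸ relIndex_le_of_le_right VC (by omega)
    rw [Nat.card_zpowers, oz] at a1
    rw [inf_relIndex_right, cV] at a2
    nlinarith
  obtain ⟨g, -, e⟩ := trans_of_prime (by norm_num) nV cV zV z1 h7 (by rw [hc]; norm_num) hv.2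
    fun e => vz (e ▸ one_mem _)
  obtain ⟨Φ, g, h, hg⟩ := exists_cz inj φZ (rg ▸ (le_inf n1 n2).trans (normalizer_inf_normalizer_le_normalizer_sup _ _))
    hidx (fun t ht => cx _ (conj_mem_of_mem_normalizer (n1 ht) x1)) (g := g) (e ▸ hv.1)
    fun k => vz (by rw [← e, k]; exact mem_zpowers _)
  obtain ⟨f, hf⟩ := h.ly hg
  exact ⟨ZMod 3, inferInstance, inferInstance, rfl, (hf.top (ZMod.card 3)).2⟩

end Cfsg.Agent.S2917
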