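import Cfsg.Statements.S2924
import Cfsg.Agent.Sig.SftE
import Cfsg.Agent.Hyp.FTProof

set_option autoImplicit false
open Cfsg

namespace Cfsg.Agent.S2924

open CF.BG CF.Sig Subgroup in

/-- Let X be a finite group and Y an elementary abelian 2-subgroup of X of order at least 8 such that C_X(x) has no components (E(C_X(x)) = 1) for every nontrivial x ∈ Y, and F*(C_X(z)) = O₂(C_X(z)) for some nontrivial z ∈ Y. Then the subgroup generated by the cores O(C_X(y)), y ∈ Y nontrivial, has odd order and is normalized by N_X(Y). -/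
theorem result {X : Type*} [Group X] [Finite X] (Y : Subgroup X) (hY : Cfsg.IsElementaryAbelian 2 Y) (h8 : 8 ≤ Nat.card ↥Y) (hE : ∀ x ∈ Y, x ≠ 1 → Cfsg.layer ↥(Subgroup.centralizer ({x} : Set X)) = ⊥) (hz : ∃ z ∈ Y, z ≠ 1 ∧ Cfsg.generalizedFittingSubgroup ↥(Subgroup.centralizer ({z} : Set X)) = Cfsg.pCore 2 ↥(Subgroup.centralizer ({z} : Set X))) : Odd (Nat.card ↥(⨆ y : {y : X // y ∈ Y ∧ y ≠ 1}, (Cfsg.oddCore ↥(Subgroup.centralizer ({(y : X)} : Set X))).map (Subgroup.centralizer ({(y : X)} : Set X)).subtype)) ∧ Subgroup.normalizer (Y : Set X) ≤ Subgroup.normalizer ((⨆ y : {y : X // y ∈ Y ∧ y ≠ 1}, (Cfsg.oddCore ↥(Subgroup.centralizer ({(y : X)} : Set X))).map (Subgroup.centralizer ({(y : X)} : Set X)).subtype : Subgroup X) : Set X) := by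
  have hp := Nat.prime_two
  have e := Abelem.of_isEA hp hY
  obtain ⟨z, hz, z1, cz⟩ := hz
  have : (⨆ y : {y : X // y ∈ Y ∧ y ≠ 1}, (Cfsg.oddCore ↥(centralizer ({(y : X)} : Set X))).map
      (centralizer ({(y : X)} : Set X)).subtype) = Gen Y (Oc 2) ⊤ := by
    rw [Gen_top_eq]; exact iSup_congr fun y => map_oddCore _
  rw [this]
  exact ⟨odd_iff_pi.2 (pi_Gen_Oc e (logn_ge hp e.pi h8) fun a ha h1 => PLay_of_char
    (e.orderOf hz z1) (e.orderOf ha h1) (cent_le_cent1 ha (e.abel hz)) ((charP_iff_fstar hp).2 cz)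
    (Lay_eq_bot_iff'.2 (hE a ha h1))), norm_Gen_Oc 2 Y⟩

end Cfsg.Agent.S2924
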