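import Cfsg.Statements.S2925
import Cfsg.Agent.Loc.Iso
-- import your own Cfsg.Agent.* helpers here

set_option autoImplicit false
open Cfsg

namespace Cfsg.Agent.S2925

open Cfsg CF.Loc Subgroup
open scoped commutatorElement


/-- Let K be a component of the finite group X and T a Sylow 2-subgroup of X. If some abelian normal subgroup Y of T does not normalize K, then K ⧸ Z(K) has abelian Sylow 2-subgroups. -/
theorem result {X : Type*} [Group X] [Finite X] (K : Subgroup X) (hK : Cfsg.IsComponent K) (T : Sylow 2 X) (Y : Subgroup X) (hYT : Y ≤ (T : Subgroup X)) (hYn : (Y.subgroupOf (T : Subgroup X)).Normal) (hYab : IsMulCommutative ↥Y) (hnot : ¬ Y ≤ Subgroup.normalizer (K : Set X)) (P : Sylow 2 (↥K ⧸ Subgroup.center ↥K)) : IsMulCommutative ↥(P : Subgroup (↥K ⧸ Subgroup.center ↥K)) := by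
  obtain ⟨y, hy, hyn⟩ := SetLike.not_le_iff_exists.1 hnot
  have hK' := CF.Sig.comp_top_iff.2 hK
  have h1 : cj[y] K ≤ 𝐂(K) := by
    rcases (comp_cj hK' (g := y) (by rw [normalizer_eq_top]; trivial)).eq_or_cent hK' with e | e
    · exact absurd (cj_eq_self_iff.1 e) hyn
    · exact e
  have hn : (T : Subgroup X) ≤ 𝐍(Y) := le_normalizer_of_subgroupOf_normal hYT hYn
  have h2 := (comp_sn hK').isSyl_inf (isSyl_top T)
  have h3 : ∀ r ∈ (T : Subgroup X) ⊓ K, ∀ s ∈ (T : Subgroup X) ⊓ K, (s * r)⁻¹ * (r * s) ∈ 𝐂(K) := by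
    intro r hr s hs
    have a : ∀ r ∈ (T : Subgroup X) ⊓ K, r * (y * r⁻¹ * y⁻¹) ∈ Y := fun r hr => by
      have := mul_mem (conj_mem_of_mem_normalizer (hn hr.1) hy) (inv_mem hy)
      simpa only [mul_assoc] using this
    have b : ∀ r ∈ (T : Subgroup X) ⊓ K, y * r⁻¹ * y⁻¹ ∈ 𝐂(K) := fun r hr =>
      h1 (conj_mem_cj y (inv_mem hr.2))
    have c := mem_centralizer_iff'.1 (le_centralizer_of_isMulCommutative (a r hr)) _ (a s hs)
    have d := mem_centralizer_iff'.1 (b r hr) s hs.2
    have e := mem_centralizer_iff'.1 (b s hs) r hr.2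
    have br := b r hr
    have bs := b s hs
    generalize y * r⁻¹ * y⁻¹ = r' at *
    generalize y * s⁻¹ * y⁻¹ = s' at *
    have f : s * r * (s' * r') = r * s * (r' * s') := by
      calc s * r * (s' * r') = s * (r * s') * r' := by group
        _ = s * s' * (r * r') := by rw [e]; group
        _ = r * r' * (s * s') := c
        _ = r * (r' * s) * s' := by group
        _ = _ := by rw [← d]; group
    have : (s * r)⁻¹ * (r * s) = s' * r' * (r' * s')⁻¹ := by
      rw [inv_mul_eq_iff_eq_mul, ← mul_assoc, f, mul_inv_cancel_right]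
    rw [this]
    exact mul_mem (mul_mem bs br) (inv_mem (mul_mem br bs))
  obtain ⟨Q, hQ⟩ := h2.exists_sylow
  have h4 := (isSyl_top Q).map (QuotientGroup.mk' (center K))
  rw [map_top_of_surjective _ (QuotientGroup.mk'_surjective _)] at h4
  obtain ⟨g, -, hg⟩ := h4.conj (isSyl_top P)
  rw [← hg, CF.Loc.isMulCommutative_iff, ← cj_centralizer]
  refine cj_mono g ?_
  rintro _ ⟨r, hr, rfl⟩
  refine mem_centralizer_iff'.2 ?_
  rintro _ ⟨s, hs, rfl⟩
  rw [← map_mul, ← map_mul]
  refine QuotientGroup.eq.2 (mem_center_iff.2 fun k => Subtype.ext ?_)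
  exact mem_centralizer_iff'.1 (h3 r (hQ ▸ mem_map_of_mem _ hr) s (hQ ▸ mem_map_of_mem _ hs)) k k.2

end Cfsg.Agent.S2925
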