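import Cfsg.Statements.S2928
import Cfsg.Agent.Perm.AltOn

set_option autoImplicit false
open Cfsg

namespace Cfsg.Agent.S2928

open CF.Perm Equiv Equiv.Perm Subgroup

/-- Let n ≥ 8 and let H be a subgroup of the symmetric group of degree n whose generalized Fitting subgroup F*(H) is quasisimple. If H contains a Sylow 2-subgroup of the alternating group of degree n, then F*(H) is isomorphic to an alternating group of degree m for some m ∈ {n − 3, n − 2, n − 1, n}. -/
theorem result (n : ℕ) (hn : 8 ≤ n) (H : Subgroup (Equiv.Perm (Fin n))) (hF : Cfsg.IsQuasisimple ↥(Cfsg.generalizedFittingSubgroup ↥H)) (hS : ∃ P : Sylow 2 ↥(alternatingGroup (Fin n)), ((P : Subgroup ↥(alternatingGroup (Fin n))).map (alternatingGroup (Fin n)).subtype) ≤ H) : ∃ m : ℕ, (m = n - 3 ∨ m = n - 2 ∨ m = n - 1 ∨ m = n) ∧ Nonempty (↥(Cfsg.generalizedFittingSubgroup ↥H) ≃* ↥(alternatingGroup (Fin m))) := by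
  obtain ⟨P, hP⟩ := hS
  have h := QSIn.of_fstar hF
  obtain ⟨S, hS⟩ := CF.Classical.exists_sylow_perm_of_alt P
  obtain ⟨z, hz⟩ := CF.Classical.exists_pairing S
  obtain ⟨c, hcH, hc⟩ := PairIn.exists_threeCycle ⟨hz.sq, hz.fix, fun a b ha hb => hP
    ⟨⟨_, CF.Classical.swap_mul_swap_mem_alt ha.symm hb.symm⟩,
      hS.ge (mul_mem (hz.swap_mem a) (hz.swap_mem b)), rfl⟩⟩ h (by simpa using hn)
  obtain ⟨s, hs, e⟩ := h.exists_eq_altOn hc hcH
  have h1 := (e ▸ h).not_dvd (by omega) (subtype_injective _) (range_subtype _).ge P hP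
  have h2 : ¬ 4 ≤ sᶜ.card := fun h =>
    h1 (dvd_card_altOn (.trans (by decide) (Nat.factorial_dvd_factorial h)) (by omega))
  have h3 := s.card_le_univ
  obtain ⟨f⟩ := nonempty_altOn_equiv (s := s) rfl
  rw [Finset.card_compl, Fintype.card_fin] at *
  exact ⟨s.card, by omega, ⟨((equivMapOfInjective _ _ (subtype_injective _)).trans
    (MulEquiv.subgroupCongr e)).trans f⟩⟩

end Cfsg.Agent.S2928
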