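import Cfsg.Statements.S2929
import Cfsg.Agent.Perm.AltOn

set_option autoImplicit false
open Cfsg

namespace Cfsg.Agent.S2929

open CF.Perm Equiv Equiv.Perm Subgroup

/-- Let n ≥ 5 and let H be a subgroup of the symmetric group of degree n whose generalized Fitting subgroup F*(H) is quasisimple. If H contains a Sylow 3-subgroup of the symmetric group, then F*(H) is isomorphic to an alternating group of degree m for some m ∈ {n − 2, n − 1, n}. -/
theorem result (n : ℕ) (hn : 5 ≤ n) (H : Subgroup (Equiv.Perm (Fin n))) (hF : Cfsg.IsQuasisimple ↥(Cfsg.generalizedFittingSubgroup ↥H)) (hS : ∃ P : Sylow 3 (Equiv.Perm (Fin n)), (P : Subgroup (Equiv.Perm (Fin n))) ≤ H) : ∃ m : ℕ, (m = n - 2 ∨ m = n - 1 ∨ m = n) ∧ Nonempty (↥(Cfsg.generalizedFittingSubgroup ↥H) ≃* ↥(alternatingGroup (Fin m))) := by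
  obtain ⟨P, hP⟩ := hS
  have h := QSIn.of_fstar hF
  obtain ⟨c, hc, hcH⟩ : ∃ c : Perm (Fin n), c.IsThreeCycle ∧ c ∈ H := by
    have hd : (swap ⟨0, by omega⟩ ⟨1, by omega⟩ * swap ⟨0, by omega⟩ ⟨2, by omega⟩ :
      Perm (Fin n)).IsThreeCycle := isThreeCycle_swap_mul_swap_same (by simp) (by simp) (by simp)
    obtain ⟨Q, hQ⟩ := (IsPGroup.of_card (p := 3) (n := 1)
      ((Nat.card_zpowers _).trans hd.orderOf)).exists_le_sylow
    obtain ⟨g, rfl⟩ := MulAction.exists_smul_eq (Perm (Fin n)) Q P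
    exact ⟨_, (cycleType_conj ..).trans hd, hP ⟨_, hQ (mem_zpowers _), rfl⟩⟩
  obtain ⟨s, hs, e⟩ := h.exists_eq_altOn hc hcH
  have h1 := (e ▸ h).not_dvd (by omega) (f := .id _) Function.injective_id
    (fun x _ => ⟨x, rfl⟩) P (by simpa using hP)
  have h2 : ¬ 3 ≤ sᶜ.card := fun h =>
    h1 (dvd_card_altOn (Nat.factorial_dvd_factorial h) (by omega))
  have h3 := s.card_le_univ
  obtain ⟨f⟩ := nonempty_altOn_equiv (s := s) rfl
  rw [Finset.card_compl, Fintype.card_fin] at *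
  exact ⟨s.card, by omega, ⟨((equivMapOfInjective _ _ (subtype_injective _)).trans
    (MulEquiv.subgroupCongr e)).trans f⟩⟩

end Cfsg.Agent.S2929
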