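import Cfsg.Statements.S2930
import Cfsg.Agent.Perm.AltOn
import Cfsg.Agent.Perm.AltOut
import Cfsg.Agent.Perm.SylP
import Cfsg.Agent.Perm.Sym

set_option autoImplicit false
open Cfsg

namespace Cfsg.Agent.S2930

open CF.Perm Equiv Equiv.Perm Subgroup MulAction

theorem exists_blocks {p n : ℕ} [Fact p.Prime] (h : p ∣ n) {P : Subgroup (Perm (Fin n))}
    (hP : IsPGroup p P) : ∃ (f : Fin n → Fin (n / p)) (Q : Subgroup (Perm (Fin (n / p)))),
      IsPGroup p Q ∧ (∀ i, Nat.card {x // f x = i} = p) ∧ ∀ g ∈ P, ∃ σ ∈ Q, ∀ x, f (g x) = σ (f x) := by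
  obtain ⟨S, hS⟩ := hP.exists_le_sylow
  have key := exists_sylow_model S
  rw [Nat.card_fin, Nat.mod_eq_zero_of_dvd h] at key
  obtain ⟨e, Q, he⟩ := key
  refine ⟨fun x => (e x).elim Prod.fst Fin.elim0, Q, Q.isPGroup', fun i => ?_, fun g hg => ?_⟩
  · refine (Nat.card_congr (.ofBijective (fun z : ZMod p => (⟨e.symm (.inl (i, z)), by simp⟩ :
      {x // (e x).elim Prod.fst Fin.elim0 = i}))
      ⟨fun a b h => by simpa using h, fun ⟨x, hx⟩ => ?_⟩)).symm.trans (Nat.card_zmod p)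
    obtain ⟨⟨j, z⟩ | r, rfl⟩ := e.symm.surjective x
    · exact ⟨z, by simpa using by simpa using hx.symm⟩
    · exact r.elim0
  · obtain ⟨σ, h1, f, h2⟩ := (he g).1 (hS hg)
    refine ⟨σ, h1, fun x => ?_⟩
    obtain ⟨⟨j, z⟩ | r, rfl⟩ := e.symm.surjective x
    · simp [show e (g (e.symm (.inl (j, z)))) = _ from (DFunLike.congr_fun h2 (.inl (j, z))).symm]
    · exact r.elim0

theorem not_mem_partStab {Ω ι : Type*} [DecidableEq Ω] {f : Ω → ι} {a b c : Ω} (h : a ≠ b)
    (h1 : f a = f b) (h2 : f c ≠ f a) : swap a b * swap a c ∉ partStab f := fun e => by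
  have h3 : c ≠ a := fun e => h2 (e ▸ rfl)
  have h4 : c ≠ b := fun e => h2 (e ▸ h1.symm)
  have := (e a b).1 h1
  simp [swap_apply_of_ne_of_ne h3 h4, swap_apply_of_ne_of_ne h.symm h4.symm] at this
  exact h2 this

theorem main {n : ℕ} (hn : 5 ≤ n) {P M : Subgroup (Perm (Fin n))} (hP : IsPGroup 3 P)
    (h : ∀ X, P ≤ X → ¬ alternatingGroup _ ≤ X → X ⊓ alternatingGroup _ ≤ M)
    (hM : ¬ alternatingGroup _ ≤ M) : n = 6 ∨ n = 9 ∨ ∃ a : ℕ, 2 ≤ a ∧ n = 3 ^ a + 1 := by
  have : Fact (Nat.Prime 3) := ⟨Nat.prime_three⟩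
  have hs : ∀ {ι : Type} (F : Fin n → ι) (a b c : Fin n), a ≠ b → F a = F b → F c ≠ F a →
      P ≤ partStab F → partStab F ⊓ alternatingGroup _ ≤ M := fun F a b c h1 h2 h3 h4 =>
    h _ h4 fun e => not_mem_partStab h1 h2 h3
      (e (CF.Classical.swap_mul_swap_mem_alt h1 fun e => h3 (e ▸ rfl)))
  by_cases h3 : 3 ∣ n
  · by_contra! h4
    obtain ⟨f, Q, hQ, hf, hf'⟩ := exists_blocks h3 hP
    obtain ⟨ι, F, hF, i, j, k, h5, h6, h7⟩ : ∃ (ι : Type) (F : Fin (n / 3) → ι), Q ≤ partStab F ∧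
        ∃ i j k, i ≠ j ∧ F i = F j ∧ F k ≠ F i := by
      by_cases h9 : 3 ∣ n / 3
      · obtain ⟨F, R, -, h1, h2⟩ := exists_blocks h9 hQ
        obtain ⟨i, hi⟩ := exists_mem_block (by simp) h1 ⟨0, by omega⟩
        obtain ⟨k, hk⟩ := exists_mem_block (by simp) h1 ⟨1, by omega⟩
        obtain ⟨j, hj, hj'⟩ := exists_ne_same_block (by simp) h1 i
        exact ⟨_, F, fun g hg => (h2 g hg).elim fun σ h => mem_partStab_of_comp σ h.2, i, j, k,
          hj.symm, hj'.symm, by simp [hi, hk]⟩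
      · obtain ⟨k, hk⟩ := hQ.nonempty_fixed_point_of_prime_not_dvd_card (Fin (n / 3)) (by simpa)
        obtain ⟨i, -, h1, -⟩ := exists_mem_ne_ne (s := Finset.univ) (by simp; omega) k k
        obtain ⟨j, -, h2, h5⟩ := exists_mem_ne_ne (s := Finset.univ) (by simp; omega) k i
        exact ⟨_, (· = k), fun g hg => mem_partStab_of_comp 1 fun x => propext
          (g.apply_eq_iff_eq.symm.trans (by rw [show g k = k from hk ⟨g, hg⟩])).symm, i, j, k, h5.symm,
          by simp [h1, h2], by simp [h1]⟩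
    obtain ⟨a, rfl⟩ := exists_mem_block (by simp) hf i
    obtain ⟨c, rfl⟩ := exists_mem_block (by simp) hf j
    obtain ⟨d, rfl⟩ := exists_mem_block (by simp) hf k
    obtain ⟨b, hb, hb'⟩ := exists_ne_same_block (by simp) hf a
    have h8 : a ≠ c := fun e => h5 (e ▸ rfl)
    refine hM (alternatingGroup_le_of_partStab (by simp; omega) (by simp) (by omega) hf
      (hs f a b c hb.symm hb'.symm h5.symm fun g hg => (hf' g hg).elim fun σ h =>
        mem_partStab_of_comp σ h.2) fun e => not_mem_partStab hb.symm hb'.symm h5.symm (e ⟨?_, ?_⟩))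
    · refine hs (F ∘ f) a c d h8 h6 h7 (fun g hg x y => ?_) ⟨mul_mem (swap_mem_partStab
        (congrArg F hb'.symm)) (swap_mem_partStab h6), CF.Classical.swap_mul_swap_mem_alt hb.symm h8⟩
      obtain ⟨σ, h1, h2⟩ := hf' g hg
      simpa [h2] using hF h1 _ _
    · exact CF.Classical.swap_mul_swap_mem_alt hb.symm h8
  obtain ⟨x, hx⟩ := hP.nonempty_fixed_point_of_prime_not_dvd_card (Fin n) (by simpa)
  obtain ⟨y, -, hy, -⟩ := exists_mem_ne_ne (s := Finset.univ) (by simp; omega) x x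
  have h4 : x ∉ orbit P y := fun ⟨g, e⟩ => hy (by rw [← smul_left_cancel_iff g, hx g]; exact e)
  obtain ⟨m, hm⟩ := hP.card_orbit y
  by_cases h5 : orbit P y = {x}ᶜ
  · have := Set.ncard_add_ncard_compl ({x} : Set (Fin n))
    rw [← h5, ← Nat.card_coe_set_eq (orbit P y), hm] at this
    simp only [Set.ncard_singleton, Nat.card_fin] at this
    refine .inr (.inr ⟨m, by_contra fun h => ?_, by omega⟩)
    have : 3 ^ m ≤ 3 ^ 1 := Nat.pow_le_pow_right (by simp) (by omega)
    omega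
  obtain ⟨z, hz, hz'⟩ := Set.exists_of_ssubset
    ((Set.subset_compl_singleton_iff.2 h4).ssubset_of_ne h5)
  replace hz : z ≠ x := hz
  have hyz : y ≠ z := fun e => hz' (e ▸ mem_orbit_self y)
  have h6 := hs (· = x) y z x hyz (by simp [hy, hz]) (by simp [hy]) fun g hg =>
    mem_partStab_of_comp 1 fun x => propext
      (g.apply_eq_iff_eq.symm.trans (by rw [show g _ = _ from hx ⟨g, hg⟩])).symm
  have h7 := hs (· ∈ orbit P y) x z y hz.symm (by simp [h4, hz']) (by simp [h4]) fun g hg =>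
    mem_partStab_of_comp 1 fun x => propext
      (CF.Classical.smul_mem_orbit_smul_iff_aux (⟨g, hg⟩ : P) y x)
  obtain ⟨u, v, h8, h9, h10, h11⟩ : ∃ u v, u ≠ v ∧ u ≠ x ∧ v ≠ x ∧ (u ∈ orbit P y ↔ v ∈ orbit P y) := by
    obtain ⟨w, hw⟩ := CF.Classical.exists_not_mem_of_card_lt {x, y, z}
      (Finset.card_le_three.trans_lt (by simp; omega))
    simp only [Finset.mem_insert, Finset.mem_singleton, not_or] at hw
    by_cases e : w ∈ orbit P y
    · exact ⟨w, y, hw.2.1, hw.1, hy, by simp [e]⟩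
    · exact ⟨w, z, hw.2.2, hw.1, hz, by simp [e, hz']⟩
  have h12 : ∀ a b, a ≠ b → ((a = x) = (b = x) ∨ (a ∈ orbit P y) = (b ∈ orbit P y)) →
      swap u v * swap a b ∈ M := fun a b e e' => e'.elim
    (fun e' => h6 ⟨mul_mem (swap_mem_partStab (by simp [h9, h10])) (swap_mem_partStab e'),
      CF.Classical.swap_mul_swap_mem_alt h8 e⟩)
    fun e' => h7 ⟨mul_mem (swap_mem_partStab (propext h11)) (swap_mem_partStab e'),
      CF.Classical.swap_mul_swap_mem_alt h8 e⟩
  have h13 : ∀ c, c ≠ z → swap u v * swap z c ∈ M := fun c hc => h12 z c hc.symm (by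
    by_cases e : c = x
    · exact .inr (by simp [e, h4, hz'])
    · exact .inl (by simp [e, hz]))
  refine (hM (CF.Classical.alt_le_of_star hyz fun c hc => ?_)).elim
  simpa [mul_assoc] using mul_mem (inv_mem (h13 y hyz)) (h13 c hc)

/-- Let X be a finite 3-minimal group (a Sylow 3-subgroup is not normal and lies in a unique maximal subgroup) whose generalized Fitting subgroup is isomorphic to an alternating group of degree n ≥ 5. Then X = F*(X), and n = 6, n = 9, or n = 3ᵃ + 1 for some a ≥ 2. -/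
theorem result {X : Type*} [Group X] [Finite X] (hX : Cfsg.IsPMinimal 3 X) (n : ℕ) (hn : 5 ≤ n) (hF : Nonempty (↥(Cfsg.generalizedFittingSubgroup X) ≃* ↥(alternatingGroup (Fin n)))) : Cfsg.generalizedFittingSubgroup X = ⊤ ∧ (n = 6 ∨ n = 9 ∨ ∃ a : ℕ, 2 ≤ a ∧ n = 3 ^ a + 1) := by
  have : Fact (Nat.Prime 3) := ⟨Nat.prime_three⟩
  obtain ⟨e⟩ := hF
  obtain ⟨S⟩ : Nonempty (Sylow 3 X) := inferInstance
  obtain ⟨h1, M, ⟨h2, h3⟩, h4⟩ := hX S
  have h5 : ∀ K, K ≠ ⊤ → S.1 ≤ K → K ≤ M := fun K h h' => by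
    obtain ⟨N, hN, h6⟩ := (eq_top_or_exists_le_coatom K).resolve_left h
    exact h4 N ⟨hN, h'.trans h6⟩ ▸ h6
  have h6 : S.1 ≤ generalizedFittingSubgroup X := fun s hs => by
    obtain ⟨k, hk⟩ := S.isPGroup' ⟨s, hs⟩
    obtain ⟨a, ha⟩ := mem_range_conj_alt_of_odd (Ω := Fin n) (by simp; omega)
      (ψ := MulAut.congr e (MulAut.conjNormal s)) (k := 3 ^ k) (Odd.pow (by decide)) (by
        rw [← map_pow, ← map_pow, show s ^ 3 ^ k = 1 from congrArg Subtype.val hk, map_one, map_one])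
    refine (mul_mem_cancel_left (inv_mem (e.symm a).2)).1 (CF.Sig.centralizer_fstar_le fun x hx => ?_)
    have := congrArg (fun y => (e.symm y : X)) (DFunLike.congr_fun ha (e ⟨x, hx⟩))
    simp only [MulAut.conj_apply, map_mul, map_inv, MulEquiv.symm_apply_apply, MulAut.congr_apply,
      MulEquiv.trans_apply, MulAut.conjNormal_apply, Subgroup.coe_mul, Subgroup.coe_inv] at this
    rw [← mul_left_cancel_iff (a := (e.symm a : X)), ← mul_right_cancel_iff (a := s⁻¹)]
    simpa [mul_assoc] using this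
  have h7 : generalizedFittingSubgroup X = ⊤ := by_contra fun h => h2.1 (top_le_iff.1
    ((S.normalizer_sup_eq_top' h6).ge.trans (sup_le (h5 _ (fun e => h1 (normalizer_eq_top_iff.1 e))
      le_normalizer) (h5 _ h h6))))
  let f : X →* Perm (Fin n) := (Subgroup.subtype _).comp
    (topEquiv.symm.trans ((MulEquiv.subgroupCongr h7.symm).trans e)).toMonoidHom
  have hf : f.range = alternatingGroup _ := by
    rw [MonoidHom.range_comp, MonoidHom.range_eq_top.2 (MulEquiv.surjective _), ← MonoidHom.range_eq_map,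
      range_subtype]
  have hf' : Function.Injective f := (subtype_injective _).comp (MulEquiv.injective _)
  refine ⟨h7, main hn (S.isPGroup'.map f) (M := M.map f) (fun K hK hK' => ?_) fun h => h2.1 ?_⟩
  · rw [← hf, inf_comm, ← map_comap_eq f]
    exact map_mono (h5 _ (fun e => hK' (hf ▸ MonoidHom.range_eq_map f ▸ map_le_iff_le_comap.2 e.ge))
      (map_le_iff_le_comap.1 hK))
  · exact top_le_iff.1 ((map_le_map_iff_of_injective hf').1 (by rwa [← MonoidHom.range_eq_map, hf]))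

end Cfsg.Agent.S2930
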