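import Cfsg.Statements.S2931
import Cfsg.Agent.Classical.WE6
import Cfsg.Agent.Solv.Nilpotent

set_option autoImplicit false
open Cfsg

namespace Cfsg.Agent.S2931

open CF.Classical CF.Geom Subgroup Equiv

theorem sylow_equiv {S G H : Type*} [Group S] [Group G] [Group H] [Finite G] [Finite H] {p k m m' : ℕ}
    [Fact p.Prime] (f : S →* G) (hf : Function.Injective f) (f' : S →* H) (hf' : Function.Injective f')
    (hS : Nat.card S = p ^ k) (hG : Nat.card G = p ^ k * m) (hm : ¬ p ∣ m)
    (hH : Nat.card H = p ^ k * m') (hm' : ¬ p ∣ m') (P : Sylow p G) (Q : Sylow p H) :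
    Nonempty (P ≃* Q) := by
  have h1 : Nat.card f.range = p ^ (Nat.card G).factorization p := by
    rw [← Nat.card_congr (MonoidHom.ofInjective hf).toEquiv, hS, ← card_sylow_eq P hG hm, P.card_eq_multiplicity]
  have h2 : Nat.card f'.range = p ^ (Nat.card H).factorization p := by
    rw [← Nat.card_congr (MonoidHom.ofInjective hf').toEquiv, hS, ← card_sylow_eq Q hH hm', Q.card_eq_multiplicity]
  exact ⟨(P.equiv (Sylow.ofCard _ h1)).trans ((MonoidHom.ofInjective hf).symm.trans
    ((MonoidHom.ofInjective hf').trans ((Sylow.ofCard _ h2).equiv Q)))⟩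

/-- Generators of a Sylow subgroup of `S₈`. -/
def gp (i : ℕ) : Perm (Fin 8) :=
  [swap 0 1, swap 0 2 * swap 1 3, swap 0 4 * swap 1 5 * swap 2 6 * swap 3 7].getD i 1

/-- The corresponding elements of `O₆⁻(2)` as products of reflections. -/
def gv (i : ℕ) : List ((Fin 2 ⊕ Fin 2) ⊕ Fin 2 → ZMod 2) :=
  [[vec6 [0, 0, 0, 0, 0, 1]], [vec6 [0, 0, 0, 0, 1, 0], vec6 [0, 0, 0, 1, 1, 0]],
    [vec6 [0, 0, 1, 0, 1, 0], vec6 [1, 0, 0, 0, 1, 1]]].getD i []

local notation "Q₆" => qMinus 2 (ZMod 2) 1 1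
local notation "P₈" => closure (gp '' Set.Iio 3)

/-- The corresponding elements of `O₆⁻(2)`. -/
noncomputable def go (i : ℕ) : OG Q₆ := ((gv i).map (oRefl Q₆)).prod

theorem go_apply (w : List ℕ) (x : (Fin 2 ⊕ Fin 2) ⊕ Fin 2 → ZMod 2) : (w.map go).prod.1 x =
    (w.flatMap gv).foldr (rf (Cfsg.quadFormMinus 2 (ZMod 2) 1 1)) x := by
  have h1 : ∀ i, ∀ u ∈ gv i, Q₆ u = 1 := by
    rw [coe_qMinus]
    rintro (_ | _ | _ | i)
    exacts [by decide +kernel, by decide +kernel, by decide +kernel, by simp [gv]]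
  rw [← coe_qMinus, ← prod_oRefl_apply fun u hu => by
    obtain ⟨i, -, h⟩ := List.mem_flatMap.1 hu
    exact h1 i u h]
  congr 2
  induction w with
  | nil => rfl
  | cons a w ih => simp [ih, go]

theorem rels_gp : ∀ w ∈ wrRels, (w.map gp).prod = 1 := by decide +kernel

theorem rels_go : ∀ w ∈ wrRels, (w.map go).prod = 1 := by
  have h : ∀ w ∈ wrRels, ∀ i, (w.flatMap gv).foldr (rf (Cfsg.quadFormMinus 2 (ZMod 2) 1 1))
      (Pi.single i 1) = Pi.single i 1 := by decide +kernel
  refine fun w hw => Subtype.ext (LinearEquiv.toLinearMap_injective ((Pi.basisFun _ _).ext fun i => ?_))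
  rw [Pi.basisFun_apply]
  exact (go_apply w _).trans (h w hw i)

theorem card_P8 : Nat.card P₈ = 128 := by
  refine le_antisymm (card_le_of_wrRels rels_gp).2 ?_
  let L : List (List ℕ) := (List.range 128).map fun n =>
    ([[0], [1, 0, 1], [1], [2, 0, 2], [2, 1, 0, 1, 2], [2, 1, 2], [2]].zipIdx.filter
      fun x => n.testBit x.2).flatMap Prod.fst
  have h1 : (L.map fun w => List.ofFn fun i => ((w.map gp).prod i : ℕ)).Nodup := by decide +kernel
  have h2 : ∀ w ∈ L, ∀ i ∈ w, i < 3 := by decide +kernel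
  have h3 : (L.map fun w => (w.map gp).prod).Nodup :=
    List.Nodup.of_map (fun g : Perm (Fin 8) => List.ofFn fun i => (g i : ℕ)) (by rwa [List.map_map])
  have h4 := Set.ncard_le_ncard (s := (↑(L.map fun w => (w.map gp).prod).toFinset : Set (Perm (Fin 8))))
    (t := (↑P₈ : Set (Perm (Fin 8)))) fun x hx => by
    obtain ⟨w, hw, rfl⟩ := List.mem_map.1 (List.mem_toFinset.1 hx)
    exact list_prod_mem (List.forall_mem_map.2 fun i hi => subset_closure ⟨i, h2 w hw i hi, rfl⟩)
  rw [Set.ncard_coe_finset, List.toFinset_card_of_nodup h3] at h4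
  rw [List.length_map, List.length_map, List.length_range] at h4
  exact h4

theorem eq_of_commute {g : Perm (Fin 8)} (h : ∀ i < 3, gp i * g = g * gp i) :
    g = 1 ∨ g = ([0, 1, 0, 1, 2, 0, 1, 0, 1, 2].map gp).prod := by
  have h1 : ∀ w : List ℕ, (∀ i ∈ w, i < 3) → g ((w.map gp).prod 0) = (w.map gp).prod (g 0) :=
    fun w hw => congrArg (fun x : Perm (Fin 8) => x 0) (Commute.list_prod_right (w.map gp) g
      (List.forall_mem_map.2 fun i hi => (h i (hw i hi)).symm))
  have h2 : ∀ j : Fin 8, ∃ w ∈ [[], [0], [1], [1, 0], [2], [2, 0], [2, 1], [2, 1, 0]],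
      (∀ i ∈ w, i < 3) ∧ (w.map gp).prod 0 = j ∧
      (w.map gp).prod 1 = ([0, 1, 0, 1, 2, 0, 1, 0, 1, 2].map gp).prod j := by decide +kernel
  have h3 : g 1 = gp 0 (g 0) := h1 [0] (by simp)
  have h4 : g 0 ≠ g 1 := g.injective.ne (by decide)
  have h5 : g 0 = 0 ∨ g 0 = 1 := by
    rw [h3] at h4
    revert h4
    generalize g 0 = j
    revert j
    decide +kernel
  refine h5.imp (fun e => Equiv.ext fun j => ?_) fun e => Equiv.ext fun j => ?_ <;>
    obtain ⟨w, -, h6, h7, h8⟩ := h2 j
  · rw [← h7, h1 w h6, e]; rfl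
  · rw [← h8, ← e, ← h1 w h6, h7]

set_option maxRecDepth 10000 in
theorem exists_hom : ∃ f : P₈ →* OG Q₆, Function.Injective f ∧
    ∀ x : P₈, f x ∈ commutator (OG Q₆) ↔ x.1 ∈ alternatingGroup (Fin 8) := by
  let g : ℕ → P₈ := fun i => if h : i < 3 then ⟨gp i, subset_closure ⟨i, h, rfl⟩⟩ else 1
  have h0 : ∀ i < 3, (g i).1 = gp i := fun i hi => by simp [g, hi]
  have h1 : closure (g '' Set.Iio 3) = ⊤ := by
    rw [← map_subtype_inj, MonoidHom.map_closure, ← MonoidHom.range_eq_map, range_subtype, Set.image_image]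
    exact congrArg _ (Set.image_congr h0)
  have h2 : ∀ w : List ℕ, (∀ i ∈ w, i < 3) → (w.map g).prod.1 = (w.map gp).prod := fun w hw => by
    rw [SubmonoidClass.coe_list_prod, List.map_map]
    exact congrArg _ (List.map_congr_left fun i hi => h0 i (hw i hi))
  obtain ⟨f, hf⟩ := TC.exists_hom (g := go) g h1 (card_P8 ▸ card_le_of_wrRels fun w hw => by
    rw [prod_map_pair, rels_go w hw, show (w.map g).prod = 1 from
      Subtype.ext ((h2 w (by revert w; decide)).trans (rels_gp w hw))]; rfl)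
  refine ⟨f, (MonoidHom.ker_eq_bot_iff f).1 ?_, fun x => ?_⟩
  · by_contra h
    have hp : IsPGroup 2 P₈ := IsPGroup.of_card (n := 7) card_P8
    have := hp.isNilpotent
    obtain ⟨⟨x, h3, h4⟩, h5⟩ := ne_bot_iff_exists_ne_one.1 (CF.Solv.normal_inf_center_ne_bot _ h)
    rcases eq_of_commute (g := x.1) fun i hi => by
      rw [← h0 i hi]; exact congrArg Subtype.val (mem_center_iff.1 h4 (g i)) with e | e
    · exact h5 (Subtype.ext (Subtype.ext e))
    · rw [← h2 _ (by decide), Subtype.coe_inj] at e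
      replace h3 : f x = 1 := h3
      rw [e, map_list_prod, List.map_map,
        List.map_congr_left (f := f ∘ g) (g := go) fun i hi => hf i (by revert i; decide)] at h3
      have h6 := go_apply [0, 1, 0, 1, 2, 0, 1, 0, 1, 2]
      rw [h3] at h6
      have h7 : ∃ i, Pi.single i 1 ≠ ([0, 1, 0, 1, 2, 0, 1, 0, 1, 2].flatMap gv).foldr
        (rf (Cfsg.quadFormMinus 2 (ZMod 2) 1 1)) (Pi.single i 1) := by decide +kernel
      obtain ⟨i, hi⟩ := h7
      rw [← h6] at hi
      exact hi rfl
  · obtain ⟨δ, -, h3, h4⟩ := exists_surjective_ker_eq_commutator_even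
      (qMinus_nondegenerate 2 aniso_one_one) rfl reflSub_O6_minus_two
    have h5 : δ.comp f = Perm.sign.comp (Subgroup.subtype _) := MonoidHom.eq_of_eqOn_dense h1 (by
      rintro _ ⟨i, hi : i < 3, rfl⟩
      rw [MonoidHom.comp_apply, hf i hi, MonoidHom.comp_apply, subtype_apply, h0 i hi, go, map_list_prod,
        List.map_map, List.map_congr_left (f := δ ∘ oRefl Q₆) (g := fun _ => -1) fun u hu => h4 u (by
          rw [coe_qMinus]; revert u; interval_cases i <;> decide +kernel)]
      revert i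
      decide +kernel)
    rw [← h3, Perm.mem_alternatingGroup]
    exact Eq.congr_left (DFunLike.congr_fun h5 x)


/-- The Sylow 2-subgroups of the alternating group of degree 8 and of PSp₄(3) are isomorphic, and so are the Sylow 2-subgroups of the symmetric group of degree 8 and of the full isometry group of a non-degenerate quadratic form of minus type in dimension 6 over the field with 2 elements. -/
theorem result (F : Type) [Field F] [Fintype F] (hF : Fintype.card F = 3) (K : Type) [Field K] [Fintype K] (hK : Fintype.card K = 2) (a b : K) (hab : ∀ z₁ z₂ : K, z₁ ^ 2 + a * z₁ * z₂ + b * z₂ ^ 2 = 0 → z₁ = 0 ∧ z₂ = 0) (P : Sylow 2 ↥(alternatingGroup (Fin 8))) (Q : Sylow 2 (Cfsg.PSp 2 F)) (P' : Sylow 2 (Equiv.Perm (Fin 8))) (Q' : Sylow 2 ↥(Cfsg.isometryGroup K (Cfsg.quadFormMinus 2 K a b))) : Nonempty (↥(P : Subgroup ↥(alternatingGroup (Fin 8))) ≃* ↥(Q : Subgroup (Cfsg.PSp 2 F))) ∧ Nonempty (↥(P' : Subgroup (Equiv.Perm (Fin 8))) ≃* ↥(Q' : Subgroup ↥(Cfsg.isometryGroup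 K (Cfsg.quadFormMinus 2 K a b)))) := by
  obtain ⟨f, h1, h2⟩ := exists_hom
  obtain ⟨e⟩ := Omega6_minus_two_equiv_PSp hF
  obtain ⟨φ⟩ := nonempty_ringEquiv_zmod (p := 2) (Nat.card_eq_fintype_card.trans hK)
  obtain ⟨g, hg⟩ := exists_equiv_qMinus (qMinus_nondegenerate 2 aniso_one_one)
    (not_isPlus_qMinus 2 aniso_one_one) (m := 2) (by simp) (a := φ a) (b := φ b) fun x y h => by
      obtain ⟨x, rfl⟩ := φ.surjective x
      obtain ⟨y, rfl⟩ := φ.surjective y
      simpa using hab x y (φ.injective (by simpa using h))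
  let e' := (ogCongr g hg).trans ((oEquiv _).symm.trans
    (isometryCongr φ (quadFormMinus_comp φ 2 a b)).symm)
  have : Finite (isometryGroup K (quadFormMinus 2 K a b)) := Finite.of_equiv _ e'.toEquiv
  let S := (alternatingGroup (Fin 8)).subgroupOf (closure (gp '' Set.Iio 3))
  have h3 : Nat.card S = 2 ^ 6 := by
    have h := S.card_mul_index
    rw [card_P8, show S.index = 2 from ?_] at h
    · omega
    · refine ((Nat.dvd_prime Nat.prime_two).1 (alternatingGroup.index_eq_two (α := Fin 8) ▸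
        relIndex_dvd_index_of_normal _ _)).resolve_left fun h => ?_
      exact absurd (relIndex_eq_one.1 h (subset_closure ⟨0, by simp, rfl⟩)) (Perm.mem_alternatingGroup.not.2 (by decide))
  refine ⟨sylow_equiv (S := S) (k := 6) (m := 315) (m' := 405)
    (((Subgroup.subtype _).comp S.subtype).codRestrict _ fun x => x.2)
    ((MonoidHom.injective_codRestrict _ _ _).2 fun x y h => Subtype.ext (Subtype.ext h))
    (e.toMonoidHom.comp ((f.comp S.subtype).codRestrict _ fun x => (h2 _).2 x.2))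
    (fun x y h => Subtype.ext (h1 (congrArg Subtype.val (e.injective h)))) h3 ?_ (by decide)
    ((Nat.card_congr e.symm.toEquiv).trans card_Omega6_minus_two) (by decide) P Q,
    sylow_equiv (k := 7) (m := 315) (m' := 405) (Subgroup.subtype _) (subtype_injective _)
      (e'.toMonoidHom.comp f) (e'.injective.comp h1) card_P8 ?_ (by decide)
      ((Nat.card_congr e'.symm.toEquiv).trans card_O6_minus_two) (by decide) P' Q'⟩
  · rw [nat_card_alternatingGroup, Nat.card_fin]; rfl
  · rw [Nat.card_perm, Nat.card_fin]; rfl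

end Cfsg.Agent.S2931
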