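import Cfsg.Statements.S2939
import Cfsg.Agent.Loc.SylCtrl
-- import your own Cfsg.Agent.* helpers here

set_option autoImplicit false
open Cfsg

namespace Cfsg.Agent.S2939

open Cfsg CF.Loc Subgroup
open scoped commutatorElement

def FStep {G : Type*} [Group G] (p : ℕ) (𝓕 : Set (Subgroup G)) (S : Subgroup G) (A : Set G)
    (a b : G) : Prop :=
  ∃ Y ∈ sylowMembers p 𝓕 S, a⁻¹ * b ∈ Y ∧ conjRight b A ⊆ (S : Set G) ∩ Y

theorem fus_iff {G : Type*} [Group G] (p : ℕ) (𝓕 : Set (Subgroup G)) (S : Subgroup G) (A : Set G)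
    (g : G) : (∃ (n : ℕ) (Y : Fin n → Subgroup G) (y : Fin n → G) (y₀ : G), y₀ ∈ 𝐍(S) ∧
      (∀ i : Fin n, Y i ∈ sylowMembers p 𝓕 S ∧ y i ∈ Y i) ∧ g = (List.ofFn y).prod * y₀ ∧
      ∀ i : Fin n, conjRight (((List.ofFn y).take (i.val + 1)).prod) A ⊆ (S : Set G) ∩ (Y i : Set G)) ↔
      ∃ u, Relation.ReflTransGen (FStep p 𝓕 S A) 1 u ∧ u⁻¹ * g ∈ 𝐍(S) := by
  have k : ∀ (n : ℕ) (y : Fin n → G), Fin.partialProd y (Fin.last n) = (List.ofFn y).prod :=
    fun n y => by rw [Fin.partialProd, List.take_of_length_le (by simp)]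
  constructor
  · rintro ⟨n, Y, y, y₀, h1, h2, rfl, h3⟩
    refine ⟨(List.ofFn y).prod, reflTransGen_iff_fin.2 ⟨n, Fin.partialProd y,
      Fin.partialProd_zero y, k n y, fun i => ⟨Y i, (h2 i).1, ?_, h3 i⟩⟩, by simpa using h1⟩
    rw [Fin.partialProd_right_inv]; exact (h2 i).2
  · rintro ⟨u, h1, h2⟩
    obtain ⟨n, c, h3, h4, h5⟩ := reflTransGen_iff_fin.1 h1
    choose Y a b d using h5
    have e := Fin.partialProd_left_inv c
    rw [h3, one_smul] at e
    refine ⟨n, Y, fun i => (c i.castSucc)⁻¹ * c i.succ, u⁻¹ * g, h2, fun i => ⟨a i, b i⟩, ?_,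
      fun i => ?_⟩
    · rw [← k, e, h4, mul_inv_cancel_left]
    · have := d i
      rwa [← e] at this

/-- Let p be a prime dividing the order of the finite group G and 𝓕 a family of subgroups of G closed under conjugation, with conjugates taken as X^g = g⁻¹Xg. Then 𝓕 controls Sylow p-intersections in G (any two distinct Sylow p-subgroups S and T with S ∩ T ≠ 1 are joined by a chain S = S₀, S₁, …, Sₙ = T of Sylow p-subgroups where, for each i, some member Xᵢ of 𝓕 meets both S_{i-1} and Sᵢ in Sylow p-subgroups of Xᵢ, satisfies S ∩ T ≤ Sᵢ ∩ Xᵢ, and contains an element xᵢ with Sᵢ^{xᵢ} = S_{i-1}) if and only if 𝓕 strongly controls p-fusion in G (whenever A is a subset of a Sylow p-subgroup S, A contains an element other than 1, and A^g ⊆ S, the element g factorises as g = y₁⋯yₙy with y ∈ N_G(S) and each yᵢ in a member Yᵢ of 𝓕 that meets S in a Sylow p-subgroup of Yᵢ, with A^{y₁⋯yᵢ} ⊆ S ∩ Yᵢ for each i).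 -/
theorem result {G : Type*} [Group G] [Finite G] {p : ℕ} [Fact p.Prime] (hdiv : p ∣ Nat.card G) (𝓕 : Set (Subgroup G)) (h𝓕 : Cfsg.IsNormalSet 𝓕) : Cfsg.ControlsSylowIntersections p 𝓕 ↔ Cfsg.FamilyStronglyControlsFusion p 𝓕 := by
  rw [csi_top_iff]
  constructor
  · intro h S A g h1 ⟨a, ha, ha1⟩ h2
    refine (fus_iff p 𝓕 S A g).2 ?_
    have h3 : A ⊆ ((S : Subgroup G) ⊓ cj[g] (S : Subgroup G) : Subgroup G) := fun b hb =>
      ⟨h1 hb, mem_cj.2 (h2 ⟨b, hb, rfl⟩)⟩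
    have h4 := h S _ _ (isSyl_top S) ((isSyl_top S).cj_of_mem (mem_top g))
      (fun e => ha1 (mem_bot.1 (e.le (h3 ha)))) inf_le_left inf_le_right
    suffices ∀ T, SConn p 𝓕 ((S : Subgroup G) ⊓ cj[g] (S : Subgroup G)) S T →
        ∃ u, Relation.ReflTransGen (FStep p 𝓕 S A) 1 u ∧ cj[u] (S : Subgroup G) = T by
      obtain ⟨u, h5, h6⟩ := this _ h4
      exact ⟨u, h5, by rw [← cj_eq_self_iff, cj_mul, ← h6, cj_inv_cj]⟩
    intro T hT
    induction hT with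
    | refl => exact ⟨1, .refl, cj_one _⟩
    | tail _ h5 ih =>
      obtain ⟨u, h6, rfl⟩ := ih
      obtain ⟨X, a, b, -, x, d, e, f⟩ := h5
      refine ⟨x * u, h6.tail ⟨cj[u⁻¹] X, mem_sylowMembers.2 ⟨h𝓕 X a u, ?_⟩, ?_, ?_⟩,
        by rw [cj_mul, ← e, cj_cj_inv]⟩
      · have := b.cj u⁻¹
        rwa [cj_inf, cj_inv_cj] at this
      · simpa [mul_assoc] using conj_mem_cj u⁻¹ d
      · rintro _ ⟨c, hc, rfl⟩
        have i := conj_mem_cj u⁻¹ (conj_mem_cj x⁻¹ (f (h3 hc)))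
        rw [cj_inf, e, cj_eq_self_of_mem (inv_mem d), cj_inf, cj_inv_cj] at i
        have j : u⁻¹ * (x⁻¹ * c * x⁻¹⁻¹) * u⁻¹⁻¹ = (x * u)⁻¹ * c * (x * u) := by group
        rw [j] at i
        exact i
  · intro h S T D hS hT hD h1 h2
    obtain ⟨S, rfl⟩ := hS.exists_sylow_top
    obtain ⟨g, -, rfl⟩ := (isSyl_top S).conj hT
    obtain ⟨a, ha, ha1⟩ := (bot_or_exists_ne_one D).resolve_left hD
    obtain ⟨u, h3, h4⟩ := (fus_iff p 𝓕 S D g).1 (h S D g h1 ⟨a, ha, ha1⟩ (by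
      rintro _ ⟨b, hb, rfl⟩; exact mem_cj.1 (h2 hb)))
    rw [← mul_inv_cancel_left u g, cj_mul, cj_eq_self h4]
    clear h4
    induction h3 with
    | refl => rw [cj_one]
    | @tail u v _ h5 ih =>
      obtain ⟨Y, a, b, c⟩ := h5
      rw [mem_sylowMembers] at a
      have e : cj[v] Y = cj[u] Y := by
        rw [← mul_inv_cancel_left u v, cj_mul, cj_eq_self_of_mem b]
      refine ih.tail ⟨cj[u] Y, ?_, cj_inf u _ _ ▸ a.2.cj u, ?_, v * u⁻¹, ?_, ?_, ?_⟩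
      · have := h𝓕 Y a.1 u⁻¹
        rwa [subgroupConjRight, inv_inv] at this
      · rw [← e, ← cj_inf]; exact a.2.cj v
      · simpa [mul_assoc] using conj_mem_cj u b
      · rw [← cj_mul]; congr 3; group
      · rw [← e, ← cj_inf]
        exact fun d hd => mem_cj.2 (c ⟨d, hd, rfl⟩)

end Cfsg.Agent.S2939
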