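import Cfsg.Statements.S2940
import Cfsg.Agent.Loc.Iso
-- import your own Cfsg.Agent.* helpers here

set_option autoImplicit false
open Cfsg

namespace Cfsg.Agent.S2940

open Cfsg CF.Loc Subgroup
open scoped commutatorElement


/-- Let S be a Sylow p-subgroup of the finite group G and G₁, G₂ subgroups containing S with G = G₁G₂. Then for every g ∈ G there is a Sylow p-subgroup U of G with S ∩ S^g ≤ U ≤ G₁ ∩ G₂^g (conjugates taken as X^g = g⁻¹Xg). -/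
theorem result {G : Type*} [Group G] [Finite G] {p : ℕ} [Fact p.Prime] (S : Sylow p G) (G₁ G₂ : Subgroup G) (h1 : (S : Subgroup G) ≤ G₁) (h2 : (S : Subgroup G) ≤ G₂) (hfact : ∀ g : G, ∃ g₁ ∈ G₁, ∃ g₂ ∈ G₂, g = g₁ * g₂) (g : G) : ∃ U : Sylow p G, (S : Subgroup G) ⊓ Cfsg.subgroupConjRight g (S : Subgroup G) ≤ (U : Subgroup G) ∧ (U : Subgroup G) ≤ G₁ ⊓ Cfsg.subgroupConjRight g G₂ := by
  obtain ⟨a, ha, b, hb, e⟩ := hfact g⁻¹
  change ∃ U : Sylow p G, _ ⊓ cj[g⁻¹] _ ≤ _ ∧ _ ≤ _ ⊓ cj[g⁻¹] _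
  have h3 : cj[g⁻¹] G₂ = cj[a] G₂ := by rw [e, cj_mul, cj_eq_self_of_mem hb]
  have h4 : cj[a] (S : Subgroup G) ≤ G₁ ⊓ cj[g⁻¹] G₂ :=
    le_inf (cj_le_of_mem ha h1) (h3 ▸ cj_mono a h2)
  obtain ⟨U, hU, h5⟩ := exists_isSyl_ge (S.isPGroup'.to_le inf_le_left)
    (inf_le_inf h1 (cj_mono g⁻¹ h2))
  obtain ⟨U, rfl⟩ := (((isSyl_top S).cj_of_mem (mem_top a)).of_parabolic h4 le_top hU).exists_sylow_top
  exact ⟨U, h5, hU.le⟩

end Cfsg.Agent.S2940
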