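import Cfsg.Statements.S2955
import Cfsg.Agent.Loc.SylCtrl
-- import your own Cfsg.Agent.* helpers here

set_option autoImplicit false
open Cfsg

namespace Cfsg.Agent.S2955

open Cfsg CF.Loc Subgroup
open scoped commutatorElement


/-- Let p be a prime dividing the order of the finite group G and 𝓕 a conjugation-closed family of subgroups that controls Sylow p-intersections in G. Suppose the Sylow p-subgroups of G are chain-connected: any two of them are joined by a chain of Sylow p-subgroups, consecutive ones distinct with nontrivial intersection, all containing the intersection of the two ends (equivalently, the graph on the Sylow p-subgroups whose edges are the distinct pairs meeting nontrivially is connected). Then for every Sylow p-subgroup S, G is generated by N_G(S) together with the members of 𝓕 that meet S in a Sylow p-subgroup of themselves. -/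
theorem result {G : Type*} [Group G] [Finite G] (p : ℕ) [Fact p.Prime] (hdiv : p ∣ Nat.card G)
    (𝓕 : Set (Subgroup G)) (h𝓕 : Cfsg.IsNormalSet 𝓕) (hc : Cfsg.ControlsSylowIntersections p 𝓕)
    (hconn : Cfsg.IsSylowChainConnected p G) (S : Sylow p G) :
    (⨆ X ∈ Cfsg.sylowMembers p 𝓕 (S : Subgroup G), X) ⊔ Subgroup.normalizer ((S : Subgroup G) : Set G) = ⊤ := by
  set H := (⨆ X ∈ sylowMembers p 𝓕 (S : Subgroup G), X) ⊔ 𝐍((S : Subgroup G)) with hH
  have key : ∀ D A B, SConn p 𝓕 D A B → (∃ h ∈ H, cj[h] (S : Subgroup G) = A) →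
      ∃ h ∈ H, cj[h] (S : Subgroup G) = B := by
    intro D A B hc hA
    induction hc with
    | refl => exact hA
    | tail _ h2 ih =>
      obtain ⟨h, h3, rfl⟩ := ih
      obtain ⟨X, a, b, -, x, d, e, -⟩ := h2
      have h4 : cj[h⁻¹] X ≤ H := by
        refine le_trans ?_ le_sup_left
        refine le_iSup₂_of_le (f := fun X (_ : X ∈ sylowMembers p 𝓕 (S : Subgroup G)) => X) _
          (mem_sylowMembers.2 ⟨h𝓕 X a h, ?_⟩) le_rfl
        have := b.cj h⁻¹
        rwa [cj_inf, cj_inv_cj] at this
      refine ⟨x * h, ?_, by rw [cj_mul, ← e, cj_cj_inv]⟩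
      have := mul_mem h3 (h4 (conj_mem_cj h⁻¹ d))
      simpa [mul_assoc] using this
  rw [eq_top_iff]
  intro g _
  obtain ⟨n, c, h1, h2, -, h3⟩ := hconn S (g • S)
  have h4 : ∀ i, ∃ h ∈ H, cj[h] (S : Subgroup G) = c i := fun i => by
    induction i using Fin.induction with
    | zero => exact ⟨1, one_mem _, by rw [cj_one, h1]⟩
    | succ i ih =>
      exact key _ _ _ (csi_top_iff.1 hc _ _ _ (isSyl_top _) (isSyl_top _) (h3 i).2 inf_le_left
        inf_le_right) ih
  obtain ⟨h, h5, h6⟩ := h4 (Fin.last n)
  rw [h2, coe_sylow_smul, eq_comm, cj_eq_iff, eq_comm, ← inv_inv g, ← cj_mul, cj_eq_self_iff] at h6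
  have := mul_mem h5 (inv_mem (mem_sup_right h6 : _ ∈ H))
  simpa using this

end Cfsg.Agent.S2955
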