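import Cfsg.Statements.S2957
import Cfsg.Agent.Loc.SylCtrl
import Cfsg.Agent.S2940
-- import your own Cfsg.Agent.* helpers here

set_option autoImplicit false
open Cfsg

namespace Cfsg.Agent.S2957

open Cfsg CF.Loc Subgroup
open scoped commutatorElement


/-- Let p be a prime dividing the order of the finite group G, f an equivariant assignment of a set of subgroups f(P) of P to every p-subgroup P, each normalized by N_G(P), and S a Sylow p-subgroup. If G = G₁G₂ for subgroups G₁, G₂ both containing S and both regular for f (in each Gᵢ, the family of normalizers in Gᵢ of the members of f(P), P a Sylow p-subgroup of Gᵢ, controls Sylow p-intersections), then G itself is regular for f. -/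
theorem result {G : Type*} [Group G] [Finite G] (p : ℕ) [Fact p.Prime] (hdiv : p ∣ Nat.card G)
    (f : Subgroup G → Set (Subgroup G)) (hf : Cfsg.IsNormalizerFunctor p f) (S : Sylow p G)
    (G₁ G₂ : Subgroup G) (h₁ : (S : Subgroup G) ≤ G₁) (h₂ : (S : Subgroup G) ≤ G₂)
    (hprod : ∀ g : G, ∃ g₁ ∈ G₁, ∃ g₂ ∈ G₂, g = g₁ * g₂)
    (hr₁ : Cfsg.IsFunctorRegular p f G₁) (hr₂ : Cfsg.IsFunctorRegular p f G₂) :
    Cfsg.IsFunctorRegular p f ⊤ := by
  refine isFunctorRegular_iff.2 fun A B D hA hB hD h1 h2 => ?_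
  obtain ⟨a, -, rfl⟩ := (isSyl_top S).conj hA
  obtain ⟨b, -, rfl⟩ := (isSyl_top S).conj hB
  obtain ⟨U, h3, h4⟩ := Cfsg.Agent.S2940.result S G₁ G₂ h₁ h₂ hprod (b⁻¹ * a)
  change _ ⊓ cj[(b⁻¹ * a)⁻¹] _ ≤ _ at h3
  change _ ≤ _ ⊓ cj[(b⁻¹ * a)⁻¹] _ at h4
  rw [mul_inv_rev, inv_inv] at h3 h4
  have h5 : cj[a⁻¹] D ≤ S := le_cj_iff.1 h1
  have h6 : cj[a⁻¹] D ≤ U := le_trans (le_inf h5 (by rw [cj_mul]; exact cj_mono _ h2)) h3
  have c1 := (sconn_top_of_regular hf hr₁ (isSyl_top S) (isSyl_top U) h₁ (h4.trans inf_le_left)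
    (by rwa [Ne, cj_eq_bot_iff]) h5 h6).cj a (functorFamily_cj hf a)
  have c2 := (sconn_top_of_regular hf hr₂ ((isSyl_top U).cj_of_mem (mem_top (b⁻¹ * a)))
    (isSyl_top S) (D := cj[b⁻¹] D) (by
      rw [cj_le_iff, mul_inv_rev, inv_inv]; exact h4.trans inf_le_right) h₂
    (by rwa [Ne, cj_eq_bot_iff]) (by
      rw [cj_mul, cj_le_cj_iff, le_cj_iff]; exact h6) (le_cj_iff.1 h2)).cj b (functorFamily_cj hf b)
  rw [cj_cj_inv] at c1 c2
  rw [← cj_mul, mul_inv_cancel_left] at c2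
  exact c1.trans c2

end Cfsg.Agent.S2957
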