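import Cfsg.Statements.S2958
import Cfsg.Agent.Loc.Iso
-- import your own Cfsg.Agent.* helpers here

set_option autoImplicit false
open Cfsg

namespace Cfsg.Agent.S2958

open Cfsg CF.Loc Subgroup
open scoped commutatorElement


/-- Let X, A, B be subgroups of a group G such that G is generated by the conjugates of X and every conjugate of X is contained in A or in B. Then A = G or B = G. -/
theorem result {G : Type*} [Group G] (X A B : Subgroup G) (hgen : (⨆ g : G, X.map (MulAut.conj g).toMonoidHom) = ⊤) (hcover : ∀ g : G, X.map (MulAut.conj g).toMonoidHom ≤ A ∨ X.map (MulAut.conj g).toMonoidHom ≤ B) : A = ⊤ ∨ B = ⊤ := by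
  change (⨆ g : G, cj[g] X) = ⊤ at hgen
  change ∀ g : G, cj[g] X ≤ A ∨ cj[g] X ≤ B at hcover
  by_contra hc
  push Not at hc
  let D : Subgroup G := ⨆ g : {g : G // ¬ cj[g] X ≤ A}, cj[g.1] X
  have h1 : D ≤ B := iSup_le fun g => (hcover g).resolve_left g.2
  have h2 : A ≤ 𝐍(D) := le_normalizer_iff_cj.2 fun a ha => by
    rw [cj_iSup]
    refine iSup_le fun g => le_iSup_of_le ⟨a * g, fun h => g.2 ?_⟩ (cj_mul _ _ _).ge
    rwa [cj_mul, cj_le_iff, cj_eq_self_of_mem (inv_mem ha)] at h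
  have h3 : D.Normal := normal_of_top_le_normalizer (hgen.ge.trans (iSup_le fun g => by
    by_cases h : cj[g] X ≤ A
    · exact h.trans h2
    · exact (le_iSup (fun g : {g : G // ¬ cj[g] X ≤ A} => cj[g.1] X) ⟨g, h⟩).trans le_normalizer))
  obtain ⟨g, hg⟩ : ∃ g, ¬ cj[g] X ≤ A := by
    by_contra h
    push Not at h
    exact hc.1 (eq_top_iff.2 (hgen.ge.trans (iSup_le h)))
  refine hc.2 (eq_top_iff.2 (hgen.ge.trans (iSup_le fun k => le_trans ?_ h1)))
  have a : cj[g] X ≤ D := le_iSup (fun g : {g : G // ¬ cj[g] X ≤ A} => cj[g.1] X) ⟨g, hg⟩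
  have := cj_mono (k * g⁻¹) a
  rwa [← cj_mul, inv_mul_cancel_right, cj_normal _ D] at this

end Cfsg.Agent.S2958
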