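import Mathlib
import Cfsg.Statements.S2962
import Cfsg.Agent.Invol.ZStarApp
import Cfsg.Agent.Hyp.FTProof
import Cfsg.Agent.Solv.Nilpotent

set_option autoImplicit false
open Cfsg

namespace Cfsg.Agent.S2962

open Subgroup in
open scoped commutatorElement in
theorem lemB {G : Type*} [Group G] (Q : Subgroup G) (g : G)
    (h1 : ∀ q ∈ Q, ∀ r ∈ Q, Commute (q⁻¹ * (g * q * g⁻¹)) r)
    (h2 : ∀ q ∈ Q, ∀ r ∈ Q, Commute (q⁻¹ * (g * q * g⁻¹)) (g * r * g⁻¹))
    {t : G} (ht : t ∈ ⁅Q, Q⁆) : g * t * g⁻¹ = t := by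
  let f : Q →* G :=
    { toFun := fun q => (q : G)⁻¹ * (g * q * g⁻¹)
      map_one' := by simp
      map_mul' := fun q r => by
        have e := (h1 q q.2 r⁻¹ (Q.inv_mem r.2)).eq
        simp only [coe_mul]
        calc ((q : G) * r)⁻¹ * (g * (q * r) * g⁻¹)
            = ((r : G)⁻¹ * ((q : G)⁻¹ * (g * q * g⁻¹))) * (g * r * g⁻¹) := by group
          _ = _ := by rw [← e]; group }
  have hle : ⁅Q, Q⁆ ≤ f.ker.map Q.subtype := by
    rw [commutator_le]
    intro a ha b hb
    refine ⟨⁅(⟨a, ha⟩ : Q), ⟨b, hb⟩⁆, ?_, rfl⟩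
    rw [SetLike.mem_coe, MonoidHom.mem_ker, map_commutatorElement, commutatorElement_eq_one_iff_commute]
    exact ((h1 a ha b hb).inv_right).mul_right (h2 a ha b hb)
  obtain ⟨q, hq, rfl⟩ := hle ht
  have : (q : G)⁻¹ * (g * q * g⁻¹) = 1 := hq
  exact (inv_mul_eq_one.mp this).symm

open Subgroup in
open scoped commutatorElement in

/-- Let G be a finite group with G = QN, where N is a normal subgroup of G and Q is a non-abelian 2-subgroup with Q ∩ N = 1. Suppose that some nontrivial element t of Z(Q) ∩ [Q, Q] satisfies C_N(Q) = C_N(t). Then [N, Q] is solvable of odd order. -/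
theorem result {G : Type*} [Group G] [Finite G] (N Q : Subgroup G) [N.Normal] (hG : Q ⊔ N = ⊤) (hQ : IsPGroup 2 ↥Q) (hQna : ¬ IsMulCommutative ↥Q) (hdisj : Q ⊓ N = ⊥) (t : G) (ht1 : t ≠ 1) (htZ : t ∈ Q ⊓ Subgroup.centralizer (Q : Set G)) (htQ : t ∈ ⁅Q, Q⁆) (hC : N ⊓ Subgroup.centralizer (Q : Set G) = N ⊓ Subgroup.centralizer ({t} : Set G)) : Group.IsSolvable ↥⁅N, Q⁆ ∧ Odd (Nat.card ↥⁅N, Q⁆) := by
  obtain ⟨S, hQS⟩ := hQ.exists_le_sylow
  have hdec : ∀ g : G, ∃ q ∈ Q, ∃ n ∈ N, g = q * n := by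
    intro g
    have : g ∈ Q ⊔ N := by rw [hG]; trivial
    rw [← SetLike.mem_coe, Subgroup.mul_normal] at this
    obtain ⟨q, hq, n, hn, rfl⟩ := this
    exact ⟨q, hq, n, hn, rfl⟩
  have hCt : ∀ n ∈ N, Commute n t → ∀ q ∈ Q, Commute n q := by
    intro n hn h q hq
    have : n ∈ N ⊓ centralizer (Q : Set G) := by
      rw [hC]
      exact ⟨hn, mem_centralizer_singleton_iff.mpr h.eq⟩
    exact ((mem_centralizer_iff.mp this.2) q hq).symm
  have htQ' : ∀ q ∈ Q, Commute t q := fun q hq => ((mem_centralizer_iff.mp htZ.2) q hq).symm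
  -- step 1
  have step1 : ∀ x ∈ (S : Subgroup G), x ∈ N → ∀ q ∈ Q, Commute x q := by
    set C := (S : Subgroup G) ⊓ N ⊓ centralizer (Q : Set G) with hCdef
    set D := Q ⊔ C with hD
    have hDS : D ≤ S := sup_le hQS (inf_le_left.trans inf_le_left)
    have hDN : ∀ d ∈ D, d ∈ N → d ∈ C := by
      intro d hd hdN
      have hn : Q ≤ normalizer (C : Set G) := by
        intro q hq
        rw [mem_normalizer_iff]
        intro c
        constructor
        · intro hc
          have : q * c = c * q := (mem_centralizer_iff.mp hc.2) q hq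
          rw [this, mul_inv_cancel_right]; exact hc
        · intro hc
          have : q * (q * c * q⁻¹) = (q * c * q⁻¹) * q := (mem_centralizer_iff.mp hc.2) q hq
          have e : c = q * c * q⁻¹ := by
            have h3 : q * c * q⁻¹ * q = q * c := by group
            rw [h3] at this
            exact (mul_left_cancel this).symm
          rw [e]; exact hc
      rw [hD, ← SetLike.mem_coe, coe_mul_of_left_le_normalizer_right Q C hn] at hd
      obtain ⟨q, hq, c, hc, rfl⟩ := hd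
      have hqN : q ∈ N := by
        have := N.mul_mem hdN (N.inv_mem hc.1.2)
        simpa using this
      have : q ∈ Q ⊓ N := ⟨hq, hqN⟩
      rw [hdisj, mem_bot] at this
      subst this
      simpa using hc
    by_cases hDtop : D.subgroupOf S = ⊤
    · intro x hx hxN q hq
      have hxD : x ∈ D := by
        have : (⟨x, hx⟩ : S) ∈ D.subgroupOf S := by rw [hDtop]; trivial
        exact this
      exact ((mem_centralizer_iff.mp (hDN x hxD hxN).2) q hq).symm
    exfalso
    haveI : Group.IsNilpotent (S : Subgroup G) := S.isPGroup'.isNilpotent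
    obtain ⟨y, hy1, hy2⟩ := SetLike.exists_of_lt (CF.Solv.lt_normalizer_of_isNilpotent hDtop)
    have hyn : ∀ d ∈ D, (y : G) * d * (y : G)⁻¹ ∈ D := by
      intro d hd
      exact (mem_normalizer_iff.mp hy1 ⟨d, hDS hd⟩).mp hd
    have hyn' : ∀ d ∈ D, (y : G)⁻¹ * d * (y : G) ∈ D := by
      intro d hd
      have := (mem_normalizer_iff.mp (inv_mem hy1) ⟨d, hDS hd⟩).mp hd
      simpa [mem_subgroupOf] using this
    obtain ⟨q0, hq0, x, hx, hyx⟩ := hdec y
    have hq0D : q0 ∈ D := mem_sup_left hq0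
    have hxS : x ∈ (S : Subgroup G) := by
      have := (S : Subgroup G).mul_mem (inv_mem (hQS hq0)) y.2
      rw [hyx] at this
      simpa using this
    have hxn : ∀ d ∈ D, x * d * x⁻¹ ∈ D := by
      intro d hd
      have := D.mul_mem (D.mul_mem (D.inv_mem hq0D) (hyn d hd)) hq0D
      rw [hyx] at this
      simpa [mul_assoc] using this
    have hxn' : ∀ d ∈ D, x⁻¹ * d * x ∈ D := by
      intro d hd
      have := hyn' _ (D.mul_mem (D.mul_mem hq0D hd) (D.inv_mem hq0D))
      rw [hyx] at this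
      simpa [mul_assoc] using this
    have hd : ∀ q ∈ Q, q⁻¹ * (x * q * x⁻¹) ∈ C := by
      intro q hq
      apply hDN
      · exact D.mul_mem (D.inv_mem (mem_sup_left hq)) (hxn q (mem_sup_left hq))
      · have := N.mul_mem (‹N.Normal›.conj_mem x hx q⁻¹) (N.inv_mem hx)
        simpa [mul_assoc] using this
    have := lemB Q x (fun q hq r hr => ((mem_centralizer_iff.mp (hd q hq).2) r hr).symm)
      (fun q hq r hr => by
        have h1 : x⁻¹ * (q⁻¹ * (x * q * x⁻¹)) * x ∈ C := by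
          apply hDN _ (hxn' _ (mem_sup_right (hd q hq)))
          have := ‹N.Normal›.conj_mem _ (hd q hq).1.2 x⁻¹
          simpa using this
        have h2 := (mem_centralizer_iff.mp h1.2) r hr
        generalize q⁻¹ * (x * q * x⁻¹) = c at h2 ⊢
        change c * (x * r * x⁻¹) = (x * r * x⁻¹) * c
        calc c * (x * r * x⁻¹) = x * (x⁻¹ * c * x * r) * x⁻¹ := by group
          _ = x * (r * (x⁻¹ * c * x)) * x⁻¹ := by rw [h2]
          _ = _ := by group) htQ
    have hxt : Commute x t := by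
      change x * t = t * x
      exact mul_inv_eq_iff_eq_mul.mp this
    have hxC : x ∈ C := ⟨⟨hxS, hx⟩, mem_centralizer_iff.mpr fun q hq => (hCt x hx hxt q hq).symm⟩
    apply hy2
    rw [mem_subgroupOf, hyx]
    exact D.mul_mem hq0D (mem_sup_right hxC)
  -- step 2
  have step2 : ∀ g : G, g * t * g⁻¹ ∈ (S : Subgroup G) → g * t * g⁻¹ = t := by
    intro g0 hg0
    obtain ⟨q0, hq0, n0, hn0, hg⟩ := hdec g0⁻¹
    set g := n0⁻¹ with hgdef
    have hgN : g ∈ N := N.inv_mem hn0
    have e0 : g0 * t * g0⁻¹ = g * t * g⁻¹ := by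
      have e1 : g0 = g * q0⁻¹ := by rw [hgdef, ← mul_inv_rev, ← hg, inv_inv]
      rw [e1]
      have := (htQ' q0 hq0).eq
      calc g * q0⁻¹ * t * (g * q0⁻¹)⁻¹ = g * (q0⁻¹ * (t * q0)) * g⁻¹ := by group
        _ = _ := by rw [this]; group
    rw [e0] at hg0 ⊢
    have hdN : ∀ q : G, q⁻¹ * (g * q * g⁻¹) ∈ N := by
      intro q
      have := N.mul_mem (‹N.Normal›.conj_mem g hgN q⁻¹) (N.inv_mem hgN)
      simpa [mul_assoc] using this
    have huS : t⁻¹ * (g * t * g⁻¹) ∈ (S : Subgroup G) := mul_mem (inv_mem (hQS htZ.1)) hg0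
    have huQ := step1 _ huS (hdN t)
    have hsQ : ∀ q ∈ Q, Commute (g * t * g⁻¹) q := by
      intro q hq
      have := (htQ' q hq).mul_left (huQ q hq)
      simpa using this
    -- elements of `N` commuting with `s` commute with `Q^g`
    have hCs : ∀ n ∈ N, Commute n (g * t * g⁻¹) → ∀ q ∈ Q, Commute n (g * q * g⁻¹) := by
      intro n hn h q hq
      have h1 : Commute (g⁻¹ * n * g) t := by
        have := h.eq
        change g⁻¹ * n * g * t = t * (g⁻¹ * n * g)
        calc g⁻¹ * n * g * t = g⁻¹ * (n * (g * t * g⁻¹)) * g := by group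
          _ = _ := by rw [this]; group
      have h2 := (hCt _ (by simpa using ‹N.Normal›.conj_mem n hn g⁻¹) h1 q hq).eq
      change n * (g * q * g⁻¹) = (g * q * g⁻¹) * n
      calc n * (g * q * g⁻¹) = g * (g⁻¹ * n * g * q) * g⁻¹ := by group
        _ = _ := by rw [h2]; group
    have hsQg : ∀ q ∈ Q, Commute (g * t * g⁻¹) (g * q * g⁻¹) := by
      intro q hq
      have := (htQ' q hq).eq
      change _ * _ = _ * _
      calc g * t * g⁻¹ * (g * q * g⁻¹) = g * (t * q) * g⁻¹ := by group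
        _ = _ := by rw [this]; group
    have hus : Commute (t⁻¹ * (g * t * g⁻¹)) (g * t * g⁻¹) :=
      ((hsQ t htZ.1).symm.inv_left).mul_left (Commute.refl _)
    have htQg : ∀ q ∈ Q, Commute t (g * q * g⁻¹) := by
      intro q hq
      have := (hsQg q hq).mul_left (hCs _ (hdN t) hus q hq).inv_left
      have e : g * t * g⁻¹ * (t⁻¹ * (g * t * g⁻¹))⁻¹ = g * t * g⁻¹ * (g * t * g⁻¹)⁻¹ * t := by group
      rw [e, mul_inv_cancel, one_mul] at this
      exact this
    apply lemB Q g _ _ htQ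
    · intro q hq
      apply hCt _ (hdN q)
      exact ((htQ' q hq).symm.inv_left).mul_left (htQg q hq).symm
    · intro q hq
      apply hCs _ (hdN q)
      exact ((hsQ q hq).symm.inv_left).mul_left (hsQg q hq).symm
  have hz : CF.Hyp.InZStar t := CF.Char.inZStar_of_weaklyClosed S (hQS htZ.1) step2
  have hzw : ∀ w ∈ zpowers t, CF.Hyp.InZStar w := by
    rintro _ ⟨k, rfl⟩
    rw [CF.Char.inZStar_iff_mk_mem_center] at hz ⊢
    simpa using zpow_mem hz k
  have hON : Cfsg.pPrimeCore 2 G ≤ N := by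
    intro o ho
    obtain ⟨q, hq, n, hn, hqn⟩ := hdec o
    obtain ⟨k, hk⟩ := hQ ⟨q, hq⟩
    have hk' : q ^ 2 ^ k = 1 := congrArg Subtype.val hk
    have h1 : ((o : G ⧸ N)) ^ 2 ^ k = 1 := by
      rw [hqn, QuotientGroup.mk_mul, (QuotientGroup.eq_one_iff n).mpr hn, mul_one,
        ← QuotientGroup.mk_pow, hk', QuotientGroup.mk_one]
    have h2 : ((o : G ⧸ N)) ^ Nat.card (Cfsg.pPrimeCore 2 G) = 1 := by
      have : o ^ Nat.card (Cfsg.pPrimeCore 2 G) = 1 :=
        congrArg Subtype.val (pow_card_eq_one' (x := (⟨o, ho⟩ : Cfsg.pPrimeCore 2 G)))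
      rw [← QuotientGroup.mk_pow, this, QuotientGroup.mk_one]
    have h3 := pow_gcd_eq_one.mpr ⟨h1, h2⟩
    rw [(Nat.Coprime.pow_left k (CF.Solv.pPrimeCore_coprime (p := 2) (G := G)).symm).gcd_eq_one,
      pow_one] at h3
    exact (QuotientGroup.eq_one_iff o).mp h3
  have hle : ⁅N, Q⁆ ≤ Cfsg.pPrimeCore 2 G := by
    rw [commutator_le]
    intro n hn q hq
    obtain ⟨o, ho, c, hc, rfl⟩ := CF.Invol.exists_mul_of_inZStar
      (Z := zpowers t) (hQ.to_le (zpowers_le.mpr htZ.1))
      (by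
        rintro _ ⟨k, rfl⟩
        rw [mem_centralizer_iff]
        rintro _ ⟨j, rfl⟩
        exact (Commute.refl t).zpow_zpow j k) hzw n
    have hcN : c ∈ N := by
      have := N.mul_mem (N.inv_mem (hON ho)) hn
      simpa using this
    have hct : Commute c t := ((mem_centralizer_iff.mp hc) t (mem_zpowers t)).symm
    have hcq := (hCt c hcN hct q hq).eq
    have : ⁅o * c, q⁆ = o * (q * o⁻¹ * q⁻¹) := by
      rw [commutatorElement_def]
      calc o * c * q * (o * c)⁻¹ * q⁻¹ = o * (c * q) * c⁻¹ * o⁻¹ * q⁻¹ := by group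
        _ = _ := by rw [hcq]; group
    rw [this]
    exact mul_mem ho (Subgroup.Normal.conj_mem inferInstance _ (inv_mem ho) q)
  have hodd : Odd (Nat.card ↥⁅N, Q⁆) := by
    have h1 : Odd (Nat.card (Cfsg.pPrimeCore 2 G)) :=
      Nat.coprime_two_right.mp (CF.Solv.pPrimeCore_coprime (p := 2) (G := G))
    exact Odd.of_dvd_nat h1 (card_dvd_of_le hle)
  exact ⟨CF.Hyp.isSolvable_of_odd hodd, hodd⟩

end Cfsg.Agent.S2962
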