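import Cfsg.Statements.S2963

set_option autoImplicit false
open Cfsg

namespace Cfsg.Agent.S2963

open MulAction
open scoped Pointwise

/-- Let n be odd. If the symmetric group of degree n is a minimal parabolic group for the prime 2, that is, a Sylow 2-subgroup is not normal and lies in exactly one maximal subgroup, then n = 2^m + 1 for some natural number m. -/
theorem result (n : ℕ) (hn : Odd n) (h : Cfsg.IsPMinimal 2 (Equiv.Perm (Fin n))) : ∃ m : ℕ, n = 2 ^ m + 1 := by
  obtain ⟨S⟩ : Nonempty (Sylow 2 (Equiv.Perm (Fin n))) := inferInstance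
  obtain ⟨h1, M, -, h2⟩ := h S
  obtain ⟨x, hx⟩ := S.isPGroup'.nonempty_fixed_point_of_prime_not_dvd_card (Fin n)
    (by simpa [Nat.odd_iff] using hn)
  obtain ⟨y, hy⟩ : ∃ y, y ≠ x := by
    by_contra! h
    have : Subsingleton (Fin n) := ⟨fun a b => (h a).trans (h b).symm⟩
    exact h1 (Subsingleton.elim ⊥ S.1 ▸ inferInstance)
  have : Nontrivial (Fin n) := ⟨y, x, hy⟩
  have h3 := h2 _ ⟨IsPreprimitive.isCoatom_stabilizer_of_isPreprimitive (Equiv.Perm (Fin n)) x,
    fun g hg => hx ⟨g, hg⟩⟩
  have h4 : x ∉ orbit S y := fun ⟨g, e⟩ => hy (by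
    rw [← smul_left_cancel_iff g, hx g]; exact e)
  have h5 : orbit S y = {x}ᶜ := by
    refine Set.Subset.antisymm (fun z hz e => h4 (e ▸ hz)) fun z hz => by_contra fun h6 => ?_
    obtain ⟨N, hN, h7⟩ := (eq_top_or_exists_le_coatom (stabilizer (Equiv.Perm (Fin n))
      (orbit S y))).resolve_left fun e => h4 (by
        have := mem_stabilizer_set.1 (e ▸ Subgroup.mem_top (Equiv.swap x y)) y
        simpa using this.2 (mem_orbit_self y))
    have h8 : Equiv.swap x z • x = x := (h3.trans (h2 N ⟨hN, le_trans (fun g hg => smul_orbit (⟨g, hg⟩ : S) y) h7⟩).symm).ge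
      (h7 (mem_stabilizer_set.2 fun w => by
        by_cases e1 : w = x
        · simp [e1, h4, h6]
        by_cases e2 : w = z
        · simp [e2, h4, h6]
        · simp [Equiv.swap_apply_of_ne_of_ne e1 e2]))
    exact hz (by simpa using h8)
  obtain ⟨m, hm⟩ := S.isPGroup'.card_orbit y
  refine ⟨m, ?_⟩
  have := Set.ncard_add_ncard_compl ({x} : Set (Fin n))
  rw [← h5, ← Nat.card_coe_set_eq (orbit S y), hm] at this
  simp at this
  omega

end Cfsg.Agent.S2963
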