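import Cfsg.Statements.S2981
import Cfsg.Agent.PLocal.FFBar

set_option autoImplicit false
open Cfsg

namespace Cfsg.Agent.S2981

open CF.Loc CF.FF Subgroup in
theorem kind_off {G : Type*} [Group G] [Finite G] {p : ℕ} [Fact p.Prime] {V P T E : Subgroup G} (f : Fam p V P)
    (h : Kind p V T E) (hE : E ≤ P) : (∃ A ≤ E, Off p V P A) ∧ ∀ K, (∀ A, Off p V P A → A ≤ K) → E ≤ K := by
  obtain ⟨n, -, ⟨F, _, _, A, ρ, ψ, -, -, -, d, e⟩ | ⟨rfl, ρ, ψ, b⟩⟩ := h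
  · have o := f.off_of_nat ⟨F, _, inferInstance, ρ, ψ, d, e⟩ (d.le.trans hE)
    obtain ⟨w, hw, w0⟩ := d.exists_w
    exact ⟨⟨A, d.le, o⟩, fun K k => (d.sup_cj e hw w0).ge.trans (sup_le (k _ o) (k _ (o.cj f.norm (hE hw))))⟩
  · obtain ⟨g, r, -, t⟩ := b.tv ⟨0, Nat.two_pow_pos n⟩
    exact ⟨⟨_, zpowers_le.2 t.mem, (t.mono (hE t.mem)).off f⟩, fun K k => b.le_of_swaps fun i =>
      let ⟨g, _, e, t⟩ := b.tv i; ⟨g, ⟨t.mem, k _ ((t.mono (hE t.mem)).off f) (mem_zpowers g)⟩, e⟩⟩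

open CF.Loc CF.FF Subgroup in

/-- The local C**(G,T)-Theorem for minimal parabolic groups. Let G be a finite p-minimal group (a Sylow p-subgroup T is not normal and lies in exactly one maximal subgroup) of characteristic p (C_G(O_p(G)) ≤ O_p(G)), and suppose G ≠ C**(G,T), the subgroup generated by C_G(Ω₁(Z(T))) and N_G(J(T)) (J(T) generated by the elementary abelian p-subgroups of T of largest order). Put V = Ω₁(Z(O_p(G))) and C = C_G(V). Then there are subgroups E₁, …, E_r of G containing C such that: J(G)TC = G and the E_i C/C form an internal direct product equal to J(G)C/C; any two of the E_i are conjugate by an element of T; V = C_V(⟨E_i⟩)·∏[V, E_i] with [V, E_i, E_j] = 1 for i ≠ j; for some n ≥ 1, each E_i/C is isomorphic to SL₂(pⁿ), or p = 2 and to the symmetric group of degree 2ⁿ + 1; and E_i acts on [V, E_i]/C_{[V,E_i]}(E_i) as the natural two-dimensional SL₂(pⁿ)-module, respectively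 as the symmetric group of degree 2ⁿ+1 on its even-weight permutation module. -/
theorem result {G : Type*} [Group G] [Finite G] {p : ℕ} [Fact p.Prime] (hmin : Cfsg.IsPMinimal p G) (hG : Subgroup.centralizer (Cfsg.pCore p G : Set G) ≤ Cfsg.pCore p G) (T : Sylow p G) (hne : Cfsg.cStarStarOf p (T : Subgroup G) ≠ ⊤) : ∃ (r : ℕ) (E : Fin r → Subgroup G), (∀ i, Subgroup.centralizer (Cfsg.omegaOneCenter p (Cfsg.pCore p G) : Set G) ≤ E i) ∧ Cfsg.thompsonSubgroup p G ⊔ (T : Subgroup G) ⊔ Subgroup.centralizer (Cfsg.omegaOneCenter p (Cfsg.pCore p G) : Set G) = ⊤ ∧ (⨆ i, E i) = Cfsg.thompsonSubgroup p G ⊔ Subgroup.centralizer (Cfsg.omegaOneCenter p (Cfsg.pCore p G) : Set G) ∧ (∀ i j, i ≠ j → ⁅E i, E j⁆ ≤ Subgroup.centralizer (Cfsg.omegaOneCenter p (Cfsg.pCore p G) : Set G)) ∧ (∀ i, E i ⊓ (⨆ j ∈ {j | j ≠ i}, E j) ≤ Subgroup.centralizer (Cfsg.omegaOneCenter p (Cfsg.pCore p G) : Set G)) ∧ (∀ i j, ∃ t ∈ (T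 : Subgroup G), (E i).map (MulAut.conj t).toMonoidHom = E j) ∧ (Cfsg.omegaOneCenter p (Cfsg.pCore p G) ⊓ Subgroup.centralizer ((⨆ i, E i : Subgroup G) : Set G)) ⊔ (⨆ i, ⁅Cfsg.omegaOneCenter p (Cfsg.pCore p G), E i⁆) = Cfsg.omegaOneCenter p (Cfsg.pCore p G) ∧ (∀ i j, i ≠ j → ⁅⁅Cfsg.omegaOneCenter p (Cfsg.pCore p G), E i⁆, E j⁆ = ⊥) ∧ ∀ i, ∃ n : ℕ, 1 ≤ n ∧ ((∃ (F : Type) (_ : Field F) (_ : Fintype F), Fintype.card F = p ^ n ∧ (∃ _ : ((Subgroup.centralizer (Cfsg.omegaOneCenter p (Cfsg.pCore p G) : Set G)).subgroupOf (E i)).Normal, Nonempty (↥(E i) ⧸ (Subgroup.centralizer (Cfsg.omegaOneCenter p (Cfsg.pCore p G) : Set G)).subgroupOf (E i) ≃* Matrix.SpecialLinearGroup (Fin 2) F)) ∧ Cfsg.ActsAsSL2OnSection F ⊤ (E i) ⁅Cfsg.omegaOneCenter p (Cfsg.pCore p G), E i⁆ (⁅Cfsg.omegaOneCenter p (Cfsg.pCore p G), E i⁆ ⊓ Subgroup.centralizer ((E i : Subgroup G) : Set G))) ∨ (p = 2 ∧ (∃ _ : ((Subgroup.centralizer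 (Cfsg.omegaOneCenter p (Cfsg.pCore p G) : Set G)).subgroupOf (E i)).Normal, Nonempty (↥(E i) ⧸ (Subgroup.centralizer (Cfsg.omegaOneCenter p (Cfsg.pCore p G) : Set G)).subgroupOf (E i) ≃* Equiv.Perm (Fin (2 ^ n + 1)))) ∧ Cfsg.ActsAsOddPermModuleOnSection (2 ^ n + 1) ⊤ (E i) ⁅Cfsg.omegaOneCenter p (Cfsg.pCore p G), E i⁆ (⁅Cfsg.omegaOneCenter p (Cfsg.pCore p G), E i⁆ ⊓ Subgroup.centralizer ((E i : Subgroup G) : Set G)))) := by
  have hT := isSyl_top T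
  obtain ⟨M, hM, hM'⟩ := (eq_top_or_exists_le_coatom _).resolve_left hne
  have nJ := le_normalizer.trans (CF.PLocal.normalizer_le_normalizer_thompson p (T : Subgroup G))
  obtain ⟨V, hV⟩ : ∃ V, V = omegaOneCenter p (pCore p G) := ⟨_, rfl⟩
  rw [← hV]
  have h : PM p ⊤ T M V := ⟨by rw [hV, pCoreOf_top], hT,
    (uMax_top_of_isPMinimal hmin T hM (nJ.trans (le_sup_right.trans hM'))).1, isCharP_top_iff.2 hG,
    inf_le_right.trans (le_sup_left.trans hM'), inf_le_right.trans (le_sup_right.trans hM')⟩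
  have s := h.str
  have f := s.fam
  have nV : ∀ X : Subgroup G, X ≤ 𝐍(V) := fun X => le_top.trans h.norm
  obtain ⟨A, hA, B, hB, o⟩ := h.exists_off
  obtain ⟨E, a, b, c⟩ := s.main o
  have hT' := s.syl.le
  obtain ⟨r, E', e1, e2, e3⟩ := b.exists_enum (hT'.trans f.norm)
  have hE : ∀ i, E' i ≤ bar V ⊤ := fun i => let ⟨t, ht, e⟩ := e1 i; e ▸ cj_le_of_mem (hT' ht) (le_sup_left.trans a.le)
  have hK : ∀ i, ∃ T', Kind p (hat V V) T' (E' i) := fun i => let ⟨t, ht, e⟩ := e1 i; ⟨_, e ▸ c.cj (f.norm (hT' ht))⟩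
  have bu : ∀ i, bar V (unbar V (E' i)) = E' i := fun i => bar_unbar' (hE i)
  have hS : ∀ i, V ≤ ⁅V, unbar V (E' i)⁆ ⊔ (V ⊓ 𝐂(unbar V (E' i))) := fun i => by
    obtain ⟨_, e⟩ := hK i
    have := e.le_comm_sup
    rwa [← bu i, commutator_hat_bar le_rfl (nV _), hat_inf_centralizer (nV _), ← hat_sup
      (commutator_le_left_of_le_normalizer (nV _)) inf_le_left, hat_le_hat_iff le_rfl] at this
  have hC : ∀ i j, i ≠ j → ⁅V, unbar V (E' i)⁆ ≤ 𝐂(unbar V (E' j)) := fun i j e => by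
    have := (e3 i j e).2
    rwa [← bu i, ← bu j, commutator_hat_bar le_rfl (nV _), hat_le_centralizer_iff
      (commutator_le_left_of_le_normalizer (nV _)) (nV _)] at this
  obtain ⟨i₀, e0⟩ := e2 1 (one_mem _)
  rw [cj_one] at e0
  have cj' : ∀ i, ∀ t ∈ bar V T, ∃ j, cj[t] (E' i) = E' j := fun i t ht => by
    obtain ⟨u, hu, e⟩ := e1 i
    obtain ⟨j, e'⟩ := e2 _ (mul_mem ht hu)
    exact ⟨j, by rw [e', cj_mul, e]⟩
  have nD : bar V ⊤ ≤ 𝐍(⨆ i, E' i) := a.ge.trans (sup_le ((e0.ge.trans (le_iSup E' i₀)).trans le_normalizer)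
    fun t ht => mem_normalizer_of_cj_le (by
      rw [cj_iSup]; exact iSup_le fun i => let ⟨j, e⟩ := cj' i t ht; e ▸ le_iSup E' j))
  have oD : ∀ A, Off p (hat V V) (bar V ⊤) A → A ≤ ⨆ i, E' i := fun A hA => by
    obtain ⟨_, k⟩ := hK i₀
    obtain ⟨⟨B, h1, h2⟩, -⟩ := kind_off f k (hE i₀)
    obtain ⟨g, hg, rfl⟩ := s.conj_off h2 hA
    exact cj_le_of_mem_normalizer (nD hg) (h1.trans (le_iSup E' i₀))
  have mx : ∀ A ∈ CF.PLocal.maxAb p (⊤ : Subgroup G), ∃ g, cj[g] A ∈ CF.PLocal.maxAb p (T : Subgroup G) := fun A hA => by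
    obtain ⟨g, -, e⟩ := hT.exists_cj_le (isElemAb_isPGroup hA.2.1) le_top
    exact ⟨g, CF.PLocal.mem_maxAb_of_le (CF.PLocal.conj_mem_maxAb hA (by simp)) e le_top⟩
  have eJ : ⨆ i, unbar V (E' i) = thompsonSubgroup p G ⊔ 𝐂(V) := by
    rw [← CF.PLocal.thompsonSubgroupOf_top]
    refine le_antisymm (iSup_le fun i => ?_) (sup_le (CF.PLocal.thompson_le_iff.2 fun A hA => ?_)
      (le_iSup_of_le i₀ (centralizer_le_unbar _)))
    · obtain ⟨_, k⟩ := hK i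
      rw [← bar_le_bar_iff (nV _) (nV _), bu]
      refine (kind_off f k (hE i)).2 _ fun C hC => ?_
      obtain ⟨g, hg, rfl⟩ := s.conj_off o hC
      obtain ⟨A', hA'⟩ := CF.PLocal.maxAb_nonempty p (⊤ : Subgroup G)
      obtain ⟨k, hk⟩ := mx A' hA'
      exact cj_le_of_mem_normalizer (bar_le_normalizer_bar (nV _) (le_normalizer.trans
        (CF.PLocal.normalizer_le_normalizer_thompson p ⊤)) hg) (hB.trans (bar_mono (CF.PLocal.le_thompson
        (CF.PLocal.mem_maxAb_of_card_le hA' le_top hA.2.1 (by rw [← card_cj k, CF.PLocal.card_eq_of_mem_maxAb hk hA])))))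
    · obtain ⟨g, hg⟩ := mx A hA
      have := (h.bar_max_le hg).trans (sSup_le fun B hB => oD B hB.2)
      rw [bar_cj' (nV ⊤ (mem_top g)), cj_le_iff, cj_eq_self (inv_mem (nD (pb_mem (nV ⊤) (mem_top g))))] at this
      refine (bar_le_bar_iff (nV _) (nV _)).1 (this.trans (iSup_le fun i => (bu i).ge.trans (bar_mono (le_iSup_of_le i le_rfl))))
        |>.trans (sup_le le_rfl (le_iSup_of_le i₀ (centralizer_le_unbar _)))
  refine ⟨r, fun i => unbar V (E' i), fun i => centralizer_le_unbar _, ?_, eJ, fun i j e => ?_, fun i => ?_, fun i j => ?_,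
    le_cent_sup_iSup (isElemAb_le_centralizer h.ea) (fun i => nV _) hS hC,
    fun i j e => commutator_eq_bot_iff_le_centralizer.2 (hC i j e), fun i => ?_⟩
  · rw [sup_right_comm, ← eJ, eq_top_iff]
    refine ((bar_le_bar_iff (nV _) (nV _)).1 ?_).trans (sup_le le_rfl (le_sup_of_le_left (le_iSup_of_le i₀
      (centralizer_le_unbar _))))
    rw [← a, bar_sup (nV _) (nV _)]
    exact sup_le_sup_right (e0.ge.trans ((bu i₀).ge.trans (bar_mono (le_iSup_of_le i₀ le_rfl)))) _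
  · rw [← bar_eq_bot_iff (nV _), bar_commutator (nV _) (nV _), bu, bu]
    exact commutator_eq_bot_iff_le_centralizer.2 (e3 i j e).1
  · refine le_trans ?_ (centralizer_anti (hS i))
    rw [centralizer_sup]
    exact le_inf (inf_le_right.trans (iSup₂_le fun j e => le_centralizer_iff.1 (hC i j (Ne.symm e))))
      (inf_le_left.trans (le_centralizer_iff.1 inf_le_right))
  · obtain ⟨t, ht, e⟩ := e1 i
    obtain ⟨u, hu, e'⟩ := e1 j
    obtain ⟨x, hx, ex⟩ := (mem_bar_iff (nV _)).1 (mul_mem hu (inv_mem ht))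
    refine ⟨x, hx, ?_⟩
    have : bar V (cj[x] (unbar V (E' i))) = E' j := by
      rw [bar_cj' (nV _ hx), bu, ex, ← e, ← e', cj_mul, cj_inv_cj]
    show cj[x] (unbar V (E' i)) = unbar V (E' j)
    rw [← this, unbar_bar (nV _), eq_comm, sup_eq_left, ← cj_eq_self (le_normalizer_centralizer (nV _) hx)]
    exact cj_mono x (centralizer_le_unbar _)
  · have ker : ∀ {X : Type} [Group X] {ρ : Hol V → X}, (∀ g ∈ E' i, ∀ h ∈ E' i, ρ (g * h) = ρ g * ρ h) →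
        (∀ g ∈ E' i, ρ g = 1 → g = 1) → ∀ g ∈ unbar V (E' i), ρ (pb V g) = 1 ↔ g ∈ 𝐂(V) := fun {X} _ {ρ} m k g hg => by
      rw [← pb_eq_one (nV _ hg)]
      exact ⟨k _ ((pb_mem_iff (nV _ hg)).2 hg), fun e => by simpa [e] using m 1 (one_mem _) 1 (one_mem _)⟩
    obtain ⟨_, n, hn, ⟨F, _, _, A, ρ, ψ, a, -, -, d, e⟩ | ⟨a, ρ, ψ, b⟩⟩ := hK i
    · have d' := NatOn.unbar (L := unbar V (E' i)) (A := unbar V A) (by rwa [bu, bar_unbar' (d.le.trans (hE i))]) (nV _)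
        (Subgroup.map_mono (comap_mono d.le))
      exact ⟨n, hn, .inl ⟨F, _, _, a, nonempty_quot_equiv _ d'.ρmul d'.ρsurj (ker d.ρmul e),
        d'.acts_comm (isElemAb_le_centralizer h.ea)⟩⟩
    · have b' := SymOn.unbar (E := unbar V (E' i)) (by rwa [bu]) (nV _)
      exact ⟨n, hn, .inr ⟨a, nonempty_quot_equiv _ b'.ρmul (fun x => (b'.range x).1 (mem_top x)) (ker b.ρmul b.inj),
        acts_iff_pSec.2 ⟨_, _, b'⟩⟩⟩

end Cfsg.Agent.S2981
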