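import Cfsg.Statements.S2984
import Cfsg.Agent.PLocal.BlkC

set_option autoImplicit false
open Cfsg

namespace Cfsg.Agent.S2984

open CF.Loc CF.FF Subgroup in

/-- Let G be a finite group of characteristic p (C_G(O_p(G)) ≤ O_p(G)), T a Sylow p-subgroup and E a B(T)-block of G, with W_E = [Ω₁(Z(O_p(E))), E]. Then E = O^p(E·O_p(G)), W_E ≤ Ω₁(Z(O_p(G))), and [W_E, J(T)] ≠ 1, where J(T) is generated by the elementary abelian p-subgroups of T of largest order. -/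
theorem result {G : Type*} [Group G] [Finite G] {p : ℕ} [Fact p.Prime] (hG : Subgroup.centralizer (Cfsg.pCore p G : Set G) ≤ Cfsg.pCore p G) (T : Sylow p G) (E : Subgroup G) (hE : Cfsg.IsBaumannBlock p (T : Subgroup G) E) : Cfsg.pResidualOf p (E ⊔ Cfsg.pCore p G) = E ∧ ⁅Cfsg.omegaOneCenter p (Cfsg.pCoreOf p E), E⁆ ≤ Cfsg.omegaOneCenter p (Cfsg.pCore p G) ∧ ⁅⁅Cfsg.omegaOneCenter p (Cfsg.pCoreOf p E), E⁆, Cfsg.thompsonSubgroupOf p (T : Subgroup G)⁆ ≠ ⊥ := by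
  have h := bx_of_block hG T hE
  have e := h.isB.J_eq T.isPGroup' ((CF.PLocal.thompson_le _ _).trans (baumann_le _ _)) le_top
  rw [← pCoreOf_top, e]
  exact ⟨h.res_sup (isPGroup_pCoreOf _ _) h.core_norm, h.W_le_V, mt commutator_eq_bot_iff_le_centralizer'.1 h.J_nt⟩

end Cfsg.Agent.S2984
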