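import Cfsg.Statements.S2987
import Cfsg.Agent.PLocal.BlkG

set_option autoImplicit false
open Cfsg

namespace Cfsg.Agent.S2987

open CF.Loc CF.FF Subgroup in

/-- Let G be a finite group of characteristic p (C_G(O_p(G)) ≤ O_p(G)) and E a subnormal subgroup of G which is a B(T)-block for some Sylow p-subgroup T of G. Then E is a normal subgroup of the Baumann subgroup B(G) (generated by the B(T) over all Sylow p-subgroups T), E is a B(T')-block for every Sylow p-subgroup T' of G, and every subgroup F that is a B(T')-block for some Sylow p-subgroup T' satisfies F ≤ E or [F, E] = 1. -/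
theorem result {G : Type*} [Group G] [Finite G] {p : ℕ} [Fact p.Prime] (hG : Subgroup.centralizer (Cfsg.pCore p G : Set G) ≤ Cfsg.pCore p G) (E : Subgroup G) (hE : ∃ T : Sylow p G, Cfsg.IsBaumannBlock p (T : Subgroup G) E) (hEs : E.IsSubnormal) : E ≤ Cfsg.baumannSubgroup p G ∧ Cfsg.baumannSubgroup p G ≤ Subgroup.normalizer (E : Set G) ∧ (∀ T' : Sylow p G, Cfsg.IsBaumannBlock p (T' : Subgroup G) E) ∧ ∀ F : Subgroup G, (∃ T' : Sylow p G, Cfsg.IsBaumannBlock p (T' : Subgroup G) F) → F ≤ E ∨ ⁅F, E⁆ = ⊥ := by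
  obtain ⟨T, hE⟩ := hE
  have h := sb_of_block hG T hE hEs
  refine ⟨(h.le_of_norm (le_ncl _ ⊤) (le_top.trans (le_normalizer_ncl _ _))).trans (ncl_le_iff.2 fun g _ => ?_),
    iSup_le fun T' => h.B_norm (IsSyl.isB (isSyl_top T')), fun T' => isBlock_iff.2 ⟨(h.all (isSyl_top T')).toBk, h.nz' (isSyl_top T')⟩,
    fun F ⟨T', hF⟩ => (h.le_or (bx_of_block hG T' hF)).imp_right commutator_eq_bot_iff_le_centralizer.2⟩
  rw [cj_baumann, ← coe_sylow_smul]
  exact le_iSup (fun T : Sylow p G => baumannSubgroupOf p (T : Subgroup G)) (g • T)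

end Cfsg.Agent.S2987
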