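import Cfsg.Statements.S2988
import Cfsg.Agent.PLocal.PushK

set_option autoImplicit false
universe u
open scoped Pointwise
open Cfsg

namespace Cfsg.Agent.S2988

open CF.Loc CF.FF Subgroup in

/-- Let p be a prime and S a nontrivial finite p-group. Write J(S) for the subgroup generated by the abelian subgroups of S of largest order (the large abelian subgroups) and J̃(S) = C_S(Z(J(S))). Unless S satisfies all of the following conditions — S is non-abelian; J(S) = S; Z(S) and Φ(S) are elementary abelian; Φ(S) ≤ Z(S) if p = 2, Φ(S) ≤ Z₂(S) if p = 3, and Φ(S) ≤ Z(S) with S of exponent p if p > 3; some large abelian subgroup is elementary abelian; and for all large abelian subgroups A, B and all subgroups Q of S one has |A|² = |S|·|Z(S)| ≥ |Q|·|Z(Q)| and ⟨A, B⟩ = AB = C_S(A ∩ B) — there exist nontrivial characteristic subgroups S₁ ≤ Z(S) and S₂ ≤ J̃(S) of S, S₂ characteristic in J̃(S), such that whenever S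 is embedded as a Sylow p-subgroup of a finite group G in the basic pushing-up situation, the image of S₁ or of S₂ is normal in G. -/
theorem result {p : ℕ} [Fact p.Prime] (S : Type u) [Group S] [Finite S] [Nontrivial S] (hS : IsPGroup p S) (hexc : ¬ (¬ IsMulCommutative S ∧ Cfsg.thompsonSubgroupA S = ⊤ ∧ Cfsg.IsElementaryAbelian p (Subgroup.center S) ∧ Cfsg.IsElementaryAbelian p (frattini S) ∧ (p = 2 → frattini S ≤ Subgroup.center S) ∧ (p = 3 → frattini S ≤ Subgroup.upperCentralSeries S 2) ∧ (3 < p → frattini S ≤ Subgroup.center S ∧ Monoid.exponent S = p) ∧ (∃ A ∈ Cfsg.maxAbelianSubgroups S, Cfsg.IsElementaryAbelian p A) ∧ (∀ A ∈ Cfsg.maxAbelianSubgroups S, ∀ B ∈ Cfsg.maxAbelianSubgroups S, ∀ Q : Subgroup S, Nat.card ↥A ^ 2 = Nat.card S * Nat.card ↥(Subgroup.center S) ∧ Nat.card ↥Q * Nat.card ↥(Subgroup.center ↥Q) ≤ Nat.card S * Nat.card ↥(Subgroup.center S) ∧ ((A ⊔ B : Subgroup S) : Set S) = (A : Set S)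 * (B : Set S) ∧ A ⊔ B = Subgroup.centralizer ((A ⊓ B : Subgroup S) : Set S)))) : ∃ S₁ S₂ : Subgroup S, S₁ ≠ ⊥ ∧ S₂ ≠ ⊥ ∧ S₁.Characteristic ∧ S₂.Characteristic ∧ S₁ ≤ Subgroup.center S ∧ S₂ ≤ Subgroup.centralizer ((Cfsg.thompsonSubgroupA S ⊓ Subgroup.centralizer (Cfsg.thompsonSubgroupA S : Set S) : Subgroup S) : Set S) ∧ (S₂.subgroupOf (Subgroup.centralizer ((Cfsg.thompsonSubgroupA S ⊓ Subgroup.centralizer (Cfsg.thompsonSubgroupA S : Set S) : Subgroup S) : Set S))).Characteristic ∧ ∀ (G : Type u) [Group G] [Finite G] (P : Subgroup G) (e : S ≃* ↥P), Cfsg.IsPushingUpSituation p P → ((S₁).map ((P.subtype).comp (e : S ≃* ↥P).toMonoidHom)).Normal ∨ ((S₂).map ((P.subtype).comp (e : S ≃* ↥P).toMonoidHom)).Normal := by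
  suffices ∃ S₁ S₂ : Subgroup S, GN p S₁ S₂ from let ⟨S₁, S₂, k⟩ := this
    ⟨S₁, S₂, k.1, k.2.1, k.2.2.1, k.2.2.2.1, k.2.2.2.2.1, k.2.2.2.2.2.1, k.2.2.2.2.2.2.1, k.normal⟩
  rcases gn_main hS with ⟨S₁, S₂, k, -⟩ | ⟨a, j, r, e, ⟨Q, q1, q2⟩, e1⟩
  · exact ⟨S₁, S₂, k⟩
  have pS := hS.to_subgroup ⊤
  by_cases h : sPhi p (⊤ : Subgroup S) = ⊥
  · obtain ⟨b, c, d, f, g, i, l⟩ := exc_of hS r e q1 q2 e1
    obtain ⟨A, hA⟩ := exists_mclo p (⊤ : Subgroup S)
    refine (hexc ⟨a, b, c, d, f, g, i, ⟨A, ?_, (CF.Solv.map_frattini_eq_bot_iff (hS.to_subgroup A)).1 (le_bot_iff.1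
      (h ▸ le_iSup (fun Q : {Q // MCLo p ⊤ Q} => 𝚽(Q.1)) ⟨A, hA⟩))⟩, l⟩).elim
    rw [CF.PLocal.maxAbelianSubgroups_eq, ← CF.PLocal.maxAb_top]; exact (q1.iff_max q2).1 hA.1
  refine ⟨𝐙[(⊤ : Subgroup S)], sPhi p ⊤, GN.of_top j (center_ne_bot pS top_ne_bot) h inferInstance
    (char_of fun f a b => by rw [sPhi_map a pS, b]) le_rfl fun G _ _ τ M a b c => ?_⟩
  rw [map_inf_cent a, sPhi_map a pS]
  exact (em _).imp_right fun e => normal_of_top_le_normalizer (b.norm_sPhi c e)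

end Cfsg.Agent.S2988
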