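import Cfsg.Statements.S2998
import Cfsg.Agent.Loc.Iso
-- import your own Cfsg.Agent.* helpers here

set_option autoImplicit false
open Cfsg

namespace Cfsg.Agent.S2998

open Cfsg CF.Loc Subgroup
open scoped commutatorElement


/-- Let G be a finite group, p a prime, P a Sylow p-subgroup of G and x ∈ P an element such that N_G(R) ≤ C_G(x) for every nontrivial subgroup R of P. Then P ≤ C_G(x); every G-conjugate of x lying in P equals x (so g ∈ C_G(x) whenever g x g⁻¹ ∈ P); and for every normal subgroup N of G, the image of x in G ⧸ N has the same property with respect to the image of P: the normalizer of every nontrivial subgroup of the image of P centralizes the image of x. -/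
theorem result {G : Type*} [Group G] [Finite G] {p : ℕ} [Fact p.Prime] (P : Sylow p G) (x : G) (hxP : x ∈ (P : Subgroup G)) (hlc : ∀ R : Subgroup G, R ≤ (P : Subgroup G) → R ≠ ⊥ → Subgroup.normalizer (R : Set G) ≤ Subgroup.centralizer ({x} : Set G)) : (P : Subgroup G) ≤ Subgroup.centralizer ({x} : Set G) ∧ (∀ g : G, g * x * g⁻¹ ∈ (P : Subgroup G) → g * x * g⁻¹ = x) ∧ ∀ (N : Subgroup G) [N.Normal], ∀ R : Subgroup (G ⧸ N), R ≤ (P : Subgroup G).map (QuotientGroup.mk' N) → R ≠ ⊥ → Subgroup.normalizer (R : Set (G ⧸ N)) ≤ Subgroup.centralizer ({(QuotientGroup.mk x : G ⧸ N)} : Set (G ⧸ N)) := by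
  by_cases h1 : (P : Subgroup G) = ⊥
  · have : x = 1 := by rw [← mem_bot, ← h1]; exact hxP
    subst this
    refine ⟨fun g _ => mem_centralizer_singleton_iff.2 (by simp), fun g _ => by simp,
      fun N _ R _ _ g _ => mem_centralizer_singleton_iff.2 (by simp)⟩
  have h2 : (P : Subgroup G) ≤ centralizer {x} := le_normalizer.trans (hlc _ le_rfl h1)
  have h3 : SE p (centralizer ({x} : Set G)) := se_of_normalizer (isSyl_of_le P h2) h1 hlc
  refine ⟨h2, fun g hg => ?_, fun N _ R h4 h5 => ?_⟩
  · by_cases e : x = 1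
    · simp [e]
    refine conj_eq_of_mem_centralizer_singleton (h3.mem_of_cj_le' (X := zpowers x)
      (zpowers_le.2 (h2 hxP)) (P.isPGroup'.to_le (zpowers_le.2 hxP)) (by rwa [Ne, zpowers_eq_bot]) ?_)
    rw [cj_zpowers, zpowers_le]
    exact h2 hg
  · have h6 := (h3.mono ((isSyl_of_le P h2).ne_bot_iff.1 h1) (L := centralizer {x} ⊔ N)
      le_sup_left).map (QuotientGroup.mk'_surjective N) (by rw [QuotientGroup.ker_mk']; exact le_sup_right)
    refine (h6.normalizer_le' (h4.trans (map_mono (h2.trans le_sup_left)))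
      ((P.isPGroup'.map _).to_le h4) h5).trans ?_
    rw [Subgroup.map_sup, QuotientGroup.map_mk'_self, sup_bot_eq]
    rintro _ ⟨a, ha, rfl⟩
    exact mem_centralizer_singleton_iff.2
      (congrArg (QuotientGroup.mk' N) (mem_centralizer_singleton_iff.1 ha))

end Cfsg.Agent.S2998
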