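import Cfsg.Statements.S2999
import Cfsg.Agent.PLocal.FFCore

set_option autoImplicit false
open Cfsg

namespace Cfsg.Agent.S2999

open CF.Loc CF.FF Subgroup in

/-- Let p be a prime and let P and V be subgroups of a finite group with V elementary abelian, P normalizing V and acting faithfully on it (P ∩ C(V) = 1). Suppose P is p-minimal (a Sylow p-subgroup T of P is not normal and lies in a unique maximal subgroup M of P) and A ≤ T is an elementary abelian subgroup such that: |V/C_V(A)| ≤ |A| while |A₀|·|C_V(A₀)| < |A|·|C_V(A)| for every nontrivial proper subgroup A₀ of A; [C_V(T), P] ≠ 1; and P = ⟨A, xAx⁻¹⟩ for every x ∈ P outside M. Then, with q = |A|, there is a field F with q elements such that P ≅ SL₂(F), C_V(A) = [V, A]·C_V(P), and P acts on V/C_V(P) as SL₂(F) on its natural two-dimensional module. -/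
theorem result {G : Type*} [Group G] [Finite G] {p : ℕ} [Fact p.Prime] (V P : Subgroup G) (hV : Cfsg.IsElementaryAbelian p V) (hPV : P ≤ Subgroup.normalizer (V : Set G)) (hfaith : P ⊓ Subgroup.centralizer (V : Set G) = ⊥) (hmin : Cfsg.IsPMinimal p ↥P) (T : Sylow p ↥P) (M : Subgroup ↥P) (hM : IsCoatom M) (hTM : (T : Subgroup ↥P) ≤ M) (A : Subgroup G) (hAT : A ≤ ((T : Subgroup ↥P).map P.subtype)) (hAel : Cfsg.IsElementaryAbelian p A) (hi : Nat.card ↥V ≤ Nat.card ↥A * Nat.card ↥(V ⊓ Subgroup.centralizer ((A : Subgroup G) : Set G)) ∧ ∀ A₀ : Subgroup G, A₀ ≤ A → A₀ ≠ ⊥ → A₀ ≠ A → Nat.card ↥A₀ * Nat.card ↥(V ⊓ Subgroup.centralizer ((A₀ : Subgroup G) : Set G)) < Nat.card ↥A * Nat.card ↥(V ⊓ Subgroup.centralizer ((A : Subgroup G) : Set G))) (hii : ⁅(V ⊓ Subgroup.centralizer ((((T : Subgroup ↥P).map P.subtype) : Subgroup G) : Set G)), P⁆ ≠ ⊥) (hiii : ∀ x : ↥P, x ∉ M → A ⊔ A.map (MulAut.conj (x : G)).toMonoidHom = P) : ∃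 (F : Type) (_ : Field F) (_ : Fintype F), Fintype.card F = Nat.card ↥A ∧ Nonempty (↥P ≃* Matrix.SpecialLinearGroup (Fin 2) F) ∧ (V ⊓ Subgroup.centralizer ((A : Subgroup G) : Set G)) = ⁅V, A⁆ ⊔ (V ⊓ Subgroup.centralizer ((P : Subgroup G) : Set G)) ∧ Cfsg.ActsAsSL2OnSection F ⊤ P V (V ⊓ Subgroup.centralizer ((P : Subgroup G) : Set G)) := by
  have hT := CF.Loc.isSyl_map T
  have hTM' := Subgroup.map_mono (f := P.subtype) hTM
  obtain ⟨x, -, hx⟩ := SetLike.exists_of_lt hM.1.lt_top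
  have hm : ∀ y : P, (y : G) ∈ M.map P.subtype ↔ y ∈ M := fun y => Subgroup.mem_map_iff_mem P.subtype_injective
  have hA : A ⊔ 𝐎[p](P) ≤ _ := sup_le hAT hT.pCoreOf_le
  have hne : A ≠ ⊥ := by
    rintro rfl
    have : x = 1 := Subtype.ext (Subgroup.mem_bot.1 (by simpa using (hiii x hx).ge x.2))
    exact hx (this ▸ one_mem _)
  have hU : UMax (A ⊔ 𝐎[p](P)) (M.map P.subtype) P := ⟨hA.trans hTM', (Subgroup.map_subtype_le _).lt_of_ne fun e =>
    hx ((hm x).1 (e.ge x.2)), fun X h1 h2 y hy => by_contra fun h => h2.not_ge ((hiii ⟨y, h2.le hy⟩ (mt (hm _).2 h)).ge.trans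
      (sup_le (le_sup_left.trans h1) (cj_le_of_mem hy (le_sup_left.trans h1))))⟩
  obtain ⟨F, _, _, ρ, ψ, n, hinj, -⟩ := MinOff.natOn ⟨hAel, hne, hi.1, hi.2⟩ hV hPV hfaith hU
    (fun y hy h => by rw [hiii ⟨y, hy⟩ (mt (hm _).2 h)]; exact sup_eq_left.2 (pCoreOf_le p P))
    (fun e => hii (Subgroup.commutator_eq_bot_iff_le_centralizer.2
      ((inf_le_inf_left _ (centralizer_anti hA)).trans e))) x.2 (mt (hm x).1 hx)
  rw [hiii x hx] at n hinj
  refine ⟨F, inferInstance, inferInstance, ?_, n.nonempty_equiv hinj, n.cent_eq, n.acts le_rfl hPV n.ψsurj⟩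
  rw [n.card_A, le_bot_iff.1 (hfaith ▸ inf_le_inf_right _ n.le : A ⊓ 𝐂(V) ≤ ⊥), Subgroup.card_bot, mul_one,
    Nat.card_eq_fintype_card]

end Cfsg.Agent.S2999
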