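import Cfsg.Statements.S3000
import Cfsg.Agent.PLocal.FFMain

set_option autoImplicit false
open Cfsg

namespace Cfsg.Agent.S3000

open CF.Loc CF.FF Subgroup in

/-- Let p be a prime and let P and V be subgroups of a finite group with V elementary abelian, P normalizing V and acting faithfully on it (P ∩ C(V) = 1). Suppose P is p-minimal (a Sylow p-subgroup T of P is not normal and lies in a unique maximal subgroup M of P), O_p(P) = 1, C_P(C_V(T)) ≤ M, and P has a best offender on V: a subgroup A not centralizing V, with A/C_A(V) elementary abelian, such that |B|·|C_V(B)| ≤ |A|·|C_V(A)| for every subgroup B of A. Then there are subgroups E₁, …, E_r of P (r ≥ 1), pairwise commuting and forming with T a product P = (E₁ × ⋯ × E_r)T (internal direct product of the E_i), any two of which are conjugate by an element of T, such that V = C_V(E₁⋯E_r)·∏[V, E_i] with [V, E_i, E_j] = 1 for i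 ≠ j, and for each i there is n ≥ 1 with either E_i ≅ SL₂(pⁿ) acting on [V, E_i]/C_{[V,E_i]}(E_i) as on its natural two-dimensional module, or p = 2 and E_i isomorphic to the symmetric group of degree 2ⁿ + 1 acting on [V, E_i]/C_{[V,E_i]}(E_i) as on its even-weight permutation module. -/
theorem result {G : Type*} [Group G] [Finite G] {p : ℕ} [Fact p.Prime] (V P : Subgroup G) (hV : Cfsg.IsElementaryAbelian p V) (hPV : P ≤ Subgroup.normalizer (V : Set G)) (hfaith : P ⊓ Subgroup.centralizer (V : Set G) = ⊥) (hmin : Cfsg.IsPMinimal p ↥P) (T : Sylow p ↥P) (M : Subgroup ↥P) (hM : IsCoatom M) (hTM : (T : Subgroup ↥P) ≤ M) (hOp : Cfsg.pCore p ↥P = ⊥) (hoff : ∃ A : Subgroup G, A ≤ P ∧ ¬ A ≤ Subgroup.centralizer (V : Set G) ∧ Cfsg.IsBestOffenderOn p V A) (hCT : P ⊓ Subgroup.centralizer ((V ⊓ Subgroup.centralizer ((((T : Subgroup ↥P).map P.subtype) : Subgroup G) : Set G)) : Set G) ≤ M.map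 P.subtype) : ∃ (r : ℕ) (E : Fin r → Subgroup G), 1 ≤ r ∧ (∀ i, E i ≤ P) ∧ (∀ i j, i ≠ j → ⁅E i, E j⁆ = ⊥) ∧ (∀ i, E i ⊓ (⨆ j ∈ {j | j ≠ i}, E j) = ⊥) ∧ (⨆ i, E i) ⊔ ((T : Subgroup ↥P).map P.subtype) = P ∧ (∀ i j, ∃ t ∈ ((T : Subgroup ↥P).map P.subtype), (E i).map (MulAut.conj t).toMonoidHom = E j) ∧ (V ⊓ Subgroup.centralizer (((⨆ i, E i) : Subgroup G) : Set G)) ⊔ (⨆ i, ⁅V, E i⁆) = V ∧ (∀ i j, i ≠ j → ⁅⁅V, E i⁆, E j⁆ = ⊥) ∧ ∀ i, ∃ n : ℕ, 1 ≤ n ∧ ((∃ (F : Type) (_ : Field F) (_ : Fintype F), Fintype.card F = p ^ n ∧ Nonempty (↥(E i) ≃* Matrix.SpecialLinearGroup (Fin 2) F) ∧ Cfsg.ActsAsSL2OnSection F ⊤ (E i) ⁅V, E i⁆ (⁅V, E i⁆ ⊓ Subgroup.centralizer ((E i : Subgroup G) : Set G))) ∨ (p = 2 ∧ Nonempty (↥(E i) ≃* Equiv.Perm (Fin (2 ^ n + 1))) ∧ Cfsg.ActsAsOddPermModuleOnSection (2 ^ n + 1) ⊤ (E i) ⁅V, E i⁆ (⁅V, E i⁆ ⊓ Subgroup.centralizer ((E i : Subgroup G) : Set G)))) := by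
  obtain ⟨A, h1, h2, h3⟩ := hoff
  obtain ⟨B, -, hB⟩ := exists_off_of_best hfaith h1 h2 h3
  have h := str_of hV hPV hfaith hmin T hM hTM hOp hCT
  obtain ⟨E, a, b, c⟩ := h.main hB
  have hT := h.syl.le
  obtain ⟨r, E', e1, e2, e3⟩ := b.exists_enum (hT.trans hPV)
  have hE : ∀ i, E' i ≤ P := fun i => let ⟨t, ht, e⟩ := e1 i; e ▸ cj_le_of_mem (hT ht) (le_sup_left.trans a.le)
  have hK : ∀ i, ∃ T', Kind p V T' (E' i) := fun i => let ⟨t, ht, e⟩ := e1 i; ⟨_, e ▸ c.cj (hPV (hT ht))⟩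
  have hS : ∀ i, V ≤ ⁅V, E' i⁆ ⊔ (V ⊓ 𝐂(E' i)) := fun i => let ⟨_, e⟩ := hK i; e.le_comm_sup
  obtain ⟨i₀, e0⟩ := e2 1 (one_mem _)
  refine ⟨r, E', i₀.pos, hE, fun i j e => commutator_eq_bot_iff_le_centralizer.2 (e3 i j e).1, fun i => ?_,
    le_antisymm (sup_le (iSup_le hE) hT) (a.ge.trans (sup_le_sup_right (le_iSup_of_le i₀ (e0.trans (cj_one E)).ge) _)),
    fun i j => ?_, le_cent_sup_iSup h.fam.ab (fun i => (hE i).trans hPV) hS fun i j e => (e3 i j e).2,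
    fun i j e => commutator_eq_bot_iff_le_centralizer.2 (e3 i j e).2, fun i => ?_⟩
  · refine le_bot_iff.1 (hfaith ▸ le_inf (inf_le_left.trans (hE i)) (le_trans ?_ (centralizer_anti (hS i))))
    rw [centralizer_sup]
    exact le_inf (inf_le_right.trans (iSup₂_le fun j e => le_centralizer_iff.1 (e3 i j (Ne.symm e)).2))
      (inf_le_left.trans (le_centralizer_iff.1 inf_le_right))
  · obtain ⟨t, ht, e⟩ := e1 i
    obtain ⟨s, hs, e'⟩ := e1 j
    exact ⟨_, mul_mem hs (inv_mem ht), by rw [← e, ← e', cj_mul, cj_inv_cj]⟩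
  · obtain ⟨_, n, hn, ⟨F, _, _, A, ρ, ψ, a, -, -, d, e⟩ | ⟨a, ρ, ψ, b⟩⟩ := hK i
    · exact ⟨n, hn, .inl ⟨F, _, _, a, d.nonempty_equiv e, d.acts_comm h.fam.ab⟩⟩
    · exact ⟨n, hn, .inr ⟨a, b.nonempty_equiv, b.acts⟩⟩

end Cfsg.Agent.S3000
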