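import Cfsg.Statements.S3003
import Cfsg.Agent.Loc.PMin2
import Cfsg.Agent.Coprime.Abelian
-- import your own Cfsg.Agent.* helpers here

set_option autoImplicit false
open Cfsg

namespace Cfsg.Agent.S3003

open Cfsg CF.Loc Subgroup
open scoped commutatorElement


/-- Let G be a finite group, p a prime and Q a large p-subgroup of G: C_G(Q) ≤ Q and N_G(U) ≤ N_G(Q) for every nontrivial subgroup U of C_G(Q). Let Q ≤ G₁ ≤ G, let R be a subgroup of order prime to p normalized by G₁, and let U ≤ G₁ be a p-subgroup. If U contains a nontrivial element which is G₁-conjugate to an element of Z(Q), then C_R(U) = 1. In particular, if U is elementary abelian of order at least p² and every maximal subgroup of U contains a nontrivial element G₁-conjugate into Z(Q), then R = 1. -/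
theorem result {G : Type*} [Group G] [Finite G] {p : ℕ} [Fact p.Prime] (Q : Subgroup G) (hQp : IsPGroup p ↥Q) (hlarge : Cfsg.IsLarge Q) (G₁ : Subgroup G) (hQG : Q ≤ G₁) (R : Subgroup G) (hR : (Nat.card ↥R).Coprime p) (hGR : G₁ ≤ Subgroup.normalizer (R : Set G)) (U : Subgroup G) (hUG : U ≤ G₁) (hUp : IsPGroup p ↥U) : ((∃ x ∈ U, x ≠ 1 ∧ ∃ g ∈ G₁, g * x * g⁻¹ ∈ Q ⊓ Subgroup.centralizer (Q : Set G)) → R ⊓ Subgroup.centralizer (U : Set G) = ⊥) ∧ (Cfsg.IsElementaryAbelian p U → p ^ 2 ≤ Nat.card ↥U → (∀ U₀ : Subgroup G, U₀ ≤ U → IsCoatom (U₀.subgroupOf U) → ∃ x ∈ U₀, x ≠ 1 ∧ ∃ g ∈ G₁, g * x * g⁻¹ ∈ Q ⊓ Subgroup.centralizer (Q : Set G)) → R = ⊥) := by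
  have key : ∀ U : Subgroup G, (∃ x ∈ U, x ≠ 1 ∧ ∃ g ∈ G₁, g * x * g⁻¹ ∈ Q ⊓ 𝐂(Q)) →
      R ⊓ 𝐂(U) = ⊥ := by
    rintro U ⟨x, hx, hx1, g, hg, hz⟩
    have h1 : zpowers (g * x * g⁻¹) ≠ ⊥ := by
      rw [← cj_zpowers, ne_eq, cj_eq_bot_iff, zpowers_eq_bot]; exact hx1
    have h2 := hlarge.2 _ (zpowers_le.2 hz.2) h1
    have h3 : cj[g] (R ⊓ 𝐂(U)) ≤ R ⊓ 𝐍(Q) := by
      refine le_inf (cj_le_of_mem_normalizer (hGR hg) inf_le_left) (le_trans ?_
        ((centralizer_le_normalizer _).trans h2))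
      rw [← cj_zpowers, ← cj_centralizer]
      exact cj_mono g (inf_le_right.trans (centralizer_anti (zpowers_le.2 hx)))
    have h4 := inf_eq_bot_of_coprime_card hQp hR
    have h5 : R ⊓ 𝐍(Q) ≤ Q := by
      refine le_trans (commutator_eq_bot_iff_le_centralizer'.1 (le_bot_iff.1 ?_)) hlarge.1
      rw [← h4]
      exact le_inf (commutator_le_left_of_le_normalizer inf_le_right)
        (commutator_le_of_le_of_normalizes inf_le_left (hQG.trans hGR))
    rw [← cj_eq_bot_iff (g := g), ← le_bot_iff, ← h4]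
    exact le_inf (h3.trans h5) (h3.trans inf_le_left)
  refine ⟨key U, fun hU hc h => le_bot_iff.1 ?_⟩
  haveI := isMulCommutative_of_le_centralizer (isElemAb_le_centralizer hU)
  obtain ⟨n, hn⟩ := IsPGroup.iff_card.1 hUp
  refine CF.Coprime.le_of_forall_cocyclic U R (hUG.trans hGR) (hn ▸ hR.symm.pow_left n) ⊥
    fun B a ha e => ?_
  have hB : B ≤ U := e ▸ le_sup_left
  obtain ⟨U₀, h1, h2⟩ : ∃ U₀ ≤ B, IsCoatom (U₀.subgroupOf U) := by
    by_cases hBU : B = U
    · have hb : (⊥ : Subgroup U) ≠ ⊤ := by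
        intro c
        have := (Fact.out : p.Prime).one_lt
        have h1 : Nat.card U = 1 := by rw [← card_top, ← c, card_bot]
        nlinarith
      obtain ⟨M, hM, -⟩ := CF.Solv.exists_isCoatom_ge hb
      exact ⟨M.map U.subtype, hBU ▸ map_subtype_le M, by
        rwa [subgroupOf, comap_map_eq_self_of_injective U.subtype_injective]⟩
    · refine ⟨B, le_rfl, fun c => hBU (le_antisymm hB (subgroupOf_eq_top.1 c)), fun X hX => ?_⟩
      have h1 : B ≤ X.map U.subtype := by
        rw [← map_subgroupOf_eq_of_le hB]; exact map_mono hX.le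
      have h2 := sup_inf_of_le_normalizer_left (N := B) (H := zpowers a)
        (((zpowers_le.2 ha).trans (isElemAb_le_centralizer hU)).trans
          (centralizer_le_normalizer_of_le hB)) h1
      rw [e, inf_eq_right.2 (map_subtype_le X)] at h2
      have h3 : a ∈ X.map U.subtype := by
        by_contra c
        refine hX.ne (map_injective U.subtype_injective ?_)
        rw [map_subgroupOf_eq_of_le hB, h2, left_eq_sup]
        rintro y ⟨hy, hy'⟩
        by_cases y1 : y = 1
        · rw [y1]; exact one_mem _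
        refine absurd (zpowers_le.2 hy' ?_) c
        have ha1 : a ≠ 1 := by rintro rfl; exact y1 (by simpa using hy)
        have := orderOf_eq_prime ((isElementaryAbelian_iff.1 hU).2 a ha) ha1
        haveI : Fact (Nat.card (zpowers a)).Prime := ⟨by rw [Nat.card_zpowers, this]; exact Fact.out⟩
        rcases ((zpowers y).subgroupOf (zpowers a)).eq_bot_or_eq_top_of_prime_card with d | d
        · exact absurd (by simpa using (subgroupOf_eq_bot.1 d).le_bot ⟨mem_zpowers y, hy⟩) y1
        · exact subgroupOf_eq_top.1 d (mem_zpowers a)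
      apply map_injective U.subtype_injective
      rw [top_map_subtype]
      exact le_antisymm (map_subtype_le X) (e.ge.trans (sup_le h1 (zpowers_le.2 h3)))
  rw [← key U₀ (h U₀ (h1.trans hB) h2)]
  exact inf_le_inf le_rfl (centralizer_anti h1)

end Cfsg.Agent.S3003
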