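import Cfsg.Statements.S3009
import Cfsg.Agent.PLocal.FFNat

set_option autoImplicit false
open Cfsg

namespace Cfsg.Agent.S3009

open CF.Loc CF.FF Subgroup in

/-- Let p be a prime and let G and V be subgroups of a finite group with V elementary abelian and normalized by G, and G isomorphic to SL₂(F) for a finite field F with pⁿ elements. Suppose G acts irreducibly and nontrivially on V by conjugation (no G-invariant subgroups of V other than 1 and V, and [V, G] ≠ 1), and let S be a Sylow p-subgroup of G and V₀ = C_V(S). If [V, S, S] = 1 or |V| ≤ |V₀|², then G acts on V as SL₂(F) on its natural two-dimensional module; in particular |V| = |F|². -/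
theorem result {X : Type*} [Group X] [Finite X] {p : ℕ} [Fact p.Prime] (G V : Subgroup X) (hV : Cfsg.IsElementaryAbelian p V) (hGV : G ≤ Subgroup.normalizer (V : Set X)) (F : Type) [Field F] [Fintype F] (n : ℕ) (hF : Fintype.card F = p ^ n) (hG : Nonempty (↥G ≃* Matrix.SpecialLinearGroup (Fin 2) F)) (hirr : ∀ U : Subgroup X, U ≤ V → G ≤ Subgroup.normalizer (U : Set X) → U = ⊥ ∨ U = V) (hnt : ⁅V, G⁆ ≠ ⊥) (S : Sylow p ↥G) (hyp : ⁅⁅V, (S : Subgroup ↥G).map G.subtype⁆, (S : Subgroup ↥G).map G.subtype⁆ = ⊥ ∨ Nat.card ↥V ≤ Nat.card ↥(V ⊓ Subgroup.centralizer (((S : Subgroup ↥G).map G.subtype : Subgroup X) : Set X)) ^ 2) : Cfsg.ActsAsSL2OnSection F ⊤ G V ⊥ := by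
  have : CharP F p := (CharP.charP_iff_prime_eq_zero Fact.out).2 (pow_eq_zero_iff' (n := n).1 (by
    rw [← Nat.cast_pow, ← hF, FiniteField.cast_card_eq_zero])).1
  have h3 := CF.PLocal.isSylowIn_upU (F := F) p
  obtain ⟨e⟩ := hG
  obtain ⟨g, -, eg⟩ := (isSyl_of_not_dvd_relIndex h3.isPGroup le_top h3.not_dvd).conj
    (map_top_of_surjective e.toMonoidHom e.surjective ▸ (isSyl_top S).map e.toMonoidHom)
  let e' := (MulAut.conj g).trans e.symm
  have hr : (G.subtype.comp e'.toMonoidHom).range = G := by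
    rw [MonoidHom.range_comp, MonoidHom.range_eq_top.2 e'.surjective, ← MonoidHom.range_eq_map, range_subtype]
  have hs : (S : Subgroup G).map G.subtype = (CF.PLocal.upU F).map (G.subtype.comp e'.toMonoidHom) := by
    rw [← map_map]
    congr 1
    rw [show e'.toMonoidHom = e.symm.toMonoidHom.comp (MulAut.conj g).toMonoidHom from rfl, ← map_map, eg, map_map]
    simp
  have h : Irr p (G.subtype.comp e'.toMonoidHom) V := ⟨hV, hr.symm ▸ hGV, hr.symm ▸ hirr,
    hr.symm ▸ mt commutator_eq_bot_iff_le_centralizer.2 hnt, h3.isPGroup⟩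
  rw [hs] at hyp
  exact hr ▸ h.acts (G.subtype_injective.comp e'.injective) (hyp.elim commutator_eq_bot_iff_le_centralizer.1 h.quad)

end Cfsg.Agent.S3009
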