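import Cfsg.Statements.S3011
import Cfsg.Agent.Loc.Sidki
-- import your own Cfsg.Agent.* helpers here

set_option autoImplicit false
open Cfsg

namespace Cfsg.Agent.S3011

open Cfsg CF.Loc Subgroup
open scoped commutatorElement

theorem key {G : Type*} [Group G] {V : Subgroup G} (hS : IsSidkiPair V) {a b c x y : G}
    (hb : b ∈ V) (hc : c ∈ V) (hV : ∀ v ∈ V, v ≠ 1 → v = a ∨ v = b ∨ v = c)
    (hx : Odd (orderOf x)) (hy : Odd (orderOf y)) (x1 : x ≠ 1) (y1 : y ≠ 1)
    (xa : a * x * a⁻¹ = x⁻¹) (xb : b * x * b⁻¹ = x⁻¹) (xc : c * x * c⁻¹ = x)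
    (ya : a * y * a⁻¹ = y) (yb : b * y * b⁻¹ = y⁻¹) (yc : c * y * c⁻¹ = y⁻¹) : False := by
  have hc' : c ∈ cj[x] V := by
    rw [mem_cj, mul_assoc, mul_inv_eq_iff_eq_mul.1 xc, inv_mul_cancel_left]; exact hc
  have h1 : ∀ v, v * x * v⁻¹ = x⁻¹ → x * v * x⁻¹ = x * x * v := fun v h => by
    calc _ = x * (v * x * v⁻¹)⁻¹ * v := by group
      _ = _ := by rw [h, inv_inv]
  have h2 : Commute x y := by
    obtain ⟨_, ⟨w, h3, rfl⟩, h4, h5⟩ := sidki_cj hS x y c hc' hy yc
    change x * w * x⁻¹ * y = y * (x * w * x⁻¹) at h5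
    rw [← mul_inv_eq_iff_eq_mul] at h5
    rcases hV w h3 (by rintro rfl; exact h4 (map_one _)) with rfl | rfl | rfl
    · rw [h1 w xa] at h5
      refine CF.Invol.commute_of_commute_mul_self hx (mul_inv_eq_iff_eq_mul.1 ?_)
      calc _ = x * x * (w * y * w⁻¹) * (x * x)⁻¹ := by rw [ya]
        _ = x * x * w * y * (x * x * w)⁻¹ := by group
        _ = y := h5
    · rw [h1 w xb] at h5
      refine absurd (CF.Invol.eq_one_of_odd_of_mul_self hy (CF.Invol.mul_self_eq_one_of_odd_inverts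
        (g := x * x) (pow_two x ▸ CF.Invol.odd_orderOf_pow hx 2) ?_)) y1
      calc _ = (x * x * (w * y * w⁻¹) * (x * x)⁻¹)⁻¹ := by rw [yb]; simp only [mul_inv_rev, inv_inv, mul_assoc]
        _ = (x * x * w * y * (x * x * w)⁻¹)⁻¹ := by group
        _ = _ := by rw [h5]
    · rw [← mul_inv_eq_iff_eq_mul.1 xc, mul_inv_cancel_right, yc] at h5
      exact absurd (eq_one_of_odd_of_eq_inv hy h5.symm) y1
  have h6 : ∀ v : G, v * (x * y) * v⁻¹ = v * x * v⁻¹ * (v * y * v⁻¹) := fun v => by group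
  have h7 := odd_orderOf_mul h2 hx hy
  have h8 : b * (x * y) * b⁻¹ = (x * y)⁻¹ := by rw [h6, xb, yb, h2.eq, mul_inv_rev]
  obtain ⟨w, h3, h4, h5⟩ := hS (x * y) b hb h7 h8
  rw [← mul_inv_eq_iff_eq_mul] at h5
  rcases hV w h3 h4 with rfl | rfl | rfl
  · rw [h6, xa, ya, mul_left_inj] at h5
    exact x1 (eq_one_of_odd_of_eq_inv hx h5.symm)
  · rw [h8] at h5
    have := eq_inv_of_mul_eq_one_left (eq_one_of_odd_of_eq_inv h7 h5.symm)
    rw [this, ← inv_inj] at xc
    simp only [mul_inv_rev, inv_inv, ← mul_assoc, yc] at xc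
    exact y1 (eq_one_of_odd_of_eq_inv hy xc.symm)
  · rw [h6, xc, yc, mul_right_inj] at h5
    exact y1 (eq_one_of_odd_of_eq_inv hy h5.symm)

/-- Let G be a finite group and V a nontrivial elementary abelian 2-subgroup of G of order at most 4 such that, whenever an element of V inverts an element h of G of odd order, some nontrivial element of V commutes with h. Then V meets O₂(G) nontrivially. (The case of order at most 4 has a short argument from the Baer–Suzuki theorem.) -/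
theorem result {G : Type*} [Group G] [Finite G] (V : Subgroup G) (hV : Cfsg.IsElementaryAbelian 2 V) (hV1 : V ≠ ⊥) (hS : Cfsg.IsSidkiPair V) (h4 : Nat.card V ≤ 4) : V ⊓ Cfsg.pCore 2 G ≠ ⊥ := by
  intro hc
  have h1 : ∀ v ∈ V, v ≠ 1 → ∃ x, x ≠ 1 ∧ Odd (orderOf x) ∧ v * x * v⁻¹ = x⁻¹ ∧
      ∃ w ∈ V, w ≠ 1 ∧ w ≠ v ∧ w * x * w⁻¹ = x := fun v hv h => by
    obtain ⟨x, -, a, b, c⟩ := exists_odd_inverted_of_not_mem (mul_self_of_elemAb hV hv) (mem_top v)
      fun e => h (mem_bot.1 (hc.le ⟨hv, pCoreOf_top 2 G ▸ e⟩))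
    obtain ⟨w, d, e, f⟩ := hS x v hv b c
    rw [← mul_inv_eq_iff_eq_mul] at f
    refine ⟨x, a, b, c, w, d, e, ?_, f⟩
    rintro rfl
    exact a (eq_one_of_odd_of_eq_inv b (f.symm.trans c))
  obtain ⟨b, hb, b1⟩ := (bot_or_exists_ne_one V).resolve_left hV1
  obtain ⟨x, x1, hx, xb, c, hc, c1, cb, xc⟩ := h1 b hb b1
  have a1 : b * c ≠ 1 := fun e => cb (by
    rw [eq_inv_of_mul_eq_one_right e, inv_eq_of_mul_eq_one_right (mul_self_of_elemAb hV hb)])
  have hV' : ∀ v ∈ V, v ≠ 1 → v = b * c ∨ v = b ∨ v = c := by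
    classical
    intro v hv v1
    by_contra h
    push Not at h
    have : ({1, b * c, b, c, v} : Finset G).card ≤ Nat.card V := by
      rw [← Set.ncard_coe_finset]
      refine Set.ncard_le_ncard (fun g hg => ?_) (Set.toFinite (V : Set G))
      simp only [Finset.coe_insert, Finset.coe_singleton, Set.mem_insert_iff,
        Set.mem_singleton_iff] at hg
      rcases hg with rfl | rfl | rfl | rfl | rfl
      exacts [one_mem _, mul_mem hb hc, hb, hc, hv]
    rw [Finset.card_insert_of_notMem (by simp [a1.symm, b1.symm, c1.symm, v1.symm]),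
      Finset.card_insert_of_notMem (by simp [b1, c1, h.1.symm]),
      Finset.card_insert_of_notMem (by simp [cb.symm, h.2.1.symm]),
      Finset.card_pair h.2.2.symm] at this
    omega
  have xa : b * c * x * (b * c)⁻¹ = x⁻¹ := by
    calc _ = b * (c * x * c⁻¹) * b⁻¹ := by group
      _ = _ := by rw [xc, xb]
  obtain ⟨y, y1, hy, yc, w, hw, w1, wc, yw⟩ := h1 c hc c1
  rcases hV' w hw w1 with rfl | rfl | rfl
  · refine key hS hb hc hV' hx hy x1 y1 xa xb xc yw ?_ yc
    have : b = b * c * c := by rw [mul_assoc, mul_self_of_elemAb hV hc, mul_one]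
    rw [this]
    calc _ = b * c * (c * y * c⁻¹) * (b * c)⁻¹ := by group
      _ = (b * c * y * (b * c)⁻¹)⁻¹ := by rw [yc]; group
      _ = _ := by rw [yw]
  · refine key hS (mul_mem hb hc) hc (fun v hv h => (hV' v hv h).elim (fun e => Or.inr (Or.inl e))
      (Or.imp_right Or.inr)) hx hy x1 y1 xb xa xc yw ?_ yc
    calc _ = w * (c * y * c⁻¹) * w⁻¹ := by group
      _ = (w * y * w⁻¹)⁻¹ := by rw [yc]; group
      _ = _ := by rw [yw]
  · exact wc rfl

end Cfsg.Agent.S3011
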