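import Cfsg.Statements.S3014
import Cfsg.Agent.Loc.Sidki
-- import your own Cfsg.Agent.* helpers here

set_option autoImplicit false
open Cfsg

namespace Cfsg.Agent.S3014

open Cfsg CF.Loc Subgroup
open scoped commutatorElement


/-- Let G be a finite group and H ≤ M ≤ G subgroups such that for every g ∈ G the subgroup generated by H and g H g⁻¹ meets M exactly in H. If H is a maximal subgroup of M and M is a maximal subgroup of G, then the normal closure of H in G meets M exactly in H. -/
theorem result {G : Type*} [Group G] [Finite G] (H M : Subgroup G) (hHM : H ≤ M) (hcl : ∀ g : G, (H ⊔ H.map (MulAut.conj g).toMonoidHom) ⊓ M = H) (hmaxH : IsCoatom (H.subgroupOf M)) (hmaxM : IsCoatom M) : Subgroup.normalClosure (H : Set G) ⊓ M = H := by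
  change ∀ g : G, (H ⊔ cj[g] H) ⊓ M = H at hcl
  rw [← ncl_top]
  have h1 : M ≤ 𝐍(H) := le_normalizer_iff_cj.2 fun g hg =>
    (le_inf le_sup_right (cj_le_of_mem hg hHM)).trans (hcl g).le
  refine le_antisymm ?_ (le_inf (le_ncl _ _) hHM)
  suffices ∃ N : Subgroup G, N.Normal ∧ N ⊓ M = H by
    obtain ⟨N, _, h⟩ := this
    exact (inf_le_inf_right _ (ncl_le (h.ge.trans inf_le_left)
      (le_normalizer_of_normal' _ _))).trans h.le
  by_contra hc
  push Not at hc
  have h2 : ∀ T : Subgroup G, T ⊓ M = H → M ≤ 𝐍(T) → 𝐍(T) = M := fun T a b =>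
    ((hmaxM.le_iff.1 b).resolve_left fun e => hc T (normal_of_top_le_normalizer e.ge) a)
  have h3 := h2 H (inf_of_le_left hHM) h1
  obtain ⟨N, hN, -, h4, -⟩ := CF.Char.frobenius_wielandt (H := M) (L := H)
    (fun a ha l hl => conj_mem_of_mem_normalizer (h1 ha) hl) (fun g hg x hx hx' => by
      by_contra hxH
      apply hg
      have a : H ⊔ zpowers x = M := by
        have := (hmaxH.le_iff.1 (comap_mono le_sup_left : _ ≤ (H ⊔ zpowers x).subgroupOf M)).resolve_right
          fun e => hxH (e.le (show (⟨x, hx⟩ : M) ∈ _ from mem_sup_right (mem_zpowers x)))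
        exact le_antisymm (sup_le hHM (zpowers_le.2 hx)) (subgroupOf_eq_top.1 this)
      have b : x ∈ 𝐍(cj[g⁻¹] H) := by
        rw [← cj_normalizer, mem_cj, inv_inv]; exact h1 hx'
      have c := h2 _ (hcl g⁻¹) (a.ge.trans (sup_le (le_sup_left.trans le_normalizer)
        (zpowers_le.2 (zpowers_le.1 (le_normalizer_sup (zpowers_le.2 (h1 hx)) (zpowers_le.2 b))))))
      rw [← inv_mem_iff, ← h3]
      exact mem_normalizer_of_cj_le ((le_inf le_sup_right
        (le_sup_right.trans (le_normalizer.trans c.le))).trans (hcl g⁻¹).le)) hHM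
  exact hc N hN h4

end Cfsg.Agent.S3014
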