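import Cfsg.Statements.S3015
import Cfsg.Agent.Loc.Sidki
import Cfsg.Agent.Fgs1.Extra
-- import your own Cfsg.Agent.* helpers here

set_option autoImplicit false
open Cfsg

namespace Cfsg.Agent.S3015

open Cfsg CF.Loc Subgroup
open scoped commutatorElement


/-- Let G be a finite non-abelian simple group, M a maximal subgroup of G and H a normal subgroup of M of prime index in M. Then G is generated by H together with one of its conjugates. -/
theorem result {G : Type*} [Group G] [Finite G] [IsSimpleGroup G] (hG : ¬ IsMulCommutative G) (M H : Subgroup G) (hmaxM : IsCoatom M) (hHM : H ≤ M) (hHn : (H.subgroupOf M).Normal) (hidx : (H.relIndex M).Prime) : ∃ g : G, H ⊔ H.map (MulAut.conj g).toMonoidHom = ⊤ := by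
  change ∃ g : G, H ⊔ cj[g] H = ⊤
  by_contra hc
  push Not at hc
  have := Fact.mk hidx
  have h1 : M ≤ 𝐍(H) := le_normalizer_of_subgroupOf_normal hHM hHn
  have hne : H ≠ M := by rintro rfl; rw [relIndex_self] at hidx; exact Nat.not_prime_one hidx
  have h2 : ∀ T : Subgroup G, T ≠ ⊥ → T ≠ ⊤ → M ≤ 𝐍(T) → 𝐍(T) = M := fun T a b c =>
    (hmaxM.le_iff.1 c).resolve_left fun e =>
      (IsSimpleGroup.eq_bot_or_eq_top_of_normal T (normal_of_top_le_normalizer e.ge)).elim a b
  have h3 : 𝐍(M) = M := h2 M (fun e => hne (le_antisymm hHM (e.le.trans bot_le))) hmaxM.1 le_normalizer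
  have h4 : ∀ x ∈ M, x ∉ H → H ⊔ zpowers x = M := fun x hx h =>
    (CF.Fgs1.eq_or_eq_of_relIndex_prime hidx le_sup_left (sup_le hHM (zpowers_le.2 hx))).resolve_left
      fun e => h (e.le (mem_sup_right (mem_zpowers x)))
  have h5 : 𝐑[H.relIndex M](M) ≤ H := pResidualOf_le_iff.2 fun x hx ho => by
    have : x ^ H.relIndex M ∈ H := pow_index_mem (H := H.subgroupOf M) ⟨x, hx⟩
    exact zpowers_le.2 this (mem_zpowers_pow_iff.2 ho.symm)
  obtain ⟨N, hN, -, h6, h7, -⟩ := CF.Char.frobenius_wielandt (H := M) (L := H)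
    (fun a ha l hl => conj_mem_of_mem_normalizer (h1 ha) hl) (fun g hg x hx hx' => by
      by_contra hxH
      apply hg
      have a := h4 x hx hxH
      have b : x ∈ cj[g⁻¹] M := by rw [mem_cj, inv_inv]; exact hx'
      rw [← inv_mem_iff, ← h3]
      refine mem_normalizer_of_cj_le ?_
      by_cases e : H = ⊥
      · rw [e, bot_sup_eq] at a
        exact (eq_of_le_of_card_ge (a.ge.trans (zpowers_le.2 b)) (card_cj _ _).le).ge
      have c := h2 _ (fun e' => e (le_bot_iff.1 (le_sup_left.trans e'.le))) (hc g⁻¹)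
        (a.ge.trans (sup_le (le_sup_left.trans le_normalizer)
        (zpowers_le.2 (zpowers_le.1 (le_normalizer_sup (zpowers_le.2 (h1 hx))
          (zpowers_le.2 (by rw [← cj_normalizer]; exact cj_mono _ h1 b)))))))
      have d : cj[g⁻¹] H ≤ M := le_sup_right.trans (le_normalizer.trans c.le)
      have f : cj[g⁻¹] 𝐑[H.relIndex M](M) = 𝐑[H.relIndex M](M) := by
        refine eq_of_le_of_card_ge ?_ (card_cj _ _).ge
        rw [← pResidualOf_eq_of_le h5 hHM, cj_pResidualOf, pResidualOf_eq_of_le h5 hHM]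
        exact pResidualOf_mono d
      by_cases i : 𝐑[H.relIndex M](M) = ⊥
      · have j : IsPGroup (H.relIndex M) M := isPGroup_of_pResidualOf_eq_bot i
        have k : 𝐍(cj[g⁻¹] H) = cj[g⁻¹] M := by
          rw [← cj_normalizer, h2 H e (fun e' => hmaxM.1 (top_le_iff.1 (e'.ge.trans hHM))) h1]
        have l := lt_inf_normalizer j (lt_of_le_of_ne d fun e' => hne
          (eq_of_le_of_card_ge hHM (by rw [← e', card_cj])))
        rw [k] at l
        exact inf_eq_right.1 ((CF.Fgs1.eq_or_eq_of_relIndex_prime (by rwa [relIndex_cj]) l.le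
          inf_le_right).resolve_left l.ne')
      · have j := h2 _ i (fun e' => hmaxM.1 (top_le_iff.1 (e'.ge.trans (pResidualOf_le _ _))))
          (le_normalizer_pResidualOf _ _)
        exact cj_le_of_mem (j ▸ cj_eq_self_iff.1 f) le_rfl) hHM
  rcases IsSimpleGroup.eq_bot_or_eq_top_of_normal N hN with rfl | rfl
  · exact hmaxM.1 (by rwa [bot_sup_eq] at h7)
  · exact hne (by rw [← h6, top_inf_eq])

end Cfsg.Agent.S3015
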