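import Cfsg.Statements.S3019
import Cfsg.Agent.Sy2.D

set_option autoImplicit false
open Cfsg

namespace Cfsg.Agent.S3019

/-- Let G be a finite group, p a prime and P a Sylow p-subgroup of G. Then G is p-solvable if and only if, for every g ∈ G, the subgroup generated by P and g P g⁻¹ is p-solvable. -/
theorem result {G : Type*} [Group G] [Finite G] {p : ℕ} [Fact p.Prime] (P : Sylow p G) : Cfsg.IsPSolvable p G ↔ ∀ g : G, Cfsg.IsPSolvable p ↥((P : Subgroup G) ⊔ (P : Subgroup G).map (MulAut.conj g).toMonoidHom) := by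
  refine ⟨fun h g => CF.Solv.isPSolvable_subgroup h _, fun h => CF.Sy2.main _ G rfl fun A B => ?_⟩
  obtain ⟨a, rfl⟩ := MulAction.exists_smul_eq G P A
  obtain ⟨b, rfl⟩ := MulAction.exists_smul_eq G (a • P) B
  have e : (((a • P : Sylow p G) : Subgroup G) ⊔ (b • a • P : Sylow p G)) =
      ((P : Subgroup G) ⊔ (P : Subgroup G).map (MulAut.conj (a⁻¹ * b * a)).toMonoidHom).map
        (MulAut.conj a).toMonoidHom := by
    rw [Subgroup.map_sup, Subgroup.map_map]
    congr 1
    rw [smul_smul]
    change (P : Subgroup G).map _ = _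
    congr 1
    ext x
    simp [mul_assoc]
  rw [e]
  exact CF.Solv.isPSolvable_of_surjective (h _) (MonoidHom.subgroupMap_surjective _ _)

end Cfsg.Agent.S3019
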