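import Cfsg.Statements.S3021
import Cfsg.Agent.Loc.Sidki
-- import your own Cfsg.Agent.* helpers here

set_option autoImplicit false
open Cfsg

namespace Cfsg.Agent.S3021

open Cfsg CF.Loc Subgroup
open scoped commutatorElement


/-- Let G be a finite group, p a prime and H a p-subgroup of G that is extremely closed (for every g, the subgroup generated by H and g H g⁻¹ meets N_G(H) exactly in H). Then every p-subgroup Q of G containing H has N_G(Q) ≤ N_G(H); in particular every Sylow p-subgroup P of G containing H normalizes H, and H is strongly closed in P with respect to G. -/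
theorem result {G : Type*} [Group G] [Finite G] {p : ℕ} [Fact p.Prime] (H : Subgroup G) (hHp : IsPGroup p H) (hcl : Cfsg.IsExtremelyClosed H) : (∀ Q : Subgroup G, IsPGroup p Q → H ≤ Q → Subgroup.normalizer (Q : Set G) ≤ Subgroup.normalizer (H : Set G)) ∧ ∀ P : Sylow p G, H ≤ (P : Subgroup G) → (P : Subgroup G) ≤ Subgroup.normalizer (H : Set G) ∧ Cfsg.IsStronglyClosed H (P : Subgroup G) := by
  have h1 : ∀ Q : Subgroup G, IsPGroup p Q → H ≤ Q → 𝐍(Q) ≤ 𝐍(H) := fun Q h1 h2 g hg => by
    have h3 : H ⊔ cj[g] H ≤ Q := sup_le h2 (cj_le_of_mem_normalizer hg h2)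
    refine mem_normalizer_of_cj_le (le_sup_right.trans (eq_of_inf_normalizer_le (h1.to_le h3)
      le_sup_left (hcl g).le).ge)
  refine ⟨h1, fun P hP => ⟨le_normalizer.trans (h1 _ P.isPGroup' hP), hP, fun x hx g hg => ?_⟩⟩
  exact (hcl g).le ⟨mem_sup_right (conj_mem_cj g hx), h1 _ P.isPGroup' hP (le_normalizer hg)⟩

end Cfsg.Agent.S3021
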