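import Cfsg.Statements.S3022
import Cfsg.Agent.PLocal.OdA

set_option autoImplicit false
open Cfsg

namespace Cfsg.Agent.S3022

open CF.Loc CF.FF Subgroup in

/-- Let G be a finite group all of whose non-abelian simple sections are known simple groups, such that a Sylow 2-subgroup of G lies in exactly one maximal subgroup of G and C_G(O₂(G)) ≤ O₂(G). Let S be a Sylow 2-subgroup of G and A a group of automorphisms of S of odd order. Then some nontrivial A-invariant subgroup of S is normal in G. -/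
theorem result {G : Type*} [Group G] [Finite G] (hK : Cfsg.IsKGroup G) (hirr : ∀ S : Sylow 2 G, ∃! M : Subgroup G, IsCoatom M ∧ (S : Subgroup G) ≤ M) (hchar : Subgroup.centralizer (Cfsg.pCore 2 G : Set G) ≤ Cfsg.pCore 2 G) (S : Sylow 2 G) (A : Subgroup (MulAut ↥(S : Subgroup G))) (hA : Odd (Nat.card A)) : ∃ U : Subgroup G, U ≠ ⊥ ∧ U.Normal ∧ U ≤ (S : Subgroup G) ∧ ∀ a ∈ A, ∀ x : ↥(S : Subgroup G), (x : G) ∈ U → ((a x : ↥(S : Subgroup G)) : G) ∈ U := by
  obtain ⟨M, ⟨hM, l⟩, -⟩ := hirr S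
  have u := uMax_top_of_existsUnique (hirr S) hM l
  by_contra! c
  have k : ∀ U ≤ (S : Subgroup G), U ≠ ⊥ → (∀ a ∈ A, (U.subgroupOf S).map a.toMonoidHom = U.subgroupOf S) → ¬ U.Normal :=
    fun U a b e n => let ⟨a, ha, x, hx, x0⟩ := c U b n a; x0 ((e a ha).le (mem_map_of_mem _ hx))
  obtain ⟨U, a, b, n, e⟩ := ((hy_cStar hchar S).mono' (inf_le_right.trans (cStar_le (omega_ne_bot hchar S hM.1) fun C a b e =>
    u.le_of_lt (le_normalizer.trans (norm_of_char a e)) (lt_top_iff_ne_top.2 (mt normalizer_eq_top_iff.1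
      (k C a b fun a _ => characteristic_iff_map_eq.1 e a)))))).odd (by rwa [top_inf_eq]) A hA
  exact k U a b e (normal_of_top_le_normalizer n)

end Cfsg.Agent.S3022
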