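import Cfsg.Statements.S3025
import Cfsg.Agent.Loc.Iso
-- import your own Cfsg.Agent.* helpers here

set_option autoImplicit false
open Cfsg

namespace Cfsg.Agent.S3025

open Cfsg CF.Loc Subgroup
open scoped commutatorElement


/-- Let F be a finite group and H a nontrivial subgroup of F that is contained in every nontrivial subgroup of F which H normalizes. Then F has a nontrivial normal subgroup N contained in every nontrivial normal subgroup of F (a unique minimal normal subgroup), N is simple, and one of the following holds: C_F(N) = 1; or H = N has prime order p, C_F(N) is cyclic of order a power of p, and F/C_F(N) is cyclic of order dividing p − 1; or H = N has order 2, N is central in F, and F is a generalized quaternion group. -/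
theorem result {F : Type*} [Group F] [Finite F] (H : Subgroup F) (hH : H ≠ ⊥)
    (hmin : ∀ R : Subgroup F, R ≠ ⊥ → H ≤ Subgroup.normalizer (R : Set F) → H ≤ R) :
    ∃ N : Subgroup F, N.Normal ∧ N ≠ ⊥ ∧ (∀ M : Subgroup F, M.Normal → M ≠ ⊥ → N ≤ M) ∧ IsSimpleGroup ↥N ∧
      (Subgroup.centralizer (N : Set F) = ⊥ ∨
       (H = N ∧ (Nat.card N).Prime ∧ IsCyclic ↥(Subgroup.centralizer (N : Set F)) ∧
          (∃ k : ℕ, 1 ≤ k ∧ Nat.card ↥(Subgroup.centralizer (N : Set F)) = Nat.card N ^ k) ∧
          (∃ g : F, Subgroup.centralizer (N : Set F) ⊔ Subgroup.zpowers g = ⊤) ∧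
          (Subgroup.centralizer (N : Set F)).index ∣ Nat.card N - 1) ∨
       (H = N ∧ Nat.card N = 2 ∧ Subgroup.centralizer (N : Set F) = ⊤ ∧
          ∃ k : ℕ, 1 ≤ k ∧ Nonempty (F ≃* QuaternionGroup (2 ^ k)))) := by
  have n : ∀ M : Subgroup F, M.Normal → M ≠ ⊥ → ncl H ⊤ ≤ M := fun M _ h =>
    ncl_le (hmin M h (le_normalizer_of_normal' _ _)) (le_normalizer_of_normal' _ _)
  have h0 : ncl H ⊤ ≠ ⊥ := by rwa [Ne, ncl_eq_bot_iff]
  have hs : IsSimpleGroup (ncl H ⊤) := by
    have := (nontrivial_iff_ne_bot _).2 h0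
    refine ⟨fun K hK => or_iff_not_imp_left.2 fun h1 => ?_⟩
    have h2 := le_normalizer_map_subtype K
    have h3 : ncl H ⊤ ≤ K.map (ncl H ⊤).subtype := ncl_le_iff.2 fun g _ => by
      rw [cj_le_iff]
      refine hmin _ ?_ ((le_ncl H ⊤).trans ?_)
      · rwa [Ne, cj_eq_bot_iff, map_eq_bot_iff_of_injective _ (subtype_injective _)]
      · rw [← cj_normalizer, ← cj_le_iff, cj_normal]
        exact h2
    rw [eq_top_iff]
    intro x _
    obtain ⟨y, hy, e⟩ := h3 x.2
    rwa [← (Subtype.ext e : y = x)]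
  refine ⟨ncl H ⊤, inferInstance, h0, n, hs, or_iff_not_imp_left.2 fun hC => ?_⟩
  have hHN := le_ncl H ⊤
  have hN : (ncl H ⊤).Normal := inferInstance
  generalize ncl H ⊤ = N at *
  have hCn : (𝐂(N)).Normal := normal_of_top_le_normalizer
    (le_normalizer_centralizer (le_normalizer_of_normal' _ _))
  have h1 := n _ hCn hC
  have := isMulCommutative_of_le_centralizer h1
  have hp := Group.is_simple_iff_prime_card.1 hs
  have := Fact.mk hp
  have e : H = N := by
    rcases hp.eq_one_or_self_of_dvd _ (card_dvd_of_le hHN) with e | e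
    · exact absurd (card_eq_one.1 e) hH
    · exact eq_of_le_of_card_ge hHN e.ge
  subst e
  have h2 : ∀ x ∈ 𝐂(H), ∀ q : ℕ, q.Prime → orderOf x = q → zpowers x = H := fun x hx q hq ho => by
    have a := hmin (zpowers x) (by
      rw [Ne, zpowers_eq_bot]; rintro rfl; rw [orderOf_one] at ho; exact hq.one_lt.ne ho)
      ((le_centralizer_comm.1 (zpowers_le.2 hx)).trans (centralizer_le_normalizer_of_le le_rfl))
    have b := card_dvd_of_le a
    rw [Nat.card_zpowers, ho, Nat.prime_dvd_prime_iff_eq hp hq] at b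
    exact (eq_of_le_of_card_ge a (by rw [Nat.card_zpowers, ho, b])).symm
  have h3 : IsPGroup (Nat.card H) 𝐂(H) := by
    refine IsPGroup.of_card (Nat.eq_prime_pow_of_unique_prime_dvd Nat.card_pos.ne' fun {q} hq hd => ?_)
    have := Fact.mk hq
    obtain ⟨x, hx, ho⟩ := exists_orderOf_eq_of_dvd_card hd
    rw [← h2 x hx q hq ho, Nat.card_zpowers, ho]
  have h4 : UniqP (Nat.card H) 𝐂(H) := fun x hx y hy ho ho' hx1 => by
    by_cases hy1 : y = 1
    · rw [hy1]; exact one_mem _
    rw [h2 x hx _ hp (orderOf_eq_prime ho hx1), ← h2 y hy _ hp (orderOf_eq_prime ho' hy1)]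
    exact mem_zpowers y
  have hc : IsCyclic H := isCyclic_of_prime_card rfl
  have h5 : (MulAut.conjNormal (H := H)).ker = 𝐂(H) := by
    ext g
    rw [MonoidHom.mem_ker, MulEquiv.ext_iff]
    exact ⟨fun h => mem_centralizer_of_conj_eq fun x hx => congrArg Subtype.val (h ⟨x, hx⟩),
      fun h x => Subtype.ext (conj_eq_of_mem_centralizer h x.2)⟩
  have h6 : (𝐂(H)).index ∣ Nat.card H - 1 := by
    rw [← h5, index_ker, ← Nat.totient_prime hp, ← IsCyclic.card_mulAut]
    exact card_subgroup_dvd_card _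
  rcases h4.cases h3 with h7 | ⟨h7, k, hk, ⟨f⟩⟩
  · refine Or.inl ⟨rfl, hp, h7, ?_, ?_, h6⟩
    · obtain ⟨k, hk⟩ := h3.exists_card_eq
      refine ⟨k, Nat.pos_of_ne_zero ?_, hk⟩
      rintro rfl
      exact hC (card_eq_one.1 (by simpa using hk))
    · have := ZMod.isCyclic_units_prime hp
      have : IsCyclic (MulAut H) := isCyclic_of_surjective _ (IsCyclic.mulAutMulEquiv H).symm.surjective
      obtain ⟨⟨_, g, rfl⟩, hg⟩ := IsCyclic.exists_generator (α := (MulAut.conjNormal (H := H)).range)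
      refine ⟨g, eq_top_iff.2 fun a _ => ?_⟩
      obtain ⟨m, hm⟩ := hg ⟨_, a, rfl⟩
      have hm : MulAut.conjNormal (H := H) g ^ m = MulAut.conjNormal a := congrArg Subtype.val hm
      have : a * (g ^ m)⁻¹ ∈ 𝐂(H) := by
        rw [← h5, MonoidHom.mem_ker, map_mul, map_inv, map_zpow, hm, mul_inv_cancel]
      simpa using mul_mem_sup this (zpow_mem (mem_zpowers g) m)
  · have h8 : 𝐂(H) = ⊤ := by
      rw [h7, Nat.dvd_one, index_eq_one] at h6
      exact h6
    exact Or.inr ⟨rfl, h7, h8, k, hk, ⟨(topEquiv.symm.trans (MulEquiv.subgroupCongr h8.symm)).trans f⟩⟩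

end Cfsg.Agent.S3025
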