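import Mathlib
import Cfsg.Statements.S3031
import Cfsg.Agent.BG.B11
import Cfsg.Agent.Transfer.Tate
import Cfsg.Agent.Fus.PSol

set_option autoImplicit false
open Cfsg

namespace Cfsg.Agent.S3031

open Subgroup CF CF.BG

variable {G : Type*} [Group G] [Finite G] {p d : ℕ} {A P U : Subgroup G} {g : G}

theorem norm_of_H (k : PiGrp {p} P) {E : Subgroup G} (l : E ≤ P) (h : ∀ g, cj g E ⊓ 𝐍 E ≤ E) : P ≤ 𝐍 E := by
  by_contra c
  obtain ⟨g, hg, n⟩ := SetLike.exists_of_lt (k.nil.lt_inf_norm (H := P ⊓ 𝐍 E)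
    (lt_of_le_of_ne inf_le_left fun e => c (inf_eq_left.1 e)))
  exact n ⟨hg.1, cj_eq_self.1 (eq_of_le_of_card_ge ((le_inf le_rfl ((cj_le_of_norm hg.2
    (le_inf l le_normalizer)).trans inf_le_right)).trans (h g)) (card_cj g E).ge)⟩

theorem comm_le_Phi [hp : Fact p.Prime] (k : PiGrp {p} P) (l : U ≤ P) (n : A ≤ 𝐍 U) (hg : g ∈ A)
    (o : PiElt {p}ᶜ g) {j : ℕ} (lt : p ^ j < ♯P)
    (h : ∀ E ≤ P, ♯E = p ^ j ∨ (p ^ j = 2 ∧ ♯E = 4) → P ≤ 𝐍 E ∧ A ≤ 𝐍 (E ⊓ U)) (j0 : j ≠ 0)
    (T : ∀ D B, A ≤ 𝐍 D → A ≤ 𝐍 B → B ≤ 𝐍 D → PiGrp {p} B → Cyc (qt D B) → ⁅zpowers g, B⁆ ≤ D) :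
    ⁅zpowers g, U⁆ ≤ 𝚽 P := by
  have gA := zpowers_le.2 hg
  have T0 : ∀ B, A ≤ 𝐍 B → PiGrp {p} B → Cyc B → zpowers g ≤ 𝐂 B := fun B a b c =>
    comm_eq_bot.1 (le_bot_iff.1 (T ⊥ B (NormalIn.bot _).norm a (NormalIn.bot _).norm b (c.qt _)))
  by_cases c : ∃ Y ≤ P, Cyc Y ∧ ♯Y = p ^ j
  · obtain ⟨Y, yP, cY, eY⟩ := c
    obtain ⟨nY, aY⟩ := h Y yP (.inl eY)
    refine (comm_eq_bot.2 (Coprime.le_centralizer_of_omega _ U (k.le l).isPGroup (gA.trans n)
      ((piNat_compl_single_iff_coprime hp.out).1 o.zpowers) fun u hu e => ?_)).le.trans bot_le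
    replace hu := comm_le_left (gA.trans n) hu
    have uP := zpowers_le.2 (l hu)
    refine zpowers_le.1 (cent_symm ?_)
    by_cases m : ♯(zpowers u) ≤ p ^ j
    · obtain ⟨E, a, b, f⟩ := Fus.exists_between (k.le (sup_le yP uP)).isPGroup le_sup_right m
        (eY ▸ card_le_of_le le_sup_left)
      have aE := (h E (b.trans (sup_le yP uP)) (.inl f)).2
      have kB : PiGrp {p} (E ⊓ U) := (k.le l).inf_right
      have aD := norm_inf aE aY
      have nD : E ⊓ U ≤ 𝐍 (E ⊓ U ⊓ (Y ⊓ U)) := norm_inf le_normalizer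
        (norm_inf ((inf_le_right.trans l).trans nY) (inf_le_right.trans le_normalizer))
      have uB : zpowers u ≤ E ⊓ U := le_inf a (zpowers_le.2 hu)
      have kD : PiGrp {p} (E ⊓ U ⊓ (Y ⊓ U)) := kB.inf_left
      refine (cent_of_stable (o.zpowers.coprime' kD) ?_ (T0 _ aD kD
        (cY.mono (inf_le_right.trans inf_le_left)))).trans (cent_anti uB)
      rw [commutator_comm]
      refine T _ _ aD aE nD kB ((cyc_qt_iff nD).2 ⟨u, uB (mem_zpowers u), fun x hx => ?_⟩)
      obtain ⟨y, hy, z, hz, rfl⟩ := (mem_sup_norm' (uP.trans nY)).1 (b hx.1)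
      have := ((E ⊓ U).mul_mem_cancel_right (uB hz)).1 hx
      exact mul_mem_sup ⟨this, hy, this.2⟩ hz
    · have := (h _ uP (.inr ?_)).2
      · rw [inf_eq_left.2 (zpowers_le.2 hu)] at this
        exact T0 _ this (k.le uP) (cyc_zpowers u)
      rw [Nat.card_zpowers] at *
      have q := Nat.le_self_pow j0 p
      rcases e with e | ⟨rfl, e⟩
      · exact (m ((Nat.le_of_dvd hp.out.pos (orderOf_dvd_of_pow_eq_one e)).trans q)).elim
      have r := orderOf_dvd_of_pow_eq_one e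
      have s := Nat.le_of_dvd four_pos r
      obtain rfl : j = 1 := by_contra fun c => by
        have : 2 ^ 2 ≤ 2 ^ j := Nat.pow_le_pow_right two_pos (by omega)
        omega
      generalize orderOf u = t at *
      interval_cases t <;> simp_all
  push Not at c
  have key : ∀ M : Subgroup P, IsCoatom M → ⁅zpowers g, U⁆ ≤ M.map P.subtype := fun M hM => by
    have i := Solv.index_eq_of_isCoatom_of_isPGroup k.isPGroup hM
    have e := M.card_mul_index
    rw [i, ← card_map_of_injective P.subtype_injective] at e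
    have nM := (normal_iff_map_subtype.1 (Solv.normal_of_isCoatom_of_isPGroup k.isPGroup hM))
    generalize M.map P.subtype = M at *
    have nD : U ≤ 𝐍 (M ⊓ U) := norm_inf (l.trans nM.norm) le_normalizer
    refine (T (M ⊓ U) U (fun a ha => mem_norm_of_cj_le ?_) n nD (k.le l) ?_).trans inf_le_left
    · rintro _ ⟨x, hx, rfl⟩
      have xM := zpowers_le.2 hx.1
      obtain ⟨i, f⟩ := (k.le (xM.trans nM.le)).card_pow
      obtain ⟨r, f'⟩ := (k.le nM.le).card_pow
      obtain ⟨E, a', b, f⟩ := Fus.exists_between (k := j) (k.le nM.le).isPGroup xM (not_lt.1 fun m => by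
        obtain ⟨Y, -, y, f⟩ := Fus.exists_between (k := j) (k.le (xM.trans nM.le)).isPGroup bot_le
          (card_bot (G := G) ▸ Nat.one_le_pow _ _ hp.out.pos) m.le
        exact c Y (y.trans (xM.trans nM.le)) ((cyc_zpowers x).mono y) f) (by
        rw [← e, f', ← pow_succ, Nat.pow_lt_pow_iff_right hp.out.one_lt] at lt
        rw [f']; exact Nat.pow_le_pow_right hp.out.pos (by omega))
      exact inf_le_inf_right _ b (conj_mem_of_norm ((h E (b.trans nM.le) (.inl f)).2 ha) ⟨a' (mem_zpowers x), hx.2⟩)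
    · have := relIndex_dvd_of_norm l nM.norm
      rw [Nat.eq_of_mul_eq_mul_left (card_pos' M) ((card_mul_relIndex nM.le).trans e.symm),
        ← inf_relIndex_right, ← card_qt nD] at this
      exact ((Nat.dvd_prime hp.out).1 this).elim (fun c => (card_eq_one.1 c) ▸ cyc_bot)
        fun c => cyc_of_prime (c ▸ hp.out)
  intro x hx
  have xP : x ∈ P := l (comm_le_right (gA.trans n) hx)
  exact ⟨⟨x, xP⟩, Solv.mem_frattini_iff.2 fun M hM => by simpa [xP] using key M hM hx, rfl⟩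

theorem comm_le_of (o : PiElt {p}ᶜ g) {D B : Subgroup G} (a : g ∈ 𝐍 D) (b : g ∈ 𝐍 B) (c : B ≤ 𝐍 D)
    (k : PiGrp {p} B) (y : Cyc (qt D B)) (h : ∀ X, Elem p 1 X (qt D B) → X = 𝛀 p (qt D B) → qe D g ∈ 𝐂 X) :
    ⁅zpowers g, B⁆ ≤ D := by
  rw [← qt_cent_iff (zpowers_le.2 a) c]
  by_cases e : qt D B = ⊥
  · simp [e]
  refine y.abel.cent_of_Om (k.qt D) (qt_norm D (zpowers_le.2 b)) (coprime_qt D (o.zpowers.coprime' k)) ?_
  rw [qt_zpowers a, zpowers_le]
  exact h _ (y.elem_Om' (k.qt D) e) rfl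

theorem exists_pow [hp : Fact p.Prime] (k : PiGrp {p} P) {D : Subgroup G} (l : D ≤ P) (d : 1 < ♯D) :
    ∃ j, j ≠ 0 ∧ ♯D = p ^ j :=
  (k.le l).card_pow.imp fun j e => ⟨by rintro rfl; simp [e] at d, e⟩

/-- Let G be a finite group, p the smallest prime dividing |G| and P a Sylow p-subgroup. Suppose that P is cyclic, or that P has a subgroup D with 1 < |D| < |P| such that every subgroup E of P of order |D|, and also every subgroup E of P of order 4 when |D| = 2, satisfies g E g⁻¹ ∩ N_G(E) ≤ E for all g ∈ G (E is strongly closed in its normalizer with respect to G). Then G has a normal p-complement. -/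
theorem result {G : Type*} [Group G] [Finite G] {p : ℕ} [Fact p.Prime] (hdiv : p ∣ Nat.card G)
    (hmin : ∀ q : ℕ, q.Prime → q ∣ Nat.card G → p ≤ q) (P : Sylow p G)
    (h : IsCyclic ↥(P : Subgroup G) ∨ ∃ D : Subgroup G, D ≤ (P : Subgroup G) ∧ 1 < Nat.card D ∧ Nat.card D < Nat.card (P : Subgroup G) ∧
      ∀ E : Subgroup G, E ≤ (P : Subgroup G) → (Nat.card E = Nat.card D ∨ (Nat.card D = 2 ∧ Nat.card E = 4)) →
        ∀ g : G, E.map (MulAut.conj g).toMonoidHom ⊓ Subgroup.normalizer (E : Set G) ≤ E) :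
    Cfsg.HasNormalPComplement p G := by
  have hp : p.Prime := Fact.out
  have s := syl_sylow_top P
  rcases h with h | ⟨D, l, d, lt, h⟩
  · exact Transfer.hasNPC_top_iff.1 <| (npc_iff hp).1 (s.burnside (inf_le_right.trans (h.normalizer_le_centralizer (le_antisymm
      (Nat.minFac_le_of_dvd hp.two_le hdiv) (hmin _ (Nat.minFac_prime fun c => hp.ne_one
        (Nat.dvd_one.1 (c ▸ hdiv))) (Nat.minFac_dvd _))))))
  obtain ⟨j, j0, e⟩ := exists_pow s.pi l d
  rw [e] at h lt
  refine Transfer.hasNPC_of_inf_pResidual_le_frattini P ?_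
  rw [← Transfer.pRes_top]
  refine (s.isSylowIn hp).inf_pRes_le_of_hyperfocal fun U u g _ n c x hx => ?_
  have l := u.1.trans inf_le_left
  have o := (piNat_compl_single_iff_coprime hp).2 c
  have := comm_le_Phi (A := zpowers g) s.pi l (zpowers_le.2 n) (mem_zpowers g) o lt (fun E a b =>
    ⟨norm_of_H s.pi a (h E a b), zpowers_le.2 (mem_norm_of_cj_le (le_inf ((le_inf (cj_mono g inf_le_left)
      (((cj_le_of_norm n inf_le_right).trans l).trans (norm_of_H s.pi a (h E a b)))).trans (h E a b g))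
      (cj_le_of_norm n inf_le_right)))⟩) j0 fun D B a b c k y => ?_
  · have m := conj_mem_of_norm ((Phi_normal _).norm (l (inv_mem hx))) (this (commutator_mem_commutator (mem_zpowers g) hx))
    rwa [commutatorElement_def, inv_inv, mul_assoc, inv_mul_cancel_right] at m
  have a := zpowers_le.1 a
  refine comm_le_of o a (zpowers_le.1 b) c k y fun X x e => zpowers_le.1 (relIndex_eq_one.1 ?_)
  have h1 := x.cyc.relIndex_cent_dvd (e ▸ (qt_zpowers a ▸ qt_norm D b).trans (norm_Om p _))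
  have h2 := (relIndex_dvd_card (𝐂 X) _).trans (qt_zpowers a ▸ card_qt_dvd D (zpowers g))
  rw [x.card, pow_one, Nat.totient_prime hp] at h1
  refine Nat.eq_one_iff_not_exists_prime_dvd.2 fun r hr d => ?_
  have := hmin r hr ((d.trans h2).trans (card_subgroup_dvd_card _))
  have := Nat.le_of_dvd (Nat.sub_pos_of_lt hp.one_lt) (d.trans h1)
  have := hp.pos
  omega

end Cfsg.Agent.S3031
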