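import Mathlib
import Cfsg.Statements.S3032
import Cfsg.Agent.S3031
import Cfsg.Agent.SolvStr.Huppert

set_option autoImplicit false
open Cfsg

namespace Cfsg.Agent.S3032

open Subgroup CF CF.BG CF.SolvStr

universe u

theorem pow_mem_of_dvd {G : Type*} [Group G] {K : Subgroup G} {g : G} {n : ℕ} (h : K.relIndex (zpowers g) ∣ n) :
    g ^ n ∈ K := by
  obtain ⟨c, rfl⟩ := h
  have : (K.subgroupOf (zpowers g)).Normal := inferInstance
  rw [pow_mul]
  exact pow_mem (mem_subgroupOf.1 (pow_index_mem (K.subgroupOf (zpowers g)) ⟨g, mem_zpowers g⟩)) c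

theorem chain {p : ℕ} [hp : Fact p.Prime] (G : Type u) [Group G] [Finite G] (Q S : Subgroup G) [Q.Normal]
    (k : PiGrp {p} Q) (s : PiGrp {p} S) (h1 : commutator G ≤ 𝐂 Q ⊔ S) (h2 : ∀ g : G, g ^ (p - 1) ∈ 𝐂 Q ⊔ S) :
    SSChain Q := by
  induction hn : Nat.card G using Nat.strong_induction_on generalizing G with | _ n ih =>
  subst hn
  by_cases e : Q = ⊥
  · exact e ▸ .bot
  have : (𝐂 Q ⊔ S).Normal := normalIn_top.1 (normalIn_of_der_le le_top h1)
  obtain ⟨N, m, l⟩ := Solv.exists_isMinNormal_le (Q ⊓ 𝐂 (𝐂 Q ⊔ S)) (ne_bot_mono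
    (s.inf_cent_ne_bot k le_normalizer_of_normal e) (le_inf inf_le_left (le_cent_sup
      (inf_le_left.trans (cent_symm le_rfl)) inf_le_right)))
  have c := cent_symm (l.trans inf_le_right)
  have := m.1
  have f := card_eq_prime_of_isMinNormal m (k.le (l.trans inf_le_left)).isPGroup (h1.trans c) fun g => c (h2 g)
  have sj := QuotientGroup.mk'_surjective N
  have := Normal.map ‹Q.Normal› _ sj
  have a : (𝐂 Q ⊔ S).map (QuotientGroup.mk' N) ≤ 𝐂 (Q.map (QuotientGroup.mk' N)) ⊔ S.map (QuotientGroup.mk' N) := by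
    rw [Subgroup.map_sup]; exact sup_le_sup_right (map_cent le_rfl _) _
  have := (ih _ (by
      rw [← N.card_mul_index, f]
      exact lt_mul_of_one_lt_left N.index_ne_zero_of_finite.bot_lt hp.out.one_lt) (G ⧸ N) _ _ (k.map _) (s.map _)
    (by rw [commutator_def, ← map_top_of_surjective _ sj, ← map_commutator]; exact (map_mono h1).trans a)
    (fun g => by obtain ⟨g, rfl⟩ := sj g; exact a (map_pow (QuotientGroup.mk' N) g _ ▸ mem_map_of_mem _ (h2 g)))
    rfl).comap (QuotientGroup.mk' N) (by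
      rw [QuotientGroup.ker_mk']
      have := isCyclic_of_card_prime (f ▸ hp.out)
      exact .of_isCyclic N)
  rwa [comap_map_eq, QuotientGroup.ker_mk', sup_eq_left.2 (l.trans inf_le_left)] at this

theorem chain' {p j : ℕ} [hp : Fact p.Prime] {G : Type u} [Group G] [Finite G] (Q : Subgroup G) [Q.Normal]
    (k : PiGrp {p} Q) (j0 : j ≠ 0) (lt : p ^ j < ♯Q)
    (h : ∀ E ≤ Q, ♯E = p ^ j ∨ (p ^ j = 2 ∧ ♯E = 4) → E.Normal) : SSChain Q := by
  let X := commutator G ⊔ closure (Set.range fun g : G => g ^ (p - 1))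
  obtain ⟨S, s⟩ := exists_syl p X
  have l : X ≤ 𝐂 Q ⊔ S := le_of_forall_syl fun r hr _ => by
    by_cases e : r = p
    · exact ⟨S, e ▸ s, le_sup_right⟩
    refine (exists_syl r X).imp fun R t => ⟨t, le_sup_of_le_left fun g hg => ?_⟩
    have o := (t.pi.of_single_ne e).elt hg
    refine zpowers_le.1 (cent_of_comm_le_Phi le_normalizer_of_normal (o.zpowers.coprime' k) ?_)
    rw [commutator_comm]
    refine S3031.comm_le_Phi (A := ⊤) k le_rfl le_normalizer_of_normal (mem_top g) o lt (fun E a b => ?_) j0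
      fun D B a b c k y => S3031.comm_le_of o (a trivial) (b trivial) c k y fun Y x e => ?_
    · have := h E a b
      exact ⟨le_normalizer_of_normal, le_normalizer_of_normal⟩
    have n : qt D ⊤ ≤ 𝐍 Y := e ▸ (qt_norm D b).trans (norm_Om p _)
    refine (qt_le_iff (le_top.trans a)).2 (sup_le ((qt_le_iff (le_top.trans a)).1 ?_) ((closure_le _).2 ?_))
      (qe_mem_qt (t.le hg) (a trivial))
    · rw [commutator_def, qt_comm a a]; exact x.cyc.der_le_cent n
    rintro _ ⟨g, rfl⟩
    refine zpowers_le.1 ((qt_le_iff (le_top.trans a)).1 ?_)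
    have := x.cyc.relIndex_cent_dvd (zpowers_le.2 (n (qe_mem_qt (mem_top g) (a trivial))))
    rw [x.card, pow_one, Nat.totient_prime hp.out] at this
    rw [qt_zpowers (a trivial), qe_pow (a trivial), zpowers_le]
    exact pow_mem_of_dvd this
  exact chain G Q S k s.pi (le_sup_left.trans l) fun g => l (mem_sup_right (subset_closure ⟨g, rfl⟩))

/-- Let G be a finite group and E a normal subgroup with G/E supersolvable. Suppose that for every prime p and every non-cyclic Sylow p-subgroup P of E there is a subgroup D of P with 1 < |D| < |P| such that every subgroup F of P of order |D|, and also every subgroup F of P of order 4 when |D| = 2, satisfies g F g⁻¹ ∩ N_G(F) ≤ F for all g ∈ G. Then G is supersolvable. -/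
theorem result {G : Type*} [Group G] [Finite G] (E : Subgroup G) [E.Normal] (hGE : Cfsg.IsSupersolvable (G ⧸ E))
    (h : ∀ (p : ℕ), p.Prime → ∀ P : Subgroup G, P ≤ E → IsPGroup p P → ¬ p ∣ P.relIndex E → ¬ IsCyclic ↥P →
      ∃ D : Subgroup G, D ≤ P ∧ 1 < Nat.card D ∧ Nat.card D < Nat.card P ∧
        ∀ F : Subgroup G, F ≤ P → (Nat.card F = Nat.card D ∨ (Nat.card D = 2 ∧ Nat.card F = 4)) →
          ∀ g : G, F.map (MulAut.conj g).toMonoidHom ⊓ Subgroup.normalizer (F : Set G) ≤ F) :
    Cfsg.IsSupersolvable G := by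
  induction hn : Nat.card E using Nat.strong_induction_on generalizing E with | _ n ih =>
  subst hn
  by_cases e : E = ⊥
  · exact ss_of_quotient_chain E (e ▸ .bot) hGE
  have hp := Nat.minFac_prime (mt card_eq_one.1 e)
  have d := Nat.minFac_dvd (♯E)
  have mn := fun q (hq : q.Prime) (d : q ∣ ♯E) => Nat.minFac_le_of_dvd hq.two_le d
  generalize (♯E).minFac = p at *
  have := Fact.mk hp
  obtain ⟨P⟩ : Nonempty (Sylow p E) := inferInstance
  have s := syl_sylow P
  have inj := E.subtype_injective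
  have h' := h p hp _ s.le s.pi.isPGroup (s.not_dvd hp)
  have npc : NPC p E := (npc_iff hp).2 (S3031.result d mn P ((em _).imp_right fun c => by
    obtain ⟨D, l, a, b, h⟩ := h' (mt (cyc_map_iff inj).1 c)
    obtain ⟨D, rfl⟩ := exists_map_subtype (l.trans s.le)
    rw [card_map_of_injective inj] at a b h
    rw [card_map_of_injective inj] at b
    refine ⟨D, (map_le_map_iff_of_injective inj).1 l, a, b, fun F f c g x hx => ?_⟩
    obtain ⟨y, hy, rfl⟩ := hx.1
    exact (mem_map_iff_mem inj).1 (h _ (map_mono f) (by rwa [card_map_of_injective inj]) g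
      ⟨⟨y, mem_map_of_mem _ hy, rfl⟩, map_norm le_rfl _ (mem_map_of_mem _ hx.2)⟩)))
  generalize (P : Subgroup E).map E.subtype = P at *
  have sd := npc.sdprod s
  have nT : (𝐎 {p}ᶜ E).Normal := normalIn_top.1 ⟨le_top, le_norm_O _ le_normalizer_of_normal⟩
  have oT := O_pi {p}ᶜ E
  generalize 𝐎 {p}ᶜ E = T at *
  refine ih _ (card_lt (lt_of_le_of_ne sd.left_le fun c => (piNat_compl_single hp).1 oT (c ▸ d))) T ?_
    (fun r hr R a b c m => h r hr R (a.trans sd.left_le) b (fun f => ?_) m) rfl
  · have ch : SSChain (P.subgroupOf (𝐍 P)) := by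
      have := normal_in_normalizer (H := P)
      by_cases c : Cyc P
      · have := c.subgroupOf (𝐍 P)
        exact .of_isCyclic _
      obtain ⟨D, l, a, b, h⟩ := h' c
      obtain ⟨j, j0, e⟩ := S3031.exists_pow s.pi l a
      rw [e] at h b
      refine chain' _ ((piGrp_map_iff (subtype_injective _)).1 (by rw [map_subgroupOf le_normalizer]; exact s.pi)) j0
        (by rwa [Nat.card_congr (subgroupOfEquivOfLe le_normalizer).toEquiv]) fun F f c => ?_
      have l := (map_mono f).trans (map_subgroupOf le_normalizer).le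
      have k := h _ l (by rwa [card_map_of_injective (subtype_injective _)])
      exact normal_iff_map_subtype.2 ⟨map_subtype_le _, fun g hg => mem_norm_of_cj_le ((le_inf le_rfl
        ((cj_le_of_norm hg l).trans (S3031.norm_of_H s.pi l k))).trans (k g))⟩
    have sj : Function.Surjective ((QuotientGroup.mk' T).comp (𝐍 P).subtype) := fun x => by
      obtain ⟨x, rfl⟩ := QuotientGroup.mk'_surjective T x
      obtain ⟨a, ha, b, hb, rfl⟩ := s.syl_frattini (normalIn_top.2 ‹_›) (mem_top x)
      obtain ⟨c, hc, a', ha', rfl⟩ := sd.exists_mul ha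
      exact ⟨⟨a' * b, mul_mem (le_normalizer ha') hb.2⟩, by simp [(QuotientGroup.eq_one_iff c).2 hc]⟩
    refine ss_of_ker (QuotientGroup.map T E (MonoidHom.id G) (by simpa using sd.left_le)) hGE ?_
    have := ch.map sj
    rw [← map_map, map_subgroupOf le_normalizer] at this
    rwa [QuotientGroup.ker_map, comap_id, ← sd.sup, Subgroup.map_sup, QuotientGroup.map_mk'_self, bot_sup_eq]
  · rw [← relIndex_mul_relIndex R T E a sd.left_le, sd.relIndex_left] at f
    obtain rfl := s.pi r hr ((hr.dvd_mul.1 f).resolve_left c)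
    exact m (((piGrp_of_isPGroup hr b).eq_bot (oT.le a)) ▸ cyc_bot)

end Cfsg.Agent.S3032
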