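import Cfsg.Statements.S3043
import Cfsg.Agent.PLocal.BTIc

set_option autoImplicit false
open Cfsg

namespace Cfsg.Agent.S3043

/-- Let M be a nontrivial subgroup of a finite group G meeting each of its other conjugates trivially, with N_G(M) = M · C_{N_G(M)}(z) for some involution z ∈ N_G(M), and with C_G(x) of odd order for every nontrivial x ∈ M. Then one of the following holds: M is normal in G; the number of involutions of G is at most |G : M|; G is isomorphic to PGL₂(F) or to PSL₂(F) for a finite field F with |F| = |M|, M is an elementary abelian p-group for the characteristic p of F, and |F| ≡ 1 (mod 4) in the PSL₂ case; G is isomorphic to PSL₂(F) with |F| = 2^e, e > 1, and M is cyclic of order 2^e + 1; or for some d ≥ 1, G has an elementary abelian normal subgroup of order 2^{2d} complemented by N_G(M), and N_G(M) is dihedral of order 2(2^d + 1). -/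
theorem result {G : Type*} [Group G] [Finite G] (M : Subgroup G) (hM1 : M ≠ ⊥)
    (hTI : ∀ g : G, M ⊓ M.map (MulAut.conj g).toMonoidHom ≠ ⊥ → M.map (MulAut.conj g).toMonoidHom = M)
    (z : G) (hz : orderOf z = 2) (hzN : z ∈ Subgroup.normalizer (M : Set G))
    (hfac : M ⊔ (Subgroup.normalizer (M : Set G) ⊓ Subgroup.centralizer ({z} : Set G)) = Subgroup.normalizer (M : Set G))
    (hodd : ∀ x ∈ M, x ≠ 1 → Odd (Nat.card ↥(Subgroup.centralizer ({x} : Set G)))) :
    M.Normal ∨
    Nat.card {g : G // orderOf g = 2} ≤ M.index ∨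
    (∃ (F : Type) (_ : Field F) (_ : Fintype F) (p : ℕ) (_ : Fact p.Prime) (_ : CharP F p), Fintype.card F = Nat.card M ∧ Cfsg.IsElementaryAbelian p M ∧
        (Nonempty (G ≃* (GL (Fin 2) F ⧸ Subgroup.center (GL (Fin 2) F))) ∨
         (Fintype.card F % 4 = 1 ∧ Nonempty (G ≃* Matrix.ProjectiveSpecialLinearGroup (Fin 2) F)))) ∨
    (∃ (F : Type) (_ : Field F) (_ : Fintype F) (e : ℕ), 1 < e ∧ Fintype.card F = 2 ^ e ∧ IsCyclic ↥M ∧ Nat.card M = 2 ^ e + 1 ∧
        Nonempty (G ≃* Matrix.ProjectiveSpecialLinearGroup (Fin 2) F)) ∨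
    (∃ (d : ℕ) (E : Subgroup G), 1 ≤ d ∧ E.Normal ∧ Cfsg.IsElementaryAbelian 2 E ∧ Nat.card E = 2 ^ (2 * d) ∧
        E ⊓ Subgroup.normalizer (M : Set G) = ⊥ ∧ E ⊔ Subgroup.normalizer (M : Set G) = ⊤ ∧
        Nonempty (↥(Subgroup.normalizer (M : Set G)) ≃* DihedralGroup (2 ^ d + 1))) := by
  have H : CF.BTI.Hyp M z := by
    refine ⟨hM1, fun g x hx hx1 h => ?_, by rw [← sq, ← hz, pow_orderOf_eq_one],
      fun h => by rw [h, orderOf_one] at hz; exact absurd hz (by decide), hzN, fun n hn => ?_,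
      fun x hx hx1 t ht h2 => ?_⟩
    · have h1 := hTI g fun hb => by
        have : g * x * g⁻¹ ∈ M ⊓ M.map (MulAut.conj g).toMonoidHom := ⟨h, x, hx, rfl⟩
        rw [hb, Subgroup.mem_bot] at this
        exact hx1 (conj_eq_one_iff.1 this)
      rw [Subgroup.mem_normalizer_iff]
      intro y
      constructor
      · intro hy
        rw [← h1]; exact ⟨y, hy, rfl⟩
      · intro hy
        rw [← h1] at hy
        obtain ⟨w, hw, h2⟩ := hy
        have h3 : g * w * g⁻¹ = g * y * g⁻¹ := h2
        rwa [← mul_left_cancel (mul_right_cancel h3)]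
    · rw [← hfac, sup_comm, ← SetLike.mem_coe,
        Subgroup.coe_mul_of_left_le_normalizer_right _ _ inf_le_left] at hn
      obtain ⟨h, hh, x, hx, rfl⟩ := hn
      exact ⟨h * x * h⁻¹, CF.BTI.conj_mem hh.1 hx, h,
        Subgroup.mem_centralizer_singleton_iff.1 hh.2, by simp⟩
    · by_contra h1
      exact (Nat.not_even_iff_odd.2 (hodd x hx hx1)) (CF.Perm.even_card_of_invol
        (Subgroup.mem_centralizer_singleton_iff.2 ht) h1 h2)
  by_cases hMn : M.Normal
  · exact Or.inl hMn
  by_cases hI : Nat.card {g : G // orderOf g = 2} ≤ M.index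
  · exact Or.inr (Or.inl hI)
  have B : CF.BTI.Big M z := ⟨H, fun g hg => H.exists_invol (not_le.1 hI) hg⟩
  exact Or.inr (Or.inr (B.main hMn))

end Cfsg.Agent.S3043
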