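import Cfsg.Statements.S3047
import Cfsg.Agent.Rk1.B

set_option autoImplicit false
open Cfsg

namespace Cfsg.Agent.S3047

/-- Let p ≥ 5 be a prime, G a finite group all of whose composition factors are known simple groups, S a Sylow p-subgroup and P a p-minimal subgroup of G containing S such that O^p(P/O_p(P)) is isomorphic to SL₂(pᵃ), PSL₂(pᵃ), SU₃(pᵃ) or PSU₃(pᵃ) for some a ≥ 1. Let L be the subgroup generated by N_G(S) and the p-minimal subgroups of G containing S other than P. Then either O^p(P) is normal in G, or every p-element of the centre of L lies in O_p(P). -/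
theorem result {G : Type*} [Group G] [Finite G] {p : ℕ} [Fact p.Prime] (hp : 5 ≤ p) (hK : Cfsg.IsCompositionKGroup G)
    (S : Sylow p G) (P : Subgroup G) (hSP : (S : Subgroup G) ≤ P) (hPmin : Cfsg.IsPMinimal p ↥P) [hn : (Cfsg.pCore p ↥P).Normal]
    (hrk1 : ∃ (F : Type) (_ : Field F) (_ : Fintype F) (a : ℕ), 1 ≤ a ∧
      ((Fintype.card F = p ^ a ∧ (Nonempty (↥(Cfsg.pResidual p (↥P ⧸ Cfsg.pCore p ↥P)) ≃* Matrix.SpecialLinearGroup (Fin 2) F) ∨
                                  Nonempty (↥(Cfsg.pResidual p (↥P ⧸ Cfsg.pCore p ↥P)) ≃* Matrix.ProjectiveSpecialLinearGroup (Fin 2) F))) ∨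
       (Fintype.card F = p ^ (2 * a) ∧ (Nonempty (↥(Cfsg.pResidual p (↥P ⧸ Cfsg.pCore p ↥P)) ≃* ↥(Cfsg.SU 3 F (p ^ a))) ∨
                                        Nonempty (↥(Cfsg.pResidual p (↥P ⧸ Cfsg.pCore p ↥P)) ≃* Cfsg.PSU 3 F (p ^ a))))))
    (L : Subgroup G)
    (hL : L = Subgroup.normalizer ((S : Subgroup G) : Set G) ⊔ ⨆ P' : {P' : Subgroup G // (S : Subgroup G) ≤ P' ∧ Cfsg.IsPMinimal p ↥P' ∧ P' ≠ P}, (P' : Subgroup G)) :
    ((Cfsg.pResidual p ↥P).map P.subtype).Normal ∨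
    ∀ z ∈ L ⊓ Subgroup.centralizer (L : Set G), (∃ k : ℕ, orderOf z = p ^ k) → z ∈ (Cfsg.pCore p ↥P).map P.subtype := by
  refine Or.inr fun z hz ⟨k, hk⟩ => ?_
  have r : CF.Rk1.R1 p ↥(Cfsg.pResidual p (↥P ⧸ Cfsg.pCore p ↥P)) := by
    obtain ⟨F, _, _, a, -, ⟨hF, ⟨⟨e⟩⟩ | ⟨⟨e⟩⟩⟩ | ⟨hF, ⟨⟨e⟩⟩ | ⟨⟨e⟩⟩⟩⟩ := hrk1
    exacts [(CF.Rk1.r1_SL hp hF).equiv e.symm, (CF.Rk1.r1_SL hp hF).quot.equiv e.symm,
      (CF.Rk1.r1_SU hp hF).equiv e.symm, (CF.Rk1.r1_SU hp hF).quot.equiv e.symm]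
  have h1 : ∀ x ∈ Subgroup.normalizer ((S : Subgroup G) : Set G), x * z = z * x := fun x hx =>
    hz.2 x (hL ▸ Subgroup.mem_sup_left hx)
  have h2 : IsPGroup p (Subgroup.zpowers z) := IsPGroup.of_card (by rw [Nat.card_zpowers, hk])
  have h3 : z ∈ (S : Subgroup G) := by
    refine ((h2.inf_normalizer_sylow S).le ⟨Subgroup.mem_zpowers z, ?_⟩).2
    refine Subgroup.mem_normalizer_fintype fun s hs => ?_
    rw [← h1 s (Subgroup.le_normalizer hs), mul_inv_cancel_right]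
    exact hs
  have hs := QuotientGroup.mk'_surjective (Cfsg.pCore p ↥P)
  have h4 := CF.Rk1.main CF.Transfer.isPGroup_quotient_pResidual r ((S.subtype hSP).mapSurjective hs)
    (z := QuotientGroup.mk' _ ⟨z, hSP h3⟩) (Subgroup.mem_map_of_mem _ h3) fun x hx => by
      obtain ⟨x, rfl⟩ := hs x
      rw [← Subgroup.mem_comap, Subgroup.comap_normalizer_eq_of_surjective _ hs,
        Sylow.coe_mapSurjective, Subgroup.comap_map_eq_self (by
          rw [QuotientGroup.ker_mk']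
          exact CF.Solv.pCore_isPGroup.le_sylow_of_normal _), Sylow.coe_subtype,
        ← Subgroup.subgroupOf_normalizer_eq hSP] at hx
      rw [← map_mul, ← map_mul]
      exact congrArg _ (Subtype.ext (h1 x hx))
  rw [CF.Solv.pCore_quotient_pCore, Subgroup.mem_bot, QuotientGroup.mk'_apply,
    QuotientGroup.eq_one_iff] at h4
  exact ⟨_, h4, rfl⟩

end Cfsg.Agent.S3047
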