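import Cfsg.Statements.S3048
import Cfsg.Agent.Loc.Sidki
import Cfsg.Agent.Loc.CD
-- import your own Cfsg.Agent.* helpers here

set_option autoImplicit false
universe u
open Cfsg

namespace Cfsg.Agent.S3048

open Cfsg CF.Loc Subgroup
open scoped commutatorElement


/-- Minimal counterexample reduction for the Sidki pair problem. Let G be a finite group and V a nontrivial elementary abelian 2-subgroup satisfying the Sidki pair condition with V ∩ O₂(G) = 1. Suppose that for every finite group H of smaller order, every nontrivial elementary abelian 2-subgroup W of H satisfying the Sidki pair condition meets O₂(H) nontrivially, and that the same holds in G for every such subgroup W of order smaller than that of V. Then the generalized Fitting subgroup F*(G) is a non-abelian simple group and G = V F*(G). -/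
theorem result {G : Type u} [Group G] [Finite G] (V : Subgroup G) (hV : Cfsg.IsElementaryAbelian 2 V) (hV1 : V ≠ ⊥) (hS : Cfsg.IsSidkiPair V) (hVO : V ⊓ Cfsg.pCore 2 G = ⊥) (hminG : ∀ (H : Type u) [Group H] [Finite H] (W : Subgroup H), Nat.card H < Nat.card G → Cfsg.IsElementaryAbelian 2 W → W ≠ ⊥ → Cfsg.IsSidkiPair W → W ⊓ Cfsg.pCore 2 H ≠ ⊥) (hminV : ∀ W : Subgroup G, Nat.card W < Nat.card V → Cfsg.IsElementaryAbelian 2 W → W ≠ ⊥ → Cfsg.IsSidkiPair W → W ⊓ Cfsg.pCore 2 G ≠ ⊥) : IsSimpleGroup ↥(Cfsg.generalizedFittingSubgroup G) ∧ ¬ IsMulCommutative ↥(Cfsg.generalizedFittingSubgroup G) ∧ V ⊔ Cfsg.generalizedFittingSubgroup G = ⊤ := by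
  have hV2 := isElemAb_isPGroup hV
  have sub : ∀ W : Subgroup G, W ≤ V → IsElementaryAbelian 2 W := fun W h => isElemAb_of_le hV h
  have hO : pCore 2 G = ⊥ := by
    by_contra hne
    have hf := QuotientGroup.mk'_surjective (pCore 2 G)
    refine hminG _ (V.map (QuotientGroup.mk' (pCore 2 G))) (CF.Solv.card_quotient_lt hne)
      (isElemAb_map _ hV) ?_ (sidki_map hV hS hf (by rwa [QuotientGroup.ker_mk'])) ?_
    · rw [Ne, Subgroup.map_eq_bot_iff, QuotientGroup.ker_mk']
      exact fun e => hV1 (by rw [← hVO, inf_of_le_left e])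
    · rw [CF.Solv.pCore_quotient_pCore, inf_bot_eq]
  have hO' : ∀ N : Subgroup G, Sn N ⊤ → 𝐎[2](N) = ⊥ := fun N h => by
    rw [eq_bot_iff, ← hO, ← pCoreOf_top]; exact h.pCoreOf_le
  -- proper subgroups
  have prop : ∀ W L : Subgroup G, W ≤ V → W ≤ L → L ≠ ⊤ → W ≠ ⊥ → IsSidkiPair (W.subgroupOf L) →
      ∀ N, Sn N ⊤ → N ≤ L → L ≤ 𝐍(N) → W ⊓ 𝐂(N) ≠ ⊥ := by
    intro W L h1 h2 h3 h4 h5 N h6 h7 h8 h9
    refine hminG L (W.subgroupOf L) (CF.Solv.card_lt_of_ne_top h3) (isElemAb_subgroupOf (sub W h1) _)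
      (fun e => h4 (by rw [← map_subgroupOf_eq_of_le h2, e, Subgroup.map_bot])) h5 ?_
    rw [← pCoreOf_subgroupOf, ← subgroupOf_inf, eq_bot_iff, ← bot_subgroupOf, ← h9]
    refine comap_mono (inf_le_inf_left _ (commutator_eq_bot_iff_le_centralizer'.1 ?_))
    rw [eq_bot_iff, ← hO' N h6]
    have a := commutator_le_inf_of_normalize (A := N) (B := 𝐎[2](L)) ((pCoreOf_le _ _).trans h8)
      (h7.trans (le_normalizer_pCoreOf _ _))
    exact a.trans (inf_pCoreOf_le h7)
  have cent : ∀ N : Subgroup G, N.Normal → V ⊓ N ⊓ 𝐂(N) = ⊥ := fun N _ => by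
    rw [eq_bot_iff, ← hO' (N ⊓ 𝐂(N)) (Sn.of_normal le_top (le_normalizer_inf
      (le_normalizer_of_normal' _ _) (le_normalizer_centralizer (le_normalizer_of_normal' _ _))))]
    refine CF.Loc.le_pCoreOf (hV2.to_le (inf_le_left.trans inf_le_left)) (inf_le_inf_right _ inf_le_right)
      (inf_le_right.trans (centralizer_le_normalizer_of_le (inf_le_left.trans inf_le_right)))
  have nC : ∀ N : Subgroup G, N.Normal → (𝐂(N)).Normal := fun N _ => normal_of_top_le_normalizer
    (le_normalizer_centralizer (le_normalizer_of_normal' _ _))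
  have sn : ∀ N : Subgroup G, N.Normal → Sn N ⊤ := fun N _ =>
    Sn.of_normal le_top (le_normalizer_of_normal' _ _)
  have A1 : ∀ N : Subgroup G, N.Normal → V ⊓ 𝐂(N) = ⊥ ∨ V ≤ 𝐂(N) := fun N hN => by
    by_contra hc
    push Not at hc
    have := nC N hN
    have h1 : ¬ IsSidkiPair (V ⊓ 𝐂(N)) := fun h => hminV _ (card_lt_card_of_lt
      (lt_of_le_of_ne inf_le_left fun e => hc.2 (e.ge.trans inf_le_right))) (sub _ inf_le_left) hc.1 h
      (by rw [hO, inf_bot_eq])
    unfold IsSidkiPair at h1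
    push Not at h1
    obtain ⟨h, u, hu, ho, hi, h1⟩ := h1
    obtain ⟨h2, h3⟩ := sidki_centralizer hV hS hu.1 ho hi rfl
    have h4 : N ≤ centralizer {u} ⊓ centralizer {h} := le_inf (le_centralizer_singleton_iff.2 hu.2)
      (le_centralizer_singleton_iff.2 (mem_of_inverted hu.2 ho hi))
    obtain ⟨w, hw, w1⟩ := (bot_or_exists_ne_one _).resolve_left hc.1
    refine prop _ _ inf_le_right inf_le_left (fun e => ?_) h2 h3 N (sn N hN) h4
      (le_normalizer_of_normal' _ _) ?_
    · exact h1 w hw w1 (mem_centralizer_singleton_iff.1 (e.ge (mem_top w)).2)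
    · rw [eq_bot_iff]
      intro x hx
      by_contra e
      exact h1 x ⟨hx.1.2, hx.2⟩ e (mem_centralizer_singleton_iff.1 hx.1.1.2)
  have A2 : ∀ N : Subgroup G, N.Normal → V ⊓ 𝐂(N) = ⊥ → N ⊔ V = ⊤ := fun N hN h => by
    by_contra hc
    exact prop V _ le_rfl le_sup_right hc hV1 (sidki_subgroupOf hS le_sup_right) N (sn N hN)
      le_sup_left (le_normalizer_of_normal' _ _) h
  have A3 : ∀ N : Subgroup G, N.Normal → N ≠ ⊥ → V ⊓ 𝐂(N) = ⊥ := fun N hN h => by
    refine (A1 N hN).resolve_right fun h1 => ?_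
    have hC := nC N hN
    have h2 := A2 _ hC (by rw [← cent _ hC, inf_of_le_left h1])
    rw [sup_of_le_left h1] at h2
    have h3 : V ⊓ N = ⊥ := by rw [← cent N hN, h2, inf_top_eq]
    have hf := QuotientGroup.mk'_surjective N
    refine hminG _ (V.map (QuotientGroup.mk' N)) (CF.Solv.card_quotient_lt h)
      (isElemAb_map _ hV) ?_ (sidki_map hV hS hf (by rwa [QuotientGroup.ker_mk'])) ?_
    · rw [Ne, Subgroup.map_eq_bot_iff, QuotientGroup.ker_mk']
      exact fun e => hV1 (by rw [← h3, inf_of_le_left e])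
    set K := (pCore 2 (G ⧸ N)).comap (QuotientGroup.mk' N) with hK
    obtain ⟨T, hT⟩ := exists_isSyl 2 K
    have h4 : N ⊔ T = K := hT.sup_eq_of_pow_mem (CF.Solv.le_comap_mk' _ _)
      (le_normalizer_of_normal' _ _) fun x hx => by
        obtain ⟨k, hk⟩ := isPGroup_iff_forall.1 (isPGroup_pCore 2 (G ⧸ N)) _ hx
        exact ⟨k, by rwa [← map_pow, QuotientGroup.mk'_apply, QuotientGroup.eq_one_iff] at hk⟩
    have h5 : K ≤ 𝐍(T) := h4.ge.trans (sup_le ((le_centralizer_comm.1 (le_top.trans h2.ge)).trans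
      (centralizer_le_normalizer_of_le le_rfl)) le_normalizer)
    have h6 : T = ⊥ := by
      rw [eq_bot_iff, ← hO' K (sn K inferInstance)]
      exact CF.Loc.le_pCoreOf hT.isPGroup hT.le h5
    rw [h6, sup_bot_eq] at h4
    rw [← map_comap_eq_self_of_surjective hf (pCore 2 _), ← hK, ← h4, QuotientGroup.map_mk'_self,
      inf_bot_eq]
  have odd : ∀ N : Subgroup G, V ≤ 𝐍(N) → ∀ x ∈ N ⊔ V, Odd (orderOf x) → x ∈ N :=
    fun N h x h1 h2 => CF.Invol.mem_of_odd_of_mem_sup hV2 h h1 h2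
  obtain ⟨v, hv, v1⟩ := (bot_or_exists_ne_one _).resolve_left hV1
  have hF : fittingSubgroup G = ⊥ := by
    by_contra hne
    set Z := fittingSubgroup G ⊓ 𝐂(fittingSubgroup G) with hZ
    have hZn : Z.Normal := normal_of_top_le_normalizer (le_normalizer_inf
      (le_normalizer_of_normal' _ _) (le_normalizer_centralizer (le_normalizer_of_normal' _ _)))
    have h1 : Z ≠ ⊥ := by
      have := (nontrivial_iff_ne_bot _).2 hne
      rw [Ne, ← card_eq_one, hZ, ← card_center_eq, card_eq_one]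
      exact Group.IsNilpotent.center_ne_bot _
    have h2 : Z ≤ 𝐂(Z) := center_le_centralizer_self _
    have h3 := A3 Z hZn h1
    have h4 := A2 Z hZn h3
    obtain ⟨x, hx, x1, ho, hi⟩ := exists_odd_inverted_of_not_mem (mul_self_of_elemAb hV hv)
      (mem_top v) (by rw [pCoreOf_top, hO]; exact v1)
    have hx := odd Z (le_normalizer_of_normal' _ _) x (h4.ge hx) ho
    obtain ⟨w, hw, w1, h5⟩ := hS x v hv ho hi
    have h6 : (Z ⊓ centralizer {w}).Normal := normal_of_top_le_normalizer (h4.ge.trans (sup_le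
      (h2.trans (centralizer_le_normalizer_of_le inf_le_left)) (le_normalizer_inf
        (le_normalizer_of_normal' _ _) (le_trans (fun y hy => mem_centralizer_singleton_iff.2
          (comm_of_elemAb hV hy hw)) le_normalizer))))
    refine w1 (mem_bot.1 ((A3 _ h6 fun e => x1 (mem_bot.1 (e.le
      ⟨hx, mem_centralizer_singleton_iff.2 h5.symm⟩))).le ⟨hw, ?_⟩))
    exact le_centralizer_singleton_iff.1 inf_le_right
  have hF1 : generalizedFittingSubgroup G ≠ ⊥ := fun e => by
    have := CF.Sig.centralizer_fstar_le_fitting (G := G)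
    rw [e, CF.Loc.centralizer_bot, hF] at this
    exact v1 (mem_bot.1 (this (mem_top v)))
  have hFV := A2 _ inferInstance (A3 _ inferInstance hF1)
  have hE : generalizedFittingSubgroup G = layer G := by
    rw [generalizedFittingSubgroup, hF, sup_bot_eq]
  obtain ⟨K, hK⟩ : ∃ K : Subgroup G, IsComponent K := by
    by_contra hc
    push Not at hc
    exact hF1 (hE.trans (le_bot_iff.1 (CF.Sig.layer_le fun K hK => absurd hK (hc K))))
  have hK' := CF.Sig.comp_top_iff.2 hK
  have hZK : ∀ L : Subgroup G, IsComponent L → L ⊓ 𝐂(L) = ⊥ := fun L hL =>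
    le_bot_iff.1 (hF ▸ CF.Sig.center_comp_le_fitting hL)
  have hcj : ∀ g, g ∉ 𝐍(K) → cj[g] K ≤ 𝐂(K) := fun g hg =>
    ((comp_cj hK' (g := g) (by rw [normalizer_eq_top]; trivial)).eq_or_cent hK').resolve_left
      fun e => hg (cj_eq_self_iff.1 e)
  have hex : ∀ L : Subgroup G, IsComponent L → ∃ k ∈ L, k ≠ 1 ∧ Odd (orderOf k) := fun L hL => by
    by_contra hc
    push Not at hc
    refine CF.Sig.comp_ne_bot hL ?_
    rw [← pResidualOf_eq_self_of_perfect (p := 2) (CF.Sig.comp_perfect hL), eq_bot_iff]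
    refine pResidualOf_le_iff.2 fun x h1 h2 => ?_
    by_contra e
    exact hc x h1 e (Nat.coprime_two_right.1 h2)
  have hEK : generalizedFittingSubgroup G ≤ 𝐍(K) := hE.le.trans (CF.Sig.layer_le fun L hL => by
    rcases (CF.Sig.comp_top_iff.2 hL).eq_or_cent hK' with e | e
    · exact e.le.trans le_normalizer
    · exact e.trans (centralizer_le_normalizer_of_le le_rfl))
  have hVK : V ≤ 𝐍(K) := by
    by_contra hc
    obtain ⟨u, hu, hun⟩ := SetLike.not_le_iff_exists.1 hc
    have h1 : V ⊓ 𝐂(K) = ⊥ := by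
      rw [eq_bot_iff, ← A3 (ncl K ⊤) inferInstance (by
        rw [Ne, ncl_eq_bot_iff]; exact CF.Sig.comp_ne_bot hK)]
      refine le_inf inf_le_left (le_centralizer_comm.1 (ncl_le_iff.2 fun g hg => ?_))
      obtain ⟨a, ha, b, hb, rfl⟩ := (mem_sup_of_le_normalizer' (le_normalizer_of_normal' _ _)).1
        (((sup_comm V _).trans hFV).ge hg)
      rw [cj_mul, cj_eq_self (hEK hb)]
      exact cj_le_of_mem (centralizer_anti inf_le_left (CF.Loc.isMulCommutative_iff.1 hV.1 ha))
        (le_centralizer_comm.1 inf_le_right)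
    by_cases e : V ⊓ 𝐍(K) = ⊥
    · obtain ⟨k, hk, k1, ho⟩ := hex K hK
      have a : u * k⁻¹ * u⁻¹ ∈ 𝐂(K) := hcj u hun (conj_mem_cj u (inv_mem hk))
      have b : Commute k (u * k⁻¹ * u⁻¹) := mem_centralizer_iff'.1 a k hk
      have u2 := mul_self_of_elemAb hV hu
      have c : u * (k * (u * k⁻¹ * u⁻¹)) * u⁻¹ = (k * (u * k⁻¹ * u⁻¹))⁻¹ := by
        calc _ = u * k * (u * u) * u⁻¹ * (u * u)⁻¹ * (u * u) * k⁻¹ * (u * u)⁻¹ := by group
          _ = _ := by rw [u2]; group
      have d := odd_orderOf_mul b ho (by rwa [CF.Loc.orderOf_conj, orderOf_inv])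
      obtain ⟨w, hw, w1, h5⟩ := hS _ u hu d c
      rw [← mul_inv_eq_iff_eq_mul] at h5
      refine k1 (mem_bot.1 ((hZK K hK).le ⟨hk, (mul_mem_cancel_right a).1 ?_⟩))
      by_cases f : w * u = 1
      · rw [mul_right_cancel (f.trans u2.symm), c] at h5
        rw [eq_one_of_odd_of_eq_inv d h5.symm]; exact one_mem _
      · rw [← h5, show w * (k * (u * k⁻¹ * u⁻¹)) * w⁻¹ = w * k * w⁻¹ * (w * u * k⁻¹ * (w * u)⁻¹)
          by group]
        exact mul_mem (hcj w (fun h => w1 (mem_bot.1 (e.le ⟨hw, h⟩))) (conj_mem_cj _ hk))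
          (hcj _ (fun h => f (mem_bot.1 (e.le ⟨mul_mem hw hu, h⟩))) (conj_mem_cj _ (inv_mem hk)))
    · refine prop (V ⊓ 𝐍(K)) (K ⊔ V ⊓ 𝐍(K)) inf_le_left le_sup_right (fun e => hun
        ((sup_le le_normalizer inf_le_right : _ ≤ 𝐍(K)) (e.ge (mem_top u)))) e ?_ K (comp_sn hK')
        le_sup_left (sup_le le_normalizer inf_le_right)
        (le_bot_iff.1 ((inf_le_inf_right _ inf_le_left).trans h1.le))
      rintro ⟨x, hx⟩ ⟨y, hy⟩ hy' ho hi
      rw [← orderOf_coe] at ho
      have hx' : x ∈ K := CF.Invol.mem_of_odd_of_mem_sup (hV2.to_le inf_le_left) inf_le_right hx ho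
      by_cases x1 : x = 1
      · obtain ⟨w, hw, w1⟩ := (bot_or_exists_ne_one _).resolve_left e
        exact ⟨⟨w, mem_sup_right hw⟩, hw, fun e => w1 (congrArg Subtype.val e),
          Subtype.ext (by simp [x1])⟩
      obtain ⟨w, hw, w1, h5⟩ := hS x y hy'.1 ho (congrArg Subtype.val hi)
      have a : w ∈ 𝐍(K) := by
        by_contra a
        have := hcj w a (conj_mem_cj w hx')
        rw [h5, mul_inv_cancel_right] at this
        exact x1 (mem_bot.1 ((hZK K hK).le ⟨hx', this⟩))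
      exact ⟨⟨w, mem_sup_right ⟨hw, a⟩⟩, ⟨hw, a⟩, fun e => w1 (congrArg Subtype.val e),
        Subtype.ext h5⟩
  have hKn : K.Normal := normal_of_top_le_normalizer (hFV.ge.trans (sup_le hEK hVK))
  have hC : 𝐂(K) = ⊥ := by
    by_contra e
    have := nC K hKn
    obtain ⟨k, hk, k1, ho⟩ := hex K hK
    exact k1 (mem_bot.1 ((hZK K hK).le ⟨hk, odd _ (le_normalizer_of_normal' _ _) k
      ((A2 _ this (A3 _ this e)).ge (mem_top k)) ho⟩))
  have h3 : generalizedFittingSubgroup G = K := by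
    rw [hE]
    refine le_antisymm (CF.Sig.layer_le fun L hL => ?_) (CF.Sig.comp_le_layer hK)
    rcases (CF.Sig.comp_top_iff.2 hL).eq_or_cent hK' with e | e
    · exact e.le
    · exact e.trans (hC.le.trans bot_le)
  refine ⟨h3 ▸ isSimpleGroup_of_qs hK.2 (hZK K hK), fun e => ?_, (sup_comm V _).trans hFV⟩
  rw [h3] at e
  exact CF.Sig.comp_ne_bot hK (le_bot_iff.1 (le_centralizer_of_isMulCommutative.trans hC.le))

end Cfsg.Agent.S3048
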