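import Cfsg.Statements.S3049
import Cfsg.Agent.Loc.Iso
-- import your own Cfsg.Agent.* helpers here

set_option autoImplicit false
open Cfsg

namespace Cfsg.Agent.S3049

open Cfsg CF.Loc Subgroup
open scoped commutatorElement


/-- Let G be a finite group and p an odd prime with O_{p'}(G) = 1. Suppose that G has p-rank at most 2 (no elementary abelian subgroup of order p³) and that some element x of order p is isolated in G (no G-conjugate of x other than x commutes with x) and not central. Then the generalized Fitting subgroup F*(G) is a non-abelian simple group. Since O_{p'}(G) = 1, such an x is not central modulo O_{p'}(G): the hypotheses describe a counterexample to the Z*_p statement in p-rank at most 2. -/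
theorem result {G : Type*} [Group G] [Finite G] {p : ℕ} [Fact p.Prime] (hp : p ≠ 2) (hcore : Cfsg.pPrimeCore p G = ⊥)
    (hrank : Cfsg.PRankLE p 2 G) (x : G) (hx : orderOf x = p) (hiso : Cfsg.IsIsolated x) (hnc : x ∉ Subgroup.center G) :
    IsSimpleGroup ↥(Cfsg.generalizedFittingSubgroup G) ∧ ¬ IsMulCommutative ↥(Cfsg.generalizedFittingSubgroup G) := by
  have hxp := isPGroup_zpowers_of_prime hx
  have hF := CF.Solv.fitting_eq_pCore hcore
  have hd : ∀ K : Subgroup G, IsComponent K → p ∣ Nat.card K := fun K hK => by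
    by_contra hd
    have := CF.Solv.le_pPrimeCore_of_isSubnormal hK.1 (coprime_iff_not_dvd'.2 hd)
    rw [hcore, le_bot_iff] at this
    exact CF.Sig.comp_ne_bot hK this
  have h1 := iso_mem_centralizer_of_normalizes hiso hxp (isPGroup_pCore p G)
    (le_normalizer_of_normal' ⊤ _ (mem_top x))
  obtain ⟨K, hK, hxK⟩ : ∃ K : Subgroup G, IsComponent K ∧ x ∉ 𝐂(K) := by
    by_contra hc
    push Not at hc
    have h2 : x ∈ 𝐂(generalizedFittingSubgroup G) := by
      rw [generalizedFittingSubgroup, hF, CF.Loc.centralizer_sup]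
      refine mem_inf.2 ⟨?_, h1⟩
      rw [← le_centralizer_singleton_iff]
      exact CF.Sig.layer_le fun K hK => le_centralizer_singleton_iff.2 (hc K hK)
    have h3 := CF.Sig.centralizer_fstar_le_fitting h2
    rw [hF] at h3
    exact hnc (iso_mem_center hiso h3 h1)
  obtain ⟨P, hP, hxP⟩ := exists_isSyl_ge hxp le_top
  have hxP := hxP (mem_zpowers x)
  have hK' := CF.Sig.comp_top_iff.2 hK
  have key : P ⊓ 𝐂(K) = ⊥ := by
    by_contra hne
    obtain ⟨w, hw, ho⟩ := exists_orderOf_eq_of_isPGroup (hP.isPGroup.to_le inf_le_left) hne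
    have hPx := iso_mem_centralizer hiso hP.isPGroup hxP
    have hn : zpowers x ≤ 𝐂(zpowers w) := zpowers_le.2 (centralizer_anti (zpowers_le.2 hw.1) hPx)
    have hE := isElemAb_sup (CF.Invol.isElemAb_zpowers (hx ▸ pow_orderOf_eq_one x))
      (CF.Invol.isElemAb_zpowers (ho ▸ pow_orderOf_eq_one w)) hn
    have hc : ¬ IsCyclic ↥(zpowers x ⊔ zpowers w) := fun hc => hxK (zpowers_le.2 hw.2
      (CF.Fgs2.mem_zpowers_of_orderOf_dvd' (C := zpowers x ⊔ zpowers w)
        (mem_sup_left (mem_zpowers x)) (mem_sup_right (mem_zpowers w)) (by rw [hx, ho])))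
    refine not_hasNPC_of_perfect (CF.Sig.comp_perfect hK) (hd K hK)
      (hasNPC_of_omega' hp ((comp_sn hK').isSyl_inf hP) fun U hU a ha hn' u hu hup => ?_)
    have h2 : u ∈ zpowers x ⊔ zpowers w := by
      by_contra h2
      refine not_prankLE_two hE hc hup ?_ h2 hrank
      rw [CF.Loc.centralizer_sup, centralizer_zpowers, centralizer_zpowers]
      exact ⟨le_centralizer_singleton_iff.2 hPx (hU hu).1,
        le_centralizer_singleton_iff.2 hw.2 (hU hu).2⟩
    obtain ⟨y, hy, v, hv, rfl⟩ := (mem_sup_of_le_normalizer'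
      (hn.trans (centralizer_le_normalizer_of_le le_rfl))).1 h2
    have h3 : a * v * a⁻¹ = v := by
      rw [mul_inv_eq_iff_eq_mul]; exact mem_centralizer_iff'.1 (zpowers_le.2 hw.2 hv) a ha
    have h4 : a * (y * v) * a⁻¹ = a * y * a⁻¹ * v := by
      calc _ = a * y * a⁻¹ * (a * v * a⁻¹) := by group
        _ = _ := by rw [h3]
    have h5 := (hU (conj_mem_of_mem_normalizer hn' hu)).1
    rw [h4] at h5 ⊢
    rw [iso_stronglyClosed hiso hP.isPGroup hxP hy
      ((mul_mem_cancel_right (zpowers_le.2 hw.1 hv)).1 h5)]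
  have h2 : fittingSubgroup G = ⊥ := by
    rw [eq_bot_iff, ← key]
    refine le_inf (hF ▸ pCoreOf_top p G ▸ hP.pCoreOf_le) (le_centralizer_comm.1 ?_)
    exact CF.Sig.comp_le_centralizer_fitting hK
  have h3 : generalizedFittingSubgroup G = K := by
    rw [generalizedFittingSubgroup, h2, sup_bot_eq]
    refine le_antisymm (CF.Sig.layer_le fun L hL => ?_) (CF.Sig.comp_le_layer hK)
    have hL' := CF.Sig.comp_top_iff.2 hL
    rcases hL'.eq_or_cent hK' with e | e
    · exact e.le
    exfalso
    refine ((comp_sn hL').isSyl_inf hP).ne_bot_iff.2 (hd L hL) ?_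
    rw [eq_bot_iff, ← key]
    exact inf_le_inf_left _ e
  rw [h3]
  refine ⟨isSimpleGroup_of_qs hK.2 ?_, fun e => ?_⟩
  · rw [eq_bot_iff, ← h2]
    exact CF.Sig.center_comp_le_fitting hK
  · apply CF.Sig.comp_ne_bot hK
    rw [← CF.Sig.comp_perfect hK, commutator_eq_bot_iff_le_centralizer']
    exact le_centralizer_of_isMulCommutative

end Cfsg.Agent.S3049
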