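import Cfsg.Statements.S3050
import Cfsg.Agent.CIT.Higman

set_option autoImplicit false
open Cfsg

namespace Cfsg.Agent.S3050

/-- Let G be a finite group with a normal 2-subgroup Q such that G/Q is isomorphic to SL(2, 2ⁿ) with n ≥ 2, and suppose some element of G of order 3 fixes no nonidentity element of Q under conjugation. Then Q is elementary abelian and is the direct product of normal subgroups of G on each of which G acts as SL(2, 2ⁿ) acts on its natural two-dimensional module (a Galois twist of the natural action allowed). -/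
theorem result {G : Type*} [Group G] [Finite G]
    (Q : Subgroup G) [Q.Normal] (hQ : IsPGroup 2 ↥Q) (n : ℕ) (hn : 2 ≤ n)
    (K : Type*) [Field K] [Fintype K] (hK : Fintype.card K = 2 ^ n)
    (e : G ⧸ Q ≃* Matrix.SpecialLinearGroup (Fin 2) K)
    (x : G) (hx : orderOf x = 3) (hfpf : ∀ q ∈ Q, x * q * x⁻¹ = q → q = 1) :
    Cfsg.IsElementaryAbelian 2 Q ∧
      ∃ (k : ℕ) (V : Fin k → Subgroup G), (∀ i, V i ≤ Q ∧ (V i).Normal ∧
        Cfsg.ActsAsSL2OnSection K ⊤ ⊤ (V i) ⊥) ∧ iSupIndep V ∧ ⨆ i, V i = Q := by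
  open CF.CIT.Hig CF.BG Subgroup Matrix in
  classical
  haveI := CF.BN.Suz.charP_of_card hK
  obtain ⟨s, s0, s1⟩ := exists_ne hn hK
  have hk := ker_comp e
  set π := e.toMonoidHom.comp (QuotientGroup.mk' Q)
  have h : Hyp π := hyp_of (hk.symm ▸ piGrp_of_isPGroup Nat.prime_two hQ)
    (e.surjective.comp (QuotientGroup.mk'_surjective Q)) hx (hk.symm ▸ hfpf)
  refine ⟨hk ▸ (h.abelem s0 s1).isEA, ?_⟩
  obtain ⟨k, θ, inj, r, hθ⟩ := h.exists_coord s0 s1
  let σ (i : Fin k) := AddMonoidHom.toMultiplicative (AddMonoidHom.single (fun _ => Fin 2 → K) i)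
  have inj' : ∀ i, Function.Injective (θ.comp (σ i)) := fun i =>
    inj.comp fun a b e => Pi.single_injective (M := fun _ => Fin 2 → K) i e
  have A : ∀ i g v, g * θ.comp (σ i) v * g⁻¹ = θ.comp (σ i) (.ofAdd ((π g).1 *ᵥ v.toAdd)) :=
    fun i g v => (hθ g _).trans (congrArg (fun c => θ (.ofAdd c)) (funext fun j => by
      by_cases e : j = i <;> simp [σ, e]))
  have N : ∀ i, (θ.comp (σ i)).range.Normal := fun i =>
    ⟨by rintro _ ⟨v, rfl⟩ g; exact ⟨_, (A i g v).symm⟩⟩
  refine ⟨k, fun i => (θ.comp (σ i)).range, fun i => ⟨?_, N i, le_normalizer_of_normal, bot_le,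
    π.comp (Subgroup.subtype ⊤), (MonoidHom.ofInjective (inj' i)).symm, ?_,
    (MonoidHom.ofInjective (inj' i)).symm.surjective, fun u => by simp, fun g u => ?_⟩,
    iSupIndep_def.2 fun i => ?_, le_antisymm (iSup_le fun i => ?_) ?_⟩
  · rintro _ ⟨v, rfl⟩
    exact (r.trans hk).le ⟨_, rfl⟩
  · rw [MonoidHom.range_comp, range_subtype, ← MonoidHom.range_eq_map,
      MonoidHom.range_eq_top.2 h.surj]
  · obtain ⟨v, rfl⟩ := (MonoidHom.ofInjective (inj' i)).surjective u
    exact ⟨MonoidHom.ofInjective (inj' i) _, (A i g v).symm, by simp⟩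
  · refine Disjoint.mono_right (c := (AddMonoidHom.toMultiplicative
      (Pi.evalAddMonoidHom (fun _ => Fin 2 → K) i)).ker.map θ) (iSup₂_le fun j ne => ?_)
      (disjoint_iff_inf_le.2 ?_)
    swap
    · skip
      rintro _ ⟨⟨v, rfl⟩, c, hc, e⟩
      obtain rfl := inj e
      obtain rfl : v = 1 := by simpa [σ] using hc
      simp
    · rintro _ ⟨v, rfl⟩
      exact ⟨_, by simp [σ, ne.symm], rfl⟩
  · rintro _ ⟨v, rfl⟩
    exact (r.trans hk).le ⟨_, rfl⟩
  · rw [← hk, ← r]
    rintro _ ⟨c, rfl⟩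
    simp only [MonoidHom.range_comp, ← Subgroup.map_iSup]
    refine mem_map_of_mem _ ?_
    rw [← ofAdd_toAdd c, ← Finset.univ_sum_single c.toAdd, ofAdd_sum]
    exact prod_mem fun i _ => mem_iSup_of_mem i ⟨.ofAdd (c.toAdd i), rfl⟩

end Cfsg.Agent.S3050
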