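import Cfsg.Statements.S3053
import Cfsg.Agent.Loc.Iso
import Cfsg.Agent.PLocal.Qd2
import Cfsg.Agent.Fgs1.Extra
-- import your own Cfsg.Agent.* helpers here

set_option autoImplicit false
open Cfsg

namespace Cfsg.Agent.S3053

open Cfsg CF.Loc Subgroup
open scoped commutatorElement


/-- Let p be an odd prime and G a finite group with a Sylow p-subgroup P that is extraspecial of order p³ and exponent p². Then the centre of P is strongly closed in P with respect to G: a G-conjugate of an element of Z(P) that lies in P already lies in Z(P). In particular a nontrivial central element of P is conjugate in G to no noncentral element of P. -/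
theorem result {G : Type*} [Group G] [Finite G]
    {p : ℕ} [Fact p.Prime] (hp : p ≠ 2) (P : Sylow p G) (hE : Cfsg.IsExtraspecial p ↥P)
    (hcard : Nat.card P = p ^ 3) (hexp : Monoid.exponent ↥P = p ^ 2) :
    Cfsg.IsStronglyClosed ((Subgroup.center ↥P).map (P : Subgroup G).subtype) (P : Subgroup G) := by
  have hpp : p.Prime := Fact.out
  change IsExtraspecial p (P : Subgroup G) at hE
  change Monoid.exponent (P : Subgroup G) = _ at hexp
  change IsStronglyClosed ((center (P : Subgroup G)).map _) _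
  have hq : ¬ Involves (qd p) G := by
    rw [CF.PLocal.qd_eq_qdOver]
    intro h
    obtain ⟨K, f, hf⟩ := CF.Transfer.involves_iff.1 h
    have : Finite (qdOver (ZMod p)) := Finite.of_surjective f hf
    obtain ⟨T, hT⟩ := (CF.PLocal.isSylowIn_qdSyl (F := ZMod p) p).isPGroup.exists_le_sylow
    obtain ⟨S, hS⟩ := CF.Transfer.exists_sylow_map_eq hf T
    obtain ⟨g, -, hg⟩ := (isSyl_top P).exists_cj_le (S.isPGroup'.map K.subtype) le_top
    have h1 := card_le_of_le hg
    rw [card_cj, card_subtype, hcard] at h1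
    have h2 := card_le_of_le hT
    rw [CF.PLocal.card_qdSyl, Nat.card_zmod] at h2
    have h3 : (f.domRestrict (S : Subgroup K)).range = (T : Subgroup _) := by rw [MonoidHom.domRestrict_range, hS]
    have h4 := (f.domRestrict (S : Subgroup K)).ker.card_mul_index
    rw [index_ker, h3] at h4
    have h5 : Nat.card (T : Subgroup (qdOver (ZMod p))) ≤ Nat.card (S : Subgroup K) :=
      h4 ▸ Nat.le_mul_of_pos_left _ Nat.card_pos
    have h6 : (f.domRestrict (S : Subgroup K)).ker = ⊥ := by
      rw [← card_eq_one]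
      have : Nat.card (T : Subgroup (qdOver (ZMod p))) = Nat.card (S : Subgroup K) := by omega
      rw [this] at h4
      exact (Nat.mul_left_inj Nat.card_pos.ne').1 (h4.trans (one_mul _).symm)
    have h7 : CF.PLocal.qdSyl (ZMod p) = T := eq_of_le_of_card_ge hT (by
      rw [CF.PLocal.card_qdSyl, Nat.card_zmod]; omega)
    have h8 : cj[g] ((S : Subgroup K).map K.subtype) = P := eq_of_le_of_card_ge hg (by
      rw [card_cj, card_subtype, hcard]; omega)
    have h9 : Monoid.exponent (P : Subgroup G) ∣ p ^ 1 := Monoid.exponent_dvd_of_forall_pow_eq_one fun ⟨x, hx⟩ => by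
      rw [← h8] at hx
      obtain ⟨_, ⟨s, hs, rfl⟩, rfl⟩ := hx
      have : (⟨s, hs⟩ : (S : Subgroup K)) ^ p ∈ (f.domRestrict (S : Subgroup K)).ker := by
        obtain ⟨a, b, c, e⟩ := CF.PLocal.mem_qdSyl.1 (h7.ge (hS.le (mem_map_of_mem f hs)))
        rw [MonoidHom.mem_ker, map_pow, MonoidHom.domRestrict_apply, ← e, CF.PLocal.heis_pow,
          ← CF.PLocal.heis_zero, CF.PLocal.heis_inj]
        have : ((p.choose 2 : ℕ) : ZMod p) = 0 := (ZMod.natCast_eq_zero_iff _ _).2
          (hpp.dvd_choose_self two_ne_zero (lt_of_le_of_ne hpp.two_le hp.symm))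
        simp [this]
      rw [h6, mem_bot] at this
      have : s ^ p = 1 := congrArg Subtype.val this
      apply Subtype.ext
      rw [pow_one, Subgroup.coe_pow, ← map_pow, ← map_pow, this, map_one, map_one, coe_one]
    rw [hexp, Nat.pow_dvd_pow_iff_le_right hpp.one_lt] at h9
    omega
  have hZ : (center (P : Subgroup G)).map (P : Subgroup G).subtype = (P : Subgroup G) ⊓ 𝐂((P : Subgroup G)) := by
    rw [← CF.Loc.centralizer_top, centralizer_map_subtype, ← MonoidHom.range_eq_map, range_subtype]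
  have hc : Nat.card ↥((P : Subgroup G) ⊓ 𝐂((P : Subgroup G))) = p ^ 1 := by
    rw [← hZ, card_subtype, hE.2, pow_one]
  have hU : centerThompsonOf 0 (P : Subgroup G) = (P : Subgroup G) ⊓ 𝐂((P : Subgroup G)) := by
    refine le_antisymm (le_inf (CF.PLocal.centerThompson_le _ _) (le_centralizer_comm.1 fun x hx => ?_))
      fun z hz => CF.PLocal.mem_centerThompson_of_center hz.1 hz.2 (pow_zero z)
    by_cases hxZ : x ∈ 𝐂((P : Subgroup G))
    · exact centralizer_anti (CF.PLocal.centerThompson_le _ _) hxZ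
    have hA : (P : Subgroup G) ⊓ 𝐂((P : Subgroup G)) ⊔ zpowers x ≤ P :=
      sup_le inf_le_left (zpowers_le.2 hx)
    refine le_centralizer_comm.1 (CF.PLocal.centerThompson_le_centralizer _ _)
      (CF.PLocal.le_thompson (A := (P : Subgroup G) ⊓ 𝐂((P : Subgroup G)) ⊔ zpowers x)
        ⟨hA, ⟨CF.Fgs1.isMulCommutative_sup_zpowers (isMulCommutative_of_le_centralizer
          (inf_le_right.trans (centralizer_anti inf_le_left)))
          (le_centralizer_comm.1 inf_le_right hx), fun a _ => pow_zero a⟩, fun B h1 h2 => ?_⟩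
        (mem_sup_right (mem_zpowers x)))
    have a := CF.Invol.mul_card_le_of_lt (P.isPGroup'.to_le hA)
      (lt_of_le_of_ne le_sup_left fun e => hxZ (e.ge (mem_sup_right (mem_zpowers x))).2)
    have b := CF.Invol.mul_card_le_of_lt P.isPGroup' (lt_of_le_of_ne h1 fun e =>
      CF.Fgs1.not_isMulCommutative_of_extraspecial hE (e ▸ h2.1))
    rw [hc] at a
    rw [hcard] at b
    refine le_trans (Nat.le_of_mul_le_mul_left (b.trans (le_of_eq ?_)) hpp.pos) a
    ring
  obtain ⟨T, h1, h2⟩ := CF.PLocal.zj_controlsStrongFusion hp (Or.inl rfl) hq P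
  rw [hU] at h1 h2
  rw [hZ]
  have hP : (P : Subgroup G) ≤ 𝐍((P : Subgroup G) ⊓ 𝐂((P : Subgroup G))) :=
    le_normalizer_inf le_normalizer (le_normalizer_centralizer le_normalizer)
  generalize (P : Subgroup G) ⊓ 𝐂((P : Subgroup G)) = Z at *
  have h3 : ∀ z ∈ Z, ∀ g, g * z * g⁻¹ ∈ (T : Subgroup G) → g * z * g⁻¹ ∈ Z := fun z hz g hg => by
    obtain ⟨x, hx, e⟩ := (h2 {z} (Set.singleton_subset_iff.2 (h1 hz))).2 g (by rintro _ ⟨a, rfl, rfl⟩; exact hg)
    rw [e z rfl]
    exact conj_mem_of_mem_normalizer hx hz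
  have h4 : (T : Subgroup G) ≤ 𝐍(Z) := fun t ht => mem_normalizer_of_conj_mem fun z hz =>
    h3 z hz t (mul_mem (mul_mem ht (h1 hz)) (inv_mem ht))
  obtain ⟨n, hn, e⟩ := (isSyl_of_le P hP).conj (isSyl_of_le T h4)
  refine ⟨hZ ▸ map_subtype_le _, fun z hz g hg => ?_⟩
  have h5 := h3 z hz (n * g) (by
    have := conj_mem_cj n hg
    rw [e] at this
    simpa only [mul_inv_rev, mul_assoc] using this)
  have := conj_mem_of_mem_normalizer' hn h5
  simpa [mul_assoc] using this

end Cfsg.Agent.S3053
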