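import Cfsg.Statements.S3057
import Cfsg.Agent.Loc.SPE
-- import your own Cfsg.Agent.* helpers here

set_option autoImplicit false
open Cfsg

namespace Cfsg.Agent.S3057

open Cfsg CF.Loc Subgroup
open scoped commutatorElement


/-- Let p be a prime and G a finite p-solvable group of order divisible by p, with Sylow p-subgroup P. Then the Sylow p-subgroups of G fail to be chain-connected through nontrivial intersections (equivalently, G has a strongly p-embedded subgroup) if and only if O_p(G) = 1 and P is cyclic or, for p = 2, generalized quaternion. -/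
theorem result {G : Type*} [Group G] [Finite G]
    (p : ℕ) [Fact p.Prime] (hdiv : p ∣ Nat.card G) (hsol : Cfsg.IsPSolvable p G) (P : Sylow p G) :
    ¬ Cfsg.IsSylowChainConnected p G ↔
      Cfsg.pCore p G = ⊥ ∧ (IsCyclic ↥P ∨ (p = 2 ∧ ∃ n : ℕ, Nonempty (↥P ≃* QuaternionGroup (2 ^ n)))) := by
  rw [not_chain_iff]
  have hne : (P : Subgroup G) ≠ ⊥ := (isSyl_top P).ne_bot_iff.2 (by rwa [card_top])
  constructor
  · rintro ⟨H, hH⟩
    refine ⟨spe_pCore_eq_bot hH, ?_⟩
    have h1 : ¬ pPrimeCore p G ≤ H := by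
      intro hle
      have h2 := spe_map hH (QuotientGroup.mk'_surjective (pPrimeCore p G))
        (by rw [QuotientGroup.ker_mk', sup_of_le_left hle]; exact hH.2.1)
      have h3 := CF.Solv.centralizer_pCore_le_of_isPSolvable
        (CF.Solv.isPSolvable_quotient hsol (pPrimeCore p G)) CF.Solv.pPrimeCore_quotient_pPrimeCore
      rw [spe_pCore_eq_bot h2, CF.Loc.centralizer_bot] at h3
      exact h2.2.1 (top_le_iff.1 (h3.trans bot_le))
    obtain ⟨T, hT, hT', -⟩ := spe_exists_syl hH
    obtain ⟨g, -, hg⟩ := hT'.conj (isSyl_top P)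
    have h2 : UniqP p (P : Subgroup G) := by
      refine spe_uniqP_of_not_le ((spe_iff.1 hH).2.2.cj g) P.isPGroup' (hg ▸ cj_mono g hT.le)
        (le_normalizer_of_normal' _ (pPrimeCore p G)) CF.Solv.pPrimeCore_coprime ?_
      rwa [le_cj_iff, cj_normal]
    rcases h2.cases P.isPGroup' with h | ⟨h, n, -, e⟩
    · exact Or.inl h
    · exact Or.inr ⟨h, n, e⟩
  · rintro ⟨hO, hT⟩
    refine ⟨_, UniqP.spe ?_ (isSyl_top P) hne hO⟩
    rcases hT with h | ⟨-, n, ⟨e⟩⟩
    · exact uniqP_of_isCyclic h
    · exact uniqP_of_quaternion P.isPGroup' e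

end Cfsg.Agent.S3057
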