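import Cfsg.Statements.S3064
import Cfsg.Agent.Loc.Iso
-- import your own Cfsg.Agent.* helpers here

set_option autoImplicit false
open Cfsg

namespace Cfsg.Agent.S3064

open Cfsg CF.Loc Subgroup
open scoped commutatorElement


/-- Let S be a Sylow p-subgroup of the finite group G and x an element of S such that (i) x is the only G-conjugate of x lying in S, and (ii) x centralizes every subgroup of order prime to p that it normalizes. Then x lies in the centre of G. -/
theorem result {G : Type*} [Group G] [Finite G] {p : ℕ} [Fact p.Prime]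
    (S : Sylow p G) (x : G) (hx : x ∈ S)
    (hU : ∀ g : G, g⁻¹ * x * g ∈ S → g⁻¹ * x * g = x)
    (hb : ∀ H : Subgroup G, (Nat.card H).Coprime p → (∀ h ∈ H, x * h * x⁻¹ ∈ H) → ∀ h ∈ H, x * h = h * x) :
    x ∈ Subgroup.center G := by
  refine iso_mem_center_of_centralizes (p := p) G x (iso_of_syl (isSyl_top S) hx fun g hg => ?_)
    (S.isPGroup'.to_le (zpowers_le.2 hx)) fun H h1 h2 => mem_centralizer_iff'.2 fun a ha => ?_
  · simpa using hU g⁻¹ (by rw [inv_inv]; exact hg)
  · exact (hb H h1 (fun b hb => conj_mem_of_mem_normalizer h2 hb) a ha).symm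

end Cfsg.Agent.S3064
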