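import Cfsg.Statements.S3067
import Cfsg.Agent.PLocal.CopT

set_option autoImplicit false
open Cfsg

namespace Cfsg.Agent.S3067

/-- Let G be a finite non-abelian simple group, τ an involution of G, and α a nontrivial automorphism of G whose order is coprime to the order of G. Then α moves some element of the centralizer of τ: α does not fix C_G(τ) elementwise. -/
theorem result {G : Type*} [Group G] [Finite G] [IsSimpleGroup G]
    (hG : ¬ IsMulCommutative G) (τ : G) (hτ : orderOf τ = 2) (α : MulAut G) (hα : α ≠ 1)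
    (hcop : (orderOf α).Coprime (Nat.card G)) :
    ∃ c ∈ Subgroup.centralizer ({τ} : Set G), α c ≠ c := by
  by_contra! hc
  obtain ⟨r, hr, hd⟩ := Nat.exists_prime_and_dvd (mt orderOf_eq_one_iff.1 hα)
  haveI := Fact.mk hr
  have h0 := orderOf_pos α
  set β := α ^ (orderOf α / r)
  have hβ : orderOf β = r := orderOf_pow_orderOf_div h0.ne' hd
  have hβc : ∀ c ∈ Subgroup.centralizer ({τ} : Set G), β c = c := fun c h =>
    (MulAction.stabilizer (MulAut G) c).pow_mem (hc c h) _
  let X := G ⋊[MonoidHom.id (MulAut G)] MulAut G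
  haveI : Finite X := Finite.of_equiv _ SemidirectProduct.equivProd.symm
  let i : G →* X := SemidirectProduct.inl
  have hi : Function.Injective i := SemidirectProduct.inl_injective
  let a : X := SemidirectProduct.inr β
  have ha : ∀ g, a * i g * a⁻¹ = i (β g) := fun g => by
    rw [← map_inv]; exact (SemidirectProduct.inl_aut (φ := MonoidHom.id _) β g).symm
  haveI : i.range.Normal := by rw [SemidirectProduct.range_inl_eq_ker_rightHom]; infer_instance
  have h2 : τ * τ = 1 := by rw [← pow_two, ← hτ, pow_orderOf_eq_one]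
  have hC : ∀ c ∈ i.range, c * i τ = i τ * c → a * c * a⁻¹ = c := by
    rintro _ ⟨c, rfl⟩ e
    rw [ha, hβc c (Subgroup.mem_centralizer_singleton_iff.2 (hi (by rwa [map_mul, map_mul])))]
  let K : Subgroup G := (Subgroup.centralizer {a}).comap i
  have hK : ∀ g, g ∈ K ↔ β g = g := fun g => by
    rw [Subgroup.mem_comap, Subgroup.mem_centralizer_singleton_iff, eq_comm, ← mul_inv_eq_iff_eq_mul, ha, hi.eq_iff]
  have h3 : K.normalCore = ⊥ := (IsSimpleGroup.eq_bot_or_eq_top_of_normal _ inferInstance).resolve_right fun e =>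
    hr.one_lt.ne' (hβ.symm.trans (orderOf_eq_one_iff.2 (MulEquiv.ext fun g =>
      (hK g).1 (K.normalCore_le (e ▸ Subgroup.mem_top g)))))
  refine hG ⟨⟨CF.Char.comm_of_simple_of_inZStar hτ (CF.Char.inZStar_of_isolated ⟨hτ, fun g hg => ?_⟩)⟩⟩
  have h4 : τ * (g * τ * g⁻¹) ∈ K.normalCore := fun b => by
    have := CF.CopT.main (G := i.range) (α := a) (r := r) (τ := i τ) (t := i τ) (t' := i (g * τ * g⁻¹))
      (by rw [← map_pow, ← hβ, pow_orderOf_eq_one, map_one]) (by
        rw [← Nat.card_congr (MonoidHom.ofInjective hi).toEquiv]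
        exact fun c => hr.one_lt.ne' (Nat.eq_one_of_dvd_coprimes hcop hd c)) ⟨τ, rfl⟩ (by rw [← map_mul, h2, map_one])
      hC CF.CopT.self_mem_cl ⟨i g, ⟨g, rfl⟩, by simp⟩
      ((hK _).2 (hβc _ (Subgroup.mem_centralizer_singleton_iff.2 rfl)))
      ((hK _).2 (hβc _ (Subgroup.mem_centralizer_singleton_iff.2 hg.symm))) ⟨i b⁻¹, ⟨_, rfl⟩, rfl⟩
    rw [Subgroup.mem_centralizer_singleton_iff, ← map_mul] at this
    rw [Subgroup.mem_comap, Subgroup.mem_centralizer_singleton_iff, map_mul, map_mul, map_inv]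
    rw [map_inv, inv_inv] at this
    generalize i (τ * (g * τ * g⁻¹)) = w at this ⊢
    generalize i b = v at this ⊢
    calc _ = v * (w * (v⁻¹ * a * v)) * v⁻¹ := by rw [← mul_assoc, ← mul_assoc, mul_inv_cancel_right, mul_assoc (v * w)]
      _ = _ := by rw [this]; simp only [mul_assoc, mul_inv_cancel_left]
  rw [h3, Subgroup.mem_bot] at h4
  exact mul_left_cancel (h4.trans h2.symm)

end Cfsg.Agent.S3067
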