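import Cfsg.Statements.S3068
import Cfsg.Agent.PLocal.JEb

set_option autoImplicit false
open Cfsg

namespace Cfsg.Agent.S3068

/-- Let p ≥ 7 be a prime, S a Sylow p-subgroup of the finite group G, J(S) the subgroup generated by the abelian subgroups of S of largest order and M = N_G(J(S)). Then G/O^p(G) ≅ M/O^p(M): the largest p-factor group of G is that of M (here O^p(X) is the subgroup generated by the elements of X of order prime to p). -/
theorem result {G : Type*} [Group G] [Finite G] {p : ℕ} [Fact p.Prime]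
    (hp : 7 ≤ p) (S : Sylow p G)
    [hn : (Cfsg.pResidual p G).Normal]
    [hm : (Cfsg.pResidual p ↥(Subgroup.normalizer (Cfsg.thompsonSubgroupAOf (S : Subgroup G) : Set G))).Normal] :
    Nonempty (G ⧸ Cfsg.pResidual p G ≃*
      ↥(Subgroup.normalizer (Cfsg.thompsonSubgroupAOf (S : Subgroup G) : Set G)) ⧸
        Cfsg.pResidual p ↥(Subgroup.normalizer (Cfsg.thompsonSubgroupAOf (S : Subgroup G) : Set G))) := by
  have h := CF.JE.inf_pResidual hp S
  set M := Subgroup.normalizer (Cfsg.thompsonSubgroupAOf (S : Subgroup G) : Set G) with hM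
  have hS : (S : Subgroup G) ≤ M := by
    rw [hM, CF.PLocal.thompsonSubgroupAOf_eq]
    exact Subgroup.le_normalizer.trans (CF.PLocal.normalizer_le_normalizer_thompson 0 _)
  let f : M →* G ⧸ Cfsg.pResidual p G := (QuotientGroup.mk' _).comp M.subtype
  have hf : Function.Surjective f := by
    intro y
    obtain ⟨g, rfl⟩ := QuotientGroup.mk'_surjective _ y
    obtain ⟨s, hs, x, hx, rfl⟩ := (CF.Transfer.isSylowIn_top S).exists_mul_pRes (Subgroup.mem_top g)
    rw [CF.Transfer.pRes_top] at hx
    exact ⟨⟨s, hS hs⟩, (QuotientGroup.mk'_eq_mk' _).2 ⟨x, hx, rfl⟩⟩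
  have hk : f.ker = Cfsg.pResidual p M := by
    rw [← CF.Transfer.pRes_subgroupOf, ← h]
    ext x
    simp [f, Subgroup.mem_subgroupOf]
  exact ⟨((QuotientGroup.quotientMulEquivOfEq hk).symm.trans
    (QuotientGroup.quotientKerEquivOfSurjective f hf)).symm⟩

end Cfsg.Agent.S3068
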