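import Cfsg.Statements.S3070
import Cfsg.Agent.PLocal.JEb

set_option autoImplicit false
open Cfsg

namespace Cfsg.Agent.S3070

/-- Let p ≥ 5 be a prime, S a Sylow p-subgroup of the finite group G and J(S) the subgroup generated by the abelian subgroups of S of largest order. Then G has a normal p-complement if and only if N_G(J(S))/C_G(J(S)) is a p-group (every element of N_G(J(S)) of order prime to p centralizes J(S)). -/
theorem result {G : Type*} [Group G] [Finite G] {p : ℕ} [Fact p.Prime]
    (hp : 5 ≤ p) (S : Sylow p G) :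
    Cfsg.HasNormalPComplement p G ↔
      ∀ g ∈ Subgroup.normalizer (Cfsg.thompsonSubgroupAOf (S : Subgroup G) : Set G), (orderOf g).Coprime p →
        g ∈ Subgroup.centralizer (Cfsg.thompsonSubgroupAOf (S : Subgroup G) : Set G) := by
  have hn : (S : Subgroup G) ≤ Subgroup.normalizer (Cfsg.thompsonSubgroupAOf (S : Subgroup G) : Set G) := by
    rw [CF.PLocal.thompsonSubgroupAOf_eq]
    exact Subgroup.le_normalizer.trans (CF.PLocal.normalizer_le_normalizer_thompson 0 _)
  have hle : Cfsg.thompsonSubgroupAOf (S : Subgroup G) ≤ S := Subgroup.map_subtype_le _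
  refine ⟨fun h g hg hc => ?_, fun h => CF.JE.hasNPC hp S
    (CF.Transfer.hasNPC_normalizer_of_selfCentralizing S hn (fun x hx => ?_) h)⟩
  · exact CF.Transfer.HasNPC.mem_centralizer' h (S.isPGroup'.to_le hle) hg hc
  · rw [CF.PLocal.thompsonSubgroupAOf_eq] at hx ⊢
    exact CF.PLocal.mem_thompson_of_centralizer hx.1 hx.2 (pow_zero x)

end Cfsg.Agent.S3070
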