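import Cfsg.Statements.S3071
import Cfsg.Agent.PLocal.FusSC

set_option autoImplicit false
open Cfsg

namespace Cfsg.Agent.S3071

open Subgroup CF.PLocal CF.Transfer

/-- Let p be an odd prime and S a Sylow p-subgroup of the finite group G such that, for every subgroup P with Z(S) ≤ P ≤ S, the normalizer N_G(P) has no section isomorphic to SL₂(p). Let J(S) be the subgroup generated by the abelian subgroups of S of largest order. Then two elements of S are conjugate in G if and only if they are conjugate in N_G(Z(J(S))). -/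
theorem result {G : Type*} [Group G] [Finite G] {p : ℕ} [Fact p.Prime]
    (hp : p ≠ 2) (S : Sylow p G)
    (hfree : ∀ P : Subgroup G, (S : Subgroup G) ⊓ Subgroup.centralizer ((S : Subgroup G) : Set G) ≤ P → P ≤ S →
      ¬ ∃ (H K : Subgroup G) (hK : (K.subgroupOf H).Normal), H ≤ Subgroup.normalizer (P : Set G) ∧
        Nonempty ((H ⧸ K.subgroupOf H) ≃* Matrix.SpecialLinearGroup (Fin 2) (ZMod p))) :
    ∀ x ∈ S, ∀ y ∈ S, (∃ g : G, g * x * g⁻¹ = y) ↔
      ∃ n ∈ Subgroup.normalizer (Cfsg.centerThompsonAOf (S : Subgroup G) : Set G), n * x * n⁻¹ = y := by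
  intro x hx y hy
  refine ⟨fun ⟨g, hg⟩ => ?_, fun ⟨n, _, h⟩ => ⟨n, h⟩⟩
  rw [centerThompsonAOf_eq]
  let W := centerThompsonF p 0 (dvd_zero p)
  have hR := mulRel_fusRel (S : Subgroup G) (normalizer (W.W (S : Subgroup G) : Set G))
  have hW : IsConjugacyFunctor p (fun P : Subgroup G => W.W P) := by
    have := ind_isConj (G := G) W.isCharPFunctor
    rwa [show inducedFunctor (G := G) W.toT = fun P : Subgroup G => W.W P from
      funext W.inducedFunctor_toT] at this
  have key := hR.local_global_center (isSylowIn_top S) hW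
    (fun P _ x hx => mem_centerThompson_of_center hx.1 hx.2 (pow_zero x))
    (fun A _ g hg _ => MulRel.of_mem A hg.2) fun T hT hZ h A hA g hg hgA => by
      have h1 := hT.2
      rw [top_inf_eq] at h1 h
      have h2 : ¬ Involves (qd p) (normalizer (T : Set G)) :=
        not_involves_qd_of_not_involves_SL2 fun h3 => hfree T hZ hT.1
          (exists_section_le_of_involves h3)
      obtain ⟨n, hn, c, hc, rfl⟩ := W.ctrl_of_subgroup inf_le_right inf_le_right
        (W.ctrl_of_qdFree hp (zjType_centerThompson hp (Or.inl rfl)) h2 h1.subgroupOf_top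
          (sc_self _)) A hA g hg.2 hgA
      have h2 := cj_eq_of_mem_centralizer hc
      refine hR.mul A c n (hR.cent A (hA.trans inf_le_left) c hc) ?_
      rw [h2]
      exact h A hA n hn (by rwa [cj_mul, h2] at hgA)
  obtain ⟨n, hn, h⟩ := mulRel_iff.mp (key (zpowers x) (zpowers_le.mpr hx) g (mem_top g)
    (by rw [cj_zpowers, hg]; exact zpowers_le.mpr hy))
  exact ⟨n, hn, (h x (mem_zpowers x)).trans hg⟩

end Cfsg.Agent.S3071
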