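import Cfsg.Statements.S3073
import Cfsg.Agent.Transfer.KInf3

set_option autoImplicit false
universe u
open Cfsg

namespace Cfsg.Agent.S3073

/-- For an odd prime p, every finite p-group S has a characteristic subgroup K with C_S(K) ≤ K such that, whenever S is (isomorphic to) a Sylow p-subgroup of a finite group G, G has a normal p-complement if and only if N_G(K)/C_G(K) is a p-group, i.e. every element of N_G(K) of order prime to p centralizes K (K transported into G along the isomorphism). -/
theorem result (p : ℕ) [Fact p.Prime] (hp : p ≠ 2)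
    (S : Type u) [Group S] [Finite S] (hS : IsPGroup p S) :
    ∃ K : Subgroup S, K.Characteristic ∧ Subgroup.centralizer (K : Set S) ≤ K ∧
      ∀ (G : Type u) [Group G] [Finite G] (P : Sylow p G) (e : ↥(P : Subgroup G) ≃* S),
        Cfsg.HasNormalPComplement p G ↔
          ∀ g ∈ Subgroup.normalizer (((K.comap (e : ↥(P : Subgroup G) →* S)).map (P : Subgroup G).subtype : Subgroup G) : Set G),
            (orderOf g).Coprime p →
              g ∈ Subgroup.centralizer (((K.comap (e : ↥(P : Subgroup G) →* S)).map (P : Subgroup G).subtype : Subgroup G) : Set G) := by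
  refine ⟨kInfLower S, Subgroup.characteristic_iff_map_eq.mpr CF.Transfer.map_kInfLower_equiv, ?_,
    fun G _ _ P e => ?_⟩
  · have := CF.Transfer.centralizer_kLo_le (hS.to_subgroup ⊤)
    rwa [CF.Transfer.kLo_top, top_inf_eq] at this
  have h1 : ((kInfLower S).comap (e : ↥(P : Subgroup G) →* S)).map (P : Subgroup G).subtype =
      inducedFunctor kInfLower (P : Subgroup G) := by
    rw [← CF.Transfer.map_kInfLower_equiv e]
    exact congrArg _ (Subgroup.comap_map_eq_self_of_injective e.injective _)
  rw [h1]
  have h2 : inducedFunctor kInfLower (P : Subgroup G) ≤ P := Subgroup.map_subtype_le _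
  refine ⟨fun h g hg hc => CF.Transfer.HasNPC.mem_centralizer (CF.Transfer.hasNPC_top_iff.mpr h)
    (P.isPGroup'.to_le h2) le_top (Subgroup.mem_top g) hg hc, fun h => ?_⟩
  refine CF.Transfer.isKInf_lower.hasNPC hp P (CF.Transfer.hasNPC_normalizer_of_selfCentralizing P ?_
    (CF.Transfer.isKInf_lower.centralizer_le P.isPGroup') h)
  rw [CF.Transfer.ind_kInfLower]
  exact Subgroup.le_normalizer.trans (CF.Transfer.normalizer_le_normalizer_kLo _)

end Cfsg.Agent.S3073
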