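import Cfsg.Statements.S3074
import Cfsg.Agent.PLocal.Qd2
import Cfsg.Agent.Solv.Symplectic

set_option autoImplicit false
open Cfsg

namespace Cfsg.Agent.S3074

open CF.PLocal CF.Transfer Subgroup in
theorem aux (p : ℕ) [Fact p.Prime] (hp : p ≠ 2) : Cfsg.IsExtraspecial p (qdSyl (ZMod p)) ∧
    Nat.card (qdSyl (ZMod p)) = p ^ 3 ∧ Monoid.exponent (qdSyl (ZMod p)) = p := by
  have hpow : ∀ x ∈ qdSyl (ZMod p), x ^ p = 1 := by
    intro x hx
    obtain ⟨a, b, c, rfl⟩ := mem_qdSyl.1 hx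
    have h1 : ((p.choose 2 : ℕ) : ZMod p) = 0 := (CharP.cast_eq_zero_iff (ZMod p) p _).2
      (dvd_choose_two_of_odd ((Fact.out : p.Prime).odd_of_ne_two hp))
    rw [heis_pow, h1, CharP.cast_eq_zero]
    simp [heis_zero]
  let f : Multiplicative (ZMod p) →* qdOver (ZMod p) :=
    MonoidHom.mk' (fun c => heis 0 0 c.toAdd) fun a b => by simp [heis_mul]
  have hf : Function.Injective f := fun a b h => (heis_inj.1 h).2.2
  refine ⟨CF.Solv.isExtraspecial_of_le (Z := f.range) (isSylowIn_qdSyl p).isPGroup ?_ ?_ ?_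
    (fun x hx => hpow x hx ▸ one_mem _) (fun h => ?_), by rw [card_qdSyl, Nat.card_zmod], ?_⟩
  · rw [← Nat.card_congr (MonoidHom.ofInjective hf).toEquiv, Nat.card_congr Multiplicative.toAdd,
      Nat.card_zmod]
  · ext x
    constructor
    · rintro ⟨hx, hx'⟩
      obtain ⟨a, b, c, rfl⟩ := mem_qdSyl.1 hx
      have h1 := hx' _ (heis_mem 1 0 0)
      have h2 := hx' _ (heis_mem 0 1 0)
      rw [heis_mul, heis_mul, heis_inj] at h1 h2
      simp at h1 h2
      exact ⟨Multiplicative.ofAdd c, by rw [h1.2, h2.2]; rfl⟩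
    · rintro ⟨c, rfl⟩
      refine ⟨heis_mem _ _ _, fun y hy => ?_⟩
      obtain ⟨a', b', c', rfl⟩ := mem_qdSyl.1 hy
      change _ * heis 0 0 c.toAdd = heis 0 0 c.toAdd * _
      rw [heis_mul, heis_mul, heis_inj]
      simp [add_comm]
  · rw [commutator_le]
    intro x hx y hy
    obtain ⟨a, b, c, rfl⟩ := mem_qdSyl.1 hx
    obtain ⟨a', b', c', rfl⟩ := mem_qdSyl.1 hy
    exact ⟨Multiplicative.ofAdd _, (heis_commutator ..).symm⟩
  · obtain ⟨c, hc⟩ := h ▸ heis_mem (1 : ZMod p) 0 0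
    exact zero_ne_one (heis_inj.1 hc).1
  · refine ((Fact.out : p.Prime).eq_one_or_self_of_dvd _
      (Monoid.exponent_dvd_of_forall_pow_eq_one fun x : qdSyl (ZMod p) => Subtype.ext (hpow x x.2))).resolve_left
      fun h => not_isMulCommutative_qdSyl (F := ZMod p) ?_
    have := Monoid.exp_eq_one_iff.1 h
    exact ⟨⟨fun _ _ => Subsingleton.elim _ _⟩⟩

theorem aux2 {A B : Type*} [Group A] [Group B] {p : ℕ} (e : A ≃* B) (h : IsExtraspecial p A) :
    IsExtraspecial p B := by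
  have hc : (Subgroup.center A).map (e : A →* B) = Subgroup.center B := by
    ext x
    obtain ⟨x, rfl⟩ := e.surjective x
    refine Subgroup.mem_map_equiv.trans ?_
    rw [MulEquiv.symm_apply_apply, Subgroup.mem_center_iff,
      Subgroup.mem_center_iff, e.surjective.forall]
    simp only [← map_mul, e.injective.eq_iff]
  refine ⟨⟨h.1.1.of_equiv e, by rw [← hc, ← h.1.2.1, CF.Solv.frattini_map_equiv], ?_⟩, ?_⟩
  · rw [← hc, ← h.1.2.2, commutator_def, commutator_def, Subgroup.map_commutator,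
      Subgroup.map_top_of_surjective _ e.surjective]
  · rw [← hc, Subgroup.card_map_of_injective e.injective, h.2]

/-- Let p be an odd prime. A Sylow p-subgroup of Qd(p), the split extension of an elementary abelian group of order p² by SL₂(p) acting naturally, is extraspecial of order p³ and exponent p. -/
theorem result (p : ℕ) [Fact p.Prime] (hp : p ≠ 2) (P : Sylow p ↥(Cfsg.qd p)) :
    Cfsg.IsExtraspecial p ↥P ∧ Nat.card P = p ^ 3 ∧ Monoid.exponent ↥P = p := by
  obtain ⟨g, -, hg⟩ := (CF.PLocal.isSylowIn_qdSyl (F := ZMod p) p).exists_cj_eq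
    (CF.Transfer.isSylowIn_top (G := qdOver (ZMod p)) P)
  obtain ⟨h1, h2, h3⟩ := aux p hp
  have e : CF.PLocal.qdSyl (ZMod p) ≃* P :=
    ((MulAut.conj g).subgroupMap _).trans (MulEquiv.subgroupCongr hg)
  exact ⟨aux2 e h1, by rw [← h2, Nat.card_congr e.toEquiv],
    (Monoid.exponent_eq_of_mulEquiv e).symm.trans h3⟩

end Cfsg.Agent.S3074
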