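import Cfsg.Statements.S3086
import Cfsg.Agent.Loc.PV2

set_option autoImplicit false
open Cfsg

namespace Cfsg.Agent.S3086
open Subgroup CF.BG CF.Sig SemidirectProduct Multiplicative

/-- The P(G,V)-theorem. Let p be a prime, G a finite group acting faithfully and linearly on a finite vector space V over the field with p elements, and A a nontrivial elementary abelian p-subgroup of G such that |A|·|C_V(A)| ≥ |B|·|C_V(B)| for every subgroup B of A. Then A normalizes every component (subnormal quasisimple subgroup) of G. -/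
theorem result {G V : Type*} [Group G] [Finite G] [AddCommGroup V] [Finite V] (p : ℕ) [Fact p.Prime] [Module (ZMod p) V]
    (ρ : Representation (ZMod p) G V) (hρ : Function.Injective ρ)
    (A : Subgroup G) (hA : A ≠ ⊥) (hAel : Cfsg.IsElementaryAbelian p A)
    (hP : ∀ B : Subgroup G, B ≤ A →
      Nat.card ↥B * Nat.card {v : V // ∀ b ∈ B, ρ b v = v} ≤ Nat.card ↥A * Nat.card {v : V // ∀ a ∈ A, ρ a v = v}) :
    ∀ K : Subgroup G, Cfsg.IsComponent K → A ≤ Subgroup.normalizer (K : Set G) := by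
  intro K hK
  have hp : p.Prime := Fact.out
  let φ : G →* MulAut (Multiplicative V) := MonoidHom.mk' (fun x =>
    { toFun := fun w => ofAdd (ρ x w.toAdd)
      invFun := fun w => ofAdd (ρ x⁻¹ w.toAdd)
      left_inv := fun w => congrArg ofAdd (ρ.inv_self_apply x _)
      right_inv := fun w => congrArg ofAdd (ρ.self_inv_apply x _)
      map_mul' := fun v w => congrArg ofAdd (map_add (ρ x) _ _) })
    fun x y => MulEquiv.ext fun w => congrArg ofAdd (by
      change ρ (x * y) _ = ρ x (ρ y _)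
      rw [map_mul]; rfl)
  haveI : Finite (Multiplicative V ⋊[φ] G) := Finite.of_equiv _ SemidirectProduct.equivProd.symm
  have cj : ∀ x a, (inr x * inl a * (inr x)⁻¹ : Multiplicative V ⋊[φ] G) = inl (φ x a) :=
    fun x a => by rw [inl_aut, map_inv]
  have cm : ∀ x a, (inr x * inl a : Multiplicative V ⋊[φ] G) = inl a * inr x ↔
      ρ x a.toAdd = a.toAdd := fun x a => by
    rw [← mul_inv_eq_iff_eq_mul, cj, inl_injective.eq_iff]; rfl
  have cd : ∀ B : Subgroup G, Nat.card {v : V // ∀ b ∈ B, ρ b v = v} =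
      ♯((⊤ : Subgroup _).map (inl (φ := φ)) ⊓ 𝐂 (B.map inr)) := fun B =>
    Nat.card_congr (Equiv.ofBijective (fun v => ⟨inl (ofAdd v.1), ⟨_, trivial, rfl⟩, by
      rintro _ ⟨b, hb, rfl⟩; exact (cm _ _).2 (v.2 b hb)⟩)
      ⟨fun v w e => Subtype.ext (ofAdd.injective (inl_injective (φ := φ) (congrArg Subtype.val e))), by
        rintro ⟨_, ⟨v, -, rfl⟩, h⟩
        exact ⟨⟨v.toAdd, fun b hb => (cm _ _).1 (h _ ⟨b, hb, rfl⟩)⟩, rfl⟩⟩)
  have k := comp_top_iff.2 hK
  refine (map_norm_iff (inr_injective (φ := φ))).1 (CF.PV.pgv (V := (⊤ : Subgroup _).map inl) hp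
    ((comp_map_iff inr_injective).2 k) (map_mono le_top) ((Abelem.of_isEA hp hAel).map _)
    ((Abelem.mk' hp (abel_of_forall fun x _ y _ => mul_comm x y) fun a _ => ?_).map _)
    (le_norm_iff.2 ?_) (fun h => k.ne_bot (eq_bot_of_forall fun x hx => hρ ?_)) fun B hB => ?_)
  · apply toAdd.injective
    rw [toAdd_pow, ← Nat.cast_smul_eq_nsmul (ZMod p), ZMod.natCast_self, zero_smul, toAdd_one]
  · rintro _ ⟨x, -, rfl⟩ _ ⟨a, -, rfl⟩
    exact ⟨_, trivial, (cj x a).symm⟩
  · rw [map_one]
    exact LinearMap.ext fun v => (cm x (ofAdd v)).1 (h ⟨x, hx, rfl⟩ _ ⟨_, trivial, rfl⟩).symm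
  have e : (B.comap inr).map inr = B := map_comap_eq_self (hB.trans (map_le_range _ _))
  rw [← e, ← cd, ← cd, card_map inr_injective, card_map inr_injective]
  exact hP _ ((comap_mono hB).trans (comap_map_eq_self_of_injective inr_injective A).le)

end Cfsg.Agent.S3086
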