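import Cfsg.Statements.S3144
import Cfsg.Agent.StdZ.E8F
import Cfsg.Agent.S2098
import Cfsg.Agent.S0296
import Cfsg.Agent.S0293
import Cfsg.Agent.Known.Aut.TriMain

set_option autoImplicit false
open Cfsg

namespace Cfsg.Agent.S3144

open CF.Schur CF.Comp in
theorem gens {K : Type*} [Group K] (h : HasReps K 120 O82.U0 2) (c : Nat.card K = 174182400) :
    ∃ x : ℕ → K, (∀ r ∈ O82.relsp, ev x r = 1) ∧ clo x (gensW 8) = ⊤ := by
  have : Finite K := Nat.finite_of_card_ne_zero (by omega)
  obtain ⟨_, _, D, g, h2, h3⟩ := h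
  have hc := Pc.card_top_eq c
  have mp := O82.mp (Pc.mdl_of_exact (O82.chU.exact h2 h3 (H := ⊤) (fun _ => trivial) hc.le)
    fun _ => trivial) hc
  exact ⟨_, Pc.rels_of_relNo (mp.sameW (k := 7) (by decide)) O82.rp,
    mp.clo_eq (ch := O82.Sp) hc (by decide) (by decide +kernel)⟩

/-- Let G be a finite group with no nontrivial normal subgroup of odd order and L a standard subgroup of G which is a double cover of the simple orthogonal group PΩ⁺ of dimension 8 over the field with 2 elements (the centre of L has order 2 and L modulo its centre is isomorphic to that group), and suppose the centralizer of L in G has cyclic Sylow 2-subgroups. Then L is normal in G. -/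
theorem result {G : Type*} [Group G] [Finite G] (hO : Cfsg.oddCore G = ⊥) (L : Subgroup G) (hL : Cfsg.IsStandardSubgroup L)
    {F : Type*} [Field F] [Fintype F] (hF : Fintype.card F = 2)
    (hZ : Nat.card ↥(Subgroup.center ↥L) = 2) (hLX : Nonempty ((↥L ⧸ Subgroup.center ↥L) ≃* Cfsg.POmega F (Cfsg.quadFormPlus 4 F)))
    (hR : ∀ R : Sylow 2 ↥(Subgroup.centralizer (L : Set G)), IsCyclic ↥(R : Subgroup ↥(Subgroup.centralizer (L : Set G)))) :
    L.Normal := by
  have := Cfsg.Agent.S0296.result (F := F) 4 le_rfl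
  have h := Cfsg.Agent.S0293.result hF 4 (by norm_num)
  have hc : Nat.card (Cfsg.POmega F (Cfsg.quadFormPlus 4 F)) = 174182400 := by
    simp [Finset.prod_range_succ] at h
    exact h
  obtain ⟨x, hx, ht⟩ := gens (K := Cfsg.POmega F (Cfsg.quadFormPlus 4 F)) (CF.Schur.O82.linU.hasReps_POmega (CF.Schur.Pc.exists_ok_prime Nat.prime_two hF)
    (finSumFinEquiv (m := 4) (n := 4))
    (Q := CF.Geom.qPlus 4 F) (CF.Geom.qPlus_nondegenerate 4) (by norm_num) (B := CF.Schur.O82.UB) (fun v => by
      show Cfsg.quadFormPlus 4 F v = _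
      have e : ∀ i j, CF.Comp.ent CF.Schur.O82.UB (finSumFinEquiv (m := 4) (n := 4) i) (finSumFinEquiv (m := 4) (n := 4) j) =
          (Matrix.fromBlocks 0 1 0 0 : Matrix (Fin 4 ⊕ Fin 4) (Fin 4 ⊕ Fin 4) ℕ) i j := by
        simp only [Sum.forall]
        decide +kernel
      simp [Cfsg.quadFormPlus, CF.Comp.mat, e, dotProduct, Matrix.mulVec, Matrix.one_apply])
    CF.Schur.O82.memU) hc
  refine hLX.elim fun e => @CF.StdZ.E8.normal _ _ this _ hx ht hc ?_ (Cfsg.Agent.S2098.result hF) _ _ _ hO _ hL hZ e hR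
  rw [Nat.card_congr (CF.Known.out_plus_four_two (f := 1) hF).some.toEquiv, Nat.card_prod, Nat.card_perm]
  simp [Nat.factorial]

end Cfsg.Agent.S3144
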