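import Cfsg.Statements.S3149
import Cfsg.Agent.StdZ.Ru

set_option autoImplicit false
open Cfsg

namespace Cfsg.Agent.S3149

/-- Let G be a finite group with no nontrivial normal subgroup of odd order and A a standard subgroup of G which is a double cover of the Rudvalis group (the centre of A has order 2 and A modulo its centre is isomorphic to the Rudvalis group). If the centralizer of A in G has cyclic Sylow 2-subgroups, then A is normal in G. -/
theorem result {G : Type*} [Group G] [Finite G] (hO : Cfsg.oddCore G = ⊥) (A : Subgroup G) (hA : Cfsg.IsStandardSubgroup A)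
    (hZ : Nat.card ↥(Subgroup.center ↥A) = 2) (hAX : Cfsg.Spor.IsoRu (↥A ⧸ Subgroup.center ↥A))
    (hR : ∀ R : Sylow 2 ↥(Subgroup.centralizer (A : Set G)), IsCyclic ↥(R : Subgroup ↥(Subgroup.centralizer (A : Set G)))) : A.Normal := by
  exact hAX.elim fun e => CF.StdZ.Ru.normal hO A hA hZ e hR

end Cfsg.Agent.S3149
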