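import Cfsg.Statements.S3153
import Cfsg.Agent.CT.Std

set_option autoImplicit false
open Cfsg

namespace Cfsg.Agent.S3153
open CF.BG Subgroup
open scoped commutatorElement Pointwise
open CF.Sig CF.CT

/-- Let X be a finite group and P a standard subgroup of X whose centralizer has 2-rank at most 1 and whose centre has odd order. Let S be a Sylow 2-subgroup of N_X(P) and t an involution of S centralizing P. Suppose some element g of X normalizes S, does not lie in S, has its square in S, and conjugates t into P·C_X(P). Then P commutes elementwise with the largest normal odd-order subgroup O(X) of X; consequently every t-invariant 2-component of X containing P is quasisimple. -/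
theorem result {X : Type*} [Group X] [Finite X] (P : Subgroup X) (hP : Cfsg.IsStandardSubgroup P)
    (hr : Cfsg.PRankLE 2 1 ↥(Subgroup.centralizer (P : Set X))) (hZ : Odd (Nat.card ↥(Subgroup.center ↥P)))
    (S : Sylow 2 ↥(Subgroup.normalizer (P : Set X))) (t : X) (ht : orderOf t = 2) (htS : t ∈ (S : Subgroup ↥(Subgroup.normalizer (P : Set X))).map (Subgroup.normalizer (P : Set X)).subtype)
    (htP : t ∈ Subgroup.centralizer (P : Set X))
    (g : X) (hgN : ∀ s ∈ (S : Subgroup ↥(Subgroup.normalizer (P : Set X))).map (Subgroup.normalizer (P : Set X)).subtype, g * s * g⁻¹ ∈ (S : Subgroup ↥(Subgroup.normalizer (P : Set X))).map (Subgroup.normalizer (P : Set X)).subtype)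
    (hgS : g ∉ (S : Subgroup ↥(Subgroup.normalizer (P : Set X))).map (Subgroup.normalizer (P : Set X)).subtype) (hg2 : g ^ 2 ∈ (S : Subgroup ↥(Subgroup.normalizer (P : Set X))).map (Subgroup.normalizer (P : Set X)).subtype)
    (hgt : g * t * g⁻¹ ∈ P ⊔ Subgroup.centralizer (P : Set X)) :
    ⁅P, Cfsg.oddCore X⁆ = ⊥ ∧
      ∀ L : Subgroup X, Cfsg.IsPComponent 2 L → P ≤ L → (∀ l ∈ L, t * l * t⁻¹ ∈ L) → Cfsg.IsQuasisimple ↥L := by
  have hS := syl_sylow S
  generalize (S : Subgroup ↥(𝐍 P)).map (𝐍 P).subtype = T at *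
  have r := (pRankLE_iff p2).1 hr
  have c := Std.comp hP ht htP
  have gT : g ∈ 𝐍 T := mem_norm_of_cj_le fun x hx => by
    obtain ⟨s, hs, rfl⟩ := mem_cj_iff.1 hx
    exact hgN s hs
  have n : g * t * g⁻¹ ∉ 𝐂 P := fun n => hgS (hS.mem_of_norm (Std.mem hP ht htP n) gT (by
    refine PiNat.dvd ((piNat_self p2).mul (hS.pi.elt hg2)) (orderOf_dvd_of_pow_eq_one ?_)
    rw [pow_mul, pow_orderOf_eq_one]))
  have tZ : T ≤ 𝐂₁ t := by
    obtain ⟨z, hz, o⟩ := exists_mem_orderOf_eq p2 ((hS.pi.le (inf_le_left.trans inf_le_left)).dvd_card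
      (hS.pi.nil.inf_center_ne_bot (normalIn_inf_cent hS.le) (ne_bot_of_mem ⟨htS, htP⟩ (ne_of ht))))
    have := (mem_zp2 (sq_of ht) (mem_zp_of_rank p2 r ht htP (sq_of o) hz.1.2
      (cent_le_cent1 htS hz.2.2))).resolve_left (ne_of o)
    exact le_cent1_iff.2 (this ▸ hz.2.2)
  have h1 : P ≤ 𝐂 (𝐎 {2}ᶜ ⊤) := by
    refine Std.cent_O hP ht htP ?_ n (tZ hg2)
    obtain ⟨u, hu, d, hd, e⟩ := exists_mul_r (norm_cent (le_norm_self P)) hgt
    have e2 : u ^ 2 * d ^ 2 = 1 := by
      rw [← (show Commute u d from mem_cent.1 hd u hu).mul_pow, e, sq_of ((orderOf_conj' g t).trans ht)]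
    have d2 : d ^ 2 ∈ P := by rw [← inv_eq_of_mul_eq_one_right e2]; exact inv_mem (pow_mem hu 2)
    have o : Odd (orderOf (d ^ 2)) := by
      rw [← card_map P.subtype_injective, center_map_subtype] at hZ
      exact hZ.of_dvd_nat (orderOf_dvd_card' (mem_inf.2 ⟨d2, pow_mem hd 2⟩))
    have dt : d ∈ 𝐂₁ t := (mul_mem_cancel_left (c.le hu)).1 (e ▸ tZ (hgN t htS))
    rw [← e]
    refine mul_mem (mem_sup_left hu) (mem_of_pow_pow (mem_sup_left d2) (mem_sup_right
      (mem_zp_of_rank p2 r ht htP ?_ (pow_mem hd _) (pow_mem dt _))) (Nat.coprime_two_left.2 o))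
    rw [← pow_mul, mul_comm, pow_mul, pow_orderOf_eq_one]
  refine ⟨by rw [oddCore, pPrimeCore_eq p2]; exact comm_eq_bot.2 h1, fun L hL l _ => ?_⟩
  have k := (pcomp_top_iff p2).2 hL
  rcases k.le_or_comm p2 (NormalIn.subN ⟨le_top, norm_cent (O_normal {2}ᶜ ⊤).norm⟩) with e | e
  · exact (k.comp p2 (cent_symm (e.trans (cent_anti (k.subN.O_le _))))).qs
  · refine (Comp.not_odd c ((O_pi _ _).le (le_trans ?_ e))).elim
    rw [← c.perfect]; exact commutator_mono (c.perfect.symm ▸ l) (c.perfect.symm ▸ h1)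

end Cfsg.Agent.S3153
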