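import Cfsg.Statements.S3155
import Cfsg.Agent.BG.B4

set_option autoImplicit false
open Cfsg

namespace Cfsg.Agent.S3155

open CF.BG

/-- Let B be the direct product of three cyclic groups of order 4. Then the automorphism of B inverting every element is not the square of any automorphism of B. -/
theorem result {B : Type*} [CommGroup B] [Finite B] (hB : Nonempty (B ≃* Multiplicative (ZMod 4 × ZMod 4 × ZMod 4)))
    (τ : B ≃* B) : τ.trans τ ≠ MulEquiv.inv B := by
  obtain ⟨e⟩ := hB
  intro h
  let f : (ZMod 4 × ZMod 4 × ZMod 4) →+ (ZMod 4 × ZMod 4 × ZMod 4) :=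
    MonoidHom.toAdditiveRight ((e.symm.trans (τ.trans e)).toMonoidHom)
  let g := f.toZModLinearMap 4
  have hg : g ∘ₗ g = (-1 : ZMod 4) • LinearMap.id := by
    apply LinearMap.ext
    intro v
    have := congrArg (fun t : B ≃* B => e (t (e.symm (Multiplicative.ofAdd v)))) h
    simp only [MulEquiv.trans_apply, MulEquiv.inv_apply, map_inv, MulEquiv.apply_symm_apply] at this
    simp only [LinearMap.comp_apply, LinearMap.smul_apply, LinearMap.id_apply, neg_smul, one_smul]
    show Multiplicative.toAdd (e (τ (e.symm (e (τ (e.symm (Multiplicative.ofAdd v))))))) = -v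
    rw [MulEquiv.symm_apply_apply, this]; rfl
  have hd := congrArg LinearMap.det hg
  rw [LinearMap.det_comp, LinearMap.det_smul, LinearMap.det_id] at hd
  have hr : Module.finrank (ZMod 4) (ZMod 4 × ZMod 4 × ZMod 4) = 3 := by
    have : Fact (1 < 4) := ⟨by norm_num⟩
    simp [Module.finrank_prod]
  rw [hr] at hd
  generalize LinearMap.det g = d at hd
  revert d; decide

end Cfsg.Agent.S3155
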