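import Cfsg.Statements.S3156
import Cfsg.Agent.FusB.R2b
import Cfsg.Agent.S1141

set_option autoImplicit false
open Cfsg

namespace Cfsg.Agent.S3156

open Subgroup CF.Suz CF.FusB CF.Invol

section
variable {P : Type*} [Group P] [Finite P] {ξ : MulAut P} (h : HS P ξ) (h4 : Nat.card h.V = 4)
  (hsq : ∀ g : P, g * g ∈ h.V)
include h4 hsq

theorem inv_fix (c : Nat.card P = 64) {x : MulAut P} (hx : ∀ t, x (x t) = t) : ∀ v ∈ h.V, x v = v := by
  let _ := cgQ h hsq
  have xV : ∀ v ∈ h.V, x v ∈ h.V := fun v hv => by rw [h.mem_V, ← map_mul, h.mem_V.1 hv, map_one]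
  let f : P →* P ⧸ h.V := MonoidHom.mk' (fun t => (t⁻¹ * x t : P)) fun a b => by
    simp only [map_mul, mul_inv_rev, QuotientGroup.mk_mul]
    rw [mul_comm ((b⁻¹ : P) : P ⧸ h.V), mul_mul_mul_comm]
  have mk : ∀ {t}, t ∈ f.ker ↔ t⁻¹ * x t ∈ h.V := QuotientGroup.eq_one_iff _
  have l : h.V ≤ f.ker := fun v hv => mk.2 (mul_mem (inv_mem hv) (xV v hv))
  have c1 : 16 ≤ Nat.card f.ker := by
    have a := f.ker.card_mul_index
    have b := card_le_of_le (show f.range ≤ f.ker.map (QuotientGroup.mk' h.V) from fun _ ⟨t, e⟩ =>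
      ⟨t⁻¹ * x t, mk.2 (by
        rw [map_mul, map_inv, hx, mul_inv_rev, inv_inv]; exact hsq _), e⟩)
    have d := CF.Fgs1.card_mul_relIndex l
    rw [← relIndex_ker, QuotientGroup.ker_mk'] at b
    rw [index_ker, c] at a
    rw [h4] at d
    nlinarith
  have n : ∀ g, g ∈ normalizer (h.V : Set P) := by rw [normalizer_eq_top]; exact mem_top
  obtain ⟨a, ha, a1⟩ := SetLike.not_le_iff_exists.1 fun k : f.ker ≤ h.V => by
    have := card_le_of_le k
    omega
  obtain ⟨b, hb, b1⟩ := SetLike.not_le_iff_exists.1 fun k : f.ker ≤ h.V ⊔ zpowers a => by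
    have := card_le_of_le k
    rw [card_sup_zpowers (n a) (hsq a) a1] at this
    omega
  have fx : ∀ t ∈ f.ker, x (t * t) = t * t := fun t ht => by
    rw [map_mul, ← sq_V h (mk.1 ht) t, mul_inv_cancel_left]
  have two : ∀ s ∈ f.ker, ∀ t ∈ f.ker, s ∉ h.V → t ∉ h.V → s * s ≠ t * t → ∀ v ∈ h.V, x v = v :=
    fun s hs t ht s1 t1 e v hv => by
      rcases (CF.Invol.klein_mem_iff (klein_V h h4) (hsq s) (hsq t) s1 t1 e).1 hv with rfl | rfl | rfl | rfl
      exacts [map_one x, fx s hs, fx t ht, by rw [map_mul, fx s hs, fx t ht]]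
  by_cases e : b * b = a * a
  · exact two _ (mul_mem ha hb) a ha (fun k => b1 ((mul_mem_cancel_left (mem_sup_right (mem_zpowers a))).1
      (mem_sup_left k))) a1 (no_plane h h4 hsq a1 e)
  · exact two b hb a ha (fun k => b1 (mem_sup_left k)) a1 e

theorem eq_one {ρ : MulAut P} (h3 : ∀ t, ρ (ρ (ρ t)) = t) (k : ∀ v ∈ h.V, ρ v = v) (t : P) : ρ t = t := by
  obtain ⟨v, hv⟩ : ∃ v, v = t⁻¹ * ρ t := ⟨_, rfl⟩
  have e : v * ρ v * ρ (ρ v) = 1 := by simp only [hv, map_mul, map_inv, h3]; group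
  have e1 : ∀ v, ρ v * ρ v = v * v := fun v => by rw [← map_mul, k _ (hsq v)]
  have m : v ∈ h.V := by_contra fun n => no_plane h h4 hsq n (e1 v) (by
    rw [eq_inv_of_mul_eq_one_left e, ← mul_inv_rev, e1, e1, inv_eq_of_mul_eq_one_right (hsq v)])
  rw [k v m, k v m, h.mem_V.1 m, one_mul, hv, inv_mul_eq_one] at e
  exact e.symm

end


/-- If a finite group T is isomorphic to a Sylow 2-subgroup of the projective special unitary group of dimension 3 with parameter 4 (realised over the field with 16 elements), then no subgroup of the automorphism group of T is isomorphic to the symmetric group of degree 3. -/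
theorem result {T : Type*} [Group T] [Finite T] (hT : (∃ (F : Type) (_ : Field F) (_ : Fintype F), Fintype.card F = 16 ∧ ∃ S : Sylow 2 (Cfsg.PSU 3 F 4), Nonempty (T ≃* ↥(S : Subgroup (Cfsg.PSU 3 F 4))))) (H : Subgroup (MulAut T)) : ¬ Nonempty (↥H ≃* Equiv.Perm (Fin 3)) := by
  obtain ⟨F, _, _, hF, S, ⟨e⟩⟩ := hT
  rintro ⟨f⟩
  obtain ⟨h1, h2, h3⟩ : Nat.card S = 64 ∧ Nat.card (Subgroup.center (S : Subgroup (Cfsg.PSU 3 F 4))) = 4 ∧
      IsSuzukiTwoGroup (S : Subgroup (Cfsg.PSU 3 F 4)) :=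
    Cfsg.Agent.S1141.result (F := F) (n := 2) le_rfl hF S
  obtain ⟨ξ, h⟩ := CF.Suz.exists_HS h3
  obtain ⟨hsq, hZ⟩ := h.main h3.2.2.1
  have h4 : Nat.card h.V = 4 := hZ ▸ h2
  let φ := ((MulAut.congr e).toMonoidHom.comp H.subtype).comp f.symm.toMonoidHom
  have inj : Function.Injective φ := ((MulAut.congr e).injective.comp Subtype.val_injective).comp f.symm.injective
  have ap : ∀ a b t, φ a (φ b t) = φ (a * b) t := fun a b t => by rw [map_mul]; rfl
  have a1 : ∀ t, φ 1 t = t := fun t => by rw [map_one]; rfl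
  have fx := inv_fix h h4 hsq h1 (x := φ (Equiv.swap 0 1)) fun t => by rw [ap, Equiv.swap_mul_self, a1]
  have fy := inv_fix h h4 hsq h1 (x := φ (Equiv.swap 1 2)) fun t => by rw [ap, Equiv.swap_mul_self, a1]
  have := eq_one h h4 hsq (ρ := φ (Equiv.swap 0 1 * Equiv.swap 1 2))
    (fun t => by rw [ap, ap, ← pow_three', show (Equiv.swap 0 1 * Equiv.swap 1 2 : Equiv.Perm (Fin 3)) ^ 3 = 1 by decide, a1]) fun v hv => by rw [← ap, fy v hv, fx v hv]
  exact absurd (inj ((MulEquiv.ext this).trans (map_one φ).symm)) (by decide)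

end Cfsg.Agent.S3156
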