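import Cfsg.Statements.S3162
import Cfsg.Agent.Suz.SylU
import Cfsg.Agent.S0279

set_option autoImplicit false
open Cfsg

namespace Cfsg.Agent.S3162
open Subgroup
open scoped commutatorElement Pointwise
open CF.Suz

section
variable {E : Type*} [Field E] [StarRing E] [CharP E 2]

theorem mul_of [Finite E] (A : E →+ E) (h1 : A 1 = 1) {ω : E} (hω : star ω ≠ ω)
    (P : ∀ a b c, star a * a + star b * b = star c * c ↔
      star (A a) * A a + star (A b) * A b = star (A c) * A c) (a b : E) : A (a * b) = A a * A b := by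
  have two : (2 : E) = 0 := CharTwo.two_eq_zero
  have T : ∀ a b, star a * b = star b * a ↔ star (A a) * A b = star (A b) * A a := fun a b => by
    have := P a b (a + b)
    simp only [map_add, star_add] at this
    constructor <;> intro h
    · have := this.1 (by grind); grind
    · have := this.2 (by grind); grind
  have F : ∀ b, star (A b) = A b ↔ star b = b := fun b => by
    have := T 1 b
    simp only [h1, star_one, one_mul, mul_one] at this
    rw [eq_comm, ← this, eq_comm]
  have L : ∀ l a, star l = l → star a ≠ a → ∃ m, star m = m ∧ A (l * a) = m * A a := by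
    intro l a hl ha
    have a0 : A a ≠ 0 := fun e => ha ((F a).1 (by rw [e, star_zero]))
    have := (T a (l * a)).1 (by rw [star_mul, hl]; ring)
    refine ⟨A (l * a) / A a, ?_, by field_simp⟩
    rw [star_div₀, div_eq_div_iff (star_ne_zero.2 a0) a0]
    linear_combination -this
  have S1 : ∀ l a, star l = l → star a ≠ a → A (l * a) = A l * A a := by
    intro l a hl ha
    obtain ⟨m, hm, e1⟩ := L l a hl ha
    obtain ⟨k, hk, e2⟩ := L l (1 + a) hl (by simpa)
    rw [mul_add, map_add, map_add, mul_one, h1, e1] at e2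
    have e3 := congrArg star e2
    simp only [star_add, star_mul, star_one, hm, hk, (F l).2 hl] at e3
    have : m = k := mul_right_cancel₀ (sub_ne_zero.2 (mt (F a).1 ha)) (by
      linear_combination e3 - e2)
    rw [e1]; congr 1; rw [this] at e2 ⊢; linear_combination -e2
  have S : ∀ l a, star l = l → A (l * a) = A l * A a := by
    intro l a hl
    by_cases ha : star a = a
    · have := S1 l (a + ω) hl (by simpa [ha])
      rw [mul_add, map_add, map_add, S1 l ω hl hω] at this
      linear_combination this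
    · exact S1 l a hl ha
  have N : ∀ a, A (star a * a) = star (A a) * A a := fun a => by
    obtain ⟨l, hl⟩ := exists_sq (star a * a)
    have h2 : star l = l := by
      have := congrArg star hl
      rw [star_mul, star_star, hl, star_pow] at this
      grind
    have := (P a 0 l).1 (by simp [h2, hl, sq])
    rw [hl, sq, S l l h2]
    simpa [(F l).2 h2] using this.symm
  have Q : ∀ a, A (a * a) = A a * A a := fun a => by
    have e1 := N (a + 1)
    rw [show star (a + 1) * (a + 1) = star a * a + (star a + a) + 1 by simp; ring, map_add, map_add,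
      map_add A a 1, N, h1, star_add, star_one] at e1
    have e2 := S (star a + a) a (by simp [add_comm])
    rw [add_mul, map_add, N] at e2
    linear_combination e2 + A a * e1
  by_cases ha : star a = a
  · exact S a b ha
  have a0 := sub_ne_zero.2 ha
  obtain ⟨m, hm, e⟩ : ∃ m, star m = m ∧ star (b - m * a) = b - m * a :=
    ⟨(star b - b) / (star a - a), by
      rw [star_div₀, star_sub, star_sub, star_star, star_star, ← neg_sub (star b),
        ← neg_sub (star a), neg_div_neg_eq], by
      rw [star_sub, star_mul, star_div₀, star_sub, star_sub, star_star, star_star,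
        ← neg_sub (star b), ← neg_sub (star a), neg_div_neg_eq]; field_simp; ring⟩
  have e1 := S _ a e
  have e2 := S m (a * a) hm
  have e3 := S m a hm
  rw [sub_mul, mul_assoc, map_sub, map_sub, e2, e3, Q, mul_comm b] at e1
  linear_combination e1

variable [Fintype E] {q : ℕ} (hE : Fintype.card E = q ^ 2) (hs : ∀ x : E, star x = x ^ q)

/-- The fixed field, as an additive group. -/
def Fx (E : Type*) [Field E] [StarRing E] : AddSubgroup E where
  carrier := {y | y + star y = 0}
  zero_mem' := by simp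
  add_mem' {a b} (ha : _ = _) (hb : _ = _) := by
    change _ = _; rw [star_add]; linear_combination ha + hb
  neg_mem' {a} (ha : _ = _) := by change _ = _; rw [star_neg]; linear_combination -ha

include hs in
omit [CharP E 2] [Fintype E] in
theorem st (τ : E ≃+* E) (x : E) : star (τ x) = τ (star x) := by simp [hs]

/-- The standard endomorphisms. -/
def mkH (t : (E →+ Fx E) × Eˣ × (E ≃+* E)) : UT E →* UT E :=
  MonoidHom.mk' (fun x => ⟨t.2.1 * t.2.2 x.e, star (t.2.1 : E) * t.2.1 * t.2.2 x.y + t.1 x.e, by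
    have h1 : _ = _ := (t.1 x.e).2
    have h2 := congrArg t.2.2 x.h
    simp only [map_add, map_mul, star_add, star_mul, star_star, st hs] at h2 ⊢
    linear_combination h1 + star (t.2.1 : E) * t.2.1 * h2⟩) fun x y => by
      ext <;> simp [st hs] <;> ring

/-- The standard automorphisms. -/
noncomputable def mkA (t : (E →+ Fx E) × Eˣ × (E ≃+* E)) : MulAut (UT E) :=
  MulEquiv.ofBijective (mkH hs t) (Finite.injective_iff_bijective.1 ((injective_iff_map_eq_one _).2
    fun x h => by
      have h1 : x.e = 0 := by simpa [mkH] using congrArg UT.e h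
      exact UT.eq_one (by simpa [mkH, h1] using congrArg UT.y h)))

omit [CharP E 2] in
theorem mkA_e (t) (x : UT E) : (mkA hs t x).e = t.2.1 * t.2.2 x.e := rfl
omit [CharP E 2] in
theorem mkA_y (t) (x : UT E) :
    (mkA hs t x).y = star (t.2.1 : E) * t.2.1 * t.2.2 x.y + t.1 x.e := rfl

include hE
omit [CharP E 2] in
theorem mkA_inj : Function.Injective (mkA hs) := by
  rintro ⟨f, c, τ⟩ ⟨f', c', τ'⟩ h
  have h1 : ∀ ε, c * τ ε = c' * τ' ε := fun ε => by
    obtain ⟨x, rfl⟩ := UT.exists_e hE hs ε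
    exact congrArg (fun α : MulAut (UT E) => (α x).e) h
  obtain rfl : c = c' := Units.ext (by simpa using h1 1)
  obtain rfl : τ = τ' := RingEquiv.ext fun ε => by simpa using h1 ε
  obtain rfl : f = f' := AddMonoidHom.ext fun ε => Subtype.ext (by
    obtain ⟨x, rfl⟩ := UT.exists_e hE hs ε
    exact add_left_cancel (congrArg (fun α : MulAut (UT E) => (α x).y) h))
  rfl

include hs in
omit [CharP E 2] in
theorem e_zero (α : MulAut (UT E)) (x : UT E) : (α x).e = 0 ↔ x.e = 0 := by
  rw [← UT.mem_center hE hs, ← UT.mem_center hE hs]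
  exact MulEquivClass.apply_mem_center_iff α

theorem mkA_surj : Function.Surjective (mkA hs) := fun α => by
  choose s hs' using UT.exists_e hE hs
  have wd : ∀ x y : UT E, (α x).e = (α y).e ↔ x.e = y.e := fun x y => by
    simpa [neg_add_eq_zero] using e_zero hE hs α (x⁻¹ * y)
  have w1 : ∀ x, (α (s x.e)).e = (α x).e := fun x => (wd _ _).2 (hs' _)
  obtain ⟨c, hc⟩ : ∃ c : Eˣ, (c : E) = (α (s 1)).e :=
    ⟨Units.mk0 _ (by simp [e_zero hE hs, hs']), rfl⟩
  let A : E →+ E := AddMonoidHom.mk' (fun ε => (c⁻¹ : Eˣ) * (α (s ε)).e) fun a b => by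
    rw [← mul_add, ← UT.mul_e, ← map_mul, ← w1 (s a * s b), UT.mul_e, hs', hs']
  have hA : ∀ x, (α x).e = c * A x.e := fun x => by simp [A, w1]
  have sq : ∀ x : UT E, x * x = ⟨0, star x.e * x.e, by
      simp [CharTwo.add_self_eq_zero, mul_comm]⟩ := fun x => by
    ext <;> simp [CharTwo.add_self_eq_zero]
  have sq2 : ∀ x y z : UT E, x * x * (y * y) = z * z ↔
      star x.e * x.e + star y.e * y.e = star z.e * z.e := fun x y z => by simp [sq, UT.ext_iff]
  obtain ⟨σ, h1, h2, -⟩ := CF.Geom.exists_conj hE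
  obtain ⟨ω, hω⟩ : ∃ ω : E, star ω ≠ ω := by
    by_contra! h
    exact h2 (RingHom.ext fun x => by rw [h1, ← hs, h]; rfl)
  have A1 : A 1 = 1 := by simp [A, ← hc]
  have mul := mul_of A A1 hω fun a b d => by
    have e1 := sq2 (s a) (s b) (s d)
    have e2 := sq2 (α (s a)) (α (s b)) (α (s d))
    simp only [← map_mul, EmbeddingLike.apply_eq_iff_eq, e1, hA, hs', star_mul] at e2
    have c0 : star (c : E) * c ≠ 0 := by simp
    rw [e2]
    exact ⟨fun h => mul_left_cancel₀ c0 (by linear_combination h),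
      fun h => by linear_combination star (c : E) * c * h⟩
  let τ : E ≃+* E := RingEquiv.ofBijective (⟨⟨⟨A, A1⟩, mul⟩, A.map_zero, A.map_add⟩ : E →+* E)
    (Finite.injective_iff_bijective.1 (RingHom.injective _))
  have hτ : ∀ x, (α x).e = c * τ x.e := hA
  let g : UT E → E := fun x => (α x).y - star (c : E) * c * τ x.y
  have g1 : ∀ x y, g (x * y) = g x + g y := fun x y => by
    simp only [g, map_mul, UT.mul_y, hτ, map_add, star_mul, st hs]; ring
  have g2 : ∀ x, x.e = 0 → g x = 0 := fun x h => by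
    obtain ⟨l, hl⟩ := exists_sq x.y
    have h3 := x.h
    rw [h, mul_zero, CharTwo.add_eq_zero, hl, star_pow] at h3
    have h4 : star l = l := by have two : (2 : E) = 0 := CharTwo.two_eq_zero; grind
    have : x = s l * s l := by rw [sq]; ext <;> simp [h, hs', h4, hl, pow_two]
    rw [this, g1, CharTwo.add_self_eq_zero]
  have g3 : ∀ x, g (s x.e) = g x := fun x => by
    have := g1 (s x.e) ((s x.e)⁻¹ * x)
    rw [mul_inv_cancel_left, g2 (_ * _) (by simp [hs']), add_zero] at this
    exact this.symm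
  refine ⟨⟨AddMonoidHom.mk' (fun ε => ⟨g (s ε), ?_⟩) fun a b => Subtype.ext ?_, c, τ⟩,
    MulEquiv.ext fun x => UT.ext (hτ x).symm ?_⟩
  · have h3 := (α (s ε)).h
    have h4 := congrArg τ (s ε).h
    change _ = _
    simp only [g, hτ, map_add, map_mul, star_sub, star_mul, star_star, st hs] at h3 h4 ⊢
    linear_combination h3 - star (c : E) * c * h4
  · change g _ = g _ + g _
    rw [← g1, ← g3 (_ * _), UT.mul_e, hs', hs']
  · rw [mkA_y]
    change _ + g _ = _
    rw [g3]; simp [g]

/-- The central automorphisms. -/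
def KK (E : Type*) [Field E] [StarRing E] : Subgroup (MulAut (UT E)) where
  carrier := {α | ∀ x, (α x).e = x.e}
  one_mem' _ := rfl
  mul_mem' ha hb x := (ha _).trans (hb x)
  inv_mem' {α} ha x := by rw [← ha]; simp

include hs
theorem KK_normal : (KK E).Normal := ⟨fun β hβ α x => by
  obtain ⟨t, rfl⟩ := mkA_surj hE hs α
  rw [MulAut.mul_apply, MulAut.mul_apply, mkA_e, hβ, ← mkA_e hs]
  simp⟩

theorem mem_KK {α : MulAut (UT E)} : α ∈ KK E ↔ ∃ f, mkA hs (f, 1, 1) = α := by
  refine ⟨fun h => ?_, by rintro ⟨f, rfl⟩ x; simp [mkA_e]⟩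
  obtain ⟨⟨f, c, τ⟩, rfl⟩ := mkA_surj hE hs α
  have h1 : ∀ ε, c * τ ε = ε := fun ε => by
    obtain ⟨x, rfl⟩ := UT.exists_e hE hs ε
    exact h x
  obtain rfl : c = 1 := Units.ext (by simpa using h1 1)
  obtain rfl : τ = 1 := RingEquiv.ext fun ε => by simpa using h1 ε
  exact ⟨f, rfl⟩

theorem KK_sq {α : MulAut (UT E)} (h : α ∈ KK E) : α ^ 2 = 1 := by
  obtain ⟨f, rfl⟩ := (mem_KK hE hs).1 h
  ext x <;> simp [pow_two, mkA_e, mkA_y, add_assoc, CharTwo.add_self_eq_zero]

theorem le_KK {N : Subgroup (MulAut (UT E))} (hN : N.Normal) (h2 : IsPGroup 2 N) : N ≤ KK E := by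
  have key : ∀ β ∈ N, ∀ c : E, (∀ x, (β x).e = c * x.e) → c = 1 := fun β hβ c h => by
    obtain ⟨k, hk⟩ := h2 ⟨β, hβ⟩
    have h3 : ∀ m : ℕ, ∀ x, ((β ^ m) x).e = c ^ m * x.e := fun m => by
      induction m with
      | zero => simp
      | succ m ih => intro x; rw [pow_succ', MulAut.mul_apply, h, ih, pow_succ', mul_assoc]
    obtain ⟨x, hx⟩ := UT.exists_e hE hs 1
    have h4 := h3 (2 ^ k) x
    rw [show β ^ 2 ^ k = 1 from congrArg Subtype.val hk, MulAut.one_apply, hx, mul_one] at h4
    have := sub_pow_char_pow c 1 (p := 2) k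
    rw [← h4, one_pow, sub_self, pow_eq_zero_iff (by positivity)] at this
    exact sub_eq_zero.1 this
  intro α hα
  obtain ⟨⟨f, c, τ⟩, rfl⟩ := mkA_surj hE hs α
  have h3 : ∀ d : E, τ d = d := fun d => by
    by_cases d0 : d = 0
    · simp [d0]
    have := key _ (N.mul_mem hα (hN.conj_mem _ (N.inv_mem hα) (mkA hs (0, Units.mk0 d d0, 1))))
      (τ d / d) fun x => by
        obtain ⟨x, rfl⟩ := (mkA hs (0, Units.mk0 d d0, 1)).surjective x
        obtain ⟨x, rfl⟩ : ∃ y, mkA hs (f, c, τ) y = x := (mkA hs (f, c, τ)).surjective x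
        simp [mkA_e]; field_simp
    exact (div_eq_one_iff_eq d0).1 this
  have := key _ hα c fun x => by rw [mkA_e, h3]
  intro x
  rw [mkA_e, h3, this, one_mul]

theorem card_hom {n : ℕ} (hq : q = 2 ^ n) : Nat.card (E →+ Fx E) = 2 ^ (2 * n ^ 2) := by
  let _ : Algebra (ZMod 2) E := ZMod.algebra E 2
  let _ : Module (ZMod 2) (Fx E) := AddCommGroup.zmodModule fun x => Subtype.ext (by
    simp [two_nsmul, CharTwo.add_self_eq_zero])
  have h1 : Nat.card (Fx E) = q := by
    rw [← UT.card_fib hE hs 0]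
    exact Nat.card_congr (Equiv.subtypeEquivRight fun x => by simp [Fx])
  have h2 := Module.natCard_eq_pow_finrank (K := ZMod 2) (V := Fx E)
  have h3 := Module.natCard_eq_pow_finrank (K := ZMod 2) (V := E)
  rw [Nat.card_eq_fintype_card, hE, hq, Nat.card_zmod, ← pow_mul] at h3
  rw [h1, hq, Nat.card_zmod] at h2
  rw [Nat.card_congr (AddMonoidHom.toZModLinearMapEquiv 2).toEquiv,
    Module.natCard_eq_pow_finrank (K := ZMod 2), Module.finrank_linearMap, Nat.card_zmod,
    ← Nat.pow_right_injective le_rfl h2, ← Nat.pow_right_injective le_rfl h3]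
  congr 1; ring

end

/-- Let S be a Sylow 2-subgroup of the special unitary group of dimension 3 with parameter q = 2^n (n ≥ 2; realised over the field with q² elements). Then the largest normal 2-subgroup of the automorphism group of S is elementary abelian of order 2^(2n²), and the automorphism group has order 2^(2n²) · 2n(q² − 1). -/
theorem result {S : Type*} [Group S] [Finite S] (n : ℕ) (hn : 2 ≤ n) {F : Type*} [Field F] [Fintype F] (hF : Fintype.card F = 4 ^ n)
    (P : Sylow 2 ↥(Cfsg.SU 3 F (2 ^ n))) (hS : Nonempty (S ≃* ↥(P : Subgroup ↥(Cfsg.SU 3 F (2 ^ n))))) :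
    Cfsg.IsElementaryAbelian 2 (Cfsg.pCore 2 (MulAut S)) ∧ Nat.card ↥(Cfsg.pCore 2 (MulAut S)) = 2 ^ (2 * n ^ 2) ∧
      Nat.card (MulAut S) = 2 ^ (2 * n ^ 2) * (2 * n * ((2 ^ n) ^ 2 - 1)) := by
  replace hF : Fintype.card F = (2 ^ n) ^ 2 := by rw [hF, ← pow_mul, mul_comm, pow_mul]; rfl
  obtain ⟨σ, h1, -, h2⟩ := CF.Geom.exists_conj hF
  let _ : StarRing F :=
    { star := σ, star_involutive := h2, star_mul := fun a b => by rw [map_mul, mul_comm]
      star_add := map_add σ }
  have : CharP F 2 := charP_of_card_eq_prime_pow (hF.trans (pow_mul _ _ _).symm)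
  obtain ⟨j⟩ := sylow_psu (by omega) hF h1 (P.mapSurjective (QuotientGroup.mk'_surjective _))
  obtain ⟨i⟩ := hS
  have inj : Function.Injective ((QuotientGroup.mk' (center (SU 3 F (2 ^ n)))).subgroupMap P) := by
    refine (injective_iff_map_eq_one _).2 fun x hx => ?_
    have h3 := orderOf_dvd_natCard (⟨x, (QuotientGroup.eq_one_iff _).1 (congrArg Subtype.val hx)⟩ :
      center (SU 3 F (2 ^ n)))
    obtain ⟨k, hk⟩ := (IsPGroup.iff_orderOf.1 P.isPGroup') x
    rw [Cfsg.Agent.S0279.result hF 3 le_rfl, ← orderOf_coe, orderOf_coe x, hk] at h3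
    rw [← orderOf_eq_one_iff, hk]
    exact Nat.Coprime.eq_one_of_dvd (Nat.Coprime.pow_left _ (by norm_num))
      (h3.trans (Nat.gcd_dvd_left _ _))
  let e : MulAut S ≃* MulAut (UT F) := MulAut.congr ((i.trans (MulEquiv.ofBijective _
    ⟨inj, MonoidHom.subgroupMap_surjective _ _⟩)).trans j.symm)
  have hK : pCore 2 (MulAut S) = (KK F).comap e.toMonoidHom := by
    refine le_antisymm (sSup_le fun N hN => map_le_iff_le_comap.1 (le_KK hF h1
      (hN.1.map _ e.surjective) (hN.2.map _))) (le_sSup ⟨(KK_normal hF h1).comap _, fun x =>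
        ⟨1, Subtype.ext (e.injective ?_)⟩⟩)
    simp only [coe_pow, pow_one, map_pow, coe_one, map_one]
    exact KK_sq hF h1 x.2
  have sq : ∀ a ∈ pCore 2 (MulAut S), a ^ 2 = 1 := fun a ha => e.injective (by
    simpa using KK_sq hF h1 (hK ▸ ha :))
  refine ⟨⟨⟨⟨fun a b => Subtype.ext ?_⟩⟩, sq⟩, ?_, ?_⟩
  · have h3 := sq _ (a * b).2
    have h4 := sq _ a.2
    have h5 := sq _ b.2
    rw [pow_two, mul_eq_one_iff_eq_inv] at h3 h4 h5
    rw [h3, coe_mul, mul_inv_rev, ← h4, ← h5, coe_mul]
  · rw [hK, ← card_hom hF h1 rfl]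
    refine (Nat.card_congr (Equiv.ofBijective (fun f => ⟨e.symm (mkA h1 (f, 1, 1)), by
      simpa using (mem_KK hF h1).2 ⟨f, rfl⟩⟩) ⟨fun f g h => ?_, fun x => ?_⟩)).symm
    · exact congrArg Prod.fst (mkA_inj hF h1 (e.symm.injective (congrArg Subtype.val h)))
    · obtain ⟨f, hf⟩ := (mem_KK hF h1).1 x.2
      exact ⟨f, Subtype.ext (by simp [hf])⟩
  · rw [Nat.card_congr e.toEquiv, ← Nat.card_congr (Equiv.ofBijective _
      ⟨mkA_inj hF h1, mkA_surj hF h1⟩), Nat.card_prod, Nat.card_prod, card_hom hF h1 rfl,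
      Nat.card_units, Nat.card_eq_fintype_card, hF, mul_comm (_ - 1)]
    rw [(aut_facts (hF.trans (pow_mul _ _ _).symm)).1, mul_comm n]

end Cfsg.Agent.S3162
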