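import Cfsg.Statements.S3178
import Cfsg.Agent.FusB.Small2
-- import your own Cfsg.Agent.* helpers here

set_option autoImplicit false
open Cfsg

namespace Cfsg.Agent.S3178

/-- Groups with a modular Sylow 2-subgroup have a normal 2-complement. Let S, of order 2^(n+1) with n ≥ 3, be a Sylow 2-subgroup of a finite group G, and suppose S contains an element a of order 2^n and an involution b with b a b⁻¹ = a^(2^(n-1) + 1); so S is the non-abelian 2-group with a cyclic subgroup of index 2 that is neither dihedral, semidihedral nor generalized quaternion. Then G has a normal 2-complement. -/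
theorem result {G : Type*} [Group G] [Finite G]
    (S : Sylow 2 G) (n : ℕ) (hn : 3 ≤ n) (hS : Nat.card ↥(S : Subgroup G) = 2 ^ (n + 1))
    (a b : G) (ha : a ∈ (S : Subgroup G)) (hb : b ∈ (S : Subgroup G))
    (hao : orderOf a = 2 ^ n) (hbo : orderOf b = 2) (hrel : b * a * b⁻¹ = a ^ (2 ^ (n - 1) + 1)) :
    Cfsg.HasNormalPComplement 2 G := by
  have h1 : a ^ (2 ^ (n - 1)) ≠ 1 := pow_ne_one_of_lt_orderOf (by positivity)
    (hao ▸ Nat.pow_lt_pow_right (by norm_num) (by omega))
  have h := CF.Invol.exists_mc ha hb hS hao (κ := 2 ^ (n - 1) + 1) (γ := 0) (by exact_mod_cast hrel)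
    (by rw [zpow_zero, CF.Invol.mul_self_of_orderOf hbo]) (by
      rintro ⟨k, rfl⟩
      rw [(Commute.zpow_self a k).eq, mul_inv_cancel_right, pow_succ] at hrel
      exact h1 (by simpa using hrel.symm))
  rw [show (((2 ^ (n - 1) + 1 : ℤ) : ℤ) : ZMod (2 ^ n)) = CF.Invol.zh n + 1 by
    simp [CF.Invol.zh], Int.cast_zero] at h
  refine CF.Invol.hasNPC_of_centric (CF.Fus.sylIn_top S).isSylowIn fun U hU hc g hg ho =>
    CF.FusB.modular_cent hn h hU.1 (hc ⟨h.a_mem _, fun x hx => ?_⟩) hg ho
  rcases (h.mem x).1 (hU.1 hx) with ⟨i, rfl⟩ | ⟨i, rfl⟩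
  · exact h.commute_aa _ _
  · exact (h.commute_ab.2 (by rw [add_mul, CF.Invol.zh_mul_zq hn, zero_add, one_mul])).symm

end Cfsg.Agent.S3178
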