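import Cfsg.Statements.S3179
import Cfsg.Agent.CIT.Spec
import Cfsg.Agent.Comp.MatG

set_option autoImplicit false
open Cfsg

namespace Cfsg.Agent.S3179

/-- Let X be a section of the general linear group GL(5, 2), that is, a quotient of a subgroup of it. If X is isomorphic to PSL(2, 2^n) for some n ≥ 2, to a Suzuki group over the field with 2^(2m+1) elements for some m ≥ 1, or to PSU(3, 2^n) for some n ≥ 2, then X is isomorphic to PSL(2, 4). -/
theorem result {H : Subgroup (GL (Fin 5) (ZMod 2))}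
    {K : Subgroup ↥H} [K.Normal]
    (hX : (∃ (n : ℕ) (F : Type) (_ : Field F) (_ : Fintype F), 2 ≤ n ∧ Fintype.card F = 2 ^ n ∧
        Nonempty (↥H ⧸ K ≃* Matrix.ProjectiveSpecialLinearGroup (Fin 2) F)) ∨
      (∃ (m : ℕ) (F : Type) (_ : Field F) (_ : Fintype F), 1 ≤ m ∧ Fintype.card F = 2 ^ (2 * m + 1) ∧
        Nonempty (↥H ⧸ K ≃* ↥(Cfsg.Lie.Sz F (2 ^ (m + 1))))) ∨
      (∃ (n : ℕ) (F : Type) (_ : Field F) (_ : Fintype F), 2 ≤ n ∧ Fintype.card F = 4 ^ n ∧
        Nonempty (↥H ⧸ K ≃* Cfsg.PSU 3 F (2 ^ n)))) :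
    ∃ (F : Type) (_ : Field F) (_ : Fintype F), Fintype.card F = 4 ∧
      Nonempty (↥H ⧸ K ≃* Matrix.ProjectiveSpecialLinearGroup (Fin 2) F) := by
    have hG : Nat.card (GL (Fin 5) (ZMod 2)) = 2 ^ 10 * 9765 := by
      rw [Matrix.card_GL_field]; decide +kernel
    have hd : ∀ {X : Type} [Group X], ↥H ⧸ K ≃* X → Nat.card X ∣ 2 ^ 10 * 9765 := fun e =>
      hG ▸ Nat.card_congr e.toEquiv ▸ (K.card_quotient_dvd_card.trans H.card_subgroup_dvd_card)
    have h2 : ∀ {k a : ℕ}, 2 ^ k * a ∣ 2 ^ 10 * 9765 → k ≤ 10 := fun h =>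
      (Nat.pow_dvd_pow_iff_le_right one_lt_two).1 (Nat.Coprime.dvd_of_dvd_mul_right
        (Nat.Coprime.pow_left _ (by norm_num)) (dvd_of_mul_right_dvd h))
    rcases hX with ⟨n, F, _, _, hn, hF, ⟨e⟩⟩ | ⟨m, F, _, _, hm, hF, ⟨e⟩⟩ | ⟨n, F, _, _, hn, hF, ⟨e⟩⟩
    · have h := CF.CIT.card_psl_even (by omega) hF ▸ hd e
      have := h2 h
      obtain rfl | rfl : n = 2 ∨ n = 3 := by interval_cases n <;> simp_all
      · exact ⟨F, _, _, hF, ⟨e⟩⟩
      obtain ⟨x, hx⟩ := CF.CIT.exists_dvd_orderOf (f := e.toMonoidHom.comp (QuotientGroup.mk' K))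
        (e.surjective.comp (QuotientGroup.mk'_surjective K))
        (CF.CIT.exists_order_even (by omega) hF (Or.inr rfl))
      have : Fact (Nat.Prime 3) := ⟨by norm_num⟩
      let a : GL (Fin 5) (ZMod 2) := ⟨!![0,1,0,0,0;1,1,0,0,0;0,0,1,0,0;0,0,0,1,0;0,0,0,0,1],
        !![1,1,0,0,0;1,0,0,0,0;0,0,1,0,0;0,0,0,1,0;0,0,0,0,1], by decide +kernel, by decide +kernel⟩
      let b : GL (Fin 5) (ZMod 2) := ⟨!![1,0,0,0,0;0,1,0,0,0;0,0,0,1,0;0,0,1,1,0;0,0,0,0,1],
        !![1,0,0,0,0;0,1,0,0,0;0,0,1,1,0;0,0,1,0,0;0,0,0,0,1], by decide +kernel, by decide +kernel⟩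
      have ha : a ^ 3 = 1 := by decide +kernel
      have hb : b ^ 3 = 1 := by decide +kernel
      have hab : Commute a b := by unfold Commute SemiconjBy; decide +kernel
      have hp : ∀ a : GL (Fin 5) (ZMod 2), a ^ 3 = 1 → IsPGroup 3 (Subgroup.zpowers a) := fun a h =>
        IsPGroup.of_card_dvd_pow (n := 1) (Nat.card_zpowers a ▸ orderOf_dvd_of_pow_eq_one h)
      obtain ⟨Q, hQ⟩ := ((hp a ha).to_sup_of_normal_right' (hp b hb) (Subgroup.zpowers_le.2
        (Subgroup.centralizer_le_normalizer _ (by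
          rintro _ ⟨k, rfl⟩; exact (hab.symm.zpow_left k).eq)))).exists_le_sylow
      let P := Sylow.ofCard (p := 3) (Subgroup.zpowers x.1) (by
        rw [Nat.card_zpowers, Subgroup.orderOf_coe, hx, hG]; decide +kernel)
      have : IsCyclic P := inferInstanceAs (IsCyclic (Subgroup.zpowers x.1))
      have : IsCyclic Q := isCyclic_of_surjective _ (P.equiv Q).surjective
      have h3 := hQ (Subgroup.mem_sup_left (Subgroup.mem_zpowers a))
      have h4 := hQ (Subgroup.mem_sup_right (Subgroup.mem_zpowers b))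
      classical
      have := Fintype.ofFinite Q
      refine absurd ((Finset.card_le_card (s := {1, ⟨a, h3⟩, ⟨a, h3⟩ ^ 2, ⟨b, h4⟩}) ?_).trans
        (IsCyclic.card_pow_eq_one_le (α := Q) (n := 3) (by omega))) (by
          rw [Finset.card_eq_four.2 ⟨_, _, _, _, ?_, ?_, ?_, ?_, ?_, ?_, rfl⟩]
          · omega
          all_goals simp only [Ne, Subtype.ext_iff, Subgroup.coe_pow, Subgroup.coe_one]; decide +kernel)
      simp [Finset.insert_subset_iff, Subtype.ext_iff, ha, hb, pow_right_comm a 2]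
    · have h := CF.CIT.card_sz hF ▸ hd e
      rw [mul_assoc, ← pow_mul] at h
      have := h2 h
      have : m ≤ 2 := by omega
      interval_cases m <;> simp at h
    · have h := CF.Comp.card_PSU_mul (d := 3) (q := 2 ^ n) (K := F) (by rw [hF, ← pow_mul, mul_comm, pow_mul]; rfl) (by omega)
      have h1 := (h ▸ mul_dvd_mul_left _ (mul_dvd_mul (hd e) (Nat.gcd_dvd_left _ _)) :)
      have : n ≤ 3 := by
        have := (Nat.pow_dvd_pow_iff_le_right one_lt_two).1 (Nat.Coprime.dvd_of_dvd_mul_right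
          (n := 9765 * 3) (Nat.Coprime.pow_left (n * 3) (by norm_num)) (mul_assoc _ 9765 3 ▸
          Nat.Coprime.dvd_of_dvd_mul_left (Nat.Coprime.pow_left _ (Nat.coprime_two_left.2
            ((Nat.even_pow.2 ⟨even_two, by omega⟩).add_one))) (pow_mul 2 n 3 ▸ dvd_of_mul_right_dvd h1)))
        omega
      interval_cases n <;> simp [Finset.prod_range_succ] at h1

end Cfsg.Agent.S3179
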