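import Cfsg.Statements.S3180
import Cfsg.Agent.BG.B4

set_option autoImplicit false
open Cfsg

namespace Cfsg.Agent.S3180

open CF.BG

/-- Let P be a Sylow p-subgroup of a finite group J and P₁ a subgroup of P that is weakly closed in P with respect to J. If J acts on a set and two points, each fixed by every element of P₁, lie in one J-orbit, then they lie in one orbit of the normalizer of P₁ in J. -/
theorem result {J : Type*} [Group J] [Finite J]
    {p : ℕ} [Fact p.Prime] (P : Sylow p J) (P₁ : Subgroup J) (hW : Cfsg.IsWeaklyClosed P₁ (P : Subgroup J))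
    {Ω : Type*} [MulAction J Ω] (x y : Ω) (hx : ∀ g ∈ P₁, g • x = x) (hy : ∀ g ∈ P₁, g • y = y)
    (hc : ∃ g : J, g • x = y) :
    ∃ g ∈ Subgroup.normalizer (P₁ : Set J), g • x = y := by
  obtain ⟨g, rfl⟩ := hc
  have hp : p.Prime := Fact.out
  have hP := syl_sylow_top P
  have h1 : PiGrp {p} P₁ := hP.pi.le hW.1
  have a : P₁ ≤ MulAction.stabilizer J (g • x) := fun a ha => hy a ha
  have b : cj g P₁ ≤ MulAction.stabilizer J (g • x) := by
    intro a ha
    obtain ⟨b, hb, rfl⟩ := mem_cj_iff.1 ha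
    show (g * b * g⁻¹) • g • x = g • x
    rw [mul_smul, inv_smul_smul, mul_smul, hx b hb]
  obtain ⟨Q, hQ, hle⟩ := exists_syl_le a h1
  obtain ⟨h, hh, hh2⟩ := hQ.syl_cj_le b (h1.cj g)
  obtain ⟨k, -, hk⟩ := hP.syl_cj_le le_top hQ.pi
  have e1 : cj k P₁ = P₁ := hW.2 k ((cj_mono k hle).trans hk)
  have e2 : cj (k * (h * g)) P₁ = P₁ := hW.2 _ (by
    show cj (k * (h * g)) P₁ ≤ _
    rw [← cj_cj, ← cj_cj]; exact (cj_mono k hh2).trans hk)
  refine ⟨h * g, cj_eq_self.1 ?_, ?_⟩
  · rw [← cj_cj] at e2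
    rw [← e1] at e2
    conv_lhs at e2 => rw [e1]
    exact cj_inj.1 e2
  · rw [mul_smul]; exact hh

end Cfsg.Agent.S3180
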