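import Cfsg.Statements.S3183
import Cfsg.Agent.BG.B6

set_option autoImplicit false
open Cfsg

namespace Cfsg.Agent.S3183

open CF.BG

/-- Let G be a finite group in which the intersection of any two distinct Sylow 2-subgroups is contained in the centre of some Sylow 2-subgroup, and let S be a Sylow 2-subgroup. Then for every x in S the centralizer of x in S is a Sylow 2-subgroup of the centralizer of x in G (no 2-subgroup centralizing x is larger), and for every other Sylow 2-subgroup T the intersection S ∩ T lies in both the centre of S and the centre of T. -/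
theorem result {G : Type*} [Group G] [Finite G]
    (hCI : ∀ S T : Sylow 2 G, S ≠ T → ∃ U : Sylow 2 G,
      (S : Subgroup G) ⊓ (T : Subgroup G) ≤ (Subgroup.center ↥(U : Subgroup G)).map (U : Subgroup G).subtype)
    (S : Sylow 2 G) :
    (∀ x ∈ (S : Subgroup G), ∀ P : Subgroup G, IsPGroup 2 ↥P → P ≤ Subgroup.centralizer ({x} : Set G) →
        Nat.card ↥P ≤ Nat.card ↥((S : Subgroup G) ⊓ Subgroup.centralizer ({x} : Set G))) ∧
    (∀ T : Sylow 2 G, T ≠ S →
        (S : Subgroup G) ⊓ (T : Subgroup G) ≤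
          (Subgroup.center ↥(S : Subgroup G)).map (S : Subgroup G).subtype ⊓
            (Subgroup.center ↥(T : Subgroup G)).map (T : Subgroup G).subtype) := by
  have key : ∀ S T : Sylow 2 G, S ≠ T → (S : Subgroup G) ⊓ T ≤ 𝐂 (S : Subgroup G) := by
    intro S T hST
    by_contra hn
    have hS := syl_sylow_top S
    obtain ⟨U, hU⟩ := hCI S T hST
    rw [center_map_subtype] at hU
    obtain ⟨E, ⟨V, hV, hDV, hE⟩, hmax⟩ := exists_max_card (G := G)
      (P := fun E => ∃ V, Syl 2 V ⊤ ∧ (S : Subgroup G) ⊓ T ≤ 𝐙 V ∧ E = (S : Subgroup G) ⊓ V)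
      (H := (S : Subgroup G) ⊓ U) ⟨U, syl_sylow_top U, hU, rfl⟩
    have hVS : (S : Subgroup G) ≠ V := by
      rintro rfl; exact hn (hDV.trans inf_le_right)
    obtain ⟨V', rfl⟩ := hV.exists_sylow_top
    obtain ⟨W, hW⟩ := hCI S V' (fun h => hVS (by rw [h]))
    rw [center_map_subtype, ← hE] at hW
    have hlt : E < S := by
      rw [hE]
      refine lt_of_le_of_ne inf_le_left fun h => hVS ?_
      exact hS.eq_of_le' hV (inf_eq_left.1 h)
    have h1 := hS.pi.nil.lt_inf_norm hlt
    have hWN : (W : Subgroup G) ≤ 𝐍 E := norm_of_cent' (hW.trans inf_le_right)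
    have hWs : Syl 2 (W : Subgroup G) (𝐍 E) := (syl_sylow_top W).of_le hWN le_top
    obtain ⟨n, hn1, hn2⟩ := hWs.syl_le_cj (K := (S : Subgroup G) ⊓ 𝐍 E) inf_le_right hS.pi.inf_left
    have hE2 : E ≤ 𝐙 (cj n W) := by
      have := cj_mono n hW
      rw [cj_eq_self.2 hn1, cj_inf, cj_cent] at this
      exact this
    have := hmax ((S : Subgroup G) ⊓ cj n W) ⟨cj n W, (syl_sylow_top W).cj_top n,
      (le_inf inf_le_left (hDV.trans inf_le_left) |>.trans_eq hE.symm).trans hE2, rfl⟩
    have h2 := card_lt h1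
    have h3 := card_le (le_inf inf_le_left hn2 : (S : Subgroup G) ⊓ 𝐍 E ≤ (S : Subgroup G) ⊓ cj n W)
    omega
  refine ⟨fun x hx P hP hPx => ?_, fun T hT => ?_⟩
  · have hS := syl_sylow_top S
    have hP' := piGrp_of_isPGroup Nat.prime_two hP
    have h1 : PiGrp {2} (P ⊔ Subgroup.zpowers x : Subgroup G) :=
      hP'.sup (hS.pi.elt hx).zpowers (Or.inl (norm_of_cent (by rw [cent_zpowers]; exact hPx)))
    obtain ⟨T, hT, hle⟩ := exists_syl_le le_top h1
    obtain ⟨T, rfl⟩ := hT.exists_sylow_top
    by_cases h : S = T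
    · subst h
      exact card_le (le_inf (le_sup_left.trans hle) hPx)
    · have : x ∈ 𝐂 (S : Subgroup G) := key S T h ⟨hx, hle (Subgroup.mem_sup_right (Subgroup.mem_zpowers x))⟩
      rw [inf_eq_left.2 (le_cent1_iff.2 this)]
      exact hS.card_le le_top hP'
  · rw [center_map_subtype, center_map_subtype]
    refine le_inf (le_inf inf_le_left (key S T hT.symm)) (le_inf inf_le_right ?_)
    rw [inf_comm]; exact key T S hT

end Cfsg.Agent.S3183
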