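import Cfsg.Statements.S3184
import Cfsg.Agent.Ab2.CI

set_option autoImplicit false
open Cfsg

namespace Cfsg.Agent.S3184

open CF.BG

/-- Let G be a finite group in which the intersection of any two distinct Sylow 2-subgroups is contained in the centre of some Sylow 2-subgroup, and let S be a Sylow 2-subgroup. If C is a nontrivial cyclic characteristic subgroup of S, then the involution of C is central modulo the largest normal subgroup of odd order of G: each of its conjugates has the same image in G/O(G). -/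
theorem result {G : Type*} [Group G] [Finite G]
    (hCI : ∀ S T : Sylow 2 G, S ≠ T → ∃ U : Sylow 2 G,
      (S : Subgroup G) ⊓ (T : Subgroup G) ≤ (Subgroup.center ↥(U : Subgroup G)).map (U : Subgroup G).subtype)
    (S : Sylow 2 G) (C : Subgroup ↥(S : Subgroup G)) (hC : C ≠ ⊥) (hCc : IsCyclic ↥C) (hCh : C.Characteristic)
    (c : ↥(S : Subgroup G)) (hc : c ∈ C) (hc2 : orderOf c = 2) :
    ∀ g : G, (QuotientGroup.mk (s := Cfsg.oddCore G) (g * (c : G) * g⁻¹)) =
      QuotientGroup.mk (s := Cfsg.oddCore G) (c : G) := by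
  open CF.Ab2 CF.GW Subgroup in
  haveI : Fact (Nat.Prime 2) := ⟨p2⟩
  have hS := syl_sylow_top S
  have key : ∀ n ∈ 𝐍 (S : Subgroup G), n * (c : G) * n⁻¹ = c := fun n hn => by
    have h1 := hCh.fixed ((S : Subgroup G).normalizerMonoidHom ⟨n, hn⟩)
    have h2 : (S : Subgroup G).normalizerMonoidHom ⟨n, hn⟩ c ∈ C := by
      rw [← h1] at hc; exact hc
    have := CF.Invol.eq_of_invol_of_isCyclic hCc h2 hc (by rw [MulEquiv.orderOf_eq, hc2]) hc2
    exact congrArg Subtype.val this
  have hz : (c : G) ∈ 𝐂 (S : Subgroup G) := fun s hs =>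
    mul_inv_eq_iff_eq_mul.1 (key s (le_norm_self _ hs))
  intro g
  have := zstar hS c.2 (fun g _ k => ?_) g (mem_top g)
  · rw [← pPrimeCore_eq p2, commutatorElement_def] at this
    rw [QuotientGroup.eq]
    have h4 := (inferInstance : (pPrimeCore 2 G).Normal).conj_mem _ this (c : G)⁻¹
    exact mem_of_eq h4 (by group)
  have h1 := (ci_of hCI).cent hS (hS.cj_top g) (zpowers_le.2 k) (zpowers_le.2 (by
      rw [← cj_cent, ← cj_inf]; exact conj_mem_cj.2 (mi c.2 hz)))
  obtain ⟨n, hn, e⟩ := burnside_fusion hS hz (mem_top g) (zpowers_le.1 h1)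
  rw [← e, key n hn.2]

end Cfsg.Agent.S3184
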