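import Cfsg.Statements.S3189
import Cfsg.Agent.Ab2.App2
import Cfsg.Agent.Ab2.IF2

set_option autoImplicit false
open Cfsg

namespace Cfsg.Agent.S3189

open CF.BG

open CF.Ab2 CF.GW CF.Sig Subgroup

/-- Let G be a non-abelian finite simple group whose Sylow 2-subgroup S is elementary abelian of order 8, and suppose the centralizer of every involution of G is solvable. Then the normalizer of S modulo the centralizer of S has order 7. -/
theorem result {G : Type*} [Group G] [Finite G]
    [IsSimpleGroup G] (hG : ¬ IsMulCommutative G) (S : Sylow 2 G)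
    (hS : Cfsg.IsElementaryAbelian 2 (S : Subgroup G)) (hS8 : Nat.card ↥(S : Subgroup G) = 8)
    (hC : ∀ t : G, orderOf t = 2 → Group.IsSolvable ↥(Subgroup.centralizer ({t} : Set G))) :
    (Subgroup.centralizer ((S : Subgroup G) : Set G)).relIndex (Subgroup.normalizer ((S : Subgroup G) : Set G)) = 7 := by
  haveI : Fact (Nat.Prime 2) := ⟨p2⟩
  have n := ns_top hG
  have s := syl_sylow_top S
  have e := Abelem.of_isEA p2 hS
  obtain ⟨H, h⟩ := se_of_sol n s e.abel (by rw [e.Om_eq, hS8]) hC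
  obtain ⟨F, _, _, ⟨m, m2, c⟩, ⟨i⟩⟩ := l2_of_se h s e.abel
  have h1 := card_syl_two_psl (by omega) c i s
  have h2 := card_two_psl (by omega) c
  rw [← h1, hS8, ← Nat.card_congr i.toEquiv] at h2
  obtain ⟨Q, D, w, z, r⟩ := rs_of_se h
  obtain ⟨g, -, k⟩ := r.syl.syl_conj s
  replace r := r.map (conj_inj g)
  rw [← cj_def g Q, ← k, ← cj_def g ⊤, cj_top] at r
  have h3 : 𝐂 (S : Subgroup G) = S := le_antisymm (le_of_odd_two (fun x hx k =>
    s.mem_of_norm (mem_top x) (cent_le_norm _ hx) k) fun x hx k =>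
      r.eq_one (mi (mem_top x) hx) k ▸ one_mem _) e.abel
  have h4 := r.card
  rw [e.Om_eq, hS8] at h4
  have h5 := CF.BG.card_dvd (r.zD.trans r.DQ)
  have h6 := card_mul_relIndex (le_norm_self (S : Subgroup G))
  have h7 := (𝐍 (S : Subgroup G)).card_mul_index
  have h8 := CF.Invol.card_dvd_factorial_of_simple (H := 𝐍 (S : Subgroup G)) fun k =>
    n.syl_ne s (n.eq_bot_of_sol ⟨le_top, k.ge⟩ s.pi.sol)
  change (𝐂 (S : Subgroup G)).relIndex (𝐍 (S : Subgroup G)) = 7
  rw [h3]
  rw [show ♯(zpowers _) = 7 by omega, ← h6, hS8] at h5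
  obtain ⟨j, hj⟩ := (show Nat.Coprime 7 8 by norm_num).dvd_of_dvd_mul_left h5
  rw [← h6, hS8, hj, h2] at h7
  rw [h2] at h8
  generalize (𝐍 (S : Subgroup G)).index = k at h7 h8
  have h9 : j * k = 9 := by norm_num at h7; nlinarith
  have : k ∣ 9 := Dvd.intro_left j h9
  have k9 := Nat.le_of_dvd (by norm_num) this
  interval_cases k <;> first | omega | exact absurd h8 (by decide)

end Cfsg.Agent.S3189
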