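import Cfsg.Statements.S3190
import Cfsg.Agent.BG.B10

set_option autoImplicit false
open Cfsg

namespace Cfsg.Agent.S3190

open CF.BG

/-- Let p be an odd prime and, inside a finite group, let P be a p-subgroup normalized by a Klein four-group T. Let R be a subgroup of P, normal in P and normalized by T, such that P is the product of R with the centralizer of T in P. If T centralizes the centre of P, then T centralizes the centre of R. -/
theorem result {X : Type*} [Group X] [Finite X]
    {p : ℕ} (hp : p.Prime) (hodd : Odd p) (P T R : Subgroup X) (hP : IsPGroup p ↥P) (hT : IsKleinFour ↥T)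
    (hTP : T ≤ Subgroup.normalizer (P : Set X)) (hRP : R ≤ P) (hRn : (R.subgroupOf P).Normal)
    (hTR : T ≤ Subgroup.normalizer (R : Set X)) (hfac : R ⊔ (P ⊓ Subgroup.centralizer (T : Set X)) = P)
    (hZ : T ≤ Subgroup.centralizer (((Subgroup.center ↥P).map P.subtype : Subgroup X) : Set X)) :
    T ≤ Subgroup.centralizer (((Subgroup.center ↥R).map R.subtype : Subgroup X) : Set X) := by
  rw [center_map_subtype] at hZ ⊢
  have pP : PiGrp {p} P := piGrp_of_isPGroup hp hP
  have nR : P ≤ 𝐍 R := (Subgroup.normal_subgroupOf_iff_le_normalizer hRP).1 hRn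
  have hZR : 𝐙 R ≤ P := inf_le_left.trans hRP
  have nT : T ≤ 𝐍 (𝐙 R) := hTR.trans (norm_center R)
  have hW : ⁅𝐙 R, T⁆ ≤ 𝐙 R := comm_le_left nT
  have nW : ⁅𝐙 R, T⁆ ⊴ P := by
    refine ⟨hW.trans hZR, ?_⟩
    rw [← hfac]
    refine sup_le (norm_of_cent' (hW.trans inf_le_right)) (norm_commutator ?_ ?_)
    · exact inf_le_left.trans (nR.trans (norm_center R))
    · exact inf_le_right.trans (cent_le_norm T)
  have c : (♯T).Coprime (♯(𝐙 R)) := by
    obtain ⟨k, hk⟩ := (pP.le hZR).card_pow
    rw [hk, show ♯T = 2 ^ 2 from hT.card_four]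
    exact Nat.Coprime.pow _ _ (Nat.coprime_two_left.2 hodd)
  have h0 := (center_abel R).comm_inf_cent nT c
  by_contra h
  refine pP.nil.inf_center_ne_bot nW (fun h1 => h (comm_eq_bot'.1 h1)) (eq_bot_mono h0 ?_)
  exact inf_le_inf_left _ (cent_symm hZ)

end Cfsg.Agent.S3190
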