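import Mathlib
import Cfsg.Statements.S3192
import Cfsg.Agent.Fgs1.L2cs

set_option autoImplicit false
open Cfsg

namespace Cfsg.Agent.S3192

open Subgroup CF.BG CF.Fgs1 CF.SolvStr CF.Classical
open scoped MatrixGroups

theorem center_eq_bot {G : Type*} [Group G] [IsSimpleGroup G] (h : ¬ IsMulCommutative G) :
    center G = ⊥ :=
  (IsSimpleGroup.eq_bot_or_eq_top_of_normal _ inferInstance).resolve_right fun e =>
    h ⟨⟨fun a b => mem_center_iff.1 (e.ge (mem_top b)) a⟩⟩

/-- Simple groups of conjugate type rank three. For a finite group G consider the set of indices of the centralizers of the non-central elements of G. Then G is a non-abelian simple group for which this set has exactly three members if and only if G is isomorphic to PSL(2, 2^m) for some m ≥ 2. -/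
theorem result (G : Type*) [Group G] [Finite G] :
    (IsSimpleGroup G ∧ ¬ IsMulCommutative G ∧
        Set.ncard {m : ℕ | ∃ x : G, x ∉ Subgroup.center G ∧ m = (Subgroup.centralizer ({x} : Set G)).index} = 3) ↔
      ∃ (m : ℕ) (F : Type) (_ : Field F) (_ : Fintype F), 2 ≤ m ∧ Fintype.card F = 2 ^ m ∧
        Nonempty (G ≃* Matrix.ProjectiveSpecialLinearGroup (Fin 2) F) := by
  constructor
  · rintro ⟨s, nc, h⟩
    have z := center_eq_bot nc
    obtain ⟨a, ha, e⟩ := (evL2_of_ncard z (fun s => nc (by
      have : Group.IsSolvable (⊤ : Subgroup G) := s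
      have : Group.IsSolvable G :=
        solvable_of_surjective (f := (⊤ : Subgroup G).subtype) fun g => ⟨⟨g, trivial⟩, rfl⟩
      exact ⟨⟨IsSimpleGroup.comm_iff_isSolvable.2 this⟩⟩)) (ncard_ind z ▸ h.le)).galois
    let := Fintype.ofFinite (GaloisField 2 a)
    exact ⟨a, _, _, this, ha, by
      rw [← Nat.card_eq_fintype_card, GaloisField.card 2 a (by omega)], e⟩
  · rintro ⟨m, F, _, _, hm, hF, ⟨e⟩⟩
    have h2 : (2 : F) = 0 := by
      have := FiniteField.cast_card_eq_zero F
      rw [hF, Nat.cast_pow] at this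
      exact pow_eq_zero_iff (by omega) |>.1 this
    rw [← Nat.card_eq_fintype_card] at hF
    have h4 : 4 ≤ Nat.card F := hF ▸ Nat.pow_le_pow_right two_pos hm
    have := isSimpleGroup_PSL2 h4
    have := e.isSimpleGroup
    have c := (cos_congr e).trans (cos_even h2 h4)
    have nc : ¬ IsMulCommutative G := fun k => by
      obtain ⟨x, -, ex⟩ := c.ge (Or.inl rfl)
      obtain ⟨y, -, ey⟩ := c.ge (Or.inr (Or.inr rfl))
      rw [cent1_eq_top.2 (mem_center_iff.2 fun g => k.1.1 _ _)] at ex ey
      omega
    refine ⟨this, nc, (ncard_ind (center_eq_bot nc)).trans ?_⟩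
    rw [c]
    exact Set.ncard_eq_three.2 ⟨_, _, _, by omega, by omega, by omega, rfl⟩

end Cfsg.Agent.S3192
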