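import Cfsg.Statements.S3195
import Cfsg.Agent.Loc.Sidki

set_option autoImplicit false
open Cfsg

namespace Cfsg.Agent.S3195
open CF CF.Loc CF.Invol Subgroup

theorem inv_sq {G : Type*} [Group G] {a u : G} (h : a * u * a⁻¹ = u⁻¹) :
    u⁻¹ * a * u⁻¹⁻¹ = a * (u * u) := by
  have : a * u = u⁻¹ * a := by rw [← h]; group
  rw [inv_inv, ← this, mul_assoc]

theorem not_comm {G : Type*} [Group G] {a u : G} (hu : Odd (orderOf u)) (hu1 : u ≠ 1)
    (h : a * u * a⁻¹ = u⁻¹) : ¬ Commute u a := by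
  intro hc
  apply hu1
  apply eq_one_of_odd_of_eq_inv hu
  rw [← h, ← hc.eq]; group

theorem core {G : Type*} [Group G] {a b u v : G} (hab : Commute a b)
    (hu : Odd (orderOf u)) (hu1 : u ≠ 1) (hv : Odd (orderOf v)) (hv1 : v ≠ 1)
    (hau : a * u * a⁻¹ = u⁻¹) (hbu : Commute u b) (hbv : b * v * b⁻¹ = v⁻¹) (hav : Commute v a)
    (H : ∀ d, (d = a ∨ d = a * b) → ∀ g k : G, Commute (k * a * k⁻¹) (g * d * g⁻¹) ∨
      Commute (k * b * k⁻¹) (g * d * g⁻¹) ∨ Commute (k * (a * b) * k⁻¹) (g * d * g⁻¹)) : False := by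
  have hcv : (a * b) * v * (a * b)⁻¹ = v⁻¹ := by
    calc (a * b) * v * (a * b)⁻¹ = a * (b * v * b⁻¹) * a⁻¹ := by group
      _ = v⁻¹ := by rw [hbv, ← hav.inv_left.eq]; group
  have hcu : (a * b) * u * (a * b)⁻¹ = u⁻¹ := by
    calc (a * b) * u * (a * b)⁻¹ = a * (b * u * b⁻¹) * a⁻¹ := by group
      _ = u⁻¹ := by rw [← hbu.eq, mul_assoc u, mul_inv_cancel, mul_one, hau]
  have hd : Commute b (a * (u * u)) := hab.symm.mul_right (hbu.symm.mul_right hbu.symm)
  have nd : ¬ Commute a (a * (u * u)) := fun hc => by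
    have : Commute (u * u) a := by
      have := (Commute.refl a).inv_right.mul_right hc
      rw [inv_mul_cancel_left] at this; exact this.symm
    exact not_comm hu hu1 hau (commute_of_commute_mul_self hu this)
  -- from `w` commuting with `a u²` and `a` we get `w` commuting with `u`
  have key : ∀ w, Commute w a → Commute w (a * (u * u)) → Commute u w := fun w h1 h2 => by
    have := h1.inv_right.mul_right h2
    rw [inv_mul_cancel_left] at this
    exact commute_of_commute_mul_self hu this.symm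
  have hv2 : Odd (orderOf (v * v)) := by rw [← sq]; exact odd_orderOf_pow hv 2
  have hav2 : Commute (v * v) a := hav.mul_left hav
  have hbv2 : b * (v * v) * b⁻¹ = (v * v)⁻¹ := by
    calc b * (v * v) * b⁻¹ = (b * v * b⁻¹) * (b * v * b⁻¹) := by group
      _ = _ := by rw [hbv]; group
  have hcv2 : (a * b) * (v * v) * (a * b)⁻¹ = (v * v)⁻¹ := by
    calc (a * b) * (v * v) * (a * b)⁻¹ = ((a * b) * v * (a * b)⁻¹) * ((a * b) * v * (a * b)⁻¹) := by
          group
      _ = _ := by rw [hcv]; group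
  have huv : Commute u v := by
    have e1 : v⁻¹ * a * v⁻¹⁻¹ = a := by rw [hav.inv_left.eq]; group
    have e2 : (v * v)⁻¹ * a * (v * v)⁻¹⁻¹ = a := by rw [hav2.inv_left.eq]; group
    have h1 := H a (Or.inl rfl) u⁻¹ v⁻¹
    have h2 := H a (Or.inl rfl) u⁻¹ (v * v)⁻¹
    rw [inv_sq hau, e1, inv_sq hbv, inv_sq hcv] at h1
    rw [inv_sq hau, e2, inv_sq hbv2, inv_sq hcv2] at h2
    rcases h1 with h1 | h1 | h1
    · exact absurd h1 nd
    · have := hd.inv_left.mul_left h1
      rw [inv_mul_cancel_left] at this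
      exact (commute_of_commute_mul_self hv (key _ hav2 this).symm).symm
    rcases h2 with h2 | h2 | h2
    · exact absurd h2 nd
    · have := hd.inv_left.mul_left h2
      rw [inv_mul_cancel_left] at this
      exact (commute_of_commute_mul_self hv (commute_of_commute_mul_self hv2
        (key _ (hav2.mul_left hav2) this).symm)).symm
    · have := h1.inv_left.mul_left h2
      rw [show (a * b * (v * v))⁻¹ * (a * b * (v * v * (v * v))) = v * v by
        rw [← mul_assoc (a * b) (v * v), inv_mul_cancel_left]] at this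
      exact (commute_of_commute_mul_self hv (key _ hav2 this).symm).symm
  have huvo : Odd (orderOf (u * v)) := odd_orderOf_mul huv hu hv
  have hc : (a * b) * (u * v) * (a * b)⁻¹ = (u * v)⁻¹ := by
    calc (a * b) * (u * v) * (a * b)⁻¹ = ((a * b) * u * (a * b)⁻¹) * ((a * b) * v * (a * b)⁻¹) := by
          group
      _ = _ := by rw [hcu, hcv, huv.eq]; group
  have h3 := H (a * b) (Or.inr rfl) (u * v)⁻¹ 1
  rw [inv_sq hc] at h3
  simp only [one_mul, inv_one, mul_one] at h3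
  have fin : ∀ e, Commute e (a * b) → Commute e (a * b * (u * v * (u * v))) → Commute (u * v) e :=
    fun e h1 h2 => by
      have := h1.inv_right.mul_right h2
      rw [inv_mul_cancel_left] at this
      exact commute_of_commute_mul_self huvo this.symm
  rcases h3 with h3 | h3 | h3
  · have := (fin a ((Commute.refl a).mul_right hab) h3).mul_left hav.inv_left
    rw [mul_inv_cancel_right] at this
    exact not_comm hu hu1 hau this
  · have := hbu.inv_left.mul_left (fin b (hab.symm.mul_right (Commute.refl b)) h3)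
    rw [inv_mul_cancel_left] at this
    exact not_comm hv hv1 hbv this
  · have h4 := fin _ (Commute.refl _) h3
    by_cases h1 : u * v = 1
    · have h6 : u = v⁻¹ := eq_inv_of_mul_eq_one_left h1
      have h5 : Commute v b := by have := hbu.inv_left; rwa [h6, inv_inv] at this
      exact not_comm hv hv1 hbv h5
    · exact not_comm huvo h1 hc h4

theorem result {G : Type*} [Group G] [Finite G]
    (A : Subgroup G) (hA : IsKleinFour ↥A)
    (h : ∀ a ∈ A, a ≠ 1 → ∀ g : G, A ⊓ Subgroup.centralizer ({g * a * g⁻¹} : Set G) ≠ ⊥) :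
    A ⊓ Cfsg.pCore 2 G ≠ ⊥ := by
  intro hbot
  have hsq : ∀ a ∈ A, a * a = 1 := fun a ha => by
    have := IsKleinFour.mul_self (⟨a, ha⟩ : A)
    exact congrArg Subtype.val this
  have hcomm : ∀ a ∈ A, ∀ b ∈ A, Commute a b := fun a ha b hb => by
    have h1 := hsq _ (A.mul_mem ha hb)
    have h2 := hsq a ha
    have h3 := hsq b hb
    calc a * b = a * (a * b * (a * b)) * b := by rw [h1]; group
      _ = (a * a) * (b * a) * (b * b) := by group
      _ = b * a := by rw [h2, h3]; group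
  have hcases : ∀ a ∈ A, ∀ b ∈ A, a ≠ 1 → b ≠ 1 → a ≠ b → ∀ e ∈ A, e ≠ 1 →
      e = a ∨ e = b ∨ e = a * b := fun a ha b hb a1 b1 ab e he e1 => by
    by_contra hn
    push Not at hn
    have := IsKleinFour.eq_mul_of_ne_all (x := (⟨a, ha⟩ : A)) (y := ⟨b, hb⟩) (z := ⟨e, he⟩)
      (fun h => a1 (congrArg Subtype.val h)) (fun h => b1 (congrArg Subtype.val h))
      (fun h => ab (congrArg Subtype.val h)) (fun h => e1 (congrArg Subtype.val h))
      (fun h => hn.1 (congrArg Subtype.val h)) (fun h => hn.2.1 (congrArg Subtype.val h))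
    exact hn.2.2 (congrArg Subtype.val this)
  have H : ∀ a ∈ A, a ≠ 1 → ∀ g k : G, ∃ e ∈ A, e ≠ 1 ∧ Commute (k * e * k⁻¹) (g * a * g⁻¹) :=
    fun a ha a1 g k => by
      obtain ⟨⟨e, he⟩, e1⟩ := (Subgroup.ne_bot_iff_exists_ne_one).1 (h a ha a1 (k⁻¹ * g))
      refine ⟨e, he.1, fun h => e1 (Subtype.ext h), ?_⟩
      have := (mem_centralizer_singleton_iff.1 he.2)
      calc k * e * k⁻¹ * (g * a * g⁻¹) = k * (e * (k⁻¹ * g * a * (k⁻¹ * g)⁻¹)) * k⁻¹ := by group
        _ = _ := by rw [this]; group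
  have hinv : ∀ a ∈ A, a ≠ 1 → ∃ u : G, u ≠ 1 ∧ Odd (orderOf u) ∧ a * u * a⁻¹ = u⁻¹ ∧
      ∃ b ∈ A, b ≠ 1 ∧ a ≠ b ∧ Commute u b := fun a ha a1 => by
    obtain ⟨u, -, u1, uo, hu⟩ := exists_odd_inverted_of_not_mem (L := ⊤) (hsq a ha) (mem_top a)
      (fun hm => a1 (by
        rw [pCoreOf_top] at hm
        exact (mem_bot).1 (hbot ▸ (⟨ha, hm⟩ : a ∈ A ⊓ pCore 2 G))))
    refine ⟨u, u1, uo, hu, ?_⟩
    obtain ⟨e, he, e1, hc⟩ := H a ha a1 u⁻¹ 1
    rw [inv_sq hu] at hc
    simp only [one_mul, inv_one, mul_one] at hc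
    have := (hcomm e he a ha).inv_right.mul_right hc
    rw [inv_mul_cancel_left] at this
    have h2 := commute_of_commute_mul_self uo this.symm
    exact ⟨e, he, e1, fun hae => not_comm uo u1 hu (hae ▸ h2), h2⟩
  have HH : ∀ a ∈ A, ∀ b ∈ A, a ≠ 1 → b ≠ 1 → a ≠ b → ∀ d, (d = a ∨ d = a * b) → ∀ g k : G,
      Commute (k * a * k⁻¹) (g * d * g⁻¹) ∨
      Commute (k * b * k⁻¹) (g * d * g⁻¹) ∨ Commute (k * (a * b) * k⁻¹) (g * d * g⁻¹) :=
    fun a ha b hb a1 b1 ab d hd g k => by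
      have hab1 : a * b ≠ 1 := fun h1 => ab (by
        rw [← mul_one a, ← hsq b hb, ← mul_assoc, h1, one_mul])
      obtain ⟨e, he, e1, hc⟩ := H d (by rcases hd with rfl | rfl; exacts [ha, A.mul_mem ha hb])
        (by rcases hd with rfl | rfl; exacts [a1, hab1]) g k
      rcases hcases a ha b hb a1 b1 ab e he e1 with rfl | rfl | rfl
      exacts [Or.inl hc, Or.inr (Or.inl hc), Or.inr (Or.inr hc)]
  have : Nontrivial A := Finite.one_lt_card_iff_nontrivial.1 (by rw [hA.card_four]; norm_num)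
  obtain ⟨⟨a, ha⟩, a1⟩ := exists_ne (1 : A)
  have a1 : a ≠ 1 := fun h => a1 (Subtype.ext h)
  obtain ⟨u, u1, uo, hu, b, hb, b1, ab, hub⟩ := hinv a ha a1
  obtain ⟨v, v1, vo, hv, c, hc, c1, bc, hvc⟩ := hinv b hb b1
  rcases hcases a ha b hb a1 b1 ab c hc c1 with rfl | rfl | rfl
  · exact core (hcomm _ hc _ hb) uo u1 vo v1 hu hub hv hvc (HH _ hc _ hb c1 b1 ab)
  · exact bc rfl
  · refine core (hcomm _ hc _ hb) uo u1 vo v1 ?_ hub hv hvc (HH _ hc _ hb c1 b1 bc.symm)
    calc (a * b) * u * (a * b)⁻¹ = a * (b * u * b⁻¹) * a⁻¹ := by group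
      _ = u⁻¹ := by rw [← hub.eq, mul_assoc u, mul_inv_cancel, mul_one, hu]

end Cfsg.Agent.S3195
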