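import Cfsg.Statements.S3196
import Cfsg.Agent.Invol.BaerSuzuki

set_option autoImplicit false
open Cfsg

namespace Cfsg.Agent.S3196
open CF CF.Invol Subgroup

variable {G : Type*} [Group G]

/-- element-level hypotheses -/
structure Hyp (p : ℕ) (D : Set G) : Prop where
  ord : ∀ x ∈ D, orderOf x = p
  conj : ∀ g, ∀ x ∈ D, g * x * g⁻¹ ∈ D
  pow : ∀ x ∈ D, ∀ y ∈ zpowers x, y ≠ 1 → y ∈ D
  mul : ∀ x ∈ D, ∀ y ∈ D, Commute x y → x * y ≠ 1 → x * y ∈ D
  line : ∀ x ∈ D, ∀ y ∈ D, Commute x y → y ∉ zpowers x → ∀ w ∈ D, ∃ z ∈ D,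
    (∃ i j : ℤ, z = x ^ i * y ^ j) ∧ Commute z w
  ex : ∃ x ∈ D, ∃ y ∈ D, Commute x y ∧ y ∉ zpowers x

theorem comm_of_mem {x y w : G} (h : y ∈ zpowers x) (hc : Commute x w) : Commute y w := by
  obtain ⟨k, rfl⟩ := h; exact hc.zpow_left k

namespace Hyp
variable [Finite G] {p : ℕ} [hp : Fact p.Prime] {D : Set G} (h : Hyp p D)
include h

theorem ne_one {x : G} (hx : x ∈ D) : x ≠ 1 := fun h1 => by
  have := h.ord x hx
  rw [h1, orderOf_one] at this
  exact hp.out.one_lt.ne this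

theorem symm {x y : G} (hx : x ∈ D) (hy : y ∈ zpowers x) (h1 : y ≠ 1) : x ∈ zpowers y := by
  have h2 : zpowers y = zpowers x := by
    apply eq_of_le_of_card_ge ((zpowers_le).2 hy)
    rw [Nat.card_zpowers, Nat.card_zpowers, h.ord x hx, h.ord y (h.pow x hx y hy h1)]
  rw [h2]; exact mem_zpowers x

theorem back {x y z : G} (hy : y ∈ D) (hxy : Commute x y) (hz : ∃ i j : ℤ, z = x ^ i * y ^ j)
    (hzx : z ∉ zpowers x) : ∃ a b : ℤ, y = z ^ b * x ^ a := by
  obtain ⟨i, j, rfl⟩ := hz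
  have h1 : y ^ j ≠ 1 := fun h1 => hzx (by rw [h1, mul_one]; exact zpow_mem_zpowers _ _)
  obtain ⟨k, hk⟩ := h.symm hy (zpow_mem_zpowers y j) h1
  refine ⟨-(i * k), k, ?_⟩
  have hk' : (y ^ j) ^ k = y := hk
  rw [(hxy.zpow_zpow i j).mul_zpow, hk', ← zpow_mul, (hxy.zpow_left _).eq, mul_assoc, ← zpow_add,
    add_neg_cancel, zpow_zero, mul_one]

theorem back' {x y z w : G} (hy : y ∈ D) (hxy : Commute x y) (hz : ∃ i j : ℤ, z = x ^ i * y ^ j)
    (hzx : z ∉ zpowers x) (h1 : Commute x w) (h2 : Commute z w) : Commute y w := by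
  obtain ⟨a, b, rfl⟩ := h.back hy hxy hz hzx
  exact (h2.zpow_left b).mul_left (h1.zpow_left a)

omit h [Finite G] hp in
theorem on_line {x y z w : G} (hz : ∃ i j : ℤ, z = x ^ i * y ^ j) (h1 : Commute x w)
    (h2 : Commute y w) : Commute z w := by
  obtain ⟨i, j, rfl⟩ := hz
  exact (h1.zpow_left i).mul_left (h2.zpow_left j)

variable (nd : ∀ v ∈ D, ∃ w ∈ D, ¬ Commute v w)
include nd

theorem lemA {P X : G} (hP : P ∈ D) (hX : X ∈ D) (hPX : Commute P X) (hne : X ∉ zpowers P) :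
    ∃ R ∈ D, Commute R P ∧ ¬ Commute R X := by
  by_contra hn
  push Not at hn
  obtain ⟨R, hR, hXR⟩ := nd X hX
  have hRP : ¬ Commute R P := fun hc => hXR (hn R hR hc).symm
  obtain ⟨Z, hZ, hZl, hZR⟩ := h.line P hP X hX hPX hne R hR
  obtain ⟨T, hT, hZT⟩ := nd Z hZ
  have hZX : Commute Z X := on_line hZl hPX (Commute.refl X)
  have hZP : Commute Z P := on_line hZl (Commute.refl P) hPX.symm
  have hRZ : R ∉ zpowers Z := fun hm => hXR (comm_of_mem hm hZX).symm
  obtain ⟨R', hR', hR'l, hR'T⟩ := h.line Z hZ R hR hZR hRZ T hT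
  have hR'Z : R' ∉ zpowers Z := fun hm => hZT (comm_of_mem (h.symm hZ hm (h.ne_one hR')) hR'T)
  have hR'P : ¬ Commute R' P := fun hc => hRP (h.back' hR hZR hR'l hR'Z hZP hc)
  have hR'Z' : Commute R' Z := on_line hR'l (Commute.refl Z) hZR.symm
  have hTR' : T ∉ zpowers R' := fun hm => hZT (comm_of_mem hm hR'Z').symm
  obtain ⟨V, hV, hVl, hVP⟩ := h.line R' hR' T hT hR'T hTR' P hP
  have hVZ : Commute V Z := (on_line hZl hVP.symm (hn V hV hVP).symm).symm
  by_cases hm : V ∈ zpowers R'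
  · exact hR'P (comm_of_mem (h.symm hR' hm (h.ne_one hV)) hVP)
  · exact hZT (h.back' hT hR'T hVl hm hR'Z' hVZ).symm

theorem lemB {P Y : G} (hP : P ∈ D) (hY : Y ∈ D) : Commute P (Y * P * Y⁻¹) := by
  by_cases hPY : Commute P Y
  · rw [← hPY.eq, mul_inv_cancel_right]
  obtain ⟨X1, hX1, hYX1, hne⟩ : ∃ X1 ∈ D, Commute Y X1 ∧ X1 ∉ zpowers Y := by
    obtain ⟨X0, hX0, Y0, hY0, hc, hne⟩ := h.ex
    obtain ⟨Z0, hZ0, hl, hZY⟩ := h.line X0 hX0 Y0 hY0 hc hne Y hY
    by_cases hm : Z0 ∈ zpowers Y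
    · have hm' := h.symm hY hm (h.ne_one hZ0)
      by_cases h1 : X0 ∈ zpowers Y
      · refine ⟨Y0, hY0, comm_of_mem hm' (on_line hl hc (Commute.refl _)), fun h2 => hne ?_⟩
        exact (zpowers_le.2 (h.symm hY h1 (h.ne_one hX0))) h2
      · exact ⟨X0, hX0, comm_of_mem hm' (on_line hl (Commute.refl _) hc.symm), h1⟩
    · exact ⟨Z0, hZ0, hZY.symm, hm⟩
  obtain ⟨X, hX, hXl, hXP⟩ := h.line Y hY X1 hX1 hYX1 hne P hP
  have hXY : Commute X Y := on_line hXl (Commute.refl _) hYX1.symm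
  have hYX : Y ∉ zpowers X := fun hm => hPY (comm_of_mem hm hXP).symm
  have hXP' : X ∉ zpowers P := fun hm => hPY (comm_of_mem (h.symm hP hm (h.ne_one hX)) hXY)
  obtain ⟨R, hR, hRP, hRX⟩ := h.lemA nd hP hX hXP.symm hXP'
  have key : ∀ Q ∈ D, Commute Q P → ¬ Commute Q X → Commute Q (Y * P * Y⁻¹) := fun Q hQ h1 h2 => by
    obtain ⟨Z, hZ, hZl, hZQ⟩ := h.line X hX Y hY hXY hYX Q hQ
    have hZX : Z ∉ zpowers X := fun hm => h2 (comm_of_mem (h.symm hX hm (h.ne_one hZ)) hZQ).symm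
    obtain ⟨a, b, hab⟩ := h.back hY hXY hZl hZX
    have : Y * P * Y⁻¹ = Z ^ b * P * (Z ^ b)⁻¹ := by
      rw [hab, mul_assoc (Z ^ b), (hXP.zpow_left a).eq]; group
    rw [this]
    exact ((hZQ.symm.zpow_right b).mul_right h1).mul_right (hZQ.symm.zpow_right b).inv_right
  have hRP1 : R * P ≠ 1 := fun h1 => hRX (by
    rw [eq_inv_of_mul_eq_one_left h1]; exact hXP.symm.inv_left)
  have h3 := key _ (h.mul R hR P hP hRP hRP1) (hRP.mul_left (Commute.refl P)) (fun hc => hRX (by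
    have := hc.mul_left hXP.symm.inv_left
    rwa [mul_inv_cancel_right] at this))
  have := (key R hR hRP hRX).inv_left.mul_left h3
  rwa [inv_mul_cancel_left] at this

omit nd in
theorem inv_mem {x : G} (hx : x ∈ D) : x⁻¹ ∈ D :=
  h.pow x hx _ (Subgroup.inv_mem _ (mem_zpowers x)) (inv_ne_one.2 (h.ne_one hx))

theorem lemC {P Y : G} (hP : P ∈ D) (hY : Y ∈ D) (hc : ¬ Commute P Y) :
    P * Y * P⁻¹ * Y⁻¹ ∈ D := by
  have h1 := h.mul P hP _ (h.conj Y _ (h.inv_mem hP))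
    (by have := (h.lemB nd hP hY).inv_right; rwa [conj_inv] at this)
  have e : P * (Y * P⁻¹ * Y⁻¹) = P * Y * P⁻¹ * Y⁻¹ := by group
  rw [e] at h1
  exact h1 fun h2 => hc (commutatorElement_eq_one_iff_commute.1 h2)

omit nd in
theorem pg {x : G} (hx : x ∈ D) : IsPGroup p (zpowers x) :=
  IsPGroup.of_card (n := 1) (by rw [Nat.card_zpowers, h.ord x hx, pow_one])

theorem false : False := by
  have hN : IsPGroup p (closure D) := baer_suzuki_set h.conj fun a ha b hb => by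
    have ha' := h.conj b a ha
    have h1 := h.lemB nd ha hb
    have h2 := h.lemB nd hb (h.inv_mem ha)
    have h3 : IsPGroup p (zpowers a ⊔ zpowers (b * a * b⁻¹) : Subgroup G) :=
      IsPGroup.to_sup_of_normal_right' (h.pg ha) (h.pg ha') (by
        rw [zpowers_le]
        exact centralizer_le_normalizer _ (by
          rintro _ ⟨k, rfl⟩; exact (h1.symm.zpow_left k).eq))
    have h4 : IsPGroup p (zpowers b ⊔ (zpowers a ⊔ zpowers (b * a * b⁻¹)) : Subgroup G) :=
      IsPGroup.to_sup_of_normal_right' (h.pg hb) h3 (by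
        rw [zpowers_le]
        apply mem_normalizer_fintype
        intro n hn
        have : (zpowers a ⊔ zpowers (b * a * b⁻¹) : Subgroup G) ≤
            (zpowers a ⊔ zpowers (b * a * b⁻¹) : Subgroup G).comap (MulAut.conj b).toMonoidHom := by
          rw [sup_le_iff, zpowers_le, zpowers_le]
          refine ⟨mem_sup_right (mem_zpowers _), ?_⟩
          have e : b * (b * a * b⁻¹) * b⁻¹ = (b * a * b⁻¹) * a⁻¹ * (b * a * b⁻¹) := by
            have := h2.inv_left.eq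
            rw [inv_inv] at this
            calc b * (b * a * b⁻¹) * b⁻¹ = b * a * (a⁻¹ * b * a * b⁻¹) * b⁻¹ := by group
              _ = _ := by rw [← this]; group
          rw [mem_comap]
          change b * (b * a * b⁻¹) * b⁻¹ ∈ _
          rw [e]
          exact mul_mem (mul_mem (mem_sup_right (mem_zpowers _)) (mem_sup_left
            (Subgroup.inv_mem _ (mem_zpowers _)))) (mem_sup_right (mem_zpowers _))
        exact this hn)
    refine h4.to_le ?_
    rw [closure_le]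
    rintro _ (rfl | rfl)
    exacts [mem_sup_right (mem_sup_left (mem_zpowers _)), mem_sup_left (mem_zpowers _)]
  have hnil := hN.isNilpotent
  have key : ∀ i, ∀ v : closure D, (v : G) ∈ D → v ∉ Subgroup.upperCentralSeries (closure D) i := by
    intro i
    induction i with
    | zero => intro v hv hm; exact h.ne_one hv (congrArg Subtype.val (mem_bot.1 hm))
    | succ i ih =>
      intro v hv hm
      obtain ⟨w, hw, hc⟩ := nd v hv
      exact ih _ (h.lemC nd hv hw hc)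
        (Subgroup.mem_upperCentralSeries_succ_iff.1 hm ⟨w, subset_closure hw⟩)
  obtain ⟨n, hn⟩ := hnil.nilpotent
  obtain ⟨x, hx, -⟩ := h.ex
  exact key n ⟨x, subset_closure hx⟩ hx (hn ▸ mem_top _)

end Hyp

theorem result {G : Type*} [Group G] [Finite G]
    {p : ℕ} (hp : p.Prime) (K : Set (Subgroup G)) (hK : ∀ X ∈ K, Nat.card ↥X = p)
    (hKc : ∀ X ∈ K, ∀ g : G, X.map (MulAut.conj g).toMonoidHom ∈ K)
    (hex : ∃ X ∈ K, ∃ Y ∈ K, X ≠ Y ∧ ∀ x ∈ X, ∀ y ∈ Y, x * y = y * x)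
    (ha : ∀ X ∈ K, ∀ Y ∈ K, X ≠ Y → (∀ x ∈ X, ∀ y ∈ Y, x * y = y * x) →
      ∀ Z : Subgroup G, Z ≤ X ⊔ Y → Nat.card ↥Z = p → Z ∈ K)
    (hb : ∀ X ∈ K, ∀ Y ∈ K, X ≠ Y → (∀ x ∈ X, ∀ y ∈ Y, x * y = y * x) →
      ∀ W ∈ K, (X ⊔ Y) ⊓ Subgroup.centralizer (W : Set G) ≠ ⊥) :
    (∃ V ∈ K, (∀ W ∈ K, ∀ v ∈ V, ∀ w ∈ W, v * w = w * v) ∧ V ≤ Cfsg.pCore p G) ∧ ¬ IsSimpleGroup G := by
  have : Fact p.Prime := ⟨hp⟩
  have gen : ∀ X ∈ K, ∀ x ∈ X, x ≠ 1 → zpowers x = X := fun X hX x hx x1 => by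
    apply eq_of_le_of_card_ge (zpowers_le.2 hx)
    have h1 : Nat.card (zpowers x) ∣ p := hK X hX ▸ card_dvd_of_le (zpowers_le.2 hx)
    rcases (Nat.dvd_prime hp).1 h1 with h2 | h2
    · rw [Nat.card_zpowers, orderOf_eq_one_iff] at h2; exact absurd h2 x1
    · rw [h2, hK X hX]
  have exg : ∀ X ∈ K, ∃ x, zpowers x = X := fun X hX => by
    have : X ≠ ⊥ := fun h => by
      have := hK X hX
      rw [h, card_bot] at this; exact hp.one_lt.ne this
    obtain ⟨⟨x, hx⟩, x1⟩ := ne_bot_iff_exists_ne_one.1 this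
    exact ⟨x, gen X hX x hx fun h => x1 (Subtype.ext h)⟩
  have cz : ∀ {x y : G}, Commute x y → ∀ a ∈ zpowers x, ∀ b ∈ zpowers y, a * b = b * a := by
    rintro x y h _ ⟨i, rfl⟩ _ ⟨j, rfl⟩; exact (h.zpow_zpow i j).eq
  have ord : ∀ x : G, zpowers x ∈ K → orderOf x = p := fun x hx => by
    rw [← Nat.card_zpowers]; exact hK _ hx
  have pw : ∀ x : G, zpowers x ∈ K → ∀ y ∈ zpowers x, y ≠ 1 → zpowers y ∈ K :=
    fun x hx y hy y1 => by rw [gen _ hx y hy y1]; exact hx
  have ln : ∀ x : G, zpowers x ∈ K → ∀ y : G, zpowers y ∈ K → Commute x y →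
      ∀ z ∈ zpowers x ⊔ zpowers y, z ≠ 1 → zpowers z ∈ K ∧ ∃ i j : ℤ, z = x ^ i * y ^ j :=
    fun x hx y hy hc z hz z1 => by
      have hij : ∃ i j : ℤ, z = x ^ i * y ^ j := by
        have : z ∈ ((zpowers x ⊔ zpowers y : Subgroup G) : Set G) := hz
        rw [coe_mul_of_left_le_normalizer_right _ _ (by
          rw [zpowers_le]
          exact centralizer_le_normalizer _ (by
            rintro _ ⟨k, rfl⟩; exact (hc.symm.zpow_left k).eq))] at this
        obtain ⟨_, ⟨i, rfl⟩, _, ⟨j, rfl⟩, h⟩ := this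
        exact ⟨i, j, h.symm⟩
      refine ⟨?_, hij⟩
      by_cases he : zpowers x = zpowers y
      · rw [← he, sup_idem] at hz; exact pw x hx z hz z1
      refine ha _ hx _ hy he (cz hc) _ (zpowers_le.2 hz) ?_
      rw [Nat.card_zpowers]
      apply orderOf_eq_prime _ z1
      obtain ⟨i, j, rfl⟩ := hij
      rw [(hc.zpow_zpow i j).mul_pow, ← zpow_natCast, ← zpow_natCast, ← zpow_mul, ← zpow_mul,
        mul_comm i, mul_comm j, zpow_mul, zpow_mul, zpow_natCast, zpow_natCast, ← ord x hx,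
        pow_orderOf_eq_one, ord x hx, ← ord y hy, pow_orderOf_eq_one]
      simp
  have H : Hyp p {x : G | zpowers x ∈ K} :=
    { ord := ord
      conj := fun g x hx => by
        have := hKc _ hx g
        rw [MonoidHom.map_zpowers] at this; exact this
      pow := pw
      mul := fun x hx y hy hc h1 => (ln x hx y hy hc _
        (mul_mem (mem_sup_left (mem_zpowers _)) (mem_sup_right (mem_zpowers _))) h1).1
      line := fun x hx y hy hc hne w hw => by
        obtain ⟨⟨z, hz⟩, z1⟩ := ne_bot_iff_exists_ne_one.1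
          (hb _ hx _ hy (fun he => hne (he ▸ mem_zpowers y)) (cz hc) _ hw)
        obtain ⟨h1, h2⟩ := ln x hx y hy hc z hz.1 fun h => z1 (Subtype.ext h)
        exact ⟨z, h1, h2, (hz.2 w (mem_zpowers w)).symm⟩
      ex := by
        obtain ⟨X, hX, Y, hY, hne, hc⟩ := hex
        obtain ⟨x, rfl⟩ := exg X hX
        obtain ⟨y, rfl⟩ := exg Y hY
        refine ⟨x, hX, y, hY, hc _ (mem_zpowers _) _ (mem_zpowers _), fun hm => hne ?_⟩
        refine (gen _ hX y hm fun h1 => ?_).symm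
        have := ord y hY
        rw [h1, orderOf_one] at this; exact hp.one_lt.ne this }
  obtain ⟨v, hv, hc⟩ : ∃ v : G, zpowers v ∈ K ∧ ∀ w : G, zpowers w ∈ K → Commute v w := by
    by_contra hn
    push Not at hn
    exact H.false hn
  have hN : IsPGroup p (normalClosure ({v} : Set G)) := baer_suzuki_elem fun g => by
    have h1 := hc _ (H.conj g v hv)
    refine (IsPGroup.to_sup_of_normal_right' (H.pg hv) (H.pg (H.conj g v hv)) (by
        rw [zpowers_le]
        exact centralizer_le_normalizer _ (by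
          rintro _ ⟨k, rfl⟩; exact (h1.symm.zpow_left k).eq))).to_le ?_
    rw [closure_le]
    rintro _ (rfl | rfl)
    exacts [mem_sup_left (mem_zpowers _), mem_sup_right (mem_zpowers _)]
  refine ⟨⟨_, hv, fun W hW => ?_, ?_⟩, fun hs => ?_⟩
  · obtain ⟨w, rfl⟩ := exg W hW
    exact cz (hc w hW)
  · exact (zpowers_le.2 (subset_normalClosure (Set.mem_singleton v))).trans (le_sSup ⟨inferInstance, hN⟩)
  · have h1 : normalClosure ({v} : Set G) = ⊤ :=
      (hs.eq_bot_or_eq_top_of_normal _ inferInstance).resolve_left fun h =>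
        H.ne_one hv (mem_bot.1 (h ▸ subset_normalClosure rfl))
    have hG : IsPGroup p G := by
      rw [h1] at hN; exact hN.of_equiv topEquiv
    have h2 : center G = ⊤ :=
      (hs.eq_bot_or_eq_top_of_normal _ inferInstance).resolve_left fun h => by
        have := hG.center_nontrivial
        rw [h] at this; exact not_nontrivial _ this
    have h3 : ∀ X ∈ K, X = ⊤ := fun X hX =>
      (hs.eq_bot_or_eq_top_of_normal X ⟨fun n hn g => by
        have := mem_center_iff.1 (h2 ▸ mem_top n) g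
        rw [this, mul_inv_cancel_right]; exact hn⟩).resolve_left fun h => by
        have := hK X hX
        rw [h, card_bot] at this; exact hp.one_lt.ne this
    obtain ⟨X, hX, Y, hY, hne, -⟩ := hex
    exact hne ((h3 X hX).trans (h3 Y hY).symm)

end Cfsg.Agent.S3196
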