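import Cfsg.Statements.S3200
import Cfsg.Agent.SolvStr.Kegel
import Cfsg.Agent.Solv.Hall

set_option autoImplicit false
open Cfsg

namespace Cfsg.Agent.S3200

open CF CF.Solv CF.SolvStr Subgroup in
/-- Let H be a finite group in which a Sylow 2-subgroup has an abelian complement (an abelian subgroup meeting it trivially whose product with it is all of H). Then H is solvable, and every subgroup and every quotient group of H again has a Sylow 2-subgroup with an abelian complement. -/
theorem result {H : Type*} [Group H] [Finite H]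
    (S : Sylow 2 H) (C : Subgroup H) (hC : IsMulCommutative ↥C) (hSC : Subgroup.IsComplement' (S : Subgroup H) C) :
    Group.IsSolvable H ∧
    (∀ L : Subgroup H, ∃ (P : Sylow 2 ↥L) (D : Subgroup ↥L), IsMulCommutative ↥D ∧ Subgroup.IsComplement' (P : Subgroup ↥L) D) ∧
    (∀ (N : Subgroup H) [N.Normal], ∃ (P : Sylow 2 (H ⧸ N)) (D : Subgroup (H ⧸ N)),
      IsMulCommutative ↥D ∧ Subgroup.IsComplement' (P : Subgroup (H ⧸ N)) D) := by
  have hnC : Group.IsNilpotent C := by
    let _ : CommGroup C := { (inferInstance : Group C) with mul_comm := hC.is_comm.comm }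
    infer_instance
  have hnS : Group.IsNilpotent S := S.isPGroup'.isNilpotent
  have hs : Group.IsSolvable H := kegel_wielandt (A := S) (B := C) fun g => by
    obtain ⟨⟨a, b⟩, h⟩ := hSC.2 g
    exact ⟨a, a.2, b, b.2, h.symm⟩
  have hH : IsPiHall {2}ᶜ C := isPiHall_compl_of_isComplement' (sylow_isPiHall S) hSC
  refine ⟨hs, fun L => ?_, fun N _ => ?_⟩
  · obtain ⟨D, hD⟩ := exists_isPiHall (G := L) {2}ᶜ
    obtain ⟨P⟩ : Nonempty (Sylow 2 L) := inferInstance
    refine ⟨P, D, ?_, isComplement'_of_isPiHall (sylow_isPiHall P) hD⟩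
    obtain ⟨g, hg⟩ := exists_conj_le_isPiHall hH (K := D.map L.subtype)
      (by rw [card_map_of_injective L.subtype_injective]; exact isPiHall_piNum_card hD)
    refine ⟨⟨fun a b => Subtype.ext (Subtype.ext ?_)⟩⟩
    have := congrArg Subtype.val (hC.is_comm.comm
      ⟨_, hg (smul_mem_pointwise_smul _ _ _ ⟨a.1, a.2, rfl⟩)⟩
      ⟨_, hg (smul_mem_pointwise_smul _ _ _ ⟨b.1, b.2, rfl⟩)⟩)
    apply (MulAut.conj g).injective
    simpa using this
  · obtain ⟨P⟩ : Nonempty (Sylow 2 (H ⧸ N)) := inferInstance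
    exact ⟨P, C.map (QuotientGroup.mk' N), inferInstance, isComplement'_of_isPiHall (sylow_isPiHall P)
      (isPiHall_map hH (QuotientGroup.mk'_surjective N))⟩

end Cfsg.Agent.S3200
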