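import Cfsg.Statements.S3201
import Cfsg.Agent.Char.QSetup
import Cfsg.Agent.Solv.CyclicMax
import Cfsg.Agent.Solv.FrattiniP
import Cfsg.Agent.Invol.Q8

set_option autoImplicit false
open Cfsg

namespace Cfsg.Agent.S3201

open CF CF.Char CF.Solv Subgroup in
/-- Let S be a finite 2-group whose centre Z(S) has n ≥ 2 distinct maximal subgroups C₁, …, Cₙ with trivial intersection such that each quotient S/Cᵢ is a non-abelian group with exactly one involution (a generalized quaternion group). Then S is the internal direct product of an elementary abelian subgroup and a non-abelian subgroup with exactly one involution. -/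
theorem result {S : Type*} [Group S] [Finite S]
    (hS : IsPGroup 2 S) (n : ℕ) (hn : 2 ≤ n) (C : Fin n → Subgroup ↥(Subgroup.center S))
    (hCmax : ∀ i, IsCoatom (C i)) (hCinj : Function.Injective C) (hCint : ⨅ i, C i = ⊥)
    (hCq : ∀ i, ∃ (_ : ((C i).map (Subgroup.center S).subtype).Normal),
      ¬ IsMulCommutative (S ⧸ (C i).map (Subgroup.center S).subtype) ∧
      ∃! x : S ⧸ (C i).map (Subgroup.center S).subtype, orderOf x = 2) :
    ∃ E Q : Subgroup S, Cfsg.IsInternalDirectProduct E Q ⊤ ∧ Cfsg.IsElementaryAbelian 2 E ∧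
      ¬ IsMulCommutative ↥Q ∧ ∃! x : ↥Q, orderOf x = 2 := by
  have hZ : IsPGroup 2 (center S) := hS.to_subgroup _
  have hidx : ∀ i, (C i).index = 2 := fun i => index_eq_of_isCoatom_of_isPGroup hZ (hCmax i)
  let c : Fin n → Subgroup S := fun i => (C i).map (center S).subtype
  have cle : ∀ i, c i ≤ center S := fun i => map_subtype_le _
  have call : ∀ w, (∀ i, w ∈ c i) → w = 1 := fun w hw => by
    have h0 := cle _ (hw ⟨0, by omega⟩)
    have : (⟨w, h0⟩ : center S) ∈ ⨅ i, C i := mem_iInf.2 fun i => by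
      obtain ⟨x, hx, rfl⟩ := hw i; exact hx
    rw [hCint] at this
    exact congrArg Subtype.val (mem_bot.1 this)
  have cmul : ∀ i, ∀ w ∈ center S, ∀ w' ∈ center S, w ∉ c i → w' ∉ c i → w * w' ∈ c i :=
    fun i w hw w' hw' h1 h2 =>
      ⟨⟨w, hw⟩ * ⟨w', hw'⟩, (mul_mem_iff_of_index_two (hidx i)).2
        (iff_of_false (fun h => h1 ⟨_, h, rfl⟩) fun h => h2 ⟨_, h, rfl⟩), rfl⟩
  have csq : ∀ i, ∀ w ∈ center S, w * w ∈ c i := fun i w hw => by
    by_cases h : w ∈ c i
    exacts [mul_mem h h, cmul i w hw w hw h h]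
  have zsq : ∀ w ∈ center S, w * w = 1 := fun w hw => call _ fun i => csq i w hw
  have cex : ∀ i, ∃ w ∈ center S, w ∉ c i := fun i => by
    by_contra h
    push Not at h
    refine (hCmax i).1 (eq_top_iff.2 fun x _ => ?_)
    obtain ⟨y, hy, he⟩ := h x x.2
    rwa [← show y = x from Subtype.ext he]
  have inv : ∀ i, ∀ g, g ∉ c i → g * g ∈ c i → g ∈ center S := fun i g h1 h2 => by
    obtain ⟨hN, -, u, -, hu⟩ := hCq i
    obtain ⟨w, hw, hw'⟩ := cex i
    have key : ∀ g, g ∉ c i → g * g ∈ c i → (g : S ⧸ c i) = u := fun g h1 h2 =>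
      hu _ (orderOf_eq_prime (by
        rw [sq, ← QuotientGroup.mk_mul]; exact (QuotientGroup.eq_one_iff _).2 h2)
        fun h => h1 ((QuotientGroup.eq_one_iff _).1 h))
    have := cle i (QuotientGroup.eq.1 ((key w hw' (csq i w hw)).trans (key g h1 h2).symm))
    exact (mul_mem_cancel_left (inv_mem hw)).1 this
  have sqeq : ∀ g h, g ∉ center S → g * g ∈ center S → h ∉ center S → h * h ∈ center S →
      g * g = h * h := fun g h g1 g2 h1 h2 => by
    have := call _ fun i => cmul i _ g2 _ h2 (fun a => g1 (inv i g (fun b => g1 (cle i b)) a))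
      (fun a => h1 (inv i h (fun b => h1 (cle i b)) a))
    rw [← mul_one (g * g), ← zsq _ h2, ← mul_assoc, this, one_mul]
  let i0 : Fin n := ⟨0, by omega⟩
  obtain ⟨hN, hna, u, -, hu⟩ := hCq i0
  change (c i0).Normal at hN
  let π := QuotientGroup.mk' (c i0)
  have hπ : ∀ g, π g = 1 ↔ g ∈ c i0 := fun g => QuotientGroup.eq_one_iff g
  rcases isCyclic_or_quaternion (hS.to_quotient (c i0)) (fun x y hx hy x1 => by
    by_cases y1 : y = 1
    · rw [y1]; exact one_mem _
    rw [hu x (orderOf_eq_prime hx x1), hu y (orderOf_eq_prime hy y1)]; exact mem_zpowers _) with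
    hc | ⟨-, m, hm, ⟨e⟩⟩
  · exact absurd ⟨⟨hc.commGroup.mul_comm⟩⟩ hna
  obtain ⟨a', b', h⟩ := exists_qSetup (topEquiv.trans e)
  obtain ⟨a, rfl⟩ := QuotientGroup.mk'_surjective _ a'
  obtain ⟨b, rfl⟩ := QuotientGroup.mk'_surjective _ b'
  change QSetup ⊤ m (π a) (π b) at h
  have zc : ∀ g ∈ center S, π g * π g = 1 := fun g hg => by rw [← map_mul, zsq g hg, map_one]
  have zc' : ∀ g, π g * π g = 1 → g ∈ center S := fun g hg => by
    by_cases h1 : g ∈ c i0
    · exact cle _ h1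
    · exact inv i0 g h1 ((hπ _).1 (by rw [map_mul, hg]))
  have o4 : ∀ g, orderOf (π g) = 4 → g ∉ center S ∧ g * g ∈ center S := fun g hg => by
    obtain ⟨h1, h2⟩ := Invol.orderOf_eq_four_iff.1 hg
    exact ⟨fun h => h2 (zc g h), zc' _ (by rw [map_mul, h1])⟩
  have b1 := o4 b (h.orderOf_of_notMem (mem_top _) h.notMem)
  have b2 := o4 (b * a) (h.orderOf_of_notMem (mem_top _) fun hm => h.notMem (by
    rw [map_mul] at hm; exact (mul_mem_cancel_right (mem_zpowers _)).1 hm))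
  obtain ⟨k, rfl⟩ : ∃ k, m = k + 1 := ⟨m - 1, by omega⟩
  have b3 := o4 (a ^ 2 ^ k) (by
    rw [map_pow, orderOf_pow_of_dvd (by positivity) (by rw [h.ha]; exact pow_dvd_pow 2 (by omega)),
      h.ha, show k + 1 + 1 = k + 2 from rfl, pow_add, Nat.mul_div_cancel_left _ (by positivity)]; rfl)
  have e1 : a ^ 2 ^ k * a ^ 2 ^ k = a ^ 2 ^ (k + 1) := by rw [← pow_add, pow_succ, mul_two]
  have r1 : b * b = a ^ 2 ^ (k + 1) := e1 ▸ sqeq _ _ b1.1 b1.2 b3.1 b3.2
  have r2 : b * a * b⁻¹ = a⁻¹ := by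
    have := sqeq _ _ b2.1 b2.2 b1.1 b1.2
    calc b * a * b⁻¹ = a⁻¹ * b⁻¹ * (b * a * (b * a)) * b⁻¹ := by group
      _ = a⁻¹ := by rw [this]; group
  have r3 : orderOf a = 2 ^ (k + 1 + 1) := by
    apply Nat.dvd_antisymm
    · rw [orderOf_dvd_iff_pow_eq_one, pow_succ, mul_two, pow_add, ← e1, zsq _ b3.2]
    · rw [← h.ha]; exact orderOf_map_dvd π a
  have hQ : QSetup (closure {b, a}) (k + 1) a b :=
    ⟨r3, r1, r2, fun ⟨j, hj⟩ => h.notMem ⟨j, by rw [← hj, map_zpow]⟩, fun g =>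
      Invol.mem_closure_inverts_iff r2 (r1 ▸ pow_mem (mem_zpowers a) _)⟩
  refine ⟨c i0, closure {b, a}, ⟨le_top, le_top, fun x hx y _ => (mem_center_iff.1 (cle _ hx) y).symm,
    ?_, ?_⟩, ⟨⟨⟨fun x y => Subtype.ext (mem_center_iff.1 (cle _ y.2) x)⟩⟩, fun x hx => by
      rw [sq, zsq x (cle _ hx)]⟩, fun hc => ?_, ⟨_, hQ.z_mem⟩,
      (orderOf_coe _).symm.trans hQ.orderOf_z, fun y hy =>
        Subtype.ext (hQ.eq_z y.2 (by rwa [orderOf_coe]))⟩
  · refine eq_bot_iff.2 fun x hx => mem_bot.2 (by_contra fun x1 => ?_)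
    have h1 := hQ.eq_z hx.2 (orderOf_eq_prime (by rw [sq, zsq x (cle _ hx.1)]) x1)
    have h2 := h.orderOf_z
    rw [← map_pow, ← h1, (hπ x).2 hx.1, orderOf_one] at h2
    omega
  · have h1 := comap_map_eq π (closure {b, a})
    rw [MonoidHom.map_closure, Set.image_pair, h.closure_eq, comap_top, QuotientGroup.ker_mk'] at h1
    rw [sup_comm, ← h1]
  · have a1 : b * a = a * b := congrArg Subtype.val (hc.is_comm.comm ⟨b, hQ.b_mem⟩ ⟨a, hQ.a_mem⟩)
    rw [a1, mul_inv_cancel_right] at r2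
    exact hQ.mul_self_ne_one (by omega) (by nth_rewrite 1 [r2]; exact inv_mul_cancel a)

end Cfsg.Agent.S3201
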