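import Cfsg.Statements.S3202
import Cfsg.Agent.FusB.Small2
-- import your own Cfsg.Agent.* helpers here

set_option autoImplicit false
open Cfsg

namespace Cfsg.Agent.S3202

/-- Let S be a finite 2-group of 2-rank exactly 2 and D a maximal subgroup of the centre of S such that S/D is a non-abelian group with exactly one involution (a generalized quaternion group). Then S has a nontrivial cyclic characteristic subgroup. -/
theorem result {S : Type*} [Group S]
    [Finite S] (hS : IsPGroup 2 S) (hr2 : Cfsg.PRankLE 2 2 S) (hr1 : ¬ Cfsg.PRankLE 2 1 S)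
    (D : Subgroup ↥(Subgroup.center S)) (hD : IsCoatom D)
    (hq : ∃ (_ : (D.map (Subgroup.center S).subtype).Normal),
      ¬ IsMulCommutative (S ⧸ D.map (Subgroup.center S).subtype) ∧
      ∃! x : S ⧸ D.map (Subgroup.center S).subtype, orderOf x = 2) :
    ∃ C : Subgroup S, C ≠ ⊥ ∧ IsCyclic ↥C ∧ C.Characteristic := by
  obtain ⟨_, h1, h2⟩ := hq
  refine CF.FusB.exists_char_cyclic hS hr2 hr1 _ (lt_of_le_of_ne (Subgroup.map_subtype_le D)
    fun e => hD.1 (Subgroup.map_injective (Subgroup.subtype_injective _) (by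
      rw [e, ← MonoidHom.range_eq_map, Subgroup.range_subtype]))) h1 h2
    fun K h3 h4 => ?_
  obtain ⟨L, rfl⟩ : ∃ L : Subgroup (Subgroup.center S), L.map (Subgroup.center S).subtype = K :=
    ⟨_, Subgroup.map_subgroupOf_eq_of_le h4⟩
  rw [hD.2 L (lt_of_le_of_ne ((Subgroup.map_le_map_iff_of_injective
    (Subgroup.subtype_injective _)).1 h3.le) fun e => h3.ne (by rw [e])),
    ← MonoidHom.range_eq_map, Subgroup.range_subtype]

end Cfsg.Agent.S3202
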