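import Cfsg.Statements.S3208
import Cfsg.Agent.BG.B4

set_option autoImplicit false
open Cfsg

namespace Cfsg.Agent.S3208

open CF.BG

/-- Let j be an involution of a finite group G, H a subgroup of G, and T a Sylow 2-subgroup of H ∩ C_G(j) containing j such that ⟨j⟩ is a characteristic subgroup of T. Then T is a Sylow 2-subgroup of H. -/
theorem result {G : Type*} [Group G] [Finite G]
    (j : G) (hj : orderOf j = 2) (H T : Subgroup G) (hT : T ≤ H ⊓ Subgroup.centralizer ({j} : Set G)) (h2 : IsPGroup 2 ↥T)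
    (hSyl : ¬ 2 ∣ T.relIndex (H ⊓ Subgroup.centralizer ({j} : Set G))) (hjT : j ∈ T)
    (hchar : ((Subgroup.zpowers j).subgroupOf T).Characteristic) :
    ¬ 2 ∣ T.relIndex H := by
  have hp : Nat.Prime 2 := Nat.prime_two
  have hs : Syl 2 T (H ⊓ 𝐂₁ j) := syl_mk hp hT (piGrp_of_isPGroup hp h2) hSyl
  refine Hall.not_dvd (syl_of_syl_norm (hT.trans inf_le_left) (hs.of_card ?_ rfl |>.of_le ?_ ?_)) hp
  · exact hT
  · exact le_inf (hT.trans inf_le_left) (le_norm_self _)
  · refine inf_le_inf_left _ ?_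
    intro g hg
    have hm : (⟨j, hjT⟩ : T) ∈ (Subgroup.zpowers j).subgroupOf T := Subgroup.mem_zpowers j
    have := hchar.fixed (T.normalizerMonoidHom ⟨g, hg⟩)
    rw [← this] at hm
    have h3 : g * j * g⁻¹ ∈ Subgroup.zpowers j := hm
    have h4 : g * j * g⁻¹ = j := by
      have hc : (Nat.card (Subgroup.zpowers j)).Prime := by rw [Nat.card_zpowers, hj]; exact hp
      obtain ⟨k, hk⟩ := h3
      have hj2 : j * j = 1 := by rw [← sq, ← hj, pow_orderOf_eq_one]
      have hk' : j ^ k = g * j * g⁻¹ := hk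
      rcases Int.even_or_odd' k with ⟨m, rfl | rfl⟩
      · rw [zpow_mul, zpow_ofNat, sq, hj2, one_zpow] at hk'
        have : j = 1 := by
          have := congrArg (fun t => g⁻¹ * t * g) hk'
          simpa [mul_assoc] using this.symm
        rw [this, orderOf_one] at hj; omega
      · rw [zpow_add, zpow_mul, zpow_ofNat, sq, hj2, one_zpow, one_mul, zpow_one] at hk'
        exact hk'.symm
    rw [mem_cent1]
    calc g * j = g * j * g⁻¹ * g := by group
      _ = j * g := by rw [h4]

end Cfsg.Agent.S3208
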