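import Cfsg.Statements.S3209
import Cfsg.Agent.Classical.SL2Cp
import Cfsg.Agent.Classical.SL2b

set_option autoImplicit false
open Cfsg

namespace Cfsg.Agent.S3209

/-- Let L₁ ≅ SL₂(q₁) and L₂ ≅ SL₂(q₂), q₁ and q₂ odd, be elementwise-commuting subgroups of a finite group meeting in ⟨j⟩ for an involution j. Then L₁L₂ has exactly two conjugacy classes of involutions: the central involution j, and one further class (there is an involution x ≠ j in L₁L₂, and every involution of L₁L₂ other than j is conjugate to x by an element of L₁L₂). -/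
theorem result {G : Type*} [Group G] [Finite G]
    {F₁ : Type*} [Field F₁] [Fintype F₁] {F₂ : Type*} [Field F₂] [Fintype F₂]
    (hF₁ : Odd (Fintype.card F₁)) (hF₂ : Odd (Fintype.card F₂)) (L₁ L₂ : Subgroup G)
    (e₁ : ↥L₁ ≃* Matrix.SpecialLinearGroup (Fin 2) F₁) (e₂ : ↥L₂ ≃* Matrix.SpecialLinearGroup (Fin 2) F₂)
    (hc : ∀ x ∈ L₁, ∀ y ∈ L₂, x * y = y * x) (j : G) (hj : orderOf j = 2) (hm : L₁ ⊓ L₂ = Subgroup.zpowers j) :
    ∃ x ∈ L₁ ⊔ L₂, orderOf x = 2 ∧ x ≠ j ∧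
      ∀ y ∈ L₁ ⊔ L₂, orderOf y = 2 → y = j ∨ ∃ g ∈ L₁ ⊔ L₂, g * x * g⁻¹ = y := by
  open CF.Classical in
  classical
  have h1 := two_ne_zero_of_odd_card (Nat.card_eq_fintype_card (α := F₁) ▸ hF₁)
  have h2 := two_ne_zero_of_odd_card (Nat.card_eq_fintype_card (α := F₂) ▸ hF₂)
  have hL : j ∈ L₁ ⊓ L₂ := hm ▸ Subgroup.mem_zpowers j
  have j2 : j * j = 1 := by simpa [sq, hj] using pow_orderOf_eq_one j
  have j1 : j ≠ 1 := fun e => by simp [e] at hj
  have hz : ∀ x ∈ Subgroup.zpowers j, x = 1 ∨ x = j := fun x hx => by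
    rw [(isOfFinOrder_of_finite j).mem_zpowers_iff_mem_range_orderOf, hj] at hx
    simpa [Finset.range_add_one, or_comm, eq_comm] using hx
  obtain ⟨a, ha, a1, a2, a3⟩ := exists_mul_self_eq_of_sl2 h1 e₁ hj hL.1
  obtain ⟨b, hb, b1, b2, b3⟩ := exists_mul_self_eq_of_sl2 h2 e₂ hj hL.2
  have sq : ∀ x ∈ L₁, ∀ y ∈ L₂, x * y * (x * y) = x * x * (y * y) := fun x hx y hy => by
    rw [mul_assoc, ← mul_assoc y, ← hc x hx y hy]; simp only [mul_assoc]
  have ne : a * b ∉ Subgroup.zpowers j := fun h => by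
    have h3 : a ∈ L₂ := (Subgroup.mul_mem_cancel_right _ hb).1 (hm.ge h).2
    rcases hz a (hm.le ⟨ha, h3⟩) with rfl | rfl
    · exact j1 (by simpa using a1.symm)
    · exact j1 (a1.symm.trans j2)
  refine ⟨a * b, Subgroup.mul_mem_sup ha hb, orderOf_eq_prime (by rw [pow_two, sq a ha b hb, a1, b1, j2])
    fun e => ne (e ▸ one_mem _), fun e => ne (e ▸ Subgroup.mem_zpowers _), fun z hz' h3 => ?_⟩
  obtain ⟨x, hx, y, hy, rfl⟩ := (mem_sup_of_comm hc).1 hz'
  have h4 : x * x * (y * y) = 1 := by rw [← sq x hx y hy, ← pow_two, ← h3, pow_orderOf_eq_one]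
  rcases hz (x * x) (hm.le ⟨mul_mem hx hx, eq_inv_of_mul_eq_one_left h4 ▸ L₂.inv_mem (mul_mem hy hy)⟩)
    with h5 | h5
  · rw [h5, one_mul] at h4
    exact Or.inl ((hz _ (mul_mem (a2 x hx h5) (b2 y hy h4))).resolve_left fun e => by simp [e] at h3)
  · obtain ⟨g, hg, rfl⟩ := a3 x hx h5
    obtain ⟨g', hg', rfl⟩ := b3 y hy (mul_left_cancel (a := j) (by rw [j2, ← h4, h5]))
    refine Or.inr ⟨g * g', Subgroup.mul_mem_sup hg hg', ?_⟩
    rw [mul_assoc (g * a) g⁻¹, hc _ (inv_mem hg) _ (mul_mem (mul_mem hg' hb) (inv_mem hg')),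
      mul_assoc g g', ← mul_assoc g', ← hc a ha g' hg']
    group

end Cfsg.Agent.S3209
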