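import Cfsg.Statements.S3210
import Cfsg.Agent.Classical.SL2Cp
import Cfsg.Agent.Classical.SL2b

set_option autoImplicit false
open Cfsg

namespace Cfsg.Agent.S3210

/-- Let G be a finite group with subgroups L₁ ≅ SL₂(q₁) and L₂ ≅ SL₂(q₂), q₁ and q₂ odd prime powers, which commute elementwise and meet in ⟨j⟩ for an involution j, and suppose L₁L₂ has index 2 in C_G(j). Then every element n of C_G(j) outside L₁L₂ either normalizes both L₁ and L₂, or conjugates L₁ onto L₂; in the second case q₁ = q₂ and there is an element n′ of C_G(j) outside L₁L₂ conjugating L₁ onto L₂ with n′² ∈ ⟨j⟩. -/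
theorem result {G : Type*} [Group G] [Finite G]
    {F₁ : Type*} [Field F₁] [Fintype F₁] {F₂ : Type*} [Field F₂] [Fintype F₂]
    (hF₁ : Odd (Fintype.card F₁)) (hF₂ : Odd (Fintype.card F₂)) (L₁ L₂ : Subgroup G)
    (e₁ : ↥L₁ ≃* Matrix.SpecialLinearGroup (Fin 2) F₁) (e₂ : ↥L₂ ≃* Matrix.SpecialLinearGroup (Fin 2) F₂)
    (hc : ∀ x ∈ L₁, ∀ y ∈ L₂, x * y = y * x) (j : G) (hj : orderOf j = 2) (hm : L₁ ⊓ L₂ = Subgroup.zpowers j)
    (hle : L₁ ⊔ L₂ ≤ Subgroup.centralizer ({j} : Set G)) (hi : (L₁ ⊔ L₂).relIndex (Subgroup.centralizer ({j} : Set G)) = 2) (n : G) (hn : n ∈ Subgroup.centralizer ({j} : Set G)) (hn' : n ∉ L₁ ⊔ L₂) :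
    (L₁.map (MulAut.conj n).toMonoidHom = L₁ ∧ L₂.map (MulAut.conj n).toMonoidHom = L₂) ∨
      (L₁.map (MulAut.conj n).toMonoidHom = L₂ ∧ Fintype.card F₁ = Fintype.card F₂ ∧
        ∃ n' ∈ Subgroup.centralizer ({j} : Set G), n' ∉ L₁ ⊔ L₂ ∧ L₁.map (MulAut.conj n').toMonoidHom = L₂ ∧ n' ^ 2 ∈ Subgroup.zpowers j) := by
  open CF.Classical in
  have h1 := two_ne_zero_of_odd_card (Nat.card_eq_fintype_card (α := F₁) ▸ hF₁)
  have h2 := two_ne_zero_of_odd_card (Nat.card_eq_fintype_card (α := F₂) ▸ hF₂)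
  have hsq : ∀ g ∈ Subgroup.centralizer {j}, g * g ∈ L₁ ⊔ L₂ := fun g hg =>
    Subgroup.mul_self_mem_of_index_two hi ⟨g, hg⟩
  have hN := Subgroup.normal_of_index_eq_two hi
  set N := L₁.map (MulAut.conj n).toMonoidHom with eN
  set M := L₂.map (MulAut.conj n).toMonoidHom with eM
  have cN : Nat.card N = Nat.card L₁ := Subgroup.card_map_of_injective (MulAut.conj n).injective
  have cM : Nat.card M = Nat.card L₂ := Subgroup.card_map_of_injective (MulAut.conj n).injective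
  have hc' : ∀ x ∈ N, ∀ y ∈ M, x * y = y * x := by
    rintro _ ⟨x, hx, rfl⟩ _ ⟨y, hy, rfl⟩
    rw [← map_mul, hc x hx y hy, map_mul]
  have hs : N ⊔ M = L₁ ⊔ L₂ := by
    rw [← Subgroup.map_sup]
    refine Subgroup.eq_of_le_of_card_ge ?_ (Subgroup.card_map_of_injective (MulAut.conj n).injective).ge
    rintro _ ⟨x, hx, rfl⟩
    exact hN.conj_mem ⟨x, hle hx⟩ hx ⟨n, hn⟩
  have mono : ∀ a b : ℕ, 2 ≤ b → a < b → a * (a ^ 2 - 1) < b * (b ^ 2 - 1) := fun a b h h' =>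
    Nat.mul_lt_mul_of_lt_of_le h' (Nat.sub_le_sub_right (Nat.pow_le_pow_left h'.le 2) 1) (by
      have := Nat.pow_le_pow_left h 2
      omega)
  have big : ∀ {K : Subgroup G}, 2 < Nat.card K → K ≤ L₁ → K ≤ L₂ → False := fun h k1 k2 => by
    have := Subgroup.card_le_of_le ((le_inf k1 k2).trans hm.le)
    rw [Nat.card_zpowers, hj] at this
    omega
  rcases le_or_le_of_comm h1 e₁ hj hc hm hc' hs with k1 | k1 <;>
    rcases le_or_le_of_comm h2 e₂ hj (fun x hx y hy => (hc y hy x hx).symm)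
      ((inf_comm _ _).trans hm) hc' (hs.trans (sup_comm _ _)) with k2 | k2
  · exact (big (cN ▸ two_lt_card_of_sl2 e₁) k2 k1).elim
  · have c1 := Subgroup.card_le_of_le k1
    have c2 := Subgroup.card_le_of_le k2
    have e1 : N = L₂ := Subgroup.eq_of_le_of_card_ge k1 (by omega)
    have c3 : Nat.card L₁ = Nat.card L₂ := by omega
    rw [Nat.card_congr e₁.toEquiv, Nat.card_congr e₂.toEquiv, card_SL_two, card_SL_two] at c3
    refine Or.inr ⟨e1, ?_, ?_⟩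
    · exact le_antisymm (not_lt.1 fun h => (mono _ _ Fintype.one_lt_card h).ne' c3)
        (not_lt.1 fun h => (mono _ _ Fintype.one_lt_card h).ne c3)
    obtain ⟨a, ha, b, hb, e⟩ := (mem_sup_of_comm hc).1 (hsq n hn)
    have a1 : n * a * n⁻¹ ∈ L₂ := k1 ⟨a, ha, rfl⟩
    have b1 : n * b * n⁻¹ ∈ L₁ := k2 ⟨b, hb, rfl⟩
    refine ⟨a⁻¹ * n, mul_mem (inv_mem (hle (Subgroup.mem_sup_left ha))) hn, fun h => hn'
      ((Subgroup.mul_mem_cancel_left _ (inv_mem (Subgroup.mem_sup_left ha))).1 h), ?_, hm.le ⟨?_, ?_⟩⟩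
    · refine Subgroup.eq_of_le_of_card_ge ?_ (by
        rw [Subgroup.card_map_of_injective (MulAut.conj _).injective]; omega)
      rintro _ ⟨x, hx, rfl⟩
      have x1 : n * x * n⁻¹ ∈ L₂ := k1 ⟨x, hx, rfl⟩
      convert x1 using 1
      change a⁻¹ * n * x * (a⁻¹ * n)⁻¹ = _
      rw [← mul_right_inj a, hc a ha _ x1]
      group
    · suffices (a⁻¹ * n) ^ 2 = a⁻¹ * (n * b * n⁻¹) from this ▸ L₁.mul_mem (inv_mem ha) b1
      rw [show b = a⁻¹ * (n * n) by rw [← e]; group, sq]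
      group
    · suffices (a⁻¹ * n) ^ 2 = (n * a * n⁻¹)⁻¹ * b from this ▸ L₂.mul_mem (inv_mem a1) hb
      rw [show b = a⁻¹ * (n * n) by rw [← e]; group, sq, ← mul_assoc _ a⁻¹ (n * n),
        ← hc _ (inv_mem ha) _ (inv_mem a1)]
      group
  · exact Or.inl ⟨Subgroup.eq_of_le_of_card_ge k2 cN.ge, Subgroup.eq_of_le_of_card_ge k1 cM.ge⟩
  · exact (big (cM ▸ two_lt_card_of_sl2 e₂) k2 k1).elim

end Cfsg.Agent.S3210
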