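import Mathlib
import Cfsg.Statements.S3213


set_option autoImplicit false
open Cfsg

namespace Cfsg.Agent.S3213

open Matrix Module

theorem d5 : ∀ a b c d : ZMod 5, a * d - b * c = 1 → !![a, b; c, d] ^ 3 = 1 → !![a, b; c, d] ≠ 1 →
    ∃ s : ZMod 5, (!![d, -b; -c, a] * !![-1, s; 0, -1]) ^ 3 = 1 ∧ (!![-1, s; 0, -1] ^ 2) ^ 5 = 1 ∧
      !![-1, s; 0, -1] ^ 2 ≠ 1 := by
  decide +kernel

theorem el5 (x : SpecialLinearGroup (Fin 2) (ZMod 5)) (h : x ^ 3 = 1) (h1 : x ≠ 1) :
    ∃ y, y ^ 3 = 1 ∧ ((x * y) ^ 2) ^ 5 = 1 ∧ (x * y) ^ 2 ≠ 1 := by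
  have e := Matrix.eta_fin_two (x : Matrix (Fin 2) (Fin 2) (ZMod 5))
  obtain ⟨s, a, b, c⟩ := d5 (x 0 0) (x 0 1) (x 1 0) (x 1 1) (by rw [← Matrix.det_fin_two]; exact x.2)
    (by rw [← e]; exact congrArg Subtype.val h) (by rw [← e]; exact fun k => h1 (Subtype.ext k))
  obtain ⟨g, hg⟩ : ∃ g : SpecialLinearGroup (Fin 2) (ZMod 5), (g : Matrix _ _ _) = !![-1, s; 0, -1] :=
    ⟨⟨_, by simp⟩, rfl⟩
  rw [← hg] at a b c
  refine ⟨x⁻¹ * g, Subtype.ext ?_, ?_⟩
  · change (adjugate (x : Matrix (Fin 2) (Fin 2) (ZMod 5)) * (g : Matrix (Fin 2) (Fin 2) (ZMod 5))) ^ 3 = 1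
    rw [adjugate_fin_two]
    exact a
  · rw [mul_inv_cancel_left]
    exact ⟨Subtype.ext b, fun k => c (congrArg Subtype.val k)⟩

theorem el {K : Type*} [Field K] [Fintype K] (hK : Fintype.card K = 5) (x : SpecialLinearGroup (Fin 2) K)
    (hx : orderOf x = 3) : ∃ y, y ^ 3 = 1 ∧ ((x * y) ^ 2) ^ 5 = 1 ∧ (x * y) ^ 2 ≠ 1 := by
  let e := ZMod.ringEquivOfPrime K Nat.prime_five hK
  let f : SpecialLinearGroup (Fin 2) (ZMod 5) →* _ := SpecialLinearGroup.map e.toRingHom
  let g : SpecialLinearGroup (Fin 2) K →* _ := SpecialLinearGroup.map e.symm.toRingHom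
  have fg : ∀ x, f (g x) = x := fun x => by ext i j; simp [f, g]
  have gf : ∀ x, g (f x) = x := fun x => by ext i j; simp [f, g]
  obtain ⟨y, a, b, c⟩ := el5 (g x) (by rw [← map_pow, ← hx, pow_orderOf_eq_one, map_one]) fun k => by
    rw [← fg x, k, map_one, orderOf_one] at hx; omega
  refine ⟨f y, by rw [← map_pow, a, map_one], ?_, fun k => c ?_⟩
  · rw [← fg x, ← map_mul, ← map_pow, ← map_pow, b, map_one]
  · rw [← gf y, ← map_mul, ← map_pow, k, map_one]

variable {F V : Type*} [Field F] [AddCommGroup V] [Module F V] [FiniteDimensional F V]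

theorem le_map (f : End F V) (U : Submodule F V) :
    finrank F U ≤ finrank F (U.map f) + finrank F (LinearMap.ker f) := by
  rw [← (f.domRestrict U).finrank_range_add_finrank_ker, LinearMap.range_domRestrict, LinearMap.ker_domRestrict,
    add_le_add_iff_left, ← Submodule.finrank_map_subtype_eq, Submodule.map_comap_subtype]
  exact Submodule.finrank_mono inf_le_right

theorem two_le (f : End F V) (h : f ^ 3 = 0) (h4 : finrank F V = 4) : 2 ≤ finrank F (LinearMap.ker f) := by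
  have a := le_map f ⊤
  have b := le_map f (Submodule.map f ⊤)
  have c := le_map f (Submodule.map f (Submodule.map f ⊤))
  rw [show Submodule.map f (Submodule.map f (Submodule.map f ⊤)) = ⊥ by
    rw [← Submodule.map_comp, ← Submodule.map_comp, show (f ∘ₗ f) ∘ₗ f = 0 from (pow_three' f).symm.trans h,
      Submodule.map_zero], finrank_bot] at c
  rw [finrank_top] at a
  omega


/-- Let F be the field with 3 elements and K the field with 5 elements. For every injective homomorphism φ from SL₂(K) into the symplectic group Sp₄(F) (4 × 4 matrices g with g J gᵀ = J for the standard alternating matrix J) and every element x of order 3 of SL₂(K), the vectors of F⁴ fixed by φ(x) form a 2-dimensional subspace that is totally isotropic for the alternating form defined by J. -/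
theorem result {F : Type*} [Field F] [Fintype F] (hF : Fintype.card F = 3)
    {K : Type*} [Field K] [Fintype K] (hK : Fintype.card K = 5)
    (φ : Matrix.SpecialLinearGroup (Fin 2) K →* ↥(Matrix.symplecticGroup (Fin 2) F)) (hφ : Function.Injective φ)
    (x : Matrix.SpecialLinearGroup (Fin 2) K) (hx : orderOf x = 3) :
    Module.finrank F ↥(LinearMap.ker (Matrix.toLin' ((φ x : Matrix (Fin 2 ⊕ Fin 2) (Fin 2 ⊕ Fin 2) F)) - LinearMap.id)) = 2 ∧
      ∀ v w : Fin 2 ⊕ Fin 2 → F, (φ x : Matrix (Fin 2 ⊕ Fin 2) (Fin 2 ⊕ Fin 2) F).mulVec v = v →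
        (φ x : Matrix (Fin 2 ⊕ Fin 2) (Fin 2 ⊕ Fin 2) F).mulVec w = w →
          dotProduct v ((Matrix.J (Fin 2) F).mulVec w) = 0 := by
  classical
  let ρ : SpecialLinearGroup (Fin 2) K →* End F (Fin 2 ⊕ Fin 2 → F) :=
    (Matrix.toLinAlgEquiv'.toAlgHom.toRingHom.toMonoidHom.comp (symplecticGroup (Fin 2) F).subtype).comp φ
  have inj : Function.Injective ρ := (Matrix.toLinAlgEquiv'.injective.comp Subtype.val_injective).comp hφ
  have h4 : finrank F (Fin 2 ⊕ Fin 2 → F) = 4 := by simp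
  have h3 : (3 : End F (Fin 2 ⊕ Fin 2 → F)) = 0 := by
    have := congrArg (algebraMap F (End F (Fin 2 ⊕ Fin 2 → F))) (hF ▸ FiniteField.cast_card_eq_zero F)
    rwa [map_natCast, map_zero] at this
  have nil : ∀ y, y ^ 3 = 1 → (ρ y - 1) ^ 3 = 0 := fun y h => by
    rw [show (ρ y - 1) ^ 3 = ρ y ^ 3 - 1 + 3 * (ρ y - ρ y ^ 2) by
      simp only [pow_succ, pow_zero, one_mul, mul_one, sub_mul, mul_sub, show (3 : End F (Fin 2 ⊕ Fin 2 → F)) = 1 + 1 + 1 by norm_num, add_mul]; abel, ← map_pow, h, map_one, h3]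
    simp
  have fx : ∀ {y v}, v ∈ LinearMap.ker (ρ y - 1) ↔ ρ y v = v := by simp [sub_eq_zero]
  obtain ⟨y, y3, g5, g1⟩ := el hK x hx
  have x3 := nil x (hx ▸ pow_orderOf_eq_one x)
  have b0 : LinearMap.ker (ρ ((x * y) ^ 2) - 1) = ⊥ := by
    generalize (x * y) ^ 2 = g at *
    haveI := Fact.mk Nat.prime_five
    have := Equiv.Perm.card_fixedPoints_modEq (f := (⇑(ρ g) : Function.End (Fin 2 ⊕ Fin 2 → F))) (p := 5) (n := 1) (by
      change (ρ g)^[5] = id
      rw [← End.coe_pow, ← map_pow, g5, map_one]; rfl)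
    rw [Fintype.card_congr (α := Function.fixedPoints _) (β := LinearMap.ker (ρ g - 1))
      (Equiv.subtypeEquivRight fun v => fx.symm),
      Module.card_eq_pow_finrank (K := F) (V := LinearMap.ker _),
      Module.card_eq_pow_finrank (K := F) (V := _ → F), hF, h4] at this
    have l := h4 ▸ (LinearMap.ker (ρ g - 1)).finrank_le
    have n : finrank F (LinearMap.ker (ρ g - 1)) ≠ 4 := fun e => g1 (inj (by
      rw [map_one, ← sub_eq_zero, ← LinearMap.ker_eq_top]
      exact Submodule.eq_top_of_finrank_eq (e.trans h4.symm)))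
    rw [← Submodule.finrank_eq_zero]
    generalize finrank F (LinearMap.ker (ρ g - 1)) = d at *
    interval_cases d <;> first | rfl | exact absurd this (by decide) | exact absurd rfl n
  have d2 : finrank F (LinearMap.ker (ρ x - 1)) = 2 := by
    have a := two_le _ x3 h4
    have b := two_le _ (nil y y3) h4
    have c := Submodule.finrank_add_finrank_le_of_disjoint (s := LinearMap.ker (ρ x - 1))
      (t := LinearMap.ker (ρ y - 1)) (disjoint_iff_inf_le.2 (b0 ▸ fun v hv => fx.2 (by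
        simp only [pow_two, map_mul, End.mul_apply, fx.1 hv.1, fx.1 hv.2])))
    omega
  refine ⟨d2, fun v w hv hw => ?_⟩
  have iv : ∀ v u, (φ x : Matrix _ _ F) *ᵥ v = v → v ⬝ᵥ J (Fin 2) F *ᵥ (ρ x - 1) u = 0 := fun v u h => by
    change v ⬝ᵥ J (Fin 2) F *ᵥ ((φ x : Matrix _ _ F) *ᵥ u - u) = 0
    rw [mulVec_sub, dotProduct_sub, sub_eq_zero]
    nth_rw 1 [← h]
    rw [mulVec_mulVec, ← vecMul_transpose, ← dotProduct_mulVec, mulVec_mulVec, ← Matrix.mul_assoc,
      SymplecticGroup.mem_iff'.1 (φ x).2]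
  have alt : ∀ v w : Fin 2 ⊕ Fin 2 → F, v ⬝ᵥ J (Fin 2) F *ᵥ w = -(w ⬝ᵥ J (Fin 2) F *ᵥ v) := fun v w => by
    rw [dotProduct_mulVec, ← mulVec_transpose, J_transpose, neg_mulVec, neg_dotProduct, dotProduct_comm]
  have a0 : v ⬝ᵥ J (Fin 2) F *ᵥ v = 0 := by
    have h3 : (3 : F) = 0 := by exact_mod_cast hF ▸ FiniteField.cast_card_eq_zero F
    have := alt v v
    linear_combination (v ⬝ᵥ J (Fin 2) F *ᵥ v) * h3 - this
  obtain ⟨u, u0, u1⟩ : ∃ u, (ρ x - 1) u ≠ 0 ∧ (ρ x - 1) u ∈ LinearMap.ker (ρ x - 1) := by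
    by_cases h : ∃ u, (ρ x - 1) ((ρ x - 1) u) ≠ 0
    · obtain ⟨u, h⟩ := h
      exact ⟨_, h, by rw [pow_three] at x3; exact LinearMap.congr_fun x3 u⟩
    · push Not at h
      obtain ⟨u, hu⟩ : ∃ u, (ρ x - 1) u ≠ 0 := by
        by_contra! k
        rw [LinearMap.ker_eq_top.2 (LinearMap.ext k), finrank_top, h4] at d2
        omega
      exact ⟨u, hu, h u⟩
  by_cases m : v ∈ F ∙ (ρ x - 1) u
  · obtain ⟨c, rfl⟩ := Submodule.mem_span_singleton.1 m
    rw [smul_dotProduct, alt, iv w u hw]; simp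
  have v0 : v ≠ 0 := fun e => m (e ▸ zero_mem _)
  have s := Submodule.finrank_sup_add_finrank_inf_eq (F ∙ (ρ x - 1) u) (F ∙ v)
  rw [((Submodule.disjoint_span_singleton' v0).2 m).eq_bot, finrank_span_singleton u0, finrank_span_singleton v0,
    finrank_bot] at s
  have := (Submodule.eq_of_le_of_finrank_le (sup_le ((Submodule.span_singleton_le_iff_mem _ _).2 u1)
    ((Submodule.span_singleton_le_iff_mem _ _).2 (fx.2 hv))) (by omega)).ge (fx.2 hw)
  obtain ⟨_, ha, _, hb, rfl⟩ := Submodule.mem_sup.1 this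
  obtain ⟨a, rfl⟩ := Submodule.mem_span_singleton.1 ha
  obtain ⟨b, rfl⟩ := Submodule.mem_span_singleton.1 hb
  rw [mulVec_add, mulVec_smul, mulVec_smul, dotProduct_add, dotProduct_smul, dotProduct_smul, a0, iv v u hv]
  simp

end Cfsg.Agent.S3213
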