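import Cfsg.Statements.S3215
import Cfsg.Agent.CIT.Basic

set_option autoImplicit false
open Cfsg

namespace Cfsg.Agent.S3215

/-- Let H be a finite solvable group with no nontrivial normal subgroup of odd order in which the centralizer of every involution has a normal 2-complement. Let X be a Hall 2'-subgroup of H (odd order, index a power of 2) and Y = O₂(H). Then no non-identity element of X commutes with a non-identity element of Y (so for X ≠ 1 the group XY is a Frobenius group with kernel Y), every Sylow subgroup of X is cyclic, XY is normal in H, and H/XY is a cyclic 2-group. -/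
theorem result {H : Type*} [Group H] [Finite H] (hsol : Group.IsSolvable H)
    (hO : Cfsg.oddCore H = ⊥)
    (hI : ∀ t : H, orderOf t = 2 → Cfsg.HasNormalPComplement 2 ↥(Subgroup.centralizer ({t} : Set H)))
    (X : Subgroup H) (hXodd : Odd (Nat.card X)) (hXidx : ∃ k : ℕ, X.index = 2 ^ k) :
    (∀ x ∈ X, x ≠ 1 → ∀ y ∈ Cfsg.pCore 2 H, y ≠ 1 → x * y ≠ y * x) ∧
      (∀ (p : ℕ) [Fact p.Prime] (P : Sylow p ↥X), IsCyclic ↥(P : Subgroup ↥X)) ∧
      (X ⊔ Cfsg.pCore 2 H).Normal ∧
      ∀ hN : (X ⊔ Cfsg.pCore 2 H).Normal, IsCyclic (H ⧸ (X ⊔ Cfsg.pCore 2 H)) ∧ IsPGroup 2 (H ⧸ (X ⊔ Cfsg.pCore 2 H)) := by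
  open CF.BG CF.CIT Subgroup in
  haveI := Fact.mk Nat.prime_two
  have p2 := Nat.prime_two
  have s : Sol (⊤ : Subgroup H) := inferInstance
  have hq : 𝐎 {2} (⊤ : Subgroup (H ⧸ pCore 2 H)) = ⊥ := (pCore_eq p2).symm.trans CF.Solv.pCore_quotient_pCore
  have eY := pCore_eq (G := H) p2
  have h0 : 𝐎 {2}ᶜ (⊤ : Subgroup H) = ⊥ := pPrimeCore_eq (G := H) p2 ▸ hO
  have cY := s.cent_O_le h0
  have nY := O_normal {2} (⊤ : Subgroup H)
  have kY := O_pi {2} (⊤ : Subgroup H)
  rw [← eY] at cY nY kY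
  generalize_proofs _ nn at hq
  generalize pCore 2 H = Y at *
  have ci : IsCIT H := isCIT_iff.2 fun t ht => PiGrp.isPGroup (by
    by_contra k
    obtain ⟨y, hy, y1, o⟩ := exists_odd_of_not_two k
    have oy := piElt_odd.2 o
    have m := ((npc_iff p2).2 (hI t ht)).mem_O hy oy
    have := cent_of_pxq (P := zpowers t) (Q := zpowers y) (piElt_of_sq (by
      rw [← sq, ← ht, pow_orderOf_eq_one])).zpowers kY oy.zpowers
      (cent_symm (cent_zpowers t ▸ zpowers_le.2 hy)) (le_top.trans nY.norm) (le_top.trans nY.norm)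
      (cent_symm ((zpowers_le.2 m).trans (O_compl_cent_normal
        (cent_zpowers t ▸ nY.inf_right le_top) kY.inf_left)))
    exact y1 ((kY.elt (cY ⟨trivial, this (mem_zpowers y)⟩)).eq_one oy))
  have oX := piGrp_odd.2 hXodd
  have r := ci.reg kY oX
  have z : ZGrp X := by
    rcases eq_or_ne Y ⊥ with rfl | h
    · rw [cent_bot, inf_idem] at cY
      exact (cyc_bot.mono (le_top.trans cY)).zGrp
    exact r.zGrp (le_top.trans nY.norm) h hXodd
  obtain ⟨k, hk⟩ := hXidx
  have hX : Hall {2}ᶜ X ⊤ := ⟨le_top, oX, by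
    rw [relIndex_top_right, hk, compl_compl]; exact piNat_pow_self p2 k⟩
  let f := QuotientGroup.mk' Y
  have sj := QuotientGroup.mk'_surjective Y
  have hX' := hX.map f
  have s' := s.map f
  rw [map_top_of_surjective f sj] at hX' s'
  have c' := ci.quotient kY
  have oF : PiGrp {2}ᶜ (𝐅 (⊤ : Subgroup (H ⧸ Y))) := by
    have := (F_nil (⊤ : Subgroup (H ⧸ Y))).hall_O {2}
    rw [O_F, hq] at this
    exact this.pi'_of_eq_bot
  have lF := hX'.le_of_normal (F_normal _) oF
  have zF : ZGrp (X.map f) := IsZGroup.of_surjective (f.subgroupMap_surjective X)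
  have cF := (zF.mono lF).cyc_of_nil (F_nil _)
  have d : ⁅(⊤ : Subgroup (H ⧸ Y)), ⊤⁆ ≤ 𝐅 ⊤ :=
    (le_inf le_top (cF.der_le_cent (F_normal _).norm)).trans s'.cent_F_le
  refine ⟨fun x hx x1 y hy y1 c => (r.eq_one hx hy c).elim x1 y1, fun p hp P => z.1 p hp.1 P, ?_,
    fun hN => ?_⟩
  · have := (normalIn_top.1 (normalIn_of_der_le le_top (d.trans lF))).comap f
    rwa [comap_map_eq, QuotientGroup.ker_mk'] at this
  have k2 : PiGrp {2} (⊤ : Subgroup (H ⧸ X ⊔ Y)) := by
    rw [PiGrp, card_top', ← index_eq_card]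
    exact (piNat_pow_self p2 k).dvd (hk ▸ index_dvd_of_le le_sup_left)
  refine ⟨?_, k2.isPGroup.of_equiv topEquiv⟩
  obtain ⟨T, hT⟩ := exists_syl 2 (⊤ : Subgroup (H ⧸ Y))
  have cT : Cyc T := by
    rcases eq_or_ne (𝐅 (⊤ : Subgroup (H ⧸ Y))) ⊥ with h | h
    · exact cyc_bot.mono (le_top.trans (by_contra fun e => s'.F_ne_bot (mt le_of_eq e) h))
    exact (c'.reg hT.pi oF).symm.cyc_of_abel (le_top.trans (F_normal _).norm) h (der_eq_bot.1
      (eq_bot_mono (hT.pi.inf_eq_bot oF) (le_inf (der_le T) ((der_mono le_top).trans d))))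
  let π := QuotientGroup.map Y (X ⊔ Y) (MonoidHom.id H) le_sup_right
  have hT' := hT.map π
  rw [map_top_of_surjective π (QuotientGroup.map_surjective_of_surjective _ _ _
    QuotientGroup.mk_surjective _)] at hT'
  have := cT.map π
  rw [hT'.eq_of_pi k2] at this
  exact isCyclic_of_surjective _ topEquiv.surjective

end Cfsg.Agent.S3215
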