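import Cfsg.Statements.S3219
import Cfsg.Agent.Perm.Kf8

set_option autoImplicit false
open Cfsg

namespace Cfsg.Agent.S3219


/-- Let G be a finite doubly transitive permutation group on a set Ω in which the stabilizer of two points is isomorphic to the alternating group A₄. Then Ω has 6 points and G ≅ A₆, or Ω has 15 points and G ≅ A₇, or Ω has 16 points and G is isomorphic to the group of all affine transformations of the affine plane over the field with 4 elements, or G = C_G(J)O(G) for some involution J of G, where O(G) is the largest normal subgroup of G of odd order. -/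
theorem result {G : Type*} [Group G] [Finite G] {Ω : Type*} [Fintype Ω] [MulAction G Ω] [FaithfulSMul G Ω]
    (h2 : MulAction.IsMultiplyPretransitive G Ω 2) (a b : Ω) (hab : a ≠ b)
    (e : ↥(MulAction.stabilizer G a ⊓ MulAction.stabilizer G b) ≃* ↥(alternatingGroup (Fin 4))) :
    (Fintype.card Ω = 6 ∧ Nonempty (G ≃* ↥(alternatingGroup (Fin 6)))) ∨ (Fintype.card Ω = 15 ∧ Nonempty (G ≃* ↥(alternatingGroup (Fin 7)))) ∨
      (Fintype.card Ω = 16 ∧ ∃ (F : Type) (_ : Field F) (_ : Fintype F), Fintype.card F = 4 ∧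
        Nonempty (G ≃* ((Fin 2 → F) ≃ᵃ[F] (Fin 2 → F)))) ∨
      (∃ J : G, orderOf J = 2 ∧ Subgroup.centralizer ({J} : Set G) ⊔ Cfsg.oddCore G = ⊤) := by
  haveI := Fact.mk Nat.prime_three
  obtain ⟨f⟩ := CF.Classical.PSL2_three_equiv (F := ZMod 3) (by simp)
  simpa only [Nat.card_eq_fintype_card] using CF.Kf.main3 (CF.Kf.hy_of h2 (.inl ⟨rfl, rfl⟩) hab
    ⟨ZMod 3, _, inferInstance, by simp, ⟨e.trans f.symm⟩⟩) hab

end Cfsg.Agent.S3219
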