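import Cfsg.Statements.S3227
import Cfsg.Agent.ThR.Main

set_option autoImplicit false
open Cfsg

namespace Cfsg.Agent.S3227

/-- Let G be a finite group with an involution z and H = C_G(z), such that G ≠ H·O(G), where O(G) is the largest normal subgroup of G of odd order, and such that J, the largest normal 2-subgroup of H, is extraspecial of order 2⁹ with C_H(J) ≤ J and H/J ≅ A₉. Then G is a simple group of order 2¹⁵·3¹⁰·5³·7²·13·19·31 with a single conjugacy class of involutions, and G is isomorphic to the Thompson sporadic group. -/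
theorem result {G : Type*} [Group G] [Finite G]
    (z : G) (hz : orderOf z = 2) (hG : Subgroup.centralizer ({z} : Set G) ⊔ Cfsg.oddCore G ≠ ⊤)
    (hJ : Cfsg.IsExtraspecial 2 ↥(Cfsg.pCore 2 ↥(Subgroup.centralizer ({z} : Set G)))) (hJc : Nat.card ↥(Cfsg.pCore 2 ↥(Subgroup.centralizer ({z} : Set G))) = 2 ^ 9)
    (hCJ : Subgroup.centralizer ((Cfsg.pCore 2 ↥(Subgroup.centralizer ({z} : Set G))) : Set ↥(Subgroup.centralizer ({z} : Set G))) ≤ Cfsg.pCore 2 ↥(Subgroup.centralizer ({z} : Set G)))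
    [hn : (Cfsg.pCore 2 ↥(Subgroup.centralizer ({z} : Set G))).Normal]
    (e : (↥(Subgroup.centralizer ({z} : Set G)) ⧸ Cfsg.pCore 2 ↥(Subgroup.centralizer ({z} : Set G))) ≃* ↥(alternatingGroup (Fin 9))) :
    IsSimpleGroup G ∧ Nat.card G = 90745943887872000 ∧ (∀ x y : G, orderOf x = 2 → orderOf y = 2 → IsConj x y) ∧
      Cfsg.Spor.IsoTh G := by
  obtain ⟨_, _, h⟩ := CF.ThR.th_sub hz hJ hJc hCJ e
  obtain ⟨⟨i⟩, k⟩ := h.main fun n => hG ((sup_comm _ _).trans (CF.Invol.isolated_sup_centralizer n))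
  exact ⟨(CF.ThR.isTh_of i).1, (CF.ThR.isTh_of i).2, k, ⟨i⟩⟩

end Cfsg.Agent.S3227
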