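import Mathlib
import Cfsg.Agent.Fgs2.Sc6
import Cfsg.Statements.S3240

set_option autoImplicit false
open Cfsg

namespace Cfsg.Agent.S3240

/-- Call a subgroup A of a finite group G strongly self-centralizing if C_G(a) = A for every non-identity a ∈ A. Let G be a finite non-abelian simple group with three pairwise non-conjugate strongly self-centralizing subgroups A₁, A₂, A₃ with [N_G(A₁) : A₁] = 2, [N_G(A₂) : A₂] = [N_G(A₃) : A₃] = 4, |A₁| = n₁ ≥ 5, |A₂| = n₂ > 5, |A₃| = n₃ > 5, such that |G| ≤ 3 n₁² n₂² n₃² and the Sylow r-subgroups of G are abelian for every odd prime r not dividing n₁n₂n₃. Then G is isomorphic to a Suzuki group. -/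
theorem result {G : Type*} [Group G] [Finite G] [IsSimpleGroup G] (hG : ¬ IsMulCommutative G)
    (A₁ A₂ A₃ : Subgroup G)
    (hsc : ∀ A ∈ ({A₁, A₂, A₃} : Set (Subgroup G)), ∀ a ∈ A, a ≠ 1 → Subgroup.centralizer ({a} : Set G) = A)
    (hnc : ∀ g : G, A₁.map (MulAut.conj g).toMonoidHom ≠ A₂ ∧ A₁.map (MulAut.conj g).toMonoidHom ≠ A₃ ∧ A₂.map (MulAut.conj g).toMonoidHom ≠ A₃)
    (h₁ : A₁.relIndex (Subgroup.normalizer (A₁ : Set G)) = 2) (h₂ : A₂.relIndex (Subgroup.normalizer (A₂ : Set G)) = 4)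
    (h₃ : A₃.relIndex (Subgroup.normalizer (A₃ : Set G)) = 4)
    (hn₁ : 5 ≤ Nat.card ↥A₁) (hn₂ : 5 < Nat.card ↥A₂) (hn₃ : 5 < Nat.card ↥A₃)
    (hord : Nat.card G ≤ 3 * Nat.card ↥A₁ ^ 2 * Nat.card ↥A₂ ^ 2 * Nat.card ↥A₃ ^ 2)
    (hab : ∀ r : ℕ, r.Prime → r ≠ 2 → ¬ r ∣ Nat.card ↥A₁ * Nat.card ↥A₂ * Nat.card ↥A₃ →
      ∀ P : Sylow r G, IsMulCommutative ↥(P : Subgroup G)) :
    Cfsg.Lie.IsoSuzuki G := by
  haveI := Fintype.ofFinite G
  have sc : ∀ (A : Subgroup G) (k : ℕ), A ∈ ({A₁, A₂, A₃} : Set (Subgroup G)) →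
      A.relIndex (Subgroup.normalizer (A : Set G)) = k → 1 < Nat.card A → 2 ∣ k →
      CF.Fgs2.Sc.SC A k := fun A k m i c e =>
    ⟨hsc A m, by
      rw [← i, Subgroup.relIndex, ← (A.subgroupOf _).index_mul_card,
        Nat.card_congr (Subgroup.subgroupOfEquivOfLe Subgroup.le_normalizer).toEquiv],
      fun h => by rw [h, Subgroup.card_bot] at c; omega, e⟩
  have s1 := sc A₁ 2 (by simp) h₁ (by omega) (by norm_num)
  have s2 := sc A₂ 4 (by simp) h₂ (by omega) (by norm_num)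
  have s3 := sc A₃ 4 (by simp) h₃ (by omega) (by norm_num)
  exact CF.Fgs2.Sc.Hyp.main ⟨s1, s2, s3, s1.coprime s2 fun g => (hnc g).1,
    s1.coprime s3 fun g => (hnc g).2.1, s2.coprime s3 fun g => (hnc g).2.2, hn₁, hn₂, hn₃, hord⟩

end Cfsg.Agent.S3240
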