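import Cfsg.Statements.S3245
import Cfsg.Agent.CIT.More
import Cfsg.Agent.Bender.Final

set_option autoImplicit false
open Cfsg

namespace Cfsg.Agent.S3245

section
open Subgroup CF.BG CF.Invol CF.Bender CF.CIT
variable {G : Type*} [Group G] [Finite G]

theorem ex_max {X : Subgroup G} (h : PiGrp {2} X) (n : X ≠ ⊥) :
    ∃ M, IsMaximalTwoLocal M ∧ 𝐍 X ≤ M := by
  obtain ⟨M, l, hM⟩ := Finite.exists_le_maximal (p := fun N : Subgroup G => IsTwoLocal N)
    ⟨X, h.isPGroup, n, rfl⟩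
  exact ⟨M, ⟨hM.1, fun N hN le => le_antisymm (hM.2 hN le) le⟩, l⟩

theorem key (h1 : ∀ M M' : Subgroup G, IsMaximalTwoLocal M → IsMaximalTwoLocal M' →
      ∃ g : G, M' = cj g M) (X : Subgroup G) :
    PiGrp {2} X → X ≠ ⊥ → ∀ H K, IsMaximalTwoLocal H → IsMaximalTwoLocal K → X ≤ H → X ≤ K →
      H = K := by
  induction X using WellFoundedGT.induction with | ind X ih => ?_
  intro p n
  obtain ⟨M, hM, l⟩ := ex_max p n
  suffices A : ∀ H, IsMaximalTwoLocal H → X ≤ H → H = M from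
    fun H K hH hK a b => (A H hH a).trans (A K hK b).symm
  intro H hH xH
  obtain ⟨S, hS, -⟩ := exists_syl_le le_top p
  obtain ⟨P, hP, xP⟩ := exists_syl_le xH p
  rcases xP.eq_or_lt with e | lt
  · subst e
    obtain ⟨S, hS, xS⟩ := exists_syl_le le_top p
    obtain ⟨M', hM', l'⟩ := ex_max hS.pi (ne_bot_of_le_ne_bot n xS)
    obtain ⟨g, rfl⟩ := h1 M' H hM' hH
    have t : Syl 2 X ⊤ := (hS.cj_top g).of_card_le le_top p
      (hP.card_le (cj_mono g (le_normalizer.trans l')) (hS.cj_top g).pi)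
    obtain ⟨k, hk⟩ := h1 M _ hM hH
    obtain ⟨m, hm, e⟩ := (t.of_le (le_normalizer.trans l) le_top).syl_conj
      ((t.cj_top k⁻¹).of_le (le_cj_iff.1 (hk ▸ xH)) le_top)
    have : k * m ∈ 𝐍 X := cj_eq_self.1 (by rw [← cj_cj, ← e, cj_cj_inv])
    rw [hk, cj_of_mem (by simpa using M.mul_mem (l this) (M.inv_mem hm))]
  · have lt' := hP.pi.nil.lt_inf_norm lt
    exact ih _ lt' (hP.pi.le inf_le_left) lt'.ne_bot H M hH hM (inf_le_left.trans hP.le)
      (inf_le_right.trans l)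

end

/-- A finite non-abelian simple group in which all maximal 2-local subgroups are conjugate is isomorphic to L₂(2ⁿ), Sz(2ⁿ) or U₃(2ⁿ) for some n ≥ 2. -/
theorem result {G : Type*} [Group G] [Finite G] [IsSimpleGroup G] (hG : ¬ IsMulCommutative G)
    (h1 : ∀ M M' : Subgroup G, Cfsg.IsMaximalTwoLocal M → Cfsg.IsMaximalTwoLocal M' → ∃ g : G, M' = M.map (MulAut.conj g).toMonoidHom) :
    (∃ (F : Type) (_ : Field F) (_ : Fintype F) (n : ℕ), 2 ≤ n ∧ Fintype.card F = 2 ^ n ∧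
        Nonempty (G ≃* Matrix.ProjectiveSpecialLinearGroup (Fin 2) F)) ∨
      Cfsg.Lie.IsoSuzuki G ∨
      (∃ (F : Type) (_ : Field F) (_ : Fintype F) (n : ℕ), 2 ≤ n ∧ Fintype.card F = (2 ^ n) ^ 2 ∧ Nonempty (G ≃* Cfsg.PSU 3 F (2 ^ n))) := by
  open CF.BG CF.Invol CF.Bender CF.CIT Subgroup in
  obtain ⟨z, -, hz⟩ := exists_inv_of_not_sol (not_sol_of_simple hG)
  obtain ⟨S, hS, l⟩ := exists_syl_le le_top (CF.Fgs3.piElt_two hz).zpowers
  have n : S ≠ ⊥ := ne_bot_of_mem (l (mem_zpowers z)) (ne_one_of_orderOf hz)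
  obtain ⟨M, hM, l'⟩ := ex_max hS.pi n
  have SM := le_normalizer.trans l'
  have se : IsStronglyEmbedded M := by
    refine se_iff.2 ⟨?_, even_card_of_invol_mem (SM (l (mem_zpowers z))) hz, ?_⟩
    · obtain ⟨T, hT, n, e⟩ := hM.1
      intro h
      rcases (normalizer_eq_top_iff.1 (e ▸ h)).eq_bot_or_eq_top with h | h
      · exact n h
      · exact not_sol_of_simple hG (h ▸ (piGrp_of_isPGroup Nat.prime_two hT).nil.sol)
    · refine (sEmb_iff_normalizer ((hS.of_le SM le_top).isSylowIn Nat.prime_two)).2 fun X lX n => ?_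
      obtain ⟨K, hK, l⟩ := ex_max (hS.pi.le lX) n
      exact key h1 X (hS.pi.le lX) n K M hK hM (le_normalizer.trans l) (lX.trans SM) ▸ l
  obtain ⟨F, _, _, ⟨n, a, b⟩, c⟩ | h | h := (se_simple part2 se).1
  exacts [Or.inl ⟨F, _, _, n, a, b, c⟩, Or.inr (Or.inl h), Or.inr (Or.inr h)]

end Cfsg.Agent.S3245
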