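import Cfsg.Statements.S3246
import Cfsg.Agent.Sig.SftE

set_option autoImplicit false
open Cfsg

namespace Cfsg.Agent.S3246

/-- Let G be a finite group whose Sylow 2-subgroup S has a self-centralizing normal subgroup of rank at least 3. Suppose that either every maximal 2-local subgroup of G is 2-constrained with no nontrivial normal subgroup of odd order, or the centralizer of every involution of G is 2-constrained with no nontrivial normal subgroup of odd order. Then S normalizes no nontrivial subgroup of G of odd order and every 2-local subgroup of G is 2-constrained. -/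
theorem result {G : Type*} [Group G] [Finite G]
    (S : Sylow 2 G) (A : Subgroup G) (hA : Cfsg.IsSCN (S : Subgroup G) A) (hA3 : ¬ Cfsg.PRankLE 2 2 ↥A)
    (h : (∀ M : Subgroup G, Cfsg.IsMaximalTwoLocal M → Cfsg.IsPConstrained 2 ↥M ∧ Cfsg.oddCore ↥M = ⊥) ∨
      (∀ t : G, orderOf t = 2 → Cfsg.IsPConstrained 2 ↥(Subgroup.centralizer ({t} : Set G)) ∧
        Cfsg.oddCore ↥(Subgroup.centralizer ({t} : Set G)) = ⊥)) :
    (∀ X : Subgroup G, Odd (Nat.card ↥X) → (S : Subgroup G) ≤ Subgroup.normalizer (X : Set G) → X = ⊥) ∧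
      (∀ T : Subgroup G, IsPGroup 2 ↥T → T ≠ ⊥ → Cfsg.IsPConstrained 2 ↥(Subgroup.normalizer (T : Set G))) := by
  open CF.BG CF.Sig Subgroup in
  haveI := Fact.mk Nat.prime_two
  have p2 := Nat.prime_two
  have cv : ∀ M : Subgroup G, IsPConstrained 2 M → oddCore M = ⊥ → CharP 2 M := fun M a b =>
    (charP_iff_fstar p2).2 (fstar_eq_pCore_iff_pLayer.2 ⟨isPConstrained_iff_pLayer_eq_bot.1 a, b⟩)
  have hc : ∀ t : G, orderOf t = 2 → CharP 2 (𝐂₁ t) := fun t ht => by
    rcases h with h | h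
    · obtain ⟨M, l, hM, mx⟩ := exists_maximal (P := IsTwoLocal) (H := 𝐍 (zpowers t))
        ⟨_, (pi_zpowers p2 ht).isPGroup, by rintro h; simp_all, rfl⟩
      have := (cv M (h M ⟨hM, mx⟩).1 (h M ⟨hM, mx⟩).2).norm p2 ((le_norm_self _).trans l)
        (pi_zpowers p2 ht)
      rwa [inf_eq_right.2 l, norm_zpowers_two ht] at this
    · exact cv _ (h t ht).1 (h t ht).2
  refine ⟨fun X o n => ?_, fun T hT T1 => isPConstrained_iff_pLayer_eq_bot.2
    (fstar_eq_pCore_iff_pLayer.1 (fstar_eq_pCore_iff.2 ((charTwoType_of (even_iff_two_dvd.2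
      (((piGrp_of_isPGroup p2 hT).dvd_card T1).trans (card_subgroup_dvd_card T))) hc).2 T hT T1))).1⟩
  have hS := syl_sylow_top S
  have a : SCN A S := hA
  have r := (not_pRankLE_iff p2).1 hA3
  have e := a.abel.elem_Om p2
  obtain ⟨V, l, nV, c⟩ := hS.pi.exists_normal (a.normal.Om 2) (r := 2) (by rw [e.log]; omega)
  have v : Elem 2 2 V S := ⟨nV.le, e.ab.le l, c⟩
  have oX : PiGrp {2}ᶜ X := (piNat_compl_single p2).2 o.not_two_dvd_nat
  refine eq_bot_iff.2 (v.abel.le_of_cent1 v.not_cyc (nV.le.trans n) (PiNat.coprime v.pi oX)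
    fun x hx x1 => ?_)
  have k := hc x (v.ab.orderOf hx x1)
  have qp := O_pi {2} (𝐂₁ x)
  have nq : X ⊓ 𝐂₁ x ≤ 𝐍 (𝐎 {2} (𝐂₁ x)) := inf_le_right.trans (O_normal _ _).norm
  obtain ⟨T, hT, lT⟩ := exists_syl_le (K := (S : Subgroup G) ⊓ 𝐂 V) (p := 2) (M := 𝐂₁ x)
    (inf_le_right.trans (cent_le_cent1 hx)) (hS.pi.le inf_le_left)
  have i1 : ((S : Subgroup G) ⊓ 𝐂 V).relIndex T ∣ 2 := by
    have h1 := hS.card_dvd le_top hT.pi
    rw [← card_mul_relIndex lT, ← card_mul_relIndex (H := (S : Subgroup G) ⊓ 𝐂 V) (K := S) inf_le_left,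
      Nat.mul_dvd_mul_iff_left (card_pos' _), inf_relIndex_left] at h1
    exact h1.trans (v.relIndex_cent_dvd_two hS.pi nV.norm)
  have cD : 𝐎 {2} (𝐂₁ x) ⊓ ((S : Subgroup G) ⊓ 𝐂 V) ≤ 𝐂 (X ⊓ 𝐂₁ x) := comm_eq_bot.1 (eq_bot_iff.2
    ((le_inf ((commutator_mono inf_le_left le_rfl).trans (comm_le_left nq))
      ((commutator_mono (inf_le_right.trans inf_le_left) inf_le_left).trans (comm_le_right n))).trans
      (qp.inf_eq_bot oX).le))
  have i2 : (𝐂 (X ⊓ 𝐂₁ x)).relIndex (𝐎 {2} (𝐂₁ x)) ≤ 2 := by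
    refine le_trans ?_ ((relIndex_le_of_le_right (hT.O_le) (relIndex_ne_zero' _ _)).trans
      (Nat.le_of_dvd two_pos i1))
    exact (relIndex_le_of_le_left cD (relIndex_ne_zero' _ _)).trans (inf_relIndex_left _ _).le
  have oY : PiGrp {2}ᶜ (X ⊓ 𝐂₁ x) := oX.inf_left
  have := cent_of_comm_le_cent nq (PiNat.coprime' oY qp) (commutator_le.2 fun q hq y hy => by
    have i3 := relIndex_pos (𝐂 (X ⊓ 𝐂₁ x)) (𝐎 {2} (𝐂₁ x))
    have ny := norm_le_norm_cent _ (le_norm_self _ hy)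
    interval_cases i : (𝐂 (X ⊓ 𝐂₁ x)).relIndex (𝐎 {2} (𝐂₁ x))
    · exact relIndex_eq_one.1 i (comm_le_left nq (commutator_mem_commutator hq hy))
    · have := (mul_mem_iff_of_index_two i (a := ⟨q, hq⟩)
        (b := ⟨_, conj_mem_of_norm (nq hy) (inv_mem hq)⟩)).2 (by
          simp only [mem_subgroupOf]; rw [← mem_norm.1 ny, inv_mem_iff])
      simpa [mem_subgroupOf, commutatorElement_def, mul_assoc] using this)
  exact ((qp.le ((le_inf inf_le_right this).trans k)).eq_bot oY).le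

end Cfsg.Agent.S3246
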