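import Cfsg.Statements.S3247
import Cfsg.Agent.Sig.Bal

set_option autoImplicit false
open Cfsg

namespace Cfsg.Agent.S3247

/-- Let G be a finite group and p a prime; here a p-local subgroup means the normalizer of a nontrivial p-subgroup, other than G itself. If every p-local subgroup of G that is maximal among p-local subgroups is p-constrained, or if the centralizer of every element of order p of G is p-constrained, then every p-local subgroup of G is p-constrained. -/
theorem result {G : Type*} [Group G] [Finite G] (p : ℕ) [hp : Fact p.Prime]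
    (h : (∀ M : Subgroup G, (∃ T : Subgroup G, IsPGroup p ↥T ∧ T ≠ ⊥ ∧ M = Subgroup.normalizer (T : Set G)) → M ≠ ⊤ →
        (∀ M' : Subgroup G, (∃ T' : Subgroup G, IsPGroup p ↥T' ∧ T' ≠ ⊥ ∧ M' = Subgroup.normalizer (T' : Set G)) → M' ≠ ⊤ → M ≤ M' → M = M') →
        Cfsg.IsPConstrained p ↥M) ∨
      (∀ x : G, orderOf x = p → Cfsg.IsPConstrained p ↥(Subgroup.centralizer ({x} : Set G))))
    (T : Subgroup G) (hT : IsPGroup p ↥T) (hT1 : T ≠ ⊥) (hTG : Subgroup.normalizer (T : Set G) ≠ ⊤) :
    Cfsg.IsPConstrained p ↥(Subgroup.normalizer (T : Set G)) := by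
  open CF.BG CF.Sig in
  have hp' : p.Prime := Fact.out
  have t := piGrp_of_isPGroup hp' hT
  rw [isPConstrained_iff_pLayer_eq_bot, ← PLay_eq_bot_iff']
  rcases h with h | h
  · obtain ⟨M, l, ⟨m1, m2⟩, m3⟩ := exists_maximal (P := fun M : Subgroup G =>
      (∃ T : Subgroup G, IsPGroup p ↥T ∧ T ≠ ⊥ ∧ M = 𝐍 T) ∧ M ≠ ⊤) ⟨⟨T, hT, hT1, rfl⟩, hTG⟩
    have := h M m1 m2 fun M' a b c => (m3 M' ⟨a, b⟩ c).symm
    rw [isPConstrained_iff_pLayer_eq_bot, ← PLay_eq_bot_iff'] at this
    have := (constrained_norm hp' this ((le_norm_self T).trans l) t).1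
    rwa [inf_eq_right.2 l] at this
  · obtain ⟨x, hx, ho⟩ := exists_mem_orderOf_eq hp'
      (t.inf_left.dvd_card (t.center_ne_bot hT1))
    have := h x ho
    rw [isPConstrained_iff_pLayer_eq_bot, ← PLay_eq_bot_iff'] at this
    have := (constrained_cent hp' this (le_cent1_iff.2 hx.2) t).1
    rw [inf_eq_right.2 (cent_le_cent1 hx.1), PLay_eq_bot_iff] at this
    refine PLay_eq_bot_iff.2 fun K k => this K (k.of_le hp' ?_ (cent_le_norm T))
    have e := OE_cent_P hp' le_top t
    rw [top_inf_eq] at e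
    exact k.le_PLay.trans (le_sup_left.trans e)

end Cfsg.Agent.S3247
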