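import Cfsg.Statements.S3259
import Cfsg.Agent.Gd.K

set_option autoImplicit false
open Cfsg

namespace Cfsg.Agent.S3259

/-- Let D be a division ring of characteristic 0, G a finite subgroup of the group of invertible 2 × 2 matrices over D, and N a normal subgroup of G such that G/N is a non-abelian simple group S. Then S is isomorphic to PSL₂(5) or PSL₂(9), and N ≠ 1. -/
theorem result
    {D : Type*} [DivisionRing D] [CharZero D] (G : Subgroup (Matrix (Fin 2) (Fin 2) D)ˣ) [Finite ↥G]
    (N : Subgroup ↥G) [hN : N.Normal] (hS : IsSimpleGroup (↥G ⧸ N)) (hna : ¬ IsMulCommutative (↥G ⧸ N)) :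
    (∃ (F : Type) (_ : Field F) (_ : Fintype F), (Fintype.card F = 5 ∨ Fintype.card F = 9) ∧
        Nonempty ((↥G ⧸ N) ≃* Matrix.ProjectiveSpecialLinearGroup (Fin 2) F)) ∧ N ≠ ⊥ := by
  haveI := hS
  have := CF.Gd.main (R := Matrix (Fin 2) (Fin 2) D) (CF.Gd.pi_matrix D)
    (σ := (Units.coeHom _).comp G.subtype) (Units.val_injective.comp G.subtype_injective) hna
    (QuotientGroup.mk'_surjective N)
  rwa [QuotientGroup.ker_mk'] at this

end Cfsg.Agent.S3259
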