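import Cfsg.Statements.S3260
import Cfsg.Agent.QA.H
import Cfsg.Agent.Coprime.Action
import Cfsg.Agent.Classical.Transport

set_option autoImplicit false
open Cfsg

namespace Cfsg.Agent.S3260


/-- Let p ≥ 5 be a prime, G a finite p-constrained group with Sylow p-subgroup S, and A a group of automorphisms of G of order coprime to |G| whose fixed-point subgroup has no section isomorphic to PSL₂(p). Then G = O_{p'}(G) · N_G(Z(J(S))), where J(S) is the subgroup generated by the abelian subgroups of S of largest order. -/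
theorem result {G : Type*} [Group G] [Finite G] (p : ℕ) [hp : Fact p.Prime] (hp5 : 5 ≤ p)
    (hG : Cfsg.IsPConstrained p G) (S : Sylow p G) (A : Subgroup (MulAut G)) (hA : (Nat.card ↥A).Coprime (Nat.card G))
    (C : Subgroup G) (hC : ∀ g : G, g ∈ C ↔ ∀ a ∈ A, a g = g)
    {F : Type*} [Field F] [Fintype F] (hF : Fintype.card F = p)
    (hfix : ¬ Cfsg.Involves (Matrix.ProjectiveSpecialLinearGroup (Fin 2) F) ↥C) :
    Cfsg.pPrimeCore p G ⊔ Subgroup.normalizer (Cfsg.centerThompsonAOf (S : Subgroup G) : Set G) = ⊤ := by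
  open CF.Coprime CF.PLocal CF.Transfer CF.BG Subgroup SemidirectProduct in
  rw [centerThompsonAOf_eq]
  by_cases hd : p ∣ Nat.card G
  swap
  · have h1 : (S : Subgroup G) = ⊥ := by
      obtain ⟨n, hn⟩ := IsPGroup.iff_card.1 S.isPGroup'
      rcases n with _ | n
      · exact card_eq_one.1 hn
      · exact absurd ((dvd_pow_self p n.succ_ne_zero).trans (hn ▸ card_subgroup_dvd_card _)) hd
    have h2 : centerThompsonOf 0 (S : Subgroup G) = ⊥ := le_bot_iff.1 (h1 ▸ centerThompson_le 0 _)
    rw [h2, normalizer_eq_top, sup_top_eq]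
  let φ := A.subtype
  have hN : (sdL φ (pPrimeCore p G)).Normal :=
    (normal_sdL_iff φ).2 ⟨inferInstance, inv_of_characteristic φ _ _⟩
  let f := QuotientGroup.mk' (sdL φ (pPrimeCore p G))
  have hf := QuotientGroup.mk'_surjective (sdL φ (pPrimeCore p G))
  have c : (♯(sdR φ ⊤)).Coprime (♯(sdL φ ⊤)) := sd_coprime φ (by rwa [card_top, card_top])
  have cN : (♯(sdL φ (pPrimeCore p G))).Coprime p := by rw [card_sdL]; exact CF.Solv.pPrimeCore_coprime
  have hi : ¬ p ∣ (sdL φ ⊤).index := by
    have h1 := (sdL φ ⊤).card_mul_index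
    rw [card_sdL, card_top, SemidirectProduct.card] at h1
    rw [Nat.eq_of_mul_eq_mul_left Nat.card_pos h1]
    exact fun h => hp.out.ne_one (Nat.eq_one_of_dvd_coprimes hA h hd)
  have : ((sdL φ ⊤).map f).Normal := Normal.map inferInstance _ hf
  have hS : IsSylowIn p (sdL φ S) ⊤ := by
    have h1 := (isSylowIn_top S).map (inl : G →* G ⋊[φ] A)
    exact ⟨le_top, h1.isPGroup, by
      rw [relIndex_top_right, ← relIndex_mul_index h1.le]
      exact hp.out.not_dvd_mul h1.not_dvd hi⟩
  have h1 := CF.QA.zj_of_fix (G := (sdL φ ⊤).map f) (R := (sdR φ ⊤).map f) hp5 (CF.Sig.coprime_map f c)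
    (fun h => ?_) (fun D hD => ?_) ?_ (isSylowIn_map_mk' hS _)
  · have h2 := (centerThompsonF p 0 (dvd_zero p)).sup_normalizer_eq_top hS.isPGroup _ cN h1
    have h3 := (centerThompsonF p 0 (dvd_zero p)).map (S : Subgroup G) (inl : G →* G ⋊[φ] A)
      inl_injective.injOn
    rw [eq_top_iff]
    intro g _
    obtain ⟨_, ⟨n, hn, rfl⟩, x, hx, e⟩ := mem_sup_of_normal_left.1 (h2.ge (mem_top (inl g)))
    obtain rfl : x = inl (n⁻¹ * g) := by rw [map_mul, map_inv, ← e, inv_mul_cancel_left]
    rw [h3] at hx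
    have h4 : n⁻¹ * g ∈ normalizer (centerThompsonOf 0 (S : Subgroup G) : Set G) :=
      zpowers_le.1 ((sdL_le_normalizer_iff φ).1 (by
        rw [sdL, MonoidHom.map_zpowers, zpowers_le]; exact hx))
    simpa using mul_mem (mem_sup_left hn) (mem_sup_right (S := pPrimeCore p G) h4)
  · rw [← CF.Sig.map_inf_cent_cop f le_normalizer_of_normal c (CF.Hyp.isSolvable_or_of_coprime c),
      sdL_inf_centralizer, map_map] at h
    have e : ⊤ ⊓ fixSub φ ⊤ = C := by
      ext g; rw [top_inf_eq, hC, mem_fixSub_top]; exact Subtype.forall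
    rw [e] at h
    exact hfix (involves_trans (involves_of_equiv (CF.Classical.pslCongr _
      (FiniteField.ringEquivOfCardEq ((ZMod.card p).trans hF.symm))))
      (involves_trans h (involves_of_surjective _ (MonoidHom.subgroupMap_surjective _ _))))
  · by_contra h
    exact hi (((dvd_relIndex_of_not_le hD h).trans (relIndex_dvd_index_of_normal _ _)).trans
      (index_map_dvd _ hf))
  · have hk : (f.comp inl).ker = pPrimeCore p G := by
      ext g
      rw [MonoidHom.mem_ker, MonoidHom.comp_apply, QuotientGroup.mk'_apply, QuotientGroup.eq_one_iff, mem_sdL]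
    rw [map_map, ← MonoidHom.range_eq_map, CF.Loc.isCharP_iff]
    exact charP_of_equiv ((QuotientGroup.quotientMulEquivOfEq hk.symm).trans
      (QuotientGroup.quotientKerEquivRange _)) (isPConstrained_iff.1 hG)

end Cfsg.Agent.S3260
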