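import Cfsg.Statements.S3261
import Cfsg.Agent.GW.App
import Cfsg.Agent.Classical.SmallIso

set_option autoImplicit false
open Cfsg

namespace Cfsg.Agent.S3261

open CF.GW CF.Invol CF.Transfer Subgroup Equiv Equiv.Perm

theorem cent_a6 (αt : alternatingGroup (Fin 6)) (hαt : orderOf αt = 2)
    (hsupp : (αt : Perm (Fin 6)).support.card = 4) :
    Nonempty (centralizer ({αt} : Set (alternatingGroup (Fin 6))) ≃* DihedralGroup 4) := by
  let α₀ : alternatingGroup (Fin 6) := ⟨swap 0 1 * swap 2 3, mem_alternatingGroup.2 (by decide)⟩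
  let σ : alternatingGroup (Fin 6) := ⟨swap 0 1 * swap 0 2 * swap 1 3 * swap 4 5,
    mem_alternatingGroup.2 (by decide)⟩
  let τ : alternatingGroup (Fin 6) := ⟨swap 0 1 * swap 4 5, mem_alternatingGroup.2 (by decide)⟩
  have key : ∀ x : Perm (Fin 6), orderOf x = 2 → x.support.card = 4 → x.cycleType = {2, 2} := by
    intro x h1 h2
    obtain ⟨n, hn⟩ := cycleType_prime_order (σ := x) (h1 ▸ Nat.prime_two)
    rw [← sum_cycleType, hn, Multiset.sum_replicate, h1, smul_eq_mul] at h2
    rw [hn, h1, show n = 1 by omega]; rfl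
  obtain ⟨c, hc⟩ := isConj_iff.1 (isConj_iff_cycleType_eq.2 ((key αt (by rwa [orderOf_coe])
    hsupp).trans (key α₀ (orderOf_eq_two_iff.2 (by decide)) (by decide)).symm))
  have h1 : MulAut.conjNormal c αt = α₀ := Subtype.ext hc
  have h2 : (centralizer {αt}).map (MulAut.conjNormal c).toMonoidHom = centralizer {α₀} := by
    ext g
    obtain ⟨g, rfl⟩ := (MulAut.conjNormal (H := alternatingGroup (Fin 6)) c).surjective g
    rw [← h1, mem_centralizer_singleton_iff, ← map_mul, ← map_mul, EmbeddingLike.apply_eq_iff_eq,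
      ← mem_centralizer_singleton_iff]
    exact mem_map_iff_mem (MulEquiv.injective _)
  obtain ⟨e⟩ := nonempty_closure_equiv_dihedral (c := σ) (t := τ) (n := 4)
    (orderOf_eq_prime_pow (p := 2) (n := 1) (by decide) (by decide)) (by decide) (by decide) (by
      rintro ⟨k, hk⟩
      have : τ * σ = σ * τ := by rw [← hk]; exact ((Commute.refl σ).zpow_left k).eq
      exact absurd this (by decide))
  have h3 : closure {τ, σ} = centralizer {α₀} := by
    refine eq_of_le_of_card_ge ((closure_le _).2 ?_) (le_of_eq ?_)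
    · rintro _ (rfl | rfl) <;> exact mem_centralizer_singleton_iff.2 (by decide)
    rw [Nat.card_congr e.toEquiv, Nat.card_eq_fintype_card (α := DihedralGroup 4),
      DihedralGroup.card, ← card_map_of_injective (alternatingGroup (Fin 6)).subtype_injective,
      ← show (Finset.univ.filter fun g : Perm (Fin 6) => sign g = 1 ∧
        g * (swap 0 1 * swap 2 3) = (swap 0 1 * swap 2 3) * g).card = 2 * 4 by decide +kernel,
      ← Nat.card_eq_finsetCard]
    refine Nat.card_congr (Equiv.subtypeEquivRight fun g => ?_)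
    simp only [mem_map, mem_centralizer_singleton_iff, Finset.mem_filter, Finset.mem_univ,
      true_and]
    exact ⟨by rintro ⟨x, hx, rfl⟩; exact ⟨x.2, congrArg Subtype.val hx⟩,
      fun ⟨p, q⟩ => ⟨⟨g, p⟩, Subtype.ext q, rfl⟩⟩
  exact ⟨(((MulAut.conjNormal c).subgroupMap _).trans
    (MulEquiv.subgroupCongr (h2.trans h3.symm))).trans e⟩

/-- Let α̃ be an involution of the alternating group A₆ that is a product of two disjoint transpositions (it lies in the centre of a Sylow 2-subgroup of A₆; its centralizer is dihedral of order 8). Let G be a finite group that has no subgroup of index 2 and contains an involution α, central in some Sylow 2-subgroup of G, with C_G(α) ≅ C_{A₆}(α̃). Then G is isomorphic to A₆ or to PSL₂(7). -/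
theorem result {G : Type*} [Group G] [Finite G]
    (hG : ∀ H : Subgroup G, H.index ≠ 2)
    (αt : ↥(alternatingGroup (Fin 6))) (hαt : orderOf αt = 2) (hsupp : (αt : Equiv.Perm (Fin 6)).support.card = 4)
    (α : G) (hα : orderOf α = 2) (S : Sylow 2 G) (hαS : α ∈ (S : Subgroup G)) (hαc : ∀ s ∈ (S : Subgroup G), s * α = α * s)
    (e : ↥(Subgroup.centralizer ({α} : Set G)) ≃* ↥(Subgroup.centralizer ({αt} : Set ↥(alternatingGroup (Fin 6))))) :
    Nonempty (G ≃* ↥(alternatingGroup (Fin 6))) ∨
      (∃ (F : Type) (_ : Field F) (_ : Fintype F), Fintype.card F = 7 ∧ Nonempty (G ≃* Matrix.ProjectiveSpecialLinearGroup (Fin 2) F)) := by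
  obtain ⟨e'⟩ := cent_a6 αt hαt hsupp
  obtain ⟨F, _, _, h1 | h1, ⟨f⟩⟩ := psl_of_centralizer_d8 hα (e.trans e') hG
  · exact Or.inl ((CF.Classical.PSL2_nine_equiv (by rwa [Nat.card_eq_fintype_card])).map f.trans)
  · exact Or.inr ⟨F, _, _, h1, ⟨f⟩⟩

end Cfsg.Agent.S3261
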