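import Cfsg.Statements.S3262
import Cfsg.Agent.Perm.Kf7

set_option autoImplicit false
open Cfsg

namespace Cfsg.Agent.S3262


/-- Let G be a finite doubly transitive permutation group on a set Ω with no regular normal subgroup, in which the stabilizer of two points is isomorphic to the alternating group A₅. Then either Ω has 7 points and G ≅ A₇, or Ω has 12 points and G is isomorphic to the Mathieu group M₁₁. -/
theorem result {G : Type*} [Group G] [Finite G] {Ω : Type*} [Fintype Ω] [MulAction G Ω] [FaithfulSMul G Ω]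
    (h2 : MulAction.IsMultiplyPretransitive G Ω 2) (a b : Ω) (hab : a ≠ b)
    (hnr : ∀ N : Subgroup G, N.Normal → MulAction.IsPretransitive ↥N Ω → (∀ x : Ω, MulAction.stabilizer ↥N x = ⊥) → False)
    (e : ↥(MulAction.stabilizer G a ⊓ MulAction.stabilizer G b) ≃* ↥(alternatingGroup (Fin 5))) :
    (Fintype.card Ω = 7 ∧ Nonempty (G ≃* ↥(alternatingGroup (Fin 7)))) ∨ (Fintype.card Ω = 12 ∧ Cfsg.Spor.IsoM11 G) := by
  haveI : Fact (Nat.Prime 5) := ⟨by decide⟩
  obtain ⟨f⟩ := CF.Classical.PSL2_five_equiv (F := ZMod 5) (by simp)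
  simpa only [Nat.card_eq_fintype_card] using CF.Kf.main5 (CF.Kf.hy_of h2 (.inr ⟨rfl, rfl⟩) hab
    ⟨ZMod 5, _, inferInstance, by simp, ⟨e.trans f.symm⟩⟩) hab fun ⟨N, n, t, r⟩ => hnr N n
    ⟨fun x y => let ⟨g, hg, e⟩ := t x y; ⟨⟨g, hg⟩, e⟩⟩ fun x => (CF.Perm.stabilizer_subgroup_eq_bot_iff N x).2 (r x)

end Cfsg.Agent.S3262
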