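import Cfsg.Statements.S3264
import Cfsg.Agent.BG.B6

set_option autoImplicit false
set_option linter.unusedSectionVars false
open Cfsg

namespace Cfsg.Agent.S3264

open Subgroup CF.BG Relation

section
variable {G : Type*} [Group G] [Finite G] {H K L T : Subgroup G} {a g x y z : G}

/-- the edges inside `H` -/
def E (H : Subgroup G) (x y : G) : Prop := x ∈ H ∧ y ∈ H ∧ x * x = 1 ∧ y * y = 1 ∧ Odd (orderOf (x * y))

abbrev R (H : Subgroup G) : G → G → Prop := ReflTransGen (E H)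

theorem E.symm (h : E H x y) : E H y x :=
  ⟨h.2.1, h.1, h.2.2.2.1, h.2.2.1, by
    rw [← orderOf_inv, mul_inv_rev, inv_eq_of_mul_eq_one_right h.2.2.1, inv_eq_of_mul_eq_one_right h.2.2.2.1]
    exact h.2.2.2.2⟩

theorem R.symm (h : R H x y) : R H y x := by
  induction h with
  | refl => exact .refl
  | tail _ e ih => exact .head e.symm ih

theorem R.mono (h : R H x y) (l : H ≤ K) : R K x y := by
  induction h with
  | refl => exact .refl
  | tail _ e ih => exact ih.tail ⟨l e.1, l e.2.1, e.2.2⟩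

theorem R.cj (h : R H x y) (hg : g ∈ H) : R H (g * x * g⁻¹) (g * y * g⁻¹) := by
  induction h with
  | refl => exact .refl
  | tail _ e ih =>
    exact ih.tail ⟨mul_mem (mul_mem hg e.1) (inv_mem hg),
      mul_mem (mul_mem hg e.2.1) (inv_mem hg), by rw [conj_mul, e.2.2.1]; simp, by rw [conj_mul, e.2.2.2.1]; simp, by
        rw [conj_mul, ← MulAut.conj_apply, MulEquiv.orderOf_eq]; exact e.2.2.2.2⟩

theorem R.sq (h : R H x y) (e : x * x = 1) : y * y = 1 := by
  induction h with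
  | refl => exact e
  | tail _ e _ => exact e.2.2.2.1

theorem inv_pow (i : x * x = 1) (j : y * y = 1) (h : z ∈ zpowers (x * y)) : x * z * x⁻¹ = z⁻¹ := by
  obtain ⟨k, rfl⟩ := h
  rw [← conj_zpow, ← inv_zpow, mul_inv_rev, inv_eq_of_mul_eq_one_right j, ← mul_assoc, i, one_mul]

theorem E.conj (h : E H x y) : ∃ g ∈ H, y = g * x * g⁻¹ := by
  obtain ⟨k, e⟩ : x * y ∈ zpowers ((x * y) ^ 2) := mem_zpowers_pow_iff.2 (Nat.coprime_two_left.2 h.2.2.2.2)
  have m := zpow_mem (mem_zpowers (x * y)) k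
  have i := inv_pow h.2.2.1 h.2.2.2.1 m
  refine ⟨_, inv_mem (zpow_mem (mul_mem h.1 h.2.1) k), ?_⟩
  replace e : (x * y) ^ k * (x * y) ^ k = x * y := by
    rw [← (Commute.refl _).mul_zpow, ← pow_two]; exact e
  generalize (x * y) ^ k = v at e i
  calc y = x * x * y := by rw [h.2.2.1, one_mul]
    _ = x * v * x⁻¹ * x * v := by rw [mul_assoc x, ← e]; group
    _ = _ := by rw [i, inv_inv]

theorem le_set {A : Set G} (h : ∀ g ∈ L, ∀ x ∈ A, g * x * g⁻¹ ∈ A) : L ≤ normalizer A := fun g hg =>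
  mem_set_normalizer_iff.2 fun x => ⟨h g hg x, fun q => by simpa [mul_assoc] using h _ (inv_mem hg) _ q⟩

/-- the conjugates of `a` whose component meets `T` -/
def A (H : Subgroup G) (a : G) (T : Subgroup G) : Set G := {x | (∃ g ∈ H, x = g * a * g⁻¹) ∧ ∃ y ∈ T, R H x y}

theorem nA : H ⊓ 𝐍 T ≤ normalizer (A H a T) := le_set fun g hg _ ⟨⟨c, hc, e⟩, y, hy, r⟩ =>
  ⟨⟨g * c, mul_mem hg.1 hc, by rw [e]; group⟩, _, conj_mem_of_norm hg.2 hy, r.cj hg.1⟩

/-- every component meets every Sylow 2-subgroup -/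
theorem meet (n : ℕ) : ∀ H : Subgroup G, ♯H < n → ∀ a ∈ H, a * a = 1 → ∀ T, Syl 2 T H → ∃ y ∈ T, R H a y := by
  induction n with
  | zero => intros; omega
  | succ n ih =>
  intro H hn a ha aa S hS
  by_contra! nc
  have sq : ∀ g, g * a * g⁻¹ * (g * a * g⁻¹) = 1 := fun g => by rw [conj_mul, aa]; simp
  have F : ∀ T ≤ H, PiGrp {2} T → ¬ ∀ g ∈ H, g * a * g⁻¹ ∈ A H a T := fun T l p q => by
    obtain ⟨T', s, l'⟩ := exists_syl_le l p
    obtain ⟨g, hg, rfl⟩ := hS.syl_conj s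
    obtain ⟨-, y, hy, r⟩ := q g hg
    exact nc _ (mem_cj.1 (l' hy)) (by simpa [mul_assoc] using r.cj (inv_mem hg))
  have O1 : ∀ {M T}, M ≤ H → M ≠ H → Syl 2 T M → A H a M = A H a T := fun {M T} l ne s =>
    Set.ext fun x => and_congr_right fun ⟨g, _, e⟩ => ⟨fun ⟨y, hy, r⟩ =>
      let ⟨z, hz, r'⟩ := ih M (by have := card_lt (l.lt_of_ne ne); omega) y hy (r.sq (e ▸ sq g)) T s
      ⟨z, hz, r.trans (r'.mono l)⟩, fun ⟨y, hy, r⟩ => ⟨y, s.le hy, r⟩⟩
  let Mx := fun M : Subgroup G => (M ≤ H ∧ M ≠ H) ∧ ∀ L : Subgroup G, L ≤ H ∧ L ≠ H → M ≤ L → L = M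
  have ex : ∀ {L}, L ≤ H → L ≠ H → ∃ M, L ≤ M ∧ Mx M := fun l ne =>
    exists_maximal (P := fun L => L ≤ H ∧ L ≠ H) ⟨l, ne⟩
  have O2 : ∀ {M T g}, Mx M → g ∈ H → g * a * g⁻¹ ∈ M → Syl 2 T M →
      H ⊓ normalizer (A H a T) = M ∧ Syl 2 T H := fun {M T g} m hg hc s => by
    have e := O1 m.1.1 m.1.2 s
    have : H ⊓ normalizer (A H a T) = M := m.2 _ ⟨inf_le_left, fun q => F T (s.le.trans m.1.1) s.pi fun c c1 => by
      have := (mem_set_normalizer_iff.1 (q.ge (mul_mem c1 (inv_mem hg))).2 _).1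
        (e ▸ ⟨⟨g, hg, rfl⟩, _, hc, .refl⟩ : g * a * g⁻¹ ∈ A H a T)
      simpa [mul_assoc] using this⟩ (le_inf m.1.1 (e ▸ (le_inf m.1.1 (le_norm_self M)).trans nA))
    exact ⟨this, syl_of_syl_norm (s.le.trans m.1.1) (s.of_le (le_inf (s.le.trans m.1.1) (le_norm_self T))
      (this ▸ le_inf inf_le_left nA))⟩
  have U : ∀ {M N g}, Mx M → Mx N → g ∈ H → g * a * g⁻¹ ∈ M → g * a * g⁻¹ ∈ N → M = N :=
    fun {M N g} m m' hg h1 h2 => by
    by_contra ne
    obtain ⟨Q, ⟨p, ⟨g, hg, hc⟩, M, N, m, m', ne, l1, l2⟩, mx⟩ := exists_max_card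
      (P := fun Q => PiGrp {2} Q ∧ (∃ g ∈ H, g * a * g⁻¹ ∈ Q) ∧ ∃ M N, Mx M ∧ Mx N ∧ M ≠ N ∧ Q ≤ M ∧ Q ≤ N)
      ⟨piGrp_zpowers.2 (piElt_of_pow_eq_one Nat.prime_two (by rw [pow_two, sq])), ⟨g, hg, mem_zpowers _⟩, M, N, m,
        m', ne, zpowers_le.2 h1, zpowers_le.2 h2⟩
    have QH := l1.trans m.1.1
    obtain ⟨L, l, m3⟩ := ex (inf_le_left : H ⊓ 𝐍 Q ≤ H) fun q => F Q QH p fun c c1 =>
      ⟨⟨c, c1, rfl⟩, _, by
        simpa [mul_assoc] using conj_mem_of_norm (q.ge (mul_mem c1 (inv_mem hg))).2 hc, .refl⟩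
    have QL := (le_inf QH (le_norm_self Q)).trans l
    have k : ∀ {M}, Mx M → Q ≤ M → M = L := fun {M} m l1 => by
      obtain ⟨T, s, lT⟩ := exists_syl_le l1 p
      rcases lT.eq_or_lt with rfl | lt
      · have o := O2 m hg (l1 hc) s
        exact o.1.symm.trans (O2 m3 hg (QL hc) (o.2.of_le QL m3.1.1)).1
      have lt' := s.pi.nil.lt_inf_norm lt
      by_contra ne
      exact (card_lt lt').not_ge (mx _ ⟨s.pi.le inf_le_left, ⟨g, hg, lt'.le hc⟩, M, L, m, m3, ne,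
        inf_le_left.trans s.le, (inf_le_inf_right _ (s.le.trans m.1.1)).trans l⟩)
    exact ne ((k m l1).trans (k m' l2).symm)
  have cm : ∀ y, R H a y → y ∈ H → y ∈ H ⊓ normalizer {x | R H a x} := fun y r hy =>
    ⟨hy, le_set (L := zpowers y) (fun g hg x (q : R H a x) => r.trans (by
      have := R.cj (r.symm.trans q) (zpowers_le.2 hy hg)
      obtain ⟨k, rfl⟩ := hg
      rwa [((Commute.refl y).zpow_left k).eq, mul_inv_cancel_right] at this)) (mem_zpowers y)⟩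
  obtain ⟨M, l, m⟩ := ex (inf_le_left : H ⊓ normalizer {x | R H a x} ≤ H) fun q => F S hS.le hS.pi fun c c1 => by
    obtain ⟨T, s, lT⟩ := exists_syl_le (zpowers_le.2 ha)
      (piGrp_zpowers.2 (piElt_of_pow_eq_one Nat.prime_two (by rw [pow_two, aa])))
    obtain ⟨g, hg, rfl⟩ := hS.syl_conj s
    exact absurd (by simpa using (mem_set_normalizer_iff.1 (q.ge (inv_mem hg)).2 a).1 .refl)
      (nc _ (mem_cj.1 (lT (mem_zpowers a))))
  obtain ⟨T, s⟩ := exists_syl 2 M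
  refine F T (s.le.trans m.1.1) s.pi fun g hg => O1 m.1.1 m.1.2 s ▸ ⟨⟨g, hg, rfl⟩, _, ?_, .refl⟩
  have xx := sq g
  have hx : g * a * g⁻¹ ∈ H := mul_mem (mul_mem hg ha) (inv_mem hg)
  generalize g * a * g⁻¹ = x at xx hx
  obtain ⟨u, w, hu, hw, eu, ew, e⟩ := exists_piPart {2} (x * a)
  have uH := zpowers_le.2 (mul_mem hx ha) hu
  have i := inv_pow xx aa hu
  have xi := inv_eq_of_mul_eq_one_right xx
  have ed : E H (x * u) a := ⟨mul_mem hx uH, ha, by
    calc x * u * (x * u) = x * u * x⁻¹ * u := by rw [xi, mul_assoc (x * u)]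
      _ = 1 := by rw [i, inv_mul_cancel], aa, by
    rw [show x * u * a = x * u * x⁻¹ * (x * a) by group, i, ← e, inv_mul_cancel_left, ← Nat.not_even_iff_odd,
      even_iff_two_dvd, ← piNat_compl_single Nat.prime_two]
    exact ew⟩
  have p : PiGrp {2} (zpowers x ⊔ zpowers u : Subgroup G) :=
    (piGrp_zpowers.2 (piElt_of_pow_eq_one Nat.prime_two (by rw [pow_two, xx]))).sup (piGrp_zpowers.2 eu)
      (.inl (zpowers_le.2 (mem_norm_of_cj_le fun _ h => by
        obtain ⟨_, ⟨k, rfl⟩, rfl⟩ := mem_cj_iff.1 h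
        rw [← conj_zpow, i]; exact zpow_mem (inv_mem (mem_zpowers u)) k)))
  have lH := sup_le (zpowers_le.2 hx) (zpowers_le.2 uH)
  obtain ⟨N, l', m'⟩ := ex lH fun q => F _ lH p fun c c1 =>
    ⟨⟨c, c1, rfl⟩, _, q.ge (mul_mem (mul_mem c1 ha) (inv_mem c1)), .refl⟩
  obtain ⟨c, c1, e'⟩ := ed.symm.conj
  rw [U m m' c1 (e' ▸ l (cm _ (.single ed.symm) ed.1)) (e' ▸ l' (mul_mem_sup (mem_zpowers x) (mem_zpowers u)))]
  exact l' (mem_sup_left (mem_zpowers x))

/-- the elements fixing all components -/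
def Kr (G : Type*) [Group G] [Finite G] : Subgroup G where
  carrier := {g | ∀ x, x * x = 1 → R ⊤ x (g * x * g⁻¹)}
  one_mem' x _ := by simpa using .refl
  mul_mem' {a b} ha hb x e := (hb x e).trans (by
    simpa [mul_assoc] using ha (b * x * b⁻¹) (by rw [conj_mul, e]; simp))
  inv_mem' {a} ha x e := by
    simpa [mul_assoc] using (ha (a⁻¹ * x * a⁻¹⁻¹) (by rw [conj_mul, e]; simp)).symm

instance : (Kr G).Normal := ⟨fun a ha g x e => by
  simpa [mul_assoc] using (ha (g⁻¹ * x * g⁻¹⁻¹) (by rw [conj_mul, e]; simp)).cj (mem_top g)⟩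

end

/-- Let G be a non-abelian finite simple group and X a conjugacy class of involutions of G. Form the graph on X in which two distinct involutions are joined when their product has odd order. Then this graph is connected. (By the Baer–Suzuki Theorem the graph has at least one edge; connectedness is the stronger statement.) -/
theorem result {G : Type*} [Group G] [Finite G] [IsSimpleGroup G]
    (hG : ¬ IsMulCommutative G) (t : G) (ht : orderOf t = 2) :
    (SimpleGraph.fromRel fun x y : {x : G // IsConj t x} => Odd (orderOf (x.1 * y.1))).Connected := by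
  have tt : t * t = 1 := by rw [← pow_two, ← ht, pow_orderOf_eq_one]
  obtain ⟨S, s, l⟩ := exists_syl_le (le_top : zpowers t ≤ ⊤)
    (piGrp_zpowers.2 (piElt_of_pow_eq_one Nat.prime_two (by rw [pow_two, tt])))
  obtain ⟨z, hz, z1⟩ := (bot_or_exists_ne_one _).resolve_left (s.pi.center_ne_bot fun e => by
    rw [eq_one_of_mem_bot e (l (mem_zpowers t)), orderOf_one] at ht; omega)
  have k : Kr G = ⊤ := (IsSimpleGroup.eq_bot_or_eq_top_of_normal _ inferInstance).resolve_left fun e =>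
    z1 (eq_one_of_mem_bot e fun x xx => by
      obtain ⟨y, hy, r⟩ := meet _ ⊤ (Nat.lt_succ_self _) x (mem_top x) xx S s
      have := r.cj (mem_top z)
      rw [← mem_cent.1 hz.2 y hy, mul_inv_cancel_right] at this
      exact r.trans this.symm)
  have w : ∀ y, R ⊤ t y → ∃ h : IsConj t y, (SimpleGraph.fromRel fun x y : {x : G // IsConj t x} =>
      Odd (orderOf (x.1 * y.1))).Reachable ⟨t, .refl t⟩ ⟨y, h⟩ := fun y r => by
    induction r with
    | refl => exact ⟨.refl t, .refl _⟩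
    | tail _ e ih =>
      obtain ⟨h, q⟩ := ih
      obtain ⟨g, -, e'⟩ := e.conj
      have h' := h.trans (isConj_iff.2 ⟨g, e'.symm⟩)
      refine ⟨h', q.trans ?_⟩
      by_cases c : (⟨_, h⟩ : {x : G // IsConj t x}) = ⟨_, h'⟩
      · rw [c]
      · exact SimpleGraph.Adj.reachable ((SimpleGraph.fromRel_adj _ _ _).2 ⟨c, .inl e.2.2.2.2⟩)
  refine (SimpleGraph.connected_iff_exists_forall_reachable _).2 ⟨⟨t, .refl t⟩, fun ⟨y, hy⟩ => ?_⟩
  obtain ⟨g, rfl⟩ := isConj_iff.1 hy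
  exact (w _ (k.ge (mem_top g) t tt)).2

end Cfsg.Agent.S3264
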