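import Cfsg.Statements.S3265
import Cfsg.Agent.Xs.L
import Cfsg.Agent.Invol.Dihedral

set_option autoImplicit false
open Cfsg

namespace Cfsg.Agent.S3265


/-- Let n ≥ 5 and let X be a conjugacy class of involutions of the symmetric group of degree n. The graph on X joining two distinct involutions whose product has odd order is connected and has diameter exactly 2. -/
theorem result (n : ℕ) (hn : 5 ≤ n) (t : Equiv.Perm (Fin n)) (ht : orderOf t = 2) :
    (SimpleGraph.fromRel fun x y : {x : Equiv.Perm (Fin n) // IsConj t x} =>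
        Odd (orderOf (x.1 * y.1))).Connected ∧
      (SimpleGraph.fromRel fun x y : {x : Equiv.Perm (Fin n) // IsConj t x} =>
        Odd (orderOf (x.1 * y.1))).diam = 2 := by
    set Γ := SimpleGraph.fromRel fun x y : {x : Equiv.Perm (Fin n) // IsConj t x} =>
      Odd (orderOf (x.1 * y.1)) with hΓ
    have ht2 : t * t = 1 := by rw [← sq, ← ht, pow_orderOf_eq_one]
    have hsq : ∀ x, IsConj t x → x * x = 1 := fun x hx => by
      obtain ⟨c, rfl⟩ := isConj_iff.1 hx
      rw [conj_mul, ht2]; simp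
    have h1 : ∀ u v, Γ.edist u v ≤ 2 := fun u v => by
      obtain ⟨z, hz, h2, h3⟩ := CF.Xs.exists_common (by simpa using hn) (hsq _ u.2) (hsq _ v.2)
        (u.2.symm.trans v.2)
      let w : {x : Equiv.Perm (Fin n) // IsConj t x} :=
        ⟨z, u.2.trans (CF.Invol.isConj_of_odd (hsq _ u.2) hz h2)⟩
      have h4 : Γ.edist u w ≤ 1 := SimpleGraph.edist_le_one_iff_adj_or_eq.2
        ((em (u = w)).symm.imp_left fun h => (SimpleGraph.fromRel_adj _ _ _).2 ⟨h, Or.inl h2⟩)
      have h5 : Γ.edist w v ≤ 1 := SimpleGraph.edist_le_one_iff_adj_or_eq.2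
        ((em (w = v)).symm.imp_left fun h => (SimpleGraph.fromRel_adj _ _ _).2 ⟨h, Or.inr h3⟩)
      exact SimpleGraph.edist_triangle.trans ((add_le_add h4 h5).trans_eq one_add_one_eq_two)
    have h2 : ∀ (g : Equiv.Perm (Fin n)) a, g a ≠ a → g (g a) = a → ¬ Odd (orderOf g) := by
      rintro g a h3 h4 ⟨m, hm⟩
      have h5 : (g ^ (2 * m)) a = a := by
        rw [pow_mul]; exact Equiv.Perm.pow_apply_eq_self_of_apply_eq_self (by simpa [sq] using h4) m
      have := congrArg (· a) (pow_orderOf_eq_one g)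
      simp only [hm, pow_succ', Equiv.Perm.mul_apply, h5] at this
      exact h3 this
    obtain ⟨a, ha⟩ : ∃ a, t a ≠ a := by
      by_contra h
      push Not at h
      rw [show t = 1 from Equiv.ext h] at ht
      simp at ht
    have tt : ∀ a, t (t a) = a := fun a => congrArg (· a) ht2
    obtain ⟨y, hy, h3, h4⟩ : ∃ y, IsConj t y ∧ t (y a) ≠ a ∧ t (y (t (y a))) = a := by
      by_cases h : ∃ c, c ≠ a ∧ c ≠ t a ∧ t c ≠ c
      · obtain ⟨c, h5, h6, h7⟩ := h
        have := tt a; have := tt c
        refine ⟨_, isConj_iff.2 ⟨Equiv.swap (t a) c, rfl⟩, ?_, ?_⟩ <;>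
          simp only [Equiv.swap_inv, Equiv.Perm.mul_apply, Equiv.swap_apply_def] <;> grind
      · push Not at h
        obtain ⟨c, d, h5, h6, h7⟩ := Finset.one_lt_card_iff.1 (show 1 < ({a, t a}ᶜ : Finset _).card by
          rw [Finset.card_compl, Finset.card_pair ha.symm, Fintype.card_fin]; omega)
        simp only [Finset.mem_compl, Finset.mem_insert, Finset.mem_singleton, not_or] at h5 h6
        have := h c h5.1 h5.2; have := h d h6.1 h6.2; have := tt a
        refine ⟨_, isConj_iff.2 ⟨Equiv.swap a c * Equiv.swap (t a) d, rfl⟩, ?_, ?_⟩ <;>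
          simp only [mul_inv_rev, Equiv.swap_inv, Equiv.Perm.mul_apply, Equiv.swap_apply_def] <;>
          grind (splits := 40)
    have h5 : ¬ Γ.edist ⟨t, IsConj.refl t⟩ ⟨y, hy⟩ ≤ 1 := fun h => by
      have h6 := h2 (t * y) a h3 h4
      rcases SimpleGraph.edist_le_one_iff_adj_or_eq.1 h with h | h
      · rcases ((SimpleGraph.fromRel_adj _ _ _).1 h).2 with h | h
        · exact h6 h
        · rw [← orderOf_inv, mul_inv_rev, inv_eq_of_mul_eq_one_right ht2,
            inv_eq_of_mul_eq_one_right (hsq y hy)] at h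
          exact h6 h
      · obtain rfl : t = y := congrArg Subtype.val h
        exact h3 (tt a)
    have : Nonempty {x : Equiv.Perm (Fin n) // IsConj t x} := ⟨⟨t, IsConj.refl t⟩⟩
    refine ⟨⟨fun u v => SimpleGraph.edist_ne_top_iff_reachable.1
      (ne_top_of_le_ne_top (by simp) (h1 u v))⟩, ?_⟩
    have h6 : Γ.ediam = 2 := le_antisymm (SimpleGraph.ediam_le_of_edist_le h1)
      (le_trans (Order.add_one_le_of_lt (not_le.1 h5)) SimpleGraph.edist_le_ediam)
    rw [SimpleGraph.diam, h6]; rfl

end Cfsg.Agent.S3265
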