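import Cfsg.Statements.S3266
import Cfsg.Agent.Classical.OddGraph

set_option autoImplicit false
open Cfsg

namespace Cfsg.Agent.S3266

/-- Let F be a finite field with at least 4 elements and let X be a conjugacy class of involutions of PSL(2, F). The graph on X joining two distinct involutions whose product has odd order is connected and has diameter exactly 2. -/
theorem result {F : Type*} [Field F] [Fintype F] (hF : 4 ≤ Fintype.card F)
    (t : Matrix.ProjectiveSpecialLinearGroup (Fin 2) F) (ht : orderOf t = 2) :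
    (SimpleGraph.fromRel fun x y : {x : Matrix.ProjectiveSpecialLinearGroup (Fin 2) F // IsConj t x} =>
        Odd (orderOf (x.1 * y.1))).Connected ∧
      (SimpleGraph.fromRel fun x y : {x : Matrix.ProjectiveSpecialLinearGroup (Fin 2) F // IsConj t x} =>
        Odd (orderOf (x.1 * y.1))).diam = 2 := by
  open CF.Classical in
  have h4 : 4 ≤ Nat.card F := by rwa [Nat.card_eq_fintype_card]
  have ho : ∀ x : {x : Matrix.ProjectiveSpecialLinearGroup (Fin 2) F // IsConj t x},
      orderOf x.1 = 2 := fun x => by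
    obtain ⟨c, hc⟩ := isConj_iff.1 x.2
    rw [← hc, show c * t * c⁻¹ = (MulAut.conj c) t from rfl, MulEquiv.orderOf_eq, ht]
  set Γ := SimpleGraph.fromRel fun x y :
    {x : Matrix.ProjectiveSpecialLinearGroup (Fin 2) F // IsConj t x} => Odd (orderOf (x.1 * y.1))
  have h1 : ∀ x y, Odd (orderOf (x.1 * y.1)) → Γ.edist x y ≤ 1 := fun x y h => by
    rw [SimpleGraph.edist_le_one_iff_adj_or_eq]
    by_cases e : x = y
    · exact Or.inr e
    · exact Or.inl ((SimpleGraph.fromRel_adj _ _ _).2 ⟨e, Or.inl h⟩)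
  have h2 : Γ.ediam ≤ 2 := SimpleGraph.ediam_le_of_edist_le fun x y => by
    obtain ⟨z, hz, h3, h5⟩ := exists_odd_odd h4 (ho x) (ho y)
    exact (SimpleGraph.edist_triangle (v := ⟨z, x.2.trans hz⟩)).trans
      ((add_le_add (h1 x ⟨z, x.2.trans hz⟩ h3) (h1 ⟨z, x.2.trans hz⟩ y h5)).trans (by norm_num))
  obtain ⟨y, hy, h3⟩ := exists_conj_orderOf_mul_two h4 ht
  have h5 : ¬ Γ.edist ⟨t, IsConj.refl t⟩ ⟨y, hy⟩ ≤ 1 := by
    rw [SimpleGraph.edist_le_one_iff_adj_or_eq, SimpleGraph.fromRel_adj]
    rintro (⟨-, h | h⟩ | h)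
    · rw [h3] at h; exact absurd h (by decide)
    · rw [show y * t = (MulAut.conj y) (t * y) by simp [mul_assoc], MulEquiv.orderOf_eq, h3] at h
      exact absurd h (by decide)
    · have h6 : t = y := congrArg Subtype.val h
      have h7 := pow_orderOf_eq_one t
      rw [ht, pow_two] at h7
      rw [← h6, h7, orderOf_one] at h3
      omega
  have h6 : Γ.ediam = 2 := le_antisymm h2
    ((Order.add_one_le_of_lt (not_le.1 h5)).trans SimpleGraph.edist_le_ediam)
  have : Nonempty {x : Matrix.ProjectiveSpecialLinearGroup (Fin 2) F // IsConj t x} :=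
    ⟨⟨t, IsConj.refl t⟩⟩
  refine ⟨SimpleGraph.connected_of_ediam_ne_top (by rw [h6]; decide), ?_⟩
  rw [SimpleGraph.diam, h6]; rfl

end Cfsg.Agent.S3266
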