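import Cfsg.Statements.S3269
import Cfsg.Agent.Char.ZStarCor
import Cfsg.Agent.PLocal.Util

set_option autoImplicit false
open Cfsg

namespace Cfsg.Agent.S3269

/-- Let G be a finite group whose Sylow 2-subgroup S is an internal direct product Q × R with Q generalized quaternion (of order at least 8) and R a subgroup all of whose involutions are central in R. Then G is not simple. In particular no finite simple group has a Sylow 2-subgroup that is a direct product of one or more generalized quaternion groups. -/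
theorem result {G : Type*} [Group G] [Finite G]
    (S : Sylow 2 G) (Q R : Subgroup G) (hQR : Cfsg.IsInternalDirectProduct Q R (S : Subgroup G))
    (n : ℕ) (hn : 1 ≤ n) (eQ : ↥Q ≃* QuaternionGroup (2 ^ n))
    (hR : ∀ r ∈ R, orderOf r = 2 → ∀ s ∈ R, r * s = s * r) :
    ¬ IsSimpleGroup G := by
  open CF.Char CF.Transfer CF.Invol Subgroup commutatorElement in
  intro hG
  obtain ⟨a, b, h⟩ := exists_qSetup eQ
  obtain ⟨hQ, hRS, hc, hi, hs⟩ := hQR
  have hdec : ∀ s ∈ S, ∃ q ∈ Q, ∃ r ∈ R, q * r = s := fun s hs' =>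
    (CF.Solv.mem_sup_of_le_normalizer (fun q hq => centralizer_le_normalizer _
      fun r hr => (hc q hq r hr).symm)).1 (hs.ge hs')
  have hone : ∀ x ∈ Q, x ∈ R → x = 1 := fun x h1 h2 => mem_bot.1 (hi.le ⟨h1, h2⟩)
  have hz : ∀ s ∈ S, Commute s (a ^ 2 ^ n) := fun s hs' => by
    obtain ⟨q, hq, r, hr, rfl⟩ := hdec s hs'
    exact Commute.mul_left (h.commute_z hq) (hc _ h.z_mem r hr).symm
  -- every involution of `S` is central
  have hsq : ∀ q ∈ Q, ∀ r ∈ R, q * r * (q * r) = 1 → q * q = 1 ∧ r * r = 1 := by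
    intro q hq r hr e
    rw [Commute.mul_mul_mul_comm (hc q hq r hr).symm] at e
    have e1 := hone _ (mul_mem hq hq) (eq_inv_of_mul_eq_one_left e ▸ inv_mem (mul_mem hr hr))
    exact ⟨e1, by rwa [e1, one_mul] at e⟩
  have hQ2 : ∀ q ∈ Q, q * q = 1 → q = 1 ∨ q = a ^ 2 ^ n := fun q hq e =>
    or_iff_not_imp_left.2 fun h1 => h.eq_z hq (orderOf_eq_two_iff.2 ⟨e, h1⟩)
  have hcen : ∀ t ∈ S, t * t = 1 → t ∈ centralizer ((S : Subgroup G) : Set G) := by
    intro t ht e s hs'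
    obtain ⟨q, hq, r, hr, rfl⟩ := hdec t ht
    obtain ⟨e1, e2⟩ := hsq q hq r hr e
    refine Commute.mul_right ?_ ?_
    · rcases hQ2 q hq e1 with rfl | rfl
      exacts [Commute.one_right s, hz s hs']
    · obtain ⟨q', hq', r', hr', rfl⟩ := hdec s hs'
      refine Commute.mul_left (hc q' hq' r hr) ?_
      by_cases h1 : r = 1
      · simp [h1]
      · exact (hR r hr (orderOf_eq_two_iff.2 ⟨e2, h1⟩) r' hr').symm
  have hzz := mul_self_of_orderOf h.orderOf_z
  obtain ⟨w, hw, hwc, h1, h2, k, hk, h3⟩ := exists_orbit_prod_sylow S (hQ h.z_mem)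
    (hcen _ (hQ h.z_mem) hzz)
  have key : ∀ g ∈ normalizer ((S : Subgroup G) : Set G), g * a ^ 2 ^ n * g⁻¹ ∉ R →
      g * a ^ 2 ^ n * g⁻¹ = a ^ 2 ^ n := by
    intro g hg hgR
    have h' := h.map (MulAut.conj g).toMonoidHom (MulAut.conj g).injective
    have hQ' : cj g Q ≤ S := (map_mono hQ).trans (mem_normalizer_iff_cj.1 hg).le
    have hR' : cj g R ≤ S := (map_mono hRS).trans (mem_normalizer_iff_cj.1 hg).le
    have hRn : (S : Subgroup G) ≤ normalizer (R : Set G) := hs.ge.trans (sup_le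
      (fun q hq => centralizer_le_normalizer _ fun r hr => (hc q hq r hr).symm) le_normalizer)
    have e1 : cj g Q ⊓ R = ⊥ := by
      refine eq_bot_iff.2 fun x hx => by_contra fun hx1 => hgR ?_
      obtain ⟨⟨y, hy⟩, hy2⟩ := exists_invol_of_even (G := zpowers x) (by
        obtain ⟨i, hi⟩ := orderOf_eq_pow_of_mem S.isPGroup' (hRS hx.2)
        rw [Nat.card_zpowers, hi, Nat.even_pow]
        exact ⟨even_two, fun e => hx1 (orderOf_eq_one_iff.1 (by rw [hi, e, pow_zero]))⟩)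
      have := h'.eq_z (zpowers_le.2 hx.1 hy) ((Subgroup.orderOf_mk _ _).symm.trans hy2)
      rw [← map_pow] at this
      exact (show y = g * a ^ 2 ^ n * g⁻¹ from this) ▸ zpowers_le.2 hx.2 hy
    have e2 : cj g Q ⊔ R = S := by
      refine eq_of_le_of_card_ge (sup_le hQ' hRS) (le_of_eq ?_)
      have c1 := CF.PLocal.card_sup_mul_card_inf (hQ'.trans hRn)
      have c2 := CF.PLocal.card_sup_mul_card_inf (hQ.trans hRn)
      rw [e1, card_cj] at c1
      rw [hi, hs] at c2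
      exact mul_right_cancel₀ (card_pos' ⊥).ne' (c2.trans c1.symm)
    have hc' : ∀ x ∈ cj g Q, ∀ y ∈ cj g R, x * y = y * x := by
      rintro _ ⟨x, hx, rfl⟩ _ ⟨y, hy, rfl⟩
      rw [← map_mul, ← map_mul, hc x hx y hy]
    have e3 : ∀ q ∈ Q, ∀ r' ∈ cj g R, Commute q r' := by
      intro q hq r' hr'
      obtain ⟨q₁, hq₁, r₁, hr₁, rfl⟩ := hdec r' (hR' hr')
      refine Commute.mul_right ?_ (hc q hq r₁ hr₁)
      obtain ⟨x, hx, r₂, hr₂, e⟩ := (CF.Solv.mem_sup_of_le_normalizer (hQ'.trans hRn)).1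
        (e2.ge (hQ hq))
      have e4 := hc' x hx _ hr'
      rw [eq_mul_inv_of_mul_eq e] at e4
      refine commutatorElement_eq_one_iff_commute.1 (hone _ (mul_mem (mul_mem (mul_mem hq hq₁)
        (inv_mem hq)) (inv_mem hq₁)) ?_)
      have c1 : Commute q₁ r₂⁻¹ := hc _ hq₁ _ (inv_mem hr₂)
      have c2 : Commute q r₁ := hc _ hq _ hr₁
      have e5 : q * q₁ * (r₂⁻¹ * r₁) = q₁ * q * (r₁ * r₂⁻¹) := by
        calc _ = q * r₂⁻¹ * (q₁ * r₁) := (c1.mul_mul_mul_comm q r₁)
          _ = q₁ * r₁ * (q * r₂⁻¹) := e4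
          _ = _ := (c2.mul_mul_mul_comm q₁ r₂⁻¹).symm
      have e6 : ⁅q, q₁⁆ = q₁ * q * (r₁ * r₂⁻¹ * (r₂⁻¹ * r₁)⁻¹) * (q₁ * q)⁻¹ := by
        rw [← mul_assoc (q₁ * q), ← e5, commutatorElement_def]
        group
      rw [e6]
      exact conj_mem_of_mem_normalizer (hRn (hQ (mul_mem hq₁ hq))) (mul_mem (mul_mem hr₁
        (inv_mem hr₂)) (inv_mem (mul_mem (inv_mem hr₂) hr₁)))
    have e4 : ∀ q ∈ Q, ∃ x ∈ cj g Q, x⁻¹ * q ∈ centralizer ((S : Subgroup G) : Set G) := by
      have hdec' : ∀ s ∈ S, ∃ q ∈ cj g Q, ∃ r ∈ cj g R, q * r = s := fun s hs' => by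
        obtain ⟨q, hq, r, hr, e⟩ := hdec _ (inv_conj_mem_of_mem_normalizer hg hs')
        exact ⟨_, conj_mem_cj hq, _, conj_mem_cj hr, by rw [conj_mul, e]; group⟩
      intro q hq
      obtain ⟨x, hx, y, hy, e⟩ := hdec' q (hQ hq)
      refine ⟨x, hx, fun s hs' => ?_⟩
      obtain ⟨x', hx', y', hy', rfl⟩ := hdec' s hs'
      refine Commute.mul_left ?_ (Commute.mul_right (Commute.inv_right (hc' x hx y' hy').symm)
        (e3 q hq y' hy').symm)
      rw [← e, inv_mul_cancel_left]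
      exact hc' x' hx' y hy
    have e5 : ⁅Q, Q⁆ ≤ cj g Q := commutator_le.2 fun q hq q' hq' => by
      obtain ⟨x, hx, hx'⟩ := e4 q hq
      obtain ⟨y, hy, hy'⟩ := e4 q' hq'
      have : ⁅q, q'⁆ = ⁅x, y⁆ := by
        generalize hu : x⁻¹ * q = u at hx'
        generalize hv : y⁻¹ * q' = v at hy'
        obtain rfl : q = x * u := by rw [← hu]; group
        obtain rfl : q' = y * v := by rw [← hv]; group
        have c1 : Commute (y * v) u := hx' _ (hQ hq')
        have c2 : Commute x v := hy' _ (hQ' hx)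
        rw [commutatorElement_def, mul_assoc x u, ← c1.eq, commutatorElement_def]
        calc _ = x * y * (v * x⁻¹ * v⁻¹) * y⁻¹ := by group
          _ = _ := by rw [← c2.inv_left.eq]; group
      rw [this]
      exact mul_mem (mul_mem (mul_mem hx hy) (inv_mem hx)) (inv_mem hy)
    have e6 := h'.eq_z (e5 (h.commutator_eq ▸ ⟨(2 ^ (n - 1) : ℕ), by
      simp only [zpow_natCast]
      rw [← pow_mul, ← pow_succ', Nat.sub_add_cancel hn]⟩)) h.orderOf_z
    rw [← map_pow] at e6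
    exact e6.symm
  have hw1 : w ≠ 1 := fun e => by
    have := h2 R fun g hg hne => by_contra fun h0 => hne (key g hg h0)
    rw [e, mul_one, inv_mem_iff] at this
    exact ne_one_of_orderOf h.orderOf_z (hone _ h.z_mem this)
  let L : Subgroup G :=
    { carrier := {y | y ∈ S ∧ y * y = 1}
      one_mem' := ⟨one_mem _, mul_one 1⟩
      mul_mem' := fun {x y} hx hy => ⟨mul_mem hx.1 hy.1, by
        rw [Commute.mul_mul_mul_comm (hcen x hx.1 hx.2 y hy.1), hx.2, hy.2, mul_one]⟩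
      inv_mem' := fun {x} hx => ⟨inv_mem hx.1, by rw [← mul_inv_rev, hx.2, inv_one]⟩ }
  have hzL : a ^ 2 ^ n ∈ L := ⟨hQ h.z_mem, hzz⟩
  have hwL : w ∈ L := (Subgroup.mul_mem_cancel_left _ (inv_mem (pow_mem hzL k))).1
    (h3 L fun g hg => mul_mem (inv_mem hzL) ⟨conj_mem_of_mem_normalizer hg (hQ h.z_mem), by
      rw [conj_mul, hzz, mul_one, mul_inv_cancel]⟩)
  have hcomm := comm_of_simple_of_inZStar (orderOf_eq_two_iff.2 ⟨hwL.2, hw1⟩)
    (inZStar_of_weaklyClosed S hw fun g hg => h1 g (hcen _ hg (by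
      rw [conj_mul, hwL.2, mul_one, mul_inv_cancel])))
  exact h.notMem (h.mem_zpowers_of_commute (mem_zpowers a) (h.mul_self_ne_one hn) h.b_mem
    (hcomm b a))

end Cfsg.Agent.S3269
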