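import Cfsg.Statements.S3279
import Cfsg.Agent.GW.Few

set_option autoImplicit false
open Cfsg

namespace Cfsg.Agent.S3279

open CF.GW CF.Invol CF.Transfer Subgroup

theorem aux {G : Type*} [Group G] [Finite G] [IsSimpleGroup G] (h2 : Nat.card G ≠ 2) {x : G}
    (hx : orderOf x = 2) (key : ∀ y, IsConj x y → ∀ W : Subgroup G, IsKleinFour W →
      W ≤ centralizer {y} → ∀ u ∈ centralizer {y}, orderOf u = 2 → u ∈ W) :
    ∃ T, IsSylowIn 2 T ⊤ ∧ T ≤ centralizer {x} := by
  have hG := no_index_two_of_simple h2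
  by_contra hn
  obtain ⟨S, hxS, hS⟩ := exists_isSylowIn_ge (isPGroup_zpowers_invol hx) le_top
  have hc : ∀ z, S ≤ centralizer {z} → ¬ IsConj z x := fun z hz h =>
    hn (exists_sylow_le_of_isConj hS h hz)
  obtain ⟨z₀, -, hz₀, h0⟩ := exists_central_two hS.isPGroup le_rfl le_normalizer fun h =>
    (orderOf_eq_two_iff.1 hx).2 (by simpa [h] using hxS)
  obtain ⟨W, hWS, hSW, hW⟩ : ∃ W ≤ S, S ≤ normalizer (W : Set G) ∧ IsKleinFour W := by
    by_contra h
    exact hc z₀ h0 (isConj_of_no_normal_klein hG hS (fun W p q r => h ⟨W, p, q, r⟩) hz₀ hx)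
  obtain ⟨z, hzW, hz, hSz⟩ := exists_central_two hS.isPGroup hWS hSW fun h => by
    have := hW.card_four
    rw [h, card_bot] at this
    omega
  have hi : (centralizer (W : Set G)).relIndex S ∣ 2 := by
    obtain ⟨k, hk⟩ := hS.isPGroup.exists_card_eq
    exact (Nat.Coprime.coprime_dvd_left (hk ▸ relIndex_dvd_card _ _)
      (Nat.Coprime.pow_left k (by norm_num : Nat.Coprime 2 3))).dvd_of_dvd_mul_right
      ((relIndex_dvd_of_le_normalizer hSW (normalizer_le_normalizer_centralizer W)).trans
        (klein_relIndex_dvd_six hW))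
  obtain ⟨y, hy, hxy⟩ := exists_conj_mem_of_relIndex hG hS hi hx
  have hy2 : orderOf y = 2 := orderOf_eq_of_isConj hxy ▸ hx
  have hA : ∀ u ∈ centralizer (W : Set G), Commute u y → orderOf u = 2 → u ∈ W := fun u _ h1 =>
    key y hxy W hW (fun w hw => mem_centralizer_singleton_iff.2 (hy w hw)) u
      (mem_centralizer_singleton_iff.2 h1)
  have hyW := hA y hy (Commute.refl y) hy2
  have hyz : z ≠ y := fun h => hc z hSz (h ▸ hxy.symm)
  have z1 := (orderOf_eq_two_iff.1 hz).2
  have y1 := (orderOf_eq_two_iff.1 hy2).2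
  have hmem := fun w => klein_mem_iff hW hzW hyW z1 y1 hyz (x := w)
  have hzy : IsConj (z * y) x := by
    obtain ⟨s, hs, h1⟩ := SetLike.not_le_iff_exists.1 fun h => hc y h hxy.symm
    rcases (hmem _).1 (conj_mem_of_mem_normalizer (hSW hs) hyW) with h | h | h | h
    · exact absurd (by simpa using h) y1
    · exact absurd (h ▸ (hxy.trans (isConj_conj s y)).symm) (hc z hSz)
    · exact absurd (mem_centralizer_singleton_iff.2 (mul_inv_eq_iff_eq_mul.1 h)) h1
    · exact h ▸ (hxy.trans (isConj_conj s y)).symm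
  have hB : ∀ u ∈ centralizer (W : Set G), IsConj z u → u = z := fun u hu h => by
    have hu2 : orderOf u = 2 := orderOf_eq_of_isConj h ▸ hz
    rcases (hmem _).1 (hA u hu (hu y hyW).symm hu2) with rfl | rfl | rfl | rfl
    · simp at hu2
    · rfl
    · exact absurd (h.trans hxy.symm) (hc z hSz)
    · exact absurd (h.trans hzy) (hc z hSz)
  obtain ⟨t, htS, hzt, htz⟩ := exists_conj_ne_of_simple h2 hS hz (hWS hzW)
  have ht : orderOf t = 2 := orderOf_eq_of_isConj hzt ▸ hz
  have htW : t ∉ centralizer (W : Set G) := fun h => htz (hB t h hzt)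
  have hi2 : (centralizer (W : Set G)).relIndex S = 2 :=
    ((Nat.dvd_prime Nat.prime_two).1 hi).resolve_left fun h => htW (relIndex_eq_one.1 h htS)
  have hmul : ∀ a ∈ S, ∀ b ∈ S, (a * b ∈ centralizer (W : Set G) ↔
      (a ∈ centralizer (W : Set G) ↔ b ∈ centralizer (W : Set G))) := fun a ha b hb =>
    mul_mem_iff_of_index_two (H := (centralizer (W : Set G)).subgroupOf S) hi2 (a := ⟨a, ha⟩)
      (b := ⟨b, hb⟩)
  have hsq : ∀ a ∈ S ⊓ centralizer {t}, a * a ≠ z := fun a ha h => by
    obtain ⟨g, hg⟩ := isConj_iff.1 hzt.symm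
    obtain ⟨c, hc1, hc2⟩ := (hS.of_le hSz le_top).exists_cj_le
      (isPGroup_cj (hS.isPGroup.to_inf_left (K := centralizer {t})) g)
      (by rw [← hg, centralizer_singleton_cj]; exact cj_mono g inf_le_right)
    have h1 := hc2 (conj_mem_cj (conj_mem_cj ha))
    have h3 := hB _ ((hmul _ h1 _ h1).2 Iff.rfl) (isConj_of_eq (g := c * g) (by rw [← h]; group))
    rw [conj_mul, conj_mul, h, mul_inv_eq_iff_eq_mul, ← mem_centralizer_singleton_iff.1 hc1,
      mul_right_inj] at h3
    exact htz (conj_injective (hg.trans h3.symm))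
  have hC : ∀ k, ∀ c ∈ S ⊓ centralizer {t}, c ∈ centralizer (W : Set G) → c ^ 2 ^ k = 1 →
      c = 1 ∨ c = z := fun k => by
    induction k with
    | zero => exact fun c _ _ h => Or.inl (by simpa using h)
    | succ k ih =>
      intro c h1 h3 h4
      refine or_iff_not_imp_left.2 fun c1 => ?_
      have h5 := (ih (c * c) (mul_mem h1 h1) (mul_mem h3 h3)
        (by rwa [← pow_two, ← pow_mul, ← pow_succ'])).resolve_right (hsq c h1)
      have h6 : ∀ w, w ∈ centralizer {t} → w ≠ y := fun w hw e => htW fun v hv => by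
        have p := mem_centralizer_singleton_iff.1 (hSz htS)
        have q := mem_centralizer_singleton_iff.1 (e ▸ hw)
        rcases (hmem v).1 hv with rfl | rfl | rfl | rfl
        · simp
        · exact p.symm
        · exact q
        · rw [mul_assoc, q, ← mul_assoc, ← p, mul_assoc]
      rcases (hmem _).1 (hA c h3 (h3 y hyW).symm (orderOf_eq_two_iff.2 ⟨h5, c1⟩)) with
        h | h | h | h
      · exact absurd h c1
      · exact h
      · exact absurd h (h6 c h1.2)
      · refine absurd (by rw [h, inv_mul_cancel_left]) (h6 (z⁻¹ * c) (mul_mem (inv_mem ?_) h1.2))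
        exact mem_centralizer_singleton_iff.2 (mem_centralizer_singleton_iff.1 (hSz htS)).symm
  have hzt' : Commute z t := (mem_centralizer_singleton_iff.1 (hSz htS)).symm
  refine hc z hSz (isConj_of_cent_four hG hS htS ht ?_ hz hx)
  rw [← (isKleinFour_closure hz ht hzt' htz.symm).card_four]
  congr 2
  refine le_antisymm (fun c hc => ?_) ((closure_le _).2 ?_)
  · have h1 : ∀ c ∈ S ⊓ centralizer {t}, c ∈ centralizer (W : Set G) →
        c ∈ closure ({z, t} : Set G) := fun c h1 h3 => by
      obtain ⟨k, hk⟩ := hS.isPGroup ⟨c, h1.1⟩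
      rcases hC k c h1 h3 (congrArg Subtype.val hk) with rfl | rfl
      exacts [one_mem _, subset_closure (by simp)]
    by_cases h3 : c ∈ centralizer (W : Set G)
    · exact h1 c hc h3
    · exact (mul_mem_cancel_right (subset_closure (by simp))).1 (h1 (c * t)
        (mul_mem hc ⟨htS, mem_centralizer_singleton_iff.2 rfl⟩)
        ((hmul c hc.1 t htS).2 (iff_of_false h3 htW)))
  · rintro _ (rfl | rfl)
    exacts [⟨hWS hzW, mem_centralizer_singleton_iff.2 hzt'⟩,
      ⟨htS, mem_centralizer_singleton_iff.2 rfl⟩]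

/-- Let G be a finite simple group and x an involution of G whose centralizer contains at most three involutions. Then C_G(x) contains a Sylow 2-subgroup of G, and all involutions of G are conjugate. -/
theorem result {G : Type*} [Group G] [Finite G] [IsSimpleGroup G] (x : G) (hx : orderOf x = 2)
    (h3 : Nat.card {u : ↥(Subgroup.centralizer ({x} : Set G)) // orderOf u = 2} ≤ 3) :
    (∃ S : Sylow 2 G, (S : Subgroup G) ≤ Subgroup.centralizer ({x} : Set G)) ∧
      ∀ u v : G, orderOf u = 2 → orderOf v = 2 → IsConj u v := by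
  have x1 := (orderOf_eq_two_iff.1 hx).2
  by_cases h2 : Nat.card G = 2
  · obtain ⟨y, -, hy⟩ := (Nat.card_eq_two_iff' 1).1 h2
    refine ⟨⟨default, fun g _ => mem_centralizer_singleton_iff.2 ?_⟩, fun u v hu hv => ?_⟩
    · by_cases g1 : g = 1
      · simp [g1]
      · rw [hy g g1, hy x x1]
    · rw [hy u (orderOf_eq_two_iff.1 hu).2, hy v (orderOf_eq_two_iff.1 hv).2]
  have key : ∀ W : Subgroup G, IsKleinFour W →
      W ≤ centralizer {x} → ∀ u ∈ centralizer {x}, orderOf u = 2 → u ∈ W := by
    intro W hW h1 u hu hu2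
    by_contra h
    have h4 := Set.ncard_le_ncard (s := insert u (W : Set G))
      (t := insert 1 (Subtype.val '' {u : centralizer ({x} : Set G) | orderOf u = 2})) (by
        rintro w (rfl | hw)
        · exact Or.inr ⟨⟨w, hu⟩, by simpa using hu2, rfl⟩
        · exact or_iff_not_imp_left.2 fun w1 =>
            ⟨⟨w, h1 hw⟩, by simpa using klein_orderOf hW hw w1, rfl⟩)
    have h5 := Set.ncard_insert_le 1
      (Subtype.val '' {u : centralizer ({x} : Set G) | orderOf u = 2})
    rw [Set.ncard_insert_of_notMem h, ← Nat.card_coe_set_eq, SetLike.coe_sort_coe,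
      hW.card_four] at h4
    rw [Set.ncard_image_of_injective _ Subtype.val_injective] at h5
    exact absurd ((h4.trans h5).trans (Nat.add_le_add_right h3 1)) (by norm_num)
  obtain ⟨S, hS, hSx⟩ := aux h2 hx fun y hy W hW h1 u hu hu2 => by
    obtain ⟨g, rfl⟩ := isConj_iff.1 hy
    rw [centralizer_singleton_cj] at h1 hu
    have := key (cj g⁻¹ W) (klein_cj hW _) (le_cj_iff.1 h1) _ (mem_cj.1 hu)
      (by rwa [orderOf_inv_conj])
    rw [mem_cj_inv] at this
    simpa [mul_assoc] using this
  refine ⟨⟨hS.toSylowTop, hSx⟩, ?_⟩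
  have hxS : x ∈ S := zpowers_le.1 ((hS.of_le hSx le_top).le_of_normalized
    (isPGroup_zpowers_invol hx) (zpowers_le.2 (mem_centralizer_singleton_iff.2 rfl))
    (hSx.trans (centralizer_le_normalizer_zpowers x)))
  obtain ⟨y, hyS, hxy, hne⟩ := exists_conj_ne_of_simple h2 hS hx hxS
  have hy : orderOf y = 2 := orderOf_eq_of_isConj hxy ▸ hx
  have hc : Commute x y := (mem_centralizer_singleton_iff.1 (hSx hyS)).symm
  have hW := isKleinFour_closure hx hy hc hne.symm
  have h4 : ∀ u ∈ S, orderOf u = 2 → u ≠ x * y → IsConj u x := fun u hu hu2 h => by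
    rcases (mem_closure_four (mul_self_of_orderOf hx) (mul_self_of_orderOf hy) hc).1
      (key _ hW ((closure_le _).2 (by rintro _ (rfl | rfl); exacts [hSx hxS, hSx hyS])) u
        (hSx hu) hu2) with rfl | rfl | rfl | rfl
    · simp at hu2
    exacts [IsConj.refl _, hxy.symm, absurd rfl h]
  have h5 : ∀ u, orderOf u = 2 → IsConj u x := fun u hu => by
    obtain ⟨s, hs, hs2, h⟩ := exists_conj_mem_of_isSylowIn hS (k := 1) hu
    by_cases h6 : s = x * y
    · obtain ⟨t, ht, h7, h8⟩ := exists_conj_ne_of_simple h2 hS hs2 hs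
      exact h.trans (h7.trans (h4 t ht (orderOf_eq_of_isConj h7 ▸ hs2) (h6 ▸ h8)))
    · exact h.trans (h4 s hs hs2 h6)
  exact fun u v hu hv => (h5 u hu).trans (h5 v hv).symm

end Cfsg.Agent.S3279
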