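import Cfsg.Statements.S3282
import Cfsg.Agent.GW.PSL

set_option autoImplicit false
open Cfsg

namespace Cfsg.Agent.S3282

open CF.GW CF.Invol CF.Transfer Subgroup

/-- The abstract form of the Brauer–Suzuki–Wall Theorem. Let G be a finite group with an involution t and an abelian subgroup K of H = C_G(t) containing t, such that H = K⟨s⟩ for an involution s ∉ K with C_K(s) = ⟨t⟩ and s inverting every element of K, K ∩ K^g = 1 for every g outside H, and all involutions of G conjugate. Then G has a subgroup Q, of order q say, with |G| = q(q+1)(q−1)/2, C_G(x) = Q for every non-identity x ∈ Q, N_G(Q) = QD for an abelian subgroup D of order (q−1)/2 meeting Q trivially, and for every nontrivial subgroup X of D, N_G(X) = N_G(D) = D⟨u⟩ for some involution u ∉ D inverting D. -/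
theorem result {G : Type*} [Group G] [Finite G] (t : G) (ht : orderOf t = 2)
    (K : Subgroup G) (hKab : IsMulCommutative ↥K) (hKH : K ≤ Subgroup.centralizer ({t} : Set G)) (htK : t ∈ K)
    (s : G) (hs : orderOf s = 2) (hsH : s ∈ Subgroup.centralizer ({t} : Set G)) (hsK : s ∉ K)
    (hH : K ⊔ Subgroup.zpowers s = Subgroup.centralizer ({t} : Set G)) (hCK : K ⊓ Subgroup.centralizer ({s} : Set G) = Subgroup.zpowers t)
    (hinv : ∀ x ∈ K, s * x * s⁻¹ = x⁻¹)
    (hTI : ∀ g : G, g ∉ Subgroup.centralizer ({t} : Set G) → K ⊓ K.map (MulAut.conj g).toMonoidHom = ⊥)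
    (hconj : ∀ x y : G, orderOf x = 2 → orderOf y = 2 → IsConj x y) :
    ∃ Q D : Subgroup G, 2 * Nat.card G = Nat.card ↥Q * (Nat.card ↥Q + 1) * (Nat.card ↥Q - 1) ∧
      (∀ x ∈ Q, x ≠ 1 → Subgroup.centralizer ({x} : Set G) = Q) ∧
      IsMulCommutative ↥D ∧ 2 * Nat.card ↥D + 1 = Nat.card ↥Q ∧ Q ⊓ D = ⊥ ∧
      Subgroup.normalizer (Q : Set G) = Q ⊔ D ∧
      ∀ X : Subgroup G, X ≤ D → X ≠ ⊥ →
        Subgroup.normalizer (X : Set G) = Subgroup.normalizer (D : Set G) ∧
        ∃ u : G, orderOf u = 2 ∧ u ∉ D ∧ (∀ d ∈ D, u * d * u⁻¹ = d⁻¹) ∧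
          Subgroup.normalizer (D : Set G) = D ⊔ Subgroup.zpowers u := by
  have := Fintype.ofFinite G
  have hs2 := mul_self_of_orderOf hs
  have hn : s ∈ normalizer (K : Set G) := mem_normalizer_of_cj_le (cj_le_iff_forall.2
    fun y hy => by rw [hinv y hy]; exact inv_mem hy)
  obtain ⟨Q, D, h, -⟩ := (bsw_of ht htK hs2 hsK
    (fun g hg => (mem_sup_zpowers_iff hn (hs2 ▸ one_mem K)).1 (hH ▸ hg)) hinv
    (fun x hx h2 => by
      have h3 : x ∈ zpowers t := hCK ▸ mem_inf.mpr ⟨hx, mem_centralizer_singleton_iff.2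
        (commute_of_inverts_of_mul_self (hinv x hx) (mul_self_of_orderOf h2))⟩
      exact ((mem_zpowers_invol ht).1 h3).resolve_left (ne_one_of_orderOf h2))
    (fun x hx h1 g hg => by
      by_contra h2
      have : g * x * g⁻¹ ∈ K ⊓ cj g K := mem_inf.mpr ⟨hg, conj_mem_cj hx⟩
      rw [cj_def, hTI g h2, mem_bot, conj_eq_one_iff] at this
      exact h1 this) hconj).main
  refine ⟨Q, D, by rw [h.card, h.card_Q, Nat.add_sub_cancel]; ring, h.sc,
    ⟨⟨fun x y => Subtype.ext (h.comm _ x.2 _ y.2)⟩⟩, h.card_Q.symm, h.inf, h.norm,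
    fun X hX h0 => ⟨h.normalizer_eq hX h0, h.inv (ne_bot_of_le_ne_bot h0 hX)⟩⟩

end Cfsg.Agent.S3282
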