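import Cfsg.Statements.S3301
import Cfsg.Agent.WX.Four

set_option autoImplicit false
open Cfsg

namespace Cfsg.Agent.S3301

open CF.Loc CF.LX CF.Even Subgroup

/-- Let G be a finite group with no nontrivial 2-group quotient (O^2(G) = G), z an involution of G with H = C_G(z), and suppose E = O_2(H) is extraspecial with C_G(E) ≤ E. Then the Sylow 2-subgroups of H/[H, H] are elementary abelian: every element of 2-power order of the abelianization of H has order at most 2. -/
theorem result {G : Type*} [Group G] [Finite G] (hres : Cfsg.pResidual 2 G = ⊤) (z : G) (hz : orderOf z = 2)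
    (E : Subgroup G) (hE : E = (Cfsg.pCore 2 ↥(Subgroup.centralizer ({z} : Set G))).map (Subgroup.centralizer ({z} : Set G)).subtype)
    (hext : Cfsg.IsExtraspecial 2 ↥E) (hcent : Subgroup.centralizer (E : Set G) ≤ E) :
    ∀ q : Abelianization ↥(Subgroup.centralizer ({z} : Set G)), (∃ k : ℕ, orderOf q = 2 ^ k) → q ^ 2 = 1 := by
  rw [pCoreOf_def] at hE
  have h : LQ E z := by subst hE; exact lq_of_core hz hext (inf_le_right.trans hcent)
  exact CF.WX.ab_sq h hres

end Cfsg.Agent.S3301
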