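import Cfsg.Statements.S3303
import Cfsg.Agent.Char.SylInt
import Cfsg.Agent.S3305

set_option autoImplicit false
open Cfsg

namespace Cfsg.Agent.S3303

open CF CF.Char CF.Char.SI CF.Solv Subgroup in
/-- Let G be a finite solvable group in which the intersection of any two distinct Sylow 2-subgroups is cyclic. Then G/O(G) has a normal Sylow 2-subgroup, where O(G) is the largest normal subgroup of odd order. -/
theorem result {G : Type*} [Group G] [Finite G] (hs : Group.IsSolvable G)
    (hC : ∀ S T : Sylow 2 G, S ≠ T → IsCyclic ↥((S : Subgroup G) ⊓ (T : Subgroup G))) :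
    ∃ P : Sylow 2 (G ⧸ Cfsg.oddCore G), (P : Subgroup (G ⧸ Cfsg.oddCore G)).Normal := by
  by_contra hn
  have h1 : ¬ ∀ S T : Sylow 2 (G ⧸ oddCore G), S = T := fun h => hn (exists_normal_sylow h)
  have h2 : ¬ IsPGroup 2 (G ⧸ oddCore G) := fun h => h1 (sylow_eq_of_isPGroup h)
  push Not at h1
  obtain ⟨S, T, hne⟩ := h1
  have := Cfsg.Agent.S3305.result hC (oddCore G) S T hne
  have hc : IsCyclic (pCore 2 (G ⧸ oddCore G)) :=
    isCyclic_of_le (le_inf (pCore_le_sylow S) (pCore_le_sylow T))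
  refine h2 (isPGroup_iff_piNum_singleton.mpr fun p hp hd => ?_)
  by_contra hp2
  haveI := Fact.mk hp
  obtain ⟨g, hg⟩ := exists_prime_orderOf_dvd_card' p hd
  have h3 := centralizer_pCore_le pPrimeCore_quotient_pPrimeCore
    (mem_centralizer_of_odd_of_isCyclic pCore_isPGroup (le_normalizer_of_normal (mem_top g))
      (hg ▸ hp.odd_of_ne_two hp2))
  obtain ⟨k, hk⟩ := Transfer.orderOf_eq_pow_of_mem pCore_isPGroup h3
  exact hp2 ((Nat.prime_dvd_prime_iff_eq hp Nat.prime_two).mp (hp.dvd_of_dvd_pow (hg ▸ hk.dvd)))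

end Cfsg.Agent.S3303
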