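import Cfsg.Statements.S3304
import Cfsg.Agent.Char.SylInt

set_option autoImplicit false
open Cfsg

namespace Cfsg.Agent.S3304

open CF CF.Char CF.Char.SI CF.Solv CF.Transfer CF.Classical Subgroup

theorem uniq {X : Type*} [Group X] [Finite X] (hX : IsPGroup 2 X) (h : PRankLE 2 1 X) {x y : X}
    (hx : x ^ 2 = 1) (hy : y ^ 2 = 1) (x1 : x ≠ 1) (y1 : y ≠ 1) : x = y := by
  classical
  have : Nontrivial X := ⟨x, 1, x1⟩
  have := hX.center_nontrivial
  obtain ⟨z, hz⟩ := exists_prime_orderOf_dvd_card' (G := center X) 2 (by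
    obtain ⟨k, hk⟩ := (hX.to_subgroup (center X)).exists_card_eq
    rcases k with _ | k
    · exact absurd hk Finite.one_lt_card.ne'
    · rw [hk]; exact dvd_pow_self 2 (by omega))
  rw [← orderOf_coe] at hz
  have hz2 : (z : X) ^ 2 = 1 := hz ▸ pow_orderOf_eq_one _
  have key : ∀ x : X, x ^ 2 = 1 → x ≠ 1 → x = z := fun x hx x1 => by
    have hc : ∀ a ∈ ({x, (z : X)} : Set X), ∀ b ∈ ({x, (z : X)} : Set X), a * b = b * a := by
      rintro a (rfl | rfl) b (rfl | rfl)
      exacts [rfl, mem_center_iff.1 z.2 _, (mem_center_iff.1 z.2 _).symm, rfl]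
    have hA : IsMulCommutative (closure ({x, (z : X)} : Set X)) := isMulCommutative_closure hc
    have h1 := h _ hA fun a ha => by
      induction ha using closure_induction with
      | mem a ha => rcases ha with rfl | rfl; exacts [hx, hz2]
      | one => exact one_pow _
      | mul a b ha hb h1 h2 =>
        rw [Commute.mul_pow (congrArg Subtype.val (hA.is_comm.comm ⟨a, ha⟩ ⟨b, hb⟩)), h1, h2, one_mul]
      | inv a _ h1 => rw [inv_pow, h1, inv_one]
    have h2 : zpowers (z : X) = closure ({x, (z : X)} : Set X) :=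
      eq_of_le_of_card_ge (zpowers_le.2 (subset_closure (by simp))) (by
        rw [Nat.card_zpowers, hz]; exact h1)
    have h3 : x ∈ zpowers (z : X) := h2 ▸ subset_closure (by simp)
    rw [mem_zpowers_iff_mem_range_orderOf, hz] at h3
    obtain ⟨k, hk, rfl⟩ := Finset.mem_image.1 h3
    have := Finset.mem_range.1 hk
    interval_cases k
    · exact absurd (pow_zero _) x1
    · exact pow_one _
  rw [key x hx x1, key y hy y1]

theorem v_mul : ∀ a b : Equiv.Perm (Fin 4), (a * a = 1 ∧ Equiv.Perm.sign a = 1) →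
    (b * b = 1 ∧ Equiv.Perm.sign b = 1) → (a * b * (a * b) = 1 ∧ Equiv.Perm.sign (a * b) = 1) := by
  decide +kernel

def V : Subgroup (Equiv.Perm (Fin 4)) where
  carrier := {a | a * a = 1 ∧ Equiv.Perm.sign a = 1}
  mul_mem' := fun {a b} => v_mul a b
  one_mem' := by simp
  inv_mem' := fun {a} h => by rwa [inv_eq_of_mul_eq_one_right h.1]

theorem v_normal : V.Normal := ⟨fun a h g => ⟨by
  calc g * a * g⁻¹ * (g * a * g⁻¹) = g * (a * a) * g⁻¹ := by group
    _ = 1 := by rw [h.1]; group, by simp [h.2]⟩⟩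

theorem v_cases : ∀ a : Equiv.Perm (Fin 4), a * a = 1 →
    (a * a = 1 ∧ Equiv.Perm.sign a = 1) ∨ ∃ g, g * s4x * g⁻¹ = a := by
  decide +kernel

theorem odd24 (n : ℕ) (h : n ∣ 24) (h1 : Odd n) (h2 : n ≠ 1) : n = 3 := by
  have := Nat.le_of_dvd (by norm_num) h
  interval_cases n <;> simp_all (config := {decide := true})

theorem main {H : Type*} [Group H] [Finite H] [Group.IsSolvable H] (hO : pPrimeCore 2 H = ⊥)
    (hI : ∀ S T : Sylow 2 H, S ≠ T → ∀ x ∈ (S : Subgroup H) ⊓ T, ∀ y ∈ (S : Subgroup H) ⊓ T,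
      x ^ 2 = 1 → y ^ 2 = 1 → x ≠ 1 → y ≠ 1 → x = y) :
    (∃ P : Sylow 2 H, (P : Subgroup H).Normal) ∨ Nonempty (H ≃* GL (Fin 2) (ZMod 3)) ∨
    (Nat.card H = 48 ∧ Nat.card (center H) = 2 ∧ Nonempty (H ⧸ center H ≃* Equiv.Perm (Fin 4)) ∧
      ∀ P : Sylow 2 H, Nonempty ((P : Subgroup H) ≃* QuaternionGroup 4)) := by
  refine or_iff_not_imp_left.2 fun hn => ?_
  have h1 : ¬ ∀ S T : Sylow 2 H, S = T := fun h => hn (exists_normal_sylow h)
  have h2 : ¬ IsPGroup 2 H := fun h => h1 (sylow_eq_of_isPGroup h)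
  push Not at h1
  obtain ⟨S, T, hne⟩ := h1
  have hle : pCore 2 H ≤ (S : Subgroup H) ⊓ T := le_inf (pCore_le_sylow S) (pCore_le_sylow T)
  obtain ⟨i, j, ψ, hij, hk, g, go, g1⟩ := (core hO (fun x hx y hy h1 h2 h3 => by
    by_cases h4 : y = 1
    · rw [h4]; exact one_mem _
    rw [hI S T hne x (hle hx) y (hle hy) h1 h2 h3 h4]
    exact mem_zpowers _)).resolve_left h2
  obtain ⟨h3, h4⟩ := card_dvd_48 hij.orderOf_z hk
  have hQ : Nat.card (pCore 2 H) = 8 := hij.card_eq
  have h5 : 8 ∣ Nat.card H := hQ ▸ card_subgroup_dvd_card _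
  have h6 : 3 ∣ Nat.card ψ.range := by
    have a1 : orderOf (ψ g) ∣ Nat.card ψ.range := ψ.range.orderOf_dvd_natCard ⟨g, rfl⟩
    have a2 : Odd (orderOf (ψ g)) := go.of_dvd_nat (orderOf_map_dvd ψ g)
    have a3 : orderOf (ψ g) ≠ 1 := fun h => g1 (orderOf_eq_one_iff.1 h)
    have a4 := a1.trans h4
    exact odd24 _ a4 a2 a3 ▸ a1
  have h7 : Nat.card ψ.range = 24 := by
    have a5 := Nat.le_of_dvd (by norm_num) h4
    by_contra hne
    have a6 : Nat.card ψ.range = 12 := by
      have : 0 < Nat.card ψ.range := Nat.card_pos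
      omega
    refine hn ⟨(pCore_isPGroup (p := 2) (G := H)).toSylow ?_, (inferInstance : (pCore 2 H).Normal)⟩
    have := (pCore 2 H).card_mul_index
    rw [hQ] at this
    omega
  have hψ : Function.Surjective ψ :=
    MonoidHom.range_eq_top.1 (eq_top_of_card_eq _ (by rw [h7, card_S4]))
  have hH : Nat.card H = 48 := by omega
  have hz2 : ∀ w ∈ ψ.ker, w ^ 2 = 1 := fun w hw => by
    rw [hk] at hw
    exact orderOf_dvd_iff_pow_eq_one.1 (hij.orderOf_z ▸ orderOf_dvd_of_mem_zpowers hw)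
  have hVQ : V.comap ψ ≤ pCore 2 H := by
    have := v_normal
    refine le_pCore (IsPGroup.comap_of_ker_isPGroup (fun a => ⟨1, Subtype.ext ?_⟩) ψ
      fun w => ⟨1, Subtype.ext (hz2 w w.2)⟩)
    have := a.2.1
    rwa [← sq] at this
  have hZ : center H = ψ.ker := by
    refine le_antisymm (fun w hw => ?_) ?_
    · refine mem_bot.1 (center_S4 ▸ mem_center_iff.2 fun a => ?_)
      obtain ⟨a, rfl⟩ := hψ a
      rw [← map_mul, ← map_mul, mem_center_iff.1 hw]
    · rw [hk, zpowers_le, mem_center_iff]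
      intro a
      have := hij.eq_z ((inferInstance : (pCore 2 H).Normal).conj_mem _ hij.z_mem a)
        (by rw [Invol.orderOf_conj, hij.orderOf_z])
      exact mul_inv_eq_iff_eq_mul.1 this
  by_cases ht : ∀ t : H, t ^ 2 = 1 → t ≠ 1 → t = i ^ 2 ^ 1
  · refine Or.inr ⟨hH, by rw [hZ, hk, Nat.card_zpowers, hij.orderOf_z],
      ⟨(QuotientGroup.quotientMulEquivOfEq hZ).trans
        (QuotientGroup.quotientKerEquivOfSurjective ψ hψ)⟩, fun P => ?_⟩
    have hP : Nat.card P = 16 := by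
      rw [P.card_eq_multiplicity, hH]; decide +kernel
    rcases isCyclic_or_quaternion P.isPGroup' (fun x y hx hy x1 => by
      by_cases y1 : y = 1
      · rw [y1]; exact one_mem _
      have a1 := ht x (congrArg Subtype.val hx) fun h => x1 (Subtype.ext h)
      have a2 := ht y (congrArg Subtype.val hy) fun h => y1 (Subtype.ext h)
      rw [show y = x from Subtype.ext (a2.trans a1.symm)]; exact mem_zpowers _) with
      hc | ⟨-, n, -, ⟨e⟩⟩
    · exfalso
      let _ := hc.commGroup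
      have a1 := congrArg Subtype.val
        (mul_comm (⟨j, pCore_le_sylow P hij.b_mem⟩ : P) ⟨i, pCore_le_sylow P hij.a_mem⟩)
      have a2 := hij.hba
      change j * i = i * j at a1
      rw [a1, mul_inv_cancel_right] at a2
      exact hij.mul_self_ne_one le_rfl (by nth_rewrite 1 [a2]; exact inv_mul_cancel i)
    · obtain ⟨c, d, hcd⟩ := exists_qSetup e
      have a1 := hcd.card_eq
      rw [hP, show 16 = 2 ^ 4 from rfl] at a1
      obtain rfl : n = 2 := by have := Nat.pow_right_injective le_rfl a1; omega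
      exact ⟨e⟩
  left
  push Not at ht
  obtain ⟨t, t2, t1, tz⟩ := ht
  rcases v_cases (ψ t) (by rw [← map_mul, ← sq, t2, map_one]) with h | ⟨a, ha⟩
  · exact absurd (hij.eq_z (hVQ h) (orderOf_eq_prime t2 t1)) tz
  obtain ⟨a, rfl⟩ := hψ a
  obtain ⟨y, hy⟩ := hψ s4y
  have hx : ψ (a⁻¹ * t * a) = s4x := by rw [map_mul, map_mul, map_inv, ← ha]; group
  have hy4 : ψ (y ^ 4) = s4y := by rw [map_pow, hy]; decide
  have h8 : ((a⁻¹ * t * a) * y ^ 4) ^ 4 ∈ ψ.ker := by
    rw [MonoidHom.mem_ker, map_pow, map_mul, hx, hy4]; decide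
  refine equiv_GL23 hH (x := a⁻¹ * t * a) (y := y ^ 4) ?_ ?_ (hz2 _ h8)
    (mem_center_iff.1 (hZ ▸ h8) _) ?_
  · rw [← inv_inv a, inv_inv a⁻¹, conj_pow, t2]; group
  · have := hz2 (y ^ 3) (by rw [MonoidHom.mem_ker, map_pow, hy]; decide)
    rw [← pow_mul, show 4 * 3 = 3 * 2 * 2 from rfl, pow_mul, pow_mul, this, one_pow]
  · set K := closure {a⁻¹ * t * a, y ^ 4}
    have a1 : (a⁻¹ * t * a) * y ^ 4 ∈ K :=
      mul_mem (subset_closure (by simp)) (subset_closure (by simp))
    have a2 : ((a⁻¹ * t * a) * y ^ 4) ^ 2 ∈ pCore 2 H := hVQ (by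
      rw [mem_comap, map_pow, map_mul, hx, hy4]; exact ⟨by decide, by decide⟩)
    have a3 : ((a⁻¹ * t * a) * y ^ 4) ^ 2 ∉ ψ.ker := by
      rw [MonoidHom.mem_ker, map_pow, map_mul, hx, hy4]; decide
    have a4 : ((a⁻¹ * t * a) * y ^ 4) ^ 4 ≠ 1 := fun h => a3 (by
      rw [hij.eq_z a2 (orderOf_eq_prime (by rw [← pow_mul]; exact h) fun h => a3 (h ▸ one_mem _)), hk]
      exact mem_zpowers _)
    have a5 := hij.eq_z (hVQ (ker_le_comap _ _ h8)) (orderOf_eq_prime (hz2 _ h8) a4)
    have a6 : ψ.ker ≤ K := by rw [hk, zpowers_le, ← a5]; exact pow_mem a1 4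
    rw [← comap_map_eq_self a6, MonoidHom.map_closure, Set.image_pair, hx, hy4, closure_s4, comap_top]

/-- Let G be a finite solvable group in which the intersection of any two distinct Sylow 2-subgroups has 2-rank at most 1 (contains no Klein four-group). Write Q = G/O(G), O(G) the largest normal subgroup of odd order. Then Q has a normal Sylow 2-subgroup; or Q is isomorphic to GL(2,3); or Q has order 48, centre of order 2 with central quotient isomorphic to the symmetric group of degree 4, and generalized quaternion Sylow 2-subgroups of order 16 (the binary octahedral group). The last two are the two representation groups of the symmetric group of degree 4. -/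
theorem result {G : Type*} [Group G] [Finite G] (hs : Group.IsSolvable G)
    (hI : ∀ S T : Sylow 2 G, S ≠ T → Cfsg.PRankLE 2 1 ↥((S : Subgroup G) ⊓ (T : Subgroup G))) :
    (∃ P : Sylow 2 (G ⧸ Cfsg.oddCore G), (P : Subgroup (G ⧸ Cfsg.oddCore G)).Normal) ∨
    Nonempty ((G ⧸ Cfsg.oddCore G) ≃* GL (Fin 2) (ZMod 3)) ∨
    (Nat.card (G ⧸ Cfsg.oddCore G) = 48 ∧ Nat.card ↥(Subgroup.center (G ⧸ Cfsg.oddCore G)) = 2 ∧
      Nonempty ((G ⧸ Cfsg.oddCore G) ⧸ Subgroup.center (G ⧸ Cfsg.oddCore G) ≃* Equiv.Perm (Fin 4)) ∧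
      ∀ P : Sylow 2 (G ⧸ Cfsg.oddCore G), Nonempty (↥(P : Subgroup (G ⧸ Cfsg.oddCore G)) ≃* QuaternionGroup 4)) := by
  refine main pPrimeCore_quotient_pPrimeCore fun S T hne x hx y hy h1 h2 h3 h4 => ?_
  obtain ⟨S', T', h, R, h5, h6⟩ := lift_inter (QuotientGroup.mk'_surjective (oddCore G)) hne
  obtain ⟨e⟩ := nonempty_equiv_map (S'.isPGroup'.to_inf_left.to_le h5)
  rw [← h6] at hx hy
  have := uniq S'.isPGroup'.to_inf_left (hI S' T' h)
    (x := inclusion h5 (e.symm ⟨x, hx⟩)) (y := inclusion h5 (e.symm ⟨y, hy⟩))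
    (by rw [← map_pow, ← map_pow, show (⟨x, hx⟩ : R.map _) ^ 2 = 1 from Subtype.ext h1, map_one, map_one])
    (by rw [← map_pow, ← map_pow, show (⟨y, hy⟩ : R.map _) ^ 2 = 1 from Subtype.ext h2, map_one, map_one])
    (fun h => h3 (congrArg Subtype.val ((map_eq_one_iff _ e.symm.injective).1
      ((map_eq_one_iff _ (inclusion_injective h5)).1 h))))
    (fun h => h4 (congrArg Subtype.val ((map_eq_one_iff _ e.symm.injective).1
      ((map_eq_one_iff _ (inclusion_injective h5)).1 h))))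
  exact congrArg Subtype.val (e.symm.injective (inclusion_injective h5 this))

end Cfsg.Agent.S3304
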