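import Cfsg.Statements.S3307
import Cfsg.Agent.Ab2.App3
import Cfsg.Agent.Char.QSetup
import Cfsg.Agent.Sig.OffF
import Cfsg.Agent.Invol.QGroup

set_option autoImplicit false
open Cfsg

namespace Cfsg.Agent.S3307

open CF.BG

open CF.Ab2 CF.GW CF.Sig Subgroup CF.Schur
open scoped commutatorElement MatrixGroups

theorem core {G : Type*} [Group G] [Finite G] (h0 : 𝒪 (⊤ : Subgroup G) = ⊥) (ns : ¬ Sol (⊤ : Subgroup G))
    (cy : CY (⊤ : Subgroup G)) {S : Subgroup G} (hS : Syl 2 S ⊤) {m : ℕ} {a b : G} (m1 : 1 ≤ m)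
    (q : CF.Char.QSetup S m a b) : m = 1 ∧ ∃ L : Subgroup G, L.Normal ∧ S ≤ L ∧
      ∃ (F : Type) (_ : Field F) (_ : Fintype F), (Fintype.card F % 8 = 3 ∨ Fintype.card F % 8 = 5) ∧
        3 < Fintype.card F ∧ Nonempty (L ≃* SL(2, F)) := by
  haveI : Fact (Nat.Prime 2) := ⟨p2⟩
  have iz : Iv (a ^ 2 ^ m) := q.orderOf_z
  have cz := zstar_cent h0 hS q.z_mem fun g _ k => q.eq_z k (iz.conj g)
  have cZ : zpowers (a ^ 2 ^ m) ≤ center G := zpowers_le.2 (mem_center_iff.2 fun g => cz g (mem_top g))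
  haveI : (zpowers (a ^ 2 ^ m)).Normal := (CExt.normal_of_le_ker (ξ := QuotientGroup.mk' (center G))
    (cext_mk' _ le_rfl) (by rwa [QuotientGroup.ker_mk']))
  let π := QuotientGroup.mk' (zpowers (a ^ 2 ^ m))
  have hπ : Function.Surjective π := QuotientGroup.mk'_surjective _
  have kπ : π.ker = zpowers (a ^ 2 ^ m) := QuotientGroup.ker_mk' _
  have s := syl_map_top hπ hS
  have k0 : 𝒪 (⊤ : Subgroup (G ⧸ zpowers (a ^ 2 ^ m))) = ⊥ := by
    have n : (𝒪 ⊤).comap π ⊴ ⊤ := normalIn_top.2 ((normalIn_top.1 (O_normal _ _)).comap π)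
    have d := Hall.dprod_of_cent (A := π.ker) (C := (𝒪 ⊤).comap π) ⟨ker_le_comap _ _, kπ ▸ iz.piGrp, by
      rw [← MonoidHom.comap_bot, relIndex_comap, map_comap_eq_self_of_surjective hπ, relIndex_bot_left]
      exact O_pi _ _⟩ (by rw [kπ, cent_zpowers]; exact le_top.trans (le_cent1_iff.2 cz))
    rw [← map_comap_eq_self_of_surjective hπ (𝒪 ⊤), ← d.sup, CF.BG.eq_bot_mono h0 (O_le_O_of_normal n _), sup_bot_eq,
      Subgroup.map_eq_bot_iff]
  have nz : ∀ {x}, x ∈ S → π x ∉ zpowers (π a) → x ∉ zpowers a := fun _ k l =>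
    k (by rw [← MonoidHom.map_zpowers]; exact mem_map_of_mem π l)
  have dc : DC (S.map π) := by
    have hy : Hyp (zpowers a) S := ⟨q.zpowers_le, by
      rw [← card_mul_relIndex q.zpowers_le, q.relIndex_eq, mul_comm]⟩
    refine ⟨π a, mem_map_of_mem π q.a_mem, ?_, ?_⟩
    · rintro _ ⟨x, hx, rfl⟩ k
      refine ⟨?_, by rw [← map_inv, ← map_mul, ← map_mul, q.inverts hx (nz hx k), map_inv]⟩
      rw [← map_mul, q.sq_eq hx (nz hx k), ← MonoidHom.mem_ker, kπ]; exact mem_zpowers _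
    · rintro _ ⟨x, hx, rfl⟩ _ ⟨y, hy', rfl⟩ k l
      rw [← map_mul, ← MonoidHom.map_zpowers]
      exact mem_map_of_mem π (hy.mul_mem hx hy' (nz hx k) (nz hy' l))
  have ns' : ¬ Sol (⊤ : Subgroup (G ⧸ zpowers (a ^ 2 ^ m))) := fun k =>
    ns (sol_of_map (kπ ▸ iz.piGrp.sol) (by rwa [map_top_of_surjective _ hπ]))
  obtain k | ⟨_, _, f, n, c⟩ | ⟨L, n, cL, c, -, sL, -⟩ := (dg_of_syl s dc).cases k0
  · exact (ns' k.sol).elim
  · exact (ns' (sol_of_four f n c)).elim
  have nL := ns_of_simple sL cL.not_abel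
  have sc := (map_top_of_surjective π hπ ▸ cy.map π).sc s
  have sS := s.inf_normal n
  obtain ⟨u, hu, u1⟩ := exists_mem_ne_one (ne_bot_mono (s.pi.inf_Om_center_ne_bot (.refl _)
    (ne_bot_mono (nL.syl_ne sS) inf_le_left)) inf_le_right)
  obtain ⟨_, hx, k⟩ := SetLike.not_le_iff_exists.1 fun l : 𝛀 2 (𝐙 (S.map π)) ≤ zpowers (π a) =>
    u1 (eq_one_of_mem_bot c (mi (mem_top u) fun g _ => (commutatorElement_eq_one_iff_mul_comm.1
      (eq_one_of_mem_bot k0 (sc.zstar hu (fun y hy => mem_cent1.2 (mul_inv_eq_iff_eq_mul.1 (eq_of_cyc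
        (cyc_zpowers _) (l (conj_mem_of_norm hy.2 hu)) (l hu) ((sc.iv hu u1).conj y) (sc.iv hu u1))))
          g (mem_top g)))).symm))
  obtain ⟨x, hx', rfl⟩ := (Om_le _ _ hx).1
  have e1 : a * a ∈ zpowers (a ^ 2 ^ m) := by
    have := congrArg π (q.inverts hx' (nz hx' k))
    rw [map_mul, map_mul, map_inv, map_inv, ← (Om_le _ _ hx).2 _ (mem_map_of_mem π q.a_mem),
      mul_inv_cancel_right, eq_inv_iff_mul_eq_one, ← map_mul] at this
    rwa [← kπ]
  obtain rfl : m = 1 := by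
    have : a ^ 2 ^ 2 = 1 := by
      rw [show a ^ 2 ^ 2 = a * a * (a * a) by simp [pow_succ, mul_assoc]]
      rcases iz.mem_zpowers.1 e1 with e | e <;> rw [e]
      exacts [mul_one 1, iz.sq]
    have := orderOf_dvd_of_pow_eq_one this
    rw [q.ha, Nat.pow_dvd_pow_iff_le_right one_lt_two] at this
    omega
  have c4 : ♯(S.map π) = 4 := by
    have := CF.Solv.card_map_mul_card_inf_ker π S
    rw [kπ, inf_eq_left.2 (zpowers_le.2 q.z_mem), iz.card, q.card_eq] at this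
    omega
  have lL : S.map π ≤ L := inf_eq_left.1 (eq_of_card_le inf_le_left (by
    refine c4.le.trans (four_le sS.pi (not_le.1 fun k => nL.not_cyc sS ?_))
    have := one_lt_card.2 (nL.syl_ne sS)
    exact cyc_of_prime (by rw [show ♯(S.map π ⊓ L) = 2 by omega]; exact p2)))
  obtain ⟨T, eT⟩ := (s.of_le lL le_top).exists_sylow
  have cT : ♯(T : Subgroup L) = 4 := by rw [← c4, ← eT, card_map L.subtype_injective]
  have t := syl_sylow_top T
  obtain ⟨F, _, _, o, c3, ⟨e⟩⟩ := gw4 L sL nL.not_comm T cT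
  obtain ⟨v, hv, v1⟩ := exists_mem_ne_one (nL.top.syl_ne t)
  obtain ⟨w, f, eV⟩ := exists_fp (ab_of_four cT (nL.top.not_cyc t)) cT hv v1
  have lS : S ≤ L.comap π := map_le_iff_le_comap.1 lL
  refine ⟨rfl, L.comap π, (normalIn_top.1 n).comap π, lS, F, _, _, mod_eight o e t cT, c3,
    cover_unique ((cext_mk' _ cZ).res L) ((cext_mk' _ le_rfl).comp_equiv e.symm) ?_
      (CF.Classical.commutator_SL2_eq_top (by rwa [Nat.card_eq_fintype_card])) ?_ ?_ f (eV ▸ t)⟩
  · refine map_injective (L.comap π).subtype_injective ?_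
    rw [_root_.commutator_def, map_commutator, map_top_subtype]
    refine le_antisymm (der_le _) ?_
    conv_lhs => rw [← nL.perf, ← map_comap_eq_self_of_surjective hπ L, ← map_commutator, comap_map_eq]
    refine sup_le le_rfl (le_trans ?_ (commutator_mono lS lS))
    rw [q.commutator_eq, kπ]; rfl
  · refine (card_map (L.comap π).subtype_injective).symm.trans (Eq.trans ?_ (kπ ▸ iz.card))
    refine congrArg (fun K : Subgroup G => ♯K) (Subgroup.ext fun y => ?_)
    exact ⟨fun ⟨x, hx, e⟩ => e ▸ congrArg Subtype.val hx,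
      fun hy => ⟨⟨y, ker_le_comap π L hy⟩, Subtype.ext hy, rfl⟩⟩
  · have h1 := card_eq_mul_ker ((cext_mk' (center SL(2, F)) le_rfl).comp_equiv e.symm).surj
    have h2 := CF.Classical.card_SL_eq_gcd_mul_card_PSL (ι := Fin 2) F
    obtain ⟨j, hj⟩ := o
    rw [h1, Nat.card_congr e.toEquiv, Nat.card_eq_fintype_card (α := F), hj, Fintype.card_fin,
      show 2 * j + 1 - 1 = 2 * j by omega, Nat.gcd_mul_right_right, mul_comm] at h2
    exact (Nat.eq_of_mul_eq_mul_left Nat.card_pos h2).symm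

/-- Let G be a finite nonsolvable group whose Sylow 2-subgroups are generalized quaternion and in which any two distinct Sylow 2-subgroups intersect in a cyclic group. Then the Sylow 2-subgroups are quaternion of order 8, and G has a normal subgroup G₁ of odd index containing O(G) (the largest normal subgroup of odd order) with G₁/O(G) isomorphic to SL(2,q) for some prime power q > 3 with q ≡ 3 or 5 mod 8. -/
theorem result {G : Type*} [Group G] [Finite G] (hns : ¬ Group.IsSolvable G)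
    (hQ : ∀ S : Sylow 2 G, ∃ n : ℕ, Nonempty (↥(S : Subgroup G) ≃* QuaternionGroup (2 ^ (n + 1))))
    (hC : ∀ S T : Sylow 2 G, S ≠ T → IsCyclic ↥((S : Subgroup G) ⊓ (T : Subgroup G))) :
    (∀ S : Sylow 2 G, Nonempty (↥(S : Subgroup G) ≃* QuaternionGroup 2)) ∧
    ∃ (G₁ : Subgroup G) (_ : G₁.Normal) (_ : ((Cfsg.oddCore G).subgroupOf G₁).Normal),
      Odd G₁.index ∧ Cfsg.oddCore G ≤ G₁ ∧
      ∃ (F : Type) (_ : Field F) (_ : Fintype F), (Fintype.card F % 8 = 3 ∨ Fintype.card F % 8 = 5) ∧ 3 < Fintype.card F ∧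
        Nonempty (↥G₁ ⧸ (Cfsg.oddCore G).subgroupOf G₁ ≃* Matrix.SpecialLinearGroup (Fin 2) F) := by
  haveI : Fact (Nat.Prime 2) := ⟨p2⟩
  have hf := QuotientGroup.mk'_surjective (oddCore G)
  obtain ⟨S⟩ : Nonempty (Sylow 2 G) := inferInstance
  obtain ⟨n, ⟨e⟩⟩ := hQ S
  obtain ⟨s, ⟨i⟩⟩ := CF.Invol.exists_sylow_quotient ((syl_sylow_top S).isSylowIn p2) (oddCore G)
    CF.Bender.oddCore_odd
  obtain ⟨a, b, q⟩ := CF.Char.exists_qSetup (i.symm.trans e)
  obtain ⟨m1, L, nL, l, F, _, _, c1, c2, ⟨j⟩⟩ := core O_bar (fun k => hns (sol_top.1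
    (sol_of_map (od_sol od_ker) (by rwa [map_top_of_surjective _ hf]))))
    (map_top_of_surjective _ hf ▸ (cy_of hC).map _) (syl_map_top hf (syl_sylow_top S)) (by omega) q
  obtain ⟨nn, ⟨k⟩⟩ := quot_equiv_map (D := L.comap (QuotientGroup.mk' (oddCore G))) (C := oddCore G)
    (QuotientGroup.mk' (oddCore G)) (by rw [QuotientGroup.ker_mk'])
  refine ⟨fun T => ?_, L.comap (QuotientGroup.mk' (oddCore G)), nL.comap _, nn, ?_,
    CF.Solv.le_comap_mk' _ _, F, _, _, c1, c2,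
    ⟨k.trans ((MulEquiv.subgroupCongr (map_comap_eq_self_of_surjective hf L)).trans j)⟩⟩
  · obtain ⟨k, ⟨e'⟩⟩ := hQ T
    obtain ⟨_, _, q'⟩ := CF.Char.exists_qSetup e'
    have := q'.card_eq
    rw [(syl_sylow_top T).card_eq (syl_sylow_top S), Nat.card_congr i.toEquiv, q.card_eq, m1] at this
    obtain rfl : k = 0 := by have := Nat.pow_right_injective le_rfl this; omega
    exact ⟨e'⟩
  · rw [← relIndex_top_right, Nat.odd_iff, ← Nat.two_dvd_ne_zero, ← piNat_compl_single p2]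
    exact (syl_sylow_top S).idx_of_le (map_le_iff_le_comap.1 l)

end Cfsg.Agent.S3307
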