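import Cfsg.Statements.S3309
import Cfsg.Agent.Ab2.CI
import Cfsg.Agent.Transfer.Tate

set_option autoImplicit false
open Cfsg

namespace Cfsg.Agent.S3309

open Subgroup CF.BG CF.Sig CF.Ab2 CF.GW

abbrev H := Multiplicative (ZMod 2) × DihedralGroup 4

def c : H := (.ofAdd 1, 1)
def z : H := (1, .r 2)

/-- membership in the index two subgroups -/
def P (u v : ZMod 2) : H → Prop
  | (e, .r i) => e.toAdd = i.val * (u + v)
  | (e, .sr i) => e.toAdd = u + i.val * (u + v)

instance (u v : ZMod 2) : DecidablePred (P u v) := fun x => by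
  rcases x with ⟨e, i | i⟩ <;> unfold P <;> infer_instance

def M (u v : ZMod 2) : Subgroup H where
  carrier := {x | P u v x}
  one_mem' := by revert u v; decide
  mul_mem' := by intro a b; revert a b u v; decide
  inv_mem' := by intro a; revert a u v; decide

theorem idx (u v : ZMod 2) : (M u v).index = 2 :=
  index_eq_two_iff.2 ⟨c, show ∀ b, Xor' (P u v (b * c)) (P u v b) by revert u v; unfold Xor'; decide⟩

set_option synthInstance.maxSize 2000 in
set_option synthInstance.maxHeartbeats 200000 in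
theorem f1 : ∀ t : H, t * t = 1 → t ≠ 1 → t = z ∨ t = c ∨ t = c * z ∨ ∃ u v, ∃ s,
    ∀ a, P u v a → a * a = 1 → a = 1 ∨ a = z ∨ (∃ k, k * a = t * k) ∨ ∃ k, k * a = s * k := by
  decide

theorem f2 : ∀ a : H, a * a = 1 ∨ a * a = z := by decide
theorem f3 : ∀ a : H, c * a = a * c ∧ z * a = a * z ∧ c * z * a = a * (c * z) := by decide
theorem f4 : ∀ u v, ¬ P u v c ∧ ¬ P u v (c * z) := by decide


/-- A finite group whose Sylow 2-subgroups are isomorphic to the direct product of a group of order 2 and the dihedral group of order 8 is not a non-abelian simple group. -/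
theorem result {G : Type*} [Group G] [Finite G] (S : Sylow 2 G) (hS : Nonempty (↥(S : Subgroup G) ≃* Multiplicative (ZMod 2) × DihedralGroup 4))
    [IsSimpleGroup G] (hG : ¬ IsMulCommutative G) : False := by
  obtain ⟨e⟩ := hS
  let φ : H →* G := (S : Subgroup G).subtype.comp e.symm.toMonoidHom
  have inj : Function.Injective φ := Subtype.val_injective.comp e.symm.injective
  have mem : ∀ a, φ a ∈ (S : Subgroup G) := fun a => (e.symm a).2
  have sur : ∀ x ∈ (S : Subgroup G), ∃ a, φ a = x := fun x hx => ⟨e ⟨x, hx⟩, by simp [φ]⟩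
  have hS : Syl 2 (S : Subgroup G) ⊤ := syl_sylow_top S
  let R : H → H → Prop := fun a b => ∃ g, g * φ a * g⁻¹ = φ b
  have sy : ∀ {a b}, R a b → R b a := fun ⟨g, h⟩ => ⟨g⁻¹, by rw [← h]; group⟩
  have tr : ∀ {a b d}, R a b → R b d → R a d := fun ⟨g, h⟩ ⟨k, j⟩ => ⟨k * g, by rw [← j, ← h]; group⟩
  have of : ∀ {a b}, (∃ k, k * a = b * k) → R a b := fun ⟨k, h⟩ =>
    ⟨φ k, by rw [← map_mul, h, map_mul, mul_inv_cancel_right]⟩
  have cen : ∀ {x}, (∀ a, x * a = a * x) → φ x ∈ 𝐂 (S : Subgroup G) := fun h y hy => by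
    obtain ⟨a, rfl⟩ := sur y hy
    rw [← map_mul, ← h, map_mul]
  have cc := cen fun a => (f3 a).1
  have cz := cen fun a => (f3 a).2.1
  have ccz := cen fun a => (f3 a).2.2
  have bf : ∀ {a b}, φ a ∈ 𝐂 (S : Subgroup G) → φ b ∈ 𝐂 (S : Subgroup G) → R a b →
      ∃ n ∈ 𝐍 (S : Subgroup G), n * φ a * n⁻¹ = φ b := fun ha hb ⟨g, h⟩ => by
    obtain ⟨n, hn, k⟩ := burnside_fusion hS ha (mem_top g) (h ▸ hb)
    exact ⟨n, hn.2, k.trans h⟩
  have nz : ∀ n ∈ 𝐍 (S : Subgroup G), n * φ z * n⁻¹ = φ z := fun n hn => by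
    obtain ⟨a, ha⟩ := sur _ ((hn _).1 (mem (1, .r 1)))
    have : n * φ z * n⁻¹ = φ (a * a) := by
      rw [map_mul, ha, show z = (1, .r 1) * (1, .r 1) by decide, map_mul]; group
    rcases f2 a with h | h <;> rw [h] at this
    · rw [map_one, conj_eq_one_iff, ← map_one φ] at this
      exact absurd (inj this) (by decide)
    · exact this
  have n1 : ¬ R z c := fun h => by
    obtain ⟨n, hn, k⟩ := bf cz cc h
    exact absurd (inj ((nz n hn).symm.trans k)) (by decide)
  have n2 : ¬ R z (c * z) := fun h => by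
    obtain ⟨n, hn, k⟩ := bf cz ccz h
    exact absurd (inj ((nz n hn).symm.trans k)) (by decide)
  have n3 : ¬ R c (c * z) := fun h => by
    obtain ⟨n, hn, k⟩ := bf cc ccz h
    have h2 : n ^ 2 ∈ 𝐂₁ (φ c) := by
      rw [mem_cent1, ← mul_inv_eq_iff_eq_mul]
      calc _ = n * (n * φ c * n⁻¹) * n⁻¹ := by rw [pow_two]; group
        _ = (n * φ c * n⁻¹) * (n * φ z * n⁻¹) := by nth_rw 1 [k]; rw [map_mul]; group
        _ = _ := by rw [k, nz n hn, ← map_mul]; exact congrArg φ (by decide)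
    haveI := (normalIn_norm (S : Subgroup G)).normal
    have h3 : n ^ (S : Subgroup G).relIndex (𝐍 (S : Subgroup G)) ∈ (S : Subgroup G) :=
      ((S : Subgroup G).subgroupOf (𝐍 (S : Subgroup G))).pow_index_mem ⟨n, hn⟩
    obtain ⟨j, hj⟩ := Nat.not_even_iff_odd.1 (mt even_iff_two_dvd.1
      ((hS.of_le (le_norm_self _) le_top).not_dvd p2))
    rw [hj, pow_succ, pow_mul] at h3
    have h4 : n ∈ 𝐂₁ (φ c) := (mul_mem_cancel_left (pow_mem h2 j)).1 (le_cent1_iff.2 cc h3)
    rw [mem_cent1.1 h4, mul_inv_cancel_right] at k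
    exact absurd (inj k) (by decide)
  have rel : ∀ u v, ((M u v).map φ).relIndex S = 2 := fun u v => by
    rw [show (S : Subgroup G) = (⊤ : Subgroup H).map φ from le_antisymm
      (fun y hy => (sur y hy).imp fun _ h => ⟨trivial, h⟩) fun _ ⟨a, _, h⟩ => h ▸ mem a,
      relIndex_map_map_of_injective _ _ inj, relIndex_top_right, idx]
  have iv : ∀ {x a}, x * x = 1 → x ≠ 1 → R x a → a * a = 1 ∧ a ≠ 1 := fun {x a} h x1 ⟨g, e⟩ => by
    refine ⟨inj ?_, ?_⟩
    · rw [map_mul, ← e, map_one]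
      calc _ = g * φ (x * x) * g⁻¹ := by rw [map_mul]; group
        _ = 1 := by rw [h, map_one]; group
    · rintro rfl
      rw [map_one, conj_eq_one_iff, ← map_one φ] at e
      exact x1 (inj e)
  have th : ∀ u v x, x * x = 1 → ¬ P u v x → ∃ a, P u v a ∧ a * a = 1 ∧ a ≠ 1 ∧ R x a := fun u v x h k => by
    have x1 : x ≠ 1 := fun e => k (e ▸ (M u v).one_mem)
    by_contra n
    obtain ⟨N, hN, i, -⟩ := CF.Transfer.thompson_transfer S.not_dvd_index (rel u v) (mem x)
      (orderOf_eq_prime (by rw [← map_pow, pow_two, h, map_one]) (by rwa [← map_one φ, inj.ne_iff]))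
      fun g ⟨a, ha, e⟩ => n ⟨a, ha, (iv h x1 ⟨g, e.symm⟩).1, (iv h x1 ⟨g, e.symm⟩).2, g, e.symm⟩
    rcases hN.eq_bot_or_eq_top with rfl | rfl
    · rw [index_bot] at i
      haveI := isCyclic_of_prime_card i
      exact hG inferInstance
    · rw [index_top] at i
      omega
  obtain ⟨g, -, m, k⟩ := (ns_top hG).exists_conj hS (mem z) (by rw [← map_one φ, inj.ne_iff]; decide)
  obtain ⟨t, ht⟩ := sur _ m
  have r : R z t := ⟨g, ht.symm⟩
  have i := iv (by decide) (by decide) r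
  rcases f1 t i.1 i.2 with rfl | rfl | rfl | ⟨u, v, s, h⟩
  · exact k ht.symm
  · exact n1 r
  · exact n2 r
  obtain ⟨a, a1, a2, a3, a4⟩ := th u v c (by decide) (f4 u v).1
  obtain ⟨b, b1, b2, b3, b4⟩ := th u v (c * z) (by decide) (f4 u v).2
  rcases h a a1 a2 with h1 | rfl | h1 | h1
  exacts [a3 h1, n1 (sy a4), n1 (tr r (sy (tr a4 (of h1)))), by
    rcases h b b1 b2 with h2 | rfl | h2 | h2
    exacts [b3 h2, n2 (sy b4), n2 (tr r (sy (tr b4 (of h2)))),
      n3 (tr (tr a4 (of h1)) (sy (tr b4 (of h2))))]]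

end Cfsg.Agent.S3309
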