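import Cfsg.Statements.S3313
import Cfsg.Agent.J23.M0
import Cfsg.Agent.Sig.FStar

set_option autoImplicit false
open Cfsg

namespace Cfsg.Agent.S3313

/-- The order of a simple group with the involution pattern of the Hall–Janko group. Let G be a non-abelian finite simple group with exactly two conjugacy classes of involutions, represented by z and t, such that: F*(C_G(z)) is an extraspecial 2-group; Q = O₂(C_G(z)) has order 32 and C_G(z) is the semidirect product of Q by a subgroup isomorphic to A₅; every involution of Q is conjugate to z and every other involution of C_G(z) is conjugate to t; C_G(t) is an internal direct product V × B with V a four-group containing t and B ≅ A₅; every involution of B is conjugate to z and every other involution of C_G(t) is conjugate to t. Then |G| = 604800. -/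
theorem result {G : Type*} [Group G] [Finite G]
    [IsSimpleGroup G] (hna : ¬ IsMulCommutative G) (z t : G) (hz : orderOf z = 2) (ht : orderOf t = 2)
    (hzt : ¬ IsConj z t) (hcl : ∀ x : G, orderOf x = 2 → IsConj x z ∨ IsConj x t)
    (hex : Cfsg.IsExtraspecial 2 ↥(Cfsg.generalizedFittingSubgroup ↥(Subgroup.centralizer ({z} : Set G))))
    (hQ : Nat.card ↥(Cfsg.pCore 2 ↥(Subgroup.centralizer ({z} : Set G))) = 32)
    (K : Subgroup G) (hK : Nonempty (↥K ≃* alternatingGroup (Fin 5)))
    (hKC : K ⊔ (Cfsg.pCore 2 ↥(Subgroup.centralizer ({z} : Set G))).map (Subgroup.centralizer ({z} : Set G)).subtype = Subgroup.centralizer ({z} : Set G))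
    (hKQ : K ⊓ (Cfsg.pCore 2 ↥(Subgroup.centralizer ({z} : Set G))).map (Subgroup.centralizer ({z} : Set G)).subtype = ⊥)
    (hQz : ∀ x ∈ (Cfsg.pCore 2 ↥(Subgroup.centralizer ({z} : Set G))).map (Subgroup.centralizer ({z} : Set G)).subtype, orderOf x = 2 → IsConj x z)
    (hCz : ∀ x ∈ Subgroup.centralizer ({z} : Set G), orderOf x = 2 →
      x ∉ (Cfsg.pCore 2 ↥(Subgroup.centralizer ({z} : Set G))).map (Subgroup.centralizer ({z} : Set G)).subtype → IsConj x t)
    (V B : Subgroup G) (hVB : Cfsg.IsInternalDirectProduct V B (Subgroup.centralizer ({t} : Set G)))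
    (hV : Nat.card ↥V = 4) (hV2 : ∀ v ∈ V, v ^ 2 = 1) (htV : t ∈ V) (hB : Nonempty (↥B ≃* alternatingGroup (Fin 5)))
    (hBz : ∀ x ∈ B, orderOf x = 2 → IsConj x z)
    (hCt : ∀ x ∈ Subgroup.centralizer ({t} : Set G), orderOf x = 2 → x ∉ B → IsConj x t) :
    Nat.card G = 604800 := by
  have hF := CF.Sig.fstar_eq_pCore_iff_isPGroup.2 hex.1.1
  have hc := CF.Sig.fstar_eq_pCore_iff.1 hF
  rw [hF] at hex
  have hle : K ≤ Subgroup.centralizer {z} := hKC ▸ le_sup_left
  have inj := (Subgroup.centralizer ({z} : Set G)).subtype_injective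
  have : (pCore 2 (Subgroup.centralizer ({z} : Set G))).Normal := inferInstance
  have cp := CF.Solv.isComplement'_of_inf_eq_bot_of_sup_eq_top (N := pCore 2 (Subgroup.centralizer ({z} : Set G)))
    (H := K.subgroupOf (Subgroup.centralizer {z}))
    (Subgroup.map_injective inj (by
      rw [Subgroup.map_inf _ _ _ inj, Subgroup.map_subgroupOf_eq_of_le hle, inf_comm, hKQ, Subgroup.map_bot]))
    (Subgroup.map_injective inj (by
      rw [Subgroup.map_sup, Subgroup.map_subgroupOf_eq_of_le hle, sup_comm, hKC, ← MonoidHom.range_eq_map,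
        Subgroup.range_subtype]))
  obtain ⟨eK⟩ := hK
  obtain ⟨f, -⟩ := (CF.J23.hyp_le hz hex hQ hc (cp.symm.QuotientMulEquiv.trans
    ((Subgroup.subgroupOfEquivOfLe hle).trans eK))).two CF.J23.mod0 ⟨z, t, hz, ht, hzt⟩
  exact (Nat.card_congr f.toEquiv).symm.trans CF.J23.P2.cardP

end Cfsg.Agent.S3313
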