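import Cfsg.Statements.S3315
import Cfsg.Agent.Suz.SylU
import Cfsg.Agent.S0279
import Cfsg.Agent.Char.SylInt

set_option autoImplicit false
open Cfsg

namespace Cfsg.Agent.S3315

open CF CF.Suz Subgroup

section
variable {E : Type*} [Field E] [StarRing E] [Finite E] [CharP E 2]

theorem ex_sq {c : E} (hc : star c = c) : ∃ l : E, star l = l ∧ c = l * l := by
  obtain ⟨l, hl⟩ := FiniteField.isSquare_of_char_two (ringChar.eq E 2) c
  refine ⟨l, ?_, hl⟩
  have := congrArg star hl
  rw [hc, star_mul] at this
  have h2 : (star l - l) ^ 2 = 0 := by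
    rw [CharTwo.sub_eq_add, CharTwo.add_sq, sq, sq, ← this, ← hl, CharTwo.add_self_eq_zero]
  exact sub_eq_zero.1 (pow_eq_zero_iff two_ne_zero |>.1 h2)

theorem core {ω : E} (hω : star ω ≠ ω) (α : E →+ E) (β : E → E)
    (hβ : ∀ a b, star a = a → star b = b → β (a + b) = β a + β b) (hα : ∀ x, α (α x) = x)
    (hN : ∀ x, β (star x * x) = star (α x) * α x) {c : E} (hc : star c = c) : β c = c := by
  have two : (2 : E) = 0 := CharTwo.two_eq_zero
  have b0 : β 0 = 0 := by simpa using hN 0
  have bK : ∀ c, star c = c → star (β c) = β c ∧ β (β c) = c := fun c hc => by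
    obtain ⟨l, h1, rfl⟩ := ex_sq hc
    have := hN l
    rw [h1] at this
    rw [this, hN, hα, h1, star_mul, star_star]
    exact ⟨rfl, rfl⟩
  have hB : ∀ x y, β (star x * y + star y * x) = star (α x) * α y + star (α y) * α x := fun x y => by
    have h1 := hN (x + y)
    rw [show star (x + y) * (x + y) = (star x * y + star y * x) + (star x * x + star y * y) by
      rw [star_add]; ring, hβ _ _ (by simp [add_comm, mul_comm]) (by simp [mul_comm]),
      hβ (star x * x) _ (by simp [mul_comm]) (by simp [mul_comm]), hN, hN, map_add, star_add] at h1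
    linear_combination h1
  obtain ⟨x, x0, hx⟩ : ∃ x : E, x ≠ 0 ∧ α x = x := by
    by_cases h : α 1 = 1
    · exact ⟨1, one_ne_zero, h⟩
    · exact ⟨1 + α 1, fun h1 => h (by linear_combination h1 - two), by rw [map_add, hα, add_comm]⟩
  have sx0 : star x ≠ 0 := star_ne_zero.2 x0
  let σ : E → E := fun l => α (l * x) / x
  have hσ : ∀ l, α (l * x) = σ l * x := fun l => (div_mul_cancel₀ _ x0).symm
  have σK : ∀ l, star l = l → star (σ l) = σ l := fun l hl => by
    have := hB x (l * x)
    rw [star_mul, hl, show star x * (l * x) + star x * l * x = 0 by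
      linear_combination (star x * l * x) * two, b0, hx, hσ, star_mul] at this
    apply mul_right_cancel₀ (mul_ne_zero sx0 x0)
    linear_combination -this - (σ l * star x * x) * two
  have ω0 : ω + star ω ≠ 0 := fun h => hω (by linear_combination h - ω * two)
  have surj : ∀ m, star m = m → ∃ y, m = star x * y + star y * x := fun m hm =>
    ⟨m * ω / ((ω + star ω) * star x), by
      rw [star_div₀, star_mul, star_mul, star_add, star_star, star_star, hm, add_comm (star ω)]
      field_simp⟩
  have semi : ∀ l m, star l = l → star m = m → β (l * m) = σ l * β m := fun l m hl hm => by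
    obtain ⟨y, rfl⟩ := surj m hm
    have := hB (l * x) y
    rw [star_mul, hl, hσ, star_mul, σK l hl] at this
    rw [hB, hx, show l * (star x * y + star y * x) = star x * l * y + star y * (l * x) by ring, this]
    ring
  have n0 : β (star x * x) = star x * x := by rw [hN, hx]
  have nK : star (star x * x) = star x * x := by simp [mul_comm]
  by_cases hall : ∀ l, star l = l → σ l = l
  · have := semi (c / (star x * x)) _ (by rw [star_div₀, hc, nK]) nK
    rwa [hall _ (by rw [star_div₀, hc, nK]), n0, div_mul_cancel₀ _ (mul_ne_zero sx0 x0)] at this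
  exfalso
  push Not at hall
  obtain ⟨l, hl, hl'⟩ := hall
  have σmul : ∀ l m, star l = l → star m = m → σ (l * m) = σ l * σ m := fun l m hl hm => by
    have h1 := semi (l * m) _ (by rw [star_mul, hl, hm, mul_comm]) nK
    rw [mul_assoc, semi l _ hl (by rw [star_mul, hm, nK, mul_comm]), semi m _ hm nK, n0] at h1
    exact mul_right_cancel₀ (mul_ne_zero sx0 x0) (by linear_combination -h1)
  have d0 : l + σ l ≠ 0 := fun h => hl' (by linear_combination h - l * two)
  have dK : star (l + σ l) = l + σ l := by rw [star_add, hl, σK l hl]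
  have dσ : σ (l + σ l) = l + σ l := by
    apply mul_right_cancel₀ x0
    rw [← hσ, add_mul, map_add, ← hσ, hα, add_comm]
  obtain ⟨k, hk, hk'⟩ : ∃ k, star k = k ∧ k + σ k = 1 := by
    have kK : star (l / (l + σ l)) = l / (l + σ l) := by rw [star_div₀, hl, dK]
    refine ⟨l / (l + σ l), kK, mul_right_cancel₀ d0 ?_⟩
    have := σmul _ _ kK dK
    rw [div_mul_cancel₀ _ d0, dσ] at this
    rw [add_mul, ← this, div_mul_cancel₀ _ d0, one_mul]
  obtain ⟨y, hy, hb⟩ : ∃ y, α y = y ∧ star x * y + star y * x ≠ 0 := by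
    obtain ⟨y, hy⟩ := surj 1 (star_one _)
    by_contra hn
    push Not at hn
    have h1 := hn (y + α y) (by rw [map_add, hα, add_comm])
    have h2 := hn (k * y + α (k * y)) (by rw [map_add, hα, add_comm])
    have h3 := hB x y
    have h4 := hB x (k * y)
    rw [star_mul, hk, show star x * (k * y) + star y * k * x = k * (star x * y + star y * x) by ring,
      ← hy, semi k 1 hk (star_one _), hx] at h4
    rw [← hy, hx] at h3
    rw [star_add] at h1 h2
    rw [star_mul, hk] at h2
    have h5 : β 1 = 1 := by linear_combination h3 + h1 - hy - (star x * y + star y * x) * two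
    rw [h5] at h4
    exact one_ne_zero (α := E) (by linear_combination -hk' + h4 + h2 + k * hy)
  set b := star x * y + star y * x with hbd
  have bK' : star b = b := by simp [hbd, add_comm, mul_comm]
  have bβ : β b = b := by rw [hbd, hB, hx, hy]
  let f : selfAdjoint E →+ selfAdjoint E := AddMonoidHom.mk' (fun t => ⟨t * t * (star x * x) + t * b, by
    rw [selfAdjoint.mem_iff, star_add, star_mul, star_mul, star_mul, star_mul, t.2.star_eq, bK',
      star_star]; ring⟩) fun s t => Subtype.ext (by
    simp only [AddSubgroup.coe_add]; linear_combination (s * t * (star x * x)) * two)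
  have hk2 : Nat.card f.ker = 2 := by
    have hb' : star (b / (star x * x)) = b / (star x * x) := by rw [star_div₀, bK', nK]
    rw [Nat.card_eq_two_iff' 0]
    refine ⟨⟨⟨_, hb'⟩, Subtype.ext ?_⟩, fun h => ?_, fun t ht => Subtype.ext (Subtype.ext ?_)⟩
    · change b / (star x * x) * (b / (star x * x)) * (star x * x) + b / (star x * x) * b = 0
      field_simp
      linear_combination (b ^ 2) * two
    · exact div_ne_zero hb (mul_ne_zero sx0 x0) (congrArg (fun t => (t.1.1 : E)) h)
    · have h1 : (t.1.1 : E) ≠ 0 := fun h => ht (Subtype.ext (Subtype.ext h))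
      have h2 : (t.1.1 : E) * t.1.1 * (star x * x) + t.1.1 * b = 0 := congrArg Subtype.val t.2
      rw [eq_div_iff (mul_ne_zero sx0 x0)]
      exact mul_left_cancel₀ h1 (by linear_combination h2 - (t.1.1 * b) * two)
  have hi : f.range.index = 2 := by rw [AddSubgroup.index_range, hk2]
  have inv : ∀ m (hm : star m = m), (⟨m, hm⟩ : selfAdjoint E) ∈ f.range →
      (⟨β m, (bK m hm).1⟩ : selfAdjoint E) ∈ f.range := by
    rintro m hm ⟨⟨t, ht⟩, h⟩
    have ht' : star t = t := ht
    have h : t * t * (star x * x) + t * b = m := congrArg Subtype.val h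
    refine ⟨⟨σ t, σK t ht⟩, Subtype.ext ?_⟩
    change σ t * σ t * (star x * x) + σ t * b = β m
    rw [← h, hβ _ _ (by rw [star_mul, star_mul t, ht', nK, mul_comm]) (by
      rw [star_mul, ht', bK', mul_comm]), semi _ _ (by rw [star_mul, ht']) nK, semi _ _ ht' bK',
      σmul _ _ ht' ht', n0, bβ]
  have yK : star (star y * y) = star y * y := by simp [mul_comm]
  have mK : star (k * (star y * y)) = k * (star y * y) := by rw [star_mul, hk, yK, mul_comm]
  obtain ⟨⟨t, ht⟩, h⟩ := (AddSubgroup.add_mem_iff_of_index_two hi (a := ⟨_, mK⟩)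
    (b := ⟨_, (bK _ mK).1⟩)).2 ⟨inv _ mK, fun h => by
      have := inv _ _ h
      simpa only [(bK _ mK).2] using this⟩
  have ht' : star t = t := ht
  have h : t * t * (star x * x) + t * b = k * (star y * y) + β (k * (star y * y)) :=
    congrArg Subtype.val h
  rw [semi _ _ hk yK, hN, hy, ← add_mul, hk', one_mul] at h
  have h1 : star (t * x + y) * (t * x + y) = 0 := by
    rw [star_add, star_mul, ht']
    linear_combination h + (star y * y) * two
  have h2 : t * x + y = 0 := by
    rcases mul_eq_zero.1 h1 with h | h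
    exacts [star_eq_zero.1 h, h]
  have h3 : y = t * x := by linear_combination h2 - (t * x) * two
  apply hb
  rw [hbd, h3, star_mul, ht']
  linear_combination (t * x * star x) * two

end

theorem fix {E : Type*} [Field E] [StarRing E] [Fintype E] [CharP E 2] {q : ℕ}
    (hE : Fintype.card E = q ^ 2) (hs : ∀ x : E, star x = x ^ q) {ω : E} (hω : star ω ≠ ω)
    (σ : MulAut (UT E)) {t : UT E} (hσ : ∀ x, σ (σ x) = t * x * t⁻¹) (z : UT E)
    (hz : z ∈ center (UT E)) : σ z = z := by
  classical
  have hc : ∀ x : UT E, x.e = 0 → (σ x).e = 0 := fun x hx => by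
    rw [← UT.mem_center hE hs, mem_center_iff] at hx ⊢
    intro g
    rw [← σ.apply_symm_apply g, ← map_mul, ← map_mul, hx]
  have he : ∀ x y : UT E, x.e = y.e → (σ x).e = (σ y).e := fun x y h => by
    have := hc (x⁻¹ * y) (by simp [h])
    rw [map_mul, map_inv, UT.mul_e, UT.inv_e] at this
    linear_combination -this
  choose s hs' using UT.exists_e hE hs
  let α : E →+ E := AddMonoidHom.mk' (fun a => (σ (s a)).e) fun a b => by
    rw [← UT.mul_e, ← map_mul]; exact he _ _ (by simp [hs'])
  have hα : ∀ x : UT E, α x.e = (σ x).e := fun x => he _ _ (hs' _)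
  let β : E → E := fun c => if h : star c = c then
    (σ ⟨0, c, by simp [h, CharTwo.add_self_eq_zero]⟩).y else 0
  have hβ : ∀ x : UT E, x.e = 0 → star x.y = x.y ∧ β x.y = (σ x).y := fun x hx => by
    have h1 : star x.y = x.y := by
      have := x.h
      rw [hx, mul_zero] at this
      rw [eq_neg_of_add_eq_zero_right this, CharTwo.neg_eq]
    refine ⟨h1, ?_⟩
    simp only [β, dif_pos h1]
    congr 2
    ext <;> simp [hx]
  have hz' := (UT.mem_center hE hs).1 hz
  have := core hω α β (fun a b ha hb => by
    have h1 := (hβ (⟨0, a, by simp [ha, CharTwo.add_self_eq_zero]⟩ *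
      ⟨0, b, by simp [hb, CharTwo.add_self_eq_zero]⟩) (by simp)).2
    rw [map_mul, UT.mul_y, UT.mul_y, hc _ rfl] at h1
    simpa [β, ha, hb] using h1) (fun a => by
    rw [← hs' a, hα, hα, hσ]; simp) (fun a => by
    have h1 := (hβ (s a * s a) (by simp [CharTwo.add_self_eq_zero])).2
    rw [map_mul, UT.mul_y, UT.mul_y, CharTwo.add_self_eq_zero, CharTwo.add_self_eq_zero, zero_add,
      zero_add, ← hα, hs'] at h1
    exact h1) (hβ z hz').1
  ext
  · rw [hc z hz', hz']
  · rw [← (hβ z hz').2, this]

/-- Let S be a Sylow 2-subgroup of SU₃(2ⁿ), n ≥ 2 (realised over the field with 4ⁿ elements). If a finite 2-group R contains a subgroup S' of index 2 isomorphic to S, then the centre of S' is contained in the centre of R. -/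
theorem result {R : Type*} [Group R] [Finite R]
    (hR : IsPGroup 2 R) (n : ℕ) (hn : 2 ≤ n) {F : Type*} [Field F] [Fintype F] (hF : Fintype.card F = 4 ^ n)
    (P : Sylow 2 ↥(Cfsg.SU 3 F (2 ^ n))) (S' : Subgroup R) (hS : Nonempty (↥S' ≃* ↥(P : Subgroup ↥(Cfsg.SU 3 F (2 ^ n)))))
    (hidx : S'.index = 2) :
    (Subgroup.center ↥S').map S'.subtype ≤ Subgroup.center R := by
  have hF' : Fintype.card F = (2 ^ n) ^ 2 := by rw [hF, ← pow_mul, mul_comm, pow_mul]; rfl
  obtain ⟨σ, h1, h0, h2⟩ := CF.Geom.exists_conj hF'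
  let _ : StarRing F :=
    { star := σ, star_involutive := h2, star_mul := fun a b => by rw [map_mul, mul_comm]
      star_add := map_add σ }
  have : CharP F 2 := by
    obtain ⟨p, hp⟩ := CharP.exists F
    obtain ⟨m, h3, h4⟩ := FiniteField.card F p
    have : p ∣ 2 ^ (n * 2) := by rw [pow_mul, ← hF', h4]; exact dvd_pow_self _ m.ne_zero
    exact (Nat.prime_dvd_prime_iff_eq h3 Nat.prime_two).1 (h3.dvd_of_dvd_pow this) ▸ hp
  obtain ⟨ω, hω⟩ : ∃ ω : F, star ω ≠ ω := by
    by_contra h
    push Not at h
    exact h0 (RingHom.ext h)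
  obtain ⟨e1⟩ := hS
  let π := QuotientGroup.mk' (center (SU 3 F (2 ^ n)))
  obtain ⟨e2⟩ := sylow_psu (by omega) hF' h1 (P.mapSurjective (QuotientGroup.mk'_surjective _))
  have hc : (Nat.card (center (SU 3 F (2 ^ n)))).Coprime 2 := by
    rw [Cfsg.Agent.S0279.result hF' 3 le_rfl]
    exact Nat.Coprime.coprime_dvd_left (Nat.gcd_dvd_left _ _) (by norm_num)
  let e3 := MulEquiv.ofBijective (π.subgroupMap P) ⟨(injective_iff_map_eq_one _).2 fun x hx =>
    Subtype.ext (mem_bot.1 (Solv.inf_eq_bot_of_isPGroup_of_coprime P.isPGroup' hc ▸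
      (⟨x.2, (QuotientGroup.eq_one_iff _).1 (congrArg Subtype.val hx)⟩ :
        (x : SU 3 F (2 ^ n)) ∈ (P : Subgroup _) ⊓ center _))), MonoidHom.subgroupMap_surjective _ _⟩
  let e : S' ≃* UT F := (e1.trans e3).trans e2.symm
  have hN : S'.Normal := normal_of_index_eq_two hidx
  rintro _ ⟨z, hz, rfl⟩
  rw [mem_center_iff]
  intro g
  by_cases hg : g ∈ S'
  · exact congrArg Subtype.val (mem_center_iff.1 hz ⟨g, hg⟩)
  have := fix hF' h1 hω (MulAut.congr e (MulAut.conjNormal g))
    (t := e ⟨g * g, mul_self_mem_of_index_two hidx g⟩) (fun x => by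
      simp only [MulAut.congr_apply, MulEquiv.trans_apply, MulEquiv.symm_apply_apply]
      rw [← e.apply_symm_apply x, ← map_mul, ← map_inv, ← map_mul, e.symm_apply_apply]
      congr 1
      ext; simp only [MulAut.conjNormal_apply, coe_mul, coe_inv]; group) (e z)
    (mem_center_iff.2 fun x => by
      rw [← e.apply_symm_apply x, ← map_mul, ← map_mul, mem_center_iff.1 hz])
  simp only [MulAut.congr_apply, MulEquiv.trans_apply, MulEquiv.symm_apply_apply] at this
  have := congrArg Subtype.val (e.injective this)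
  rw [MulAut.conjNormal_apply] at this
  exact mul_inv_eq_iff_eq_mul.1 this

end Cfsg.Agent.S3315
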