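import Cfsg.Statements.S3322
import Cfsg.Agent.W3.DGb

set_option autoImplicit false
open Cfsg

namespace Cfsg.Agent.S3322

open CF CF.BG Subgroup in
/-- Call a group a D-group when it has a proper subgroup outside of which every element x satisfies x² = 1 (for instance a dihedral group, or an elementary abelian 2-group). Let G be a finite group with a subgroup H that is a D-group (witnessed by a proper subgroup A of H) of order divisible by 4, such that H = C_G(j) for every involution j in the centre of H. If G is not solvable, then G has a normal subgroup N whose order is odd or twice an odd number with G/N isomorphic to PSL(2, q) or PGL(2, q) for some prime power q > 3 (q may be even). -/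
theorem result
    {G : Type*} [Group G] [Finite G] (H A : Subgroup G) (hAH : A < H) (hD : ∀ x ∈ H, x ∉ A → x ^ 2 = 1)
    (h4 : 4 ∣ Nat.card ↥H)
    (hC : ∀ j ∈ H, orderOf j = 2 → (∀ h ∈ H, h * j = j * h) → Subgroup.centralizer ({j} : Set G) = H)
    (hns : ¬ Group.IsSolvable G) :
    ∃ (N : Subgroup G) (_ : N.Normal), (Odd (Nat.card ↥N) ∨ ∃ m : ℕ, Odd m ∧ Nat.card ↥N = 2 * m) ∧
      ∃ (F : Type) (_ : Field F) (_ : Fintype F), 3 < Fintype.card F ∧
        (Nonempty (G ⧸ N ≃* Matrix.ProjectiveSpecialLinearGroup (Fin 2) F) ∨
          Nonempty (G ⧸ N ≃* Matrix.ProjGenLinGroup (Fin 2) F)) := by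
  obtain ⟨B, b⟩ := W3.DGr.exists_dd hAH hD h4 hC
  exact b.main fun s => hns (Fgs3.sol_top_iff.1 s)

end Cfsg.Agent.S3322
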