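import Cfsg.Statements.S3333
import Cfsg.Agent.Char.T3l

set_option autoImplicit false
open Cfsg

namespace Cfsg.Agent.S3333

open CF CF.Char Subgroup in
/-- Let G be a finite group with a Sylow 3-subgroup S of order 9 that is its own centralizer, with N_G(S)/S dihedral of order 8, and such that C_G(x) ≤ N_G(S) for every non-identity x in S. Then S is normal in G or G is isomorphic to the symmetric group of degree 6. -/
theorem result {G : Type*} [Group G] [Finite G]
    (P : Sylow 3 G) (S : Subgroup G) (hSP : S = P) (hcard : Nat.card S = 9)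
    (hC : Subgroup.centralizer (S : Set G) = S)
    (eN : Subgroup.normalizer (S : Set G) ⧸ S.subgroupOf (Subgroup.normalizer (S : Set G)) ≃* DihedralGroup 4)
    (hcent : ∀ x ∈ S, x ≠ 1 → Subgroup.centralizer ({x} : Set G) ≤ Subgroup.normalizer (S : Set G)) :
    S.Normal ∨ Nonempty (G ≃* Equiv.Perm (Fin 6)) := by
  subst hSP
  haveI := Fact.mk Nat.prime_three
  set N := normalizer ((P : Subgroup G) : Set G)
  let f : N →* DihedralGroup 4 := eN.toMonoidHom.comp (QuotientGroup.mk' _)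
  have hf : ∀ n : N, f n = 1 ↔ (n : G) ∈ P := fun n => by
    exact (map_eq_one_iff eN eN.injective).trans (QuotientGroup.eq_one_iff n)
  have hs : Function.Surjective f := eN.surjective.comp (QuotientGroup.mk'_surjective _)
  obtain ⟨s, es⟩ := hs (.sr 0)
  obtain ⟨t, et⟩ := hs (.r 2)
  obtain ⟨r, er⟩ := hs (.r 1)
  have h : T3.Syl9 (P : Subgroup G) := ⟨hcard, fun a ha => by_contra fun a3 => ?_, P.not_dvd_index, hcent, hC.le⟩
  · refine (h.exists_s8 (s := s) (t := t) (fun n hn => (hf (⟨n, hn⟩ ^ 4)).1 ?_) ?_ s.2 t.2 ((hf (s * s)).1 ?_)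
      ((hf (t * t)).1 ?_) (mt (hf s).2 ?_) (mt (hf t).2 ?_) (mt (hf (s * t)).2 ?_)).elim
      fun φ ⟨hφ, h8⟩ => h.d8_main hφ h8 fun n hn => (hf (⟨n, hn⟩ ^ 4)).1 ?_
    any_goals simp only [map_mul, map_pow, es, et]
    any_goals first | decide | exact (by decide : ∀ x : DihedralGroup 4, x ^ 4 = 1) _
    rw [card_eq_card_quotient_mul_card_subgroup (P.1.subgroupOf N), Nat.card_congr eN.toEquiv,
      Nat.card_congr (subgroupOfEquivOfLe le_normalizer).toEquiv, hcard, DihedralGroup.nat_card]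
  have o : orderOf a = 9 := by
    have := hcard ▸ Subgroup.orderOf_dvd_natCard _ ha
    rcases (Nat.dvd_prime_pow Nat.prime_three (m := 2)).1 this with ⟨_ | _ | _ | _, h1, h2⟩
    exacts [absurd (orderOf_dvd_iff_pow_eq_one.1 (by simp [h2])) a3,
      absurd (orderOf_dvd_iff_pow_eq_one.1 (by simp [h2])) a3, h2, by omega]
  have e : zpowers a = P := eq_of_le_of_card_ge (zpowers_le.2 ha) (by rw [hcard, Nat.card_zpowers, o])
  have k : ∀ n : N, ∃ i : ℤ, n * a * (n : G)⁻¹ = a ^ i := fun n =>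
    (mem_zpowers_iff.1 (e.ge (Transfer.conj_mem_of_mem_normalizer n.2 ha))).imp fun _ => Eq.symm
  obtain ⟨i, hi⟩ := k s
  obtain ⟨j, hj⟩ := k r
  refine absurd ((hf ((r * s)⁻¹ * (s * r))).2 (hC.le ?_)) (by simp only [map_mul, map_inv, es, er]; decide)
  rw [← e, zpowers_eq_closure, centralizer_closure, mem_centralizer_singleton_iff, ← mul_inv_eq_iff_eq_mul]
  calc _ = (r * s : G)⁻¹ * (s * (r * a * (r : G)⁻¹) * (s : G)⁻¹) * (r * s) := by simp [mul_assoc]
    _ = (r * s : G)⁻¹ * (r * (s * a * (s : G)⁻¹) * (r : G)⁻¹) * (r * s) := by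
      rw [hi, hj, ← conj_zpow, ← conj_zpow, hi, hj, ← zpow_mul, ← zpow_mul, mul_comm i]
    _ = _ := by group

end Cfsg.Agent.S3333
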