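import Cfsg.Statements.S3341
import Cfsg.Agent.Char.T3d

set_option autoImplicit false
open Cfsg

namespace Cfsg.Agent.S3341

open CF CF.Char Subgroup in
/-- Let G be a finite simple group whose Sylow 3-subgroup S is elementary abelian of order 9, such that G has more than one conjugacy class of elements of order 3 and C_G(s) = S for every non-identity s in S. Then G is isomorphic to the alternating group of degree 6. -/
theorem result {G : Type*} [Group G] [Finite G] [IsSimpleGroup G]
    (P : Sylow 3 G) (S : Subgroup G) (hSP : S = P) (hcomm : IsMulCommutative S) (hexp : ∀ a ∈ S, a ^ 3 = 1)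
    (hcard : Nat.card S = 9)
    (hclasses : ∃ a b : G, orderOf a = 3 ∧ orderOf b = 3 ∧ ∀ g : G, g * a * g⁻¹ ≠ b)
    (hcent : ∀ s ∈ S, s ≠ 1 → Subgroup.centralizer ({s} : Set G) = S) :
    Nonempty (G ≃* alternatingGroup (Fin 6)) := by
  subst hSP
  obtain ⟨a, b, oa, ob, hab⟩ := hclasses
  obtain ⟨⟨s, hs⟩, s1⟩ := (ne_bot_iff_exists_ne_one (H := (P : Subgroup G))).1 (by
    intro e; simp [e] at hcard)
  have s1 : s ≠ 1 := fun e => s1 (Subtype.ext e)
  exact T3.higman P ⟨hcard, hexp, P.not_dvd_index, fun a ha a1 => (hcent a ha a1).le.trans le_normalizer,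
    (centralizer_le (Set.singleton_subset_iff.2 hs)).trans (hcent s hs s1).le⟩ (fun a ha a1 => (hcent a ha a1).le)
    ⟨a, b, oa, ob, fun h => (isConj_iff.1 h).elim hab⟩

end Cfsg.Agent.S3341
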