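import Cfsg.Statements.S3349
import Cfsg.Agent.Solv.FrattiniP

set_option autoImplicit false
open Cfsg

namespace Cfsg.Agent.S3349

/-- Let Q be a finite extraspecial p-group and α an automorphism of Q fixing every element of some maximal abelian subgroup of Q. Then the order of α is a power of p. -/
theorem result {Q : Type*} [Group Q] [Finite Q]
    (p : ℕ) [Fact p.Prime] (hQ : Cfsg.IsExtraspecial p Q) (α : MulAut Q)
    (A : Subgroup Q) (hA : IsMulCommutative A) (hmax : ∀ B : Subgroup Q, A ≤ B → IsMulCommutative B → B = A)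
    (hfix : ∀ a ∈ A, α a = a) :
    ∃ k : ℕ, orderOf α = p ^ k := by
  have c : ∀ x, (∀ a ∈ A, a * x = x * a) → x ∈ A := fun x hx =>
    (hmax _ le_sup_right (CF.Solv.isMulCommutative_sup (A := Subgroup.zpowers x)
      (Subgroup.zpowers_le.2 hx))).le (Subgroup.mem_sup_left (Subgroup.mem_zpowers x))
  have n : A.Normal := Subgroup.Normal.of_commutator_le _ (hQ.1.2.2 ▸ fun x hx =>
    c x fun a _ => Subgroup.mem_center_iff.1 hx a)
  have k : ∀ x, x⁻¹ * α x ∈ A := fun x => c _ fun a ha => by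
    have := hfix _ (n.conj_mem a ha x)
    rw [map_mul, map_mul, hfix a ha, map_inv] at this
    calc a * (x⁻¹ * α x) = x⁻¹ * (x * a * x⁻¹) * α x := by group
      _ = x⁻¹ * α x * a := by rw [← this]; group
  have e : ∀ (x : Q) (m : ℕ), (α ^ m) x = x * (x⁻¹ * α x) ^ m := fun x m => by
    induction m with
    | zero => simp
    | succ m ih => rw [pow_succ', MulAut.mul_apply, ih, map_mul, hfix _ (A.pow_mem (k x) m), pow_succ',
        ← mul_assoc, mul_inv_cancel_left]
  obtain ⟨m, hm⟩ := hQ.1.1.exists_card_eq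
  obtain ⟨j, -, h⟩ := (Nat.dvd_prime_pow Fact.out).1 (orderOf_dvd_of_pow_eq_one
    (MulEquiv.ext fun x => by rw [e, ← hm, pow_card_eq_one', mul_one]; rfl : α ^ p ^ m = 1))
  exact ⟨j, h⟩

end Cfsg.Agent.S3349
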