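import Cfsg.Statements.S3363
import Cfsg.Agent.E62.W4

set_option autoImplicit false
open Cfsg

namespace Cfsg.Agent.S3363

/-- Uniqueness of ²E₆(2) under the large-extraspecial hypothesis: let G be a finite group with an involution z whose centralizer C satisfies F*(C) = O₂(C) with O₂(C) extraspecial of order 2^21 and C/O₂(C) isomorphic to the unitary group U₆(2) (over a field with four elements), and suppose some conjugate of z other than z lies in O₂(C). Then G is isomorphic to ²E₆(2) (realised over the field with four elements). -/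
theorem result {G : Type*} [Group G] [Finite G]
    (z : G) (hz : orderOf z = 2) (C : Subgroup G) (hC : C = Subgroup.centralizer ({z} : Set G))
    (hFQ : Cfsg.generalizedFittingSubgroup C = Cfsg.pCore 2 C)
    (hex : Cfsg.IsExtraspecial 2 (Cfsg.pCore 2 C)) (hcard : Nat.card (Cfsg.pCore 2 C) = 2 ^ 21)
    (F : Type*) [Field F] [Fintype F] (hF : Fintype.card F = 4)
    (e : C ⧸ Cfsg.pCore 2 C ≃* Cfsg.PSU 6 F 2)
    (hnwc : ∃ g : G, g * z * g⁻¹ ∈ (Cfsg.pCore 2 C).map C.subtype ∧ g * z * g⁻¹ ≠ z) :
    Nonempty (G ≃* Cfsg.Lie.twistedE6 F 2) := by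
  subst hC
  have x := CF.Even.isExtraspecial_of_equiv hex ((pCore 2 _).equivMapOfInjective _ (Subgroup.subtype_injective _))
  obtain ⟨l, -⟩ := CF.LX.lq_of_fstar hz (congrArg _ hFQ) x
  obtain ⟨a, ⟨b⟩⟩ := CF.E62.recog hF l ((Subgroup.card_map_of_injective (Subgroup.subtype_injective _)).trans hcard)
    (Subgroup.map_subtype_le _) le_rfl (fun _ h _ _ n => absurd h n)
    (φ := e.toMonoidHom.comp (QuotientGroup.mk' _)) (e.surjective.comp (QuotientGroup.mk'_surjective _))
    (fun c => by simp) hnwc
  rw [Subgroup.relIndex_self, Subgroup.index_eq_one] at a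
  exact ⟨Subgroup.topEquiv.symm.trans ((MulEquiv.subgroupCongr a.symm).trans b)⟩

end Cfsg.Agent.S3363
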