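import Cfsg.Statements.S3364
import Cfsg.Agent.E62.W4

set_option autoImplicit false
open Cfsg

namespace Cfsg.Agent.S3364

/-- Let G be a finite group with an involution z whose centralizer C satisfies F*(C) = O₂(C) with O₂(C) extraspecial of order 2^21, such that C has a subgroup H of index 2 containing O₂(C) with H/O₂(C) isomorphic to U₆(2), and suppose some conjugate of z other than z lies in O₂(C). Then the generalized Fitting subgroup F*(G) has index 2 in G and is isomorphic to ²E₆(2). -/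
theorem result {G : Type*} [Group G] [Finite G]
    (z : G) (hz : orderOf z = 2) (C : Subgroup G) (hC : C = Subgroup.centralizer ({z} : Set G))
    (hFQ : Cfsg.generalizedFittingSubgroup C = Cfsg.pCore 2 C)
    (hex : Cfsg.IsExtraspecial 2 (Cfsg.pCore 2 C)) (hcard : Nat.card (Cfsg.pCore 2 C) = 2 ^ 21)
    (H : Subgroup C) (hH : H.index = 2) (hQH : Cfsg.pCore 2 C ≤ H) [hn : ((Cfsg.pCore 2 C).subgroupOf H).Normal]
    (F : Type*) [Field F] [Fintype F] (hF : Fintype.card F = 4)
    (e : H ⧸ (Cfsg.pCore 2 C).subgroupOf H ≃* Cfsg.PSU 6 F 2)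
    (hnwc : ∃ g : G, g * z * g⁻¹ ∈ (Cfsg.pCore 2 C).map C.subtype ∧ g * z * g⁻¹ ≠ z) :
    (Cfsg.generalizedFittingSubgroup G).index = 2 ∧
      Nonempty (Cfsg.generalizedFittingSubgroup G ≃* Cfsg.Lie.twistedE6 F 2) := by
  subst hC
  have i := Subgroup.subtype_injective (Subgroup.centralizer ({z} : Set G))
  have x := CF.Even.isExtraspecial_of_equiv hex ((pCore 2 _).equivMapOfInjective _ i)
  obtain ⟨l, -⟩ := CF.LX.lq_of_fstar hz (congrArg _ hFQ) x
  have r : (H.map (Subgroup.subtype _)).relIndex (Subgroup.centralizer {z}) = 2 := by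
    rwa [Subgroup.relIndex, Subgroup.subgroupOf, Subgroup.comap_map_eq_self_of_injective i]
  let ψ := (H.equivMapOfInjective _ i).symm
  refine r ▸ CF.E62.recog hF l ((Subgroup.card_map_of_injective i).trans hcard) (Subgroup.map_mono hQH)
    (Subgroup.map_subtype_le _) (fun x hx y hy a b => ?_)
    (φ := (e.toMonoidHom.comp (QuotientGroup.mk' _)).comp ψ.toMonoidHom)
    ((e.surjective.comp (QuotientGroup.mk'_surjective _)).comp ψ.surjective) (ψ.symm.surjective.forall.2 fun c => ?_) hnwc
  · exact ⟨⟨x, hx⟩ * ⟨y, hy⟩, (Subgroup.mul_mem_iff_of_index_two hH).2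
      (iff_of_false (fun k => a ⟨_, k, rfl⟩) fun k => b ⟨_, k, rfl⟩), rfl⟩
  · simp [ψ, Subgroup.mem_subgroupOf]

end Cfsg.Agent.S3364
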