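import Cfsg.Statements.S3366
import Cfsg.Agent.Loc.X648

set_option autoImplicit false
open Cfsg

namespace Cfsg.Agent.S3366

open Subgroup CF.BG CF.Geom.Hy CF.X648

/-- Let X be a finite group with O₃(X) extraspecial of order 27 and exponent 3, X/O₃(X) isomorphic to SL(2,3), O₂(X) = 1, and a Sylow 3-subgroup of X containing an elementary abelian subgroup of order 27. Then X is isomorphic to the centralizer in PSp(4,3) of a 3-central element of order 3 (an element of order 3 in the centre of a Sylow 3-subgroup). -/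
theorem result {X : Type*} [Group X] [Finite X]
    (hR : Cfsg.IsExtraspecial 3 (Cfsg.pCore 3 X)) (hRcard : Nat.card (Cfsg.pCore 3 X) = 27)
    (hRexp : ∀ r ∈ Cfsg.pCore 3 X, r ^ 3 = 1)
    (e : X ⧸ Cfsg.pCore 3 X ≃* Matrix.SpecialLinearGroup (Fin 2) (ZMod 3))
    (hO2 : Cfsg.pCore 2 X = ⊥)
    (hE : ∃ E : Subgroup X, IsMulCommutative E ∧ (∀ a ∈ E, a ^ 3 = 1) ∧ Nat.card E = 27)
    (F : Type*) [Field F] [Fintype F] (hF : Fintype.card F = 3) :
    ∃ (c : Cfsg.PSp 2 F) (S : Sylow 3 (Cfsg.PSp 2 F)), orderOf c = 3 ∧ c ∈ (S : Subgroup (Cfsg.PSp 2 F)) ∧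
      c ∈ Subgroup.centralizer ((S : Subgroup (Cfsg.PSp 2 F)) : Set (Cfsg.PSp 2 F)) ∧
      Nonempty (X ≃* Subgroup.centralizer ({c} : Set (Cfsg.PSp 2 F))) := by
  haveI := Fact.mk Nat.prime_three
  have k : (e.toMonoidHom.comp (QuotientGroup.mk' _)).ker = pCore 3 X := by
    rw [← MonoidHom.comap_ker, (MonoidHom.ker_eq_bot_iff _).2 e.injective, MonoidHom.comap_bot, QuotientGroup.ker_mk']
  have c3 : ♯(𝐙 (pCore 3 X)) = 3 := by rw [← center_map_subtype, card_map (subtype_injective _), hR.2]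
  obtain ⟨z, hz, z1⟩ := exists_mem_ne_one (H := 𝐙 (pCore 3 X)) fun e => by simp [e] at c3
  have ez := (eq_bot_or_eq_of_prime (by rw [c3]; decide) (zpowers_le.2 hz)).resolve_left (by simpa)
  obtain ⟨E, a, b, c⟩ := hE
  obtain ⟨f⟩ := St.iso (z := z) ⟨e.surjective.comp (QuotientGroup.mk'_surjective _), by rw [k, hRcard],
    fun r m => hRexp r (k.le m), by rw [← Nat.card_zpowers, ez, c3], by rw [k, ez], by
      rw [k, ez, ← center_map_subtype, ← hR.1.2.2, map_subtype_commutator], fun t tt c => by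
      haveI : (zpowers t).Normal := ⟨fun n ⟨i, m⟩ g => by
        rw [← m, (Commute.zpow_right (c g) i).eq, mul_inv_cancel_right]; exact ⟨i, rfl⟩⟩
      exact mem_bot.1 (hO2 ▸ CF.Solv.le_pCore (N := zpowers t)
        (piElt_of_pow_eq_one Nat.prime_two ((pow_two t).trans tt)).zpowers.isPGroup (mem_zpowers t))⟩ (.of_comm a) b c
  have := charP_of_card_eq_prime hF
  have H := cen_embP (F := F) 3 (by decide)
  obtain ⟨S, hS⟩ := (H.syl 3).exists_sylow_top
  refine ⟨embP (mE 1 0 0), S, ?_, hS ▸ mem_map_of_mem _ (MM_le_PP (mE_mem _ _ _)), hS ▸ ?_, ⟨?_⟩⟩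
  · rw [orderOf_injective _ H.inj]
    exact orderOf_eq_prime (by rw [mE_pow, CharP.cast_eq_zero]; simp) (by simp [mE_eq_one])
  · rintro _ ⟨g, -, rfl⟩
    rw [← map_mul, zE_comm, map_mul]
  · exact ((f.trans (Hs.congr (ZMod.ringEquivOfPrime F Nat.prime_three hF))).trans (MonoidHom.ofInjective H.inj)).trans
      (MulEquiv.subgroupCongr (H.cent 1 one_ne_zero).symm)


end Cfsg.Agent.S3366
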