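import Cfsg.Statements.S3376
import Cfsg.Agent.BG.B10

set_option autoImplicit false
open Cfsg

namespace Cfsg.Agent.S3376

open Subgroup CF.BG

theorem cyc {σ : Equiv.Perm (Fin 9)} (h : σ ^ 3 = 1) (k : ∀ x, σ x ≠ x) :
    σ.cycleType = Multiset.replicate 3 3 := by
  haveI := Fact.mk Nat.prime_three
  have o := orderOf_eq_prime h fun e => k 0 (by rw [e]; rfl)
  obtain ⟨n, hn⟩ := Equiv.Perm.cycleType_prime_order (σ := σ) (o ▸ Nat.prime_three)
  have := σ.sum_cycleType
  rw [hn, Finset.eq_univ_iff_forall.2 fun x => Equiv.Perm.mem_support.2 (k x), o] at this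
  simp at this
  rw [hn, o, show n = 2 by omega]


/-- Let G be a group of order 162 = 3⁴·2 with Sylow 3-subgroup S and Sylow 2-subgroup T, having an elementary abelian normal subgroup J of order 27, such that Z = Z(S) has order 3, Z centralizes T, and C_S(T) ≠ S. Then G is isomorphic to the centralizer in Sym(9) of a product of three disjoint 3-cycles. -/
theorem result {G : Type*} [Group G] [Finite G] (hG : Nat.card G = 162)
    (S : Sylow 3 G) (T : Sylow 2 G) (J : Subgroup G) [hJn : J.Normal] (hJcomm : IsMulCommutative J)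
    (hJexp : ∀ a ∈ J, a ^ 3 = 1) (hJcard : Nat.card J = 27)
    (Z : Subgroup G) (hZ : Z = (S : Subgroup G) ⊓ Subgroup.centralizer ((S : Subgroup G) : Set G)) (hZcard : Nat.card Z = 3)
    (hZT : Z ≤ Subgroup.centralizer ((T : Subgroup G) : Set G))
    (hST : (S : Subgroup G) ⊓ Subgroup.centralizer ((T : Subgroup G) : Set G) ≠ S) :
    Nonempty (G ≃* Subgroup.centralizer ({Equiv.swap (0 : Fin 9) 1 * Equiv.swap 1 2 * Equiv.swap 3 4 * Equiv.swap 4 5 * Equiv.swap 6 7 * Equiv.swap 7 8} : Set (Equiv.Perm (Fin 9)))) := by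
  haveI := Fact.mk Nat.prime_three
  have p3 := Nat.prime_three
  have hS := syl_sylow_top S
  have hT := syl_sylow_top T
  have cS : ♯(S : Subgroup G) = 81 := by
    rw [S.card_eq_multiplicity, hG, show 162 = 3 ^ 4 * 2 from rfl, Nat.factorization_mul (by simp) (by simp),
      p3.factorization_pow]
    simp [Nat.prime_two.factorization]
  have cT : ♯(T : Subgroup G) = 2 := by
    rw [T.card_eq_multiplicity, hG, show 162 = 3 ^ 4 * 2 from rfl, Nat.factorization_mul (by simp) (by simp),
      p3.factorization_pow]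
    simp [Nat.prime_two.factorization]
  generalize (S : Subgroup G) = S at *
  generalize (T : Subgroup G) = T at *
  have iS : S.index = 2 := by
    have := S.card_mul_index
    rw [cS] at this
    omega
  have nS := normalIn_top.2 (normal_of_index_eq_two iS)
  have nJ := normalIn_top.2 hJn
  have pJ : PiGrp {3} J := piGrp_of_card (k := 3) p3 hJcard
  have zl : ∀ N, N ⊴ S → N ≠ ⊥ → Z ≤ N := fun N n h => le_of_prime_of_inf_ne_bot (hZcard ▸ p3) (by
    rw [inf_comm, hZ]; exact hS.pi.nil.inf_center_ne_bot n h)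
  have JS := hS.le_of_normal nJ pJ
  have ZJ := zl J (nJ.of_le JS le_top) fun e => by simp [e] at hJcard
  obtain ⟨W, d, nW⟩ := Abelem.exists_compl_inv (p := 3) (A := T) ⟨pJ, abel_iff.2 hJcomm, hJexp⟩
    (le_top.trans nJ.norm) ZJ ((cent_symm hZT).trans (cent_le_norm _)) (by rw [cT, hZcard]; decide)
  have cW : ♯W = 9 := by
    have := d.sdprod.card
    rw [hZcard] at this
    omega
  have pW : PiGrp {3} W := pJ.le d.right_le
  have s := SDProd.mk' nW (CF.BG.inf_eq_bot_of_coprime (by rw [cW, cT]; decide))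
  have cH := s.card
  generalize W ⊔ T = H at s cH
  have iH : H.index = 9 := by
    have := H.card_mul_index
    rw [← cH, cW, cT, hG] at this
    omega
  have HS : H ⊓ S = W := by
    have := (s.inf_of_left_le (d.right_le.trans JS)).sup
    rwa [CF.BG.inf_eq_bot_of_coprime (H := T) (by rw [cS, cT]; decide), sup_bot_eq, eq_comm] at this
  have zH : ¬ Z ≤ H := fun h => by
    have := le_inf le_rfl ((le_inf h (ZJ.trans JS)).trans HS.le)
    rw [d.inf, le_bot_iff] at this
    simp [this] at hZcard
  have c0 : H.normalCore = ⊥ := by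
    have n := normalIn_top.2 H.normalCore_normal
    have h1 : H.normalCore ⊓ S = ⊥ := by_contra fun h =>
      zH ((zl _ ((n.inf nS).of_le inf_le_right le_top) h).trans (inf_le_left.trans H.normalCore_le))
    by_contra h
    have h2 := relIndex_dvd_of_norm (K := S) (le_top (a := H.normalCore)) nS.norm
    rw [relIndex_of_inf_bot (by rwa [inf_comm]), relIndex_top_right, iS, Nat.dvd_prime Nat.prime_two, card_eq_one] at h2
    have h3 := h2.resolve_left h
    have h4 := eq_of_card_eq (hT.le_of_normal n (piGrp_of_card_prime Nat.prime_two h3)) (h3.trans cT.symm)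
    exact hST (inf_eq_left.2 (h4 ▸ nS.cent_of_inf_eq_bot n (by rwa [inf_comm])))
  obtain ⟨z, hz, z1⟩ := (bot_or_exists_ne_one Z).resolve_left fun e => by simp [e] at hZcard
  have zZ : zpowers z = Z := zpowers_eq_of_prime (hZcard ▸ p3) hz z1
  have zc : ∀ g, g * z = z * g := fun g => by
    have : S ⊔ T = ⊤ := by
      rw [← card_eq_iff_eq_top, card_sup_of_inf_bot (.inr (le_top.trans nS.norm))
        (CF.BG.inf_eq_bot_of_coprime (by rw [cS, cT]; decide)), cS, cT, hG]
    exact (cent_symm (sup_le (cent_symm (hZ.le.trans inf_le_right)) (cent_symm hZT)) hz) g (this.ge (mem_top g))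
  haveI := Fintype.ofFinite (G ⧸ H)
  let e : G ⧸ H ≃ Fin 9 := Fintype.equivFinOfCardEq (by rw [← Nat.card_eq_fintype_card, ← index_eq_card, iH])
  let ψ : G →* Equiv.Perm (Fin 9) := e.permCongrHom.toMonoidHom.comp (MulAction.toPermHom G (G ⧸ H))
  have inj : Function.Injective ψ := e.permCongrHom.injective.comp
    ((MonoidHom.ker_eq_bot_iff _).1 (by rw [← normalCore_eq_ker, c0]))
  have c1 := cyc (σ := ψ z) (by rw [← map_pow, hJexp z (ZJ hz), map_one]) fun x h => by
    obtain ⟨g, hg⟩ := QuotientGroup.mk_surjective (e.symm x)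
    have : z • (g : G ⧸ H) = g := by
      rw [hg]
      exact e.injective (h.trans (e.apply_symm_apply x).symm)
    rw [MulAction.Quotient.smul_mk, QuotientGroup.eq, smul_eq_mul, ← zc, mul_inv_rev, inv_mul_cancel_right,
      inv_mem_iff] at this
    exact zH (zZ ▸ zpowers_le.2 this)
  generalize hτ : Equiv.swap (0 : Fin 9) 1 * Equiv.swap 1 2 * Equiv.swap 3 4 * Equiv.swap 4 5 * Equiv.swap 6 7 *
    Equiv.swap 7 8 = τ
  have c2 := cyc (σ := τ) (by rw [← hτ]; decide) (by rw [← hτ]; decide)
  obtain ⟨c, hc⟩ := isConj_iff.1 (Equiv.Perm.isConj_of_cycleType_eq (c1.trans c2.symm))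
  let χ : G →* centralizer {τ} := ((MulAut.conj c).toMonoidHom.comp ψ).codRestrict _ fun g =>
    mem_centralizer_singleton_iff.2 (by
      change c * ψ g * c⁻¹ * τ = τ * (c * ψ g * c⁻¹)
      rw [← hc, conj_mul, conj_mul, ← map_mul, zc, map_mul])
  refine ⟨MulEquiv.ofBijective χ ((Nat.bijective_iff_injective_and_card _).2 ⟨fun a b h =>
    inj ((MulAut.conj c).injective (congrArg Subtype.val h)), ?_⟩)⟩
  rw [Equiv.Perm.nat_card_centralizer, c2, hG]
  decide

end Cfsg.Agent.S3376
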