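import Cfsg.Statements.S3384
import Cfsg.Agent.Oq.Main

set_option autoImplicit false
open Cfsg

namespace Cfsg.Agent.S3384

/-- Conjugacy classes of Ω⁺₈(4)-type subgroups of E₈(2) (realised by its root elements in the adjoint representation over the field with 2 elements), with 'exactly k classes of subgroups with a property' meaning k pairwise non-conjugate subgroups with the property to one of which every such subgroup is conjugate: E₈(2) has exactly 2 classes of subgroups isomorphic to Ω⁺₈(4), and exactly 1, 2 and 1 classes of subgroups H with F*(H) ≅ Ω⁺₈(4) of index 3, 4 and 12 in H respectively (the extensions Ω⁺₈(4):3, Ω⁺₈(4):2² and the full automorphism group Ω⁺₈(4):Dih(12)). -/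
theorem result
    (F₄ : Type*) [Field F₄] [Fintype F₄] (hF₄ : Fintype.card F₄ = 4)
    (classes : (Subgroup ↥(Cfsg.Lie.chevE8.group (ZMod 2)) → Prop) → ℕ → Prop)
    (hclasses : ∀ (P : Subgroup ↥(Cfsg.Lie.chevE8.group (ZMod 2)) → Prop) (k : ℕ), classes P k ↔
      ∃ f : Fin k → Subgroup ↥(Cfsg.Lie.chevE8.group (ZMod 2)), (∀ i, P (f i)) ∧
        (∀ i j, (∃ g : ↥(Cfsg.Lie.chevE8.group (ZMod 2)), (f i).map (MulAut.conj g).toMonoidHom = f j) → i = j) ∧
        (∀ H, P H → ∃ (i : Fin k) (g : ↥(Cfsg.Lie.chevE8.group (ZMod 2))), H.map (MulAut.conj g).toMonoidHom = f i)) :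
    classes (fun H => Nonempty (H ≃* Cfsg.Omega F₄ (Cfsg.quadFormPlus 4 F₄))) 2 ∧
    classes (fun H => Nonempty (Cfsg.generalizedFittingSubgroup H ≃* Cfsg.Omega F₄ (Cfsg.quadFormPlus 4 F₄)) ∧
      (Cfsg.generalizedFittingSubgroup H).index = 3) 1 ∧
    classes (fun H => Nonempty (Cfsg.generalizedFittingSubgroup H ≃* Cfsg.Omega F₄ (Cfsg.quadFormPlus 4 F₄)) ∧
      (Cfsg.generalizedFittingSubgroup H).index = 4) 2 ∧
    classes (fun H => Nonempty (Cfsg.generalizedFittingSubgroup H ≃* Cfsg.Omega F₄ (Cfsg.quadFormPlus 4 F₄)) ∧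
      (Cfsg.generalizedFittingSubgroup H).index = 12) 1 := by
  obtain ⟨L⟩ : Nonempty (CF.BN.LS.{0} CF.Oq.c8 1 2 2 1 (Cfsg.Lie.chevE8.group (ZMod 2))) :=
    CF.BN.exists_LS_chev CF.Chev.goodE8 (fun K _ => CF.Chev.torE8 K) CF.Chev.cenE8 (ZMod 2) 2
  exact CF.Oq.main L (by rw [CF.Chev.cardE8 (ZMod 2) (Nat.card_zmod 2)]; decide +kernel) F₄ hF₄
    classes hclasses

end Cfsg.Agent.S3384
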