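import Cfsg.Statements.S3389
import Cfsg.Agent.Recog.Fixity

set_option autoImplicit false
open Cfsg

namespace Cfsg.Agent.S3389

/-- Let G be a finite group acting faithfully and transitively on a finite set Ω with fixity k ≥ 1: every non-identity element fixes at most k points and some non-identity element fixes exactly k points. Then |Z(G)| divides k; if k = 2 then |G| is even; and for every prime p > k dividing |G| and every point α, either p does not divide |G_α| or G_α contains a Sylow p-subgroup of G. -/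
theorem result {G : Type*} [Group G] [Finite G] {Ω : Type*} [Fintype Ω] [MulAction G Ω] [FaithfulSMul G Ω]
    (htr : MulAction.IsPretransitive G Ω) (k : ℕ) (hk : 1 ≤ k)
    (hfix : ∀ g : G, g ≠ 1 → Nat.card (MulAction.fixedBy Ω g) ≤ k) (hex : ∃ g : G, g ≠ 1 ∧ Nat.card (MulAction.fixedBy Ω g) = k) :
    Nat.card (Subgroup.center G) ∣ k ∧ (k = 2 → 2 ∣ Nat.card G) ∧
      ∀ (p : ℕ), p.Prime → k < p → p ∣ Nat.card G → ∀ α : Ω,
        ¬ p ∣ Nat.card (MulAction.stabilizer G α) ∨ ¬ p ∣ (MulAction.stabilizer G α).index := by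
  obtain ⟨g, hg, e⟩ := hex
  refine ⟨e ▸ CF.Recog.card_center_dvd g, ?_, fun p hp h1 _ α => ?_⟩
  · rintro rfl
    obtain ⟨a, b, hab, h⟩ := Set.ncard_eq_two.1 e
    obtain ⟨p, hp, hd⟩ := Nat.exists_prime_and_dvd (mt orderOf_eq_one_iff.1 hg)
    have := Fact.mk hp
    by_contra h2
    have hp2 : 2 < p := hp.two_le.lt_of_ne (by rintro rfl; exact h2 (hd.trans (orderOf_dvd_natCard g)))
    have ho := orderOf_pow_orderOf_div (orderOf_pos g).ne' hd
    set x := g ^ (orderOf g / p)
    have hx : x ≠ 1 := fun e => hp.ne_one (by rw [← ho, e, orderOf_one])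
    have h3 : MulAction.fixedBy Ω g = MulAction.fixedBy Ω x := Set.eq_of_subset_of_ncard_le
      (fun c hc => (pow_mem (MulAction.mem_stabilizer_iff.2 hc) _ : x ∈ _)) ((hfix x hx).trans e.ge)
    obtain ⟨S, hS⟩ := (IsPGroup.of_card (n := 1) (by rw [Nat.card_zpowers, ho, pow_one]) :
      IsPGroup p (Subgroup.zpowers x)).exists_le_sylow
    have k : ∀ c ∈ MulAction.fixedBy Ω x, (S : Subgroup G) ≤ MulAction.stabilizer G c := fun c hc =>
      CF.Recog.le_stab_of_fixity (fun g hg => (hfix g hg).trans_lt hp2) S.isPGroup'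
        (hS (Subgroup.mem_zpowers x)) hx hc
    rw [h3] at h
    have ha := k a (by simp [h])
    obtain ⟨w, hw, h4⟩ := CF.Recog.exists_normalizer_smul_eq S ha (k b (by simp [h]))
    have h5 : w • a ∈ MulAction.fixedBy Ω x := CF.Recog.mem_stab_smul.2 (ha (by
      simpa using (Subgroup.mem_normalizer_iff.1 (inv_mem hw) x).1 (hS (Subgroup.mem_zpowers x))))
    rw [h] at h5
    exact h2 (CF.Recog.two_dvd_card_of_swap hab (h5.resolve_left fun e =>
      hab (MulAction.injective w (e.trans h4.symm))) h4)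
  · have := Fact.mk hp
    refine or_iff_not_imp_left.2 fun h h2 => ?_
    obtain ⟨x, hx⟩ := exists_prime_orderOf_dvd_card' p (not_not.1 h)
    rw [← Subgroup.orderOf_coe] at hx
    obtain ⟨S, hS⟩ := (IsPGroup.of_card (n := 1) (by rw [Nat.card_zpowers, hx, pow_one]) :
      IsPGroup p (Subgroup.zpowers (x : G))).exists_le_sylow
    exact S.not_dvd_index (h2.trans (Subgroup.index_dvd_of_le (CF.Recog.le_stab_of_fixity
      (fun g hg => (hfix g hg).trans_lt h1) S.isPGroup' (hS (Subgroup.mem_zpowers _))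
      (fun e => hp.ne_one (by rw [← hx, e, orderOf_one])) x.2)))

end Cfsg.Agent.S3389
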