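import Cfsg.Statements.S3391
import Cfsg.Agent.BN.SzSub

set_option autoImplicit false
open Cfsg

namespace Cfsg.Agent.S3391

/-- Let q = 2^{2m+1} ≥ 8 and let G be isomorphic to the Suzuki group Sz(q). If G acts faithfully and transitively on a finite set Ω with fixity 2 (every non-identity element fixes at most two points, and some fixes exactly two), then either |Ω| = q² + 1 and the action is 2-transitive, or |Ω| = q²(q² + 1) and the point stabilizers have order q − 1. -/
theorem result {G : Type*} [Group G] [Finite G] (F : Type) [Field F] [Fintype F] (m : ℕ) (hm : 1 ≤ m) (hF : Fintype.card F = 2 ^ (2 * m + 1))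
    (e : G ≃* ↥(Cfsg.Lie.Sz F (2 ^ (m + 1)))) {Ω : Type*} [Fintype Ω] [MulAction G Ω] [FaithfulSMul G Ω] (htr : MulAction.IsPretransitive G Ω)
    (hfix : ∀ g : G, g ≠ 1 → Nat.card (MulAction.fixedBy Ω g) ≤ 2) (hex : ∃ g : G, g ≠ 1 ∧ Nat.card (MulAction.fixedBy Ω g) = 2) :
    (Fintype.card Ω = Fintype.card F ^ 2 + 1 ∧ MulAction.IsMultiplyPretransitive G Ω 2) ∨
    (Fintype.card Ω = Fintype.card F ^ 2 * (Fintype.card F ^ 2 + 1) ∧ ∀ α : Ω, Nat.card (MulAction.stabilizer G α) = Fintype.card F - 1) := by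
  have D := (CF.BN.Suz.lieD F m hF).ofEquiv e
  generalize CF.BN.Suz.titsOfCard F m hF = T at D
  have := T.charP
  have h8 := CF.BN.Suz.eight_le_card hm hF
  rw [← Nat.card_eq_fintype_card] at hF h8
  rw [← Nat.card_eq_fintype_card, ← Nat.card_eq_fintype_card (α := F)]
  have hr := CF.BN.Suz.sq_two_pow hF
  obtain ⟨x₀, hx₀, h₀⟩ := hex
  obtain ⟨⟨α, hα⟩⟩ : Nonempty (MulAction.fixedBy Ω x₀) := (Nat.card_pos_iff.1 (by omega)).1
  set M := MulAction.stabilizer G α with hM
  have hα : x₀ ∈ M := hα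
  have idx : ∀ (X N : Subgroup G) (x : G), x ∈ X → x ≠ 1 → X ≤ M →
      (∀ n ∈ N, n⁻¹ * x * n ∈ X) → (M.subgroupOf N).index ≤ 2 := by
    intro X N x hx h1 hX hN
    have : M.subgroupOf N = MulAction.stabilizer N α := rfl
    rw [this, MulAction.index_stabilizer]
    refine le_trans (Set.ncard_le_ncard (t := MulAction.fixedBy Ω x) ?_) (hfix x h1)
    rintro _ ⟨n, rfl⟩
    have := hX (hN n n.2)
    rw [MulAction.mem_stabilizer_iff, mul_smul, mul_smul, inv_smul_eq_iff] at this
    exact this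
  have sq : ∀ (X N : Subgroup G) (x : G), x ∈ X → x ≠ 1 → X ≤ M →
      (∀ n ∈ N, n⁻¹ * x * n ∈ X) → ∀ n ∈ N, n * n ∈ M := by
    intro X N x hx h1 hX hN n hn
    have h2 := idx X N x hx h1 hX hN
    have h3 : (M.subgroupOf N).index ≠ 0 := Subgroup.index_ne_zero_of_finite
    rcases (by omega : (M.subgroupOf N).index = 1 ∨ (M.subgroupOf N).index = 2) with h | h
    · rw [Subgroup.index_eq_one, Subgroup.subgroupOf_eq_top] at h
      exact mul_mem (h hn) (h hn)
    · exact Subgroup.mul_self_mem_of_index_two h ⟨n, hn⟩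
  have cent : ∀ x ∈ M, x ≠ 1 → ∀ n ∈ Subgroup.centralizer ({x} : Set G), n * n ∈ M :=
    fun x hx h1 => sq M _ x hx h1 le_rfl fun n hn => by
      rwa [mul_assoc, ← Subgroup.mem_centralizer_singleton_iff.1 hn, inv_mul_cancel_left]
  have odd_le : ∀ C : Subgroup G, Odd (Nat.card C) → (∀ n ∈ C, n * n ∈ M) → C ≤ M := by
    intro C hC h n hn
    obtain ⟨k, hk⟩ := hC
    have : n = (n * n) ^ (k + 1) := by
      have : n ^ (2 * k + 1) = 1 := by
        rw [← hk]; exact congrArg Subtype.val (pow_card_eq_one' (x := (⟨n, hn⟩ : C)))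
      rw [← pow_two, ← pow_mul, show 2 * (k + 1) = 2 * k + 1 + 1 by ring, pow_succ, this, one_mul]
    rw [this]
    exact pow_mem (h n hn) _
  have hcard : Nat.card Ω = M.index := by
    rw [hM, MulAction.index_stabilizer, MulAction.orbit_eq_univ, Set.ncard_univ]
  by_cases h2 : 2 ∣ Nat.card M
  · left
    obtain ⟨⟨z, hz⟩, hz'⟩ := exists_prime_orderOf_dvd_card' 2 h2
    rw [← Subgroup.orderOf_coe] at hz'
    have hz1 : z ≠ 1 := by rintro rfl; simp at hz'
    obtain ⟨g, hg⟩ := D.exists_conj_mem_Z (x := z) (by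
      rw [← pow_two, ← hz']; exact pow_orderOf_eq_one z)
    generalize D.conj g = D at hg
    have hZ : D.Z ≤ M := by
      rintro _ ⟨b, rfl⟩
      obtain ⟨a, rfl⟩ := T.exists_θ_mul_self b
      rw [← D.u_sq a 0]
      exact cent z hz hz1 _ (D.centralizer_of_mem_Z hg hz1 ▸ D.u_mem_U a 0)
    have hB := sq D.Z D.B z hg hz1 hZ fun n hn => by simpa using D.conj_mem_Z (inv_mem hn) hg
    have hH : D.H ≤ M := odd_le _ (D.card_H ▸ T.odd_card_sub_one) fun n hn => hB n (D.H_le_B hn)
    have hU : D.U ≤ M := by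
      obtain ⟨t, ht⟩ := CF.BN.Suz.exists_unit_ne_one (F := F) (by omega)
      have ht' : (t : F) ≠ 1 := fun h => ht (Units.ext h)
      have h1 : 1 + T.θ t ≠ 0 := fun h => ht' (T.θ_eq_one.1 (by grind))
      rintro _ ⟨a, b, rfl⟩
      have := hB _ (mul_mem (D.u_mem_B (a / (1 + T.θ t)) 0) (D.h_mem_B t))
      rw [mul_assoc, ← mul_assoc (D.h t), D.h_mul_u, ← mul_assoc, ← mul_assoc,
        mul_mem_cancel_right (hH (D.h_mem_H t)), mul_mem_cancel_right (hH (D.h_mem_H t)), D.u_mul,
        show a / (1 + T.θ t) + T.θ t * (a / (1 + T.θ t)) = a by field_simp] at this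
      generalize 0 + T.θ t * (t : F) ^ 2 * 0 + _ = d at this
      have := mul_mem this (hZ ⟨b - d, rfl⟩)
      rwa [D.u_mul_u_zero, add_sub_cancel] at this
    have hMB : M = D.B := by
      refine (D.isCoatom_B.le_iff.1 ?_).resolve_left fun h => hx₀ ?_
      · rintro _ ⟨a, b, t, rfl⟩
        exact mul_mem (hU (D.u_mem_U a b)) (hH (D.h_mem_H t))
      · refine eq_of_smul_eq_smul (α := Ω) fun β => ?_
        obtain ⟨k, rfl⟩ := htr.exists_smul_eq α β
        have : ∀ k : G, k • α = α := fun k => (h ▸ Subgroup.mem_top k : k ∈ M)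
        rw [← mul_smul, ← mul_smul, this, this]
    refine ⟨by rw [hcard, hMB, D.index_B], ?_⟩
    have h3 : MulAction.IsMultiplyPretransitive G (G ⧸ M) 2 := hMB ▸ D.two_transitive
    rw [MulAction.is_two_pretransitive_iff] at h3 ⊢
    have surj : Function.Surjective (MulAction.ofQuotientStabilizer G α) := fun β => by
      obtain ⟨k, rfl⟩ := htr.exists_smul_eq α β
      exact ⟨k, rfl⟩
    intro a b c d hab hcd
    obtain ⟨a, rfl⟩ := surj a
    obtain ⟨b, rfl⟩ := surj b
    obtain ⟨c, rfl⟩ := surj c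
    obtain ⟨d, rfl⟩ := surj d
    obtain ⟨k, rfl, rfl⟩ := h3 (mt (congrArg _) hab) (mt (congrArg _) hcd)
    exact ⟨k, (MulAction.ofQuotientStabilizer_smul _ _ _ _).symm,
      (MulAction.ofQuotientStabilizer_smul _ _ _ _).symm⟩
  · right
    have hodd : Odd (Nat.card M) := Nat.odd_iff.2 (Nat.two_dvd_ne_zero.1 h2)
    have hreg : ∀ x ∈ M, ¬ D.Reg x := by
      intro x hx h
      have hC := odd_le _ (((T.even_card.pow_of_ne_zero two_ne_zero).add_one).of_dvd_nat
        h.card_centralizer_dvd) (cent x hx h.ne_one)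
      have h3 := idx _ (Subgroup.normalizer (Subgroup.centralizer ({x} : Set G) : Set G)) x
        (Subgroup.mem_centralizer_singleton_iff.2 rfl) h.ne_one hC fun n hn => by
          simpa using (Subgroup.mem_normalizer_iff.1 (inv_mem hn) x).1
            (Subgroup.mem_centralizer_singleton_iff.2 rfl)
      have h4 := (M.subgroupOf (Subgroup.normalizer
        (Subgroup.centralizer ({x} : Set G) : Set G))).card_mul_index
      rw [h.card_normalizer hr h8] at h4
      obtain ⟨k, hk⟩ : Odd (Nat.card (M.subgroupOf (Subgroup.normalizer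
          (Subgroup.centralizer ({x} : Set G) : Set G)))) := by
        refine hodd.of_dvd_nat ?_
        rw [← Subgroup.inf_subgroupOf_right,
          Nat.card_congr (Subgroup.subgroupOfEquivOfLe inf_le_right).toEquiv]
        exact Subgroup.card_dvd_of_le inf_le_left
      rw [hk] at h4
      have h5 := h.one_lt_card_centralizer
      generalize (M.subgroupOf _).index = i at h3 h4
      interval_cases i <;> omega
    obtain ⟨g, hg⟩ : ∃ g, x₀ ∈ (D.conj g).H := by
      rcases D.trichotomy x₀ with ⟨g, h⟩ | h | h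
      · exact absurd h ((D.conj g).not_mem_U_of_odd hx₀
          (hodd.of_dvd_nat (Subgroup.orderOf_dvd_natCard _ hα)))
      · exact h
      · exact absurd h (hreg _ hα)
    have hH : (D.conj g).H ≤ M := odd_le _ ((D.conj g).card_H ▸ T.odd_card_sub_one)
      ((D.conj g).centralizer_of_mem_H hg hx₀ ▸ cent x₀ hα hx₀)
    have hc : Nat.card M = Nat.card F - 1 := by
      apply Nat.dvd_antisymm
      · have h3 := Subgroup.card_subgroup_dvd_card M
        rw [D.card_G] at h3
        obtain ⟨n, -, hn⟩ := T.exists_card_eq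
        refine Nat.Coprime.dvd_of_dvd_mul_left ?_ (Nat.Coprime.dvd_of_dvd_mul_right ?_ h3)
        · rw [hn]
          exact ((Nat.coprime_two_right.2 hodd).pow_right n).pow_right 2
        · by_contra h
          obtain ⟨p, hp, h4, h5⟩ := Nat.Prime.not_coprime_iff_dvd.1 h
          have := Fact.mk hp
          obtain ⟨⟨y, hy⟩, hy'⟩ := exists_prime_orderOf_dvd_card' p h4
          rw [← Subgroup.orderOf_coe] at hy'
          exact hreg y hy (CF.BN.Suz.SzData.reg_of_orderOf_dvd (by
            rintro rfl; exact hp.one_lt.ne (by simpa using hy')) (hy' ▸ h5))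
      · rw [← (D.conj g).card_H]; exact Subgroup.card_dvd_of_le hH
    have h3 : Nat.card Ω = Nat.card F ^ 2 * (Nat.card F ^ 2 + 1) := by
      have := M.card_mul_index
      rw [hc, D.card_G, ← hcard] at this
      apply Nat.eq_of_mul_eq_mul_left (show 0 < Nat.card F - 1 by omega)
      rw [this]; ring
    refine ⟨h3, fun β => ?_⟩
    have := (MulAction.stabilizer G β).card_mul_index
    rw [MulAction.index_stabilizer, MulAction.orbit_eq_univ, Set.ncard_univ, h3, D.card_G] at this
    apply Nat.eq_of_mul_eq_mul_right (show 0 < Nat.card F ^ 2 * (Nat.card F ^ 2 + 1) by positivity)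
    rw [this]; ring

end Cfsg.Agent.S3391
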