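import Cfsg.Statements.S3396
import Cfsg.Agent.CIT.Spec

set_option autoImplicit false
open Cfsg

namespace Cfsg.Agent.S3396

/-- Let G be a finite group whose order has at least three distinct prime divisors, and suppose every nonidentity element of G has order a power of 2 or a prime other than 5. Then G is isomorphic to PSL₂(7) (here F is any field with 7 elements). In particular a finite group whose set of element orders is {1, 2, 3, 4, 7} is PSL₂(7). -/
theorem result {G : Type*} [Group G] [Finite G]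
    {F : Type*} [Field F] [Fintype F] (hF : Fintype.card F = 7)
    (h3 : 3 ≤ (Nat.card G).primeFactors.card)
    (hord : ∀ g : G, g ≠ 1 → (∃ k : ℕ, orderOf g = 2 ^ k) ∨ ((orderOf g).Prime ∧ orderOf g ≠ 5)) :
    Nonempty (G ≃* Matrix.ProjectiveSpecialLinearGroup (Fin 2) F) := by
  open CF.CIT CF.BG in
  have h : EPPO G := fun g hg => by
    rcases hord g hg with ⟨k, e⟩ | e
    · exact (isPrimePow_nat_iff _).2 ⟨2, k, Nat.prime_two, Nat.pos_of_ne_zero (by
        rintro rfl; exact hg (orderOf_eq_one_iff.1 e)), e.symm⟩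
    · exact e.1.isPrimePow
  have A : ∀ n, Odd n → n ≠ 1 → ¬ (n.Prime ∧ n ≠ 5) → ¬ ∃ g : G, orderOf g = n := by
    rintro _ o h1 h2 ⟨g, rfl⟩
    rcases hord g (mt orderOf_eq_one_iff.2 h1) with ⟨_ | k, e⟩ | e
    · exact h1 e
    · exact o.not_two_dvd_nat (e ▸ dvd_pow_self 2 k.succ_ne_zero)
    · exact h2 e
  have h5 : ¬ 5 ∣ Nat.card G := fun d => A 5 (by decide) (by decide) (by simp)
    (@exists_prime_orderOf_dvd_card' G _ _ 5 ⟨Nat.prime_five⟩ d)
  have h9 := A 9 (by decide) (by decide) (by norm_num)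
  haveI := normalIn_top.1 (O_normal {2} (⊤ : Subgroup G))
  have d := Subgroup.card_quotient_dvd_card (𝐎 {2} (⊤ : Subgroup G))
  rcases h.cases (h.not_sol h3) rfl with ⟨K, _, _, h1 | h1, ⟨e⟩⟩ |
    ⟨K, _, _, ⟨h1, ⟨e⟩⟩ | ⟨h1, ⟨e⟩⟩⟩ | ⟨-, l | ⟨K, _, _, h1 | h1 | h1, ⟨e⟩⟩ | l⟩
  · exact absurd (.trans (by rw [card_of_psl e h1 (n := 60)]; norm_num) d) h5
  · exact absurd (exists_dvd_orderOf (f := e.toMonoidHom.comp (QuotientGroup.mk' _))
      (e.surjective.comp (QuotientGroup.mk'_surjective _))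
      (exists_order_even (n := 3) (by norm_num) h1 (Or.inr rfl))) h9
  · exact absurd (.trans (by rw [(Nat.card_congr e.toEquiv).trans (card_sz (m := 1) h1)]; norm_num) d) h5
  · exact absurd (.trans (by rw [(Nat.card_congr e.toEquiv).trans (card_sz (m := 2) h1)]; norm_num) d) h5
  · exact absurd (by rw [l.card]; norm_num) h5
  · exact absurd (by rw [card_of_psl e h1 (n := 360)]; norm_num) h5
  · exact (psl_congr (h1.trans hF.symm)).map e.trans
  · exact absurd (exists_dvd_orderOf (f := e.toMonoidHom) e.surjective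
      (exists_order_odd (h1 ▸ by decide) (Or.inr (by rw [h1])))) h9
  · exact absurd (by rw [l.card]; norm_num) h5

end Cfsg.Agent.S3396
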