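import Cfsg.Statements.S3433
import Cfsg.Agent.CIT.Higman

set_option autoImplicit false
open Cfsg

namespace Cfsg.Agent.S3433

/-- A finite group whose set of element orders is exactly {1, 2, 3, 4, 5} is isomorphic to the alternating group of degree 6, or has a normal elementary abelian 2-subgroup with quotient isomorphic to the alternating group of degree 5. -/
theorem result {G : Type*} [Group G] [Finite G] (h : Set.range (orderOf : G → ℕ) = {k : ℕ | 1 ≤ k ∧ k ≤ 5}) :
    Nonempty (G ≃* ↥(alternatingGroup (Fin 6))) ∨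
      ∃ (N : Subgroup G) (_ : N.Normal), Cfsg.IsElementaryAbelian 2 N ∧ Nonempty (G ⧸ N ≃* ↥(alternatingGroup (Fin 5))) := by
  open CF.CIT CF.BG CF.Classical in
  have A : ∀ g : G, orderOf g ≤ 5 := fun g => (h.le ⟨g, rfl⟩).2
  have B : ∀ n : ℕ, n.Prime → n ∣ Nat.card G → n ≤ 5 := fun n hn d => by
    obtain ⟨g, rfl⟩ := @exists_prime_orderOf_dvd_card' G _ _ n ⟨hn⟩ d
    exact A g
  have D : ∀ n, 1 ≤ n → n ≤ 5 → n ∣ Nat.card G := fun n h1 h2 => by
    obtain ⟨g, rfl⟩ := h.ge ⟨h1, h2⟩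
    exact orderOf_dvd_natCard g
  have E : EPPO G := fun g hg => by
    have := A g
    have := orderOf_pos g
    have := mt orderOf_eq_one_iff.1 hg
    interval_cases orderOf g
    exacts [absurd rfl this, Nat.prime_two.isPrimePow, Nat.prime_three.isPrimePow,
      Nat.prime_two.isPrimePow.pow two_ne_zero, Nat.prime_five.isPrimePow]
  have ns := not_sol_of_three Nat.prime_two Nat.prime_three Nat.prime_five (by decide) (by decide)
    (by decide) (D 2 (by decide) (by decide)) (D 3 (by decide) (by decide))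
    (D 5 (by decide) (by decide)) fun g => by have := A g; omega
  haveI := normalIn_top.1 (O_normal {2} (⊤ : Subgroup G))
  have d := Subgroup.card_quotient_dvd_card (𝐎 {2} (⊤ : Subgroup G))
  have h7 : ¬ 7 ∣ Nat.card G := fun d => absurd (B 7 (by norm_num) d) (by decide)
  rcases E.cases ns rfl with ⟨K, _, _, h1 | h1, ⟨e⟩⟩ |
    ⟨K, _, _, ⟨h1, ⟨e⟩⟩ | ⟨h1, ⟨e⟩⟩⟩ | ⟨hO, l | ⟨K, _, _, h1 | h1 | h1, ⟨e⟩⟩ | l⟩
  · haveI := CF.BN.Suz.charP_of_card (n := 2) h1
    obtain ⟨s, s0, s1⟩ := Hig.exists_ne (n := 2) le_rfl h1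
    obtain ⟨π, h2, h3⟩ := E.cit.hyp (O_pi _ _) e
    exact Or.inr ⟨_, _, (h2 ▸ h3.abelem s0 s1).isEA, (PSL2_four_equiv (Nat.card_eq_fintype_card.trans h1)).map e.trans⟩
  · exact absurd (.trans (by rw [card_of_psl e h1 (n := 504)]; norm_num) d) h7
  · exact absurd (.trans (by rw [(Nat.card_congr e.toEquiv).trans (card_sz (m := 1) h1)]; norm_num) d) h7
  · exact absurd (B 31 (by norm_num) (.trans (by
      rw [(Nat.card_congr e.toEquiv).trans (card_sz (m := 2) h1)]; norm_num) d)) (by decide)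
  · exact absurd (by rw [l.card]; norm_num) h7
  · exact Or.inl ((PSL2_nine_equiv (Nat.card_eq_fintype_card.trans h1)).map e.trans)
  · exact absurd (by rw [card_of_psl e h1 (n := 168)]; norm_num) h7
  · exact absurd (B 17 (by norm_num) (by rw [card_of_psl e h1 (n := 2448)]; norm_num)) (by decide)
  · obtain ⟨g, hg⟩ := E.cit.exists_eight hO ns l
    exact absurd (hg ▸ A g) (by decide)

end Cfsg.Agent.S3433
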