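import Cfsg.Statements.S3493
import Cfsg.Agent.Perm.ONS

set_option autoImplicit false
open Cfsg

namespace Cfsg.Agent.S3493

open CF.Perm Subgroup MulAction
open scoped Pointwise

/-- An extremely primitive permutation group is of affine type or almost simple. Let a finite group G act faithfully and primitively on a finite set Ω with at least two points, in such a way that every point stabilizer acts primitively on each of its own orbits in Ω (an orbit of size one counts as primitive). Then either G has a non-trivial abelian normal subgroup whose elements other than the identity fix no point (affine type), or G has a non-abelian simple normal subgroup with trivial centralizer (almost simple). -/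
theorem result {G : Type*} [Group G] [Finite G] {Ω : Type*} [Fintype Ω] [MulAction G Ω] [FaithfulSMul G Ω] (hΩ : 2 ≤ Fintype.card Ω) (hprim : MulAction.IsPreprimitive G Ω) (hep : ∀ (α : Ω) (ω : Ω), MulAction.IsPreprimitive (MulAction.stabilizer G α) (MulAction.orbit (MulAction.stabilizer G α) ω)) :
    (∃ N : Subgroup G, N.Normal ∧ N ≠ ⊥ ∧ IsMulCommutative N ∧ ∀ ω : Ω, MulAction.stabilizer N ω = ⊥) ∨ (∃ T : Subgroup G, T.Normal ∧ IsSimpleGroup T ∧ ¬ IsMulCommutative T ∧ Subgroup.centralizer (T : Set G) = ⊥) := by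
  have := Fintype.one_lt_card_iff_nontrivial.1 hΩ
  obtain ⟨a, b, hab⟩ := exists_pair_ne Ω
  have : Nontrivial G := by
    obtain ⟨g, rfl⟩ := exists_smul_eq G a b
    exact ⟨1, g, fun e => hab (by simp [← e])⟩
  by_contra! h0
  have h0' : ∀ W : Subgroup G, W.Normal → W ≠ ⊥ → ¬ IsMulCommutative W := fun W h1 h2 h3 => by
    obtain ⟨N, r, -, h4, h5, h6, -, h7⟩ := affine_of_comm (Ω := Ω) h1 h2 h3
    obtain ⟨a, ha⟩ := h0.1 N h4 h5 h6.1
    exact ha (h7 a)
  obtain ⟨N, hN⟩ := CF.Solv.exists_isMinNormal (G := G)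
  obtain ⟨T, hT⟩ := exists_soc hN (h0' N hN.1 hN.2.1)
  have hA := maxCF_stabilizer (G := G) a
  have ia : ∀ {g : G}, g ∈ stabilizer G a → g⁻¹ • a = a := fun h => inv_mem h
  by_cases e : projS ⊤ T (stabilizer G a) = T
  · have h1 : ∀ s ∈ T, ∀ t ∈ T, s • a = t • a → s = t := fun s hs t ht h =>
      (inv_mul_eq_one.1 ((hT.inf_eq_bot hA e).le (mem_inf.2 ⟨mul_mem (inv_mem ht) hs, by
        rw [mem_stabilizer_iff, mul_smul, h, inv_smul_smul]⟩))).symm
    have h2 : ∀ t ∈ T, ∀ s ∈ T, s * t * s⁻¹ ∈ zpowers t → s * t * s⁻¹ = t := by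
      intro t ht
      have h3 : ∀ s ∈ T, ∃ g ∈ stabilizer G a, ∀ x ∈ T, g • x • a = (s * x * s⁻¹) • a := by
        intro s hs
        obtain ⟨-, c, -, hc, h⟩ := e.ge hs
        refine ⟨_, h, fun x hx => ?_⟩
        conv_rhs => rw [← h, smul_smul]
        rw [smul_smul, mul_assoc, ← hc x hx]
        simp [mul_assoc]
      rcases le_or_eq_of_prim_orbit (hep a (t • a)) (S := stabilizer G (orbit (zpowers t) a))
        (fun g hg => (mem_stabilizer_set_iff_smul_set_subset (Set.toFinite _)).2 (by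
          rintro _ ⟨_, ⟨⟨_, m, rfl⟩, rfl⟩, rfl⟩
          refine ⟨⟨_, m, rfl⟩, ?_⟩
          obtain ⟨hg1, hg2⟩ := mem_inf.1 hg
          have h4 : (g * t * g⁻¹) • a = t • a := by rw [mul_smul, mul_smul, ia hg1, hg2]
          have h5 : Commute t (g * t * g⁻¹) := (hT.conj_mem_or g).elim
            (fun h => by rw [h1 _ ((h t).1 ht) t ht h4]) fun h => h t ht t ht
          change t ^ m • a = g • t ^ m • a
          conv_rhs => rw [← ia hg1, smul_smul, smul_smul, ← conj_zpow]
          rw [eq_comm, ← inv_smul_eq_iff, smul_smul, ← inv_zpow, ← h5.inv_left.mul_zpow]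
          exact zpow_mem (show _ ∈ stabilizer G a by
            rw [mem_stabilizer_iff, mul_smul, h4, inv_smul_smul]) m)) with h4 | h4
      · intro s hs h
        obtain ⟨g, hg, h5⟩ := h3 s hs
        refine h1 _ (mul_mem (mul_mem hs ht) (inv_mem hs)) t ht ((h5 t ht).symm.trans (h4 ⟨hg,
          (mem_stabilizer_set_iff_smul_set_subset (Set.toFinite _)).2 ?_⟩))
        rintro _ ⟨_, ⟨⟨_, m, rfl⟩, rfl⟩, rfl⟩
        exact ⟨⟨_, zpow_mem h m⟩, show (s * t * s⁻¹) ^ m • a = g • t ^ m • a by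
          rw [conj_zpow]; exact (h5 _ (zpow_mem ht m)).symm⟩
      · rcases eq_bot_or_eq_of_simple hT.simple (zpowers_le.2 ht) (fun s hs k hk => by
          obtain ⟨g, hg, h5⟩ := h3 s hs
          have hk' := zpowers_le.2 ht hk
          obtain ⟨x, hx⟩ := (h4 hg).le ⟨_, ⟨⟨k, hk⟩, rfl⟩, rfl⟩
          exact h1 _ (zpowers_le.2 ht x.2) _ (mul_mem (mul_mem hs hk') (inv_mem hs))
            (hx.trans (h5 k hk')) ▸ x.2) with h | h
        · simp [zpowers_eq_bot.1 h]
        · exact (hT.ncomm (h ▸ inferInstance)).elim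
    refine (CF.Sig.comp_not_le_centralizer hT.comp (hT.le_of_invol fun s hs h3 x hx =>
      mem_centralizer_singleton_iff.1 (hT.le_of_invol (fun t ht h4 => ?_) hx))).elim
    have h5 : s⁻¹ = s := inv_eq_of_mul_eq_one_right (by rw [← sq, ← h3, pow_orderOf_eq_one])
    have h6 : t⁻¹ = t := inv_eq_of_mul_eq_one_right (by rw [← sq, ← h4, pow_orderOf_eq_one])
    have h7 : s * (s * t) * s⁻¹ = (s * t)⁻¹ := by
      rw [mul_inv_rev, h6, ← mul_assoc s s]; nth_rewrite 1 [← h5]; simp
    have h8 := h2 _ (mul_mem hs ht) s hs (h7 ▸ inv_mem (mem_zpowers _))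
    rwa [h7, mul_inv_rev, h5, h6, ← mem_centralizer_singleton_iff] at h8
  have h1 := (hT.projS_eq_or hA le_top).resolve_left e
  have h2 : ¬ stabilizer G a ≤ normalizer (T : Set G) := fun h =>
    have := hA.normal h (hT.not_le hA)
    e (hT.projS_eq_of_normal hA (h0.2 T this hT.simple hT.ncomm))
  have h3 : ∀ t ∈ T, t • a ≠ a → ∀ g ∈ stabilizer G a, g ∈ normalizer (T : Set G) →
      g • t • a = t • a := fun t ht h g h4 h5 =>
    (le_or_eq_of_prim_orbit (hep a (t • a)) (S := normalizer T) fun g hg =>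
      (hT.conj_mem_or g).resolve_right fun h' => h (inv_mem_iff.1 (h1 ⟨inv_mem ht, _, trivial,
        h' t ht, by
          rw [mem_stabilizer_iff, mul_smul, mul_smul, mul_smul, ia (mem_inf.1 hg).1,
            (mem_inf.1 hg).2, inv_smul_smul]⟩))
      ).resolve_right h2 ⟨h4, h5⟩
  have h4 : T ⊓ stabilizer G a = ⊥ :=
    (eq_bot_or_eq_of_simple hT.simple inf_le_left fun t ht k hk =>
      mem_inf.2 ⟨T.mul_mem (T.mul_mem ht hk.1) (T.inv_mem ht), by
        obtain ⟨hk1, hk2⟩ := mem_inf.1 hk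
        by_cases h : t⁻¹ ∈ stabilizer G a
        · exact mul_mem (mul_mem (inv_mem_iff.1 h) hk2) h
        · rw [mem_stabilizer_iff, mul_smul, mul_smul,
            h3 _ (inv_mem ht) h k hk2 (le_normalizer hk1), smul_inv_smul]⟩).resolve_right
      fun h => hT.not_le hA (h.ge.trans inf_le_right)
  obtain ⟨⟨t, ht⟩, h5⟩ := ne_bot_iff_exists_ne_one.1 hT.ne_bot
  have h6 : t • a ≠ a := fun h => h5 (Subtype.ext (h4.le ⟨ht, h⟩))
  let W := closure {x | ∃ g ∈ stabilizer G a, g * t * g⁻¹ = x}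
  have h7 : t ∈ W := Subgroup.subset_closure ⟨1, one_mem _, by simp⟩
  refine h0' W (hA.normal (le_normalizer_of_conj fun g hg x hx =>
    (closure_le (W.comap (MulAut.conj g).toMonoidHom)).2 (by
      rintro _ ⟨k, hk, rfl⟩
      exact Subgroup.subset_closure ⟨g * k, mul_mem hg hk, by simp [mul_assoc]⟩) hx)
    fun h => h6 (h h7)) (fun h => h5 (Subtype.ext (h.le h7))) (isMulCommutative_closure ?_)
  rintro _ ⟨g, hg, rfl⟩ _ ⟨k, hk, rfl⟩
  have h8 : Commute t (g⁻¹ * k * t * (g⁻¹ * k)⁻¹) := (hT.conj_mem_or _).elim (fun h => by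
    have h9 := mul_mem (inv_mem hg) hk
    rw [← inv_mul_eq_one.1 (h4.le (mem_inf.2 ⟨mul_mem (inv_mem ht) ((h t).1 ht), by
      rw [mem_stabilizer_iff, mul_smul, mul_smul, mul_smul, ia h9,
        h3 t ht h6 _ h9 h, inv_smul_smul]⟩))]) fun h => h t ht t ht
  simpa [mul_assoc] using (h8.map (MulAut.conj g)).eq

end Cfsg.Agent.S3493
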