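import Cfsg.Statements.S3496
import Cfsg.Agent.Recog.Affine
import Cfsg.Agent.Chev.FF
import Cfsg.Agent.Perm.FieldCoord

set_option autoImplicit false
open Cfsg

namespace Cfsg.Agent.S3496

/-- The soluble extremely primitive groups. Let a finite solvable group G act faithfully and primitively on a finite set Ω with p ^ d points (p prime), with non-trivial point stabilizers each acting primitively on every one of its orbits. Then there is a prime q such that every orbit of a point stabilizer G_α other than {α} has exactly q points, q divides p ^ d − 1 but no p ^ i − 1 with 0 < i < d, and G_α has a normal subgroup T of order q with G_α generated by T and one further element and the order of G_α dividing q·d (so G_α is cyclic of order q, or an extension of T by a cyclic group of order dividing d). -/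
theorem result {G : Type*} [Group G] [Finite G] {Ω : Type*} [Fintype Ω] [MulAction G Ω] [FaithfulSMul G Ω] [Group.IsSolvable G] (p d : ℕ) (hp : p.Prime) (hcard : Fintype.card Ω = p ^ d)
    (hprim : MulAction.IsPreprimitive G Ω) (hH : ∀ α : Ω, MulAction.stabilizer G α ≠ ⊥) (hep : ∀ (α : Ω) (ω : Ω), MulAction.IsPreprimitive (MulAction.stabilizer G α) (MulAction.orbit (MulAction.stabilizer G α) ω)) (α : Ω) :
    ∃ q : ℕ, q.Prime ∧ (∀ ω : Ω, ω ≠ α → Nat.card (MulAction.orbit (MulAction.stabilizer G α) ω) = q) ∧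
      q ∣ p ^ d - 1 ∧ (∀ i : ℕ, 0 < i → i < d → ¬ q ∣ p ^ i - 1) ∧
      ∃ T : Subgroup G, T ≤ MulAction.stabilizer G α ∧ MulAction.stabilizer G α ≤ Subgroup.normalizer (T : Set G) ∧ Nat.card T = q ∧
        (∃ h : G, MulAction.stabilizer G α = T ⊔ Subgroup.zpowers h) ∧ Nat.card (MulAction.stabilizer G α) ∣ q * d := by
  have := CF.Recog.nonempty_of_ne_bot (Ω := Ω) (hH α)
  obtain ⟨b, hb⟩ := exists_ne α
  have := CF.Recog.ep_faithful hprim hep hb
  have := Fact.mk hp
  set H := MulAction.stabilizer G α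
  have : Nontrivial H := (Subgroup.nontrivial_iff_ne_bot H).2 (hH α)
  have : Nontrivial G := H.subtype_injective.nontrivial
  obtain ⟨-, n1, n2, -⟩ := CF.Recog.prim_fitting hprim CF.Solv.fitting_ne_bot
  set N := fittingSubgroup G
  have n3 := CF.Recog.stab_eq_bot_of_comm N α
  have n4 : Nat.card N = p ^ d := by rw [CF.Perm.card_eq_of_regular N α n3, ← hcard, Nat.card_eq_fintype_card]
  have f0 : fittingSubgroup H ≠ ⊥ := CF.Solv.fitting_ne_bot
  obtain ⟨-, f1, -, q, hq, f2⟩ := CF.Recog.prim_fitting (hep α b) f0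
  set T := (fittingSubgroup H).map H.subtype
  have t1 : T ≤ H := Subgroup.map_subtype_le _
  have t2 : H ≤ Subgroup.normalizer (T : Set G) := CF.Recog.le_normalizer_of_conj (by
    rintro g hg _ ⟨x, hx, rfl⟩
    exact ⟨_, Subgroup.Normal.conj_mem inferInstance x hx ⟨g, hg⟩, rfl⟩)
  have t0 : T ≠ ⊥ := by rwa [Ne, Subgroup.map_eq_bot_iff_of_injective _ H.subtype_injective]
  have irr := CF.Recog.ep_irr hprim hep n3 t0 t1 t2
  have cj : ∀ g : G, ∀ u ∈ N, g * u * g⁻¹ ∈ N := fun g u hu => Subgroup.Normal.conj_mem inferInstance u hu g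
  have tc : ∀ a ∈ T, ∀ b ∈ T, ∀ u ∈ N, a * (b * u * b⁻¹) * a⁻¹ = b * (a * u * a⁻¹) * b⁻¹ :=
    fun a ha b hb u _ => by
      calc _ = (a * b) * u * (a * b)⁻¹ := by group
        _ = _ := by rw [setLike_mul_comm ha hb]; group
  obtain ⟨u, hu⟩ := Subgroup.ne_bot_iff_exists_ne_one.1 (CF.Solv.fitting_ne_bot (G := G))
  have d0 : d ≠ 0 := by rintro rfl; exact Fintype.one_lt_card.ne' hcard
  let K := GaloisField p d
  have := Fintype.ofFinite K
  have k0 : Nat.card K = p ^ d := GaloisField.card p d d0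
  obtain ⟨τ, a1, a2, a3, a4, -, a5, a6⟩ := (CF.Perm.exists_field_param N T n1 (fun a _ => cj a) tc irr u.2
    (OneMemClass.coe_eq_one.not.2 hu)).2 K (k0.trans n4.symm)
  have z : ∀ g ∈ H, (∀ x, g * τ x * g⁻¹ = τ x) → g = 1 := fun g hg e =>
    CF.Perm.eq_one_of_commute_trans (M := N) (fun m hm => by
      obtain ⟨x, rfl⟩ := a3 m hm; exact mul_inv_eq_iff_eq_mul.1 (e x)) hg
  choose c φ c0 hc using fun h : H => a6 h (cj h) (cj h⁻¹)
    (fun a => (Subgroup.mem_normalizer_iff.1 (t2 h.2) a).1)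
    fun a ha => by simpa using (Subgroup.mem_normalizer_iff.1 (t2 h⁻¹.2) a).1 ha
  have m : ∀ g h x, c (g * h) * φ (g * h) x = c g * φ g (c h * φ h x) := fun g h x => a2 (by
    rw [← hc, ← hc, ← hc, Subgroup.coe_mul]; group)
  have m1 : ∀ g h, c (g * h) = c g * φ g (c h) := fun g h => by simpa using m g h 1
  let Φ : H →* RingAut K := MonoidHom.mk' φ fun g h => RingEquiv.ext fun x =>
    mul_left_cancel₀ (c0 (g * h)) (by rw [m, m1, map_mul, mul_assoc]; rfl)
  have kT : ∀ h ∈ fittingSubgroup H, φ h = 1 := fun h hh => RingEquiv.ext fun x => by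
    obtain ⟨e, -, he⟩ := a5 h (cj h) fun a ha => tc a ha h ⟨h, hh, rfl⟩
    have := fun x => a2 ((hc h x).symm.trans (he x))
    exact mul_left_cancel₀ (c0 h) ((this x).trans (by rw [← mul_one e, ← this 1, map_one, mul_one]; rfl))
  have ker : Φ.ker = fittingSubgroup H := le_antisymm (fun h hh =>
    (CF.Recog.ep_fitting hprim hep hb f0).2 fun t ht => by
      rw [← mul_inv_eq_one, ← OneMemClass.coe_eq_one]
      refine z _ (Subtype.prop _) fun x => (hc _ x).trans (congrArg τ ?_)
      have e : c (t * h) = c (h * t) := by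
        rw [m1, m1, kT t ht, show φ h = 1 from hh, mul_comm]; rfl
      have e' : Φ (t * h) = Φ (h * t) := by rw [map_mul, map_mul, show Φ h = 1 from hh, mul_one, one_mul]
      have := m (t * h * (h * t)⁻¹) (h * t) ((φ (h * t)).symm ((c (h * t))⁻¹ * x))
      rw [inv_mul_cancel_right, e, show φ (t * h) = φ (h * t) from e', RingEquiv.apply_symm_apply,
        mul_inv_cancel_left₀ (c0 _)] at this
      exact this.symm) kT
  let ψ : fittingSubgroup H →* Kˣ := MonoidHom.mk' (fun t => Units.mk0 (c t) (c0 _)) fun s t =>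
    Units.ext (by change c (s.1 * t.1) = c s * c t; rw [m1, kT s s.2]; rfl)
  have ψi : Function.Injective ψ := (injective_iff_map_eq_one _).2 fun t ht => Subtype.ext
    (Subtype.ext (z _ t.1.2 fun x => by
      rw [hc, show c t = 1 from congrArg Units.val ht, kT t t.2, one_mul]; rfl))
  have := isCyclic_of_injective ψ ψi
  have cq : Nat.card (fittingSubgroup H) = q := by
    rw [← IsCyclic.exponent_eq_card]
    refine ((Nat.dvd_prime hq).1 (Monoid.exponent_dvd_of_forall_pow_eq_one fun x =>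
      Subtype.ext (f2 x.1 x.2))).resolve_left fun e => f0 ?_
    rwa [IsCyclic.exponent_eq_card, Subgroup.card_eq_one] at e
  have o : ∀ ω, ω ≠ α → Nat.card (MulAction.orbit H ω) = q := fun ω hω =>
    (CF.Recog.ep_fitting hprim hep hω f0).1.trans cq
  refine ⟨q, hq, o, ?_, fun i i0 id ⟨r, hr⟩ => ?_, T, t1, t2,
    (Subgroup.card_map_of_injective H.subtype_injective).trans cq, ?_, ?_⟩
  · rw [← hcard, ← Nat.card_eq_fintype_card]
    exact CF.Recog.dvd_card_sub_one α fun b hb => (o b hb).symm.dvd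
  · have τ0 : τ 0 = 1 := by simpa using a4 0 0
    let L : Subgroup G :=
      { carrier := τ '' {x | x ^ p ^ i = x}
        mul_mem' := by
          rintro _ _ ⟨x, hx, rfl⟩ ⟨y, hy, rfl⟩
          exact ⟨x + y, by rw [Set.mem_ofPred_eq, add_pow_char_pow, hx, hy], a4 x y⟩
        one_mem' := ⟨0, zero_pow (pow_ne_zero _ hp.ne_zero), τ0⟩
        inv_mem' := by
          rintro _ ⟨x, hx, rfl⟩
          exact ⟨-x, by rw [Set.mem_ofPred_eq, ← zero_sub, sub_pow_char_pow, hx,
            zero_pow (pow_ne_zero _ hp.ne_zero)], eq_inv_of_mul_eq_one_left (by rw [← a4, neg_add_cancel, τ0])⟩ }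
    have p1 : p ^ i = q * r + 1 := by rw [← hr, Nat.sub_add_cancel (Nat.one_le_pow _ _ hp.pos)]
    rcases irr L (by rintro _ ⟨x, -, rfl⟩; exact a1 x) (by
      rintro _ ⟨t, ht, rfl⟩ _ ⟨x, hx, rfl⟩
      refine ⟨_, ?_, (hc t x).symm⟩
      have : c t ^ q = 1 := by
        rw [show c t = ψ ⟨t, ht⟩ from rfl, ← Units.val_pow_eq_pow_val, ← map_pow, ← cq,
          pow_card_eq_one', map_one, Units.val_one]
      rw [Set.mem_ofPred_eq, kT t ht, mul_pow, show (1 : RingAut K) x = x from rfl, hx, p1, pow_succ,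
        pow_mul, this, one_pow, one_mul]) with h | h
    · exact one_ne_zero (a2 ((h.le ⟨1, one_pow _, rfl⟩).trans τ0.symm))
    obtain ⟨g, hg⟩ := IsCyclic.exists_ofOrder_eq_natCard (α := Kˣ)
    obtain ⟨x, hx, e⟩ := h.ge (a1 g)
    rw [a2 e, Set.mem_ofPred_eq, p1, pow_succ, mul_eq_right₀ g.ne_zero, ← Units.val_pow_eq_pow_val,
      Units.val_eq_one, ← orderOf_dvd_iff_pow_eq_one, hg, Nat.card_units, k0, ← hr] at hx
    have := Nat.pow_lt_pow_right hp.one_lt id
    have := Nat.one_lt_pow i0.ne' hp.one_lt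
    have := Nat.le_of_dvd (by omega) hx
    omega
  · have := CF.Chev.isCyclic_ringAut (F := K)
    obtain ⟨⟨_, h, rfl⟩, hh⟩ := IsCyclic.exists_generator (α := Φ.range)
    refine ⟨h, le_antisymm (fun x hx => ?_) (sup_le t1 (Subgroup.zpowers_le.2 h.2))⟩
    obtain ⟨k, hk⟩ := hh ⟨_, ⟨x, hx⟩, rfl⟩
    have : (⟨x, hx⟩ : H) * (h ^ k)⁻¹ ∈ Φ.ker := by
      rw [MonoidHom.mem_ker, map_mul, map_inv, map_zpow, mul_inv_eq_one]
      exact (congrArg Subtype.val hk).symm
    rw [← inv_mul_cancel_right x (h ^ k)]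
    exact Subgroup.mul_mem_sup ⟨_, ker ▸ this, rfl⟩ ⟨k, rfl⟩
  · rw [← Φ.ker.card_mul_index, Subgroup.index_ker, ker, cq]
    exact mul_dvd_mul_left _ ((Subgroup.card_subgroup_dvd_card _).trans (CF.Chev.card_ringAut
      (F := K) (p := p) (Nat.card_eq_fintype_card.symm.trans k0)).dvd)

end Cfsg.Agent.S3496
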