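import Cfsg.Statements.S3497
import Cfsg.Agent.Recog.Affine
import Cfsg.Agent.Fgs2.AutP

set_option autoImplicit false
open Cfsg

namespace Cfsg.Agent.S3497

/-- Restrictions on the point stabilizer of an extremely primitive group. Let a finite group G act faithfully and primitively on a finite set Ω with point stabilizers H = G_α whose order is neither 1 nor a prime, each acting primitively on every one of its orbits. Then H has trivial center, the Fitting subgroup F(H) is an elementary abelian p-group for some prime p, and if F(H) ≠ 1 has order p ^ e then p ^ e divides the number of points minus one and H / F(H) embeds in GL_e(p) (there is a homomorphism from H to GL_e(p) with kernel exactly F(H)). -/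
theorem result {G : Type*} [Group G] [Finite G] {Ω : Type*} [Fintype Ω] [MulAction G Ω] [FaithfulSMul G Ω] (hprim : MulAction.IsPreprimitive G Ω) (hep : ∀ (α : Ω) (ω : Ω), MulAction.IsPreprimitive (MulAction.stabilizer G α) (MulAction.orbit (MulAction.stabilizer G α) ω)) (α : Ω)
    (hH1 : MulAction.stabilizer G α ≠ ⊥) (hHp : ¬ (Nat.card (MulAction.stabilizer G α)).Prime) :
    Subgroup.center (MulAction.stabilizer G α) = ⊥ ∧
    IsMulCommutative (Cfsg.fittingSubgroup (MulAction.stabilizer G α)) ∧
    ∃ p e : ℕ, p.Prime ∧ Nat.card (Cfsg.fittingSubgroup (MulAction.stabilizer G α)) = p ^ e ∧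
      (∀ x ∈ Cfsg.fittingSubgroup (MulAction.stabilizer G α), x ^ p = 1) ∧
      (Cfsg.fittingSubgroup (MulAction.stabilizer G α) ≠ ⊥ →
        p ^ e ∣ Fintype.card Ω - 1 ∧
        ∃ φ : MulAction.stabilizer G α →* GL (Fin e) (ZMod p), φ.ker = Cfsg.fittingSubgroup (MulAction.stabilizer G α)) := by
  have := CF.Recog.nonempty_of_ne_bot (Ω := Ω) hH1
  obtain ⟨b, hb⟩ := exists_ne α
  have := CF.Recog.ep_faithful hprim hep hb
  refine ⟨by_contra fun h => hHp (CF.Recog.prime_card_of_center (hep α b) h), ?_⟩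
  by_cases h1 : fittingSubgroup (MulAction.stabilizer G α) = ⊥
  · rw [h1]
    exact ⟨inferInstance, 2, 0, Nat.prime_two, Subgroup.card_bot, by simp, fun h => (h rfl).elim⟩
  obtain ⟨-, c, -, p, hp, e⟩ := CF.Recog.prim_fitting (hep α b) h1
  have := Fact.mk hp
  obtain ⟨n, hn⟩ := (CF.Solv.isPGroup_of_forall_pow_eq_one e).exists_card_eq
  obtain ⟨f⟩ := CF.Fgs2.nonempty_mulAut_equiv_GL (fun x => Subtype.ext (e x.1 x.2)) hn
  refine ⟨c, p, n, hp, hn, e, fun _ => ⟨?_, f.toMonoidHom.comp MulAut.conjNormal, ?_⟩⟩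
  · rw [← hn, ← Nat.card_eq_fintype_card]
    exact CF.Recog.dvd_card_sub_one α fun b hb => (CF.Recog.ep_fitting hprim hep hb h1).1.symm.dvd
  refine Eq.trans ?_ ((CF.Recog.ep_fitting hprim hep hb h1).2.antisymm (Subgroup.le_centralizer _))
  ext x
  rw [MonoidHom.mem_ker, MonoidHom.comp_apply, MulEquiv.coe_toMonoidHom, map_eq_one_iff _ f.injective,
    MulEquiv.ext_iff, Subgroup.mem_centralizer_iff]
  exact ⟨fun h y hy => (mul_inv_eq_iff_eq_mul.1 (congrArg Subtype.val (h ⟨y, hy⟩))).symm,
    fun h y => Subtype.ext (mul_inv_eq_iff_eq_mul.2 (h y y.2).symm)⟩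

end Cfsg.Agent.S3497
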