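import Cfsg.Statements.S3498
import Cfsg.Agent.Coprime.Thompson

set_option autoImplicit false
open Cfsg

namespace Cfsg.Agent.S3498

/-- A maximal subgroup of a finite almost simple group does not have prime order. Here G is almost simple in the sense that it has a non-abelian simple normal subgroup T with trivial centralizer. -/
theorem result {G : Type*} [Group G] [Finite G] (T : Subgroup G) [T.Normal] (hT : IsSimpleGroup T) (hTc : ¬ IsMulCommutative T)
    (hC : Subgroup.centralizer (T : Set G) = ⊥) (H : Subgroup G) (hmax : IsCoatom H) : ¬ (Nat.card H).Prime := by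
  intro hp
  have c : ∀ K : Subgroup G, K.Normal → Group.IsSolvable K → K = ⊥ := fun K n s => by
    rcases hT.eq_bot_or_eq_top_of_normal (K.subgroupOf T) inferInstance with h | h
    · exact eq_bot_iff.2 (hC ▸ CF.Solv.le_centralizer_of_inf_eq_bot
        (Subgroup.subgroupOf_eq_bot.1 h).eq_bot)
    · have := CF.Solv.isSolvable_of_le (Subgroup.subgroupOf_eq_top.1 h)
      exact absurd ⟨⟨IsSimpleGroup.comm_iff_isSolvable.2 this⟩⟩ hTc
  have := Fact.mk hp
  have b : H ≠ ⊥ := fun h => hp.one_lt.ne' (by rw [h, Subgroup.card_bot])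
  obtain ⟨K, -, n, -, h, -, k⟩ := CF.Coprime.frob_exists_nilpotent_kernel
    (CF.Coprime.isFrobeniusComplement_iff.2 ⟨b, hmax.1, fun g x hx h1 h2 => by
      have z : ∀ y ∈ H, y ≠ 1 → Subgroup.zpowers y = H := fun y hy e =>
        ((CF.Solv.le_or_inf_eq_bot_of_card_prime hp _).resolve_right fun h => e
          (h.le ⟨hy, Subgroup.mem_zpowers y⟩)).antisymm' (Subgroup.zpowers_le.2 hy)
      by_contra hg
      have : IsCyclic H := isCyclic_of_prime_card rfl
      refine b (c H (Subgroup.normalizer_eq_top_iff.1 (hmax.2 _ (H.le_normalizer.lt_of_ne fun e =>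
        hg (e.ge ?_)))) (Group.isSolvable_of_comm mul_comm'))
      rw [← CF.Solv.conj_smul_eq_iff]
      exact (congrArg _ (z x hx h1).symm).trans
        ((MonoidHom.map_zpowers _ x).trans (z _ h2 (by simpa using h1)))⟩)
  exact h (c K n inferInstance)

end Cfsg.Agent.S3498
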