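import Cfsg.Statements.S3504
import Mathlib

set_option autoImplicit false
open Cfsg

namespace Cfsg.Agent.S3504

theorem aux {n : ℕ} {g : Equiv.Perm (Fin n)} (h1 : (orderOf g).Prime) (h2 : ∀ i, g i ≠ i) :
    orderOf g ∣ n ∧ g.cycleType = Multiset.replicate (n / orderOf g) (orderOf g) := by
  obtain ⟨m, hm⟩ := Equiv.Perm.cycleType_prime_order h1
  have h3 := g.sum_cycleType
  rw [hm, Finset.eq_univ_of_forall fun i => Equiv.Perm.mem_support.2 (h2 i), Multiset.sum_replicate,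
    Finset.card_univ, Fintype.card_fin, smul_eq_mul] at h3
  exact ⟨Dvd.intro_left _ h3, by rw [hm, Nat.div_eq_of_eq_mul_left h1.pos h3.symm]⟩

/-- For n ≥ 5, the fixed-point-free permutations of prime order in the symmetric group of degree n form a single conjugacy class if and only if n is a prime power. -/
theorem result (n : ℕ) (hn : 5 ≤ n) :
    Nat.card {c : ConjClasses (Equiv.Perm (Fin n)) // ∃ g : Equiv.Perm (Fin n), ConjClasses.mk g = c ∧ (orderOf g).Prime ∧ ∀ i : Fin n, g i ≠ i} = 1 ↔ IsPrimePow n := by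
  rw [isPrimePow_iff_card_primeFactors_eq_one, ← Nat.card_eq_finsetCard]
  have k : ∀ p : n.primeFactors, ∃ g : Equiv.Perm (Fin n), orderOf g = p ∧ ∀ i, g i ≠ i := by
    rintro ⟨p, hp⟩
    obtain ⟨h1, h2, -⟩ := Nat.mem_primeFactors.1 hp
    have h3 : (Multiset.replicate (n / p) p).sum = n := by simp [Nat.div_mul_cancel h2]
    obtain ⟨g, hg⟩ := (Equiv.Perm.exists_with_cycleType_iff (Fin n) (m := Multiset.replicate (n / p) p)).2
      ⟨by simp [h3], fun a ha => Multiset.eq_of_mem_replicate ha ▸ h1.two_le⟩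
    refine ⟨g, ?_, fun i => Equiv.Perm.mem_support.1 ?_⟩
    · have := Nat.div_pos (Nat.le_of_dvd (by omega) h2) h1.pos
      rw [← g.lcm_cycleType, hg]
      exact dvd_antisymm (Multiset.lcm_dvd.2 fun a ha => (Multiset.eq_of_mem_replicate ha).dvd)
        (Multiset.dvd_lcm (Multiset.mem_replicate.2 ⟨by omega, rfl⟩))
    · rw [Finset.eq_univ_of_card g.support (by rw [← g.sum_cycleType, hg, h3, Fintype.card_fin])]
      exact Finset.mem_univ i
  choose f h1 h2 using k
  have h3 : ∀ p, (orderOf (f p)).Prime := fun p => h1 p ▸ Nat.prime_of_mem_primeFactors p.2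
  rw [← Nat.card_eq_of_bijective (fun p : n.primeFactors => (⟨ConjClasses.mk (f p), f p, rfl, h3 p, h2 p⟩ :
    {c // ∃ g : Equiv.Perm (Fin n), ConjClasses.mk g = c ∧ (orderOf g).Prime ∧ ∀ i, g i ≠ i})) ⟨?_, ?_⟩]
  · intro p q e
    have := Equiv.Perm.isConj_iff_cycleType_eq.1 (ConjClasses.mk_eq_mk_iff_isConj.1 (congrArg Subtype.val e))
    exact Subtype.ext (by rw [← h1, ← h1, ← Equiv.Perm.lcm_cycleType, this, Equiv.Perm.lcm_cycleType])
  · rintro ⟨_, g, rfl, h4, h5⟩
    refine ⟨⟨orderOf g, Nat.mem_primeFactors.2 ⟨h4, (aux h4 h5).1, by omega⟩⟩, Subtype.ext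
      (ConjClasses.mk_eq_mk_iff_isConj.2 (Equiv.Perm.isConj_iff_cycleType_eq.2 ?_))⟩
    rw [(aux (h3 _) (h2 _)).2, h1]
    exact (aux h4 h5).2.symm

end Cfsg.Agent.S3504
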