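import Cfsg.Statements.S3508
import Cfsg.Agent.Recog.Basic
import Cfsg.Agent.Fgs2.AutP

set_option autoImplicit false
open Cfsg

namespace Cfsg.Agent.S3508

open Polynomial in
theorem geom {M : Type*} [AddCommGroup M] [Finite M] {p m r s : ℕ} [hp : Fact p.Prime]
    [Module (ZMod p) M] (hc : Nat.card M = p ^ m) (A : Module.End (ZMod p) M) (hA : A ^ p ^ r = 1)
    (hs : m < p ^ s) : ∑ i ∈ Finset.range (p ^ s), A ^ i = 0 := by
  have k : ∀ t : ℕ, (X - 1 : (ZMod p)[X]) ^ p ^ t = X ^ p ^ t - 1 := fun t => by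
    rw [sub_pow_char_pow, one_pow]
  have h1 : (A - 1) ^ p ^ r = 0 := by simpa [hA] using congrArg (aeval A) (k r)
  have h2 : ∑ i ∈ Finset.range (p ^ s), (X : (ZMod p)[X]) ^ i = (X - 1) ^ (p ^ s - 1) := by
    refine mul_right_cancel₀ (X_sub_C_ne_zero (1 : ZMod p)) ?_
    rw [C_1, geom_sum_mul, ← pow_succ, Nat.sub_add_cancel (by omega), k]
  have h3 : (A - 1) ^ m = 0 := by
    have := Module.End.ker_pow_le_ker_pow_finrank (A - 1) (p ^ r)
    rwa [h1, CF.Fgs2.finrank_eq_of_card hc, LinearMap.ker_zero, top_le_iff, LinearMap.ker_eq_top] at this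
  have := congrArg (aeval A) h2
  simp only [map_sum, map_pow, aeval_X, map_sub, map_one] at this
  rw [this]
  exact pow_eq_zero_of_le (by omega) h3

theorem seq {V : Type*} [CommGroup V] [Finite V] {p m r s : ℕ} [hp : Fact p.Prime]
    [Module (ZMod p) (Additive V)] (hc : Nat.card V = p ^ m) (σ : MulAut V) (hσ : σ ^ p ^ r = 1)
    (hs : m < p ^ s) (c : V) (f : ℕ → V) (h0 : f 0 = 1) (h1 : ∀ n, f (n + 1) = σ (f n) * c) :
    f (p ^ s) = 1 := by
  let ψ : MulAut V →* Module.End (ZMod p) (Additive V) :=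
    { toFun := fun τ => (MonoidHom.toAdditive τ.toMonoidHom).toZModLinearMap p
      map_one' := rfl
      map_mul' := fun _ _ => rfl }
  have k : ∀ n, Additive.ofMul (f n) = (∑ i ∈ Finset.range n, ψ σ ^ i) (Additive.ofMul c) := by
    intro n
    induction n with
    | zero => simp [h0]
    | succ n ih =>
      rw [geom_sum_succ, LinearMap.add_apply, Module.End.mul_apply, ← ih, h1]
      rfl
  have := k (p ^ s)
  rwa [geom (M := Additive V) (r := r) hc (ψ σ) (by rw [← map_pow, hσ, map_one]) hs] at this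

/-- Let a finite group G act faithfully on a set Ω with p ^ m points (p prime) and have an elementary abelian normal p-subgroup N acting regularly on Ω (so G is a group of affine transformations of an m-dimensional space over the field with p elements). If G contains an element of order p ^ r with r ≥ 1, then p ^ (r − 1) ≤ m. In particular an element of order p ^ m forces m ≤ 2, and m ≤ 1 when p is odd. -/
theorem result {G : Type*} [Group G] [Finite G] {Ω : Type*} [Fintype Ω] [MulAction G Ω] [FaithfulSMul G Ω] (p m : ℕ) (hp : p.Prime) (hcard : Fintype.card Ω = p ^ m)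
    (N : Subgroup G) [N.Normal] (hNc : IsMulCommutative N) (hNp : ∀ n ∈ N, n ^ p = 1)
    (hNtr : MulAction.IsPretransitive N Ω) (hNreg : ∀ ω : Ω, MulAction.stabilizer N ω = ⊥)
    (g : G) (r : ℕ) (hr : 1 ≤ r) (hg : orderOf g = p ^ r) :
    p ^ (r - 1) ≤ m ∧ (r = m → m ≤ 2 ∧ (2 < p → m ≤ 1)) := by
  have := Fact.mk hp
  have h1 : p ^ (r - 1) ≤ m := by
    by_contra h
    have e : g ^ p ^ (r - 1) = 1 := CF.Recog.eq_one_of_smul_eq fun ω : Ω => by
      let : CommGroup N := { (inferInstance : Group N) with mul_comm := mul_comm' }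
      have hc : Nat.card N = p ^ m := by
        rw [← hcard, ← Nat.card_eq_fintype_card, ← Subgroup.index_bot, ← hNreg ω,
          MulAction.index_stabilizer_of_transitive]
      obtain ⟨c, hc'⟩ := MulAction.exists_smul_eq N ω (g • ω)
      let σ : MulAut N := MulAut.conjNormal g
      let f : ℕ → N := fun n => n.rec 1 fun _ x => σ x * c
      have k : ∀ n, (g ^ n) • ω = f n • ω := fun n => by
        induction n with
        | zero => simp [f]
        | succ n ih =>
          rw [pow_succ', mul_smul, ih, show f (n + 1) = σ (f n) * c from rfl, mul_smul, hc']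
          simp [σ, Subgroup.smul_def, mul_smul]
      rw [k, @seq N _ _ p m r (r - 1) _ (AddCommGroup.zmodModule fun x => Subtype.ext (hNp _ x.toMul.2))
        hc σ (by rw [← map_pow, ← hg, pow_orderOf_eq_one, map_one]) (not_le.1 h) c f rfl fun _ => rfl, one_smul]
    have := orderOf_dvd_of_pow_eq_one e
    rw [hg, Nat.pow_dvd_pow_iff_le_right hp.one_lt] at this
    omega
  refine ⟨h1, ?_⟩
  rintro rfl
  obtain ⟨n, rfl⟩ := Nat.exists_eq_add_of_le' hr
  simp only [Nat.add_sub_cancel] at h1
  have k : ∀ q, 2 ≤ q → ∀ n, q ^ n ≤ n + 1 → n ≤ 1 ∧ (2 < q → n = 0) := fun q hq n h => by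
    have := one_add_mul_le_pow (a := (q - 1 : ℤ)) (by omega) n
    have h2 : (1 + ((q : ℤ) - 1)) ^ n ≤ n + 1 := by rw [add_sub_cancel]; exact_mod_cast h
    refine ⟨?_, fun h3 => by nlinarith⟩
    by_contra h3
    obtain ⟨k, rfl⟩ := Nat.exists_eq_add_of_le' (not_le.1 h3)
    have := (Nat.pow_le_pow_left hq _).trans h
    have := k.lt_two_pow_self
    simp only [Nat.succ_eq_add_one, pow_add] at *
    omega
  have := k p hp.two_le n h1
  exact ⟨by omega, fun h => by have := this.2 h; omega⟩

end Cfsg.Agent.S3508
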