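import Cfsg.Statements.S3511

set_option autoImplicit false
open Cfsg

namespace Cfsg.Agent.S3511

/-- Let a finite group G act faithfully on a set Ω. If every element of G of square-free order has a regular cycle (an orbit of the cyclic group it generates with trivial stabilizer), then every element of G has a regular cycle. -/
theorem result {G : Type*} [Group G] [Finite G] {Ω : Type*} [MulAction G Ω] [FaithfulSMul G Ω]
    (h : ∀ g : G, Squarefree (orderOf g) → ∃ ω : Ω, MulAction.stabilizer (Subgroup.zpowers g) ω = ⊥) (g : G) :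
    ∃ ω : Ω, MulAction.stabilizer (Subgroup.zpowers g) ω = ⊥ := by
  have n0 : orderOf g ≠ 0 := (orderOf_pos g).ne'
  obtain ⟨m, hm⟩ := UniqueFactorizationMonoid.radical_dvd_self (a := orderOf g)
  have m0 : m ≠ 0 := by rintro rfl; exact n0 hm
  obtain ⟨ω, hω⟩ := h (g ^ m) (by
    rw [orderOf_pow_of_dvd m0 (hm ▸ dvd_mul_left _ _), Nat.div_eq_of_eq_mul_left (Nat.pos_of_ne_zero m0) hm]
    exact UniqueFactorizationMonoid.squarefree_radical)
  refine ⟨ω, by_contra fun e => ?_⟩
  obtain ⟨p, hp, hd⟩ := Nat.exists_prime_and_dvd (mt Subgroup.card_eq_one.1 e)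
  have := Fact.mk hp
  obtain ⟨⟨⟨x, hx⟩, h1⟩, h2⟩ := exists_prime_orderOf_dvd_card' p hd
  replace h2 : orderOf x = p := by simpa using h2
  obtain ⟨s, hs⟩ := (UniqueFactorizationMonoid.dvd_radical_iff_of_irreducible hp n0).2
    (h2 ▸ orderOf_dvd_of_mem_zpowers hx)
  obtain ⟨k, rfl⟩ := mem_powers_iff_mem_zpowers.2 hx
  obtain ⟨j, rfl⟩ : m ∣ k := by
    have := orderOf_dvd_of_pow_eq_one (((pow_mul g k p).trans (h2 ▸ pow_orderOf_eq_one _)))
    rw [hm, hs, mul_comm k, mul_assoc, Nat.mul_dvd_mul_iff_left hp.pos] at this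
    exact (dvd_mul_left _ _).trans this
  have := hω.le (show (⟨g ^ (m * j), pow_mul g m j ▸ Subgroup.npow_mem_zpowers _ j⟩ :
    Subgroup.zpowers (g ^ m)) ∈ MulAction.stabilizer _ ω from h1)
  rw [Subgroup.mem_bot, Subtype.ext_iff] at this
  exact hp.one_lt.ne (by rw [← h2]; exact (orderOf_eq_one_iff.2 this).symm)

end Cfsg.Agent.S3511
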