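import Cfsg.Statements.S3514
import Cfsg.Agent.Perm.NormalTrans
import Cfsg.Agent.Solv.Basic

set_option autoImplicit false
open Cfsg

namespace Cfsg.Agent.S3514

theorem aux {G α : Type*} [Group G] [Finite G] [MulAction G α] {H N : Subgroup G}
    (h : H ≤ Subgroup.normalizer (N : Set G)) (v : α) :
    Nat.card (MulAction.orbit ↥(N ⊔ H) v) ∣ Nat.card (MulAction.orbit H v) * Nat.card N := by
  have k : ∀ K : Subgroup G, Nat.card (MulAction.orbit K v) = (MulAction.stabilizer G v).relIndex K :=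
    fun K => (MulAction.index_stabilizer K v).symm
  have h1 : H.relIndex (H ⊔ N) ∣ Nat.card N := ⟨Nat.card ↥(H ⊓ N), by
    have := CF.Solv.card_sup_mul_card_inf_of_le_normalizer h
    rw [← CF.Solv.card_mul_relIndex (le_sup_left (a := H)), mul_assoc] at this
    exact (Nat.eq_of_mul_eq_mul_left Nat.card_pos this).symm⟩
  rw [k, k, sup_comm, ← Subgroup.inf_relIndex_right _ H]
  refine (Subgroup.relIndex_dvd_of_le_left _ (inf_le_left (b := H))).trans ?_
  rw [← Subgroup.relIndex_mul_relIndex _ H _ inf_le_right le_sup_left]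
  exact mul_dvd_mul_left _ h1

/-- Let p be a prime, V a finite vector space over the field with p elements, and H a group of linear transformations of V all of whose orbits on V have size coprime to p. (i) Every normal subgroup K of H has all its orbits on V of size coprime to p. (ii) If N is a group of linear transformations of V of order coprime to p that is normalized by H, then the group generated by N and H has all its orbits on V of size coprime to p. -/
theorem result (p : ℕ) [Fact p.Prime] {V : Type*} [AddCommGroup V] [Module (ZMod p) V] [Finite V]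
    (H : Subgroup (V ≃ₗ[ZMod p] V)) (hH : ∀ v : V, ¬ p ∣ Nat.card {u : V | ∃ h ∈ H, h v = u}) :
    (∀ K : Subgroup (V ≃ₗ[ZMod p] V), K ≤ H → H ≤ Subgroup.normalizer (K : Set (V ≃ₗ[ZMod p] V)) →
        ∀ v : V, ¬ p ∣ Nat.card {u : V | ∃ k ∈ K, k v = u}) ∧
    (∀ N : Subgroup (V ≃ₗ[ZMod p] V), ¬ p ∣ Nat.card N → H ≤ Subgroup.normalizer (N : Set (V ≃ₗ[ZMod p] V)) →
        ∀ v : V, ¬ p ∣ Nat.card {u : V | ∃ x ∈ N ⊔ H, x v = u}) := by
  have : Finite (V ≃ₗ[ZMod p] V) := Finite.of_injective _ LinearEquiv.toEquiv_injective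
  have k : ∀ (K : Subgroup (V ≃ₗ[ZMod p] V)) (v : V), {u : V | ∃ h ∈ K, h v = u} = MulAction.orbit K v :=
    fun K v => Set.ext fun u => ⟨fun ⟨h, h1, h2⟩ => ⟨⟨h, h1⟩, h2⟩, fun ⟨h, h2⟩ => ⟨h, h.2, h2⟩⟩
  simp only [k] at hH ⊢
  exact ⟨fun K h1 h2 v e => hH v (e.trans (CF.Perm.card_orbit_dvd_of_normalized H K h1
      (fun g hg m hm => (Subgroup.mem_normalizer_iff.1 (h2 hg) m).1 hm) v)),
    fun N h1 h2 v e => ((Fact.out : p.Prime).dvd_mul.1 (e.trans (aux h2 v))).elim (hH v) h1⟩

end Cfsg.Agent.S3514
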