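import Cfsg.Statements.S3515
import Cfsg.Agent.Recog.Closure
import Cfsg.Agent.Perm.PrimeDegree2

set_option autoImplicit false
open Cfsg

namespace Cfsg.Agent.S3515

theorem aux : ∀ x : Fin 2 → ZMod 2, x = 0 ∨ x = ![1, 0] ∨ x = ![0, 1] ∨ x = ![1, 1] := by decide

/-- Every primitive affine permutation group of degree p² is 3-closed. Let p be a prime and G a group of permutations of the plane V = F_p² consisting of affine maps x ↦ Ax + b, containing all translations, and acting primitively on V. Then any permutation σ of V that agrees on every triple of points with some element of G (σ preserves every G-orbit on ordered triples) already lies in G. -/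
theorem result (p : ℕ) [Fact p.Prime] (G : Subgroup (Equiv.Perm (Fin 2 → ZMod p)))
    (haff : (G : Set (Equiv.Perm (Fin 2 → ZMod p))) ⊆ {τ : Equiv.Perm (Fin 2 → ZMod p) | ∃ (A : (Fin 2 → ZMod p) ≃ₗ[ZMod p] (Fin 2 → ZMod p)) (b : Fin 2 → ZMod p), ∀ x, τ x = A x + b})
    (htrans : ∀ b : Fin 2 → ZMod p, ∃ g ∈ G, ∀ x, g x = x + b) (hprim : MulAction.IsPreprimitive G (Fin 2 → ZMod p))
    (σ : Equiv.Perm (Fin 2 → ZMod p)) (hσ : (∀ t : Fin 3 → (Fin 2 → ZMod p), ∃ g ∈ G, ∀ i, σ (t i) = g (t i))) : σ ∈ G := by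
  obtain ⟨g, hg, e⟩ := hσ ![0, ![1, 0], ![0, 1]]
  have e0 : σ 0 = g 0 := e 0
  have e1 : σ ![1, 0] = g ![1, 0] := e 1
  have e2 : σ ![0, 1] = g ![0, 1] := e 2
  refine (?_ : g = σ) ▸ hg
  by_cases hp : p = 2
  · subst hp
    rw [← inv_mul_eq_one, ← Equiv.Perm.card_support_le_one]
    refine (Finset.card_le_card fun x hx => ?_).trans (Finset.card_singleton ![1, 1]).le
    rcases aux x with rfl | rfl | rfl | h
    all_goals first | exact Finset.mem_singleton.2 h | simp [e0, e1, e2] at hx
  obtain ⟨A, b, h⟩ := CF.Recog.affine_of_triples (CF.Perm.two_ne_zero_zmod hp) σ fun t => by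
    obtain ⟨g, hg, e⟩ := hσ t
    obtain ⟨A, b, h⟩ := haff hg
    exact ⟨A, b, fun i => (e i).trans (h _)⟩
  obtain ⟨B, c, k⟩ := haff hg
  simp only [h, k, map_zero, zero_add] at e0 e1 e2
  subst e0
  ext1 x
  rw [h, k, show x = x 0 • ![1, 0] + x 1 • ![0, 1] by ext i; fin_cases i <;> simp, map_add, map_add,
    map_smul, map_smul, map_smul, map_smul, add_right_cancel e1, add_right_cancel e2]

end Cfsg.Agent.S3515
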