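import Cfsg.Statements.S3516
import Cfsg.Agent.Recog.Closure
import Cfsg.Agent.Perm.PrimeDegree2

set_option autoImplicit false
open Cfsg

namespace Cfsg.Agent.S3516

/-- Let p be an odd prime, d ≥ 3, and G a group of affine permutations x ↦ Ax + b of V = F_p^d containing all translations and all maps x ↦ Ax with A of determinant 1. Then the 3-closure of G is the full affine group: a permutation σ of V agrees on every triple of points with some element of G if and only if σ is an affine map. -/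
theorem result (p : ℕ) [Fact p.Prime] (hp : p ≠ 2) (d : ℕ) (hd : 3 ≤ d) (G : Subgroup (Equiv.Perm (Fin d → ZMod p)))
    (haff : (G : Set (Equiv.Perm (Fin d → ZMod p))) ⊆ {τ : Equiv.Perm (Fin d → ZMod p) | ∃ (A : (Fin d → ZMod p) ≃ₗ[ZMod p] (Fin d → ZMod p)) (b : Fin d → ZMod p), ∀ x, τ x = A x + b})
    (htrans : ∀ b : Fin d → ZMod p, ∃ g ∈ G, ∀ x, g x = x + b)
    (hsl : ∀ A : (Fin d → ZMod p) ≃ₗ[ZMod p] (Fin d → ZMod p), LinearMap.det (A : (Fin d → ZMod p) →ₗ[ZMod p] (Fin d → ZMod p)) = 1 → ∃ g ∈ G, ∀ x, g x = A x)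
    (σ : Equiv.Perm (Fin d → ZMod p)) :
    (∀ t : Fin 3 → (Fin d → ZMod p), ∃ g ∈ G, ∀ i, σ (t i) = g (t i)) ↔ σ ∈ {τ : Equiv.Perm (Fin d → ZMod p) | ∃ (A : (Fin d → ZMod p) ≃ₗ[ZMod p] (Fin d → ZMod p)) (b : Fin d → ZMod p), ∀ x, τ x = A x + b} := by
  refine ⟨fun hσ => CF.Recog.affine_of_triples (CF.Perm.two_ne_zero_zmod hp) σ fun t => ?_,
    fun ⟨A, b, h⟩ t => ?_⟩
  · obtain ⟨g, hg, e⟩ := hσ t
    obtain ⟨A, b, h⟩ := haff hg
    exact ⟨A, b, fun i => (e i).trans (h _)⟩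
  obtain ⟨B, h1, h2⟩ := CF.Recog.exists_det_one A
    (W := Submodule.span (ZMod p) (Set.range ![t 1 - t 0, t 2 - t 0])) fun e => by
      have := finrank_range_le_card (R := ZMod p) ![t 1 - t 0, t 2 - t 0]
      rw [Set.finrank, e] at this
      simp at this; omega
  obtain ⟨g, hg, e⟩ := hsl B h1
  obtain ⟨k, hk, f⟩ := htrans (σ (t 0) - B (t 0))
  refine ⟨_, G.mul_mem hk hg, fun i => ?_⟩
  have := h2 (t i - t 0) (by
    fin_cases i
    · simp
    · exact Submodule.subset_span ⟨0, rfl⟩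
    · exact Submodule.subset_span ⟨1, rfl⟩)
  rw [map_sub, map_sub] at this
  rw [Equiv.Perm.mul_apply, f, e, h, h]
  linear_combination (exp := 1) -this

end Cfsg.Agent.S3516
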