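import Cfsg.Statements.S3517
import Cfsg.Agent.Recog.Closure

set_option autoImplicit false
open Cfsg

namespace Cfsg.Agent.S3517

theorem aux {V : Type*} [AddCommGroup V] [Module (ZMod 2) V] [FiniteDimensional (ZMod 2) V]
    {u v u' v' : V} (h1 : u = 0 ↔ u' = 0) (h2 : v = 0 ↔ v' = 0) (h3 : u = v ↔ u' = v') :
    ∃ A : V ≃ₗ[ZMod 2] V, A u = u' ∧ A v = v' := by
  have one : ∀ {u u' : V}, (u = 0 ↔ u' = 0) → ∃ A : V ≃ₗ[ZMod 2] V, A u = u' := fun {u u'} h => by
    by_cases e : u = 0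
    · exact ⟨1, e.trans (h.1 e).symm⟩
    obtain ⟨A, k⟩ := CF.Recog.exists_equiv_of_li (F := ZMod 2) (x := fun _ : Unit => u)
      (y := fun _ => u') (linearIndependent_unique_iff.2 e) (linearIndependent_unique_iff.2 (mt h.2 e))
    exact ⟨A, k ()⟩
  have li : ∀ {u v : V}, u ≠ 0 → v ≠ 0 → u ≠ v → LinearIndependent (ZMod 2) ![u, v] :=
    fun {u v} a b c => (LinearIndependent.pair_iff' a).2 fun r => by
      fin_cases r
      · exact (zero_smul _ u).trans_ne b.symm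
      · exact (one_smul _ u).trans_ne c
  by_cases a : u = 0
  · obtain ⟨A, k⟩ := one h2
    exact ⟨A, by rw [a, h1.1 a, map_zero], k⟩
  obtain ⟨A, k⟩ := one h1
  by_cases b : v = 0
  · exact ⟨A, k, by rw [b, h2.1 b, map_zero]⟩
  by_cases c : u = v
  · exact ⟨A, k, c ▸ h3.1 c ▸ k⟩
  obtain ⟨A, k⟩ := CF.Recog.exists_equiv_of_li (li a b c) (li (mt h1.2 a) (mt h2.2 b) (mt h3.2 c))
  exact ⟨A, k 0, k 1⟩

/-- For d ≥ 3, the 3-closure of the affine group AGL_d(2) acting on F_2^d is the full symmetric group: every permutation of F_2^d agrees on every ordered triple of points with some affine map (AGL_d(2) is 3-transitive). -/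
theorem result (d : ℕ) (hd : 3 ≤ d) (σ : Equiv.Perm (Fin d → ZMod 2)) (t : Fin 3 → (Fin d → ZMod 2)) :
    ∃ (A : (Fin d → ZMod 2) ≃ₗ[ZMod 2] (Fin d → ZMod 2)) (b : Fin d → ZMod 2), ∀ i, σ (t i) = A (t i) + b := by
  obtain ⟨A, h1, h2⟩ := aux (u := t 1 - t 0) (v := t 2 - t 0) (u' := σ (t 1) - σ (t 0))
    (v' := σ (t 2) - σ (t 0)) (by simp [sub_eq_zero]) (by simp [sub_eq_zero]) (by simp)
  refine ⟨A, σ (t 0) - A (t 0), fun i => ?_⟩
  rw [map_sub] at h1 h2
  fin_cases i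
  · simp
  · change σ (t 1) = A (t 1) + _
    linear_combination (exp := 1) -h1
  · change σ (t 2) = A (t 2) + _
    linear_combination (exp := 1) -h2

end Cfsg.Agent.S3517
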