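import Cfsg.Statements.S3518
import Cfsg.Agent.Perm.PrimeDegree
import Cfsg.Agent.Recog.Closure

set_option autoImplicit false
open Cfsg

namespace Cfsg.Agent.S3518

theorem ext {p : ℕ} {σ τ : Equiv.Perm (ZMod p)} (h : σ ∈ Cfsg.affineGroup (ZMod p))
    (h' : τ ∈ Cfsg.affineGroup (ZMod p)) (e : ∀ i : Fin 2, σ (![0, 1] i) = τ (![0, 1] i)) : σ = τ := by
  obtain ⟨a, b, h⟩ := h
  obtain ⟨c, d, h'⟩ := h'
  have h0 : b = d := by simpa [h, h'] using e 0
  have h1 : (a : ZMod p) = c := by simpa [h, h', h0] using e 1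
  ext x
  rw [h, h', h0, h1]

theorem aff {p : ℕ} [Fact p.Prime] {a : ZMod p} (ha : a ≠ 0) (b : ZMod p) :
    ∃ g ∈ Cfsg.affineGroup (ZMod p), ∀ x, g x = a * x + b :=
  ⟨(Equiv.mulLeft₀ a ha).trans (Equiv.addRight b), ⟨Units.mk0 a ha, b, fun _ => rfl⟩, fun _ => rfl⟩

/-- Closures of subgroups of the one-dimensional affine group. Let p be a prime and G a group of permutations of F_p lying in the affine group AGL₁(p) = {x ↦ ax + b, a ≠ 0} and containing all translations. (1) If G is a proper subgroup of AGL₁(p), then G is 2-closed: a permutation of F_p agreeing on every ordered pair of points with some element of G lies in G. (2) Every permutation of F_p agrees on every ordered pair with some element of AGL₁(p) (the 2-closure of AGL₁(p) is the symmetric group). (3) AGL₁(p) is 3-closed: a permutation agreeing on every ordered triple with some affine map is affine. -/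
theorem result (p : ℕ) [Fact p.Prime] (G : Subgroup (Equiv.Perm (ZMod p))) (hG : G ≤ Cfsg.affineGroup (ZMod p))
    (htrans : ∀ b : ZMod p, ∃ g ∈ G, ∀ x, g x = x + b) :
    (G ≠ Cfsg.affineGroup (ZMod p) → ∀ σ : Equiv.Perm (ZMod p), (∀ t : Fin 2 → ZMod p, ∃ g ∈ G, ∀ i, σ (t i) = g (t i)) → σ ∈ G) ∧
    (∀ σ : Equiv.Perm (ZMod p), (∀ t : Fin 2 → ZMod p, ∃ g ∈ Cfsg.affineGroup (ZMod p), ∀ i, σ (t i) = g (t i))) ∧
    (∀ σ : Equiv.Perm (ZMod p), (∀ t : Fin 3 → ZMod p, ∃ g ∈ Cfsg.affineGroup (ZMod p), ∀ i, σ (t i) = g (t i)) → σ ∈ Cfsg.affineGroup (ZMod p)) := by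
  refine ⟨fun h σ hσ => ?_, fun σ t => ?_, fun σ hσ => CF.Recog.mem_of_base _ ![0, 1]
    (fun g hg h => ext hg (one_mem _) h) σ hσ⟩
  · let X : Subgroup (Equiv.Perm (ZMod p)) :=
      { carrier := {σ | ∀ t : Fin 2 → ZMod p, ∃ g ∈ G, ∀ i, σ (t i) = g (t i)}
        one_mem' := fun t => ⟨1, one_mem _, fun _ => rfl⟩
        mul_mem' := fun {x y} hx hy t => by
          obtain ⟨g, hg, h1⟩ := hy t
          obtain ⟨k, hk, h2⟩ := hx (y ∘ t)
          exact ⟨k * g, mul_mem hk hg, fun i => (h2 i).trans (congrArg k (h1 i))⟩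
        inv_mem' := fun {x} hx t => by
          obtain ⟨g, hg, h1⟩ := hx (⇑x⁻¹ ∘ t)
          exact ⟨g⁻¹, inv_mem hg, fun i => by simpa [Equiv.eq_symm_apply g, eq_comm] using h1 i⟩ }
    have h1 : G ≤ X := fun g hg t => ⟨g, hg, fun _ => rfl⟩
    have : MulAction.IsPretransitive X (ZMod p) := ⟨fun a b => by
      obtain ⟨g, hg, h⟩ := htrans (b - a)
      exact ⟨⟨g, h1 hg⟩, (h a).trans (by ring)⟩⟩
    obtain ⟨t, ht, h2⟩ := htrans 1
    by_cases h3 : CF.Perm.ActsAffinely X (Equiv.refl (ZMod p))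
    · obtain ⟨a, b, h4⟩ := h3 ⟨σ, hσ⟩
      obtain ⟨g, hg, h5⟩ := hσ ![0, 1]
      have ha : a ≠ 0 := by
        rintro rfl
        exact zero_ne_one (σ.injective ((h4 0).trans ((h4 1).trans (by simp)).symm))
      exact ext (σ := σ) ⟨Units.mk0 a ha, b, h4⟩ (hG hg) h5 ▸ hg
    · refine (h (le_antisymm hG fun τ hτ => ?_)).elim
      obtain ⟨x, h4, h5⟩ := CF.Perm.twoTrans_iff.1 (CF.Perm.twoTrans_of_not_affine (ZMod.card p)
        (t := ⟨t, h1 ht⟩) h2 h3) 0 1 (τ 0) (τ 1) zero_ne_one (τ.injective.ne zero_ne_one)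
      obtain ⟨g, hg, h6⟩ := x.2 ![0, 1]
      exact ext (hG hg) hτ (Fin.forall_fin_two.2 ⟨(h6 0).symm.trans h4, (h6 1).symm.trans h5⟩) ▸ hg
  · by_cases h : t 0 = t 1
    · obtain ⟨g, hg, h1⟩ := aff one_ne_zero (σ (t 0) - t 0)
      exact ⟨g, hg, Fin.forall_fin_two.2 (by simp [h1, h])⟩
    · have := sub_ne_zero.2 h
      obtain ⟨g, hg, h1⟩ := aff (div_ne_zero (sub_ne_zero.2 (σ.injective.ne h)) this)
        (σ (t 0) - (σ (t 0) - σ (t 1)) / (t 0 - t 1) * t 0)
      exact ⟨g, hg, Fin.forall_fin_two.2 (by simp only [h1]; constructor <;> field_simp <;> ring)⟩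

end Cfsg.Agent.S3518
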