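import Cfsg.Statements.S3521
import Cfsg.Agent.Perm.ONS2
import Cfsg.Agent.Fgs1.FPF2

set_option autoImplicit false
open Cfsg

namespace Cfsg.Agent.S3521

open CF.Perm Subgroup MulAction CF.Solv
open scoped IsMulCommutative Pointwise

section
variable {H V : Type*} [Group H] [Finite H] [CommGroup V] [Finite V] [MulDistribMulAction H V]
  {N T T' : Subgroup H}

def fixV (g : H) : Subgroup V := (MulDistribMulAction.toMonoidHom V g).eqLocus (MonoidHom.id V)

def Inv (C : Subgroup H) (L : Subgroup V) : Prop := ∀ c ∈ C, ∀ v ∈ L, c • v ∈ L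

omit [Finite V] in
theorem fix_or (hM : ∀ w : V, w ≠ 1 → MaxCF (stabilizer H w))
    (hi : ∀ w : V, w ≠ 1 → ∀ L : Subgroup V, (∀ h : H, h • w ∈ L) → L = ⊤)
    (hT : Soc N T) (hT' : Soc N T') (hc : T' ≤ centralizer (T : Set H)) {L : Subgroup V}
    (hL : Inv (N ⊓ centralizer (T : Set H)) L) {u : H} (hu : u ∈ T) (h2 : orderOf u = 2) :
    L ≤ fixV u ∨ ∀ v : V, ∃ x ∈ L, ∃ y ∈ L, x * u • y = v := by
  have := hT.min.1
  let L' := L ⊔ L.map (MulDistribMulAction.toMonoidHom V u)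
  refine or_iff_not_imp_right.2 fun h b hb => ?_
  have h1 : L' ≠ ⊤ := fun e => h fun v => by
    obtain ⟨x, hx, _, ⟨y, hy, rfl⟩, e'⟩ := mem_sup.1 (e.ge (mem_top v))
    exact ⟨x, hx, y, hy, e'⟩
  by_contra h3
  refine hT'.not_le (hM (b⁻¹ * u • b) fun e => h3 (inv_mul_eq_one.1 e).symm)
    (hT'.le_of_invol fun s hs h4 => ?_)
  have h5 : s ∈ N ⊓ centralizer (T : Set H) := mem_inf.2 ⟨hT'.le hs, hc hs⟩
  have h6 : Commute u s := hc hs u hu
  have h7 : u * u = 1 := by rw [← sq, ← h2, pow_orderOf_eq_one]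
  have h8 : (u * s) • (b * u • s • b) = b * u • s • b := by
    rw [smul_mul', ← mul_smul u s b, smul_smul, ← sq, h6.mul_pow, ← h2, pow_orderOf_eq_one, h2,
      ← h4, pow_orderOf_eq_one, one_mul, one_smul, mul_comm]
  have h9 : u • (b * u • s • b) = b * u • s • b := by
    by_cases e : b * u • s • b = 1
    · rw [e, smul_one]
    refine (hT.projS_eq_or (hM _ e) le_rfl).resolve_left (fun e' => h1 (hi _ e _ fun g => ?_))
      ⟨hu, s, h5.1, h5.2, h8⟩
    obtain ⟨n, hn, a, ha, rfl⟩ := (hM _ e).decomp_normal hT.min.2.1 g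
    obtain ⟨t, ht, c, c1, c2, rfl⟩ := hT.decomp hn
    obtain ⟨-, d, d1, d2, d3⟩ := e'.ge ht
    have h10 : c * d⁻¹ ∈ N ⊓ centralizer (T : Set H) :=
      mem_inf.2 ⟨mul_mem c1 (inv_mem d1), mul_mem c2 (inv_mem d2)⟩
    rw [mul_smul, ha, c2 t ht, show c * t = c * d⁻¹ * (t * d) by rw [d2 t ht]; group, mul_smul, d3,
      smul_mul', smul_smul, ← h10.2 u hu, mul_smul u]
    exact mul_mem (mem_sup_left (hL _ h10 b hb)) (mem_sup_right ⟨_, hL _ h10 _ (hL s h5 b hb), rfl⟩)
  rw [smul_mul', smul_smul u u, h7, one_smul] at h9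
  rw [mem_stabilizer_iff, smul_mul', smul_inv', smul_smul, ← h6.eq, mul_smul, inv_mul_eq_iff_eq_mul,
    mul_left_comm, eq_inv_mul_iff_mul_eq, ← h9, mul_comm]

theorem normal_of (hM : ∀ w : V, w ≠ 1 → MaxCF (stabilizer H w))
    (hi : ∀ w : V, w ≠ 1 → ∀ L : Subgroup V, (∀ h : H, h • w ∈ L) → L = ⊤)
    (h2 : ∀ t : H, orderOf t = 2 → ∃ w : V, w ≠ 1 ∧ t • w = w) (hT : Soc N T) :
    T.Normal ∧ centralizer (T : Set H) = ⊥ := by
  have := hT.min.1
  obtain ⟨u, hu, h1⟩ := hT.exists_invol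
  obtain ⟨w, hw, h3⟩ := h2 u h1
  have h4 : T ⊓ stabilizer H w ≠ ⊥ := fun e => by
    simp [show u = 1 from e.le (mem_inf.2 ⟨hu, h3⟩)] at h1
  suffices h : T.Normal from ⟨h, by_contra fun e =>
    h4 (hT.inf_eq_bot (hM w hw) (hT.projS_eq_of_normal (hM w hw) e))⟩
  refine normalizer_eq_top_iff.1 (eq_top_iff.2 fun g _ => by_contra fun hg => ?_)
  have hc := (hT.eq_or_le (hT.conj g)).resolve_left fun e =>
    hg (CF.Sig.map_conj_eq_iff_mem_normalizer.1 e)
  have h5 : ∀ r ∈ T, Inv (N ⊓ centralizer (T : Set H)) (fixV r : Subgroup V) := fun r hr c h v hv =>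
    show r • c • v = c • v by rw [smul_smul, h.2 r hr, mul_smul, show r • v = v from hv]
  have h6 : ∀ r ∈ T ⊓ stabilizer H w, ∀ r' ∈ T ⊓ stabilizer H w, r' ≠ 1 →
      (fixV r' : Subgroup V) ≤ fixV r := fun r hr r' hr' e => by
    obtain ⟨L, hL, h7⟩ := Set.Finite.exists_le_minimal (Set.toFinite
      {L : Subgroup V | L ≠ ⊥ ∧ Inv (N ⊓ centralizer (T : Set H)) L}) (a := fixV r ⊓ fixV r')
      ⟨fun e => hw (e.le (mem_inf.2 ⟨hr.2, hr'.2⟩)), fun c hc v hv =>
        mem_inf.2 ⟨h5 r hr.1 c hc v hv.1, h5 r' hr'.1 c hc v hv.2⟩⟩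
    obtain ⟨⟨b, hb⟩, h8⟩ := ne_bot_iff_exists_ne_one.1 h7.1.1
    obtain ⟨s, hs, h9, h10⟩ : ∃ s ∈ T, orderOf s = 2 ∧ s ∉ stabilizer H b := by
      by_contra! h
      exact hT.not_le (hM b fun e => h8 (Subtype.ext e)) (hT.le_of_invol h)
    have h11 := (fix_or hM hi hT (hT.conj g) hc h7.1.2 hs h9).resolve_left fun e => h10 (e hb)
    let L' := L ⊓ (fixV r').comap (MulDistribMulAction.toMonoidHom V s)
    by_cases h12 : L' = ⊥
    · intro v hv
      obtain ⟨x, hx, y, hy, rfl⟩ := h11 v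
      rw [show y = 1 from h12.le (mem_inf.2 ⟨hy, (mul_mem_cancel_left (mem_inf.1 (hL hx)).2).1 hv⟩), smul_one,
        mul_one]
      exact (hL hx).1
    have h13 := h7.2 (y := L') ⟨h12, fun c hc v hv => mem_inf.2 ⟨h7.1.2 c hc v hv.1, by
      change s • c • v ∈ fixV r'
      rw [smul_smul, hc.2 s hs, mul_smul]
      exact h5 r' hr'.1 c hc _ hv.2⟩⟩ inf_le_left
    refine (e (((hM w hw).core (toPermHom H V).ker inferInstance fun x hx =>
      DFunLike.congr_fun hx w).le (Equiv.ext fun v => ?_))).elim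
    obtain ⟨x, hx, y, hy, rfl⟩ := h11 v
    exact (fixV r').mul_mem (hL hx).2 (h13 hy).2
  have h7 := (hT.projS_eq_or (hM w hw) le_rfl).resolve_left fun e =>
    h4 (hT.inf_eq_bot (hM w hw) e)
  refine hT.not_le (hM w hw) ((not_frobenius_of_simple hT.simple inf_le_left h4
    fun k hk x hx h8 h9 => mem_inf.2 ⟨hk, hT.inf_normalizer_le (hM w hw) h7 h4 (mem_inf.2 ⟨hk,
      mem_normalizer_fintype fun r hr => mem_inf.2 ⟨T.mul_mem (T.mul_mem hk hr.1) (T.inv_mem hk),
        ?_⟩⟩)⟩).trans inf_le_right)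
  have h10 : r • k⁻¹ • w = k⁻¹ • w := h6 r hr x hx h8 (show x • k⁻¹ • w = k⁻¹ • w by
    rw [eq_inv_smul_iff, smul_smul, smul_smul]; exact h9.2)
  rw [mem_stabilizer_iff, mul_smul, mul_smul, h10, smul_inv_smul]

end

/-- Let a finite group G that is not solvable act faithfully and primitively on a finite set with p ^ d points (p prime), with a non-trivial abelian normal subgroup acting regularly (affine type) and with non-trivial point stabilizers each acting primitively on every one of its orbits (an insoluble extremely primitive group of affine type). Then p = 2; and if moreover G is not 2-transitive, then a point stabilizer is almost simple (it has a non-abelian simple normal subgroup with trivial centralizer). -/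
theorem result {G : Type*} [Group G] [Finite G] {Ω : Type*} [Fintype Ω] [MulAction G Ω] [FaithfulSMul G Ω] (p d : ℕ) (hp : p.Prime) (hcard : Fintype.card Ω = p ^ d) (hsol : ¬ Group.IsSolvable G)
    (N : Subgroup G) [N.Normal] (hN : N ≠ ⊥) (hNc : IsMulCommutative N) (hNreg : ∀ ω : Ω, MulAction.stabilizer N ω = ⊥)
    (hprim : MulAction.IsPreprimitive G Ω) (hH : ∀ α : Ω, MulAction.stabilizer G α ≠ ⊥) (hep : ∀ (α : Ω) (ω : Ω), MulAction.IsPreprimitive (MulAction.stabilizer G α) (MulAction.orbit (MulAction.stabilizer G α) ω)) (α : Ω) :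
    p = 2 ∧ (¬ MulAction.IsMultiplyPretransitive G Ω 2 → ∃ T : Subgroup (MulAction.stabilizer G α), T.Normal ∧ IsSimpleGroup T ∧ ¬ IsMulCommutative T ∧ Subgroup.centralizer (T : Set (MulAction.stabilizer G α)) = ⊥) := by
  have := (nontrivial_iff_ne_bot N).2 hN
  have h0 : ∀ n ∈ N, n • α = α → n = 1 := (stabilizer_subgroup_eq_bot_iff N α).1 (hNreg α)
  obtain ⟨n0, hn0⟩ := exists_ne (1 : N)
  have : Nontrivial Ω := ⟨_, _, fun e => hn0 (Subtype.ext (h0 n0 n0.2 e))⟩
  have hA := maxCF_stabilizer (G := G) α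
  have := normal_isPretransitive_of_ne_bot hprim N hN
  let _ := MulDistribMulAction.compHom N
    ((MulAut.conjNormal (H := N)).comp (stabilizer G α).subtype)
  have h1 : ∀ (h : stabilizer G α) (n : N), ((h • n : N) : G) = h * n * h⁻¹ := fun _ _ => rfl
  have h2 : ∀ (h : stabilizer G α) (n : N), ((h • n : N) : G) • α = h • (n : G) • α := fun h n => by
    rw [h1, mul_smul, mul_smul, show ((h⁻¹ : stabilizer G α) : G) • α = α from h⁻¹.2]; rfl
  have hi : ∀ w : N, w ≠ 1 → ∀ L : Subgroup N, (∀ h : stabilizer G α, h • w ∈ L) → L = ⊤ := by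
    refine fun w hw L h => eq_top_iff.2 fun n _ => ?_
    obtain ⟨m, hm, a, ha, e⟩ := hA.decomp_normal (M := normalClosure {(w : G)})
      (fun e => hw (Subtype.ext (e.le (subset_normalClosure rfl)))) n
    obtain ⟨m, h3, rfl⟩ := (closure_le (L.map N.subtype)).2 (fun x hx => by
      obtain ⟨_, rfl, e⟩ := Group.mem_conjugatesOfSet_iff.1 hx
      obtain ⟨g, rfl⟩ := isConj_iff.1 e
      obtain ⟨n, hn, a, ha, rfl⟩ := hA.decomp_normal hN g
      refine ⟨_, h ⟨a, ha⟩, ?_⟩
      have := congrArg Subtype.val (mul_comm (⟨n, hn⟩ : N) ((⟨a, ha⟩ : stabilizer G α) • w))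
      simp only [coe_mul, h1, coe_inv, ← mul_assoc] at this
      simp [h1, ← mul_assoc, this]) hm
    rw [h0 a ((mul_mem_cancel_left m.2).1 (e ▸ n.2)) ha, mul_one, coe_subtype, Subtype.val_inj] at e
    exact e ▸ h3
  have h3 : ∀ h : stabilizer G α, (∀ n : N, h • n = n) → h = 1 := fun h e =>
    Subtype.ext (eq_of_smul_eq_smul (α := Ω) fun x => by
      obtain ⟨n, rfl⟩ := exists_smul_eq N α x
      exact ((h2 h n).symm.trans (by rw [e]; rfl)).symm.symm.trans (one_smul G _).symm)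
  have hM : ∀ w : N, w ≠ 1 → MaxCF (stabilizer (stabilizer G α) w) := fun w hw => by
    have h4 : ∀ M : Subgroup (stabilizer G α), M.Normal → M ≤ stabilizer _ w → M = ⊥ :=
      fun M hM e => eq_bot_iff.2 fun m hm => h3 m fun n => (hi w hw (fixV m) fun h => by
        change m • h • w = h • w
        rw [← inv_smul_eq_iff, smul_smul, smul_smul]
        simpa using mem_stabilizer_iff.1 (e (hM.conj_mem m hm h⁻¹))).ge (mem_top n)
    have h5 : stabilizer (stabilizer G α) (⟨_, mem_orbit_self _⟩ :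
        orbit (stabilizer G α) ((w : G) • α)) = stabilizer _ w := Subgroup.ext fun h => by
      refine Subtype.ext_iff.trans ⟨fun e => Subtype.ext (eq_of_inv_mul_eq_one (h0 _
        ((h • w)⁻¹ * w).2 ?_)), fun e => (h2 h w).symm.trans (by rw [e])⟩
      rw [mul_smul, inv_smul_eq_iff, h2]
      exact e.symm
    refine ⟨?_, h4⟩
    rcases subsingleton_or_nontrivial (orbit (stabilizer G α) ((w : G) • α)) with h | h
    · exact (hH α ((eq_bot_iff_forall _).2 fun x hx => congrArg Subtype.val ((h4 ⊤ inferInstance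
        fun g _ => h5.le (h.elim _ _)).le (mem_top (⟨x, hx⟩ : stabilizer G α))))).elim
    · have := hep α ((w : G) • α)
      exact h5 ▸ IsPreprimitive.isCoatom_stabilizer_of_isPreprimitive _ _
  have h6 : ∀ t : stabilizer G α, orderOf t = 2 → ∃ w : N, w ≠ 1 ∧ t • w = w⁻¹ := fun t ht => by
    obtain ⟨n, hn⟩ := not_forall.1 fun e => by simp [h3 t e] at ht
    refine ⟨n⁻¹ * t • n, fun e => hn (inv_mul_eq_one.1 e).symm, ?_⟩
    rw [smul_mul', smul_inv', smul_smul, ← sq, ← ht, pow_orderOf_eq_one, one_smul, mul_inv_rev,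
      inv_inv]
  have h7 : ¬ Group.IsSolvable (stabilizer G α) := fun h => hsol
    ((Group.isSolvable_iff_subgroup_quotient N).2 ⟨inferInstance, Group.isSolvable_of_surjective
      (f := (QuotientGroup.mk' N).comp (stabilizer G α).subtype) fun q => by
        obtain ⟨g, rfl⟩ := QuotientGroup.mk_surjective q
        obtain ⟨n, hn, a, ha, e⟩ := hA.decomp_normal hN g⁻¹
        exact ⟨⟨a⁻¹, inv_mem ha⟩, QuotientGroup.eq.2 (by
          simpa [inv_eq_iff_eq_inv.1 e.symm] using hn)⟩⟩)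
  obtain ⟨t, ht⟩ := exists_prime_orderOf_dvd_card' (G := stabilizer G α) 2 (even_iff_two_dvd.1
    (Nat.not_odd_iff_even.1 fun e => h7 (CF.Hyp.isSolvable_of_odd e)))
  obtain ⟨w, hw, h8⟩ := h6 t ht
  have h9 : w ^ 2 = 1 := by
    by_contra h
    have h10 := (hM w hw).coatom.2 (stabilizer _ (zpowers w)) (lt_of_le_of_ne (fun g hg =>
      (MonoidHom.map_zpowers _ w).trans (congrArg zpowers hg)) fun e => h (by
        rw [sq, mul_eq_one_iff_eq_inv, ← h8, eq_comm]
        exact e.ge (((MonoidHom.map_zpowers _ w).trans (congrArg zpowers h8)).trans zpowers_inv)))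
    have : IsCyclic N := ⟨w, fun x => (hi w hw (zpowers w) fun g =>
      (h10.ge (mem_top g)).le (smul_mem_pointwise_smul w g _ (mem_zpowers w))).ge (mem_top x)⟩
    exact hsol (hA.isSolvable hN)
  refine ⟨((Nat.prime_dvd_prime_iff_eq Nat.prime_two hp).1 (Nat.prime_two.dvd_of_dvd_pow (n := d)
    ?_)).symm, fun _ => ?_⟩
  · rw [← hcard, ← Nat.card_eq_fintype_card, ← card_eq_of_regular N α (hNreg α),
      ← orderOf_eq_prime h9 hw]
    exact orderOf_dvd_natCard w
  have := (nontrivial_iff_ne_bot _).2 (hH α)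
  obtain ⟨M, hM'⟩ := exists_isMinNormal (G := stabilizer G α)
  have := hM'.1
  obtain ⟨T, hT⟩ := exists_soc hM' fun h => by
    have := isCyclic_of_surjective _ (topEquiv (G := M)).surjective (hH := (CF.Fgs1.Fpf.fpf_of_mulAut
      ((MulDistribMulAction.toMulAut _ N).comp M.subtype) fun g hg v e => by_contra fun hv =>
        hg (Subtype.ext (((hM v hv).inf_eq_bot hM'.2.1 (le_centralizer M)).le
          (mem_inf.2 ⟨g.2, e⟩)))).isCyclic_of_comm ⊤)
    exact h7 ((hM w hw).isSolvable hM'.2.1)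
  have h10 := normal_of hM hi (fun t ht => (h6 t ht).imp fun v hv => ⟨hv.1, hv.2.trans
    (inv_eq_of_mul_eq_one_right ((sq v).symm.trans ((hi w hw (powMonoidHom 2 : N →* N).ker fun h =>
      (smul_pow' h w 2).symm.trans (by rw [h9, smul_one])).ge (mem_top v))))⟩) hT
  exact ⟨T, h10.1, hT.simple, hT.ncomm, h10.2⟩

end Cfsg.Agent.S3521
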