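import Cfsg.Statements.S3547
import Cfsg.Agent.Recog.Derang

set_option autoImplicit false
open Cfsg

namespace Cfsg.Agent.S3547

/-- Let G act faithfully and transitively on a finite set Ω, let D be the subgroup generated by the derangements, and let r_G and r_D be the numbers of orbits of G and of D on ordered pairs of points (the permutation ranks). Then r_D − 1 = (r_G − 1)·[G : D]. -/
theorem result {G Ω : Type*} [Group G] [Finite G] [MulAction G Ω] [FaithfulSMul G Ω] [Finite Ω]
    (htrans : MulAction.IsPretransitive G Ω) :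
    Nat.card (MulAction.orbitRel.Quotient ↥(Subgroup.closure {g : G | ∀ ω : Ω, g • ω ≠ ω}) (Ω × Ω)) - 1 =
      (Nat.card (MulAction.orbitRel.Quotient G (Ω × Ω)) - 1) * (Subgroup.closure {g : G | ∀ ω : Ω, g • ω ≠ ω}).index := by
  classical
  have := Fintype.ofFinite G
  rcases isEmpty_or_nonempty Ω with h | h
  · simp [Nat.card_of_isEmpty]
  have a := CF.Recog.sum_fix (G := G) (Ω := Ω × Ω)
  rw [← Finset.sum_filter_add_sum_filter_not _ (· ∈ CF.Recog.der G Ω), CF.Recog.sum_fix_subgroup,
    Finset.sum_congr rfl fun g hg => show _ = 1 by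
      rw [CF.Recog.card_fixedBy_prod, CF.Recog.der_spec.2 g (Finset.mem_filter.1 hg).2],
    ← Finset.card_eq_sum_ones] at a
  have b := CF.Recog.card_filter_notMem (CF.Recog.der G Ω)
  have c := (CF.Recog.der G Ω).card_mul_index
  obtain ⟨r, hr⟩ := Nat.exists_eq_succ_of_ne_zero
    (Nat.card_pos (α := MulAction.orbitRel.Quotient G (Ω × Ω))).ne'
  obtain ⟨s, hs⟩ := Nat.exists_eq_succ_of_ne_zero
    (Nat.card_pos (α := MulAction.orbitRel.Quotient (CF.Recog.der G Ω) (Ω × Ω))).ne'
  rw [hr, hs] at a ⊢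
  refine mul_right_cancel₀ (Nat.card_pos (α := CF.Recog.der G Ω)).ne' ?_
  simp only [Nat.succ_eq_add_one, Nat.add_sub_cancel] at a ⊢
  rw [mul_assoc, mul_comm (Subgroup.index _), c]
  linarith

end Cfsg.Agent.S3547
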