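import Cfsg.Statements.S3548
import Cfsg.Agent.Recog.Derang

set_option autoImplicit false
open Cfsg

namespace Cfsg.Agent.S3548

/-- Let G act faithfully and transitively on a finite set with n ≥ 2 points and let D be the subgroup generated by the derangements. Then the index of D in G divides n − 1, and if it equals n − 1 then n is a prime power. -/
theorem result {G Ω : Type*} [Group G] [Finite G] [MulAction G Ω] [FaithfulSMul G Ω] [Finite Ω]
    (htrans : MulAction.IsPretransitive G Ω) (hΩ : 2 ≤ Nat.card Ω) :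
    (Subgroup.closure {g : G | ∀ ω : Ω, g • ω ≠ ω}).index ∣ Nat.card Ω - 1 ∧
    ((Subgroup.closure {g : G | ∀ ω : Ω, g • ω ≠ ω}).index = Nat.card Ω - 1 → IsPrimePow (Nat.card Ω)) := by
  have : Nontrivial Ω := Finite.one_lt_card_iff_nontrivial.1 hΩ
  refine ⟨CF.Recog.index_der_dvd, fun h => ?_⟩
  obtain ⟨a⟩ : Nonempty Ω := inferInstance
  have t := (CF.Recog.der_spec (G := G) (Ω := Ω)).1
  have k : ∀ b, b ≠ a → MulAction.orbit (MulAction.stabilizer G a) b = {a}ᶜ ∧
      CF.Recog.der G Ω ⊓ MulAction.stabilizer G a ≤ MulAction.stabilizer G b := fun b hb => by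
    have e := CF.Recog.card_orbit_eq_index_mul (G := G) hb
    have s : MulAction.orbit (MulAction.stabilizer G a) b ⊆ {a}ᶜ := by
      rintro _ ⟨g, rfl⟩ e
      exact hb (MulAction.injective (g : G) (Eq.trans e g.2.symm))
    have l := Set.ncard_le_ncard s
    have p : 0 < Nat.card (MulAction.orbit (MulAction.stabilizer G a) b) :=
      Nat.card_pos_iff.2 ⟨⟨b, MulAction.mem_orbit_self b⟩, inferInstance⟩
    rw [Set.ncard_compl, Set.ncard_singleton, ← h, ← Nat.card_coe_set_eq, e] at l
    rw [e] at p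
    have o : (MulAction.stabilizer G b).relIndex (CF.Recog.der G Ω ⊓ MulAction.stabilizer G a) = 1 := by
      have := Nat.pos_of_mul_pos_left p
      have := Nat.pos_of_mul_pos_right p
      nlinarith
    exact ⟨Set.eq_of_subset_of_ncard_le s (by
      rw [Set.ncard_compl, Set.ncard_singleton, ← h, ← Nat.card_coe_set_eq, e, o, one_mul]),
      Subgroup.relIndex_eq_one.1 o⟩
  have r : MulAction.stabilizer (CF.Recog.der G Ω) a = ⊥ :=
    (CF.Perm.stabilizer_subgroup_eq_bot_iff _ a).2 fun g hg e => CF.Recog.eq_one_of_smul_eq fun b : Ω =>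
      (eq_or_ne b a).elim (· ▸ e) fun hb => (k b hb).2 ⟨hg, e⟩
  have c := CF.Perm.card_eq_of_regular _ a r
  obtain ⟨p, hp, h1, -⟩ := CF.Perm.elementaryAbelian_of_regular_normal
    (CF.Perm.twoTrans_of_stabilizer a fun b c hb hc => CF.Recog.mem_orbit_stab.1 ((k b hb).1.ge hc))
    (CF.Recog.der G Ω) (fun e => by rw [e, Subgroup.card_bot] at c; omega) a r
  have := Fact.mk hp
  obtain ⟨n, hn⟩ := (CF.Solv.isPGroup_of_forall_pow_eq_one h1).exists_card_eq
  rw [← c, hn] at hΩ ⊢
  exact hp.isPrimePow.pow (by rintro rfl; simp at hΩ)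

end Cfsg.Agent.S3548
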