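import Cfsg.Statements.S3549
import Cfsg.Agent.Recog.Derang

set_option autoImplicit false
open Cfsg

namespace Cfsg.Agent.S3549

/-- Let G act faithfully, transitively but imprimitively on a finite set with n points, and let D be the subgroup generated by the derangements. Then the index of D in G is at most √n − 1. -/
theorem result {G Ω : Type*} [Group G] [Finite G] [MulAction G Ω] [FaithfulSMul G Ω] [Finite Ω]
    (htrans : MulAction.IsPretransitive G Ω) (himp : ¬ MulAction.IsPreprimitive G Ω) :
    ((Subgroup.closure {g : G | ∀ ω : Ω, g • ω ≠ ω}).index : ℝ) ≤ Real.sqrt (Nat.card Ω) - 1 := by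
  have : Nontrivial Ω := by
    by_contra h
    have := not_nontrivial_iff_subsingleton.1 h
    exact himp .of_subsingleton
  obtain ⟨a⟩ : Nonempty Ω := inferInstance
  obtain ⟨H, h1, h2⟩ : ∃ H, MulAction.stabilizer G a < H ∧ H ≠ ⊤ := by
    by_contra! h
    refine himp ((MulAction.isCoatom_stabilizer_iff_preprimitive G a).1 ⟨fun e => ?_, h⟩)
    obtain ⟨b, hb⟩ := exists_ne a
    obtain ⟨g, rfl⟩ := MulAction.exists_smul_eq G a b
    exact hb (e.ge (Subgroup.mem_top g))
  have d1 : (CF.Recog.der G Ω).index ∣ H.index - 1 :=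
    (Subgroup.index_dvd_of_le (Subgroup.closure_mono fun g hg ω e => by
      obtain ⟨x, rfl⟩ := MulAction.exists_smul_eq G a ω
      refine hg (x : G ⧸ H) ?_
      rw [MulAction.Quotient.smul_coe, eq_comm, QuotientGroup.eq, smul_eq_mul, ← mul_assoc]
      exact h1.le (CF.Recog.mem_stab_smul.1 e))).trans (CF.Recog.index_der_dvd (Ω := G ⧸ H))
  have d2 : (CF.Recog.der G Ω).index ∣ (MulAction.stabilizer G a).relIndex H - 1 := by
    have := CF.Classical.dvd_ncard_of_orbits (H := MulAction.stabilizer G a) (MulAction.orbit H a \ {a})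
      (Set.toFinite _) (by
        rintro g _ ⟨⟨x, rfl⟩, hx⟩
        exact ⟨⟨⟨g, h1.le g.2⟩ * x, mul_smul _ _ _⟩,
          fun e => hx (MulAction.injective (g : G) (Eq.trans e g.2.symm))⟩) _
      fun b hb => (dvd_mul_left _ _).trans (CF.Recog.card_orbit_eq_index_mul (G := G) hb.2).symm.dvd
    rwa [Set.ncard_diff_singleton_of_mem (MulAction.mem_orbit_self a), ← Nat.card_coe_set_eq,
      CF.Perm.card_orbit_subgroup] at this
  have e := Subgroup.relIndex_mul_index h1.le
  rw [MulAction.index_stabilizer_of_transitive] at e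
  have i1 := Subgroup.one_lt_index_of_ne_top h2
  have i2 : 1 < (MulAction.stabilizer G a).relIndex H :=
    Subgroup.one_lt_index_of_ne_top fun e => h1.not_ge (Subgroup.subgroupOf_eq_top.1 e)
  have := Nat.le_of_dvd (by omega) d1
  have := Nat.le_of_dvd (by omega) d2
  change ((CF.Recog.der G Ω).index : ℝ) ≤ _
  rw [le_sub_iff_add_le, Real.le_sqrt' (by positivity), ← e, pow_two]
  exact_mod_cast Nat.mul_le_mul (by omega) (by omega)

end Cfsg.Agent.S3549
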