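import Cfsg.Statements.S3560
import Cfsg.Agent.Perm.RegPrim
import Cfsg.Agent.Perm.Basic

set_option autoImplicit false
open Cfsg

namespace Cfsg.Agent.S3560

def Adj {ι α : Type*} (u v : ι → α) : Prop := ∃ i, u i ≠ v i ∧ ∀ j, j ≠ i → u j = v j

theorem adj_right {ι α : Type*} (s : ι → Equiv.Perm α) (u v : ι → α) :
    Adj (fun i => s i (u i)) (fun i => s i (v i)) ↔ Adj u v := by simp [Adj]

theorem adj_left {ι α : Type*} (s : Equiv.Perm ι) (u v : ι → α) : Adj (u ∘ s) (v ∘ s) ↔ Adj u v :=
  s.exists_congr fun i => and_congr_right' (s.forall_congr fun j => by simp)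

theorem aux {ι α : Type*} [Fintype ι] [Fintype α] (hα : 2 < Fintype.card α) (r : (ι → α) → (ι → α) → Prop)
    (hr : Equivalence r) (h : ∀ τ : Equiv.Perm (ι → α), (∀ u v, Adj (τ u) (τ v) ↔ Adj u v) →
      ∀ u v, r u v → r (τ u) (τ v)) {x y : ι → α} (hxy : r x y) (h1 : x ≠ y) (u v : ι → α) : r u v := by
  classical
  have k := fun s : ι → Equiv.Perm α => h (Equiv.piCongrRight s) (adj_right s)
  obtain ⟨i, hi⟩ := Function.ne_iff.1 h1
  obtain ⟨c, hc⟩ : ∃ c, c ∉ ({x i, y i} : Finset α) := Finset.exists_mem_notMem_of_card_lt_card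
    (t := Finset.univ) (Finset.card_le_two.trans_lt hα) |>.imp fun _ h => h.2
  simp only [Finset.mem_insert, Finset.mem_singleton, not_or] at hc
  have h2 : r y (Function.update y i c) := hr.trans (hr.symm hxy) (by
    convert k (Function.update 1 i (Equiv.swap (y i) c)) x y hxy using 1 <;> ext j <;>
      rcases eq_or_ne j i with rfl | e <;> simp [*, Equiv.swap_apply_of_ne_of_ne, Ne.symm hc.1])
  have h3 : ∀ u j a, r u (Function.update u j a) := fun u j a => by
    rcases eq_or_ne a (u j) with rfl | ha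
    · simpa using hr.refl u
    have h4 := h ((Equiv.swap i j).arrowCongr (.refl α)) (adj_left (Equiv.swap i j)) _ _ h2
    obtain ⟨s, h5, h6⟩ := CF.Perm.twoTrans_iff.1 (Equiv.Perm.isMultiplyPretransitive α 2) (y i) c (u j) a
      (Ne.symm hc.2) ha.symm
    convert k (Function.update (fun l => Equiv.swap (y (Equiv.swap i j l)) (u l)) j s) _ _ h4 using 1 <;>
      ext l <;> rcases eq_or_ne l j with rfl | e
    · simpa using h5.symm
    · simp [e]
    · simpa using h6.symm
    · simp [e, Function.update_of_ne (show Equiv.swap i j l ≠ i by simpa [Equiv.swap_apply_eq_iff])]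
  have h4 : ∀ s : Finset ι, r u (s.piecewise v u) := fun s => by
    induction s using Finset.induction_on with
    | empty => simpa using hr.refl u
    | insert j s _ ih => exact Finset.piecewise_insert s v u j ▸ hr.trans ih (h3 _ _ _)
  simpa using h4 Finset.univ

/-- Let K be a finite group isomorphic to a direct product of r ≥ 2 groups all of the same order m ≥ 3. Then K is not a B-group: there is a primitive but not doubly transitive permutation group (on some finite set) containing a regular subgroup isomorphic to K. -/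
theorem result {K : Type*} [Group K] [Finite K] {ι : Type*} [Fintype ι] (F : ι → Type*) [∀ i, Group (F i)]
    (hr : 2 ≤ Fintype.card ι) (m : ℕ) (hm : 3 ≤ m) (hcard : ∀ i, Nat.card (F i) = m) (e : K ≃* (∀ i, F i)) :
    ∃ (n : ℕ) (G R : Subgroup (Equiv.Perm (Fin n))), R ≤ G ∧ Nonempty (↥R ≃* K) ∧
      MulAction.IsPretransitive ↥R (Fin n) ∧ (∀ a : Fin n, MulAction.stabilizer ↥R a = ⊥) ∧
      MulAction.IsPreprimitive ↥G (Fin n) ∧ ¬ MulAction.IsMultiplyPretransitive ↥G (Fin n) 2 := by
  classical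
  have : ∀ i, Finite (F i) := fun i => Nat.finite_of_card_ne_zero (by rw [hcard]; omega)
  let b : ∀ i, F i ≃ Fin m := fun i => Finite.equivFinOfCardEq (hcard i)
  let ψ := Finite.equivFin K
  let c : Fin (Nat.card K) ≃ (ι → Fin m) := (ψ.symm.trans e.toEquiv).trans (Equiv.piCongrRight b)
  let G : Subgroup (Equiv.Perm (Fin (Nat.card K))) :=
    { carrier := {σ | ∀ x y, Adj (c (σ x)) (c (σ y)) ↔ Adj (c x) (c y)}
      one_mem' := fun _ _ => Iff.rfl
      mul_mem' := fun h1 h2 x y => (h1 _ _).trans (h2 x y)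
      inv_mem' := fun {σ} h x y => by simpa using (h (σ⁻¹ x) (σ⁻¹ y)).symm }
  let f := ψ.permCongrHom.toMonoidHom.comp (MulAction.toPermHom K K)
  have hf : ∀ k x, f k x = ψ (k * ψ.symm x) := fun _ _ => rfl
  have h1 : f.range ≤ G := by
    rintro _ ⟨k, rfl⟩ x y
    convert adj_right (fun i => (b i).permCongr (Equiv.mulLeft (e k i))) (c x) (c y) using 2 <;>
      ext i <;> simp [c, hf]
  have h2 : MulAction.IsPretransitive f.range (Fin (Nat.card K)) :=
    ⟨fun x y => ⟨⟨_, ψ.symm y * (ψ.symm x)⁻¹, rfl⟩, (hf _ _).trans (by simp)⟩⟩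
  have : MulAction.IsPretransitive G (Fin (Nat.card K)) :=
    ⟨fun x y => let ⟨g, hg⟩ := h2.1 x y; ⟨⟨g, h1 g.2⟩, hg⟩⟩
  refine ⟨_, G, f.range, h1, ⟨(MonoidHom.ofInjective (ψ.permCongrHom.injective.comp
    MulAction.toPerm_injective)).symm⟩, h2, fun a => (CF.Perm.stabilizer_subgroup_eq_bot_iff _ _).2 ?_,
    CF.Perm.isPreprimitive_of_rel fun r hr h => or_iff_not_imp_left.2 fun h3 x y => ?_, fun h => ?_⟩
  · rintro _ ⟨k, rfl⟩ h
    rw [show k = 1 by simpa [← Equiv.eq_symm_apply] using (hf k a).symm.trans h, map_one]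
  · push Not at h3
    obtain ⟨u, v, h4, h5⟩ := h3
    simpa using aux (by simp; omega) (fun u v => r (c.symm u) (c.symm v)) (hr.comap _)
      (fun τ hτ u v h6 => by simpa [Subgroup.smul_def] using h ⟨c.symm.permCongr τ, fun x y => by simp [hτ]⟩ _ _ h6)
      (x := c u) (y := c v) (by simpa) (c.injective.ne h5) (c x) (c y)
  · obtain ⟨i, j, hij⟩ := Fintype.exists_pair_of_one_lt_card hr
    obtain ⟨n, rfl⟩ := Nat.exists_eq_add_of_le' hm
    obtain ⟨g, h3, h4⟩ := CF.Perm.twoTrans_iff.1 h (c.symm 0) (c.symm (Pi.single i 1)) (c.symm 0) (c.symm 1)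
      (c.symm.injective.ne fun e => by simpa using congrFun e i)
      (c.symm.injective.ne fun e => by simpa using congrFun e i)
    obtain ⟨l, -, h5⟩ := (g.2 (c.symm 0) (c.symm (Pi.single i 1))).2 ⟨i, by simp, fun j hj => by simp [hj]⟩
    rw [show g.1 _ = _ from h3, show g.1 _ = _ from h4] at h5
    rcases eq_or_ne i l with rfl | e
    · simpa using h5 j hij.symm
    · simpa using h5 i e

end Cfsg.Agent.S3560
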