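import Cfsg.Statements.S3571
import Cfsg.Agent.Xs.O

set_option autoImplicit false
open Cfsg

namespace Cfsg.Agent.S3571


/-- Let G be an almost simple group whose socle is an alternating group of degree m ≥ 5 (G has a normal subgroup T isomorphic to that alternating group with trivial centralizer), acting faithfully and primitively on a finite set Ω with at least two points, and let r be the largest prime divisor of the number of points. Then G contains an element of order r fixing no point. -/
theorem result {G Ω : Type*} [Group G] [Finite G] [MulAction G Ω] [FaithfulSMul G Ω] [Finite Ω]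
    (T : Subgroup G) (hT : T.Normal) (hTc : Subgroup.centralizer (T : Set G) = ⊥) (m : ℕ) (hm : 5 ≤ m)
    (eT : ↥T ≃* ↥(alternatingGroup (Fin m))) (hprim : MulAction.IsPreprimitive G Ω) (hΩ : 2 ≤ Nat.card Ω)
    (r : ℕ) (hr : r.Prime) (hrd : r ∣ Nat.card Ω) (hmax : ∀ s : ℕ, s.Prime → s ∣ Nat.card Ω → s ≤ r) :
    ∃ g : G, orderOf g = r ∧ ∀ ω : Ω, g • ω ≠ ω := by
    classical
    let ι : alternatingGroup (Fin m) →* G := T.subtype.comp eT.symm.toMonoidHom
    let _ : MulAction (alternatingGroup (Fin m)) Ω := MulAction.compHom Ω ι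
    have : Nontrivial Ω := Finite.one_lt_card_iff_nontrivial.1 hΩ
    have hι : Function.Injective ι := T.subtype_injective.comp eT.symm.injective
    have : Nontrivial (alternatingGroup (Fin m)) := alternatingGroup.nontrivial_of_three_le_card (by simp; omega)
    have hT' : MulAction.IsPretransitive T Ω := hprim.isQuasiPreprimitive.isPretransitive_of_normal fun h => by
      obtain ⟨σ, hσ⟩ := exists_ne (1 : alternatingGroup (Fin m))
      refine hσ (hι (eq_of_smul_eq_smul (α := Ω) fun x => ?_))
      rw [map_one, one_smul]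
      exact (h ▸ Set.mem_univ x : x ∈ MulAction.fixedPoints T Ω) (eT.symm σ)
    have : MulAction.IsPretransitive (alternatingGroup (Fin m)) Ω := ⟨fun x y => by
      obtain ⟨t, ht⟩ := hT'.exists_smul_eq x y
      exact ⟨eT t, by rw [← ht]; exact congrArg (fun t : T => t • x) (eT.symm_apply_apply t)⟩⟩
    obtain ⟨ω, ω', hω⟩ := exists_pair_ne Ω
    have hne : MulAction.stabilizer (alternatingGroup (Fin m)) ω ≠ ⊤ := fun h => by
      obtain ⟨σ, hσ⟩ := MulAction.exists_smul_eq (alternatingGroup (Fin m)) ω ω'
      exact hω ((h.ge (Subgroup.mem_top σ)).symm.trans hσ)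
    suffices H : CF.Xs.Der (Fin m) Ω r from
      let ⟨σ, h1, h2⟩ := H; ⟨ι σ, (orderOf_injective ι hι σ).trans h1, h2⟩
    by_cases h6 : m = 6
    · exact CF.Xs.der_six ω (by simpa using h6) hne hr hrd hmax
    let f : G →* MulAut (alternatingGroup (Fin m)) := (MulAut.congr eT).toMonoidHom.comp MulAut.conjNormal
    have hc := CF.Perm.conjNormal_alt_injective (Ω := Fin m) (by simp; omega)
    let e := MulEquiv.ofBijective _ ⟨hc, fun ψ => (CF.Perm.exists_aut_eq_conj (by simp; omega)
      (by simpa using h6) ψ).imp fun _ h => h.symm⟩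
    let φ : G →* Equiv.Perm (Fin m) := e.symm.toMonoidHom.comp f
    have h1 : ∀ σ, φ (ι σ) = σ := fun σ => e.symm_apply_eq.2 (MulEquiv.ext fun τ => by
      change eT (MulAut.conjNormal (eT.symm σ).1 (eT.symm τ)) = _
      rw [MulAut.conjNormal_val]
      simp [e]; rfl)
    have h2 : Function.Injective φ := (injective_iff_map_eq_one _).2 fun g hg => by
      have h3 : MulAut.conjNormal (H := T) g = 1 := (MulAut.congr eT).map_eq_one_iff.1 (e.symm.map_eq_one_iff.1 hg)
      refine (hTc.le (Subgroup.mem_centralizer_iff.2 fun t ht => ?_) :)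
      exact (mul_inv_eq_iff_eq_mul.1 (congrArg Subtype.val (MulEquiv.congr_fun h3 ⟨t, ht⟩))).symm
    set K := (MulAction.stabilizer G ω).map φ
    by_cases h3 : MulAction.IsPretransitive K (Fin m)
    · refine CF.Xs.der_of_trans ω (by simpa using hm) (K := K) (fun h => hne (eq_top_iff.2 fun σ _ => ?_))
        (fun σ hσ => ⟨ι σ, hσ, h1 σ⟩) hr hrd hmax
      obtain ⟨g, h4, h5⟩ := h σ.2
      exact (h2 (h5.trans (h1 σ).symm) ▸ h4 : ι σ ∈ MulAction.stabilizer G ω)
    · let a : Fin m := ⟨0, by omega⟩
      let L := open scoped Pointwise in (MulAction.stabilizer (Equiv.Perm (Fin m)) (MulAction.orbit K a)).comap φ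
      have h4 : MulAction.stabilizer G ω ≤ L := fun g hg => MulAction.smul_orbit (⟨φ g, g, hg, rfl⟩ : K) a
      have h5 : L = MulAction.stabilizer G ω := by
        by_contra h
        have h7 := (hprim.isCoatom_stabilizer_of_isPreprimitive G ω).2 L (lt_of_le_of_ne h4 (Ne.symm h))
        refine h3 ((MulAction.isPretransitive_iff_orbit_eq_univ a).2 (Set.eq_univ_of_forall fun x => ?_))
        obtain ⟨σ, rfl⟩ := (alternatingGroup.isPretransitive_of_three_le_card (Fin m)
          (by simp; omega)).exists_smul_eq a x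
        have h8 := (MulAction.mem_stabilizer_set.1 (h7.ge (Subgroup.mem_top (ι σ))) a).2 (MulAction.mem_orbit_self a)
        rwa [h1] at h8
      refine CF.Xs.der_of_set ω (by simpa using hm) (S := (Set.toFinite (MulAction.orbit K a)).toFinset)
        (fun σ => ?_) hr hrd hmax
      change ι σ ∈ MulAction.stabilizer G ω ↔ _
      rw [← h5, Subgroup.mem_comap, h1, MulAction.mem_stabilizer_set]
      simp

end Cfsg.Agent.S3571
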