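import Cfsg.Statements.S3573
import Mathlib

set_option autoImplicit false
open Cfsg

namespace Cfsg.Agent.S3573

open Finset Equiv.Perm in
theorem main {n k r : ℕ} (hr : r.Prime) (hk : k ≤ n) (hn : r ≤ n) :
    (∀ σ : Equiv.Perm (Fin n), orderOf σ = r → ∃ s : Finset (Fin n), s.card = k ∧ s.image σ = s) ↔
      k % r ≤ n % r := by
  have := Fact.mk hr
  have := Nat.div_add_mod' n r
  refine ⟨fun h => ?_, fun h σ hσ => ?_⟩
  · obtain ⟨σ, hσ⟩ := (exists_with_cycleType_iff (Fin n) (m := Multiset.replicate (n / r) r)).2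
      ⟨by simp [Nat.div_mul_le_self], fun a ha => Multiset.eq_of_mem_replicate ha ▸ hr.two_le⟩
    have h1 : orderOf σ = r := by
      have := Nat.div_pos hn hr.pos
      rw [← σ.lcm_cycleType, hσ]
      exact dvd_antisymm (Multiset.lcm_dvd.2 fun a ha => (Multiset.eq_of_mem_replicate ha).dvd)
        (Multiset.dvd_lcm (Multiset.mem_replicate.2 ⟨by omega, rfl⟩))
    obtain ⟨s, rfl, hs⟩ := h σ h1
    have h2 : ∀ x, σ x ∈ s ↔ x ∈ s := fun x => by
      conv_lhs => rw [← hs]
      exact σ.injective.mem_finset_image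
    have h3 := card_compl_support_modEq (p := r) (n := 1) (σ := σ.subtypePerm h2) (by
      rw [pow_one, subtypePerm_pow]
      ext x
      simp [← h1])
    have h4 : #(σ.subtypePerm h2).supportᶜ ≤ #σ.supportᶜ := card_le_card_of_injOn Subtype.val
      (fun x hx => by simpa [Subtype.ext_iff] using hx) Subtype.val_injective.injOn
    have h5 := σ.sum_cycleType
    rw [hσ, Multiset.sum_replicate, smul_eq_mul] at h5
    rw [card_compl σ.support, Fintype.card_fin] at h4
    rw [Fintype.card_coe] at h3
    rw [← h3]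
    exact (Nat.mod_le _ _).trans (by omega)
  · have h1 : ∀ c ∈ σ.cycleFactorsFinset, #c.support = r := fun c hc => by
      obtain ⟨m, hm⟩ := cycleType_prime_order (hσ ▸ hr)
      exact hσ ▸ Multiset.eq_of_mem_replicate (hm ▸ cycleType_def σ ▸ Multiset.mem_map_of_mem _ hc)
    have h2 : ∀ F ⊆ σ.cycleFactorsFinset, #(F.biUnion support) = #F * r := fun F hF => by
      rw [card_biUnion fun c hc d hd e => (σ.cycleFactorsFinset_pairwise_disjoint (hF hc) (hF hd)
        e).disjoint_support, sum_const_nat fun c hc => h1 c (hF hc)]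
    have h3 := h2 _ le_rfl
    rw [show σ.cycleFactorsFinset.biUnion support = σ.support by
      ext x; simp [mem_support_iff_mem_support_of_mem_cycleFactorsFinset (g := σ), -mem_support]] at h3
    have h4 : #σ.supportᶜ + #σ.support = n := by simp
    obtain ⟨F, hF, h5⟩ := exists_subset_card_eq (min_le_left #σ.cycleFactorsFinset (k / r))
    have h6 : #F * r ≤ k := (Nat.mul_le_mul_right _ (h5 ▸ min_le_right _ _)).trans (Nat.div_mul_le_self k r)
    obtain ⟨t, ht, h7⟩ := exists_subset_card_eq (s := σ.supportᶜ) (n := k - #F * r) (by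
      have := Nat.div_add_mod' k r
      have := Nat.mul_le_mul_right r ((Nat.le_div_iff_mul_le hr.pos).2 (show #σ.cycleFactorsFinset * r ≤ n by omega))
      rcases min_choice #σ.cycleFactorsFinset (k / r) with e | e <;> rw [h5, e] <;> omega)
    refine ⟨F.biUnion support ∪ t, ?_, eq_of_subset_of_card_le (image_subset_iff.2 fun x hx => ?_)
      (card_image_of_injective _ σ.injective).ge⟩
    · rw [card_union_of_disjoint, h2 F hF, h7, Nat.add_sub_cancel' h6]
      exact disjoint_compl_right.mono (biUnion_subset.2 fun c hc =>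
        mem_cycleFactorsFinset_support_le (hF hc)) ht
    · rcases mem_union.1 hx with h8 | h8
      · obtain ⟨c, hc, h9⟩ := mem_biUnion.1 h8
        exact mem_union_left _ (mem_biUnion.2 ⟨c, hc, (mem_cycleFactorsFinset_support (hF hc) x).2 h9⟩)
      · rwa [show σ x = x by simpa using ht h8]

/-- Let 1 ≤ k with 2k < n and consider the symmetric group of degree n acting on the k-subsets of an n-set. Let r be a prime dividing the number C(n,k) of k-subsets. If r is odd, then every permutation of order r fixes some k-subset if and only if r ≤ k and the remainder of k modulo r is at most the remainder of n modulo r. If r = 2, then every involution fixes some k-subset if and only if k is even or n is odd. -/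
theorem result (n k : ℕ) (hk : 1 ≤ k) (hkn : 2 * k < n) (r : ℕ) (hr : r.Prime) (hrd : r ∣ Nat.choose n k) :
    (r ≠ 2 → ((∀ σ : Equiv.Perm (Fin n), orderOf σ = r → ∃ s : Finset (Fin n), s.card = k ∧ s.image σ = s) ↔
      (r ≤ k ∧ k % r ≤ n % r))) ∧
    (r = 2 → ((∀ σ : Equiv.Perm (Fin n), orderOf σ = 2 → ∃ s : Finset (Fin n), s.card = k ∧ s.image σ = s) ↔
      (Even k ∨ Odd n))) := by
  have := Fact.mk hr
  have h := main hr (show k ≤ n by omega) (hr.dvd_factorial.1 (hrd.trans
    (Dvd.intro _ ((mul_assoc _ _ _).symm.trans (Nat.choose_mul_factorial_mul_factorial (by omega))))))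
  refine ⟨fun _ => h.trans (and_iff_right_of_imp fun h1 => not_lt.1 fun h2 => ?_).symm, ?_⟩
  · have h3 := (Choose.choose_modEq_choose_mod_mul_choose_div_nat (n := n) (k := k) (p := r)).dvd_iff dvd_rfl
    rw [Nat.div_eq_of_lt h2, Nat.choose_zero_right, mul_one] at h3
    exact (Nat.mod_lt n hr.pos).not_ge (hr.dvd_factorial.1 ((h3.1 hrd).trans
      (Dvd.intro _ ((mul_assoc _ _ _).symm.trans (Nat.choose_mul_factorial_mul_factorial h1)))))
  · rintro rfl
    rw [h, Nat.even_iff, Nat.odd_iff]
    omega

end Cfsg.Agent.S3573
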