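import Cfsg.Statements.S3575
import Cfsg.Agent.Xs.N

set_option autoImplicit false
open Cfsg

namespace Cfsg.Agent.S3575


/-- Let a, b ≥ 2 and consider the symmetric group of degree a·b acting on the partitions of an (a·b)-set into b parts of size a (encoded as maps onto a b-element set all of whose fibres have a elements; a permutation fixes such a partition when it permutes the fibres). Let r be a prime dividing the number (ab)!/((a!)^b·b!) of such partitions, and let ℓ and k be the remainders of a and b modulo r. Then every permutation of order r fixes some such partition if and only if r ≤ a and one of the following holds: ℓ = 0; or k = 0 and ℓ = 1; or ℓ and k are non-zero, k·ℓ < r, and either b < r or (k + r)·ℓ ≤ k·a + r. -/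
theorem result (a b : ℕ) (ha : 2 ≤ a) (hb : 2 ≤ b) (r : ℕ) (hr : r.Prime)
    (hrd : r ∣ (a * b).factorial / (a.factorial ^ b * b.factorial)) :
    (∀ σ : Equiv.Perm (Fin (a * b)), orderOf σ = r →
        ∃ f : Fin (a * b) → Fin b, (∀ j : Fin b, Nat.card {x : Fin (a * b) // f x = j} = a) ∧
          ∃ π : Equiv.Perm (Fin b), ∀ x : Fin (a * b), f (σ x) = π (f x)) ↔
      (r ≤ a ∧ (a % r = 0 ∨ (b % r = 0 ∧ a % r = 1) ∨
        (a % r ≠ 0 ∧ b % r ≠ 0 ∧ (b % r) * (a % r) < r ∧ (b < r ∨ (b % r + r) * (a % r) ≤ (b % r) * a + r)))) := by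
    have := Fact.mk hr
    rw [← CF.Xs.rep_iff ha hb hr.two_le (hr.dvd_factorial.1 (hrd.trans (Nat.div_dvd_of_dvd (by
      rw [mul_comm a b, ← Nat.uniformBell_mul_eq b (show a ≠ 0 by omega), mul_assoc]
      exact dvd_mul_left _ _))))]
    constructor
    · intro H m h1 h2
      obtain ⟨σ, h3, h4⟩ := CF.Xs.exists_perm_pow (α := Fin (a * b)) (r := r) (c := m) (by simpa using h2)
      refine (CF.Xs.fixes_iff (by omega) (by simp) h3 h4).1 (H σ (orderOf_eq_prime h3 ?_))
      rintro rfl
      have := hr.pos
      simp at h4; omega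
    · intro H σ hσ
      have h3 : σ ^ r = 1 := hσ ▸ pow_orderOf_eq_one σ
      have h4 := CF.Xs.card_support_of_pow h3
      refine (CF.Xs.fixes_iff (by omega) (by simp) h3 h4).2 (H _ (Equiv.Perm.card_cycleType_pos.2 ?_) ?_)
      · rintro rfl
        exact hr.one_lt.ne (by simpa using hσ)
      · simpa [← h4] using σ.support.card_le_univ

end Cfsg.Agent.S3575
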