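import Cfsg.Statements.S3589
import Cfsg.Agent.Cls.Sp8

set_option autoImplicit false
open Cfsg

namespace Cfsg.Agent.S3589

open CF.Cls CF.Geom


/-- Let F be a finite field of characteristic 2 and let a, b ∈ F make the binary form z₁² + a z₁z₂ + b z₂² anisotropic. Then the symplectic group PSp(8,F) (= Sp(8,F)) and the full isometry group of the non-singular quadratic form x₁y₁ + x₂y₂ + x₃y₃ + (z₁² + a z₁z₂ + b z₂²) of minus type in dimension 8 have the same set of element orders. -/
theorem result {F : Type*} [Field F] [Fintype F]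
    [CharP F 2] (a b : F) (han : ∀ z₁ z₂ : F, z₁ ^ 2 + a * z₁ * z₂ + b * z₂ ^ 2 = 0 → z₁ = 0 ∧ z₂ = 0) :
    Set.range (orderOf : Cfsg.PSp 4 F → ℕ) = Set.range (orderOf : ↥(Cfsg.isometryGroup F (Cfsg.quadFormMinus 3 F a b)) → ℕ) := by
  exact (range_orderOf_GO (K := AlgebraicClosure F) (qMinus_nondegenerate 3 han)
    (not_isPlus_qMinus 3 han) (Or.inr rfl) (by simp) (rep_PSp 2 (by omega))).trans
    (CF.Recog.range_orderOf_congr (oEquiv (qMinus 3 F a b))).symm

end Cfsg.Agent.S3589
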