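import Cfsg.Statements.S3599
import Cfsg.Agent.Zip.D

set_option autoImplicit false
open Cfsg

namespace Cfsg.Agent.S3599


/-- A finite group is critical with respect to a set Ω of natural numbers when its set of element orders is Ω while no proper section H/N (H a subgroup, N normal in H, (H, N) ≠ (whole group, 1)) has Ω as its set of element orders. Let s ≥ 1 and let p(j,0), p(j,1) (j < s) be 2s pairwise distinct primes, and let Ω be the set of all products c(0)·…·c(s−1) with each c(j) ∈ {1, p(j,0), p(j,1)}. Then there are 2^s pairwise non-isomorphic finite groups critical with respect to Ω. -/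
theorem result (s : ℕ) (hs : 1 ≤ s) (p : Fin s → Fin 2 → ℕ)
    (hp : ∀ j i, (p j i).Prime) (hinj : ∀ j i j' i', p j i = p j' i' → j = j' ∧ i = i') :
    ∃ (G : Fin (2 ^ s) → Type) (_ : ∀ a, Group (G a)) (_ : ∀ a, Fintype (G a)),
      (∀ a b, a ≠ b → ¬ Nonempty (G a ≃* G b)) ∧
      ∀ a, Set.range (orderOf : (G a) → ℕ) = {m : ℕ | ∃ c : Fin s → ℕ, (∀ j, c j = 1 ∨ c j = p j 0 ∨ c j = p j 1) ∧ m = ∏ j, c j} ∧
      ∀ (H : Subgroup (G a)) (N : Subgroup ↥H) [N.Normal], (H ≠ ⊤ ∨ N ≠ ⊥) → Set.range (orderOf : (↥H ⧸ N) → ℕ) ≠ {m : ℕ | ∃ c : Fin s → ℕ, (∀ j, c j = 1 ∨ c j = p j 0 ∨ c j = p j 1) ∧ m = ∏ j, c j} := by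
    classical
    have hne : ∀ (j : Fin s) (i : Fin 2), p j i ≠ p j i.rev := fun j i =>
      CF.Zip.pr_ne (σ := fun _ => i) hinj j
    choose F gF fF hF using fun (j : Fin s) (i : Fin 2) =>
      CF.Zip.exists_MF (hp j i) (hp j i.rev) (hne j i)
    let σ : Fin (2 ^ s) → Fin s → Fin 2 := finFunctionFinEquiv.symm
    refine ⟨fun a => ∀ j, F j (σ a j), inferInstance, fun a => Fintype.ofFinite _, ?_, fun a =>
      ⟨CF.Zip.pr_spec hp hinj fun j => hF j (σ a j), fun H N _ h e => ?_⟩⟩
    · rintro a b hab ⟨e⟩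
      refine hab (finFunctionFinEquiv.symm.injective (funext fun j => ?_))
      have h1 := (CF.Zip.pr_cl hp hinj (fun j => hF j (σ a j)) j (σ a j)).mpr rfl
      refine (CF.Zip.pr_cl hp hinj (fun j => hF j (σ b j)) j (σ a j)).mp fun x y hx hy => ?_
      have := congrArg e (h1 (e.symm x) (e.symm y) (by rw [← map_pow, hx, map_one])
        (by rw [← map_pow, hy, map_one]))
      simpa using this
    · have := CF.Zip.pr_min hp hinj (fun j => hF j (σ a j)) H N fun j i => by
        change p j i ∈ Set.range orderOf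
        rw [e]
        refine ⟨Function.update 1 j (p j i), fun k => ?_, by
          rw [Finset.prod_update_of_mem (Finset.mem_univ j)]; simp⟩
        by_cases hk : k = j
        · subst hk
          fin_cases i <;> simp
        · simp [hk]
      exact h.elim (fun h => h this.1) fun h => h this.2

end Cfsg.Agent.S3599
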