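import Cfsg.Statements.S3600
import Cfsg.Agent.S3433
import Cfsg.Agent.Classical.Triangle

set_option autoImplicit false
open Cfsg

namespace Cfsg.Agent.S3600

open scoped MatrixGroups
set_option maxHeartbeats 2000000

/-- A finite group is critical with respect to a set Ω of natural numbers when its set of element orders is Ω while no proper section has Ω as its set of element orders. A finite group critical with respect to {1, 2, 3, 4, 5} (the set of element orders of the alternating group of degree 6) is isomorphic either to the alternating group of degree 6 or to the affine group F² ⋊ SL(2,F) over the field F with four elements (realised as the matrices of SL(3,F) with last row (0, 0, 1)). -/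
theorem result {G : Type*} [Group G] [Finite G]
    (hcrit : Set.range (orderOf : G → ℕ) = ({1, 2, 3, 4, 5} : Set ℕ) ∧
      ∀ (H : Subgroup G) (N : Subgroup ↥H) [N.Normal], (H ≠ ⊤ ∨ N ≠ ⊥) → Set.range (orderOf : (↥H ⧸ N) → ℕ) ≠ ({1, 2, 3, 4, 5} : Set ℕ)) :
    Nonempty (G ≃* alternatingGroup (Fin 6)) ∨
      ∃ (F : Type) (_ : Field F) (_ : Fintype F), Fintype.card F = 4 ∧
        Nonempty (G ≃* ↥(Subgroup.closure {M : Matrix.SpecialLinearGroup (Fin 3) F |
          (M : Matrix (Fin 3) (Fin 3) F) 2 0 = 0 ∧ (M : Matrix (Fin 3) (Fin 3) F) 2 1 = 0 ∧ (M : Matrix (Fin 3) (Fin 3) F) 2 2 = 1})) := by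
  open CF.CIT CF.BG CF.Classical Subgroup Matrix in
  obtain ⟨h, hc⟩ := hcrit
  have A : ∀ g : G, 0 < orderOf g ∧ orderOf g ≤ 5 := fun g =>
    ⟨orderOf_pos g, by rcases h.le ⟨g, rfl⟩ with e | e | e | e | e <;> rw [e] <;> decide⟩
  refine (Cfsg.Agent.S3433.result (h.trans (by ext; simp; omega))).imp_right ?_
  rintro ⟨N, _, ea, ⟨e5⟩⟩
  have ci : IsCIT G := isCIT_of_no_edge fun r hr h2 g => by have := A g; have := hr.two_le; omega
  have k := (Abelem.of_isEA Nat.prime_two ea).pi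
  let F := GaloisField 2 2
  haveI := Fintype.ofFinite F
  have hF : Nat.card F = 4 := GaloisField.card 2 2 two_ne_zero
  have hF' : Fintype.card F = 2 ^ 2 := Nat.card_eq_fintype_card.symm.trans hF
  refine ⟨F, inferInstance, inferInstance, hF', ?_⟩
  obtain ⟨e⟩ := PSL2_four_equiv hF
  obtain ⟨π, hk, H⟩ := ci.hyp k (e5.trans e.symm)
  obtain ⟨s, s0, s1⟩ := Hig.exists_ne le_rfl hF'
  obtain ⟨n, θ, inj, r, hθ⟩ := H.exists_coord s0 s1
  obtain ⟨e'⟩ := SL2_four_equiv hF
  let p := e'.toMonoidHom.comp π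
  have sj : Function.Surjective p := e'.surjective.comp H.surj
  have pk : p.ker = N := by ext; simp [p, ← hk]
  have B : ∀ g m, orderOf (p g) = m → 3 ≤ m → orderOf g = m := fun g m e l => by
    obtain ⟨_ | _ | c, hc⟩ := e ▸ orderOf_map_dvd p g <;> have := A g <;> nlinarith
  obtain ⟨σ, hσ⟩ : ∃ σ : SL(2, F) →* G, ∀ m, π (σ m) = m := by
    obtain ⟨x, hx⟩ := sj a5x
    obtain ⟨b, hb⟩ := sj a5y
    obtain ⟨y, hy⟩ := sj ⟨Equiv.swap 0 1 * Equiv.swap 1 4, Equiv.Perm.mem_alternatingGroup.2 (by decide)⟩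
    have oy := B y 3 (hy ▸ orderOf_eq_prime (by decide) (by decide)) le_rfl
    obtain ⟨d, hd, o, -⟩ := ci.lift (x := x) (K := zpowers y) k
      (piGrp_odd.2 (by rw [Nat.card_zpowers, oy]; decide))
      (mt zpowers_eq_bot.1 fun e => by simp [e] at oy) le_normalizer_of_normal
      (le_normalizer_of_normal (mem_top _)) (by
        rw [sup_comm, ← pk, ← comap_map_eq, MonoidHom.map_zpowers]
        refine le_normalizer_comap _ (mem_norm_of_cj_le ?_)
        rw [cj_zpowers, hx, hy, ← zpowers_inv]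
        exact le_of_eq (congrArg _ (by decide)))
      (by rw [← pk, MonoidHom.mem_ker, map_mul, hx]; decide)
      (by rw [← pk, MonoidHom.mem_ker, hx]; decide)
    have ha : p (d * x) = a5x := by rw [map_mul, hx, pk.ge hd, one_mul]
    obtain ⟨f, f1, f2, -⟩ := exists_hom_A5 (o ▸ pow_orderOf_eq_one (d * x))
      (B b 3 (hb ▸ isTri_a5.2.1) le_rfl ▸ pow_orderOf_eq_one b)
      (B (d * x * b) 5 (by rw [map_mul, ha, hb, isTri_a5.2.2]) (by decide) ▸ pow_orderOf_eq_one _)
    have : p.comp f = MonoidHom.id _ := MonoidHom.eq_of_eqOn_dense isTri_a5.closure_eq_top_A5 (by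
      rintro _ (rfl | rfl)
      exacts [(congrArg p f1).trans ha, (congrArg p f2).trans hb])
    exact ⟨f.comp e'.toMonoidHom, fun m => e'.injective (DFunLike.congr_fun this (e' m))⟩
  have C : ∀ g, ∃ c, θ (.ofAdd c) = g * (σ (π g))⁻¹ := fun g => r.ge (by simp [hσ])
  choose c hδ using C
  have co : ∀ g h i, c (g * h) i = c g i + (π g).1 *ᵥ c h i := fun g h => congrFun (inj (a₁ := .ofAdd _)
    (a₂ := .ofAdd (c g) * .ofAdd fun i => (π g).1 *ᵥ c h i) (by
      conv_rhs => rw [map_mul, ← hσ (π g), ← hθ, hδ, hδ]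
      simp [hδ, mul_assoc]))
  have pθ : ∀ v, π (θ v) = 1 := fun v => r.le ⟨v, rfl⟩
  have cθ : ∀ v m, c (θ (.ofAdd v) * σ m) = v := fun v m => inj (a₁ := .ofAdd _) (a₂ := .ofAdd _)
    (by simp [hδ, pθ, hσ])
  obtain ⟨i⟩ : Nonempty (Fin n) := by
    by_contra! hn
    obtain ⟨g, hg⟩ := h.ge (show 4 ∈ _ by simp)
    have i : Function.Injective ((e5.trans e.symm).toMonoidHom.comp (QuotientGroup.mk' N)) := by
      rw [← MonoidHom.ker_eq_bot_iff, Hig.ker_comp, ← hk, ← r, eq_bot_iff]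
      rintro _ ⟨v, rfl⟩
      rw [Subsingleton.elim v 1, map_one]
      exact one_mem _
    have := l2e_order_cases hF' (((e5.trans e.symm).toMonoidHom.comp (QuotientGroup.mk' N)) g)
    rw [orderOf_injective _ i, hg] at this
    norm_num at this
  obtain ⟨f, hf⟩ : ∃ f : G → SL(3, F), ∀ g, (f g : Matrix (Fin 3) (Fin 3) F) =
      !![π g 0 0, π g 0 1, c g i 0; π g 1 0, π g 1 1, c g i 1; 0, 0, 1] :=
    ⟨fun g => ⟨_, by simpa [det_fin_three] using (det_fin_two _).symm.trans (π g).2⟩, fun _ => rfl⟩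
  obtain ⟨φ, hφ⟩ : ∃ φ : G →* SL(3, F), ∀ g, (φ g : Matrix (Fin 3) (Fin 3) F) =
      !![π g 0 0, π g 0 1, c g i 0; π g 1 0, π g 1 1, c g i 1; 0, 0, 1] := by
    refine ⟨MonoidHom.mk' f fun g h => ?_, hf⟩
    ext a b
    simp only [SpecialLinearGroup.coe_mul, hf]
    fin_cases a <;> fin_cases b <;>
      simp [hf, co, mul_apply, Fin.sum_univ_succ, mulVec, dotProduct, add_comm, add_left_comm]
  have hφ' : ∀ v m, (φ (θ (.ofAdd fun _ => v) * σ m) : Matrix (Fin 3) (Fin 3) F) =
      !![m 0 0, m 0 1, v 0; m 1 0, m 1 1, v 1; 0, 0, 1] := fun v m => by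
    rw [hφ, cθ, map_mul, pθ, hσ, one_mul]
  have kφ : ∀ g, φ g = 1 → g ∈ N := fun g e => hk.le (by
    have := fun a b => congrFun₂ ((hφ g).symm.trans (congrArg Subtype.val e)) a b
    ext a b
    fin_cases a <;> fin_cases b
    exacts [this 0 0, this 0 1, this 1 0, this 1 1])
  have hj : Function.Injective φ := by
    let ψ := φ.comp (Subgroup.subtype ⊤)
    by_contra ne
    refine hc ⊤ ψ.ker (Or.inr fun e => ne fun a b e' => congrArg Subtype.val
      ((MonoidHom.ker_eq_bot_iff _).1 e (a₁ := ⟨a, trivial⟩) (a₂ := ⟨b, trivial⟩) e')) ?_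
    have o : ∀ g : (⊤ : Subgroup G), orderOf (g : (⊤ : Subgroup G) ⧸ ψ.ker) = orderOf (φ g) :=
      fun g => (orderOf_injective _ (QuotientGroup.kerLift_injective ψ) _).symm
    have P : ∀ q : ℕ, q.Prime → q ≠ 2 → q ∈ Set.range (orderOf : G → ℕ) →
        ∃ g : (⊤ : Subgroup G) ⧸ ψ.ker, orderOf g = q := by
      rintro _ hq q2 ⟨g, rfl⟩
      refine ⟨(⟨g, trivial⟩ : (⊤ : Subgroup G)), (o _).trans ?_⟩
      exact ((Nat.dvd_prime hq).1 (orderOf_map_dvd φ g)).resolve_left fun e =>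
        q2 (k.elt (kφ g (orderOf_eq_one_iff.1 e)) _ hq dvd_rfl)
    have h4 : orderOf (φ (θ (.ofAdd fun _ => ![0, 1]) * σ (Hig.U 1))) = 4 := by
      have t := CharTwo.add_self_eq_zero (1 : F)
      have e := hφ' ![0, 1] (Hig.U 1)
      generalize φ _ = u at e ⊢
      refine orderOf_eq_four ?_ fun e' => ?_
      · ext a b
        rw [show 4 = 2 * 2 from rfl, pow_mul]
        simp [sq, e, Hig.U, coe_sl2, t, one_fin_three]
      · simpa [sq, e, Hig.U, coe_sl2] using congrArg (fun M : SL(3, F) => M 0 2) e'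
    replace h4 := (o ⟨_, trivial⟩).trans h4
    refine Set.Subset.antisymm ?_ ?_
    · rintro _ ⟨g, rfl⟩
      obtain ⟨g, rfl⟩ := QuotientGroup.mk_surjective g
      have h1 := Nat.le_of_dvd (A g).1 (orderOf_map_dvd φ g)
      have h2 := A g
      have := orderOf_pos (φ g)
      simp only [o, Set.mem_insert_iff, Set.mem_singleton_iff]
      omega
    · rintro _ (rfl | rfl | rfl | rfl | rfl)
      exacts [⟨1, orderOf_one⟩, ⟨_ ^ 2, by rw [orderOf_pow, h4]; rfl⟩,
        P 3 Nat.prime_three (by decide) (h.ge (by simp)), ⟨_, h4⟩,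
        P 5 Nat.prime_five (by decide) (h.ge (by simp))]
  refine ⟨(MonoidHom.ofInjective hj).trans (MulEquiv.subgroupCongr (le_antisymm ?_ ?_))⟩
  · rintro _ ⟨g, rfl⟩
    exact subset_closure (by simp [hφ])
  · refine (closure_le _).2 fun M ⟨h0, h1, h2⟩ => ⟨θ (.ofAdd fun _ => ![M 0 2, M 1 2]) *
      σ (sl2 (M 0 0) (M 0 1) (M 1 0) (M 1 1) ?_), ?_⟩
    · simpa [h0, h1, h2] using (det_fin_three _).symm.trans M.2
    · refine Subtype.ext ((hφ' _ _).trans ?_)
      ext a b
      fin_cases a <;> fin_cases b <;> simp [coe_sl2, h0, h1, h2]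

end Cfsg.Agent.S3600
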