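import Cfsg.Statements.S3619
import Cfsg.Agent.Recog.QuasiPrim
import Cfsg.Agent.Perm.RegPrim

set_option autoImplicit false
open Cfsg

namespace Cfsg.Agent.S3619

/-- Let G act faithfully on a finite set in such a way that every non-trivial normal subgroup of G is transitive (G is quasiprimitive). Let Γ be a subset with more than one point and not the whole set, such that the pointwise stabilizer of the complement of Γ acts transitively on Γ (a Jordan set). If that pointwise stabilizer acts primitively on Γ, then G is k-fold transitive where k is one more than the number of points outside Γ (the Jordan set is a trivial one). -/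
theorem result {G Ω : Type*} [Group G] [Finite G] [MulAction G Ω] [FaithfulSMul G Ω] [Finite Ω]
    (hqp : ∀ N : Subgroup G, N.Normal → N ≠ ⊥ → MulAction.IsPretransitive ↥N Ω)
    (Γ : Set Ω) (hΓ1 : 1 < Γ.ncard) (hΓ2 : Γ.ncard < Nat.card Ω)
    (hJ : MulAction.IsPretransitive ↥(fixingSubgroup G Γᶜ) ↥(SubMulAction.ofFixingSubgroup G Γᶜ))
    (hJp : MulAction.IsPreprimitive ↥(fixingSubgroup G Γᶜ) ↥(SubMulAction.ofFixingSubgroup G Γᶜ)) :
    MulAction.IsMultiplyPretransitive G Ω (Nat.card Ω - Γ.ncard + 1) := by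
  have h1 := Set.one_lt_ncard_iff_nontrivial.1 hΓ1
  have h2 := CF.Recog.isJ_iff.2 hJ
  have := h2.nontrivial h1
  have := Set.nontrivial_of_nontrivial h1
  have c := Set.ncard_add_ncard_compl Γ
  have hp : MulAction.IsPreprimitive G Ω := by
    by_contra h
    obtain ⟨M, π, s, h3, -, h4, -, h5, h6⟩ := CF.Recog.exists_quot_of_qp hqp h
    obtain ⟨h7, _, ⟨x, hx, rfl⟩, _, ⟨y, hy, rfl⟩, e⟩ := h2.quot h3 h4 h1
    rcases CF.Perm.prim_rel_fixing hJp (fun x y => π x = π y) ⟨fun _ => rfl, Eq.symm, Eq.trans⟩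
      (fun g _ x y e => by rw [h3, h3, e]) with h8 | h8
    · obtain ⟨z, hz, e⟩ := (Set.one_lt_ncard_iff_nontrivial.1 (by simpa [h6] : 1 < (π ⁻¹' {π x}).ncard)).exists_ne x
      exact e (h8 z x (not_not.2 (h7 ▸ ⟨x, hx, hz.symm⟩)) (not_not.2 hx) hz)
    · exact e (h8 x y (not_not.2 hx) (not_not.2 hy))
  convert (hp.isMultiplyPreprimitive (s := Γᶜ) (n := Γᶜ.ncard - 1) (by omega) (by omega)
    hJp).isMultiplyPretransitive using 1
  omega

end Cfsg.Agent.S3619
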