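import Cfsg.Statements.S3620
import Cfsg.Agent.Recog.QuasiPrim

set_option autoImplicit false
open Cfsg

namespace Cfsg.Agent.S3620

/-- Let G act faithfully on a finite set in such a way that every non-trivial normal subgroup of G is transitive (G is quasiprimitive). Let Γ be a subset with more than one point and fewer than half of the points, such that the pointwise stabilizer of the complement of Γ acts transitively on Γ. Then G induces every even permutation of the set (G is the alternating or the symmetric group). -/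
theorem result {G Ω : Type*} [Group G] [Finite G] [MulAction G Ω] [FaithfulSMul G Ω] [Fintype Ω] [DecidableEq Ω]
    (hqp : ∀ N : Subgroup G, N.Normal → N ≠ ⊥ → MulAction.IsPretransitive ↥N Ω)
    (Γ : Set Ω) (hΓ1 : 1 < Γ.ncard) (hΓ2 : 2 * Γ.ncard < Fintype.card Ω)
    (hJ : MulAction.IsPretransitive ↥(fixingSubgroup G Γᶜ) ↥(SubMulAction.ofFixingSubgroup G Γᶜ)) :
    ∀ σ : Equiv.Perm Ω, Equiv.Perm.sign σ = 1 → ∃ x : G, (MulAction.toPerm x : Equiv.Perm Ω) = σ := by
  classical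
  have h1 := Set.one_lt_ncard_iff_nontrivial.1 hΓ1
  have h2 := CF.Recog.isJ_iff.2 hJ
  have := h2.nontrivial h1
  have := Set.nontrivial_of_nontrivial h1
  refine fun σ hσ => CF.Recog.marggraf _ Nat.card_eq_fintype_card (by_contra fun h => ?_) h2 hΓ1 hΓ2 hσ
  obtain ⟨M, π, s, h3, hp, h4, h9, h5, h6⟩ := CF.Recog.exists_quot_of_qp hqp h
  obtain ⟨h7, h8⟩ := h2.quot h3 h4 h1
  have := Fintype.ofFinite (G ⧸ M)
  have h10 := Set.one_lt_ncard_iff_nontrivial.2 h8
  have h11 : 2 * (π '' Γ).ncard < Nat.card (G ⧸ M) := by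
    rw [← h7, h6, ← Nat.card_eq_fintype_card, ← Set.ncard_univ, ← Set.preimage_univ (f := π), h6,
      Set.ncard_univ, mul_left_comm] at hΓ2
    exact lt_of_mul_lt_mul_left' hΓ2
  have n : ∀ x, π x ∉ π '' Γ → x ∉ Γ := fun x h hx => h ⟨x, hx, rfl⟩
  have A := CF.Recog.marggraf (Γ := π '' Γ) _ rfl hp (by
    rintro _ ⟨x, hx, rfl⟩ _ ⟨y, hy, rfl⟩
    obtain ⟨g, g1, rfl⟩ := h2 x hx y hy
    exact ⟨g, h9.forall.2 fun z hz => by rw [← h3, g1 z (n z hz)], (h3 g x).symm⟩) h10 h11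
  obtain ⟨x, hx⟩ := h1.nonempty
  obtain ⟨y, hy, e⟩ := (Set.one_lt_ncard_iff_nontrivial.1 (by simpa [h6] : 1 < (π ⁻¹' {π x}).ncard)).exists_ne x
  obtain ⟨g, g1, rfl⟩ := h2 x hx y (h7 ▸ ⟨x, hx, hy.symm⟩)
  obtain ⟨b, hb, c, hc, e'⟩ := (Set.one_lt_ncard (Set.toFinite (π '' Γ)ᶜ)).1 (by
    have := Set.ncard_add_ncard_compl (π '' Γ); omega)
  have m : ∀ {b}, b ∉ π '' Γ → π x ≠ b := fun hb e => hb ⟨x, hx, e⟩
  obtain ⟨k, hk⟩ := A (x := Equiv.swap (π x) b * Equiv.swap b c) (by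
    simp [Equiv.Perm.mem_alternatingGroup, m hb, e'])
  have f : ∀ b ∉ π '' Γ, MulAction.toPermHom G _ g b = b := h9.forall.2 fun z hz =>
    (h3 g z).symm.trans (congrArg π (g1 z (n z hz)))
  have f' : MulAction.toPermHom G _ g (π x) = π x := (h3 g x).symm.trans hy
  have h12 : g * k * g⁻¹ * k⁻¹ = 1 := h4 _ fun z => by
    have : MulAction.toPermHom G (G ⧸ M) (g * k * g⁻¹ * k⁻¹) = 1 := by
      rw [map_mul, map_mul, map_mul, map_inv, map_inv, hk, ← conj_mul, ← Equiv.swap_apply_apply,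
        ← Equiv.swap_apply_apply, f b hb, f c hc, f', mul_inv_cancel]
    exact DFunLike.congr_fun this (π z)
  have h13 : k • x ∉ Γ := n _ (by
    rw [h3, show k • π x = b from (DFunLike.congr_fun hk (π x)).trans (by
      simp [Equiv.swap_apply_of_ne_of_ne (m hb) (m hc)])]
    exact hb)
  have := g1 _ h13
  rw [← mul_smul, mul_inv_eq_iff_eq_mul.1 (mul_inv_eq_one.1 h12), mul_smul, smul_left_cancel_iff] at this
  exact e this

end Cfsg.Agent.S3620
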