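import Cfsg.Statements.S3622

set_option autoImplicit false
open Cfsg

namespace Cfsg.Agent.S3622

/-- Let G be a group of permutations of a finite set, m ≥ 2, and α a point. Say a permutation σ is k-approximated by a set S of permutations if for every k points there is a member of S agreeing with σ at those points. Suppose every permutation that is (m-1)-approximated by the stabilizer of α in G lies in that stabilizer (the stabilizer is (m-1)-closed). Then every permutation that is m-approximated by G lies in G (G is m-closed). -/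
theorem result {Ω : Type*} [Finite Ω] (G : Subgroup (Equiv.Perm Ω)) (m : ℕ) (hm : 2 ≤ m) (α : Ω)
    (hclosed : ∀ σ : Equiv.Perm Ω,
      (∀ t : Fin (m - 1) → Ω, ∃ g ∈ MulAction.stabilizer ↥G α, ∀ i, (g : Equiv.Perm Ω) (t i) = σ (t i)) →
      σ ∈ G ∧ σ α = α) :
    ∀ σ : Equiv.Perm Ω, (∀ t : Fin m → Ω, ∃ g ∈ G, ∀ i, g (t i) = σ (t i)) → σ ∈ G := by
  intro σ h
  obtain ⟨m, rfl⟩ : ∃ k, m = k + 1 := ⟨m - 1, by omega⟩
  obtain ⟨g, hg, e⟩ := h fun _ => α
  refine (G.mul_mem_cancel_left (G.inv_mem hg)).1 (hclosed _ fun t => ?_).1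
  obtain ⟨k, hk, f⟩ := h (Fin.cons α t)
  refine ⟨⟨_, G.mul_mem (G.inv_mem hg) hk⟩, ?_, fun i => ?_⟩
  · change g⁻¹ (k α) = α
    rw [show k α = σ α from f 0, ← e 0]; simp
  · exact congrArg (g⁻¹ : Equiv.Perm Ω) (f (Fin.succ i))

end Cfsg.Agent.S3622
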