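import Cfsg.Statements.S3626
import Cfsg.Agent.BN.ReeSpec
import Cfsg.Agent.BN.ReeLink

set_option autoImplicit false
open Cfsg

namespace Cfsg.Agent.S3626

/-- Let R be the small Ree group over the field with q = 3^(2m+1) ≥ 27 elements. Then there are finite groups of arbitrarily large order with exactly the same set of element orders as R × R × R. -/
theorem result {K : Type*} [Field K] [Fintype K] {m : ℕ} (hm : 1 ≤ m) (hK : Fintype.card K = 3 ^ (2 * m + 1)) (N : ℕ) :
    ∃ (H : Type) (_ : Group H) (_ : Fintype H), N < Fintype.card H ∧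
      Set.range (orderOf : H → ℕ) = Set.range (orderOf : ↥(Cfsg.Lie.twistedG2 K (3 ^ m)) × ↥(Cfsg.Lie.twistedG2 K (3 ^ m)) × ↥(Cfsg.Lie.twistedG2 K (3 ^ m)) → ℕ) := by
  obtain ⟨T, ⟨D⟩⟩ := CF.BN.Ree.nonempty_ree hK
  have hq := CF.BN.Ree.three_lt_card hK hm
  have := D.finite
  have : Finite (D.Aff (N + 1)) := Nat.finite_of_card_ne_zero (D.lt_card_aff _).ne_bot
  obtain ⟨H, _, _, ⟨e⟩⟩ := Finite.exists_type_univ_nonempty_mulEquiv.{_, 0}
    (Cfsg.Lie.twistedG2 K (3 ^ m) × Cfsg.Lie.twistedG2 K (3 ^ m) × D.Aff (N + 1))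
  refine ⟨H, inferInstance, inferInstance, ?_, ?_⟩
  · rw [← Nat.card_eq_fintype_card, ← Nat.card_congr e.toEquiv, Nat.card_prod, Nat.card_prod]
    exact ((Nat.lt_succ_self N).trans (D.lt_card_aff _)).trans_le
      ((Nat.le_mul_of_pos_left _ Nat.card_pos).trans (Nat.le_mul_of_pos_left _ Nat.card_pos))
  · rw [← D.range_orderOf_aff hq N, ← e.surjective.range_comp]
    exact congrArg _ (funext e.orderOf_eq)

end Cfsg.Agent.S3626
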