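import Cfsg.Statements.S3639
import Cfsg.Agent.BN.SzTori

set_option autoImplicit false
open Cfsg

namespace Cfsg.Agent.S3639

theorem aux {F : Type*} [Field F] [Finite F] {T : CF.BN.Suz.Tits F} {G : Type*} [Group G]
    (D : CF.BN.Suz.SzData T G) (N : ℕ) :
    ∃ (H : Type) (_ : Group H) (_ : Fintype H), N < Fintype.card H ∧
      ((∀ r : ℕ, r.Prime → (r ∣ Nat.card G ↔ r ∣ Nat.card H)) ∧
      (∀ r s : ℕ, r.Prime → s.Prime → r ≠ s →
        ((∃ x : G, orderOf x = r * s) ↔ (∃ y : H, orderOf y = r * s)))) := by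
  have := D.finite
  have := T.charP
  let V := Multiplicative (Fin N → Fin 4 → F)
  let φ : G →* MulAut V := MonoidHom.mk' (fun g =>
    { toFun := fun v => Multiplicative.ofAdd fun i => (D.ρ g).mulVec (v.toAdd i)
      invFun := fun v => Multiplicative.ofAdd fun i => (D.ρ g⁻¹).mulVec (v.toAdd i)
      left_inv := fun v => by simp [Matrix.mulVec_mulVec, ← map_mul]
      right_inv := fun v => by simp [Matrix.mulVec_mulVec, ← map_mul]
      map_mul' := fun v w => by
        apply Multiplicative.toAdd.injective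
        funext i
        exact Matrix.mulVec_add (D.ρ g) (v.toAdd i) (w.toAdd i) }) fun g h => by
    ext v : 1
    apply Multiplicative.toAdd.injective
    funext i
    simp [Matrix.mulVec_mulVec]
  have hφ : ∀ g v i, (φ g v).toAdd i = (D.ρ g).mulVec (v.toAdd i) := fun _ _ _ => rfl
  have hc : Nat.card (V ⋊[φ] G) = Nat.card F ^ (4 * N) * Nat.card G := by
    rw [SemidirectProduct.card, pow_mul, Nat.card_congr Multiplicative.toAdd]
    simp [Nat.card_fun]
  have : Finite (V ⋊[φ] G) := Finite.of_equiv _ SemidirectProduct.equivProd.symm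
  let e := Shrink.mulEquiv.{0} (α := V ⋊[φ] G)
  have : Finite (Shrink.{0} (V ⋊[φ] G)) := Finite.of_equiv _ e.toEquiv.symm
  obtain ⟨n, hn, hq⟩ := T.exists_card_eq
  refine ⟨Shrink.{0} (V ⋊[φ] G), inferInstance, Fintype.ofFinite _, ?_, fun r hr => ?_,
    fun r s hr hs hrs => ⟨fun ⟨x, hx⟩ => ⟨e.symm (SemidirectProduct.inr x), ?_⟩, fun ⟨y, hy⟩ => ?_⟩⟩
  · rw [← @Nat.card_eq_fintype_card _ (Fintype.ofFinite _), Nat.card_congr e.toEquiv, hc, hq,
      ← pow_mul]
    calc N ≤ n * (4 * N) := by nlinarith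
      _ < 2 ^ (n * (4 * N)) := Nat.lt_two_pow_self
      _ ≤ _ := Nat.le_mul_of_pos_right _ Nat.card_pos
  · rw [Nat.card_congr e.toEquiv, hc]
    refine ⟨fun h => h.mul_left _, fun h => (hr.dvd_mul.1 h).elim (fun h => ?_) id⟩
    rw [D.card_G, sq, mul_assoc, mul_assoc]
    exact (hr.dvd_of_dvd_pow h).mul_right _
  · rw [MulEquiv.orderOf_eq, orderOf_injective _ SemidirectProduct.inr_injective, hx]
  · rw [← e.orderOf_eq] at hy
    generalize e y = z at hy
    set g := SemidirectProduct.rightHom z with hg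
    by_cases h1 : z ^ orderOf g = 1
    · exact ⟨g, hy ▸ Nat.dvd_antisymm (orderOf_map_dvd _ _) (orderOf_dvd_of_pow_eq_one h1)⟩
    exfalso
    have hsq : ∀ w : V ⋊[φ] G, SemidirectProduct.rightHom w = 1 → w ^ 2 = 1 := by
      intro w hw
      rw [← MonoidHom.mem_ker, ← SemidirectProduct.range_inl_eq_ker_rightHom] at hw
      obtain ⟨v, rfl⟩ := hw
      rw [← map_pow, map_eq_one_iff _ SemidirectProduct.inl_injective]
      apply Multiplicative.toAdd.injective
      funext i j
      rw [sq]
      exact CharTwo.add_self_eq_zero (v.toAdd i j)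
    have h2 : z ^ orderOf g ∈ (SemidirectProduct.rightHom : V ⋊[φ] G →* G).ker := by
      rw [MonoidHom.mem_ker, map_pow, pow_orderOf_eq_one]
    rw [← SemidirectProduct.range_inl_eq_ker_rightHom] at h2
    obtain ⟨v, hv⟩ := h2
    have h3 : φ g v = v := by
      have := (Commute.self_pow z (orderOf g)).eq
      rw [← hv] at this
      have := congrArg SemidirectProduct.left this
      simp only [SemidirectProduct.mul_left, SemidirectProduct.left_inl,
        SemidirectProduct.right_inl, map_one, MulAut.one_apply] at this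
      rw [mul_comm v] at this
      exact mul_left_cancel this
    by_cases hU : ∃ k, g ∈ (D.conj k).U
    · obtain ⟨k, hk⟩ := hU
      have := hsq (z ^ 4) (by rw [map_pow]; exact (D.conj k).pow_four_of_mem_U hk)
      rw [← pow_mul] at this
      have := orderOf_dvd_of_pow_eq_one this
      rw [hy, show 4 * 2 = 2 ^ 3 from rfl] at this
      exact hrs (((Nat.prime_dvd_prime_iff_eq hr Nat.prime_two).1
        (hr.dvd_of_dvd_pow ((Dvd.intro _ rfl).trans this))).trans
        ((Nat.prime_dvd_prime_iff_eq hs Nat.prime_two).1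
        (hs.dvd_of_dvd_pow ((Dvd.intro_left _ rfl).trans this))).symm)
    · apply h1
      rw [← hv, map_eq_one_iff _ SemidirectProduct.inl_injective]
      apply Multiplicative.toAdd.injective
      funext i
      exact D.eq_zero_of_fixed (not_exists.1 hU) ((hφ g v i).symm.trans (by rw [h3]))

/-- Let S be the Suzuki group over the field with q = 2^(2m+1) ≥ 8 elements. Then there are finite groups of arbitrarily large order with the same prime graph as S. -/
theorem result {F : Type*} [Field F] [Fintype F] {m : ℕ} (hm : 1 ≤ m) (hF : Fintype.card F = 2 ^ (2 * m + 1)) (N : ℕ) :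
    ∃ (H : Type) (_ : Group H) (_ : Fintype H), N < Fintype.card H ∧ ((∀ r : ℕ, r.Prime → (r ∣ Nat.card ↥(Cfsg.Lie.Sz F (2 ^ (m + 1))) ↔ r ∣ Nat.card H)) ∧
      (∀ r s : ℕ, r.Prime → s.Prime → r ≠ s → ((∃ x : ↥(Cfsg.Lie.Sz F (2 ^ (m + 1))), orderOf x = r * s) ↔ (∃ y : H, orderOf y = r * s)))) := by
  exact aux (CF.BN.Suz.lieD F m hF) N

end Cfsg.Agent.S3639
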