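import Cfsg.Statements.S3680
import Cfsg.Agent.S0721
import Cfsg.Agent.Perm.Centralizer
import Cfsg.Agent.Perm.RegPrim

set_option autoImplicit false
open Cfsg

namespace Cfsg.Agent.S3680

theorem cent {G α : Type*} [Group G] [MulAction G α] [FaithfulSMul G α] {M N : Subgroup G}
    [MulAction.IsPretransitive M α] [MulAction.IsPretransitive N α] (a : α)
    (hc : ∀ n ∈ N, ∀ m ∈ M, n * m = m * n) {c : G} (h : ∀ m ∈ M, c * m = m * c) : c ∈ N := by
  obtain ⟨n, hn⟩ := MulAction.exists_smul_eq N a (c • a)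
  have := CF.Perm.eq_one_of_commute_trans (α := α) (M := M) (n := (n : G)⁻¹ * c) (a := a)
    (fun m hm => by rw [mul_assoc, h m hm, ← mul_assoc, hc _ (inv_mem n.2) m hm, mul_assoc])
    (by rw [mul_smul, ← hn, Subgroup.smul_def, inv_smul_smul])
  exact inv_mul_eq_one.1 this ▸ n.2

theorem iso {G α : Type*} [Group G] [MulAction G α] [FaithfulSMul G α] {M N : Subgroup G}
    [MulAction.IsPretransitive M α] [MulAction.IsPretransitive N α] (a : α)
    (hc : ∀ m ∈ M, ∀ n ∈ N, m * n = n * m) : Nonempty (M ≃* N) := by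
  have hMr : MulAction.stabilizer M a = ⊥ := (CF.Perm.stabilizer_subgroup_eq_bot_iff _ _).2 fun g hg hga =>
    CF.Perm.eq_one_of_commute_trans (α := α) (M := N) (hc g hg) hga
  have hNr : MulAction.stabilizer N a = ⊥ := (CF.Perm.stabilizer_subgroup_eq_bot_iff _ _).2 fun g hg hga =>
    CF.Perm.eq_one_of_commute_trans (α := α) (M := M) (fun m hm => (hc m hm g hg).symm) hga
  have hex : ∀ m : M, ∃ n : N, n⁻¹ • a = m • a := fun m => by
    obtain ⟨n, hn⟩ := MulAction.exists_smul_eq N a (m • a)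
    exact ⟨n⁻¹, by simpa using hn⟩
  choose f hf using hex
  have hNu : ∀ x y : N, x⁻¹ • a = y⁻¹ • a → x = y := fun x y h =>
    inv_injective (Subtype.ext (CF.Perm.eq_of_smul_eq_of_regular hNr x⁻¹.2 y⁻¹.2 h))
  have hcs : ∀ (m : M) (n : N) (x : α), m • n • x = n • m • x := by
    intro m n x
    change (m : G) • (n : G) • x = (n : G) • (m : G) • x
    rw [← mul_smul, hc m m.2 n n.2, mul_smul]
  refine ⟨MulEquiv.ofBijective (MonoidHom.mk' f fun x y => hNu _ _ ?_) ⟨fun x y h => ?_, fun n => ?_⟩⟩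
  · rw [hf, mul_inv_rev, mul_smul, mul_smul, hf, ← hf y, hcs]
  · apply Subtype.ext
    apply CF.Perm.eq_of_smul_eq_of_regular hMr x.2 y.2
    change x • a = y • a
    rw [← hf, ← hf]
    exact congrArg (fun z : N => z⁻¹ • a) h
  · obtain ⟨m, hm⟩ := MulAction.exists_smul_eq M a (n⁻¹ • a)
    exact ⟨m, hNu _ _ ((hf m).trans hm)⟩

/-- The socle of a finite primitive permutation group. Let a finite group G act faithfully and primitively on a set Ω, and let N be the subgroup generated by the minimal normal subgroups of G. Then either N is an elementary abelian p-group for some prime p and acts regularly on Ω (transitively with trivial point stabilizers), or N is isomorphic to a direct product of m ≥ 1 copies of a non-abelian simple group. -/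
theorem result {G Ω : Type*} [Group G] [Finite G] [MulAction G Ω] [FaithfulSMul G Ω] [Finite Ω]
    (hprim : MulAction.IsPreprimitive G Ω) (N : Subgroup G)
    (hN : N = sSup {V : Subgroup G | V.Normal ∧ V ≠ ⊥ ∧ ∀ M : Subgroup G, M.Normal → M ≤ V → M = ⊥ ∨ M = V}) :
    (∃ p : ℕ, p.Prime ∧ IsMulCommutative N ∧ (∀ x : N, x ^ p = 1) ∧
      MulAction.IsPretransitive N Ω ∧ ∀ ω : Ω, MulAction.stabilizer N ω = ⊥) ∨
    (∃ (T : Type) (_ : Group T) (m : ℕ), 1 ≤ m ∧ IsSimpleGroup T ∧ ¬ IsMulCommutative T ∧ Nonempty (N ≃* (Fin m → T))) := by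
  have := hprim.toIsPretransitive
  rcases subsingleton_or_nontrivial G with h | h
  · refine .inl ⟨2, Nat.prime_two, ⟨⟨fun _ _ => Subsingleton.elim _ _⟩⟩, fun _ => Subsingleton.elim _ _,
      ⟨fun a b => ?_⟩, fun _ => Subsingleton.elim _ _⟩
    obtain ⟨g, rfl⟩ := MulAction.exists_smul_eq G a b
    exact ⟨1, by rw [Subsingleton.elim g 1, one_smul, one_smul]⟩
  obtain ⟨M, hM⟩ := CF.Solv.exists_isMinNormal (G := G)
  obtain ⟨g, hg⟩ := exists_ne (1 : G)
  obtain ⟨a, -⟩ := CF.Perm.exists_smul_ne_of_ne_one (α := Ω) hg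
  have t : ∀ L : Subgroup G, CF.Solv.IsMinNormal L → MulAction.IsPretransitive L Ω := fun L hL =>
    @CF.Perm.normal_isPretransitive_of_ne_bot _ _ _ _ _ hprim L hL.1 hL.2.1
  have c : ∀ L : Subgroup G, CF.Solv.IsMinNormal L → L ≠ M → ∀ l ∈ L, ∀ m ∈ M, l * m = m * l :=
    fun L hL => @CF.Perm.commute_of_minimal_normal_ne _ _ L M hL.1 hM.1 hL.2.1 hL.2.2 hM.2.2
  have := t M hM
  have := hM.1
  by_cases h1 : IsMulCommutative M
  · have h2 : ∀ n ∈ M, ∀ m ∈ M, n * m = m * n := fun n hn m hm => setLike_mul_comm hn hm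
    obtain rfl : N = M := hN.trans (le_antisymm (sSup_le fun L hL => (eq_or_ne L M).elim le_of_eq
      fun e l hl => cent a h2 (c L hL e l hl)) (le_sSup hM))
    obtain ⟨p, hp, h3⟩ := CF.Perm.exponent_prime_of_minimal_normal_comm N hM.2.1 hM.2.2 h1
    exact .inl ⟨p, hp, h1, fun x => Subtype.ext (h3 x x.2), ‹_›, fun ω =>
      (CF.Perm.stabilizer_subgroup_eq_bot_iff _ _).2 fun g hg => CF.Perm.eq_one_of_commute_trans (h2 g hg)⟩
  obtain ⟨T, _, m, hT, hm, ⟨e⟩⟩ := Cfsg.Agent.S0721.result M hM.2.1 hM.2.2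
  have h2 : ¬IsMulCommutative T := fun h => h1 ⟨⟨fun x y => e.injective (by
    rw [map_mul, map_mul]; exact funext fun i => mul_comm' _ _)⟩⟩
  by_cases h3 : ∀ L, CF.Solv.IsMinNormal L → L = M
  · obtain rfl : N = M := hN.trans (le_antisymm (sSup_le fun L hL => (h3 L hL).le) (le_sSup hM))
    exact .inr ⟨T, _, m, hm, hT, h2, ⟨e⟩⟩
  obtain ⟨L, h3⟩ := not_forall.1 h3
  obtain ⟨hL, h3⟩ := Classical.not_imp.1 h3
  have := t L hL
  have := hL.1
  obtain rfl : N = L ⊔ M := hN.trans (le_antisymm (sSup_le fun K hK => (eq_or_ne K M).elim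
    (fun e => e.le.trans le_sup_right) fun e l hl => Subgroup.mem_sup_left (cent a (c L hL h3) (c K hK e l hl)))
    (sup_le (le_sSup hL) (le_sSup hM)))
  obtain ⟨e1⟩ := iso a (c L hL h3)
  obtain ⟨e2⟩ := CF.Perm.nonempty_sup_equiv_prod L M ((hL.le_or_inf_eq_bot M).resolve_left fun h =>
    (hM.2.2 L hL.1 h).elim hL.2.1 h3)
  exact .inr ⟨T, _, m + m, by omega, hT, h2, ⟨e2.trans (((e1.trans e).prodCongr e).trans
    { (Equiv.sumArrowEquivProdArrow _ _ T).symm.trans (finSumFinEquiv.arrowCongr (.refl T)) with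
      map_mul' := fun x y => by
        ext i
        obtain ⟨i | i, rfl⟩ := finSumFinEquiv.surjective i <;> simp [Equiv.arrowCongr, Equiv.sumArrowEquivProdArrow, -Fin.natAdd_eq_addNat] })⟩⟩

end Cfsg.Agent.S3680
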