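import Cfsg.Statements.S3682
import Cfsg.Agent.Recog.TW

set_option autoImplicit false
open Cfsg

namespace Cfsg.Agent.S3682

open CF.Recog CF.BG CF.Sig MulAction in

/-- Wielandt's bound toward the Sims conjecture. Let a finite group G act faithfully and primitively on a set Ω, let a and b be points, and suppose the orbit of b under the stabilizer of a has length d ≥ 2. Then there are a prime p and a normal p-subgroup P of the stabilizer of a, all of whose elements fix b, such that the index of P in the stabilizer of a divides d! · ((d - 1)!)^d. -/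
theorem result {G Ω : Type*} [Group G] [Finite G] [MulAction G Ω] [FaithfulSMul G Ω] [Finite Ω]
    (hprim : MulAction.IsPreprimitive G Ω) (a b : Ω) (d : ℕ) (hd : Nat.card (MulAction.orbit (MulAction.stabilizer G a) b) = d) (h2 : 2 ≤ d) :
    ∃ p : ℕ, p.Prime ∧ ∃ P : Subgroup (MulAction.stabilizer G a), P.Normal ∧ IsPGroup p P ∧ (∀ g : P, ((g : MulAction.stabilizer G a) : G) • b = b) ∧
      P.index ∣ Nat.factorial d * (Nat.factorial (d - 1)) ^ d := by
  obtain ⟨r, h, hab, hr, -⟩ := CF.Recog.exists_orb hprim.toIsPretransitive hd h2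
  obtain ⟨p, hp, h1⟩ := h.exists_isPGroup hprim a
  have hn : 𝐎 {p} (Kr G r a) ⊴ stabilizer G a := (h.Kr_normal a).O _
  refine ⟨p, hp, (𝐎 {p} (Kr G r a)).subgroupOf _, hn.normal, ?_,
    fun g => Kr_le' hab (O_le _ _ g.2), ?_⟩
  · exact (O_pi {p} (Kr G r a)).isPGroup.comap_subtype
  rcases h1 with h1 | h1
  · exact (relIndex_dvd_left _ (le_O ((h.Pr_normal a).of_le Pr_le Kr_le) h1)).trans
      (h.relIndex_Pr_dvd a hr)
  · obtain ⟨g, rfl⟩ := h.exists_smul a b
    have h2 : PiGrp {p} (Pr G (flip r) (g • a)) := by rw [← h.flip.cj_Pr]; exact h1.cj g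
    have h3 : _ ≤ 𝐎 {p} (Kr G r a) := subN_le_O (h.flip.Pr_normal' hab).subN h2
    have h4 := h.flip.relIndex_Pr_dvd (g • a) (d := d) (hr ▸ h.ncard_flip hab)
    refine Dvd.dvd.trans ?_ h4
    have e1 := CF.Solv.card_mul_relIndex (h.flip.Pr_normal (g • a)).le
    have e2 := CF.Solv.card_mul_relIndex hn.le
    have e3 := CF.Solv.card_mul_relIndex h3
    rw [← cj_stab, card_cj, ← e2, ← e3, mul_assoc, cj_stab] at e1
    exact Dvd.intro_left _ (Nat.eq_of_mul_eq_mul_left Nat.card_pos e1).symm

end Cfsg.Agent.S3682
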