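import Cfsg.Statements.S3684
import Cfsg.Agent.Recog.Basic
import Cfsg.Agent.Invol.Dihedral
import Cfsg.Agent.Solv.Basic

set_option autoImplicit false
open Cfsg

namespace Cfsg.Agent.S3684

theorem aux {G : Type*} [Group G] [Finite G] {H : Subgroup G} (h : Nat.card H = 2) :
    ∃ x, orderOf x = 2 ∧ Subgroup.zpowers x = H := by
  obtain ⟨x, hx⟩ := exists_prime_orderOf_dvd_card' 2 h.symm.dvd
  exact ⟨x, by simpa using hx, Subgroup.eq_of_le_of_card_ge (Subgroup.zpowers_le_of_mem x.2) (by
    simp [h, hx])⟩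

/-- Let a finite group G act faithfully and primitively on a set Ω, and suppose the stabilizer of a point a has an orbit of length 2. Then the stabilizer of a has order 2 and G is isomorphic to the dihedral group of order 2p for some prime p. -/
theorem result {G Ω : Type*} [Group G] [Finite G] [MulAction G Ω] [FaithfulSMul G Ω] [Finite Ω]
    (hprim : MulAction.IsPreprimitive G Ω) (a b : Ω) (h2 : Nat.card (MulAction.orbit (MulAction.stabilizer G a) b) = 2) :
    Nat.card (MulAction.stabilizer G a) = 2 ∧ ∃ p : ℕ, p.Prime ∧ Nonempty (G ≃* DihedralGroup p) := by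
  have := hprim.toIsPretransitive
  rw [CF.Recog.card_orbit_stab] at h2
  have h3 := CF.Recog.relIndex_stab_comm (G := G) a b ▸ h2
  have hab : a ≠ b := by rintro rfl; simp at h2
  have : Nontrivial Ω := ⟨a, b, hab⟩
  have k : ∀ H K : Subgroup G, K.relIndex H = 2 → H ≤ Subgroup.normalizer ((K ⊓ H : Subgroup G) : Set G) :=
    fun H K h => by
      rw [← Subgroup.inf_relIndex_right] at h
      have := Subgroup.normal_of_index_eq_two h
      exact Subgroup.le_normalizer_of_normal_subgroupOf inf_le_right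
  have h4 := CF.Recog.eq_bot_of_norm_two hprim hab inf_le_right (k _ _ h2) (inf_comm (MulAction.stabilizer G a) _ ▸ k _ _ h3)
  have h5 := CF.Solv.card_inf_mul_relIndex (MulAction.stabilizer G b) (MulAction.stabilizer G a)
  rw [h4, h2, Subgroup.card_bot, one_mul] at h5
  refine ⟨h5.symm, ?_⟩
  obtain ⟨x, hx, ex⟩ := aux h5.symm
  obtain ⟨y, hy, ey⟩ := aux ((CF.Recog.card_stab_eq (G := G) b a).trans h5.symm)
  have h6 : x * y ≠ 1 := fun e => CF.Invol.ne_one_of_orderOf hx (Subgroup.mem_bot.1 (h4.le ⟨by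
    rw [← ey, eq_inv_of_mul_eq_one_left e]; simp, ex ▸ Subgroup.mem_zpowers x⟩))
  obtain ⟨p, hp, hd⟩ := Nat.exists_prime_and_dvd (mt orderOf_eq_one_iff.1 h6)
  have ho := orderOf_pow_orderOf_div (orderOf_pos _).ne' hd
  set c := (x * y) ^ (orderOf (x * y) / p)
  have hc : c ∈ Subgroup.zpowers (x * y) := Subgroup.npow_mem_zpowers _ _
  have x2 := CF.Invol.mul_self_of_orderOf hx
  have hxc : x ∉ Subgroup.zpowers c := fun h =>
    CF.Invol.not_mem_zpowers_mul hx hy (Subgroup.zpowers_le_of_mem hc h)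
  obtain ⟨e⟩ := CF.Invol.nonempty_closure_equiv_dihedral ho x2 (CF.Invol.inverts_of_mem_zpowers
    (CF.Invol.left_inverts_mul x2 (CF.Invol.mul_self_of_orderOf hy)) hc) hxc
  have : Subgroup.closure ({x, c} : Set G) = ⊤ := (CF.Recog.isCoatom_stab hprim a).2 _ (lt_of_le_of_ne
    (ex ▸ Subgroup.zpowers_le_of_mem (Subgroup.subset_closure (by simp))) fun e => hxc (by
      have h7 : Subgroup.zpowers c ≤ Subgroup.zpowers x :=
        Subgroup.zpowers_le_of_mem (ex ▸ e ▸ Subgroup.subset_closure (by simp))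
      rw [Subgroup.eq_of_le_of_card_ge h7 (by simpa [hx, ho] using hp.two_le)]
      exact Subgroup.mem_zpowers x))
  exact ⟨p, hp, ⟨(Subgroup.topEquiv.symm.trans (MulEquiv.subgroupCongr this.symm)).trans e⟩⟩

end Cfsg.Agent.S3684
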