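import Cfsg.Statements.S3687
import Cfsg.Agent.Perm.Big

set_option autoImplicit false
open Cfsg

namespace Cfsg.Agent.S3687

open MulAction Subgroup CF.BG CF.Sig CF.Recog CF.Perm Equiv

theorem cases {m n : ℕ} {R : Subgroup (Perm (Fin m) × Perm (Fin n))}
    (h : (alternatingGroup _).prod (alternatingGroup _) ≤ R) :
    R = (alternatingGroup _).prod (alternatingGroup _) ∨ R = (alternatingGroup _).prod ⊤ ∨
      R = (⊤ : Subgroup _).prod ⊤ ∨ R = (⊤ : Subgroup _).prod (alternatingGroup _) ∨
      (R = ((Perm.sign.comp (MonoidHom.fst _ _)) * (Perm.sign.comp (MonoidHom.snd _ _))).ker ∧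
        ∃ q ∈ R, Perm.sign q.1 = -1) := by
  set S := R.map (Perm.sign.prodMap Perm.sign)
  have h1 : ∀ p, p ∈ R ↔ (Perm.sign p.1, Perm.sign p.2) ∈ S := fun p =>
    ⟨fun hp => ⟨p, hp, rfl⟩, fun ⟨q, hq, e⟩ => by
      have e1 := congrArg Prod.fst e
      have e2 := congrArg Prod.snd e
      simp only [MonoidHom.coe_prodMap, Prod.map_fst, Prod.map_snd] at e1 e2
      simpa using mul_mem hq (h (show q⁻¹ * p ∈ _ from ⟨by simp [e1], by simp [e2]⟩))⟩
  have m1 := S.mul_mem (x := (-1, 1)) (y := (1, -1))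
  have m2 := S.mul_mem (x := (-1, -1)) (y := (1, -1))
  have m3 := S.mul_mem (x := (-1, 1)) (y := (-1, -1))
  have m4 : (1, 1) ∈ S := S.one_mem
  simp only [Prod.mk_mul_mk, mul_one, one_mul, neg_mul_neg] at m1 m2 m3
  by_cases a : (-1, 1) ∈ S <;> by_cases b : (1, -1) ∈ S <;> by_cases c : (-1, -1) ∈ S
  all_goals first | exact (c (m1 a b)).elim | exact (a (m2 c b)).elim | exact (b (m3 a c)).elim | skip
  on_goal 1 => refine .inr (.inr (.inl ?_))
  on_goal 2 => refine .inr (.inr (.inr (.inl ?_)))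
  on_goal 3 => refine .inr (.inl ?_)
  on_goal 4 => refine .inr (.inr (.inr (.inr ⟨?_, c.imp fun _ h => ⟨h.1, congrArg Prod.fst h.2⟩⟩)))
  on_goal 5 => refine .inl ?_
  all_goals
    ext p
    rw [h1]
    rcases Int.units_eq_one_or (Perm.sign p.1) with e | e <;>
      rcases Int.units_eq_one_or (Perm.sign p.2) with e' | e' <;> simp [mem_prod, *]

theorem map_fst_prod {A B : Type*} [Group A] [Group B] (H : Subgroup A) (K : Subgroup B) :
    (H.prod K).map (MonoidHom.fst A B) = H :=
  le_antisymm (by rintro _ ⟨p, hp, rfl⟩; exact hp.1) fun a ha => ⟨(a, 1), ⟨ha, K.one_mem⟩, rfl⟩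

/-- Let a finite group G act faithfully and primitively on a set Ω, let a and b be points such that the orbit Δ of b under the stabilizer H of a has d ≥ 6 elements, and suppose that the permutation group induced by H on Δ contains the alternating group of Δ (the image of H in the symmetric group of Δ has index at most 2) while H does not act faithfully on Δ. Then either H induces exactly the alternating group of Δ and H is isomorphic to the direct product of the alternating groups of degrees d and d - 1; or H induces the full symmetric group of Δ and H is isomorphic to one of: the direct product of the symmetric groups of degrees d and d - 1, the direct product of the symmetric group of degree d with the alternating group of degree d - 1, or the subgroup of the direct product of the symmetric groups of degrees d and d - 1 consisting of the pairs of permutations with equal signs. -/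
theorem result {G Ω : Type*} [Group G] [Finite G] [MulAction G Ω] [FaithfulSMul G Ω] [Finite Ω]
    (hprim : MulAction.IsPreprimitive G Ω) (a b : Ω) (d : ℕ) (hd : Nat.card (MulAction.orbit (MulAction.stabilizer G a) b) = d) (h6 : 6 ≤ d)
    (halt : (MulAction.toPermHom (MulAction.stabilizer G a) (MulAction.orbit (MulAction.stabilizer G a) b)).range.index ≤ 2)
    (hunf : ¬ Function.Injective (MulAction.toPermHom (MulAction.stabilizer G a) (MulAction.orbit (MulAction.stabilizer G a) b))) :
    ((MulAction.toPermHom (MulAction.stabilizer G a) (MulAction.orbit (MulAction.stabilizer G a) b)).range.index = 2 ∧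
      Nonempty (MulAction.stabilizer G a ≃* alternatingGroup (Fin d) × alternatingGroup (Fin (d - 1)))) ∨
    ((MulAction.toPermHom (MulAction.stabilizer G a) (MulAction.orbit (MulAction.stabilizer G a) b)).range = ⊤ ∧
      (Nonempty (MulAction.stabilizer G a ≃* Equiv.Perm (Fin d) × Equiv.Perm (Fin (d - 1))) ∨
       Nonempty (MulAction.stabilizer G a ≃* Equiv.Perm (Fin d) × alternatingGroup (Fin (d - 1))) ∨
       Nonempty (MulAction.stabilizer G a ≃* ((Equiv.Perm.sign.comp (MonoidHom.fst (Equiv.Perm (Fin d)) (Equiv.Perm (Fin (d - 1))))) *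
         (Equiv.Perm.sign.comp (MonoidHom.snd (Equiv.Perm (Fin d)) (Equiv.Perm (Fin (d - 1)))))).ker))) := by
  obtain ⟨r, ho, hab, hr, hr'⟩ := exists_orb hprim.toIsPretransitive hd (by omega)
  set φ₀ := toPermHom (stabilizer G a) (orbit (stabilizer G a) b)
  have k0 : ∀ g, φ₀ g = 1 ↔ g.1 ∈ Kr G r a := fun g => ⟨fun e => mem_Kr.2 ⟨g.2, fun y hy =>
    congrArg Subtype.val (Equiv.congr_fun e ⟨y, hr' ▸ hy⟩)⟩, fun e => Equiv.ext fun y =>
      Subtype.ext ((mem_Kr.1 e).2 y (hr'.ge y.2))⟩
  have k1 : d.factorial ≤ 2 * (Kr G r a).relIndex (stabilizer G a) := by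
    rw [relIndex, ← show φ₀.ker = (Kr G r a).subgroupOf _ from Subgroup.ext k0, index_ker, ← hd, ← Nat.card_perm,
      ← card_mul_index φ₀.range, mul_comm]
    exact Nat.mul_le_mul_right _ halt
  have h := ob_of ho hr k1 h6
  have hφ := big_of φ₀ hd Kr_le k0 k1
  have k2 : ((Finite.equivFinOfCardEq hd).permCongrHom.toMonoidHom.comp φ₀).range.index =
      φ₀.range.index := by
    rw [MonoidHom.range_comp]; exact index_map_equiv φ₀.range (Finite.equivFinOfCardEq hd).permCongrHom
  generalize (Finite.equivFinOfCardEq hd).permCongrHom.toMonoidHom.comp φ₀ = φ at hφ k2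
  have hK : Kr G r a ≠ ⊥ := fun e => hunf ((injective_iff_map_eq_one _).2 fun g hg =>
    Subtype.ext ((e.le ((k0 g).1 hg))))
  obtain ⟨φ', hφ'⟩ := h.big2' hprim hab
  have n1 := (ho.Kr_normal a).of_le (h.big2 hab).le inf_le_left
  have nC := normalIn_inf_cent (ho.Kr_normal a).norm
  have c0 : ¬ Kr G r a ≤ Kr G (flip r) b := fun e => hK (eq_bot_mono (h.eq_bot_of_le hprim hab e) e)
  have c1 : Kr G (flip r) b ≤ stabilizer G a ⊓ 𝐂 (Kr G r a) := le_inf (hφ'.le.trans inf_le_left)
    (cent_symm (n1.cent_of_inf_eq_bot ((ho.flip.Kr_normal b).of_le hφ'.le inf_le_right)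
      (h.inf_eq_bot hprim hab)))
  have c3 : ¬ stabilizer G a ⊓ 𝐂 (Kr G r a) ≤ Kr G r a := fun e =>
    hK ((h.flip hprim).eq_bot_of_le hprim hab (c1.trans e))
  have c4 := h.le_sup hab nC c3
  have c5 := Big.cent_le ⟨φ', hφ'⟩ (by omega) n1 c0
  obtain ⟨ψ, p1, p2⟩ := exists_ext nC inf_le_left c4 φ' fun l hl => hφ'.ker.ge (c5 ⟨l.2, hl.2⟩)
  have p3 : ∀ g, ψ g = 1 → g.1 ∈ stabilizer G a ⊓ 𝐂 (Kr G r a) := fun ⟨g, hg⟩ e => by
    obtain ⟨l, hl, c, hc, rfl⟩ := (mem_sup_of_le_normalizer (inf_le_left.trans nC.norm)).1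
      (sup_comm (stabilizer G a ⊓ 𝐂 (Kr G r a)) _ ▸ c4 hg)
    have : ψ (inclusion inf_le_left ⟨l, hl⟩ * ⟨c, hc.1⟩) = 1 := e
    rw [map_mul, p1, p2 _ hc, mul_one] at this
    exact mul_mem (c1 (hφ'.ker.le this)) hc
  have inj : Function.Injective (φ.prod ψ) := (injective_iff_map_eq_one _).2 fun g hg =>
    Subtype.ext ((h.cent_inf hprim a).le ⟨p3 g (congrArg Prod.snd hg), hφ.ker.le (congrArg Prod.fst hg)⟩)
  have e := MonoidHom.ofInjective inj
  have r1 : φ.range = (φ.prod ψ).range.map (MonoidHom.fst _ _) := by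
    rw [← MonoidHom.range_comp]; rfl
  have := Fin.nontrivial_iff_two_le.2 (show 2 ≤ d by omega)
  have t : φ.range = ⊤ → φ₀.range = ⊤ := fun e => index_eq_one.1 (by rw [← k2, e, index_top])
  rcases cases (R := (φ.prod ψ).range) (fun ⟨s, t⟩ ⟨h1, h2⟩ => by
    obtain ⟨u, hu, rfl⟩ := hφ.alt_le (by omega) nC c3 h1
    obtain ⟨v, hv, rfl⟩ := hφ'.alt_le (by omega) n1 c0 h2
    refine ⟨u * inclusion inf_le_left v, ?_⟩
    simp [p1, p2 u hu, show φ (inclusion inf_le_left v) = 1 from hφ.ker.ge hv]) with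
    c | c | c | c | ⟨c, q, hq, e'⟩
  · rw [c, map_fst_prod] at r1
    exact .inl ⟨by rw [← k2, r1, alternatingGroup.index_eq_two],
      ⟨(e.trans (MulEquiv.subgroupCongr c)).trans (Subgroup.prodEquiv _ _)⟩⟩
  · exfalso
    obtain ⟨g, hg⟩ := ho.exists_smul a b
    have c6 : ♯(Kr G (flip r) b) = ♯(Kr G (flip r) a) := by rw [← hg, ← ho.flip.cj_Kr, card_cj]
    have c7 : Kr G r a ≤ Kr G (flip r) a := by_contra fun e => by
      have := eq_of_le_of_card_ge c1 (c6 ▸ card_le_of_le (((h.flip hprim).big1 a).cent_le (by omega)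
        (ho.Kr_normal a) e))
      rw [← this, sup_eq_right.2 hφ'.le] at c4
      have := relIndex_eq_one.2 c4
      rw [h.relIndex hab] at this; omega
    have c8 := Nat.card_congr ((e.trans (MulEquiv.subgroupCongr c)).trans (Subgroup.prodEquiv _ _)).toEquiv
    have c9 := hφ.relIndex le_rfl
    rw [c, map_fst_prod] at r1
    rw [subgroupOf_self, ← MonoidHom.range_eq_map, r1] at c9
    rw [Nat.card_prod, card_top, Nat.card_perm, Nat.card_fin, ← card_mul_relIndex hφ.le, c9, mul_comm,
      Nat.mul_right_inj Nat.card_pos.ne'] at c8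
    have c10 := relIndex_le_of_le_right (H := Kr G r a) hφ'.le (relIndex_ne_zero' _ _)
    rw [← inf_relIndex_right, h.inf_eq_bot hprim hab, relIndex_bot_left, c6] at c10
    have c11 := two_mul_nat_card_alternatingGroup (α := Fin d)
    rw [← c9, ← relIndex_mul_relIndex _ _ _ n1.le inf_le_left, h.relIndex hab, Nat.card_perm, Nat.card_fin,
      ← Nat.mul_factorial_pred (by omega), ← mul_assoc, mul_comm, Nat.mul_right_inj (by omega)] at c11
    have := card_le_of_le c7
    have := (d - 1).factorial_pos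
    omega
  · rw [c, map_fst_prod] at r1
    exact .inr ⟨t r1, .inl ⟨(e.trans (MulEquiv.subgroupCongr c)).trans ((Subgroup.prodEquiv _ _).trans
      (topEquiv.prodCongr topEquiv))⟩⟩
  · rw [c, map_fst_prod] at r1
    exact .inr ⟨t r1, .inr (.inl ⟨(e.trans (MulEquiv.subgroupCongr c)).trans ((Subgroup.prodEquiv _ _).trans
      (topEquiv.prodCongr (.refl _)))⟩)⟩
  · refine .inr ⟨t ?_, .inr (.inr ⟨e.trans (MulEquiv.subgroupCongr c)⟩)⟩
    refine index_eq_one.1 (((Nat.dvd_prime Nat.prime_two).1 ((index_dvd_of_le hφ.alt).trans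
      alternatingGroup.index_eq_two.dvd)).resolve_right fun e => ?_)
    have := (Perm.eq_alternatingGroup_of_index_eq_two e).le (r1.ge (mem_map_of_mem _ hq))
    simp [e'] at this

end Cfsg.Agent.S3687
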