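import Cfsg.Statements.S3693
import Cfsg.Agent.Recog.TW

set_option autoImplicit false
open Cfsg

namespace Cfsg.Agent.S3693

open CF.Recog CF.BG CF.Sig MulAction in

/-- Let a finite group G act faithfully and primitively on a set Ω, let a and b be points such that the orbit Δ of b under the stabilizer H of a has length d ≥ 2, and consider the permutation group induced on Δ by the elements of H fixing b. If that induced group has trivial Fitting subgroup (no non-trivial nilpotent normal subgroup), then the two-point stabilizer of a and b has trivial Fitting subgroup and the order of H divides d! · ((d - 1)!)^d. -/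
theorem result {G Ω : Type*} [Group G] [Finite G] [MulAction G Ω] [FaithfulSMul G Ω] [Finite Ω]
    (hprim : MulAction.IsPreprimitive G Ω) (a b : Ω) (d : ℕ) (hd : Nat.card (MulAction.orbit (MulAction.stabilizer G a) b) = d) (h2 : 2 ≤ d)
    (hF : Cfsg.fittingSubgroup ↥(((MulAction.stabilizer G b).subgroupOf (MulAction.stabilizer G a)).map (MulAction.toPermHom (MulAction.stabilizer G a) (MulAction.orbit (MulAction.stabilizer G a) b))) = ⊥) :
    Cfsg.fittingSubgroup ↥(MulAction.stabilizer G a ⊓ MulAction.stabilizer G b) = ⊥ ∧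
      Nat.card (MulAction.stabilizer G a) ∣ Nat.factorial d * (Nat.factorial (d - 1)) ^ d := by
  obtain ⟨r, h, hab, hr, hr'⟩ := CF.Recog.exists_orb hprim.toIsPretransitive hd h2
  have hFK : 𝐅 (stabilizer G a ⊓ stabilizer G b) ≤ Kr G r a := by
    rw [inf_comm, ← Subgroup.subgroupOf_map_subtype, ← map_F _ (Subgroup.subtype_injective _)]
    rintro _ ⟨g, hg, rfl⟩
    have h1 := map_F_le _ (toPermHom (stabilizer G a) (orbit (stabilizer G a) b)) ⟨g, hg, rfl⟩
    rw [Cfsg.fittingOf, hF, Subgroup.map_bot, Subgroup.mem_bot] at h1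
    exact mem_Kr.2 ⟨g.2, fun y hy => congrArg Subtype.val (Equiv.congr_fun h1 ⟨y, hr' ▸ hy⟩)⟩
  have hKn : Kr G r a ⊴ stabilizer G a ⊓ stabilizer G b :=
    (h.Kr_normal a).of_le (le_inf Kr_le (Kr_le' hab)) inf_le_left
  have hO : ∀ p : ℕ, 𝐎 {p} (stabilizer G a ⊓ stabilizer G b) = ⊥ := by
    intro p
    set D := 𝐎 {p} (stabilizer G a ⊓ stabilizer G b) with hD
    by_contra h1
    have e : D = 𝐎 {p} (Kr G r a) := by
      rw [← O_inf_normal hKn, ← hD, inf_eq_left.2 ((O_le_F _ _).trans hFK)]
    have hn : D ⊴ stabilizer G a := e ▸ (h.Kr_normal a).O _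
    have hDb : D ≤ stabilizer G b := (O_le _ _).trans inf_le_right
    have hnQ : D ≤ 𝐍 (𝐎 {p} (stabilizer G b)) := hDb.trans (O_normal _ _).norm
    have h3 := ((O_pi {p} _).sup (O_pi {p} (stabilizer G b)) (Or.inl hnQ)).nil.eq_of_inf_norm_le
      le_sup_left (by
        refine (inf_le_inf_left _ (norm_le_stab hprim h1 hn)).trans ?_
        rw [sup_inf_eq_of_le_normalizer hn.le (Or.inl hnQ)]
        refine sup_le le_rfl ?_
        have := O_inf_le (inf_le_right : stabilizer G a ⊓ stabilizer G b ≤ _) {p}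
        exact le_trans (le_inf inf_le_left (le_inf inf_le_right (inf_le_left.trans (O_le _ _)))) this)
    have h4 : 𝐎 {p} (stabilizer G b) ≤ 𝐎 {p} (stabilizer G a) :=
      (le_sup_right.trans h3.ge).trans (le_O hn (O_pi _ _))
    have h5 := O_eq_bot_of_le hprim (h.ne hab).symm h4
    obtain ⟨g, rfl⟩ := h.exists_smul a b
    rw [← cj_stab, ← cj_O, cj_eq_bot] at h5
    exact h1 (eq_bot_mono h5 (le_O hn (O_pi _ _)))
  constructor
  · have : 𝐅 (stabilizer G a ⊓ stabilizer G b) = ⊥ :=
      le_bot_iff.1 (F_le_of_forall fun p _ _ => (hO p).le)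
    rwa [Cfsg.fittingOf, Subgroup.map_eq_bot_iff_of_injective _ (Subgroup.subtype_injective _)] at this
  refine h.card_dvd hab hr ?_
  obtain ⟨p, hp, h1 | h1⟩ := h.exists_isPGroup hprim a
  · exact Or.inl (eq_bot_mono (hO p) (le_O ((h.Pr_normal a).of_le (Pr_le.trans hKn.le)
      inf_le_left) h1))
  · right
    obtain ⟨g, rfl⟩ := h.exists_smul a b
    have h2 : PiGrp {p} (Pr G (flip r) (g • a)) := by rw [← h.flip.cj_Pr]; exact h1.cj g
    have := eq_bot_mono (hO p) (le_O ((h.flip.Pr_normal (g • a)).of_le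
      (le_inf (Pr_le.trans (Kr_le' hab)) (Pr_le.trans Kr_le)) inf_le_right) h2)
    rwa [← h.flip.cj_Pr, cj_eq_bot] at this

end Cfsg.Agent.S3693
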