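import Cfsg.Statements.S3694
import Cfsg.Agent.Wb.Main

set_option autoImplicit false
open Cfsg

namespace Cfsg.Agent.S3694

/-- An explicit form of the Sims conjecture for linear and unitary socles. Let a finite group G with a non-abelian simple normal subgroup N of trivial centralizer act faithfully and primitively on a set Ω, where N is isomorphic to a projective special linear group PSL(n, q) or a projective special unitary group PSU(n, q). If the stabilizer of a point a has an orbit of length d ≥ 2, then the order of that stabilizer is at most d! · ((d - 1)!)^d. -/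
theorem result {G Ω : Type*} [Group G] [Finite G] [MulAction G Ω] [FaithfulSMul G Ω] [Finite Ω]
    (N : Subgroup G) (hNn : N.Normal) (hNs : IsSimpleGroup N) (hNa : ¬ IsMulCommutative N) (hNc : Subgroup.centralizer (N : Set G) = ⊥) (hsoc : Cfsg.IsPSL N ∨ Cfsg.IsPSU N)
    (hprim : MulAction.IsPreprimitive G Ω) (a b : Ω) (d : ℕ) (hd : Nat.card (MulAction.orbit (MulAction.stabilizer G a) b) = d) (h2 : 2 ≤ d) :
    Nat.card (MulAction.stabilizer G a) ≤ Nat.factorial d * (Nat.factorial (d - 1)) ^ d :=
  CF.Wb.main N hNn hNs hNc hsoc hprim a b d hd h2

end Cfsg.Agent.S3694
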