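import Cfsg.Statements.S3696
import Cfsg.Agent.Solv.Basic

set_option autoImplicit false
open Cfsg

namespace Cfsg.Agent.S3696

theorem amgm (a b j k : ℕ) (hj : 0 < j) :
    a ^ j * b ^ k * (j + k) ^ (j + k) ≤ (a + b) ^ (j + k) * (j ^ j * k ^ k) := by
  rcases k.eq_zero_or_pos with rfl | hk
  · simpa using Nat.mul_le_mul_right _ (Nat.pow_le_pow_left (Nat.le_add_right a b) j)
  have h1 : (0 : ℝ) < j := by positivity
  have h2 : (0 : ℝ) < k := by positivity
  have h := Real.geom_mean_le_arith_mean2_weighted (w₁ := j / (j + k)) (w₂ := k / (j + k))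
    (p₁ := a / j) (p₂ := b / k) (by positivity) (by positivity) (by positivity) (by positivity)
    (by field_simp)
  have h3 := pow_le_pow_left₀ (by positivity) h (j + k)
  rw [mul_pow, ← Real.rpow_natCast, ← Real.rpow_natCast (_ ^ _), ← Real.rpow_mul (by positivity),
    ← Real.rpow_mul (by positivity), Nat.cast_add, div_mul_cancel₀ _ (by positivity),
    div_mul_cancel₀ _ (by positivity), Real.rpow_natCast, Real.rpow_natCast,
    show (j / (j + k) * (a / j) + k / (j + k) * (b / k) : ℝ) = (a + b) / (j + k) by field_simp,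
    div_pow, div_pow, div_pow, div_mul_div_comm, div_le_div_iff₀ (by positivity) (by positivity)] at h3
  exact_mod_cast h3

theorem main {G Ω : Type*} [CommGroup G] [Finite G] [Finite Ω] [MulAction G Ω] {p : ℕ} [hp : Fact p.Prime]
    (hG : IsPGroup p G) (n : ℕ) : ∀ (S : Set Ω) (K : Subgroup G) (k : ℕ), S.ncard = n →
      (∀ x ∈ K, ∀ s ∈ S, x • s ∈ S) → (∀ x ∈ K, (∀ s ∈ S, x • s = s) → x = 1) →
      Nat.card ↥(K ⊓ (powMonoidHom p).ker) = p ^ k → Nat.card K * k ^ k ≤ n ^ k := by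
  induction n using Nat.strong_induction_on with | _ n ih => ?_
  intro S K k hn h1 h2 hk
  by_cases h : K = ⊥
  · subst h
    have : k = 0 := by simpa [hp.out.ne_one] using hk.symm
    simp [this]
  obtain ⟨m, hm⟩ := IsPGroup.iff_card.1 (hG.to_subgroup K)
  obtain ⟨x, hx⟩ := exists_prime_orderOf_dvd_card' (G := K) p (hm ▸ dvd_pow_self p (by
    rintro rfl; exact h (Subgroup.eq_bot_of_card_eq K hm)))
  obtain ⟨s, hs, h3⟩ : ∃ s ∈ S, (x : G) • s ≠ s := by
    by_contra! e
    exact hp.out.ne_one (by rw [← hx, show x = 1 from Subtype.ext (h2 x x.2 e), orderOf_one])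
  set T := MulAction.stabilizer G s
  set E : Subgroup G := (powMonoidHom p).ker
  have hO : MulAction.orbit K s ⊆ S := by rintro _ ⟨y, rfl⟩; exact h1 y y.2 s hs
  have hT : (MulAction.orbit K s).ncard = T.relIndex K := (MulAction.index_stabilizer K s).symm
  obtain ⟨l, hl⟩ := IsPGroup.iff_card.1 (hG.to_subgroup (T ⊓ (K ⊓ E)))
  have h0 : T.relIndex K ≠ 0 := Subgroup.index_ne_zero_of_finite
  have h8 : T.relIndex K ≤ n := hT ▸ hn ▸ Set.ncard_le_ncard hO
  have h4 := ih _ (by omega) (S \ MulAction.orbit K s) (T ⊓ K) l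
    (hT ▸ hn ▸ Set.ncard_sdiff hO : _ = n - T.relIndex K)
    (fun y hy t ht => ⟨h1 y hy.2 t ht.1, fun e => ht.2 (by
      simpa [Subgroup.smul_def] using MulAction.mem_orbit_of_mem_orbit (⟨y, hy.2⟩ : K)⁻¹ e)⟩)
    (fun y hy e => h2 y hy.2 fun t ht => by
      by_cases h5 : t ∈ MulAction.orbit K s
      · obtain ⟨z, rfl⟩ := h5
        exact (smul_comm y (z : G) s).trans (congrArg _ hy.1)
      · exact e t ⟨ht, h5⟩) (by rwa [inf_assoc])
  have h5 := CF.Solv.card_inf_mul_relIndex T (K ⊓ E)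
  have h6 : T.relIndex (K ⊓ E) ≠ 1 := fun e => h3 (Subgroup.relIndex_eq_one.1 e
    ⟨x.2, show (x : G) ^ p = 1 by rw [← hx, ← Subgroup.orderOf_coe, pow_orderOf_eq_one]⟩)
  rw [hl, hk] at h5
  obtain ⟨j, rfl⟩ := Nat.exists_eq_add_of_le' ((Nat.pow_dvd_pow_iff_le_right hp.out.one_lt).1 (Dvd.intro _ h5))
  rw [pow_add, mul_comm, Nat.mul_left_inj (pow_pos hp.out.pos l).ne'] at h5
  have hj : 0 < j := Nat.pos_of_ne_zero (by rintro rfl; exact h6 h5)
  have h7 : p ^ j ≤ T.relIndex K := h5 ▸ Subgroup.relIndex_le_of_le_right inf_le_left h0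
  rw [← CF.Solv.card_inf_mul_relIndex T K]
  generalize T.relIndex K = a at *
  have h9 : a * j ^ j ≤ a ^ j := by
    obtain ⟨i, rfl⟩ := Nat.exists_eq_add_of_le' hj
    rw [pow_succ' a]
    refine Nat.mul_le_mul_left _ ((Nat.pow_le_pow_left i.lt_two_pow_self _).trans ?_)
    rw [← pow_mul, mul_comm, pow_mul]
    exact Nat.pow_le_pow_left ((Nat.pow_le_pow_left hp.out.two_le _).trans h7) _
  have := amgm a (n - a) j l hj
  rw [Nat.add_sub_cancel' h8] at this
  refine Nat.le_of_mul_le_mul_right (le_trans ?_ this) (Nat.mul_pos (by positivity) (Nat.pow_self_pos))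
  calc _ = a * j ^ j * (Nat.card ↥(T ⊓ K) * l ^ l) * (j + l) ^ (j + l) := by ring
    _ ≤ _ := by gcongr

/-- Let p be a prime, Ω a finite set with n ≥ p elements, and A an abelian p-subgroup of the symmetric group on Ω whose elements of order dividing p number p^k (so k is the rank of A). Then |A| · k^k ≤ n^k, that is, |A| ≤ (n/k)^k. -/
theorem result {Ω : Type*} [Fintype Ω] [DecidableEq Ω]
    (p : ℕ) (hp : p.Prime) (hn : p ≤ Fintype.card Ω) (A : Subgroup (Equiv.Perm Ω)) (hA : IsPGroup p A) (hab : IsMulCommutative A)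
    (k : ℕ) (hk : Nat.card {x : A // x ^ p = 1} = p ^ k) :
    Nat.card A * k ^ k ≤ Fintype.card Ω ^ k := by
  have := Fact.mk hp
  let : CommGroup A := { (inferInstance : Group A) with mul_comm := mul_comm' }
  have := main (Ω := Ω) hA _ Set.univ ⊤ k rfl (by simp) (fun x _ h => Subtype.ext (Equiv.ext fun s => h s trivial))
    (by rw [top_inf_eq]; exact hk)
  simpa [Set.ncard_univ] using this

end Cfsg.Agent.S3696
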