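import Cfsg.Statements.S3701
import Cfsg.Agent.Char.T3e

set_option autoImplicit false
open Cfsg

namespace Cfsg.Agent.S3701

open CF CF.Char Subgroup in
/-- Let H₀ ≤ Sym(9) be generated by the 3-cycles (1 2 3), (4 5 6), (7 8 9) and the involutions (1 2)(4 5), (1 2)(7 8) (a group of order 108, elementary abelian of order 27 extended by a four-group). Let G be a finite group with a subgroup H ≅ H₀, and T ≤ H of order 27 (a Sylow 3-subgroup of H) with N_G(T) = H and C_G(t) ≤ H for every t ≠ 1 in T. Then G = H. -/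
theorem result {G : Type*} [Group G] [Finite G] (H : Subgroup G)
    (hH : Nonempty (↥H ≃* ↥(Subgroup.closure ({Equiv.swap (0 : Fin 9) 1 * Equiv.swap 1 2, Equiv.swap (3 : Fin 9) 4 * Equiv.swap 4 5, Equiv.swap (6 : Fin 9) 7 * Equiv.swap 7 8,
        Equiv.swap (0 : Fin 9) 1 * Equiv.swap 3 4, Equiv.swap (0 : Fin 9) 1 * Equiv.swap 6 7} : Set (Equiv.Perm (Fin 9))))))
    (T : Subgroup G) (hTH : T ≤ H) (hT : Nat.card T = 27) (hN : Subgroup.normalizer (T : Set G) = H)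
    (hC : ∀ t ∈ T, t ≠ 1 → Subgroup.centralizer ({t} : Set G) ≤ H) : H = ⊤ := by
  obtain ⟨f, hf, fH, hs⟩ := T3.exists_gens hH.some
  let a := f ⟨_, subset_closure (.inl rfl)⟩
  let b := f ⟨_, subset_closure (.inr (.inl rfl))⟩
  let c := f ⟨_, subset_closure (.inr (.inr (.inl rfl)))⟩
  let s := f ⟨_, subset_closure (.inr (.inr (.inr (.inl rfl))))⟩
  let t := f ⟨_, subset_closure (.inr (.inr (.inr (.inr rfl))))⟩
  refine T3.k4_main (a := a) (b := b) (c := c) (s := s) (t := t) ?_ ?_ ?_ ?_ ?_ ?_ ?_ ?_ ?_ ?_ ?_ ?_ ?_ ?_ ?_ ?_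
    (hs.trans (closure_mono ?_)) (fun u => mul_mem (mul_mem (pow_mem (fH _) _) (pow_mem (fH _) _)) (pow_mem (fH _) _))
    (fH _) hTH hT hN hC
  pick_goal 17
  · rintro _ ⟨⟨_, _⟩, rfl | rfl | rfl | rfl | rfl, rfl⟩ <;> simp [a, b, c, s, t]
  all_goals
    simp only [a, b, c, s, t, T3.ph3, Commute, SemiconjBy, ← map_pow, ← map_mul, ← map_inv, map_eq_one_iff f hf,
      hf.eq_iff, Subtype.ext_iff, coe_mul, coe_pow, coe_inv, coe_one]
    decide +kernel

end Cfsg.Agent.S3701
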