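import Cfsg.Statements.S3703
import Cfsg.Agent.Recog.Mazurov
import Cfsg.Agent.Solv.Hall

set_option autoImplicit false
open Cfsg

namespace Cfsg.Agent.S3703

open Subgroup CF.Coprime CF.Solv in
open scoped Pointwise in

/-- Let N be a normal subgroup of the finite group G such that G/N is a Frobenius group with kernel F and cyclic complement H, where the order of F is coprime to that of N and F is not contained in the image of C_G(N) in G/N. Then G has an element of order p·#H for some prime p dividing the order of N. (A standard tool in recognising groups by their element orders.) -/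
theorem result {G : Type*} [Group G] [Finite G] (N : Subgroup G) [N.Normal]
    (Fb Hb : Subgroup (G ⧸ N)) [Fb.Normal] (hHb : Cfsg.IsFrobeniusComplement Hb) (hker : Cfsg.frobeniusKernel Hb = (Fb : Set (G ⧸ N)))
    (hcyc : IsCyclic Hb) (hcop : (Nat.card Fb).Coprime (Nat.card N))
    (hnot : ¬ Fb ≤ (Subgroup.centralizer (N : Set G)).map (QuotientGroup.mk' N)) :
    ∃ p : ℕ, p.Prime ∧ p ∣ Nat.card N ∧ ∃ g : G, orderOf g = p * Nat.card Hb := by
  by_contra! hno
  obtain ⟨K, e, -, -, -, hs, hnil⟩ := frob_exists_nilpotent_kernel hHb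
  obtain rfl : K = Fb := SetLike.coe_injective (e.trans hker)
  let π := QuotientGroup.mk' N
  have hπ := QuotientGroup.mk'_surjective N
  have h1 : N.relIndex (K.comap π) = Nat.card K := by rw [← card_map_mk', map_comap_mk']
  obtain ⟨F, h2, h3, h4, h5⟩ := exists_complement_of_coprime (le_comap_mk' N K) le_normalizer_of_normal
    (h1 ▸ hcop.symm)
  rw [h1] at h5
  have h6 : F.map π = K := by
    rw [← map_comap_mk' N K, ← h4, Subgroup.map_sup, (map_mk'_eq_bot_iff N N).2 le_rfl, bot_sup_eq]
  have h7 : ∀ x ∈ F, π x = 1 → x = 1 := fun x hx e =>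
    mem_bot.1 (h3 ▸ mem_inf.2 ⟨(QuotientGroup.eq_one_iff x).1 e, hx⟩)
  have : Group.IsSolvable F := Group.isSolvable_of_isSolvable_injective (f := (π.comp F.subtype).codRestrict K
    fun x => h2 x.2) ((injective_iff_map_eq_one _).2 fun x e => Subtype.ext (h7 x x.2 (congrArg Subtype.val e)))
  have hc : (Nat.card F).Coprime (Nat.card N) := h5 ▸ hcop
  obtain ⟨y, hy⟩ := (Hb.isCyclic_iff_exists_zpowers_eq_top).1 hcyc
  have hm : orderOf y = Nat.card Hb := by rw [← Nat.card_zpowers, hy]
  have ho : ∀ g : G, π g = y → orderOf g = orderOf y := fun g hg => by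
    obtain ⟨k, hk⟩ := hg ▸ orderOf_map_dvd π g
    by_contra h
    obtain ⟨p, hp, l, rfl⟩ := Nat.exists_prime_and_dvd (show k ≠ 1 by rintro rfl; exact h (by rw [hk, mul_one]))
    have hl : l ≠ 0 := by rintro rfl; exact (orderOf_pos g).ne' hk
    refine hno p hp (Dvd.dvd.trans ?_ (orderOf_dvd_natCard N (x := g ^ orderOf y) ?_)) (g ^ l) ?_
    · rw [orderOf_pow_of_dvd (orderOf_pos y).ne' ⟨_, hk⟩, hk, Nat.mul_div_cancel_left _ (orderOf_pos y)]
      exact dvd_mul_right p l
    · exact (QuotientGroup.eq_one_iff _).1 ((map_pow π _ _).trans (by rw [hg, pow_orderOf_eq_one]))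
    · rw [orderOf_pow_of_dvd hl (hk ▸ Dvd.intro_left _ (mul_assoc _ _ _)), hk, ← mul_assoc,
        Nat.mul_div_cancel _ (Nat.pos_of_ne_zero hl), hm, mul_comm]
  obtain ⟨g, hg, hgF⟩ : ∃ g, π g = y ∧ g ∈ normalizer (F : Set G) := by
    obtain ⟨g, hg⟩ := hπ y
    obtain ⟨n, hn, h⟩ := exists_conj_le_of_le_sup F (MulAut.conj g • F) N le_normalizer_of_normal
      (h4 ▸ fun x hx => by
        simpa only [mul_assoc, mul_inv_cancel_left, mul_inv_cancel, mul_one] using
          (inferInstance : (K.comap π).Normal).conj_mem _ (h2 (mem_conj_smul_iff.1 hx)) g)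
      (by rwa [card_smul]) (.inl (Group.isSolvable_of_surjective (f := (equivSMul (MulAut.conj g) F).toMonoidHom)
        (MulEquiv.surjective _)))
    exact ⟨n * g, by rw [map_mul, hg, show π n = 1 from (QuotientGroup.eq_one_iff n).2 hn, one_mul],
      mem_normalizer_of_conj_smul_le (conj_smul_conj_smul F n g ▸ h)⟩
  refine hnot (h6 ▸ map_mono (le_centralizer_iff.1 (le_of_forall_isSylowOf fun p hp _ => ?_)))
  have := Fact.mk hp
  obtain ⟨P, hP, h8⟩ := exists_invariant_isSylowOf F N le_normalizer_of_normal hc (.inl ‹_›) p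
  obtain ⟨c, hc1, h9⟩ := invariant_isSylowOf_conj F N le_normalizer_of_normal hc (.inl ‹_›) p
    (hP.conj_smul (g := g) (le_normalizer_of_normal (mem_top g))) hP
    (by rw [normalizer_conj_smul, ← conj_smul_eq_iff.2 hgF]; exact pointwise_smul_le_pointwise_smul_iff.2 h8) h8
  rw [conj_smul_conj_smul, conj_smul_eq_iff] at h9
  have h10 : ∀ v ∈ N, π (v * (c * g)) = y := fun v hv => by
    rw [← mul_assoc, map_mul, hg, show π _ = 1 from (QuotientGroup.eq_one_iff _).2 (mul_mem hv hc1.1), one_mul]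
  have h11 := h10 1 (one_mem N)
  rw [one_mul] at h11
  have := hP.isPGroup.isNilpotent
  refine ⟨P, hP, le_centralizer_iff.1 (CF.Recog.le_centralizer_of_coset_pow F P (h := c * g)
    (mul_mem (centralizer_le_normalizer _ hc1.2) hgF) ?_ h9 h8 (hc.coprime_dvd_right (card_dvd_of_le hP.le))
    fun v hv => by rw [ho _ h11, ← ho _ (h10 v (hP.le hv)), pow_orderOf_eq_one])⟩
  rintro _ ⟨i, rfl⟩ h
  refine fpf_iff.2 fun x hx e => h7 x hx ((hs.eq_one (hy ▸ zpow_mem_zpowers y i) (h2 hx) (by
    rw [← h11, ← map_zpow, ← map_mul, ← map_mul]; exact congrArg π e)).resolve_left fun e => h ?_)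
  simpa only [← orderOf_dvd_iff_zpow_eq_one, ho _ h11] using e

end Cfsg.Agent.S3703
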