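import Cfsg.Statements.S3713
import Cfsg.Agent.Phan.Sp3

set_option autoImplicit false
open Cfsg

namespace Cfsg.Agent.S3713

open CF.Phan CF.Phan.Sp

/-- A presentation of the symplectic group as the universal completion of an amalgam of small subgroups. Let F be a field with more than two elements, n ≥ 2, and Sp the group of 2n × 2n matrices over F preserving the standard alternating form, acting on column vectors; write e_k, f_k for the standard basis vectors of the two halves (a hyperbolic basis). For each k let S_k be the subgroup of Sp fixing e_l and f_l for all l ≠ k (a copy of SL(2, F) on the plane of e_k, f_k), and for each i with i + 1 < n let M_i be the subgroup fixing every e_l and fixing f_l for all l other than i, i+1 (an abelian group isomorphic to the additive group of F³). Then Sp is the universal completion of the amalgam formed by the S_k, the M_i and the subgroups generated by two of them: for every group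 H and homomorphisms σ_k : S_k → H, μ_i : M_i → H such that for each pair of these subgroups some homomorphism on the subgroup they generate restricts to the given ones, there is exactly one homomorphism Sp → H restricting to every σ_k and μ_i. -/
theorem result
    (F : Type*) [Field F] (hF : ∃ a : F, a ≠ 0 ∧ a ≠ 1) (n : ℕ) (hn : 2 ≤ n)
    (S M : Fin n → Subgroup ↥(Matrix.symplecticGroup (Fin n) F))
    (hS : ∀ j : Fin n, S j = Subgroup.closure {A : ↥(Matrix.symplecticGroup (Fin n) F) | ∀ k : Fin n, k ≠ j →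
      ((A : ↥(Matrix.symplecticGroup (Fin n) F)) : Matrix (Fin n ⊕ Fin n) (Fin n ⊕ Fin n) F).mulVec (Pi.single (Sum.inl k) (1 : F)) = (Pi.single (Sum.inl k) (1 : F)) ∧ ((A : ↥(Matrix.symplecticGroup (Fin n) F)) : Matrix (Fin n ⊕ Fin n) (Fin n ⊕ Fin n) F).mulVec (Pi.single (Sum.inr k) (1 : F)) = (Pi.single (Sum.inr k) (1 : F))})
    (hM : ∀ i : Fin n, (i : ℕ) + 1 < n → M i = Subgroup.closure {A : ↥(Matrix.symplecticGroup (Fin n) F) |
      (∀ k : Fin n, ((A : ↥(Matrix.symplecticGroup (Fin n) F)) : Matrix (Fin n ⊕ Fin n) (Fin n ⊕ Fin n) F).mulVec (Pi.single (Sum.inl k) (1 : F)) = (Pi.single (Sum.inl k) (1 : F))) ∧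
        ∀ k : Fin n, (k : ℕ) ≠ i → (k : ℕ) ≠ (i : ℕ) + 1 → ((A : ↥(Matrix.symplecticGroup (Fin n) F)) : Matrix (Fin n ⊕ Fin n) (Fin n ⊕ Fin n) F).mulVec (Pi.single (Sum.inr k) (1 : F)) = (Pi.single (Sum.inr k) (1 : F))})
    {H : Type*} [Group H] (σ : ∀ j : Fin n, ↥(S j) →* H) (μ : ∀ i : Fin n, ↥(M i) →* H)
    (hSS : ∀ j l : Fin n, j ≠ l → ∃ Ψ : ↥(S j ⊔ S l) →* H,
      (∀ (g : ↥(Matrix.symplecticGroup (Fin n) F)) (hg : g ∈ S j), Ψ ⟨g, Subgroup.mem_sup_left hg⟩ = σ j ⟨g, hg⟩) ∧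
        (∀ (g : ↥(Matrix.symplecticGroup (Fin n) F)) (hg : g ∈ S l), Ψ ⟨g, Subgroup.mem_sup_right hg⟩ = σ l ⟨g, hg⟩))
    (hMM : ∀ i i' : Fin n, i ≠ i' → (i : ℕ) + 1 < n → (i' : ℕ) + 1 < n → ∃ Ψ : ↥(M i ⊔ M i') →* H,
      (∀ (g : ↥(Matrix.symplecticGroup (Fin n) F)) (hg : g ∈ M i), Ψ ⟨g, Subgroup.mem_sup_left hg⟩ = μ i ⟨g, hg⟩) ∧
        (∀ (g : ↥(Matrix.symplecticGroup (Fin n) F)) (hg : g ∈ M i'), Ψ ⟨g, Subgroup.mem_sup_right hg⟩ = μ i' ⟨g, hg⟩))
    (hMS : ∀ i j : Fin n, (i : ℕ) + 1 < n → ∃ Ψ : ↥(M i ⊔ S j) →* H,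
      (∀ (g : ↥(Matrix.symplecticGroup (Fin n) F)) (hg : g ∈ M i), Ψ ⟨g, Subgroup.mem_sup_left hg⟩ = μ i ⟨g, hg⟩) ∧
        (∀ (g : ↥(Matrix.symplecticGroup (Fin n) F)) (hg : g ∈ S j), Ψ ⟨g, Subgroup.mem_sup_right hg⟩ = σ j ⟨g, hg⟩)) :
    ∃! Φ : ↥(Matrix.symplecticGroup (Fin n) F) →* H,
      (∀ (j : Fin n) (g : ↥(Matrix.symplecticGroup (Fin n) F)) (hg : g ∈ S j), Φ g = σ j ⟨g, hg⟩) ∧
        (∀ (i : Fin n), (i : ℕ) + 1 < n → ∀ (g : ↥(Matrix.symplecticGroup (Fin n) F)) (hg : g ∈ M i), Φ g = μ i ⟨g, hg⟩) := by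
  have eS : ∀ j, S j = Fx F (pS j) := fun j => by
    rw [hS, ← (Fx F (pS j)).closure_eq]
    congr 1
    ext g
    exact ⟨fun h => by rintro (t | t) ht; exacts [(h t (Fin.ne_of_val_ne ht)).1,
      (h t (Fin.ne_of_val_ne ht)).2], fun h k hk =>
        ⟨h _ (Fin.val_ne_of_ne hk), h _ (Fin.val_ne_of_ne hk)⟩⟩
  have eM : ∀ i : Fin n, (i : ℕ) + 1 < n → M i = Fx F (pM i) := fun i hi => by
    rw [hM i hi, ← (Fx F (pM i)).closure_eq]
    congr 1
    ext g
    refine ⟨fun h => ?_, fun h => ⟨fun k => h _ (.inl rfl), fun k a b => h _ (.inr ⟨a, b⟩)⟩⟩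
    rintro (t | t) ht
    exacts [h.1 t, h.2 t (ht.resolve_left (by simp)).1 (ht.resolve_left (by simp)).2]
  choose s s1 s2 using fun j => exists_fun (σ j)
  choose m m1 m2 using fun j => exists_fun (μ j)
  have k : ∀ {A B : Subgroup (SP n F)} {Ψ : ↥(A ⊔ B) →* H} {g g' : SP n F} (hg : g ∈ A)
      (hg' : g' ∈ B), g * g' = g' * g → Ψ ⟨g, Subgroup.mem_sup_left hg⟩ *
        Ψ ⟨g', Subgroup.mem_sup_right hg'⟩ = Ψ ⟨g', Subgroup.mem_sup_right hg'⟩ *
        Ψ ⟨g, Subgroup.mem_sup_left hg⟩ := fun _ _ e => by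
    rw [← map_mul, ← map_mul]; exact congrArg _ (Subtype.ext e)
  let a : Fin n := ⟨n - 1, by omega⟩
  have top : Fx F (pG a) = ⊤ := eq_top_iff.2 fun g _ j hj => by
    rcases j with j | j <;> simp [a] at hj <;> omega
  obtain ⟨φ, h1, h2, h3⟩ := exists_hom hF (σ := s) (μ := m) (fun j => eS j ▸ s1 j)
    (fun j l e g hg g' hg' => by
      obtain ⟨Ψ, p, p'⟩ := hSS j l e
      have u := (eS j).ge hg
      have u' := (eS l).ge hg'
      rw [s2 j g u, s2 l g' u', ← p g u, ← p' g' u']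
      exact k u u' (comm hg hg' fun t => by
        have := Fin.val_ne_of_ne e
        simp; omega))
    (fun i l e e' g hg g' hg' => by
      obtain ⟨Ψ, p, p'⟩ := hMM i l (ne_of_lt e) (by omega) e'
      have u := (eM i (by omega)).ge hg
      have u' := (eM l e').ge hg'
      rw [m2 i g u, m2 l g' u', ← p g u, ← p' g' u']
      exact k u u' (comm hg hg' (by rintro (t | t) <;> simp)))
    (fun i j hi => by
      obtain ⟨Ψ, p, p'⟩ := hMS i j hi
      obtain ⟨ψ, q, q'⟩ := exists_fun Ψ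
      rw [← eM i hi, ← eS j]
      exact ⟨ψ, q, fun g hg => by rw [q' _ (Subgroup.mem_sup_left hg), p g hg, m2 i g hg],
        fun g hg => by rw [q' _ (Subgroup.mem_sup_right hg), p' g hg, s2 j g hg]⟩) _ a rfl
  rw [top] at h1
  refine ⟨MonoidHom.mk' φ fun x y => h1 x trivial y trivial, ⟨fun j g hg => ?_, fun i hi g hg => ?_⟩,
    fun Φ hΦ => MonoidHom.ext fun g => ?_⟩
  · exact (h2 j (by simp [a]; omega) g (eS j ▸ hg)).trans (s2 j g hg)
  · exact (h3 i (by simp [a]; omega) g (eM i hi ▸ hg)).trans (m2 i g hg)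
  have e : ∀ j, Fx F (pS j) ≤ Φ.eqLocus (MonoidHom.mk' φ fun x y => h1 x trivial y trivial) :=
    fun j g hg => (hΦ.1 j g (eS j ▸ hg)).trans
      ((h2 j (by simp [a]; omega) g hg).trans (s2 j g _)).symm
  exact (gen hF _ a rfl _ (fun j _ => e j) fun i hi g hg => (hΦ.2 i (by simp [a] at hi; omega) g
    (eM i (by simp [a] at hi; omega) ▸ hg)).trans ((h3 i hi g hg).trans (m2 i g _)).symm).2 (e a)
      (top.ge trivial)

end Cfsg.Agent.S3713
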