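import Cfsg.Statements.S3716
import Cfsg.Agent.Char.T3k

set_option autoImplicit false
open Cfsg

namespace Cfsg.Agent.S3716

open CF CF.Char Subgroup in
/-- Let G be a finite group with an elementary abelian Sylow 3-subgroup M of order 9 which is self-centralizing (C_G(M) = M), let N = N_G(M), and suppose C_G(g) ≤ N for every nonidentity g ∈ M. If the Sylow 2-subgroups of N are dihedral of order 8, then G is not simple. -/
theorem result {G : Type*} [Group G] [Finite G] (M : Sylow 3 G) (hM9 : Nat.card ↥(M : Subgroup G) = 9)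
    (hMel : ∀ m ∈ (M : Subgroup G), m ^ 3 = 1)
    (hCM : Subgroup.centralizer ((M : Subgroup G) : Set G) = (M : Subgroup G))
    (N : Subgroup G) (hN : N = Subgroup.normalizer ((M : Subgroup G) : Set G))
    (hCg : ∀ g ∈ (M : Subgroup G), g ≠ 1 → Subgroup.centralizer ({g} : Set G) ≤ N)
    (hS : ∀ S : Sylow 2 ↥N, Nonempty (↥(S : Subgroup ↥N) ≃* DihedralGroup 4)) :
    ¬ IsSimpleGroup G := by
  intro hG
  subst hN
  have h : T3.Syl9 (M : Subgroup G) := ⟨hM9, hMel, M.not_dvd_index, hCg, hCM.le⟩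
  haveI := Fact.mk Nat.prime_two
  obtain ⟨S⟩ : Nonempty (Sylow 2 (normalizer ((M : Subgroup G) : Set G))) := inferInstance
  obtain ⟨e⟩ := hS S
  have k : ∀ x : DihedralGroup 4, x ≠ 1 → x * x = 1 → (e.symm x : G) * e.symm x ∈ M ∧ (e.symm x : G) ∉ M :=
    fun x x1 x2 => by
    have a : (e.symm x : G) * e.symm x = 1 := by rw [← coe_mul, ← coe_mul, ← map_mul, x2, map_one]; rfl
    refine ⟨a ▸ one_mem _, fun hm => x1 (e.symm.injective (Subtype.ext (Subtype.ext ?_)))⟩
    simpa [pow_succ, a] using hMel _ hm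
  refine (h.exists_s8 (fun n hn => ?_) ?_ (e.symm (.sr 0)).1.2 (e.symm (.r 2)).1.2
    (k _ (by decide) (by decide)).1 (k _ (by decide) (by decide)).1 (k _ (by decide) (by decide)).2
    (k _ (by decide) (by decide)).2 (by
      rw [← coe_mul, ← coe_mul, ← map_mul]; exact (k _ (by decide) (by decide)).2)).elim
    fun φ ⟨hφ, h8⟩ => h.d8_core hφ h8
  · obtain ⟨j, -, hj⟩ := (Nat.dvd_prime_pow Nat.prime_two).1 (orderOf_dvd_of_pow_eq_one (n := 2 ^ 3)
      (x := (⟨n, hn⟩ ^ 3 : normalizer ((M : Subgroup G) : Set G))) (Subtype.ext (by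
        simpa [← pow_mul] using h.pow_24 hn)))
    obtain ⟨Q, hQ⟩ := (Transfer.isPGroup_zpowers hj).exists_le_sylow
    obtain ⟨f⟩ := hS Q
    refine h.mem_of_pow (pow_mem hn 4) (k := 1) ?_
    have := congrArg (fun x => (f.symm x : G)) ((by decide : ∀ x : DihedralGroup 4, x ^ 4 = 1)
      (f ⟨_, hQ (mem_zpowers _)⟩))
    simpa [← pow_mul] using this
  · refine Nat.le_of_dvd Nat.card_pos (Nat.Coprime.mul_dvd_of_dvd_of_dvd (m := 8) (n := 9) (by norm_num) ?_ ?_)
    · exact ((Nat.card_congr e.toEquiv).trans DihedralGroup.nat_card).symm.dvd.trans (card_subgroup_dvd_card S.1)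
    · exact hM9 ▸ card_dvd_of_le le_normalizer

end Cfsg.Agent.S3716
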