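import Cfsg.Statements.S3727
import Cfsg.Agent.H3.M
import Cfsg.Agent.H3.R
import Cfsg.Agent.S0414
import Cfsg.Agent.S1663

set_option autoImplicit false
open Cfsg

namespace Cfsg.Agent.S3727
open CF.H3 Subgroup MulAction
open scoped Pointwise

theorem m22 {G A : Type*} [Group G] [Group A] [Finite G] [Finite A] (φ : G →* A) (hφ : Function.Injective φ)
    (cA : Nat.card A = 887040) (H : Subgroup A) (hi : H.index = 2) (hH : IsM22 H) (hG : 443520 ≤ Nat.card G) :
    IsM22 G ∨ ∃ K : Subgroup G, K.index = 2 ∧ IsM22 K := by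
  have c1 := φ.range.card_mul_index
  have e := MonoidHom.ofInjective hφ
  rw [← Nat.card_congr e.toEquiv, cA] at c1
  have : φ.range.index = 1 ∨ φ.range.index = 2 := by
    rcases h : φ.range.index with _ | _ | _ | j <;> rw [h] at c1
    · omega
    · simp
    · simp
    · nlinarith
  rcases this with h | h
  · have hs := MonoidHom.range_eq_top.1 (index_eq_one.1 h)
    have f := ((H.comap φ).equivMapOfInjective φ hφ).trans (MulEquiv.subgroupCongr (map_comap_eq_self_of_surjective hs H))
    exact Or.inr ⟨H.comap φ, by rw [index_comap_of_surjective _ hs, hi],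
      by have := hH.1; exact f.isSimpleGroup, (Nat.card_congr f.toEquiv).trans hH.2⟩
  · have := normal_of_index_eq_two h
    have := hH.1
    have l : H ≤ φ.range := by
      rcases (inferInstance : (φ.range.subgroupOf H).Normal).eq_bot_or_eq_top with e | e
      · have := Nat.le_of_dvd (by rw [h]; norm_num) (relIndex_dvd_index_of_normal φ.range H)
        rw [relIndex, e, index_bot, hH.2, h] at this
        omega
      · exact subgroupOf_eq_top.1 e
    have := eq_of_le_of_card_ge l (by rw [← Nat.card_congr e.toEquiv, hH.2]; rw [h] at c1; omega)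
    exact Or.inl ⟨by exact (e.trans (MulEquiv.subgroupCongr this.symm)).isSimpleGroup, by rw [h] at c1; omega⟩

/-- Let a finite group G act faithfully and 2-transitively on a finite set Ω of even size, and suppose the stabilizer of a point a has a normal subgroup N isomorphic to PSL₃(q) with q = 2ⁿ, n ≥ 1. Then N is transitive on the remaining points, and either G has a normal subgroup of order q³ acting regularly on Ω and n is odd, or Ω has 22 points, q = 4, and G is isomorphic to the Mathieu group M₂₂ or has a subgroup of index 2 isomorphic to M₂₂. -/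
theorem result {G Ω : Type*} [Group G] [Finite G] [Fintype Ω] [MulAction G Ω] [FaithfulSMul G Ω]
    (h2 : MulAction.IsMultiplyPretransitive G Ω 2) (hev : Even (Fintype.card Ω)) (a : Ω) (N : Subgroup G)
    (hNle : N ≤ MulAction.stabilizer G a) (hNnormal : ∀ g ∈ MulAction.stabilizer G a, ∀ x ∈ N, g * x * g⁻¹ ∈ N)
    (n : ℕ) (hn : 1 ≤ n)
    (hN : ∃ (F : Type) (_ : Field F) (_ : Fintype F), Fintype.card F = 2 ^ n ∧
      Nonempty (↥N ≃* Matrix.ProjectiveSpecialLinearGroup (Fin 3) F)) :
    (∀ x y : Ω, x ≠ a → y ≠ a → ∃ g ∈ N, g • x = y) ∧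
    ((Odd n ∧ ∃ E : Subgroup G, E.Normal ∧ Nat.card E = (2 ^ n) ^ 3 ∧ (∀ x y : Ω, ∃ r ∈ E, r • x = y) ∧
        ∀ x : Ω, ∀ r ∈ E, r • x = x → r = 1) ∨
     (Fintype.card Ω = 22 ∧ n = 2 ∧ (Cfsg.Spor.IsoM22 G ∨ ∃ H : Subgroup G, H.index = 2 ∧ Cfsg.Spor.IsoM22 ↥H))) := by
  classical
  obtain ⟨F, _, _, hF, ⟨e⟩⟩ := hN
  haveI : Fact (Nat.Prime 2) := ⟨Nat.prime_two⟩
  haveI : CharP F 2 := charP_of_card_eq_prime_pow hF
  have two : ∀ a b c d : Ω, a ≠ b → c ≠ d → ∃ g : G, g • a = c ∧ g • b = d := fun a b c d h h' =>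
    is_two_pretransitive_iff.1 h2 h h'
  have tr : ∀ b, ∃ g : G, g • a = b := fun b => by
    by_cases h : a = b
    · exact ⟨1, by simpa using h⟩
    exact (two a b b a h (Ne.symm h)).imp fun _ => And.left
  choose s hs using tr
  have nm : ∀ g : G, g • a = a → cj g N = N := fun g hg => cj_eq_of_le (hNnormal g hg)
  have pl : ∀ g : G, ∃ ty, PL (cj g N) (Fintype.card F) ty := fun g => by
    let ρ : Matrix.SpecialLinearGroup (Fin 3) F →* G := (MulAut.conj g).toMonoidHom.comp
      (N.subtype.comp (e.symm.toMonoidHom.comp (QuotientGroup.mk' _)))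
    have M : Md ρ := fun x => by
      have : ρ x = 1 ↔ x ∈ center _ := by simp [ρ]
      rw [this, Matrix.SpecialLinearGroup.mem_center_iff]
      constructor
      · rintro ⟨c, -, h⟩
        exact ⟨c, h.symm.trans (by simp [Matrix.smul_one_eq_diagonal])⟩
      · rintro ⟨c, h⟩
        exact ⟨c, by simpa [h] using mt_det x, Eq.trans (by simp [Matrix.smul_one_eq_diagonal]) h.symm⟩
    have r : ρ.range = cj g N := by
      ext x
      constructor
      · rintro ⟨y, rfl⟩
        exact conj_mem_cj g (e.symm y).2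
      · intro hx
        obtain ⟨y, hy⟩ := QuotientGroup.mk_surjective (e ⟨_, mem_cj.1 hx⟩)
        exact ⟨y, by simp [ρ, hy, mul_assoc]⟩
    exact ⟨_, r ▸ M.pl⟩
  choose ty hty using pl
  have S : St (fun b => cj (s b) N) (Fintype.card F) fun b => ty (s b) :=
    { pl := fun b => hty (s b)
      eqv := fun g b => by
        have := nm ((s (g • b))⁻¹ * (g * s b)) (by rw [mul_smul, mul_smul, hs, inv_smul_eq_iff, hs])
        rw [cj_mul, cj_mul] at this
        simpa using congrArg (cj (s (g • b))) this.symm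
      fix := fun b => by rw [← hs b, ← cj_stab, hs b]; exact cj_le.2 hNle
      two := two
      ev := by rwa [Nat.card_eq_fintype_card] }
  obtain ⟨h1, h3⟩ := S.main hF a
  simp only [nm _ (hs a)] at h1
  refine ⟨h1, h3.imp (hF ▸ id) ?_⟩
  rintro ⟨rfl, hk⟩
  have hS := S.star
  have c22 : Fintype.card Ω = 22 := by rw [← Nat.card_eq_fintype_card, S.all_card hS hk a, hF]; norm_num
  refine ⟨c22, rfl, ?_⟩
  let Bl : Set (Finset Ω) := {t | ∃ B, Pn (fun b => cj (s b) N) (Fintype.card F) B ∧ (t : Set Ω) = pts Ω B}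
  have hB : IsSteinerSystem 3 6 Bl := by
    refine ⟨?_, fun t ht => ?_⟩
    · rintro t ⟨B, b1, b2⟩
      rw [← Set.ncard_coe_finset, b2, S.pn_card hS hk b1, hF]; norm_num
    obtain ⟨x, y, z, xy, xz, yz, rfl⟩ := Finset.card_eq_three.1 ht
    obtain ⟨B, ⟨b1, b2, b3, b4⟩, b5⟩ := S.steiner hS hk xy xz yz
    refine ⟨(pts Ω B).toFinset, ⟨⟨B, b1, by simp⟩, fun w hw => ?_⟩, ?_⟩
    · simp only [Finset.mem_insert, Finset.mem_singleton] at hw
      rcases hw with rfl | rfl | rfl <;> simpa
    · rintro t ⟨⟨B', c1, c2⟩, c3⟩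
      have m : ∀ w ∈ ({x, y, z} : Finset Ω), w ∈ pts Ω B' := fun w hw => c2 ▸ c3 hw
      rw [← b5 B' ⟨c1, m x (by simp), m y (by simp), m z (by simp)⟩]
      simp [← c2]
  obtain ⟨cA, -, H, hi, hH⟩ := S0414.result c22 hB
  have mem : ∀ g : G, ∀ t ∈ Bl, toPermHom G Ω g • t ∈ Bl := by
    rintro g t ⟨B, b1, b2⟩
    exact ⟨_, S.pn_cj b1 g, by rw [Finset.coe_smul_finset, b2, pts_cj]; rfl⟩
  let φ : G →* setSystemAut Bl := (toPermHom G Ω).codRestrict _ fun g => by
    refine Set.eq_of_subset_of_ncard_le ?_ (Set.ncard_image_of_injective _ (MulAction.injective _)).ge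
    rintro _ ⟨t, ht, rfl⟩
    exact mem g t ht
  have cG : 443520 ≤ Nat.card G := by
    have c1 := CF.Classical.card_PSL_fin (F := F) 3 (by norm_num)
    rw [hF, ← Nat.card_congr e.toEquiv] at c1
    simp only [Fin.prod_univ_three] at c1
    norm_num at c1
    have c2 := card_le_of_le hNle
    have c3 := (stabilizer G a).card_mul_index
    have : orbit G a = Set.univ := Set.eq_univ_of_forall fun b => ⟨s b, hs b⟩
    rw [index_stabilizer, this, Set.ncard_univ, Nat.card_eq_fintype_card (α := Ω), c22] at c3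
    omega
  exact (m22 φ (fun x y h => toPerm_injective (congrArg Subtype.val h)) cA H hi hH cG).imp S1663.result
    fun ⟨K, k1, k2⟩ => ⟨K, k1, S1663.result k2⟩

end Cfsg.Agent.S3727
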