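import Cfsg.Statements.S3748
import Cfsg.Agent.SolvStr.Subnormal
import Cfsg.Agent.Solv.Fitting

set_option autoImplicit false
open Cfsg

namespace Cfsg.Agent.S3748

/-- Call a proper subgroup M of G primitive when M = N_G(N) for every non-trivial normal subgroup N of M. If M is a primitive subgroup of the finite group G, then no non-trivial subnormal subgroup of G is contained in M; in particular M ∩ F(G) = 1. -/
theorem result {G : Type*} [Group G] [Finite G] (M : Subgroup G) (hM : M ≠ ⊤) (hprim : ∀ N : Subgroup G, N ≤ M → M ≤ Subgroup.normalizer (N : Set G) → N ≠ ⊥ → Subgroup.normalizer (N : Set G) = M) : (∀ L : Subgroup G, L.IsSubnormal → L ≤ M → L = ⊥) ∧ M ⊓ Cfsg.fittingSubgroup G = ⊥ := by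
  have key : ∀ L : Subgroup G, L.IsSubnormal → L ≤ M → L = ⊥ := by
    intro L hL hLM
    set S : Set (Subgroup G) := {V | V.IsSubnormal ∧ V ≤ M} with hS
    have hNM : sSup S ≤ M := sSup_le fun V hV => hV.2
    have hsn : (sSup S).IsSubnormal := CF.SolvStr.isSubnormal_sSup fun V hV => hV.1
    have hconj : ∀ g ∈ Subgroup.normalizer (M : Set G),
        g ∈ Subgroup.normalizer ((sSup S : Subgroup G) : Set G) := by
      intro g hg
      refine CF.SolvStr.mem_normalizer_sSup fun V hV => ⟨?_, ?_⟩
      · have := (CF.SolvStr.sn_top_iff.2 hV.1).conj (g := g) (Subgroup.le_normalizer (Subgroup.mem_top g))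
        exact CF.SolvStr.sn_top_iff.1 this
      · exact CF.SolvStr.conj_smul_le_of_mem_normalizer hV.2 hg
    by_contra hne
    have hLN : L ≤ sSup S := le_sSup ⟨hL, hLM⟩
    have hN0 : sSup S ≠ ⊥ := fun h => hne (le_bot_iff.1 (h ▸ hLN))
    have hnorm := hprim _ hNM (fun g hg => hconj g (Subgroup.le_normalizer hg)) hN0
    -- the join is maximal among subnormal subgroups in M, so it equals M
    have hNtop : sSup S ≠ ⊤ := fun h => hM (top_le_iff.1 (h ▸ hNM))
    obtain ⟨Y, hY1, hY2, hY3⟩ := (CF.SolvStr.sn_top_iff.2 hsn).exists_first hNtop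
    have : Y ≤ sSup S := le_sSup ⟨CF.SolvStr.sn_top_iff.1 hY3, hnorm ▸ hY2⟩
    exact hY1.not_ge this
  exact ⟨key, key _ (CF.Solv.isSubnormal_of_le_fitting inf_le_right) inf_le_left⟩

end Cfsg.Agent.S3748
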