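import Cfsg.Statements.S3773
import Cfsg.Agent.Pgp.B

set_option autoImplicit false
open Cfsg

namespace Cfsg.Agent.S3773


/-- Let G be a finite 2-group of nilpotency class at most 2 and exponent dividing 4 in which the elements x with x² = 1 form a subgroup N. Then |G| ≤ |N|³, and |G| < |N|³ unless G is special. -/
theorem result {G : Type*} [Group G] [Finite G] (hG : IsPGroup 2 G) (hcl : (⊤ : Subgroup G).lowerCentralSeries 2 = ⊥) (hexp : ∀ x : G, x ^ 4 = 1) (hN : ∀ x y : G, x ^ 2 = 1 → y ^ 2 = 1 → (x * y) ^ 2 = 1) : Nat.card G ≤ Nat.card {x : G // x ^ 2 = 1} ^ 3 ∧ (¬ Cfsg.IsSpecial 2 G → Nat.card G < Nat.card {x : G // x ^ 2 = 1} ^ 3) := by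
  open CF.BG CF.BG2 CF.Pgp in
  have k : PiGrp {2} (⊤ : Subgroup G) := piGrp_top Nat.prime_two hG
  let N : Subgroup G := ⟨⟨⟨{x | x ^ 2 = 1}, fun {a b} ha hb => hN a b ha hb⟩, one_pow 2⟩,
    fun {a} ha => by simpa using ha⟩
  open CF.BG CF.BG2 CF.Pgp in
  obtain ⟨h1, h2⟩ := card_le_cube k (comm_eq_bot.1 hcl) (fun x _ => hexp x) (le_top : N ≤ ⊤)
    fun x _ => Iff.rfl
  have e1 := k.card_eq
  have e2 := (k.le (le_top : N ≤ ⊤)).card_eq
  change Nat.card G ≤ Nat.card N ^ 3 ∧ (_ → Nat.card G < Nat.card N ^ 3)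
  rw [← Subgroup.card_top (G := G), e1, e2, ← pow_mul, mul_comm]
  refine ⟨Nat.pow_le_pow_right (by decide) h1, fun h => Nat.pow_lt_pow_right (by decide)
    (lt_of_le_of_ne h1 fun e => h ?_)⟩
  obtain ⟨h3, h4⟩ := h2 e
  open CF.BG CF.BG2 CF.Pgp in
  have z : 𝐙 (⊤ : Subgroup G) = Subgroup.center G := by simp [Subgroup.centralizer_univ]
  exact ⟨hG, CF.Pgp.Phi_top.symm.trans (h3.trans z), h4.trans z⟩

end Cfsg.Agent.S3773
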