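import Mathlib
import Cfsg.Statements.S3777
import Cfsg.Agent.Fgs1.VL

set_option autoImplicit false
open Cfsg

namespace Cfsg.Agent.S3777

open Subgroup CF.BG CF.BG2 CF.Blk

/-- Vaughan-Lee's Theorem: if G is a finite p-group in which every conjugacy class has at most p^b elements (every element has centralizer of index at most p^b), then the derived subgroup of G has order at most p^(b(b+1)/2). -/
theorem result {G : Type*} [Group G] [Finite G] {p : ℕ} [Fact p.Prime] (hG : IsPGroup p G) (b : ℕ) (hb : ∀ x : G, (Subgroup.centralizer ({x} : Set G)).index ≤ p ^ b) : Nat.card (commutator G) ≤ p ^ (b * (b + 1) / 2) := by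
  have hp : p.Prime := Fact.out
  have k := piGrp_top hp hG
  have e : commutator G = ⁅(⊤ : Subgroup G), ⊤⁆ := rfl
  rw [e]
  refine card_le_pow_of_logn (k.le le_top) ?_ hp
  by_cases c : (⊤ : Subgroup G) = ⊥
  · rw [c]; simp [logn]
  have h := vl hp _ (⊤ : Subgroup G) (b + 1) ⊥ ⊥ (Nat.lt_succ_self _) k (bot_lt_iff_ne_bot.2 c)
    (Or.inl le_rfl) fun x _ _ _ => by
      refine Nat.lt_succ_of_le ((Nat.pow_le_pow_iff_right hp.one_lt).1 (le_trans ?_ (hb x)))
      rw [br, relIndex_top_right]
      exact Nat.le_of_dvd (Nat.pos_of_ne_zero index_ne_zero_of_finite) (pow_logn_dvd p _)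
  rwa [Nat.choose_two_right, add_tsub_cancel_right, mul_comm] at h

end Cfsg.Agent.S3777
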