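import Mathlib
import Cfsg.Statements.S3802
import Cfsg.Agent.S3748
import Cfsg.Agent.Solv.Basic

set_option autoImplicit false
open Cfsg

namespace Cfsg.Agent.S3802


/-- Let G be a finite group, M a maximal subgroup of G and N a subnormal subgroup of G contained in M. Then N is contained in every conjugate of M, that is, N lies in the core of M in G. -/
theorem result {G : Type*} [Group G] [Finite G] (M N : Subgroup G) (hM : IsCoatom M) (hN : N.IsSubnormal) (hNM : N ≤ M) :
    N ≤ Subgroup.normalCore M := by
  set C := Subgroup.normalCore M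
  have hCM : C ≤ M := Subgroup.normalCore_le M
  have hM' : M.map (QuotientGroup.mk' C) ≠ ⊤ := by
    intro h
    have := CF.Solv.comap_map_mk' C M
    rw [h, Subgroup.comap_top, sup_eq_left.mpr hCM] at this
    exact hM.1 this.symm
  have key := (Cfsg.Agent.S3748.result (M.map (QuotientGroup.mk' C)) hM' (by
    intro K hK hn h0
    have h1 : M ≤ (Subgroup.normalizer (K : Set (G ⧸ C))).comap (QuotientGroup.mk' C) :=
      Subgroup.map_le_iff_le_comap.mp hn
    rcases hM.le_iff.mp h1 with h | h
    · exfalso
      have h2 : Subgroup.normalizer (K : Set (G ⧸ C)) = ⊤ := by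
        rw [← CF.Solv.map_comap_mk' C (Subgroup.normalizer (K : Set (G ⧸ C))), h,
          Subgroup.map_top_of_surjective _ (QuotientGroup.mk'_surjective C)]
      haveI : K.Normal := Subgroup.normalizer_eq_top_iff.mp h2
      apply h0
      rw [← CF.Solv.map_comap_mk' C K, CF.Solv.map_mk'_eq_bot_iff]
      apply Subgroup.normal_le_normalCore.mpr
      have := Subgroup.comap_mono (f := QuotientGroup.mk' C) hK
      rwa [CF.Solv.comap_map_mk', sup_eq_left.mpr hCM] at this
    · rw [← CF.Solv.map_comap_mk' C (Subgroup.normalizer (K : Set (G ⧸ C))), h])).1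
    (N.map (QuotientGroup.mk' C)) (hN.map (QuotientGroup.mk'_surjective C)) (Subgroup.map_mono hNM)
  exact (CF.Solv.map_mk'_eq_bot_iff C N).mp key

end Cfsg.Agent.S3802
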