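import Mathlib
import Cfsg.Agent.BG.B11
import Cfsg.Agent.Coprime.PGroup
import Cfsg.Statements.S3803

set_option autoImplicit false
open Cfsg

namespace Cfsg.Agent.S3803

open Subgroup CF.BG
open scoped commutatorElement

variable {G : Type*} [Group G] [Finite G]

theorem cyc_cent {A C : Subgroup G} (h : Cyc C) (k : PiGrp {2} C) (o : PiGrp {2}ᶜ A) (n : A ≤ 𝐍 C) :
    A ≤ 𝐂 C := by
  refine o.le_of_relIndex' (PiNat.compl_compl (PiNat.dvd ?_ (h.relIndex_cent_dvd n)))
  obtain ⟨j, hj⟩ := k.card_pow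
  rw [hj]
  rcases j with _ | j
  · simpa using piNat_one _
  · rw [Nat.totient_prime_pow_succ Nat.prime_two]; simpa using piNat_pow_self Nat.prime_two j

theorem mul_mem_of_logn {K M : Subgroup G} (k : PiGrp {2} K) (l : M ≤ K)
    (e : logn 2 (♯K) = logn 2 (♯M) + 1) {x y : G} (hx : x ∈ K) (hy : y ∈ K) (a : x ∉ M) (b : y ∉ M) :
    x * y ∈ M := by
  have h2 : M.relIndex K = 2 := by
    rw [(k.relIndex M).eq_pow_logn (relIndex_ne_zero' _ _), show logn 2 (M.relIndex K) = 1 by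
      have := logn_card_eq_add (p := 2) l; omega]; rfl
  exact (mul_mem_iff_of_index_two (H := M.subgroupOf K) h2 (a := ⟨x, hx⟩) (b := ⟨y, hy⟩)).2
    (iff_of_false a b)

theorem step {A K E : Subgroup G} (k : PiGrp {2} K) (o : PiGrp {2}ᶜ A) (l : E ≤ K)
    (e : logn 2 (♯K) = logn 2 (♯E) + 1) (h : ∀ M ≤ K, logn 2 (♯M) = logn 2 (♯E) → A ≤ 𝐍 M) : A ≤ 𝐂 E := by
  by_cases c : Cyc K
  · exact cyc_cent (c.mono l) (k.le l) o (h E l rfl)
  have ex : ∀ L < K, ∃ M, L ≤ M ∧ M ≤ K ∧ logn 2 (♯M) = logn 2 (♯E) := fun L hL =>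
    k.exists_logn_between hL.le (by have := k.logn_lt hL; omega) (by omega)
  have n : A ≤ 𝐍 K := by
    rw [le_norm_iff]
    intro a ha x hx
    obtain ⟨M, a1, a2, a3⟩ := ex (zpowers x) (lt_of_le_of_ne (zpowers_le.2 hx) fun e => c (e ▸ cyc_zpowers x))
    exact a2 (conj_mem_of_norm (h M a2 a3 ha) (a1 (mem_zpowers x)))
  refine le_trans ?_ (cent_anti l)
  by_contra hc
  obtain ⟨M, a1, a2, a3⟩ := ex (K ⊓ 𝐂 A) (lt_of_le_of_ne inf_le_left fun e => hc (cent_symm (e.ge.trans inf_le_right)))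
  have h1 : ⁅K, A⁆ ≤ M := by
    rw [commutator_le]
    intro x hx a ha
    have e1 : ⁅x, a⁆ = x * (a * x⁻¹ * a⁻¹) := by rw [commutatorElement_def]; group
    rw [e1]
    by_cases hxM : x ∈ M
    · exact mul_mem hxM (conj_mem_of_norm (h M a2 a3 ha) (inv_mem hxM))
    · exact mul_mem_of_logn k a2 (by omega) hx (conj_mem_of_norm (n ha) (inv_mem hx)) hxM
        fun h' => hxM (inv_mem_iff.1 ((mem_norm.1 (h M a2 a3 ha) _).2 h'))
  have h2 : K ≤ M := (comm_sup_inf_cent n (o.coprime' k) (Or.inr k.sol)).ge.trans (sup_le h1 a1)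
  have := logn_card_le (p := 2) h2
  omega

/-- Let P be a 2-subgroup and A a subgroup of odd order of a finite group, with A normalizing P. Let D ≤ P with 1 < |D| < |P|. If every subgroup of P of order |D|, and also every subgroup of P of order 4 in case |D| = 2, is normalized by A, then A centralizes P. -/
theorem result {X : Type*} [Group X] [Finite X] (P A D : Subgroup X) (hP : IsPGroup 2 P) (hA : Odd (Nat.card A))
    (hAP : A ≤ Subgroup.normalizer (P : Set X)) (hDP : D ≤ P) (hD1 : 1 < Nat.card D) (hD2 : Nat.card D < Nat.card P)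
    (hinv : ∀ E : Subgroup X, E ≤ P → (Nat.card E = Nat.card D ∨ (Nat.card D = 2 ∧ Nat.card E = 4)) → A ≤ Subgroup.normalizer (E : Set X)) :
    A ≤ Subgroup.centralizer (P : Set X) := by
  have k : PiGrp {2} P := piGrp_of_isPGroup Nat.prime_two hP
  have o : PiGrp {2}ᶜ A :=
    (piNat_compl_single Nat.prime_two).2 (by rw [← even_iff_two_dvd]; exact Nat.not_even_iff_odd.2 hA)
  have d1 : 0 < logn 2 (♯D) := (k.le hDP).logn_pos.2 (one_lt_card.1 hD1)
  have d2 : logn 2 (♯D) < logn 2 (♯P) := k.logn_lt (lt_of_le_of_ne hDP fun e => by simp [e] at hD2)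
  have inv : ∀ M ≤ P, logn 2 (♯M) = logn 2 (♯D) → A ≤ 𝐍 M := fun M l e =>
    hinv M l (Or.inl (by rw [(k.le l).card_eq, (k.le hDP).card_eq, e]))
  refine CF.Coprime.le_centralizer_of_omega_two A P hP hAP (Nat.coprime_two_right.2 hA) fun x hx h4 => ?_
  have lx := zpowers_le.2 hx
  have h5 : ♯(zpowers x) ∣ 2 ^ 2 := by rw [Nat.card_zpowers]; exact orderOf_dvd_of_pow_eq_one h4
  by_cases c : logn 2 (♯(zpowers x)) ≤ logn 2 (♯D)
  · obtain ⟨E, a1, a2, a3⟩ := k.exists_logn_between lx c d2.le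
    obtain ⟨K, b1, b2, b3⟩ := k.exists_logn_between a2 (n := logn 2 (♯D) + 1) (by omega) d2
    exact cent_symm (step (k.le b2) o b1 (by omega) fun M l e => inv M (l.trans b2) (e.trans a3)) (a1 (mem_zpowers x))
  · have h6 := logn_le_of_dvd (p := 2) h5 (by norm_num)
    rw [logn_pow Nat.prime_two] at h6
    refine cent_symm (cyc_cent (cyc_zpowers x) (k.le lx) o (hinv _ lx (Or.inr ⟨?_, ?_⟩))) (mem_zpowers x)
    · rw [(k.le hDP).card_eq, show logn 2 (♯D) = 1 by omega]; rfl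
    · rw [(k.le lx).card_eq, show logn 2 (♯(zpowers x)) = 2 by omega]; rfl

end Cfsg.Agent.S3803
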