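import Cfsg.Statements.S3805
import Cfsg.Agent.Char.T3c

set_option autoImplicit false
open Cfsg

namespace Cfsg.Agent.S3805

open CF CF.Char Subgroup in
/-- Let G be a finite group whose Sylow 3-subgroup T is elementary abelian of order 9 and self-centralizing, with N_G(T)/T a Klein four-group, and suppose that the centralizer of every nonidentity element of T lies in N_G(T). Then T is normal in G. -/
theorem result {G : Type*} [Group G] [Finite G]
    (T : Sylow 3 G) (hT : Cfsg.IsElementaryAbelian 3 (T : Subgroup G)) (hcard : Nat.card T = 9)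
    (hC : Subgroup.centralizer ((T : Subgroup G) : Set G) = T)
    [hn : ((T : Subgroup G).subgroupOf (Subgroup.normalizer ((T : Subgroup G) : Set G))).Normal]
    (hK : IsKleinFour (↥(Subgroup.normalizer ((T : Subgroup G) : Set G)) ⧸
      (T : Subgroup G).subgroupOf (Subgroup.normalizer ((T : Subgroup G) : Set G))))
    (hloc : ∀ t ∈ (T : Subgroup G), t ≠ 1 →
      Subgroup.centralizer ({t} : Set G) ≤ Subgroup.normalizer ((T : Subgroup G) : Set G)) :
    Subgroup.normalizer ((T : Subgroup G) : Set G) = ⊤ := by
  have h : T3.Syl9 (T : Subgroup G) := ⟨hcard, hT.2, T.not_dvd_index, hloc, hC.le⟩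
  refine h.v4 ?_ fun n hn => ?_
  · rw [card_eq_card_quotient_mul_card_subgroup ((T : Subgroup G).subgroupOf _), hK.card_four,
      Nat.card_congr (subgroupOfEquivOfLe le_normalizer).toEquiv, hcard]
  · exact mem_subgroupOf.1 ((QuotientGroup.eq_one_iff (⟨n, hn⟩ * ⟨n, hn⟩ : normalizer _)).1
      ((QuotientGroup.mk_mul _ _ _).trans (hK.mul_self _)))

end Cfsg.Agent.S3805
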