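import Mathlib
import Cfsg.Statements.S3815
import Cfsg.Agent.Transfer.Residual

set_option autoImplicit false
open Cfsg

namespace Cfsg.Agent.S3815

open CF.Transfer

/-- Let G be a finite group, p a prime and d ∈ G an element of order prime to p. If dg has order prime to p for every element g ∈ G of order prime to p, then d ∈ O_{p'}(G). -/
theorem result {G : Type*} [Group G] [Finite G] {p : ℕ} [Fact p.Prime]
    (d : G) (hd : (orderOf d).Coprime p)
    (h : ∀ g : G, (orderOf g).Coprime p → (orderOf (d * g)).Coprime p) :
    d ∈ Cfsg.pPrimeCore p G := by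
  let D : Submonoid G :=
    { carrier := {x | ∀ g : G, (orderOf g).Coprime p → (orderOf (x * g)).Coprime p}
      mul_mem' := fun {a b} ha hb g hg => by
        rw [mul_assoc]
        exact ha _ (hb g hg)
      one_mem' := fun g hg => by rwa [one_mul] }
  let N : Subgroup G :=
    { D with
      inv_mem' := fun {x} hx => by
        have h1 : x⁻¹ = x ^ (orderOf x - 1) := by
          rw [inv_eq_iff_mul_eq_one, ← pow_succ', Nat.sub_add_cancel (orderOf_pos x),
            pow_orderOf_eq_one]
        rw [h1]
        exact D.pow_mem hx _ }
  have hN : N.Normal := ⟨fun x hx y g hg => by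
    have h1 := hx (y⁻¹ * g * y) (by rwa [orderOf_inv_conj])
    rw [← orderOf_conj' y] at h1
    convert h1 using 2
    group⟩
  have hc : (Nat.card N).Coprime p := coprime_card_of_forall_coprime fun x hx => by
    simpa using hx 1 (by simp)
  exact (le_sSup (s := {N : Subgroup G | N.Normal ∧ (Nat.card N).Coprime p}) ⟨hN, hc⟩ : N ≤ _) h

end Cfsg.Agent.S3815
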