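import Cfsg.Statements.S3816
import Cfsg.Agent.Fx3.C

set_option autoImplicit false
open Cfsg

namespace Cfsg.Agent.S3816
open CF.BG Subgroup
open scoped commutatorElement Pointwise

/-- Let p be an odd prime, H a finite solvable group of order prime to p, and x an automorphism of H of order p (so P = ⟨x⟩ has prime order p > 2 and acts coprimely on H). For h ∈ H let [h, P] be the subgroup generated by the commutators h⁻¹·xⁱ(h), and let [H, P] be the subgroup generated by all of these. Then the fixed points of x in [H, P] are generated by the fixed points of x in the subgroups [h, P], h ∈ H. -/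
theorem result {H : Type*} [Group H] [Finite H]
    [Group.IsSolvable H] {p : ℕ} [Fact p.Prime] (hp : p ≠ 2) (hcop : (Nat.card H).Coprime p)
    (x : MulAut H) (hx : orderOf x = p) :
    Subgroup.closure {c : H | ∃ h : H, ∃ i : ℕ, c = h⁻¹ * (x ^ i) h} ⊓ (x : H →* H).eqLocus (MonoidHom.id H) =
      ⨆ h : H, Subgroup.closure {c : H | ∃ i : ℕ, c = h⁻¹ * (x ^ i) h} ⊓ (x : H →* H).eqLocus (MonoidHom.id H) := by
----
  have : Finite (MulAut H) := Finite.of_injective _ (DFunLike.coe_injective (F := MulAut H))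
  let φ : zpowers x →* MulAut H := (zpowers x).subtype
  have : Finite (H ⋊[φ] zpowers x) := Finite.of_equiv _ SemidirectProduct.equivProd.symm
  let i : H →* H ⋊[φ] zpowers x := SemidirectProduct.inl
  let j : zpowers x →* H ⋊[φ] zpowers x := SemidirectProduct.inr
  have ii : Function.Injective i := SemidirectProduct.inl_injective
  have ji : Function.Injective j := SemidirectProduct.inr_injective
  have cj1 : ∀ z a, j z * i a * (j z)⁻¹ = i ((z : MulAut H) a) := fun z a => by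
    rw [← map_inv]; exact (SemidirectProduct.inl_aut (φ := φ) z a).symm
  have cP : ♯((⊤ : Subgroup (zpowers x)).map j) = p := by
    rw [card_map ji, card_top', Nat.card_zpowers, hx]
  have cG : ♯((⊤ : Subgroup H).map i) = Nat.card H := by rw [card_map ii, card_top']
  have n : (⊤ : Subgroup (zpowers x)).map j ≤ 𝐍 ((⊤ : Subgroup H).map i) := by
    refine le_norm_iff.2 ?_
    rintro _ ⟨z, -, rfl⟩ _ ⟨a, -, rfl⟩
    exact ⟨_, mem_top _, (cj1 z a).symm⟩
  have fx : ∀ a, i a ∈ 𝐂 ((⊤ : Subgroup (zpowers x)).map j) ↔ x a = a := fun a => by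
    refine ⟨fun h => ii ?_, fun h => mem_cent.2 ?_⟩
    · rw [← cj1 ⟨x, mem_zpowers x⟩ a, mem_cent.1 h _ ⟨_, mem_top _, rfl⟩, mul_inv_cancel_right]
    · rintro _ ⟨z, -, rfl⟩
      have : zpowers x ≤ MulAction.stabilizer (MulAut H) a := zpowers_le.2 h
      rw [← mul_inv_eq_iff_eq_mul, cj1]; exact congrArg i (this z.2)
  have m := CF.Fx3.main (cP ▸ Fact.out) (cP ▸ hp) n (by rw [cP, cG]; exact hcop.symm)
    (Sol.map (inferInstance : Sol (⊤ : Subgroup H)) i)
  refine le_antisymm (fun a ha => ?_) (iSup_le fun h => inf_le_inf_right _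
    (closure_mono fun c ⟨k, e⟩ => ⟨h, k, e⟩))
  have h1 : Subgroup.closure {c : H | ∃ h : H, ∃ i : ℕ, c = h⁻¹ * (x ^ i) h} ≤
      (⁅(⊤ : Subgroup H).map i, (⊤ : Subgroup (zpowers x)).map j⁆).comap i := by
    rw [closure_le]
    rintro _ ⟨h, k, rfl⟩
    have := CF.Fx3.Tg_le_comm (P := (⊤ : Subgroup (zpowers x)).map j) (mem_map_of_mem i (mem_top h))
      (CF.Fx3.mem_Tg (mem_map_of_mem j (mem_top ⟨x ^ k, pow_mem (mem_zpowers x) k⟩)))
    rw [cj1, ← map_inv, ← map_mul] at this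
    exact this
  have h2 := m (mem_inf.2 ⟨h1 ha.1, (fx a).2 ha.2⟩)
  rw [← mem_map_iff_mem ii]
  refine CF.Fx3.Dg_le ?_ h2
  rintro _ ⟨h, -, rfl⟩ b hb
  have h3 : CF.Fx3.Tg ((⊤ : Subgroup (zpowers x)).map j) (i h) ≤
      (Subgroup.closure {c : H | ∃ i : ℕ, c = h⁻¹ * (x ^ i) h}).map i := by
    refine CF.Fx3.Tg_le ?_
    rintro _ ⟨⟨z, hz⟩, -, rfl⟩
    obtain ⟨k, rfl⟩ := (mem_powers_iff_mem_zpowers.2 hz)
    rw [cj1, ← map_inv, ← map_mul]
    exact mem_map_of_mem i (subset_closure ⟨k, rfl⟩)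
  obtain ⟨c, hc, rfl⟩ := h3 hb.1
  exact mem_map_of_mem i (mem_iSup_of_mem h (mem_inf.2 ⟨hc, (fx c).1 hb.2⟩))

end Cfsg.Agent.S3816
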