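import Cfsg.Statements.S3817
import Cfsg.Agent.Fx3.I

set_option autoImplicit false
open Cfsg

namespace Cfsg.Agent.S3817
open CF.BG Subgroup
open scoped commutatorElement Pointwise
open CF.Fx3

/-- Let G be a finite group and write F₂(X) for the second term of the upper Fitting chain of a finite group X: the preimage in X of the Fitting subgroup of X/F(X). Then an element x of G lies in F₂(G) if and only if x lies in F₂(⟨x, y⟩) for every y ∈ G. -/
theorem result {G : Type*} [Group G] [Finite G]
    [hF : (Cfsg.fittingSubgroup G).Normal]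
    (hK : ∀ K : Subgroup G, (Cfsg.fittingSubgroup ↥K).Normal) (x : G) :
    x ∈ (Cfsg.fittingSubgroup (G ⧸ Cfsg.fittingSubgroup G)).comap (QuotientGroup.mk' (Cfsg.fittingSubgroup G)) ↔
      ∀ y : G, ∀ hx : x ∈ Subgroup.closure ({x, y} : Set G),
        haveI := hK (Subgroup.closure ({x, y} : Set G));
        (⟨x, hx⟩ : ↥(Subgroup.closure ({x, y} : Set G))) ∈
          (Cfsg.fittingSubgroup (↥(Subgroup.closure ({x, y} : Set G)) ⧸ Cfsg.fittingSubgroup ↥(Subgroup.closure ({x, y} : Set G)))).comap
            (QuotientGroup.mk' (Cfsg.fittingSubgroup ↥(Subgroup.closure ({x, y} : Set G)))) := by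
  have e : ∀ y : G, Subgroup.closure ({x, y} : Set G) = zpowers x ⊔ zpowers y := fun y => by
    rw [Set.insert_eq, Subgroup.closure_union, ← zpowers_eq_closure, ← zpowers_eq_closure]
  rw [← mem_F2s_top]
  constructor
  · intro h y hx
    have := hK (Subgroup.closure ({x, y} : Set G))
    refine mem_F2s_top.1 (mem_F2s_of_map (Subgroup.subtype_injective _) ?_)
    rw [map_top_subtype]
    exact inf_F2s_le le_top ⟨hx, h⟩
  · intro h
    refine main2 _ (Nat.lt_succ_self _) fun y => ?_
    have := hK (Subgroup.closure ({x, y} : Set G))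
    have := map_F2s_le _ (Subgroup.subtype _) (mem_map_of_mem _ (mem_F2s_top.2
      (h y (Subgroup.subset_closure (Set.mem_insert _ _)))))
    rw [map_top_subtype] at this
    rw [← e]; exact this

end Cfsg.Agent.S3817
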