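import Cfsg.Statements.S3818
import Cfsg.Agent.Flav.C

set_option autoImplicit false
open Cfsg

namespace Cfsg.Agent.S3818
open CF.BG Subgroup
open scoped commutatorElement Pointwise

/-- Let G be a finite solvable group and P a subgroup of G of prime order p > 3 whose conjugates generate G. Let V be a faithful irreducible representation of G over a field of positive characteristic, finite-dimensional. Then the subspace of V fixed by P has dimension less than half the dimension of V. -/
theorem result {G : Type*} [Group G] [Finite G] [Group.IsSolvable G]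
    {p : ℕ} [Fact p.Prime] (hp : 3 < p) (P : Subgroup G) (hP : Nat.card P = p) (hgen : Subgroup.normalClosure (P : Set G) = ⊤)
    {k : Type*} [Field k] (ℓ : ℕ) [Fact ℓ.Prime] [CharP k ℓ]
    {V : Type*} [AddCommGroup V] [Module k V] [FiniteDimensional k V]
    (ρ : Representation k G V) [ρ.IsIrreducible] (hfaith : Function.Injective ρ) :
    2 * Module.finrank k ↥(⨅ g : ↥P, LinearMap.ker (ρ (g : G) - LinearMap.id)) < Module.finrank k V := by
  obtain ⟨x, hx⟩ := (isCyclic_of_prime_card hP).exists_generator
  have e : zpowers (x : G) = P := le_antisymm (zpowers_le.2 x.2) fun y hy => by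
    obtain ⟨n, hn⟩ := hx ⟨y, hy⟩
    exact ⟨n, congrArg Subtype.val hn⟩
  have x1 : (x : G) ≠ 1 := fun h => by
    rw [h, zpowers_one_eq_bot] at e
    rw [← e, card_bot] at hP
    omega
  have h : CF.Flav.Gen p (x : G) := ⟨Fact.out, by
      have := (Fact.out : p.Prime).eq_two_or_odd'
      rcases this with h | ⟨j, h⟩ <;> omega,
    by rw [← hP, ← coe_pow, pow_card_eq_one', coe_one],
    top_le_iff.1 (hgen ▸ normalClosure_le_normal (e.ge.trans
      (zpowers_le.2 (subset_normalClosure rfl))))⟩
  have := CF.Flav.two_mul_fix_lt (ρ := ρ) (fun U hU => by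
    rcases eq_bot_or_eq_top (⟨U, fun g _ hv => hU g _ hv⟩ : Subrepresentation ρ) with c | c
    · exact Or.inl (congrArg Subrepresentation.toSubmodule c)
    · exact Or.inr (congrArg Subrepresentation.toSubmodule c)) h
    fun c => x1 (hfaith (c.trans (map_one ρ).symm))
  rwa [e, show CF.BG2.fixSub ρ P = ⨅ g : ↥P, LinearMap.ker (ρ (g : G) - LinearMap.id) from
    Submodule.ext fun v => by simp [CF.BG2.mem_fixSub, Submodule.mem_iInf, sub_eq_zero]] at this

end Cfsg.Agent.S3818
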