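import Cfsg.Statements.S3819
import Cfsg.Agent.BG.B11

set_option autoImplicit false
open Cfsg

namespace Cfsg.Agent.S3819
open CF.BG Subgroup
open scoped commutatorElement Pointwise
theorem core {G : Type*} [Group G] [Finite G] {p q : ℕ} {P H R : Subgroup G}
    (hP : PiGrp {p} P) (hH : PiGrp {p}ᶜ H) (n : P ≤ 𝐍 H) (s : Sol ⁅H, P⁆)
    (hR : PiGrp {q} R) (rH : R ≤ H) (rP : R ≤ 𝐂 P) (h0 : 𝐎 {q}ᶜ H = ⊥) :
    𝐎 {q}ᶜ (H ⊓ 𝐂 R) ⊓ 𝐎 {q}ᶜ (H ⊓ 𝐂 P) = ⊥ ∧ ⁅𝐎 {q}ᶜ (H ⊓ 𝐂 R), P⁆ = ⊥ := by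
  set K := ⁅H, P⁆ with hK
  set D := 𝐎 {q}ᶜ (H ⊓ 𝐂 R) with hD
  have cop : (♯P).Coprime (♯H) := PiNat.coprime hP hH
  have kH : K ⊴ H := ⟨comm_le_left n, norm_comm_left _ _⟩
  have hsup : K ⊔ (H ⊓ 𝐂 P) = H := comm_sup_inf_cent n cop (Or.inl hP.sol)
  have oK : 𝐎 {q}ᶜ K = ⊥ := eq_bot_mono h0 (O_le_O_of_normal kH _)
  have dH : D ≤ H := (O_le _ _).trans inf_le_left
  have dR : D ≤ 𝐂 R := (O_le _ _).trans inf_le_right
  have dn : D ⊴ H ⊓ 𝐂 R := O_normal _ _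
  have dpi : PiGrp {q}ᶜ D := O_pi _ _
  have rK : R ≤ 𝐍 K := rH.trans kH.norm
  have lH : K ⊔ R ≤ H := sup_le kH.le rH
  have sL : Sol (K ⊔ R) := Sol.sup' s hR.sol rK
  have oL : 𝐎 {q}ᶜ (K ⊔ R) = ⊥ := by
    have h1 : 𝐎 {q}ᶜ (K ⊔ R) ≤ K := by
      refine PiGrp.le_of_relIndex (O_pi _ _) (O_le _ _) (lH.trans kH.norm) ?_
      rw [relIndex_sup_norm' (Or.inl rK)]
      exact (hR.relIndex K).compl_compl
    have h2 := inf_O_le (le_sup_left : K ≤ K ⊔ R) ({q}ᶜ : Set ℕ)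
    rw [oK, inf_eq_right.2 h1] at h2
    exact le_bot_iff.1 h2
  have dK : D ⊓ K = ⊥ := by
    have h1 := Sol.O_cent_eq_bot sL le_sup_right hR oL
    refine eq_bot_mono h1 (le_O ⟨le_inf (inf_le_right.trans le_sup_left) (inf_le_left.trans dR), ?_⟩
      dpi.inf_left)
    exact norm_inf ((inf_le_inf_right _ lH).trans dn.norm) (inf_le_left.trans (lH.trans kH.norm))
  have pD : P ≤ 𝐍 D := le_norm_O _ (norm_inf_cent n (norm_of_cent' rP))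
  have dP : ⁅D, P⁆ = ⊥ :=
    eq_bot_mono dK (le_inf (comm_le_left pD) (commutator_mono dH le_rfl))
  refine ⟨?_, dP⟩
  set Q := 𝐎 {q} K with hQ
  have qH : Q ⊴ H := kH.O _
  have dQ : D ≤ 𝐂 Q := by
    refine cent_of_pxq hR (O_pi _ _) dpi (cent_symm dR) (rH.trans qH.norm) (dH.trans qH.norm) ?_
    refine cent_symm (PiGrp.cent_of_norm dpi ((O_pi {q} K).inf_left.compl_compl) ?_ ?_)
    · exact norm_inf_cent (dH.trans qH.norm) (norm_of_cent dR)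
    · exact (inf_le_inf_right _ qH.le).trans dn.norm
  have dKc : D ≤ 𝐂 K :=
    cent_of_self_cent (dH.trans kH.norm) (O_normal _ _).norm (PiNat.coprime' dpi (O_pi {q} K)) dQ
      (Sol.cent_O_le s oK)
  have en : 𝐎 {q}ᶜ (H ⊓ 𝐂 P) ⊓ 𝐂 K ⊴ H := by
    refine ⟨inf_le_left.trans ((O_le _ _).trans inf_le_left), ?_⟩
    refine hsup.ge.trans (sup_le (norm_of_cent' inf_le_right) ?_)
    exact norm_inf_cent (O_normal _ _).norm (inf_le_left.trans kH.norm)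
  refine eq_bot_mono h0 (le_trans ?_ (le_O en (O_pi _ _).inf_left))
  exact le_inf inf_le_right (inf_le_left.trans dKc)

/-- Let G be a finite group with Sylow p-subgroup P and H = O_{p'}(G), and suppose G = PH and the commutator subgroup [H, P] is solvable. Let q be a prime and z an element of q-power order of C_H(P). Then (O_{q'}(C_H(z)) ∩ O_{q'}(C_H(P))) · [O_{q'}(C_H(z)), P] ≤ O_{q'}(H). -/
theorem result {G : Type*} [Group G] [Finite G] {p : ℕ} [Fact p.Prime]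
    (P : Sylow p G) (hPH : Cfsg.pPrimeCore p G ⊔ (P : Subgroup G) = ⊤)
    (hsol : Group.IsSolvable ↥⁅Cfsg.pPrimeCore p G, (P : Subgroup G)⁆)
    {q : ℕ} [Fact q.Prime] (z : G) (hzH : z ∈ Cfsg.pPrimeCore p G) (hzP : z ∈ Subgroup.centralizer ((P : Subgroup G) : Set G))
    (hz : ∃ k : ℕ, orderOf z = q ^ k) :
    ((Cfsg.pPrimeCore q ↥(Cfsg.pPrimeCore p G ⊓ Subgroup.centralizer ({z} : Set G))).map
        (Cfsg.pPrimeCore p G ⊓ Subgroup.centralizer ({z} : Set G)).subtype ⊓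
      (Cfsg.pPrimeCore q ↥(Cfsg.pPrimeCore p G ⊓ Subgroup.centralizer ((P : Subgroup G) : Set G))).map
        (Cfsg.pPrimeCore p G ⊓ Subgroup.centralizer ((P : Subgroup G) : Set G)).subtype) ⊔
    ⁅(Cfsg.pPrimeCore q ↥(Cfsg.pPrimeCore p G ⊓ Subgroup.centralizer ({z} : Set G))).map
        (Cfsg.pPrimeCore p G ⊓ Subgroup.centralizer ({z} : Set G)).subtype, (P : Subgroup G)⁆ ≤
    (Cfsg.pPrimeCore q ↥(Cfsg.pPrimeCore p G)).map (Cfsg.pPrimeCore p G).subtype := by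
  have hp : p.Prime := Fact.out
  have hq : q.Prime := Fact.out
  rw [map_pPrimeCore hq, map_pPrimeCore hq, map_pPrimeCore hq]
  set H := Cfsg.pPrimeCore p G with hHdef
  have hHe : H = 𝐎 {p}ᶜ (⊤ : Subgroup G) := pPrimeCore_eq hp
  have hH : PiGrp {p}ᶜ H := hHe ▸ O_pi _ _
  have hn : (⊤ : Subgroup G) ≤ 𝐍 H := hHe ▸ (O_normal _ _).norm
  have hP : PiGrp {p} (P : Subgroup G) := (syl_sylow_top P).pi
  obtain ⟨k, hk⟩ := hz
  have hR : PiGrp {q} (zpowers z) := piGrp_zpowers.2 (by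
    show PiNat {q} (orderOf z); rw [hk]; exact piNat_pow_self hq k)
  have rH : zpowers z ≤ H := zpowers_le.2 hzH
  have rP : zpowers z ≤ 𝐂 (P : Subgroup G) := zpowers_le.2 hzP
  have e1 : centralizer ({z} : Set G) = 𝐂 (zpowers z) := (cent_zpowers z).symm
  rw [e1]
  set N := 𝐎 {q}ᶜ H with hN
  have nN : (⊤ : Subgroup G) ≤ 𝐍 N := le_norm_O _ hn
  have nn : ∀ X : Subgroup G, X ≤ 𝐍 N := fun X => le_top.trans nN
  have npi : PiGrp {q}ᶜ N := O_pi _ _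
  have c1 : qt N (H ⊓ 𝐂 (zpowers z)) = qt N H ⊓ 𝐂 (qt N (zpowers z)) :=
    qt_inf_cent' (nn _) (le_top.trans hn) (PiNat.coprime hR npi) (Or.inl hR.sol)
  have c2 : qt N (H ⊓ 𝐂 (P : Subgroup G)) = qt N H ⊓ 𝐂 (qt N (P : Subgroup G)) :=
    qt_inf_cent' (nn _) (le_top.trans hn) (PiNat.coprime hP (hH.le (O_le _ _))) (Or.inl hP.sol)
  obtain ⟨a, b⟩ := core (hP.qt N) (hH.qt N) (qt_norm N (le_top.trans hn))
    (by rw [← qt_comm (nn _) (nn _)]; exact Sol.qt hsol N) (hR.qt N) (qt_mono N rH)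
    (qt_cent N rP) (O_qt_O _ _)
  rw [← c1, ← c2] at a
  rw [← c1] at b
  refine sup_le ((qt_eq_bot (nn _)).1 (eq_bot_mono a ?_)) ((qt_eq_bot (nn _)).1 (eq_bot_mono b ?_))
  · exact le_inf ((qt_mono N inf_le_left).trans (qt_O_le _ _ _))
      ((qt_mono N inf_le_right).trans (qt_O_le _ _ _))
  · rw [qt_comm (nn _) (nn _)]
    exact commutator_mono (qt_O_le _ _ _) le_rfl

end Cfsg.Agent.S3819
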