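import Mathlib
import Cfsg.Statements.S3821
import Cfsg.Agent.Fgs1.Basic
import Cfsg.Agent.Transfer.SylowIn

set_option autoImplicit false
open Cfsg

namespace Cfsg.Agent.S3821

open CF.Fgs1 CF.Transfer

/-- Let A be a normal subgroup of the finite group G and H a subgroup of A. Then H is pronormal in G (H and gHg⁻¹ conjugate inside ⟨H, gHg⁻¹⟩ for every g ∈ G) if and only if H is pronormal in A and G = A · N_G(H). -/
theorem result {G : Type*} [Group G] [Finite G] (A H : Subgroup G) [A.Normal] (hHA : H ≤ A) :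
    Cfsg.IsPronormal H ↔ (Cfsg.IsPronormal (H.subgroupOf A) ∧ A ⊔ Subgroup.normalizer (H : Set G) = ⊤) := by
  have hmap : ∀ g : A, ((H.subgroupOf A).map (MulAut.conj g).toMonoidHom).map A.subtype =
      H.map (MulAut.conj (g : G)).toMonoidHom := fun g => by
    rw [map_conj_eq_cj, map_cj, Subgroup.map_subgroupOf_eq_of_le hHA]
    rfl
  have hle : ∀ g : G, H ⊔ H.map (MulAut.conj g).toMonoidHom ≤ A := fun g =>
    sup_le hHA ((map_conj_mono hHA g).trans (map_conj_of_normal A g).le)
  constructor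
  · intro h
    refine ⟨fun g => ?_, ?_⟩
    · obtain ⟨x, hx, hx2⟩ := h g
      refine ⟨⟨x, hle g hx⟩, ?_, ?_⟩
      · rw [← Subgroup.mem_map_iff_mem A.subtype_injective, Subgroup.map_sup, hmap,
          Subgroup.map_subgroupOf_eq_of_le hHA]
        exact hx
      · apply Subgroup.map_injective A.subtype_injective
        rw [hmap, hmap, hx2]
    · rw [eq_top_iff]
      intro g _
      obtain ⟨x, hx, hx2⟩ := h g
      have := Subgroup.mul_mem_sup (hle g hx) (map_conj_eq_map_conj_iff.1 hx2)
      rwa [mul_inv_cancel_left] at this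
  · rintro ⟨h1, h2⟩ g
    have hg : g ∈ ((A ⊔ Subgroup.normalizer (H : Set G) : Subgroup G) : Set G) := by
      rw [h2]; trivial
    rw [Subgroup.normal_mul] at hg
    obtain ⟨a, ha, n, hn, rfl⟩ := hg
    have h3 : H.map (MulAut.conj (a * n)).toMonoidHom = H.map (MulAut.conj a).toMonoidHom := by
      rw [← map_conj_map_conj, map_conj_eq_self_iff.2 hn]
    simp only [h3]
    obtain ⟨x, hx, hx2⟩ := h1 ⟨a, ha⟩
    refine ⟨x, ?_, ?_⟩
    · have := Subgroup.mem_map_of_mem A.subtype hx
      rwa [Subgroup.map_sup, hmap, Subgroup.map_subgroupOf_eq_of_le hHA] at this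
    · rw [← hmap x, ← hx2, hmap]

end Cfsg.Agent.S3821
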