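import Cfsg.Statements.S3822
import Cfsg.Agent.Flav.C

set_option autoImplicit false
open Cfsg

namespace Cfsg.Agent.S3822
open CF.BG Subgroup
open scoped commutatorElement Pointwise
universe u

theorem sq_cent {X : Type u} [Group X] [Finite X] {p : ℕ} (hp : p.Prime) (h5 : 5 ≤ p)
    {A W : Subgroup X} (s : Sol A) (hW : MinN W A) (ab : Abel W) {x a : X} (pw : x ^ p = 1)
    (ha : a ∈ A) (e : A = zpowers x ⊔ cj a (zpowers x)) (nc : ¬ A ≤ 𝐂 W) :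
    ♯(W ⊓ 𝐂₁ x) ^ 2 < ♯W := by
  have hx : x ∈ A := e ▸ mem_sup_left (mem_zpowers x)
  have gen : ∀ N, N ⊴ A → x ∈ N → A ≤ N := fun N hN h =>
    e.le.trans (sup_le (zpowers_le.2 h) (cj_le_of_norm (hN.norm ha) (zpowers_le.2 h)))
  have := ab.comm
  let φ : A →* MulAut W := W.normalizerMonoidHom.comp (inclusion hW.norm)
  have φa : ∀ (g : A) (w : W), (φ g w : X) = g * w * g⁻¹ := fun _ _ => rfl
  have h := CF.Flav.sq_fix_lt (p := p) (x := (⟨x, hx⟩ : A)) φ ⟨hp, h5, Subtype.ext pw, by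
      have := gen _ (normal_iff_map_subtype.1 (normalClosure_normal (s := {(⟨x, hx⟩ : A)})))
        ⟨_, subset_normalClosure rfl, rfl⟩
      refine eq_top_iff.2 fun g _ => ?_
      obtain ⟨y, hy, e⟩ := this g.2
      exact (Subtype.ext e : y = g) ▸ hy⟩
    (fun c => nc ((gen _ (normalIn_inf_cent hW.norm) ⟨hx, mem_cent.2 fun w hw => by
      have := φa ⟨x, hx⟩ ⟨w, hw⟩
      rw [c] at this
      exact eq_mul_inv_iff_mul_eq.1 this⟩).trans inf_le_right)) fun U hU => by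
    refine (hW.eq_bot_or (map_subtype_le U) (le_norm_iff.2 ?_)).imp (fun e => ?_) fun e => ?_
    · rintro g hg _ ⟨u, hu, rfl⟩
      exact ⟨_, hU ⟨g, hg⟩ u hu, rfl⟩
    · exact (map_eq_bot_iff_of_injective _ W.subtype_injective).1 e
    · exact map_injective W.subtype_injective (e.trans (map_top_subtype W).symm)
  rwa [show Nat.card {w // φ ⟨x, hx⟩ w = w} = ♯(W ⊓ 𝐂₁ x) from Nat.card_congr
    ⟨fun w => ⟨w.1, w.1.2, mem_cent1.2 (mul_inv_eq_iff_eq_mul.1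
      ((φa _ _).symm.trans (congrArg Subtype.val w.2))).symm⟩,
     fun w => ⟨⟨w, w.2.1⟩, Subtype.ext ((φa _ _).trans
      (mul_inv_eq_iff_eq_mul.2 (mem_cent1.1 w.2.2).symm))⟩, fun _ => rfl, fun _ => rfl⟩] at h

theorem main {G : Type u} [Group G] [Finite G] {p : ℕ} (hp : p.Prime) (h5 : 5 ≤ p)
    {A K R : Subgroup G} (s : Sol A) {x a : G} (pw : x ^ p = 1)
    (ha : a ∈ A) (e : A = zpowers x ⊔ cj a (zpowers x))
    (hmax : ∀ B : Subgroup G, A ≤ B → Sol B → (∃ b ∈ B, B = zpowers x ⊔ cj b (zpowers x)) → B = A)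
    {r : ℕ} (hR : R ⊴ A) (rR : PiGrp {r} R) (hK : Nil K) (rK : PiGrp {r}ᶜ K) (n : A ≤ 𝐍 K) :
    R ≤ 𝐂 K := by
  by_contra nc
  have hx : x ∈ A := e ▸ mem_sup_left (mem_zpowers x)
  obtain ⟨V, hVK, ⟨nV, cV⟩, mn⟩ := exists_minimal (P := fun V => A ≤ 𝐍 V ∧ ¬ R ≤ 𝐂 V) ⟨n, nc⟩
  have rV := rK.le hVK
  have nilV := hK.mono hVK
  have RV : R ≤ 𝐍 V := hR.le.trans nV
  have cop : (♯R).Coprime (♯V) := rR.coprime rV
  have VL : V ⊴ V ⊔ A := normalIn_sup_left nV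
  have V0 : V ≠ ⊥ := by rintro rfl; exact cV (by simp)
  obtain ⟨Φ, -, ch⟩ := exists_chief_below VL (bot_lt_iff_ne_bot.2 V0) (by simp)
  have nΦ : V ⊔ A ≤ 𝐍 Φ := ch.normV
  have AΦ : A ≤ 𝐍 Φ := le_sup_right.trans nΦ
  have VΦ : V ≤ 𝐍 Φ := le_sup_left.trans nΦ
  have RΦ : R ≤ 𝐂 Φ := by_contra fun c => ch.lt.ne (mn Φ ⟨AΦ, c⟩ ch.lt.le)
  have der : ⁅V, V⁆ ≤ Φ := ch.comm_le_of_nil VL (nilV.qt Φ)
  have btw : ∀ W, Φ ≤ W → W ≤ V → A ≤ 𝐍 W → W = Φ ∨ W = V := fun W a b c =>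
    ch.eq_or a b (sup_le (norm_of_der_le b (der.trans a)) c)
  have eΦ : V ⊓ 𝐂 R = Φ := (btw _ (le_inf ch.lt.le (cent_symm RΦ)) inf_le_left
    (norm_inf_cent nV hR.norm)).resolve_right fun c => cV (cent_symm (c ▸ inf_le_right))
  have eV : ⁅V, R⁆ = V := mn _ ⟨norm_commutator nV hR.norm, fun c =>
    cV (cent_of_comm_le_cent RV cop (cent_symm c))⟩ (comm_le_left RV)
  have i0 : R ⊓ V = ⊥ := CF.BG.inf_eq_bot_of_coprime cop
  have key : ∀ u ∈ V, ∀ y ∈ A, u * y * u⁻¹ ∈ 𝐍 R → qe Φ u ∈ qt Φ V ⊓ 𝐂₁ (qe Φ y) := by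
    intro u hu y hy h
    refine ⟨qe_mem_qt hu (VΦ hu), mem_cent1.2 ?_⟩
    rw [← commutatorElement_eq_one_iff_mul_comm, ← qe_comm (VΦ hu) (AΦ hy), qe_eq_one
      (by rw [commutatorElement_def]; exact mul_mem (mul_mem (mul_mem (VΦ hu) (AΦ hy))
            (inv_mem (VΦ hu))) (inv_mem (AΦ hy))), ← eΦ, ← inf_norm_eq_inf_cent RV i0]
    refine mem_inf.2 ⟨?_, mul_mem h (inv_mem (hR.norm hy))⟩
    rw [commutatorElement_def, mul_assoc, mul_assoc, ← mul_assoc y]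
    exact mul_mem hu (conj_mem_of_norm (nV hy) (inv_mem hu))
  have sL : Sol (V ⊔ A : Subgroup G) := nilV.sol.sup' s nV
  have sd : SDProd V R (V ⊔ R) := SDProd.mk' RV (inf_comm R V ▸ i0)
  have ML : V ⊔ R ⊴ V ⊔ A := ⟨sup_le_sup_left hR.le _, sup_le (norm_of_le le_sup_left)
    (norm_sup nV hR.norm)⟩
  have cover : qt Φ V ≤ (qt Φ V ⊓ 𝐂₁ (qe Φ x)) ⊔ (qt Φ V ⊓ 𝐂₁ (qe Φ (a * x * a⁻¹))) := by
    intro z hz
    obtain ⟨w, hw, -, rfl⟩ := mem_qt.1 hz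
    set B := zpowers x ⊔ cj (w * a) (zpowers x) with hB
    have xB : x ∈ B := mem_sup_left (mem_zpowers x)
    have yB : w * (a * x * a⁻¹) * w⁻¹ ∈ B := mem_sup_right (by
      rw [show w * (a * x * a⁻¹) * w⁻¹ = w * a * x * (w * a)⁻¹ by group]
      exact conj_mem_cj.2 (mem_zpowers x))
    have BL : B ≤ V ⊔ A := sup_le (zpowers_le.2 (mem_sup_right hx))
      (cj_le_of_mem (mul_mem (mem_sup_left hw) (mem_sup_right ha)) (zpowers_le.2 (mem_sup_right hx)))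
    have AB : A ≤ V ⊔ B := e.le.trans (sup_le (zpowers_le.2 (mem_sup_right xB)) (by
      rw [cj_zpowers, zpowers_le, show a * x * a⁻¹ = w⁻¹ * (w * (a * x * a⁻¹) * w⁻¹) * w by group]
      exact mul_mem (mul_mem (mem_sup_left (inv_mem hw)) (mem_sup_right yB)) (mem_sup_left hw)))
    have BV : B ≤ 𝐍 V := BL.trans VL.norm
    obtain ⟨Q, hQ⟩ := exists_syl r (B ⊓ (V ⊔ R))
    have QM : Q ≤ V ⊔ R := hQ.le.trans inf_le_right
    have MV : V ⊔ R ≤ 𝐍 V := sd.normal.norm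
    have MQ : V ⊔ R ≤ V ⊔ Q := by
      have h1 := (hQ.qt (K := V) (inf_le_right.trans MV)).eq_of_pi
        ((rR.qt V).le (sd.qt_eq ▸ qt_mono V inf_le_right))
      have h2 := (qt_le_qt_iff (inf_le_right.trans MV) (QM.trans MV)).1 h1.ge
      refine le_trans (fun m hm => ?_) (sup_le le_sup_left h2)
      obtain ⟨v, hv, b, hb, rfl⟩ := (mem_sup_norm' BV).1
        ((sup_le le_sup_left (hR.le.trans AB) : V ⊔ R ≤ V ⊔ B) hm)
      exact mul_mem (mem_sup_left hv) (mem_sup_right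
        ⟨hb, (mul_mem_cancel_left (mem_sup_left hv)).1 hm⟩)
    obtain ⟨g, hg, hgQ⟩ := (sd.hall_right rV rR).syl_le_cj QM hQ.pi
    obtain ⟨v, hv, ρ, hρ, rfl⟩ := sd.exists_mul hg
    rw [← cj_cj, cj_of_mem hρ] at hgQ
    have eQ : Q = cj v R := le_antisymm hgQ fun y hy => by
      obtain ⟨u, hu, q, hq, rfl⟩ := (mem_sup_norm' (QM.trans MV)).1
        (MQ (cj_le_of_mem (mem_sup_left hv) le_sup_right hy))
      have : u ∈ cj v R ⊓ V := ⟨(mul_mem_cancel_right (hgQ hq)).1 hy, hu⟩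
      rw [CF.BG.inf_eq_bot_of_coprime (by rw [card_cj]; exact cop), mem_bot] at this
      rwa [this, one_mul]
    have ΦQ : Φ ≤ 𝐂 Q := by
      rw [eQ, ← cj_of_norm (VΦ hv), cj_cent_iff]; exact cent_symm RΦ
    have QB : Q ≤ B := hQ.le.trans inf_le_left
    have n0 : V ⊔ A ≤ 𝐍 (Φ ⊔ B ⊓ V) := (sup_le le_sup_left AB).trans (sup_le
      (norm_of_der_le (sup_le ch.lt.le inf_le_right) (der.trans le_sup_left))
      (norm_sup (BL.trans nΦ) (norm_inf (le_norm_self B) BV)))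
    rcases ch.eq_or le_sup_left (sup_le ch.lt.le inf_le_right) n0 with c | c
    · have c' : B ⊓ V ≤ Φ := c ▸ le_sup_right
      have DQ : B ⊓ (V ⊔ R) ≤ 𝐍 Q := fun d hd => by
        obtain ⟨u, hu, q, hq, rfl⟩ := (mem_sup_norm' (QM.trans MV)).1 (MQ hd.2)
        exact mul_mem (cent_le_norm _ (ΦQ (c' ⟨(mul_mem_cancel_right (QB hq)).1 hd.1, hu⟩)))
          (le_norm_self Q hq)
      have BQ : B ≤ cj v (𝐍 R) := by
        rw [cj_norm, ← eQ]
        exact (norm_inf (le_norm_self B) (BL.trans ML.norm)).trans (hQ.norm_le_norm DQ)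
      have k1 := key v⁻¹ (inv_mem hv) x hx (by simpa using mem_cj.1 (BQ xB))
      have k2 := key (v⁻¹ * w) (mul_mem (inv_mem hv) hw) _ (conj_mem_of_norm (le_norm_self A ha) hx)
        (by simpa [mul_assoc] using mem_cj.1 (BQ yB))
      rw [show w = v⁻¹⁻¹ * (v⁻¹ * w) by group, qe_mul (inv_mem (inv_mem (VΦ hv)))
        (VΦ (mul_mem (inv_mem hv) hw)), qe_inv (inv_mem (VΦ hv))]
      exact mul_mem (mem_sup_left (inv_mem k1)) (mem_sup_right k2)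
    · exfalso
      have VB : V ≤ B := by
        have : ⁅V, Q⁆ = V := by
          rw [eQ]; conv_rhs => rw [← cj_of_mem hv, ← eV, cj_comm, cj_of_mem hv]
        rw [← this, commutator_le]
        intro u hu q hq
        obtain ⟨b, hb, f, hf, rfl⟩ := (mem_sup_norm (H := B ⊓ V) (inf_le_right.trans VΦ)).1
          (sup_comm Φ (B ⊓ V) ▸ c.ge hu)
        rw [show ⁅b * f, q⁆ = b * (f * q) * f⁻¹ * b⁻¹ * q⁻¹ by group, ← mem_cent.1 (ΦQ hf) q hq,
          show b * (q * f) * f⁻¹ * b⁻¹ * q⁻¹ = b * q * b⁻¹ * q⁻¹ by group]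
        exact mul_mem (mul_mem (mul_mem hb.1 (QB hq)) (inv_mem hb.1)) (inv_mem (QB hq))
      have AB' : A ≤ B := AB.trans (sup_le VB le_rfl)
      have := hmax B AB' (sL.mono BL) ⟨_, mul_mem (VB hw) (AB' ha), hB⟩
      exact cV (cent_of_inf_eq_bot RV ((this ▸ VB).trans hR.norm) i0)
  have abW : Abel (qt Φ V) := (abel_qt_iff VΦ).2 der
  have mW : MinN (qt Φ V) (qt Φ A) := ⟨ch.minN.ne_bot, qt_norm Φ nV, fun N hN h1 h2 =>
    ch.minN.min N hN h1 (by rw [qt_sup VΦ AΦ]; exact sup_le (abW.le_norm hN) h2)⟩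
  have xΦ := AΦ hx
  have aΦ := AΦ ha
  have h1 := sq_cent hp h5 (s.qt Φ) mW abW (x := qe Φ x) (a := qe Φ a)
    (by rw [← qe_pow xΦ, pw, qe_one]) (qe_mem_qt ha aΦ) (by
      conv_lhs => rw [e]
      rw [qt_sup (zpowers_le.2 xΦ) (cj_le_of_mem aΦ (zpowers_le.2 xΦ)), qt_cj aΦ, qt_zpowers xΦ])
    fun c => ch.lt.not_ge (by
      rw [← eV, commutator_comm]
      exact (commutator_mono hR.le le_rfl).trans ((qt_cent_iff AΦ VΦ).1 c))
  have h2 := (card_le cover).trans (Nat.le_of_dvd (Nat.mul_pos (card_pos' _) (card_pos' _))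
    (card_sup_dvd (Or.inl (inf_le_left.trans (abW.le_norm inf_le_left)))))
  rw [qe_conj aΦ xΦ, ← cj_cent1, ← cj_of_norm (mW.norm (qe_mem_qt ha aΦ)), ← cj_inf, card_cj,
    card_cj, cj_of_norm (mW.norm (qe_mem_qt ha aΦ)), ← sq] at h2
  omega

/-- Let G be a finite group and P a subgroup of prime order p > 3. Consider the solvable subgroups A of G of the form A = ⟨P, aPa⁻¹⟩ for some a ∈ A, and let A be maximal under inclusion among them. Then for every nilpotent subgroup V of G normalized by A, the subgroup F(A)V generated by the Fitting subgroup of A and V is nilpotent. -/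
theorem result {G : Type*} [Group G] [Finite G]
    {p : ℕ} [Fact p.Prime] (hp : 3 < p) (P : Subgroup G) (hP : Nat.card P = p) (A : Subgroup G)
    (hA : Group.IsSolvable ↥A ∧ ∃ a ∈ A, A = P ⊔ P.map (MulAut.conj a).toMonoidHom)
    (hmax : ∀ B : Subgroup G, A ≤ B → Group.IsSolvable ↥B → (∃ b ∈ B, B = P ⊔ P.map (MulAut.conj b).toMonoidHom) → B = A)
    (V : Subgroup G) (hV : Group.IsNilpotent ↥V) (hAV : A ≤ Subgroup.normalizer (V : Set G)) :
    Group.IsNilpotent ↥((Cfsg.fittingSubgroup ↥A).map A.subtype ⊔ V) := by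
  have pp : p.Prime := Fact.out
  obtain ⟨x, rfl⟩ := (cyc_of_prime (hP ▸ pp : (♯P).Prime)).exists_gen
  obtain ⟨s, a, ha, e⟩ := hA
  have key : ∀ r, 𝐎 {r} A ≤ 𝐂 (𝐎 {r}ᶜ V) := fun r => main pp (by
      rcases pp.eq_two_or_odd' with h | ⟨j, h⟩ <;> omega) s
    (by rw [← hP, Nat.card_zpowers, pow_orderOf_eq_one]) ha e hmax (O_normal _ _) (O_pi _ _)
    (Nil.mono hV (O_le _ _)) (O_pi _ _) (le_norm_O _ hAV)
  rw [← F_top, ← F_map_subtype, map_top_subtype]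
  have FV : 𝐅 A ≤ 𝐍 V := (F_le A).trans hAV
  refine nil_of_le_F (H := 𝐅 A ⊔ V) (sup_le (F_le_of_forall fun r _ _ => ?_)
    (le_F (normalIn_sup_right FV) hV))
  have n1 : 𝐎 {r} A ≤ 𝐍 (𝐎 {r} V) := (O_le _ _).trans (le_norm_O _ hAV)
  refine le_sup_left.trans (le_F (K := 𝐎 {r} A ⊔ 𝐎 {r} V) ⟨sup_le_sup (O_le_F r A) (O_le _ _),
    sup_le ((F_le A).trans (norm_sup (O_normal _ _).norm (le_norm_O _ hAV))) ?_⟩
    ((O_pi _ _).sup (O_pi _ _) (Or.inl n1)).nil)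
  conv_lhs => rw [← (Nil.dprod hV {r}).sup]
  exact sup_le (norm_of_le le_sup_right) (norm_of_cent (le_cent_sup (cent_symm (key r))
    (O_compl_cent_O _ _)))

end Cfsg.Agent.S3822
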