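import Mathlib
import Cfsg.Statements.S3825
import Cfsg.Agent.Fgs1.Basic

set_option autoImplicit false
open Cfsg
open scoped commutatorElement

namespace Cfsg.Agent.S3825


/-- Let U be a subgroup of a finite group H and w an involution of H normalizing U and commuting with exactly two elements of U, the identity and y. If V is a non-cyclic elementary abelian 2-subgroup of U containing y which is normal in U and invariant under w, then V is a Sylow 2-subgroup of U, V has order 4, and U/V is abelian. -/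
theorem result {H : Type*} [Group H] [Finite H] (U : Subgroup H) (w : H) (hw : orderOf w = 2)
    (hwU : w ∈ Subgroup.normalizer (U : Set H)) (y : H) (hy : y ≠ 1) (hyU : y ∈ U)
    (hfix : ∀ u ∈ U, w * u * w⁻¹ = u ↔ (u = 1 ∨ u = y))
    (V : Subgroup H) (hVU : V ≤ U) (hVn : (V.subgroupOf U).Normal) (hVw : ∀ v ∈ V, w * v * w⁻¹ ∈ V)
    (hVe : Cfsg.IsElementaryAbelian 2 V) (hVc : ¬ IsCyclic ↥V) (hyV : y ∈ V) :
    ¬ 2 ∣ V.relIndex U ∧ Nat.card ↥V = 4 ∧ ⁅U, U⁆ ≤ V := by
  have hw2 : w * w = 1 := by rw [← sq, ← hw, pow_orderOf_eq_one]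
  have hwi : w⁻¹ = w := inv_eq_of_mul_eq_one_right hw2
  have hsq : ∀ v ∈ V, v⁻¹ = v := fun v hv => inv_eq_of_mul_eq_one_right (by
    rw [← sq]; exact hVe.2 v hv)
  have hcomm : ∀ u ∈ U, u⁻¹ * (w * u * w⁻¹) ∈ V → u⁻¹ * (w * u * w⁻¹) = 1 ∨ u⁻¹ * (w * u * w⁻¹) = y := by
    intro u hu hv
    apply (hfix _ (hVU hv)).mp
    conv_rhs => rw [← hsq _ hv]
    calc _ = w * u⁻¹ * (w⁻¹ * w) * (w * u) * (w⁻¹ * w⁻¹) := by group
      _ = w * u⁻¹ * w⁻¹ * (w * w) * u * (w * w)⁻¹ := by group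
      _ = _ := by rw [hw2]; group
  obtain ⟨v, hv, hv1, hvy⟩ : ∃ v ∈ V, v ≠ 1 ∧ v ≠ y := by
    by_contra h
    push Not at h
    apply hVc
    refine ⟨⟨⟨y, hyV⟩, fun x => ?_⟩⟩
    by_cases h1 : (x : H) = 1
    · exact ⟨0, Subtype.ext (by simp [h1])⟩
    · exact ⟨1, Subtype.ext (by simp [h x x.2 h1])⟩
  have hvc : v⁻¹ * (w * v * w⁻¹) = y := by
    refine (hcomm v (hVU hv) (V.mul_mem (V.inv_mem hv) (hVw v hv))).resolve_left fun h => ?_
    rcases (hfix v (hVU hv)).mp (inv_mul_eq_one.mp h).symm with h | h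
    exacts [hv1 h, hvy h]
  have hD : ∀ u ∈ U, u⁻¹ * (w * u * w⁻¹) ∈ V → u = 1 ∨ u = y ∨ u = v ∨ u = y * v := by
    intro u hu h
    rcases hcomm u hu h with h1 | h1
    · rcases (hfix u hu).mp (inv_mul_eq_one.mp h1).symm with h | h
      exacts [Or.inl h, Or.inr (Or.inl h)]
    · have : w * (u * v⁻¹) * w⁻¹ = u * v⁻¹ := by
        calc _ = u * (u⁻¹ * (w * u * w⁻¹)) * (v⁻¹ * (w * v * w⁻¹))⁻¹ * v⁻¹ := by group
          _ = _ := by rw [h1, hvc]; group
      rcases (hfix _ (U.mul_mem hu (U.inv_mem (hVU hv)))).mp this with h | h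
      · exact Or.inr (Or.inr (Or.inl (mul_inv_eq_one.mp h)))
      · exact Or.inr (Or.inr (Or.inr (mul_inv_eq_iff_eq_mul.mp h)))
  have hcard : Nat.card V = 4 := by
    have : (V : Set H) = {1, y, v, y * v} := by
      ext x
      constructor
      · intro hx
        exact hD x (hVU hx) (V.mul_mem (V.inv_mem hx) (hVw x hx))
      · rintro (rfl | rfl | rfl | rfl)
        exacts [V.one_mem, hyV, hv, V.mul_mem hyV hv]
    change Set.ncard (V : Set H) = 4
    rw [this, Set.ncard_eq_four]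
    refine ⟨1, y, v, y * v, hy.symm, hv1.symm, fun h => hvy ?_, hvy.symm, fun h => hv1 ?_,
      fun h => hy ?_, rfl⟩
    · rw [← hsq y hyV]; exact eq_inv_of_mul_eq_one_right h.symm
    · exact left_eq_mul.mp h
    · exact right_eq_mul.mp h
  let φ : U →* U := ((MulAut.conj w).toMonoidHom.comp U.subtype).codRestrict U
    (fun u => CF.Fgs1.conj_mem_of_mem_normalizer hwU u.2)
  let ψ : U ⧸ V.subgroupOf U →* U ⧸ V.subgroupOf U :=
    QuotientGroup.map _ _ φ (fun u hu => hVw u hu)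
  have hψ : MonoidHom.FixedPointFree ψ := by
    intro x hx
    obtain ⟨u, rfl⟩ := QuotientGroup.mk_surjective x
    rw [QuotientGroup.eq_one_iff]
    have : (u⁻¹ * φ u) ∈ V.subgroupOf U := QuotientGroup.eq.mp hx.symm
    rcases hD u u.2 this with h | h | h | h <;> rw [Subgroup.mem_subgroupOf, h]
    exacts [V.one_mem, hyV, hv, V.mul_mem hyV hv]
  have hinv : Function.Involutive ψ := by
    intro x
    obtain ⟨u, rfl⟩ := QuotientGroup.mk_surjective x
    change ((φ (φ u) : U) : U ⧸ V.subgroupOf U) = _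
    congr 1
    apply Subtype.ext
    change w * (w * u * w⁻¹) * w⁻¹ = u
    calc _ = (w * w) * u * (w * w)⁻¹ := by group
      _ = _ := by rw [hw2]; group
  refine ⟨?_, hcard, ?_⟩
  · have := hψ.odd_card_of_involutive hinv
    rw [← even_iff_two_dvd, Nat.not_even_iff_odd]
    exact this
  · rw [Subgroup.commutator_le]
    intro a ha b hb
    have := hψ.commute_all_of_involutive hinv ((⟨a, ha⟩ : U) : U ⧸ V.subgroupOf U) ((⟨b, hb⟩ : U) : U ⧸ V.subgroupOf U)
    rw [← commutatorElement_eq_one_iff_commute] at this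
    have h2 : ((⁅(⟨a, ha⟩ : U), ⟨b, hb⟩⁆ : U) : U ⧸ V.subgroupOf U) = 1 := this
    exact (QuotientGroup.eq_one_iff (N := V.subgroupOf U) _).mp h2

end Cfsg.Agent.S3825
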