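import Cfsg.Statements.S3835
import Cfsg.Agent.PLocal.QdAff

set_option autoImplicit false
open Cfsg

namespace Cfsg.Agent.S3835

/-- Let p be an odd prime and n a natural number. The alternating group of degree n has a subgroup isomorphic to Qd(p) (the natural semidirect product of an elementary abelian group of order p² by SL₂(p)) if and only if n ≥ p²; and if n < p² then Qd(p) is not even involved in it. -/
theorem result {p : ℕ} [Fact p.Prime] (hp : p ≠ 2) (n : ℕ) : ((∃ H : Subgroup (alternatingGroup (Fin n)), Nonempty (↥H ≃* ↥(Cfsg.qd p))) ↔ p ^ 2 ≤ n) ∧ (n < p ^ 2 → ¬ Cfsg.Involves ↥(Cfsg.qd p) ↥(alternatingGroup (Fin n))) := by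
  have key : n < p ^ 2 → ¬ Cfsg.Involves ↥(Cfsg.qd p) ↥(alternatingGroup (Fin n)) := fun h => by
    rw [CF.PLocal.qd_eq_qdOver]
    exact CF.PLocal.not_involves_qdOver_of_abelian (p := p) fun A hA =>
      CF.PLocal.isMulCommutative_of_perm hA ((alternatingGroup (Fin n)).subtype.comp A.subtype)
        ((Subgroup.subtype_injective _).comp A.subtype_injective) (by simpa using h)
  refine ⟨⟨fun ⟨H, ⟨e⟩⟩ => ?_, fun h => ?_⟩, key⟩
  · by_contra h
    exact key (not_le.mp h) (CF.Transfer.involves_trans (CF.Transfer.involves_of_equiv e)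
      (CF.Transfer.involves_subgroup H))
  · obtain ⟨ι⟩ : Nonempty ((Fin 2 → ZMod p) ↪ Fin n) :=
      Function.Embedding.nonempty_of_card_le (by simpa using h)
    let f := (Equiv.Perm.viaEmbeddingHom ι).comp (CF.PLocal.qdAff (F := ZMod p))
    have hf : Function.Injective f :=
      (Equiv.Perm.viaEmbeddingHom_injective ι).comp CF.PLocal.qdAff_injective
    let g := f.codRestrict (alternatingGroup (Fin n)) fun M =>
      Equiv.Perm.mem_alternatingGroup.mpr (CF.PLocal.pRes_two_qdOver p hp (Equiv.Perm.sign.comp f) M)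
    rw [CF.PLocal.qd_eq_qdOver]
    exact ⟨g.range, ⟨(MonoidHom.ofInjective fun a b hab => hf (congrArg Subtype.val hab)).symm⟩⟩

end Cfsg.Agent.S3835
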