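import Mathlib
import Cfsg.Statements.S3836
import Cfsg.Agent.Fgs1.Basic
import Cfsg.Agent.Solv.Cores

set_option autoImplicit false
open Cfsg

namespace Cfsg.Agent.S3836

open CF.Fgs1 Subgroup

/-- Let G be a finite group that is p-stable in the normalizer form: for every p-subgroup Q and every x ∈ N_G(Q) with [Q, x, x] = 1, the image of x in N_G(Q)/C_G(Q) lies in O_p(N_G(Q)/C_G(Q)). Then every subgroup of G is p-stable in the same sense. -/
theorem result {G : Type*} [Group G] [Finite G] {p : ℕ} [Fact p.Prime] (hst : Cfsg.IsNormalizerPStable p G) (H : Subgroup G) : Cfsg.IsNormalizerPStable p ↥H := by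
  intro P hP g hg hq
  set P' := P.map H.subtype with hP'
  have hN : (normalizer (P : Set H)).map H.subtype ≤ normalizer (P' : Set G) :=
    le_normalizer_map _
  have h1 := hst P' (hP.map _) g (hN ⟨g, hg, rfl⟩) (by
    have := congrArg (Subgroup.map H.subtype) hq
    rwa [map_commutator, map_commutator, MonoidHom.map_zpowers, Subgroup.map_bot] at this)
  let f : normalizer (P : Set H) →* normalizer (P' : Set G) :=
    (H.subtype.comp (normalizer (P : Set H)).subtype).codRestrict _ fun x => hN ⟨x, x.2, rfl⟩
  let φ := (QuotientGroup.mk' ((centralizer (P' : Set G)).subgroupOf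
    (normalizer (P' : Set G)))).comp f
  have hker : φ.ker = (centralizer (P : Set H)).subgroupOf (normalizer (P : Set H)) := by
    ext x
    rw [MonoidHom.mem_ker, mem_subgroupOf]
    refine (QuotientGroup.eq_one_iff (f x)).trans ?_
    rw [mem_subgroupOf, mem_centralizer_iff, mem_centralizer_iff]
    constructor
    · intro h y hy
      exact Subtype.ext (h y ⟨y, hy, rfl⟩)
    · rintro h _ ⟨y, hy, rfl⟩
      exact congrArg Subtype.val (h y hy)
  let ψ := QuotientGroup.lift _ φ hker.ge
  have hψ : Function.Injective ψ := by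
    rw [← MonoidHom.ker_eq_bot_iff, QuotientGroup.ker_lift, hker, Subgroup.map_eq_bot_iff,
      QuotientGroup.ker_mk']
  exact CF.Solv.le_pCore (N := (pCore p _).comap ψ)
    (CF.Solv.pCore_isPGroup.comap_of_injective ψ hψ) h1

end Cfsg.Agent.S3836
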