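import Cfsg.Statements.S3838
import Cfsg.Agent.Fgs3.Rank

set_option autoImplicit false
open Cfsg

namespace Cfsg.Agent.S3838

open CF.BG Subgroup

/-- a normal `p`-subgroup inside the Frattini subgroup of a Sylow `p`-subgroup does not affect
`p`-nilpotency -/
theorem npc_of_qt_Phi {G : Type*} [Group G] [Finite G] {p : ℕ} {P Q N : Subgroup G}
    (hP : Syl p P N) (hQ : Q ⊴ N) (hQP : Q ≤ 𝚽 P) (h : NPC p (qt Q N)) : NPC p N := by
  have hQp : PiGrp {p} Q := hP.pi.le (hQP.trans (Phi_le P))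
  set K := qp Q (𝐎 {p}ᶜ (qt Q N)) with hK
  have hKN : K ⊴ N := (O_normal _ _).qp_of_qt hQ
  have hQK : Q ⊴ K := normal_qp _
  have hi : PiNat {p}ᶜ (Q.relIndex K) := by rw [hK, relIndex_qp]; exact O_pi _ _
  obtain ⟨H, hH, hH'⟩ := (Hall.mk hQK.le hQp hi).exists_compl hQK.norm
  have hsup : Q ⊔ (N ⊓ 𝐍 H) = N := by
    refine le_antisymm (sup_le hQ.le inf_le_left) fun g hg => ?_
    have h1 : cj g H ≤ Q ⊔ H := by
      rw [hH.sup]; exact cj_le_of_norm (hKN.norm hg) hH.right_le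
    obtain ⟨k, hk, h2⟩ := exists_cj_le_of_le_sup hH.norm h1
      ((hH'.pi.cj g).coprime' hQp) (Or.inr hQp.sol)
    rw [cj_cj] at h2
    have h3 : k * g ∈ N ⊓ 𝐍 H := ⟨mul_mem (hQ.le hk) hg, mem_norm_of_cj_le h2⟩
    have := mul_mem (inv_mem (mem_sup_left hk : k ∈ Q ⊔ (N ⊓ 𝐍 H))) (mem_sup_right h3)
    rwa [inv_mul_cancel_left] at this
  have hPN : P ⊓ (N ⊓ 𝐍 H) = P := by
    apply eq_of_le_sup_Phi inf_le_left
    have := inf_sup_left (A := Q) (N := N ⊓ 𝐍 H) (C := P) (hQP.trans (Phi_le P))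
      (Or.inr (inf_le_left.trans hQ.norm))
    rw [hsup, inf_eq_left.2 hP.le] at this
    exact this.le.trans (by rw [sup_comm]; exact sup_le_sup_left hQP _)
  have hNH : N ≤ 𝐍 H := by
    rw [← hsup]
    exact sup_le ((hQP.trans (Phi_le P)).trans (hPN.ge.trans (inf_le_right.trans inf_le_right)))
      inf_le_right
  refine npc_of_normal ⟨hH.right_le.trans hKN.le, hNH⟩ hH'.pi ?_
  rw [← relIndex_mul_relIndex H K N hH.right_le hKN.le]
  refine hH'.idx.of_compl_compl.mul ?_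
  rw [hK, relIndex_qp_left _ hQ.norm]
  exact h.idx.of_compl_compl


/-- Let G be a finite group with Sylow p-subgroup P such that N_G(P) has a normal p-complement. Then N_G(Q) has a normal p-complement for every subgroup Q with [P, P] ≤ Q ≤ Φ(P). -/
theorem result {G : Type*} [Group G] [Finite G] {p : ℕ} [Fact p.Prime] (P : Sylow p G) (hN : Cfsg.HasNormalPComplement p ↥(Subgroup.normalizer ((P : Subgroup G) : Set G))) (Q : Subgroup G) (h1 : (commutator ↥(P : Subgroup G)).map (P : Subgroup G).subtype ≤ Q) (h2 : Q ≤ (frattini ↥(P : Subgroup G)).map (P : Subgroup G).subtype) : Cfsg.HasNormalPComplement p ↥(Subgroup.normalizer (Q : Set G)) := by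
  have hp : p.Prime := Fact.out
  have hP := syl_sylow_top P
  rw [← npc_iff hp] at hN ⊢
  have h1' : ⁅(P : Subgroup G), (P : Subgroup G)⁆ ≤ Q := by
    rw [_root_.commutator, map_commutator, map_top_subtype] at h1; exact h1
  have h2' : Q ≤ 𝚽 (P : Subgroup G) := h2
  have hQP : Q ≤ P := h2'.trans (Phi_le _)
  have hPN : (P : Subgroup G) ≤ 𝐍 Q := norm_of_der_le hQP h1'
  have hPs := hP.of_le hPN le_top
  refine npc_of_qt_Phi hPs (normalIn_norm Q) h2' ?_
  apply (hPs.qt le_rfl).burnside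
  rw [← qt_inf_norm_eq ⟨hQP, hPN⟩]
  have h3 := (hN.mono (inf_le_right : 𝐍 Q ⊓ 𝐍 (P : Subgroup G) ≤ _)).qt (K := Q) inf_le_left
  have h4 : Syl p (qt Q P) (qt Q (𝐍 Q ⊓ 𝐍 (P : Subgroup G))) :=
    (hP.of_le (le_inf hPN (le_norm_self _)) le_top).qt inf_le_left
  rw [← (h3.sdprod h4).sup]
  refine sup_le (h3.cent h4.le h4.pi (O_le _ _) (O_pi _ _) ?_) ((abel_qt_iff hPN).2 h1')
  exact (O_le _ _).trans (qt_norm Q inf_le_right)

end Cfsg.Agent.S3838
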