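import Cfsg.Statements.S3857
import Cfsg.Agent.SolvStr.PG1

set_option autoImplicit false
open Cfsg

namespace Cfsg.Agent.S3857

/-- A finite solvable group whose prime graph (prime divisors of the order, two distinct primes joined when there is an element of order their product) is disconnected is a Frobenius group or a 2-Frobenius group (it has normal subgroups H < K with K a Frobenius group with kernel H and G/H a Frobenius group with kernel K/H). -/
theorem result {G : Type*} [Group G] [Finite G] (hsol : Group.IsSolvable G)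
    (hdisc : (∃ A : Set ℕ, (∃ a ∈ A, a.Prime ∧ a ∣ Nat.card G) ∧ (∃ b ∉ A, b.Prime ∧ b ∣ Nat.card G) ∧
      ∀ a ∈ A, ∀ b ∉ A, a.Prime → b.Prime → a ∣ Nat.card G → b ∣ Nat.card G → ¬ ∃ g : G, orderOf g = a * b)) :
    (∃ C : Subgroup G, Cfsg.IsFrobeniusComplement C) ∨
    (∃ (H K : Subgroup G) (_ : H.Normal), K.Normal ∧ H < K ∧
      (∃ C : Subgroup ↥K, Cfsg.IsFrobeniusComplement C ∧ Cfsg.frobeniusKernel C = (H.subgroupOf K : Set ↥K)) ∧
      (∃ C : Subgroup (G ⧸ H), Cfsg.IsFrobeniusComplement C ∧ Cfsg.frobeniusKernel C = (K.map (QuotientGroup.mk' H) : Set (G ⧸ H)))) := by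
  open CF.BG CF.SolvStr in
  obtain ⟨A, ⟨a, aA, ha, da⟩, ⟨b, bA, hb, db⟩, h⟩ := hdisc
  have s : Sol (⊤ : Subgroup G) := inferInstance
  have sep : CF.SolvStr.Sep A (⊤ : Subgroup G) := sep_of_forall fun p q hp hq mp mq g _ e =>
    h p mp q mq hp hq ((dvd_mul_right p q).trans (e ▸ orderOf_dvd_natCard g))
      ((dvd_mul_left q p).trans (e ▸ orderOf_dvd_natCard g)) ⟨g, e⟩
  rw [← card_top'] at da db
  rcases sep.O_eq_bot with e | e
  · obtain ⟨C, -, f | ⟨M, -, f⟩⟩ := sep.frob s e fun k => bA (k b hb db)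
    exacts [Or.inl ⟨C, (Frob.isFrob f).1⟩, Or.inr f.stmt]
  · obtain ⟨C, -, f | ⟨M, -, f⟩⟩ := sep.symm.frob s ((O_compl_compl _ _).trans e)
      fun k => k a ha da aA
    exacts [Or.inl ⟨C, (Frob.isFrob f).1⟩, Or.inr f.stmt]

end Cfsg.Agent.S3857
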