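import Mathlib
import Cfsg.Statements.S3859
import Cfsg.Agent.Fgs1.Basic
import Cfsg.Agent.Solv.Nilpotent

set_option autoImplicit false
open Cfsg

namespace Cfsg.Agent.S3859

open CF.Fgs1 Subgroup

theorem normalizer_ne_top {G : Type*} [Group G] [Finite G] (T : Subgroup G) [T.Normal]
    (hT : IsSimpleGroup T) (hna : ¬ IsMulCommutative T) {r : ℕ} [Fact r.Prime] (R : Sylow r G)
    (hR0 : (R : Subgroup G) ⊓ T ≠ ⊥) :
    normalizer (((R : Subgroup G) ⊓ T : Subgroup G) : Set G) ≠ ⊤ := by
  intro h
  rw [normalizer_eq_top_iff] at h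
  rcases (h.subgroupOf T).eq_bot_or_eq_top with h1 | h1
  · rw [subgroupOf_eq_bot, disjoint_iff, inf_assoc, inf_idem] at h1
    exact hR0 h1
  · rw [subgroupOf_eq_top] at h1
    have h2 : IsPGroup r T := R.isPGroup'.to_le (h1.trans inf_le_left)
    have := h2.isNilpotent
    exact hna ⟨⟨IsSimpleGroup.comm_iff_isSolvable.2 inferInstance⟩⟩

theorem le_normalizer_inf {G : Type*} [Group G] (T : Subgroup G) [T.Normal] (R : Subgroup G) :
    normalizer (R : Set G) ≤ normalizer ((R ⊓ T : Subgroup G) : Set G) :=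
  (le_inf le_rfl le_normalizer_of_normal).trans inf_normalizer_le_normalizer_inf


/-- Let G be a finite group with a normal non-abelian simple subgroup T whose centralizer is trivial (G almost simple with socle T), r a prime and R a Sylow r-subgroup of G meeting T nontrivially. If R lies in exactly one maximal subgroup of G, then G/T is an r-group. -/
theorem result {G : Type*} [Group G] [Finite G] (T : Subgroup G) [T.Normal] (hT : IsSimpleGroup T) (hna : ¬ IsMulCommutative T)
    (hC : Subgroup.centralizer (T : Set G) = ⊥) {r : ℕ} [Fact r.Prime] (R : Sylow r G) (hR0 : (R : Subgroup G) ⊓ T ≠ ⊥)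
    (huniq : ∃! M : Subgroup G, IsCoatom M ∧ (R : Subgroup G) ≤ M) : IsPGroup r (G ⧸ T) := by
  obtain ⟨M, ⟨hM, hRM⟩, hu⟩ := huniq
  have key : ∀ K : Subgroup G, K ≠ ⊤ → (R : Subgroup G) ≤ K → K ≤ M := fun K hK hRK => by
    obtain ⟨M', h1, h2⟩ := (eq_top_or_exists_le_coatom K).resolve_left hK
    rw [← hu M' ⟨h1, hRK.trans h2⟩]
    exact h2
  have h1 := key _ (normalizer_ne_top T hT hna R hR0) (le_normalizer.trans (le_normalizer_inf T R))
  have h2 : (R : Subgroup G) ⊔ T = ⊤ := by
    by_contra h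
    have h3 := CF.Solv.normalizer_inf_sup_eq_top R T
    exact hM.1 (eq_top_iff.2 (h3.ge.trans (sup_le h1 (le_sup_right.trans (key _ h le_sup_left)))))
  have h3 : IsPGroup r ((R : Subgroup G).map (QuotientGroup.mk' T)) := R.isPGroup'.map _
  have h4 : (R : Subgroup G).map (QuotientGroup.mk' T) = ⊤ := by
    have := congrArg (Subgroup.map (QuotientGroup.mk' T)) h2
    rwa [Subgroup.map_sup, (Subgroup.map_eq_bot_iff T).2 (QuotientGroup.ker_mk' T).ge, sup_bot_eq,
      map_top_of_surjective _ (QuotientGroup.mk'_surjective T)] at this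
  rw [h4] at h3
  exact h3.of_equiv topEquiv

end Cfsg.Agent.S3859
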