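import Mathlib
import Cfsg.Statements.S3858
import Cfsg.Agent.S3859
import Cfsg.Agent.Transfer.SylowIn

set_option autoImplicit false
open Cfsg

namespace Cfsg.Agent.S3858

open CF.Fgs1 Subgroup CF.Transfer

theorem isCoatom_cj {G : Type*} [Group G] {M : Subgroup G} (hM : IsCoatom M) (g : G) :
    IsCoatom (cj g M) := ((MulAut.conj g).mapSubgroup.isCoatom_iff M).2 hM


/-- Let G be a finite group with a normal non-abelian simple subgroup T whose centralizer is trivial (G almost simple with socle T), r a prime and R a Sylow r-subgroup of G meeting T nontrivially. Then R lies in exactly one maximal subgroup of G if and only if G has exactly one conjugacy class of maximal subgroups whose index is prime to r. -/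
theorem result {G : Type*} [Group G] [Finite G] (T : Subgroup G) [T.Normal] (hT : IsSimpleGroup T) (hna : ¬ IsMulCommutative T)
    (hC : Subgroup.centralizer (T : Set G) = ⊥) {r : ℕ} [Fact r.Prime] (R : Sylow r G) (hR0 : (R : Subgroup G) ⊓ T ≠ ⊥) :
    (∃! M : Subgroup G, IsCoatom M ∧ (R : Subgroup G) ≤ M) ↔
      ((∃ M : Subgroup G, IsCoatom M ∧ ¬ r ∣ M.index) ∧
        ∀ M₁ M₂ : Subgroup G, IsCoatom M₁ → ¬ r ∣ M₁.index → IsCoatom M₂ → ¬ r ∣ M₂.index → ∃ g : G, M₂ = M₁.map (MulAut.conj g).toMonoidHom) := by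
  have hconj : ∀ M : Subgroup G, ¬ r ∣ M.index → ∃ g : G, (R : Subgroup G) ≤ cj g M := by
    intro M hM
    obtain ⟨P, hP⟩ := CF.Solv.exists_sylow_le_of_not_dvd_index hM
    obtain ⟨g, hg⟩ := MulAction.exists_smul_eq G P R
    exact ⟨g, by rw [← hg, coe_sylow_smul]; exact cj_mono g hP⟩
  constructor
  · rintro ⟨M, ⟨hM, hRM⟩, hu⟩
    refine ⟨⟨M, hM, CF.Solv.not_dvd_index_of_sylow_le R hRM⟩, fun M₁ M₂ h1 h1' h2 h2' => ?_⟩
    obtain ⟨g, hg⟩ := hconj M₁ h1'
    obtain ⟨k, hk⟩ := hconj M₂ h2'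
    have e1 := hu _ ⟨isCoatom_cj h1 g, hg⟩
    have e2 := hu _ ⟨isCoatom_cj h2 k, hk⟩
    refine ⟨k⁻¹ * g, ?_⟩
    rw [map_conj_eq_cj, cj_mul, e1, ← e2, cj_cj, inv_mul_cancel]
    exact (map_conj_one _).symm
  · rintro ⟨-, h⟩
    obtain ⟨M, hM, hNM⟩ := (eq_top_or_exists_le_coatom _).resolve_left
      (S3859.normalizer_ne_top T hT hna R hR0)
    have hNM' := (S3859.le_normalizer_inf T R).trans hNM
    have hRM : (R : Subgroup G) ≤ M := le_normalizer.trans hNM'
    refine ⟨M, ⟨hM, hRM⟩, ?_⟩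
    rintro M' ⟨hM', hRM'⟩
    obtain ⟨g, hg⟩ := h M M' hM (CF.Solv.not_dvd_index_of_sylow_le R hRM) hM'
      (CF.Solv.not_dvd_index_of_sylow_le R hRM')
    rw [map_conj_eq_cj] at hg
    have h1 : IsSylowIn r (cj g⁻¹ R) M :=
      isSylowIn_of_le (g⁻¹ • R) (by rw [coe_sylow_smul, ← le_cj_iff, ← hg]; exact hRM')
    obtain ⟨m, hm, hm2⟩ := (isSylowIn_of_le R hRM).exists_cj_eq h1
    have h2 : g * m ∈ normalizer ((R : Subgroup G) : Set G) := by
      rw [mem_normalizer_iff_cj, cj_mul, hm2, cj_cj, mul_inv_cancel]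
      exact map_conj_one _
    have h3 : g ∈ M := by
      have := M.mul_mem (hNM' h2) (M.inv_mem hm)
      rwa [mul_inv_cancel_right] at this
    rw [hg, cj_eq_of_mem h3]

end Cfsg.Agent.S3858
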