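import Cfsg.Statements.S3864
import Cfsg.Agent.GW.Dih

set_option autoImplicit false
open Cfsg

namespace Cfsg.Agent.S3864

/-- Let G be a finite group whose Sylow 2-subgroups are dihedral of order 2 ^ n with n ≥ 3, and count the conjugacy classes of involutions of G. Then exactly one of the following holds: there is one class of involutions and no normal subgroup of index 2; there are two classes of involutions, a normal subgroup of index 2 and none of index 4; there are three classes of involutions and G has a normal 2-complement. -/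
theorem result {G : Type*} [Group G] [Finite G] (P : Sylow 2 G) (n : ℕ) (hn : 3 ≤ n) (hdih : Nonempty (↥(P : Subgroup G) ≃* DihedralGroup (2 ^ (n - 1)))) : (Nat.card {C : ConjClasses G // ∃ g : G, ConjClasses.mk g = C ∧ orderOf g = 2} = 1 ∧ ∀ N : Subgroup G, N.Normal → N.index ≠ 2) ∨ (Nat.card {C : ConjClasses G // ∃ g : G, ConjClasses.mk g = C ∧ orderOf g = 2} = 2 ∧ (∃ N : Subgroup G, N.Normal ∧ N.index = 2) ∧ ∀ N : Subgroup G, N.Normal → N.index ≠ 4) ∨ (Nat.card {C : ConjClasses G // ∃ g : G, ConjClasses.mk g = C ∧ orderOf g = 2} = 3 ∧ Cfsg.HasNormalPComplement 2 G) := by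
  open CF.Invol CF.Transfer CF.GW in
  obtain ⟨e⟩ := hdih
  have h2n : 2 ≤ 2 ^ (n - 1) := by
    calc 2 = 2 ^ 1 := by norm_num
      _ ≤ _ := Nat.pow_le_pow_right (by norm_num) (by omega)
  obtain ⟨m, a, b, hm, h⟩ := exists_dh P.isPGroup' h2n e
  have hm2 : 2 ≤ m := by
    have := Nat.pow_right_injective (le_refl 2) hm
    omega
  have hS := isSylowIn_top P
  simp only [and_comm (b := orderOf _ = 2)]
  have two : ∀ l, Three a b l → ¬ Three a b (l + 1) →
      (Nat.card {C : ConjClasses G // ∃ g : G, orderOf g = 2 ∧ ConjClasses.mk g = C} = 2 ∧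
        (∃ N : Subgroup G, N.Normal ∧ N.index = 2) ∧ ∀ N : Subgroup G, N.Normal → N.index ≠ 4) := by
    intro l h0 h1
    have hi := dh_index_pResidual h hS hm2 h0 h1
    refine ⟨card_classes_two (P := fun g => orderOf g = 2) h.orderOf_zh (h.orderOf_b (l + 1))
      (fun hc => dh_not_isConj_b_zh h hS hm2 h1 hc.symm) fun t ht => ?_,
      ⟨_, inferInstance, hi⟩, fun N hN h4 => ?_⟩
    · rcases dh_invol_cases h hS l ht with h2 | h2 | h2
      · exact Or.inl h2
      · exact Or.inl (h2.trans (dh_isConj_of_three h h0).symm)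
      · exact Or.inr h2
    · have := Subgroup.index_dvd_of_le (pResidual_le_of_index (p := 2) (N := N) (k := 2) h4)
      rw [hi, h4] at this
      omega
  by_cases h0 : Three a b 0 <;> by_cases h1 : Three a b (0 + 1)
  · have hc : ∀ s t : G, orderOf s = 2 → orderOf t = 2 → IsConj s t := fun s t hs ht =>
      h.isConj_of_three_dvd hS (fun l => by
        obtain ⟨d, rfl | rfl⟩ := zm_even_or_odd l
        · have := (dh_three_add h 0 d).2 h0
          rwa [zero_add] at this
        · have := (dh_three_add h (0 + 1) d).2 h1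
          rwa [zero_add, add_comm] at this) hs ht
    exact Or.inl ⟨card_classes_one (P := fun g => orderOf g = 2) h.orderOf_zh
      fun t ht => hc _ _ ht h.orderOf_zh, fun N _ => h.no_index_two_of_isConj hS hc N⟩
  · exact Or.inr (Or.inl (two 0 h0 h1))
  · refine Or.inr (Or.inl (two (0 + 1) h1 fun h2 => h0 ?_))
    rw [← dh_three_add h 0 1]
    convert h2 using 1; ring
  · refine Or.inr (Or.inr ⟨card_classes_three (P := fun g => orderOf g = 2) h.orderOf_zh
      (h.orderOf_b 0) (h.orderOf_b (0 + 1)) (fun hc => dh_not_isConj_b_zh h hS hm2 h0 hc.symm)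
      (fun hc => dh_not_isConj_b_zh h hS hm2 h1 hc.symm) (dh_not_isConj_b_succ h hS hm2 h0)
      fun t ht => dh_invol_cases h hS 0 ht, dh_hasNPC_of_not_three h hS h0 h1⟩)

end Cfsg.Agent.S3864
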