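import Mathlib
import Cfsg.Statements.S3866
import Cfsg.Agent.Fgs1.AbelianCyclic

set_option autoImplicit false
open Cfsg

namespace Cfsg.Agent.S3866

open CF.Fgs1

/-- Let A be a commutative normal subgroup of the finite group G with G generated by A and an element x. Then a ↦ x a x⁻¹ a⁻¹ is a surjective homomorphism from A onto the commutator subgroup of G whose kernel is the centralizer of x in A; in particular the commutator subgroup has order equal to the index in A of that centralizer. -/
theorem result {G : Type*} [Group G] [Finite G] (A : Subgroup G) [A.Normal] (hA : IsMulCommutative A) (x : G) (hgen : A ⊔ Subgroup.zpowers x = ⊤) : (∀ a ∈ A, x * a * x⁻¹ * a⁻¹ ∈ commutator G) ∧ (∀ c ∈ commutator G, ∃ a ∈ A, x * a * x⁻¹ * a⁻¹ = c) ∧ (∀ a ∈ A, ∀ b ∈ A, x * (a * b) * x⁻¹ * (a * b)⁻¹ = (x * a * x⁻¹ * a⁻¹) * (x * b * x⁻¹ * b⁻¹)) ∧ Nat.card (commutator G) * Nat.card ↥(A ⊓ Subgroup.centralizer ({x} : Set G)) = Nat.card A := by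
  refine ⟨fun a _ => ?_, fun c hc => ?_, fun a ha b hb => comm_mul hA x ha hb,
    card_commutator_mul A hA x hgen⟩
  · exact Subgroup.commutator_mem_commutator (Subgroup.mem_top x) (Subgroup.mem_top a)
  · rw [commutator_eq_range A hA x hgen] at hc
    obtain ⟨_, ⟨a, rfl⟩, rfl⟩ := hc
    exact ⟨a, a.2, rfl⟩

end Cfsg.Agent.S3866
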