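import Mathlib
import Cfsg.Statements.S3867
import Cfsg.Agent.Fgs3.SylProd

set_option autoImplicit false
open Cfsg

namespace Cfsg.Agent.S3867


/-- Let M and N be nontrivial normal subgroups of the finite group G with M ⊓ N trivial, and let p be a prime. Writing n(X) for the number of Sylow p-subgroups of a group X, one has n(G) · n(G/MN) = n(G/M) · n(G/N). -/
theorem result {G : Type*} [Group G] [Finite G] (p : ℕ) [Fact p.Prime] (M N : Subgroup G) [M.Normal] [N.Normal] (hM : M ≠ ⊥) (hN : N ≠ ⊥) (hMN : M ⊓ N = ⊥) : Nat.card (Sylow p G) * Nat.card (Sylow p (G ⧸ (M ⊔ N))) = Nat.card (Sylow p (G ⧸ M)) * Nat.card (Sylow p (G ⧸ N)) := by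
  obtain ⟨P⟩ : Nonempty (Sylow p G) := inferInstance
  set H := Subgroup.normalizer ((P : Subgroup G) : Set G) with hH
  have e1 := CF.Fgs3.card_sylow_eq_mul_quot P M
  have e2 := CF.Fgs3.card_sylow_eq_mul_quot P N
  have e3 := CF.Fgs3.card_sylow_eq_mul_quot P (M ⊔ N)
  change _ = _ * H.relIndex M at e1
  change _ = _ * H.relIndex N at e2
  change _ = _ * H.relIndex (M ⊔ N) at e3
  have hPP : ((P : Subgroup G) ⊔ M) ⊓ ((P : Subgroup G) ⊔ N) = P := by
    rw [CF.Solv.sup_inf_assoc M le_sup_left]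
    apply P.is_maximal' _ le_sup_left
    haveI : ((M ⊓ ((P : Subgroup G) ⊔ N)).subgroupOf ((P : Subgroup G) ⊔ N)).Normal := by
      rw [Subgroup.inf_subgroupOf_right]; infer_instance
    refine IsPGroup.to_sup_of_normal_right' P.isPGroup' ?_ ?_
    · intro ⟨x, hxM, hx⟩
      obtain ⟨a, ha, n, hn, rfl⟩ := (CF.Solv.mem_sup_of_le_normalizer
        (Subgroup.le_normalizer_of_normal (H := N))).mp hx
      obtain ⟨k, hk⟩ := P.isPGroup' ⟨a, ha⟩
      refine ⟨k, Subtype.ext ?_⟩
      change (a * n) ^ p ^ k = 1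
      rw [← Subgroup.mem_bot, ← hMN]
      refine ⟨M.pow_mem hxM _, ?_⟩
      change (a * n) ^ p ^ k ∈ N
      rw [← QuotientGroup.eq_one_iff, QuotientGroup.mk_pow, QuotientGroup.mk_mul,
        (QuotientGroup.eq_one_iff n).mpr hn, mul_one, ← QuotientGroup.mk_pow,
        show a ^ p ^ k = 1 from congrArg Subtype.val hk]
      rfl
    · exact le_sup_left.trans ((Subgroup.normal_subgroupOf_iff_le_normalizer inf_le_right).mp this)
  have hcomm : ∀ m ∈ M, ∀ n ∈ N, m * n = n * m := fun m hm n hn =>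
    Subgroup.commute_of_normal_of_disjoint M N inferInstance inferInstance
      (disjoint_iff.mpr hMN) m n hm hn
  have hinf : H ⊓ (M ⊔ N) = (H ⊓ M) ⊔ (H ⊓ N) := by
    refine le_antisymm ?_ (sup_le (inf_le_inf_left _ le_sup_left) (inf_le_inf_left _ le_sup_right))
    rintro x ⟨hxH, hx⟩
    obtain ⟨m, hm, n, hn, rfl⟩ := (CF.Solv.mem_sup_of_le_normalizer
        (Subgroup.le_normalizer_of_normal (H := N))).mp hx
    have hnH : n ∈ H := by
      apply Subgroup.mem_normalizer_fintype
      intro y hy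
      change _ ∈ (P : Subgroup G)
      rw [← hPP]
      constructor
      · have h1 : m * n * y * (m * n)⁻¹ ∈ (P : Subgroup G) :=
          (Subgroup.mem_normalizer_iff.mp hxH y).mp hy
        have : n * y * n⁻¹ = m⁻¹ * (m * n * y * (m * n)⁻¹) * m := by group
        rw [this]
        exact Subgroup.mul_mem _ (Subgroup.mul_mem _ (Subgroup.mem_sup_right (M.inv_mem hm))
          (Subgroup.mem_sup_left h1)) (Subgroup.mem_sup_right hm)
      · exact Subgroup.mul_mem _ (Subgroup.mul_mem _ (Subgroup.mem_sup_right hn)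
          (Subgroup.mem_sup_left hy)) (Subgroup.mem_sup_right (N.inv_mem hn))
    exact Subgroup.mul_mem _ (Subgroup.mem_sup_left ⟨(H.mul_mem_cancel_right hnH).mp hxH, hm⟩)
      (Subgroup.mem_sup_right ⟨hnH, hn⟩)
  have c1 := CF.Solv.card_inf_mul_relIndex H M
  have c2 := CF.Solv.card_inf_mul_relIndex H N
  have c3 := CF.Solv.card_inf_mul_relIndex H (M ⊔ N)
  rw [hinf, CF.Solv.card_sup_of_inf_eq_bot (H := H ⊓ M) (N := H ⊓ N) (by
      intro x hx
      rw [Subgroup.mem_normalizer_iff]
      intro y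
      constructor
      · intro hy
        rw [hcomm x hx.2 y hy.2, mul_inv_cancel_right]; exact hy
      · intro hy
        have := hcomm x hx.2 _ hy.2
        have h2 : y = x * y * x⁻¹ := by
          apply mul_left_cancel (a := x)
          rw [this]; group
        rw [h2]; exact hy) (by
      rw [eq_bot_iff, ← hMN]; exact inf_le_inf inf_le_right inf_le_right),
    CF.Solv.card_sup_of_inf_eq_bot (Subgroup.le_normalizer_of_normal) hMN, ← c1, ← c2] at c3
  have h4 : H.relIndex (M ⊔ N) = H.relIndex M * H.relIndex N := by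
    apply Nat.eq_of_mul_eq_mul_left (Nat.mul_pos (Nat.card_pos (α := ↥(H ⊓ M))) (Nat.card_pos (α := ↥(H ⊓ N))))
    rw [c3]; ring
  have h5 : 0 < H.relIndex (M ⊔ N) := Nat.pos_of_ne_zero Subgroup.index_ne_zero_of_finite
  apply Nat.eq_of_mul_eq_mul_right h5
  calc _ = Nat.card (Sylow p G) * Nat.card (Sylow p G) := by rw [mul_assoc, ← e3]
    _ = _ := by rw [h4]; nth_rw 1 [e1]; rw [e2]; ring

end Cfsg.Agent.S3867
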