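import Mathlib
import Cfsg.Agent.Perm.PrimeDegree2
import Cfsg.Agent.Invol.Count
import Cfsg.Agent.Char.Integral
import Cfsg.Agent.Solv.Basic
import Cfsg.Statements.S3878

set_option autoImplicit false
open Cfsg

namespace Cfsg.Agent.S3878

open Subgroup MulAction CF.Perm

theorem aff {G α : Type*} [Group G] [Finite G] [Group.IsSolvable G] [MulAction G α] [FaithfulSMul G α] [Fintype α]
    {q : ℕ} [hq : Fact q.Prime] (hα : Fintype.card α = q) (hd : q ∣ Nat.card G) : Nat.card G ∣ q * (q - 1) := by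
  obtain ⟨t, ht⟩ := exists_prime_orderOf_dvd_card' q hd
  obtain ⟨e, he⟩ := exists_coord' hα t ht
  have : IsPretransitive G α := ⟨fun a b => by
    obtain ⟨a, rfl⟩ := e.surjective a
    obtain ⟨b, rfl⟩ := e.surjective b
    exact ⟨t ^ (b - a).val, by rw [pow_smul_coord he]; simp⟩⟩
  have := IsPreprimitive.of_prime_card (G := G) (X := α) (by rw [Nat.card_eq_fintype_card, hα]; exact hq.out)
  have : Nontrivial G := ⟨⟨t, 1, by rintro rfl; simp at ht; exact hq.out.one_lt.ne ht⟩⟩
  obtain ⟨N, r, hr, hN, -, -, hNr⟩ := CF.Solv.exists_isMinNormal_pGroup_le (⊤ : Subgroup G) top_ne_bot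
  have := hN.1
  have hN1 : N ≠ ⊥ := hN.2.1
  have tr : IsPretransitive N α := IsQuasiPreprimitive.isPretransitive_of_normal (by
    intro h; apply hN1
    rw [eq_bot_iff]; intro g hg
    exact FaithfulSMul.eq_of_smul_eq_smul (α := α) fun a => by
      have : a ∈ fixedPoints N α := h ▸ Set.mem_univ a
      simpa using this ⟨g, hg⟩)
  obtain ⟨⟨u, hu⟩, hu1⟩ := exists_orderOf_eq_prime_degree (G := N) hα
  rw [← orderOf_coe] at hu1
  have := Fact.mk hr
  obtain rfl : q = r := by
    obtain ⟨k, hk⟩ := IsPGroup.iff_orderOf.1 hNr ⟨u, hu⟩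
    rw [← orderOf_coe, hu1] at hk
    exact (Nat.prime_dvd_prime_iff_eq hq.out hr).1 (hq.out.dvd_of_dvd_pow (dvd_of_eq hk))
  have hz : zpowers u = N := by
    refine eq_of_le_of_card_ge (zpowers_le.2 hu) ?_
    obtain ⟨k, hk⟩ := IsPGroup.iff_card.1 hNr
    rw [Nat.card_zpowers, hu1, hk]
    have : k ≤ 1 := by
      by_contra! h
      exact not_sq_dvd_card (G := G) hα ((pow_dvd_pow q h).trans (hk ▸ card_subgroup_dvd_card N))
    exact (Nat.pow_le_pow_right hr.pos this).trans (by simp)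
  obtain ⟨e, he⟩ := exists_coord' hα u hu1
  have ha : ActsAffinely G e := fun s => by
    obtain ⟨k, hk⟩ := mem_powers_iff_mem_zpowers.2 (show s * u * s⁻¹ ∈ zpowers u from hz ▸ hN.1.conj_mem u hu s)
    exact ⟨k, _, smul_coord_of_conj he hk.symm⟩
  obtain ⟨φ, hφ⟩ := ha.exists_hom
  rw [← card_mul_index φ.ker, index_ker]
  refine mul_dvd_mul ?_ ?_
  · refine dvd_trans (card_dvd_of_le fun g hg => ?_) (dvd_of_eq ((Nat.card_zpowers u).trans hu1))
    refine mem_powers_iff_mem_zpowers.1 ⟨(e.symm (g • e 0)).val, ?_⟩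
    refine FaithfulSMul.eq_of_smul_eq_smul (α := α) fun a => ?_
    obtain ⟨a, rfl⟩ := e.surjective a
    simp only [pow_smul_coord he, hφ g a, MonoidHom.mem_ker.1 hg]; simp
  · have := card_subgroup_dvd_card φ.range
    rwa [Nat.card_eq_fintype_card (α := (ZMod q)ˣ), ZMod.card_units] at this

theorem notE {π : Set ℕ} (h : ∀ (G : Type) [Group G] [Finite G], Cfsg.IsEPiGroup π G) :
    (∀ p q : ℕ, p.Prime → q.Prime → p ∈ π → q ∈ π → p = q) ∨ ∀ p : ℕ, p.Prime → p ∈ π := by
  classical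
  by_contra! hc
  obtain ⟨⟨p', q', hp', hq', hp'', hq'', hne⟩, hr⟩ := hc
  by_cases h23 : 2 ∈ π ∧ 3 ∈ π
  · obtain ⟨hr1, hr2⟩ := Nat.find_spec hr
    have hm := fun m => Nat.find_min hr (m := m)
    set r := Nat.find hr
    have r5 : 5 ≤ r := by
      have := hr1.two_le
      by_contra! h
      interval_cases r
      exacts [hr2 h23.1, hr2 h23.2, absurd hr1 (by norm_num)]
    obtain ⟨H, h1, h2⟩ := h (alternatingGroup (Fin (r + 1)))
    have := alternatingGroup.isSimpleGroup (α := Fin (r + 1)) (by simp; omega)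
    have : Nontrivial (Fin (r + 1)) := Fin.nontrivial_iff_two_le.2 (by omega)
    have hc : 2 * Nat.card (alternatingGroup (Fin (r + 1))) = (r + 1).factorial := by
      rw [two_mul_nat_card_alternatingGroup, Nat.card_perm]; simp
    have hd : H.index ∣ (r + 1).factorial := H.index_dvd_card.trans ⟨2, by rw [← hc, mul_comm]⟩
    have i1 : H.index ≠ 1 := by
      intro h
      rw [index_eq_one] at h
      subst h
      refine hr2 (h1 r hr1 ?_)
      rw [card_top]
      refine (Nat.Coprime.dvd_mul_left ((Nat.coprime_primes hr1 Nat.prime_two).2 (by omega))).1 ?_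
      rw [hc]; exact Nat.dvd_factorial hr1.pos (by omega)
    obtain ⟨k, hk⟩ : ∃ k, H.index = r ^ k := by
      refine ⟨_, Nat.eq_prime_pow_of_unique_prime_dvd H.index_ne_zero_of_finite fun {d} hd1 hd2 => ?_⟩
      have := (hd1.dvd_factorial).1 (hd2.trans hd)
      by_contra hne
      rcases Nat.lt_or_gt_of_ne hne with h | h
      · exact h2 d hd1 (by by_contra h3; exact hm d h ⟨hd1, h3⟩) hd2
      · obtain rfl : d = r + 1 := by omega
        have := hr1.eq_two_or_odd; have := hd1.eq_two_or_odd; omega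
    have k1 : k = 1 := by
      by_contra h
      have : 2 ≤ k := by rcases k with _ | _ | k; · simp [hk] at i1
                         · simp at h
                         · omega
      have h3 := (pow_dvd_pow r this).trans (hk ▸ hd)
      obtain ⟨s, hs⟩ : ∃ s, r = s + 1 := ⟨r - 1, by omega⟩
      rw [Nat.factorial_succ, (Nat.Coprime.pow_left 2 (by simp)).dvd_mul_left] at h3
      nth_rw 2 [hs] at h3
      rw [Nat.factorial_succ, ← hs, sq, Nat.mul_dvd_mul_iff_left hr1.pos, hr1.dvd_factorial] at h3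
      omega
    have h3 := Nat.le_of_dvd (Nat.factorial_pos _) (CF.Invol.card_dvd_factorial_of_simple (H := H) (by rwa [Ne, ← index_eq_one]))
    rw [hk, k1, pow_one] at h3
    rw [Nat.factorial_succ] at hc
    have := r.factorial_pos
    nlinarith
  · have e1 : ∃ p, p.Prime ∧ p ∈ π := ⟨p', hp', hp''⟩
    obtain ⟨hp1, hp2⟩ := Nat.find_spec e1
    have hm := fun m => Nat.find_min e1 (m := m)
    set p := Nat.find e1
    have e2 : ∃ q, q.Prime ∧ q ∈ π ∧ q ≠ p := by
      by_cases h : p' = p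
      · exact ⟨q', hq', hq'', fun h' => hne (h.trans h'.symm)⟩
      · exact ⟨p', hp', hp'', h⟩
    obtain ⟨hq1, hq2, hq3⟩ := Nat.find_spec e2
    have hn := fun m => Nat.find_min e2 (m := m)
    set q := Nat.find e2
    have pq : p < q := lt_of_le_of_ne (not_lt.1 fun h => hm q h ⟨hq1, hq2⟩) hq3.symm
    have pq2 : p + 2 ≤ q := by
      by_contra! h
      obtain e : q = p + 1 := by omega
      have := hp1.eq_two_or_odd; have := hq1.eq_two_or_odd; have := hp1.two_le
      exact h23 ⟨by rwa [show 2 = p by omega], by rwa [show 3 = q by omega]⟩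
    obtain ⟨H, h1, h2⟩ := h (Equiv.Perm (Fin q))
    have hc : Nat.card H * H.index = q.factorial := by rw [card_mul_index, Nat.card_perm]; simp
    have hs : Group.IsSolvable H := by
      have : ∃ a b, Nat.card H = p ^ a * q ^ b := by
        obtain ⟨a, m, hm1, hm2⟩ := Nat.exists_eq_pow_mul_and_not_dvd (Nat.card_pos (α := H)).ne' p hp1.ne_one
        refine ⟨a, _, hm2.trans (congrArg _ (Nat.eq_prime_pow_of_unique_prime_dvd ?_ fun {d} hd1 hd2 => ?_))⟩
        · rintro rfl; simp at hm1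
        · have h3 : d ∣ Nat.card H := hm2 ▸ hd2.mul_left _
          have := (hd1.dvd_factorial).1 (hc ▸ h3.mul_right _)
          by_contra hne
          exact hn d (by omega) ⟨hd1, h1 d hd1 h3, fun h => hm1 (h ▸ hd2)⟩
      obtain ⟨a, b, h⟩ := this
      exact CF.Char.burnside_paqb hp1 hq1 h
    have := Fact.mk hq1
    have h3 := aff (G := H) (α := Fin q) (by simp) (((Nat.Prime.dvd_mul hq1).1
      (hc ▸ Nat.dvd_factorial hq1.pos le_rfl)).resolve_right (h2 q hq1 hq2))
    obtain ⟨s, hs⟩ : ∃ s, q = s + 2 := ⟨q - 2, by omega⟩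
    have h4 : p ∣ s.factorial := Nat.dvd_factorial hp1.pos (by omega)
    obtain ⟨m, hm⟩ := h3
    have : q.factorial = q * (q - 1) * s.factorial := by
      rw [hs, Nat.factorial_succ, Nat.factorial_succ, mul_assoc]; rfl
    rw [this, hm, mul_assoc, Nat.mul_right_inj Nat.card_pos.ne'] at hc
    exact h2 p hp1 hp2 (hc ▸ h4.mul_left _)

theorem EofD {π : Set ℕ} {G : Type} [Group G] [Finite G] (h : Cfsg.IsDPiGroup π G) : Cfsg.IsEPiGroup π G := by
  obtain ⟨H, -, hH⟩ := Finite.exists_le_maximal (p := Cfsg.IsPiSubgroup (G := G) π) (a := ⊥)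
    (fun p hp hd => absurd (by simpa using hd) hp.ne_one)
  refine ⟨H, hH.1, fun p hp hπ hd => ?_⟩
  have := Fact.mk hp
  obtain ⟨P⟩ : Nonempty (Sylow p G) := inferInstance
  obtain ⟨K, hK1, hK⟩ := Finite.exists_le_maximal (p := Cfsg.IsPiSubgroup (G := G) π) (a := P) (fun r hr hd => by
    obtain ⟨k, hk⟩ := IsPGroup.iff_card.1 P.2
    rwa [(Nat.prime_dvd_prime_iff_eq hr hp).1 (hr.dvd_of_dvd_pow (hk ▸ hd))])
  obtain ⟨g, rfl⟩ := h H K hH hK
  refine P.not_dvd_index ((?_ : p ∣ _).trans (index_dvd_of_le hK1))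
  rwa [index_map_of_bijective (MulAut.conj g).bijective]

theorem back {π : Set ℕ} (h : (∀ p q : ℕ, p.Prime → q.Prime → p ∈ π → q ∈ π → p = q) ∨ ∀ p : ℕ, p.Prime → p ∈ π)
    (G : Type) [Group G] [Finite G] : Cfsg.IsDPiGroup π G := by
  intro H K hH hK
  rcases h with h | h
  · by_cases e : ∃ p, p.Prime ∧ p ∈ π
    · obtain ⟨p, hp, hπ⟩ := e
      have := Fact.mk hp
      have e : ∀ L : Subgroup G, Cfsg.IsPiSubgroup π L ↔ IsPGroup p L := fun L => by
        rw [IsPGroup.iff_card]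
        refine ⟨fun hL => ⟨_, Nat.eq_prime_pow_of_unique_prime_dvd Nat.card_pos.ne' fun {d} h1 h2 =>
          h _ _ h1 hp (hL d h1 h2) hπ⟩, fun ⟨k, hk⟩ r hr hd => ?_⟩
        rwa [(Nat.prime_dvd_prime_iff_eq hr hp).1 (hr.dvd_of_dvd_pow (hk ▸ hd))]
      let P : Sylow p G := ⟨H, (e H).1 hH.1, fun {Q} h1 h2 => (hH.eq_of_le ((e Q).2 h1) h2).symm⟩
      let Q : Sylow p G := ⟨K, (e K).1 hK.1, fun {Q} h1 h2 => (hK.eq_of_le ((e Q).2 h1) h2).symm⟩
      obtain ⟨g, hg⟩ := exists_smul_eq G P Q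
      exact ⟨g, (congrArg (fun S : Sylow p G => (S : Subgroup G)) hg).symm⟩
    · have : ∀ L : Subgroup G, Cfsg.IsPiSubgroup π L → L = ⊥ := fun L hL => by
        rw [← card_eq_one, Nat.eq_one_iff_not_exists_prime_dvd]
        exact fun p hp hd => e ⟨p, hp, hL p hp hd⟩
      exact ⟨1, by rw [this H hH.1, this K hK.1, Subgroup.map_bot]⟩
  · have t : Cfsg.IsPiSubgroup π (⊤ : Subgroup G) := fun p hp _ => h p hp
    exact ⟨1, by rw [hH.eq_of_le t le_top, hK.eq_of_le t le_top, map_top_of_surjective _ (MulAut.conj 1).surjective]⟩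

/-- For a set of primes π the following are equivalent: every finite group has a Hall π-subgroup; in every finite group the maximal π-subgroups are pairwise conjugate; π contains at most one prime or contains every prime. -/
theorem result (π : Set ℕ) :
    ((∀ (G : Type) [Group G] [Finite G], Cfsg.IsEPiGroup π G) ↔
      ((∀ p q : ℕ, p.Prime → q.Prime → p ∈ π → q ∈ π → p = q) ∨ ∀ p : ℕ, p.Prime → p ∈ π)) ∧
    ((∀ (G : Type) [Group G] [Finite G], Cfsg.IsDPiGroup π G) ↔
      ((∀ p q : ℕ, p.Prime → q.Prime → p ∈ π → q ∈ π → p = q) ∨ ∀ p : ℕ, p.Prime → p ∈ π)) := by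
  exact ⟨⟨notE, fun h G _ _ => EofD (back h G)⟩, fun h => notE fun G _ _ => EofD (h G), back⟩

end Cfsg.Agent.S3878
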