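import Mathlib
import Cfsg.Agent.Fgs2.Metacyc2
import Cfsg.Statements.S3881

set_option autoImplicit false
open Cfsg

namespace Cfsg.Agent.S3881

/-- Let p be an odd prime and G a finite metacyclic p-group (G has a cyclic normal subgroup with cyclic quotient). Suppose G is non-abelian with |G'| = p^n. Then for 1 ≤ i ≤ n the number of elements of G whose conjugacy class has exactly p^i elements is |Z(G)| · (p^(2i) − p^(2i−2)). -/
theorem result {G : Type*} [Group G] [Finite G] {p : ℕ} [Fact p.Prime] (hp : p ≠ 2) (hG : IsPGroup p G) (hmc : Cfsg.IsMetacyclic G) (n : ℕ) (hn : n ≠ 0) (hGn : Nat.card ↥(commutator G) = p ^ n) (i : ℕ) (hi : 1 ≤ i) (hin : i ≤ n) :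
    Nat.card {g : G // (Subgroup.centralizer ({g} : Set G)).index = p ^ i} =
      Nat.card ↥(Subgroup.center G) * (p ^ (2 * i) - p ^ (2 * i - 2)) := by
  obtain ⟨D, hD⟩ := CF.Fgs2.exists_mgen' hG hmc hGn
  have hpp : p.Prime := Fact.out
  haveI : NeZero (p ^ n) := ⟨pow_ne_zero _ hpp.ne_zero⟩
  have h1 := D.card_preimage hD hpp hp {w | addOrderOf w = p ^ i}
  simp only [D.index_centralizer hD hpp hp]
  refine h1.trans ?_
  congr 1
  have h2 := CF.Fgs2.card_torsion hpp hin
  have h3 := CF.Fgs2.card_torsion hpp (show i - 1 ≤ n by omega)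
  rw [show 2 * i - 2 = 2 * (i - 1) by omega, ← h2, ← h3]
  change Nat.card {w : ZMod (p ^ n) × ZMod (p ^ n) | addOrderOf w = p ^ i} =
    Nat.card {w : ZMod (p ^ n) × ZMod (p ^ n) | (p : ZMod (p ^ n)) ^ i • w = 0} -
    Nat.card {w : ZMod (p ^ n) × ZMod (p ^ n) | (p : ZMod (p ^ n)) ^ (i - 1) • w = 0}
  rw [Nat.card_coe_set_eq, Nat.card_coe_set_eq, Nat.card_coe_set_eq, ← Set.ncard_diff]
  · congr 1
    ext w
    obtain ⟨k, hk, ho⟩ := CF.Fgs2.exists_addOrderOf_eq (n := n) hpp w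
    simp only [Set.mem_diff, Set.mem_ofPred_eq, ← CF.Fgs2.addOrderOf_le_iff hpp, ho,
      Nat.pow_le_pow_iff_right hpp.one_lt, Nat.pow_right_inj hpp.one_lt]
    omega
  · intro w
    simp only [Set.mem_ofPred_eq, ← CF.Fgs2.addOrderOf_le_iff hpp]
    intro h
    exact h.trans (Nat.pow_le_pow_right hpp.pos (by omega))

end Cfsg.Agent.S3881
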