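import Mathlib
import Cfsg.Agent.Fgs2.Metacyc2
import Cfsg.Statements.S3883

set_option autoImplicit false
open Cfsg

namespace Cfsg.Agent.S3883

/-- Let p be an odd prime and G a finite metacyclic p-group (G has a cyclic normal subgroup with cyclic quotient). Suppose G is non-abelian. Then an element g of G lies outside the Frattini subgroup if and only if its centralizer C_G(g) is abelian. -/
theorem result {G : Type*} [Group G] [Finite G] {p : ℕ} [Fact p.Prime] (hp : p ≠ 2) (hG : IsPGroup p G) (hmc : Cfsg.IsMetacyclic G) (hna : ¬ IsMulCommutative G) (g : G) :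
    g ∉ frattini G ↔ IsMulCommutative ↥(Subgroup.centralizer ({g} : Set G)) := by
  obtain ⟨D, n, hn⟩ := CF.Fgs2.exists_mgen hG hmc
  have hpp : p.Prime := Fact.out
  have hn0 : n ≠ 0 := by
    rintro rfl
    apply hna
    have := D.card_commutator hn
    rw [pow_zero, Subgroup.card_eq_one] at this
    exact (commutator_eq_bot_iff G).1 this
  have hF : frattini G = Subgroup.closure {x : G | ∃ y : G, y ^ p ^ 1 = x} := by
    apply le_antisymm
    · refine CF.Fgs1.frattini_le_of (p := p) ?_ (fun x => Subgroup.subset_closure ⟨x, by simp⟩)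
      rw [D.commutator_eq, Subgroup.zpowers_le]
      obtain ⟨u, hu⟩ := D.hr
      refine Subgroup.subset_closure ⟨D.a ^ u, ?_⟩
      rw [CF.Fgs2.MGen.c, hu, pow_one, ← zpow_natCast, ← zpow_mul, mul_comm]
    · rw [Subgroup.closure_le]
      rintro _ ⟨y, rfl⟩
      rw [pow_one]
      exact CF.Fgs1.pow_mem_frattini hG y
  rw [hF, D.mem_agemo_iff hn hpp hp (Nat.pos_of_ne_zero hn0), ← CF.Fgs2.addOrderOf_le_iff hpp,
    D.comm_iff hn hpp hp hG]
  have h1 := (Subgroup.centralizer ({g} : Set G)).card_mul_index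
  rw [D.index_centralizer hn hpp hp, D.card_eq hn hpp hp] at h1
  obtain ⟨k, hk, ho⟩ := CF.Fgs2.exists_addOrderOf_eq (n := n) hpp (D.φ n g)
  rw [ho] at h1 ⊢
  rw [Nat.pow_le_pow_iff_right hpp.one_lt]
  have h2 : Nat.card (Subgroup.centralizer ({g} : Set G)) =
      Nat.card (Subgroup.center G) * p ^ (2 * n - k) := by
    refine Nat.eq_of_mul_eq_mul_right (pow_pos hpp.pos k) ?_
    rw [h1, mul_assoc, ← pow_add, ← pow_mul]
    congr 2; omega
  rw [h2, Nat.mul_le_mul_left_iff Nat.card_pos, Nat.pow_le_pow_iff_right hpp.one_lt]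
  omega

end Cfsg.Agent.S3883
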