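import Mathlib
import Cfsg.Agent.Fgs2.Metacyc2
import Cfsg.Statements.S3886

set_option autoImplicit false
open Cfsg

namespace Cfsg.Agent.S3886

/-- Let p be an odd prime and G a finite metacyclic p-group (G has a cyclic normal subgroup with cyclic quotient). Then the largest value of |R| · |Z(R)| over subgroups R of G is |G : G'|², and the subgroups attaining it (the centrally large subgroups) are exactly the non-abelian subgroups together with the maximal abelian subgroups of G. -/
theorem result {G : Type*} [Group G] [Finite G] {p : ℕ} [Fact p.Prime] (hp : p ≠ 2) (hG : IsPGroup p G) (hmc : Cfsg.IsMetacyclic G) : Cfsg.maxCentralProduct G = (commutator G).index ^ 2 ∧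
    ∀ R : Subgroup G, Cfsg.IsCentrallyLarge R ↔ (¬ IsMulCommutative ↥R ∨ Maximal (fun K : Subgroup G => IsMulCommutative ↥K) R) := by
  obtain ⟨D, n, hn⟩ := CF.Fgs2.exists_mgen hG hmc
  have hpp : p.Prime := Fact.out
  rw [D.index_commutator hn hpp hp]
  have h1 : ∀ R : Subgroup G, ¬ IsMulCommutative R →
      Nat.card R * Nat.card (Subgroup.center R) = (Nat.card (Subgroup.center G) * p ^ n) ^ 2 := by
    intro R hR
    obtain ⟨hZ, -, hC⟩ := D.center_le_of_not_comm hn hpp hp hG R hR
    rw [← D.card_mul_card_centralizer hn hpp hp R, sup_eq_left.2 hZ]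
    congr 1
    have : Subgroup.center R = (Subgroup.centralizer (R : Set G)).subgroupOf R := by
      ext x
      rw [Subgroup.mem_center_iff, Subgroup.mem_subgroupOf, Subgroup.mem_centralizer_iff]
      exact ⟨fun h y hy => congrArg Subtype.val (h ⟨y, hy⟩), fun h y => Subtype.ext (h y y.2)⟩
    rw [this]
    exact Nat.card_congr (Subgroup.subgroupOfEquivOfLe hC).toEquiv
  have h2 : ∀ R : Subgroup G, IsMulCommutative R →
      Nat.card R * Nat.card (Subgroup.center R) = Nat.card R ^ 2 := by
    intro R hR
    have : Subgroup.center R = ⊤ := by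
      rw [eq_top_iff]
      intro x _
      rw [Subgroup.mem_center_iff]
      exact fun y => mul_comm' y x
    rw [this, Subgroup.card_top, sq]
  have h3 : Cfsg.maxCentralProduct G = (Nat.card (Subgroup.center G) * p ^ n) ^ 2 := by
    apply IsGreatest.csSup_eq
    constructor
    · obtain ⟨M, -, hM⟩ := exists_maximal_ge_of_wellFoundedGT
        (fun K : Subgroup G => IsMulCommutative K) ⊥ inferInstance
      exact ⟨M, by rw [h2 M hM.1, (D.maximal_comm_iff hn hpp hp hG M).1 hM]⟩
    · rintro _ ⟨R, rfl⟩
      by_cases hR : IsMulCommutative R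
      · rw [h2 R hR]
        exact Nat.pow_le_pow_left ((D.comm_iff hn hpp hp hG R).1 hR) 2
      · exact (h1 R hR).le
  refine ⟨h3, fun R => ?_⟩
  rw [Cfsg.IsCentrallyLarge, h3]
  by_cases hR : IsMulCommutative R
  · rw [h2 R hR, D.maximal_comm_iff hn hpp hp hG R, Nat.pow_left_inj two_ne_zero]
    simp [hR]
  · simp [hR, h1 R hR]

end Cfsg.Agent.S3886
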