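import Mathlib
import Cfsg.Agent.Fgs2.Metacyc2
import Cfsg.Statements.S3887

set_option autoImplicit false
open Cfsg

namespace Cfsg.Agent.S3887

/-- Let p be an odd prime and G a finite metacyclic p-group (G has a cyclic normal subgroup with cyclic quotient). Then a subgroup R of G maximizes |R| · |C_G(R)| over all subgroups of G if and only if R contains the center of G. -/
theorem result {G : Type*} [Group G] [Finite G] {p : ℕ} [Fact p.Prime] (hp : p ≠ 2) (hG : IsPGroup p G) (hmc : Cfsg.IsMetacyclic G) (R : Subgroup G) : Cfsg.IsCentralizerLarge R ↔ Subgroup.center G ≤ R := by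
  obtain ⟨D, n, hn⟩ := CF.Fgs2.exists_mgen hG hmc
  have hpp : p.Prime := Fact.out
  have h3 : Cfsg.maxCentralizerProduct G = (Nat.card (Subgroup.center G) * p ^ n) ^ 2 := by
    apply IsGreatest.csSup_eq
    constructor
    · refine ⟨⊤, ?_⟩
      rw [← D.card_mul_card_centralizer hn hpp hp ⊤, top_sup_eq]
    · rintro _ ⟨R, rfl⟩
      rw [← D.card_mul_card_centralizer hn hpp hp R]
      exact Nat.mul_le_mul_right _ (Subgroup.card_le_of_le le_sup_left)
  rw [Cfsg.IsCentralizerLarge, h3, ← D.card_mul_card_centralizer hn hpp hp R,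
    Nat.mul_left_inj Nat.card_pos.ne']
  constructor
  · intro h
    rw [Subgroup.eq_of_le_of_card_ge (le_sup_left : R ≤ R ⊔ Subgroup.center G) h.ge]
    exact le_sup_right
  · intro h
    rw [sup_eq_left.2 h]

end Cfsg.Agent.S3887
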