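import Mathlib
import Cfsg.Statements.S3898
import Cfsg.Agent.Fgs1.PClasses
import Cfsg.Agent.Hyp.FTProof
import Cfsg.Agent.Solv.Hall

set_option autoImplicit false
open Cfsg

namespace Cfsg.Agent.S3898

open Subgroup CF.Fgs1 CF.Solv
open scoped Pointwise

theorem tier {G : Type*} [Group G] [Finite G] {H C Z : Subgroup G} (hZC : Z ≤ C) (hCH : C ≤ H)
    (h2 : ∀ a ∈ C, a ∉ Z → 2 ≤ {b | (b ∈ C ∧ b ∉ Z) ∧ IsConj b a}.ncard)
    (h3 : ∀ a ∈ H, a ∉ C → 3 ≤ {b | (b ∈ H ∧ b ∉ C) ∧ IsConj b a}.ncard) :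
    6 * (ConjClasses.mk '' (H : Set G)).ncard ≤ 3 * Nat.card Z + Nat.card C + 2 * Nat.card H := by
  have a2 := mul_ncard_image_le (ConjClasses.mk (α := G)) (s := (C : Set G) \ Z)
    (Set.toFinite _) 2 fun a ha => by
      simp only [ConjClasses.mk_eq_mk_iff_isConj]
      exact h2 a ha.1 ha.2
  have a3 := mul_ncard_image_le (ConjClasses.mk (α := G)) (s := (H : Set G) \ C)
    (Set.toFinite _) 3 fun a ha => by
      simp only [ConjClasses.mk_eq_mk_iff_isConj]
      exact h3 a ha.1 ha.2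
  have e : (H : Set G) = (Z : Set G) ∪ ((C : Set G) \ Z) ∪ ((H : Set G) \ C) := by
    rw [Set.union_diff_cancel hZC, Set.union_diff_cancel hCH]
  have b : (ConjClasses.mk '' (H : Set G)).ncard ≤ Nat.card Z +
      (ConjClasses.mk '' ((C : Set G) \ Z)).ncard + (ConjClasses.mk '' ((H : Set G) \ C)).ncard := by
    conv_lhs => rw [e]
    rw [Set.image_union, Set.image_union]
    refine (Set.ncard_union_le _ _).trans (Nat.add_le_add_right ?_ _)
    refine (Set.ncard_union_le _ _).trans (Nat.add_le_add_right ?_ _)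
    rw [← ncard_coe_subgroup]
    exact Set.ncard_image_le (Set.toFinite _)
  have c1 : ((C : Set G) \ Z).ncard + Nat.card Z = Nat.card C := by
    rw [← ncard_coe_subgroup, Set.ncard_diff_add_ncard_of_subset hZC (Set.toFinite _),
      ncard_coe_subgroup]
  have c2 : ((H : Set G) \ C).ncard + Nat.card C = Nat.card H := by
    rw [← ncard_coe_subgroup, Set.ncard_diff_add_ncard_of_subset hCH (Set.toFinite _),
      ncard_coe_subgroup]
  omega

theorem comm_of_sq {G : Type*} [Group G] [Finite G] {x a : G} (hodd : Odd (orderOf x))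
    (he : x ^ 2 * a * (x ^ 2)⁻¹ = a) : x * a = a * x := by
  have h1 : x ^ 2 ∈ centralizer ({a} : Set G) :=
    mem_centralizer_singleton_iff.2 (mul_inv_eq_iff_eq_mul.1 he)
  have h2 : x ∈ zpowers (x ^ 2) := mem_zpowers_pow_iff.2 (Nat.coprime_two_left.2 hodd)
  exact mem_centralizer_singleton_iff.1 ((zpowers_le.2 h1) h2)

theorem three_le {G : Type*} [Group G] [Finite G] {x a : G} (hodd : Odd (orderOf x))
    (hxa : x * a ≠ a * x) {S : Set G}
    (hS : ∀ i : ℕ, x ^ i * a * (x ^ i)⁻¹ ∈ S) : 3 ≤ {b | b ∈ S ∧ IsConj b a}.ncard := by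
  have h2 : x ^ 2 * a * (x ^ 2)⁻¹ ≠ a := fun he => hxa (comm_of_sq hodd he)
  have h1 : x * a * x⁻¹ ≠ a := fun he => hxa (mul_inv_eq_iff_eq_mul.1 he)
  have h3 : x * a * x⁻¹ ≠ x ^ 2 * a * (x ^ 2)⁻¹ := fun he => h1 (by
    have : x * (x * a * x⁻¹) * x⁻¹ = x * a * x⁻¹ :=
      calc _ = x ^ 2 * a * (x ^ 2)⁻¹ := by rw [sq]; group
        _ = _ := he.symm
    simpa using this)
  rw [← (Set.ncard_eq_three.mpr ⟨a, _, _, h1.symm, h2.symm, h3, rfl⟩)]
  refine Set.ncard_le_ncard ?_ (Set.toFinite _)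
  rintro b (rfl | rfl | rfl)
  · exact ⟨by simpa using hS 0, IsConj.refl _⟩
  · exact ⟨by simpa using hS 1, (isConj_iff.2 ⟨x, rfl⟩).symm⟩
  · exact ⟨hS 2, (isConj_iff.2 ⟨_, rfl⟩).symm⟩

theorem odd_of_mem {G : Type*} [Group G] [Finite G] {q : ℕ} [hq : Fact q.Prime] (hq2 : q ≠ 2)
    {P : Subgroup G} (hP : IsPGroup q P) {x : G} (hx : x ∈ P) : Odd (orderOf x) := by
  obtain ⟨k, hk⟩ := CF.Transfer.orderOf_eq_pow_of_mem hP hx
  exact hk ▸ (hq.out.odd_of_ne_two hq2).pow

theorem comm_sylow {G : Type*} [Group G] [Finite G] {q : ℕ} [hq : Fact q.Prime] (hq2 : q ≠ 2)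
    (P : Sylow q G) (h : Nat.card P < 2 * kp q G) :
    (P : Subgroup G) ≤ centralizer ((P : Subgroup G) : Set G) := by
  intro a ha
  by_contra hc
  let Z := (P : Subgroup G) ⊓ centralizer ((P : Subgroup G) : Set G)
  have h1 := kp_le_of_fibers P (Z := Z) inf_le_left 3 fun b hb hbZ => by
    obtain ⟨x, hx, hxb⟩ : ∃ x ∈ (P : Subgroup G), x * b ≠ b * x := by
      by_contra h
      push Not at h
      exact hbZ ⟨hb, h⟩
    refine three_le (odd_of_mem hq2 P.isPGroup' hx) hxb fun i => ?_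
    have hi := pow_mem hx i
    refine ⟨mul_mem (mul_mem hi hb) (inv_mem hi), fun h => hbZ ⟨hb, ?_⟩⟩
    have := h.2 _ hi
    rw [show x ^ i * b * (x ^ i)⁻¹ * x ^ i = x ^ i * b by group, mul_right_inj] at this
    exact this ▸ h.2
  have h2 : Z < (P : Subgroup G) ⊓ centralizer {a} :=
    lt_of_le_of_ne (inf_le_inf_left _ (centralizer_le (Set.singleton_subset_iff.mpr ha))) fun e =>
      hc (e.ge ⟨ha, mem_centralizer_singleton_iff.mpr rfl⟩).2
  have h3 : (P : Subgroup G) ⊓ centralizer {a} < P := lt_of_le_of_ne inf_le_left fun e =>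
    hc fun y hy => mem_centralizer_singleton_iff.mp (e.ge hy).2
  have h4 := mul_card_le_of_lt (P.isPGroup'.to_le inf_le_left) h2
  have h5 := mul_card_le_of_lt P.isPGroup' h3
  have h6 := hq.out.two_le
  have h7 : 4 * Nat.card Z ≤ Nat.card P := by nlinarith
  omega

theorem odd_cent {G : Type*} [Group G] [Finite G] {q : ℕ} [hq : Fact q.Prime]
    (P : Sylow q G) (h : Nat.card P < 2 * kp q G) {g : G}
    (hg : g ∈ normalizer ((P : Subgroup G) : Set G)) (hodd : Odd (orderOf g))
    (hcop : (orderOf g).Coprime q) : g ∈ centralizer ((P : Subgroup G) : Set G) := by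
  by_contra hc
  let Z := (P : Subgroup G) ⊓ centralizer ({g} : Set G)
  have hP : ∀ i : ℕ, ∀ b ∈ (P : Subgroup G), g ^ i * b * (g ^ i)⁻¹ ∈ (P : Subgroup G) :=
    fun i b hb => CF.Transfer.conj_mem_of_mem_normalizer (pow_mem hg i) hb
  have hZ : ∀ i : ℕ, ∀ b ∈ (P : Subgroup G), b ∉ Z → g ^ i * b * (g ^ i)⁻¹ ∉ Z := by
    intro i b hb hbZ h
    have := mem_centralizer_singleton_iff.mp h.2
    refine hbZ ⟨hb, mem_centralizer_singleton_iff.mpr ?_⟩
    calc b * g = (g ^ i)⁻¹ * (g ^ i * b * (g ^ i)⁻¹ * g) * g ^ i := by group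
      _ = g * b := by rw [this]; group
  have h1 := kp_le_of_fibers P (Z := Z) inf_le_left 3 fun b hb hbZ =>
    three_le hodd (fun e => hbZ ⟨hb, mem_centralizer_singleton_iff.mpr e.symm⟩) fun i =>
      ⟨hP i b hb, hZ i b hb hbZ⟩
  obtain ⟨x, hx, hxZ⟩ : ∃ x ∈ (P : Subgroup G), x ∉ Z := by
    by_contra h
    push Not at h
    exact hc fun y hy => mem_centralizer_singleton_iff.mp (h y hy).2
  have key : ∀ j : ℕ, ∀ y ∈ (P : Subgroup G), y⁻¹ * (g ^ j * y * (g ^ j)⁻¹) ∈ Z →
      g ^ j * y * (g ^ j)⁻¹ = y := by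
    intro j y hy hw
    set w := y⁻¹ * (g ^ j * y * (g ^ j)⁻¹) with hwd
    have h1 : Commute w g := mem_centralizer_singleton_iff.mp hw.2
    have h2 : ∀ i : ℕ, (g ^ j) ^ i * y * ((g ^ j) ^ i)⁻¹ = y * w ^ i := by
      intro i
      induction i with
      | zero => simp
      | succ i ih =>
        have e : g ^ j * w ^ i * (g ^ j)⁻¹ = w ^ i := by
          rw [← (h1.pow_pow i j).eq, mul_inv_cancel_right]
        calc (g ^ j) ^ (i + 1) * y * ((g ^ j) ^ (i + 1))⁻¹
            = g ^ j * ((g ^ j) ^ i * y * ((g ^ j) ^ i)⁻¹) * (g ^ j)⁻¹ := by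
              rw [pow_succ']; group
          _ = (g ^ j * y * (g ^ j)⁻¹) * (g ^ j * w ^ i * (g ^ j)⁻¹) := by rw [ih]; group
          _ = y * w * w ^ i := by rw [e, hwd]; group
          _ = _ := by rw [pow_succ']; group
    have h3 := h2 (orderOf g)
    rw [← pow_mul, mul_comm, pow_mul, pow_orderOf_eq_one, one_pow] at h3
    have h4 : w ^ orderOf g = 1 := by simpa using h3.symm
    obtain ⟨k, hk⟩ := CF.Transfer.orderOf_eq_pow_of_mem P.isPGroup' hw.1
    have h5 : orderOf w = 1 := by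
      refine Nat.Coprime.eq_one_of_dvd ?_ (orderOf_dvd_of_pow_eq_one h4)
      rw [hk]
      exact Nat.Coprime.pow_left _ hcop.symm
    have h6 : w = 1 := orderOf_eq_one_iff.1 h5
    rw [hwd, inv_mul_eq_one] at h6
    exact h6.symm
  have k1 : ∀ y ∈ (P : Subgroup G), y ∉ Z → y⁻¹ * (g * y * g⁻¹) ∉ Z := fun y hy hyZ h => by
    have := key 1 y hy (by simpa using h)
    rw [pow_one, mul_inv_eq_iff_eq_mul] at this
    exact hyZ ⟨hy, mem_centralizer_singleton_iff.mpr this.symm⟩
  have k2 : x⁻¹ * (g ^ 2 * x * (g ^ 2)⁻¹) ∉ Z := fun h =>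
    hxZ ⟨hx, mem_centralizer_singleton_iff.mpr (comm_of_sq hodd (key 2 x hx h)).symm⟩
  let X : Fin 4 → G := ![1, x, g * x * g⁻¹, g ^ 2 * x * (g ^ 2)⁻¹]
  have hx1 : g * x * g⁻¹ ∈ (P : Subgroup G) := by simpa using hP 1 x hx
  have hXP : ∀ i, X i ∈ (P : Subgroup G) := fun i => by
    fin_cases i
    exacts [one_mem _, hx, hx1, hP 2 x hx]
  have hXZ : ∀ i j, i < j → (X i)⁻¹ * X j ∉ Z := by
    intro i j hij
    fin_cases i <;> fin_cases j <;> simp at hij
    · simpa [X] using hxZ
    · simpa [X] using hZ 1 x hx hxZ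
    · simpa [X] using hZ 2 x hx hxZ
    · exact k1 x hx hxZ
    · exact k2
    · have := k1 _ hx1 (by simpa using hZ 1 x hx hxZ)
      change (g * x * g⁻¹)⁻¹ * (g ^ 2 * x * (g ^ 2)⁻¹) ∉ Z
      convert this using 2
      rw [sq]; group
  have h4 : 4 * Nat.card Z ≤ Nat.card P := by
    rw [show 4 * Nat.card Z = Nat.card (Fin 4 × Z) by simp]
    refine Nat.card_le_card_of_injective (fun z => (⟨X z.1 * z.2, mul_mem (hXP _) z.2.2.1⟩ :
      (P : Subgroup G))) ?_
    rintro ⟨i, w⟩ ⟨j, w'⟩ hij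
    have h1 : X i * w = X j * w' := congrArg Subtype.val hij
    have h2 : (X i)⁻¹ * X j ∈ Z := by
      have : (X i)⁻¹ * X j = w * (w' : G)⁻¹ := by
        rw [eq_mul_inv_iff_mul_eq, mul_assoc, ← h1]; simp
      rw [this]; exact mul_mem w.2 (inv_mem w'.2)
    have h3 : i = j := by
      rcases lt_trichotomy i j with h | h | h
      · exact absurd h2 (hXZ i j h)
      · exact h
      · exact absurd (by simpa using inv_mem h2) (hXZ j i h)
    subst h3
    exact Prod.ext rfl (Subtype.ext (mul_left_cancel h1))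
  omega

theorem kpi_le_image {G : Type*} [Group G] [Finite G] [Group.IsSolvable G] {π : Finset ℕ}
    {H : Subgroup G} (hH : IsPiHall π H) : kpi π G ≤ (ConjClasses.mk '' (H : Set G)).ncard := by
  rw [kpi, ← Nat.card_coe_set_eq]
  refine Nat.card_le_card_of_injective (fun c => ⟨c.1, ?_⟩) ?_
  · obtain ⟨c, hc⟩ := c
    obtain ⟨x, rfl⟩ := ConjClasses.mk_surjective c
    obtain ⟨g, hg⟩ := exists_conj_le_isPiHall hH (K := zpowers x) (by
      rw [Nat.card_zpowers]; exact hc x ConjClasses.mem_carrier_mk)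
    exact ⟨_, hg (conj_mem_conj_smul (mem_zpowers x) g),
      ConjClasses.mk_eq_mk_iff_isConj.2 (isConj_iff.2 ⟨g, rfl⟩).symm⟩
  · intro a b h
    exact Subtype.ext (congrArg Subtype.val h :)

theorem two_cent {G : Type*} [Group G] [Finite G] [Group.IsSolvable G] {q : ℕ} [hq : Fact q.Prime]
    (hq2 : q ≠ 2) (hn : HasNormalPComplement 2 G) (P : Sylow q G)
    (hP : (P : Subgroup G) ≤ centralizer ((P : Subgroup G) : Set G))
    (h : ∀ H : Subgroup G, IsPiHall ({2, q} : Finset ℕ) H → Nat.card H < 2 * kpi {2, q} G)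
    {R : Subgroup G} (hR : IsPGroup 2 R)
    (hg : R ≤ normalizer ((P : Subgroup G) : Set G)) :
    R ≤ centralizer ((P : Subgroup G) : Set G) := by
  by_contra hc
  obtain ⟨H, hH, hle⟩ := exists_isPiHall_ge (π := ({2, q} : Finset ℕ)) (K := R ⊔ P)
    (piNum_card_sup_of_le_normalizer hg ((isPGroup_iff_piNum_singleton.mp hR).mono (by simp))
      ((isPGroup_iff_piNum_singleton.mp P.isPGroup').mono (by simp)))
  have hPH : (P : Subgroup G) ≤ H := le_sup_right.trans hle
  have hN : H ≤ normalizer ((P : Subgroup G) : Set G) := by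
    have e : H ⊓ pResidual 2 G = P := by
      refine P.is_maximal' (isPGroup_iff_piNum_singleton.mpr fun r hr hd => ?_) (le_inf hPH
        fun x hx => CF.Transfer.mem_pResidual_of_coprime
          (Nat.coprime_two_right.mpr (odd_of_mem hq2 P.isPGroup' hx)))
      have a1 := hH.1 r hr (hd.trans (card_dvd_of_le inf_le_left))
      have a2 : r ≠ 2 := by
        rintro rfl
        exact CF.Transfer.hasNPC_iff_not_dvd.mp hn (hd.trans (card_dvd_of_le inf_le_right))
      simpa [a2] using a1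
    rw [← e]
    exact (le_inf le_normalizer (le_top.trans (normalizer_eq_top _).ge)).trans
      inf_normalizer_le_normalizer_inf
  let C := H ⊓ centralizer ((P : Subgroup G) : Set G)
  let Z := H ⊓ centralizer (H : Set G)
  have hZC : Z ≤ C := inf_le_inf_left _ (centralizer_le hPH)
  have h1 := tier hZC inf_le_left (fun a ha haZ => by
    obtain ⟨x, hx, hxa⟩ : ∃ x ∈ H, x * a ≠ a * x := by
      by_contra h
      push Not at h
      exact haZ ⟨ha.1, h⟩
    have hne : x * a * x⁻¹ ≠ a := fun he => hxa (mul_inv_eq_iff_eq_mul.1 he)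
    rw [← Set.ncard_pair hne]
    refine Set.ncard_le_ncard ?_ (Set.toFinite _)
    rintro b (rfl | rfl)
    · refine ⟨⟨⟨H.mul_mem (H.mul_mem hx ha.1) (H.inv_mem hx), fun y hy => ?_⟩, fun h => hne ?_⟩,
        (isConj_iff.2 ⟨x, rfl⟩).symm⟩
      · have := ha.2 _ (CF.Transfer.conj_mem_of_mem_normalizer (inv_mem (hN hx)) hy)
        calc y * (x * a * x⁻¹) = x * (x⁻¹ * y * x⁻¹⁻¹ * a) * x⁻¹ := by group
          _ = _ := by rw [this]; group
      · have := h.2 _ hx
        rw [show x * a * x⁻¹ * x = x * a by group, mul_right_inj] at this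
        exact this
    · exact ⟨⟨ha, haZ⟩, IsConj.refl _⟩) (fun a ha haC => by
    obtain ⟨x, hx, hxa⟩ : ∃ x ∈ (P : Subgroup G), x * a ≠ a * x := by
      by_contra h
      push Not at h
      exact haC ⟨ha, h⟩
    refine three_le (odd_of_mem hq2 P.isPGroup' hx) hxa fun i => ?_
    have hi := pow_mem hx i
    refine ⟨mul_mem (mul_mem (hPH hi) ha) (inv_mem (hPH hi)), fun h => haC ⟨ha, ?_⟩⟩
    have := h.2 _ hi
    rw [show x ^ i * a * (x ^ i)⁻¹ * x ^ i = x ^ i * a by group, mul_right_inj] at this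
    exact this ▸ h.2)
  have h2 : 2 * Nat.card C ≤ Nat.card H := by
    have hlt : C < H := lt_of_le_of_ne inf_le_left fun e =>
      hc ((le_sup_left.trans hle).trans (e.ge.trans inf_le_right))
    rw [← CF.Transfer.card_mul_relIndex hlt.le, mul_comm]
    refine Nat.mul_le_mul_left _ ?_
    have a1 := relIndex_eq_one.not.mpr hlt.not_ge
    have a2 : C.relIndex H ≠ 0 := CF.Transfer.relIndex_ne_zero' _ _
    omega
  have h3 : 3 * Nat.card Z ≤ Nat.card C := by
    rw [← CF.Transfer.card_mul_relIndex hZC, mul_comm]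
    refine Nat.mul_le_mul_left _ ?_
    have a1 : q ∣ Z.relIndex P := CF.Transfer.dvd_relIndex_of_not_le P.isPGroup' fun e =>
      hc fun r hr y hy => ((e hy).2 r (hle (mem_sup_left hr))).symm
    have a2 := Nat.le_of_dvd (Nat.pos_of_ne_zero (CF.Transfer.relIndex_ne_zero' _ _)) a1
    have a3 : Z.relIndex P ≤ Z.relIndex C :=
      relIndex_le_of_le_right (le_inf hPH hP) (CF.Transfer.relIndex_ne_zero' _ _)
    have a4 := hq.out.two_le
    omega
  have h4 := kpi_le_image hH
  have h5 := h H hH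
  omega

/-- Let π be a finite set of primes containing 2 and G a finite group. Write k_π(G) for the number of conjugacy classes of G consisting of π-elements (elements all of whose order's prime divisors lie in π) and |G|_π for the π-part of the order of G. If k_π(G) > |G|_π/2, then G has a normal π-complement (a normal subgroup of order prime to π whose index is a π-number) and an abelian Hall subgroup for the set of odd primes in π. -/
theorem result {G : Type*} [Group G] [Finite G] (π : Finset ℕ) (hπ : ∀ r ∈ π, r.Prime) (h2 : 2 ∈ π)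
    (hk : π.prod (fun r => r ^ (Nat.card G).factorization r) < 2 * Nat.card {c : ConjClasses G // ∀ x ∈ c.carrier, ∀ r : ℕ, r.Prime → r ∣ orderOf x → r ∈ π}) :
    (∃ N : Subgroup G, N.Normal ∧ (∀ r : ℕ, r.Prime → r ∣ Nat.card ↥N → r ∉ π) ∧ ∀ r : ℕ, r.Prime → r ∣ N.index → r ∈ π) ∧ ∃ H : Subgroup G, Cfsg.IsPiHall ((↑π : Set ℕ) \ {2}) H ∧ IsMulCommutative ↥H := by
  classical
  change _ < 2 * kpi π G at hk
  have hkp : ∀ q ∈ π, ∀ P : Sylow q G, Nat.card P < 2 * kp q G := by
    intro q hq P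
    have : Fact q.Prime := ⟨hπ q hq⟩
    have h1 := kpi_le (G := G) π hπ hq
    rw [← Finset.mul_prod_erase π _ hq, ← P.card_eq_multiplicity] at hk
    set m := ∏ r ∈ π.erase q, r ^ (Nat.card G).factorization r
    refine Nat.lt_of_mul_lt_mul_right (a := m) ?_
    nlinarith
  have hn2 : HasNormalPComplement 2 G := npc_of_kp_two (Classical.arbitrary _) (hkp 2 h2 _)
  haveI : Group.IsSolvable G := by
    obtain ⟨N, hN, h1, k, hk⟩ := CF.Transfer.hasNPC_iff_exists_normal.mp hn2
    haveI := CF.Hyp.isSolvable_of_odd (Nat.coprime_two_right.mp h1)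
    haveI := (IsPGroup.of_card (G := G ⧸ N) hk).isNilpotent
    exact isSolvable_of_normal_of_quotient N
  have key : ∀ q ∈ π, q ≠ 2 → ∀ P : Sylow q G,
      HasNormalPComplement q G ∧ IsMulCommutative (P : Subgroup G) := by
    intro q hq hq2 P
    have : Fact q.Prime := ⟨hπ q hq⟩
    have hP := comm_sylow hq2 P (hkp q hq P)
    refine ⟨CF.Transfer.burnside_hasNPC P (le_of_forall_isPGroup_le fun r hr R hR hRr => ?_),
      isMulCommutative_of_forall fun a ha b hb => hP hb a ha⟩
    by_cases hrq : r = q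
    · subst hrq
      refine le_trans ?_ hP
      rw [← P.is_maximal' (IsPGroup.to_sup_of_normal_left' P.isPGroup' hRr hR) le_sup_left]
      exact le_sup_right
    by_cases hr2 : r = 2
    · subst hr2
      refine two_cent hq2 hn2 P hP (fun H hH => ?_) hRr hR
      have hsub : ({2, q} : Finset ℕ) ⊆ π := by
        intro x hx
        simp only [Finset.mem_insert, Finset.mem_singleton] at hx
        rcases hx with rfl | rfl <;> assumption
      have h1 := cp_piElts_union_le (G := G) ({2, q} : Finset ℕ) (π \ {2, q})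
        fun x hx => hπ x (Finset.mem_sdiff.mp hx).1
      rw [← Finset.coe_union, Finset.union_sdiff_of_subset hsub, ← kpi_mul_card, ← kpi_mul_card,
        ← mul_assoc] at h1
      replace h1 := Nat.le_of_mul_le_mul_right h1 Nat.card_pos
      rw [← Finset.prod_sdiff hsub] at hk
      have h3 : Nat.card H ≤ ∏ r ∈ ({2, q} : Finset ℕ), r ^ (Nat.card G).factorization r := by
        conv_lhs => rw [← Nat.factorization_prod_pow_eq_self (Nat.card_pos (α := H)).ne']
        rw [Finsupp.prod_of_support_subset _ (s := {2, q}) (fun r hr => by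
          have := Nat.mem_primeFactors.mp hr
          exact hH.1 r this.1 this.2.1) _ (by simp)]
        refine Finset.prod_le_prod' fun r hr => Nat.pow_le_pow_right (hπ r (hsub hr)).pos ?_
        exact (Nat.factorization_le_iff_dvd Nat.card_pos.ne' Nat.card_pos.ne').2
          (card_subgroup_dvd_card _) r
      set m := ∏ r ∈ π \ {2, q}, r ^ (Nat.card G).factorization r
      refine Nat.lt_of_mul_lt_mul_left (a := m) ?_
      nlinarith
    · intro g hg
      obtain ⟨k, hk⟩ := CF.Transfer.orderOf_eq_pow_of_mem hRr hg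
      exact odd_cent P (hkp q hq P) (hR hg) (odd_of_mem hr2 hRr hg)
        (hk ▸ Nat.Coprime.pow_left _ ((Nat.coprime_primes hr.out this.out).mpr hrq))
  obtain ⟨N, hN, h1, h3, -⟩ := exists_normal_compl_of_npc π hπ fun q hq => by
    by_cases h : q = 2
    · exact h ▸ hn2
    · exact (key q hq h (Classical.arbitrary _)).1
  refine ⟨⟨N, hN, h1, h3⟩, ?_⟩
  rw [← Finset.coe_erase]
  exact exists_abelian_hall_of_npc _ (fun q hq => hπ q (Finset.mem_of_mem_erase hq))
    (fun q hq => (key q (Finset.mem_of_mem_erase hq) (Finset.ne_of_mem_erase hq)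
      (Classical.arbitrary _)).1)
    fun q hq P => (key q (Finset.mem_of_mem_erase hq) (Finset.ne_of_mem_erase hq) P).2

end Cfsg.Agent.S3898
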