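import Mathlib
import Cfsg.Statements.S3899
import Cfsg.Agent.Fgs1.PClasses

set_option autoImplicit false
open Cfsg

namespace Cfsg.Agent.S3899

open CF.Fgs1 in

/-- Let π be a finite non-empty set of odd primes with smallest member p and G a finite group. Write k_π(G) for the number of conjugacy classes of G consisting of π-elements (elements all of whose order's prime divisors lie in π) and |G|_π for the π-part of the order of G. If k_π(G) > (p + 1)|G|_π/(2p), then G has a normal π-complement (a normal subgroup of order prime to π whose index is a π-number) and an abelian Hall π-subgroup. -/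
theorem result {G : Type*} [Group G] [Finite G] (π : Finset ℕ) (hπ : ∀ r ∈ π, r.Prime) (h2 : 2 ∉ π) (p : ℕ) (hp : p ∈ π)
    (hmin : ∀ r ∈ π, p ≤ r) (hk : (p + 1) * π.prod (fun r => r ^ (Nat.card G).factorization r) < 2 * p * Nat.card {c : ConjClasses G // ∀ x ∈ c.carrier, ∀ r : ℕ, r.Prime → r ∣ orderOf x → r ∈ π}) :
    (∃ N : Subgroup G, N.Normal ∧ (∀ r : ℕ, r.Prime → r ∣ Nat.card ↥N → r ∉ π) ∧ ∀ r : ℕ, r.Prime → r ∣ N.index → r ∈ π) ∧ ∃ H : Subgroup G, Cfsg.IsPiHall (↑π : Set ℕ) H ∧ IsMulCommutative ↥H := by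
  have key : ∀ q ∈ π, ∀ P : Sylow q G,
      HasNormalPComplement q G ∧ IsMulCommutative (P : Subgroup G) := by
    intro q hq P
    have : Fact q.Prime := ⟨hπ q hq⟩
    apply npc_comm_of_kp P
    have h1 := kpi_le (G := G) π hπ hq
    change _ < 2 * p * kpi π G at hk
    rw [← Finset.mul_prod_erase π _ hq, ← P.card_eq_multiplicity] at hk
    set m := ∏ r ∈ π.erase q, r ^ (Nat.card G).factorization r
    have h2 : (p + 1) * Nat.card P * m < 2 * p * kp q G * m := by
      calc _ = (p + 1) * (Nat.card P * m) := by ring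
        _ < _ := hk
        _ ≤ 2 * p * (m * kp q G) := Nat.mul_le_mul_left _ h1
        _ = _ := by ring
    have h3 := Nat.lt_of_mul_lt_mul_right h2
    have h4 := hmin q hq
    have h5 := (hπ p hp).pos
    by_contra hc
    push Not at hc
    have h6 : p * (2 * q * kp q G) ≤ p * ((q + 1) * Nat.card P) := Nat.mul_le_mul_left _ hc
    have h7 : q * ((p + 1) * Nat.card P) < q * (2 * p * kp q G) :=
      Nat.mul_lt_mul_of_pos_left h3 (by omega)
    have h8 : p * Nat.card P ≤ q * Nat.card P := Nat.mul_le_mul_right _ h4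
    nlinarith
  have hnpc : ∀ q ∈ π, HasNormalPComplement q G := fun q hq =>
    (key q hq (Classical.arbitrary _)).1
  obtain ⟨N, hN, h1, h3, -⟩ := exists_normal_compl_of_npc π hπ hnpc
  exact ⟨⟨N, hN, h1, h3⟩, exists_abelian_hall_of_npc π hπ hnpc fun q hq P => (key q hq P).2⟩

end Cfsg.Agent.S3899
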