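import Cfsg.Statements.S3900
import Cfsg.Agent.Mx23.Bw

set_option autoImplicit false
open Cfsg
open scoped commutatorElement

namespace Cfsg.Agent.S3900


/-- A criterion of Baumslag–Wiegold type for a term of the lower central series. Let G be a finite group and k ≥ 0; call an element a left-normed commutator value of length k + 1 when it has the form [[…[x₀, x₁], …], x_k] with k + 1 entries (for k = 0, any element), where [a, b] = aba⁻¹b⁻¹. Then the (k+1)-st term γ_{k+1}(G) of the lower central series (γ₁(G) = G) is nilpotent if and only if for every two such values x, y of coprime orders, either every prime dividing o(x)·o(y) divides o(xy), or o(x)·o(y) ≤ o(xy). -/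
theorem result {G : Type*} [Group G] [Finite G] (k : ℕ) :
    Group.IsNilpotent ↥((⊤ : Subgroup G).lowerCentralSeries k) ↔
      ∀ x y : G, (∃ f : Fin (k + 1) → G, x = ((List.ofFn f).tail).foldl (fun a b => a * b * a⁻¹ * b⁻¹) (f 0)) → (∃ f : Fin (k + 1) → G, y = ((List.ofFn f).tail).foldl (fun a b => a * b * a⁻¹ * b⁻¹) (f 0)) → (orderOf x).Coprime (orderOf y) →
        (∀ r : ℕ, r.Prime → r ∣ orderOf x * orderOf y → r ∣ orderOf (x * y)) ∨ orderOf x * orderOf y ≤ orderOf (x * y) := by
  constructor
  · intro hn x y hx hy hc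
    rw [← CF.Bw.val_iff_fn] at hx hy
    right
    rw [(CF.Solv.commute_of_coprime_orderOf hx.mem_lcs hy.mem_lcs hc).orderOf_mul_eq_mul_orderOf_of_coprime hc]
  · intro h
    have hs : CF.Bw.Star k G := by
      intro x y hx hc
      have hv := (hx.comm (Subgroup.mem_top y)).inv
      have e : ⁅x, y⁆⁻¹ * x = y * x * y⁻¹ := by rw [commutatorElement_def]; group
      have h1 := h _ _ ((CF.Bw.val_iff_fn _ _).1 hv) ((CF.Bw.val_iff_fn _ _).1 hx)
        (by rw [orderOf_inv]; exact hc)
      rw [e, CF.Transfer.orderOf_conj', orderOf_inv] at h1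
      rw [← orderOf_eq_one_iff]
      rcases h1 with h1 | h1
      · by_contra hne
        obtain ⟨r, hr, hrd⟩ := Nat.exists_prime_and_dvd hne
        exact hr.one_lt.ne' (Nat.eq_one_of_dvd_coprimes hc hrd (h1 r hr (hrd.mul_right _)))
      · have h2 := orderOf_pos x
        have h3 := orderOf_pos ⁅x, y⁆
        nlinarith
    have := CF.Bw.Star.solvable G k hs
    exact hs.nilpotent

end Cfsg.Agent.S3900
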