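import Mathlib
import Cfsg.Statements.S3903
import Cfsg.Agent.Fgs1.PClasses
import Cfsg.Agent.SolvStr.Centric

set_option autoImplicit false
open Cfsg

namespace Cfsg.Agent.S3903

open Subgroup CF.Fgs1 CF.Transfer in

/-- Let N be a proper normal subgroup of the finite group G such that every element x of G outside N has prime power order and has centralizer C_G(x) a maximal subgroup of G. Then N is solvable. -/
theorem result {G : Type*} [Group G] [Finite G] (N : Subgroup G) [N.Normal] (hN : N ≠ ⊤)
    (h : ∀ x : G, x ∉ N → IsPrimePow (orderOf x) ∧ IsCoatom (Subgroup.centralizer ({x} : Set G))) : Group.IsSolvable ↥N := by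
  classical
  have hC : ∀ x : G, x ∉ N → ∀ r k : ℕ, r.Prime → orderOf x = r ^ k →
      IsPGroup r (centralizer ({x} : Set G)) := by
    intro x hx r k hr hk
    have : Fact r.Prime := ⟨hr⟩
    rw [IsPGroup.iff_card]
    refine ⟨_, (Nat.eq_prime_pow_of_unique_prime_dvd Nat.card_pos.ne' fun {q} hq hd => ?_)⟩
    by_contra hqr
    have : Fact q.Prime := ⟨hq⟩
    obtain ⟨y, hy⟩ := exists_prime_orderOf_dvd_card' q hd
    have hc : Commute x y := (mem_centralizer_singleton_iff.1 y.2).symm
    have hyo : orderOf (y : G) = q := by rw [Subgroup.orderOf_coe, hy]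
    have hcop : (orderOf x).Coprime q := by
      rw [hk]; exact Nat.Coprime.pow_left _ ((Nat.coprime_primes hr hq).2 (Ne.symm hqr))
    have h1 : x * y ∉ N := fun hm => hx (by
      have h2 := pow_mem hm q
      rw [hc.mul_pow, ← hyo, pow_orderOf_eq_one, mul_one, hyo] at h2
      exact (zpowers_le.2 h2) (mem_zpowers_pow_iff.2 hcop.symm))
    have h2 := (h _ h1).1
    rw [hc.orderOf_mul_eq_mul_orderOf_of_coprime (by rwa [hyo]), hyo] at h2
    have hk0 : k ≠ 0 := by
      rintro rfl
      exact hx (by rw [show x = 1 from orderOf_eq_one_iff.1 (by simpa using hk)]; exact one_mem _)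
    obtain ⟨s, j, hs, -, e⟩ := h2
    have hs' := hs.nat_prime
    have e1 : q ∣ s ^ j := e ▸ dvd_mul_left _ _
    have e2 : r ∣ s ^ j := e ▸ (hk ▸ dvd_pow_self r hk0).mul_right _
    exact hqr (((Nat.prime_dvd_prime_iff_eq hq hs').1 (hq.dvd_of_dvd_pow e1)).trans
      ((Nat.prime_dvd_prime_iff_eq hr hs').1 (hr.dvd_of_dvd_pow e2)).symm)
  suffices Group.IsSolvable G from inferInstance
  by_cases h2 : ∃ x : G, x ∉ N ∧ ¬ ∃ k, orderOf x = 2 ^ k
  · obtain ⟨x, hx, hx2⟩ := h2
    obtain ⟨r, k, hr, -, e⟩ := (h x hx).1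
    have : Fact r.Prime := ⟨hr.nat_prime⟩
    have hp := hC x hx r k hr.nat_prime e.symm
    refine CF.SolvStr.isSolvable_of_coatom_nilpotent_odd (h x hx).2 hp.isNilpotent ?_
    obtain ⟨j, hj⟩ := hp.exists_card_eq
    rw [hj]
    refine (hr.nat_prime.odd_of_ne_two ?_).pow
    rintro rfl
    exact hx2 ⟨k, e.symm⟩
  push Not at h2
  have hC2 : ∀ x : G, x ∉ N → IsPGroup 2 (centralizer ({x} : Set G)) := fun x hx => by
    obtain ⟨k, hk⟩ := h2 x hx
    exact hC x hx 2 k Nat.prime_two hk
  by_cases hG : IsPGroup 2 G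
  · have := hG.isNilpotent
    infer_instance
  have hS : ∀ x : G, x ∉ N → IsSylowIn 2 (centralizer ({x} : Set G)) ⊤ := fun x hx =>
    isSylowIn_of_maximal (hC2 x hx) le_top fun Q hQ hle _ => by
      rcases (h x hx).2.le_iff.1 hle with rfl | rfl
      · exact absurd (hQ.of_equiv topEquiv) hG
      · exact le_rfl
  obtain ⟨x, hx⟩ : ∃ x : G, x ∉ N := by
    by_contra hc
    push Not at hc
    exact hN (eq_top_iff.2 fun x _ => hc x)
  set P := centralizer ({x} : Set G) with hP
  have hPN : P ⊔ N = ⊤ := by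
    rw [eq_top_iff]
    intro g _
    by_cases hg : g ∈ N
    · exact mem_sup_right hg
    have hq : IsPGroup 2 (G ⧸ N) := fun y => by
      obtain ⟨y, rfl⟩ := QuotientGroup.mk_surjective y
      by_cases hy : y ∈ N
      · exact ⟨0, by simpa using hy⟩
      · obtain ⟨k, hk⟩ := h2 y hy
        exact ⟨k, by rw [← QuotientGroup.mk_pow, ← hk, pow_orderOf_eq_one]; rfl⟩
    obtain ⟨k, hk⟩ := hq.exists_card_eq
    rw [(hS x hx).le_sup_of_relIndex (N := N) le_top (k := k) (by rw [relIndex_top_right]; exact hk)]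
    trivial
  have := Fintype.ofFinite G
  have hcen : ∀ y ∈ P, y ∉ N → ∀ u ∈ P, u * y * u⁻¹ = y := by
    intro y₀ hy₀ hy₀N u hu
    by_contra hne
    let A : Finset (G × G) := Finset.univ ×ˢ (Finset.univ.filter fun y => y ∈ P ∧ y ∉ N)
    let B : Finset G := Finset.univ.filter fun y => y ∉ N
    let F : G × G → G := fun z => z.1 * z.2 * z.1⁻¹
    have hmap : ∀ z ∈ A, F z ∈ B := by
      rintro ⟨g, y⟩ hz
      simp only [A, B, F, Finset.mem_product, Finset.mem_filter, Finset.mem_univ, true_and] at hz ⊢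
      intro hm
      exact hz.2 (by simpa [mul_assoc] using ‹N.Normal›.conj_mem _ hm g⁻¹)
    have hcard := Finset.card_eq_sum_card_fiberwise hmap
    have hcP : ∀ y, y ∉ N → (Finset.univ.filter fun c => c ∈ centralizer ({y} : Set G)).card =
        Nat.card P := fun y hy => by
      rw [← (hS y hy).card_eq (hS x hx), Nat.card_eq_fintype_card, Fintype.card_subtype]
    have hfib : ∀ g y, y ∈ P → y ∉ N →
        ((Finset.univ.filter fun c => c ∈ centralizer ({y} : Set G)).image fun c => (g * c, y)) ⊆
          A.filter fun z => F z = g * y * g⁻¹ := by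
      intro g y hy hyN z hz
      obtain ⟨c, hc, rfl⟩ := Finset.mem_image.1 hz
      have hc' := mem_centralizer_singleton_iff.1 (Finset.mem_filter.1 hc).2
      simp only [A, F, Finset.mem_product, Finset.mem_filter, Finset.mem_univ, true_and]
      refine ⟨⟨hy, hyN⟩, ?_⟩
      rw [show g * c * y * (g * c)⁻¹ = g * (c * y) * c⁻¹ * g⁻¹ by group, hc']; group
    have hinj : ∀ g y : G, Function.Injective fun c : G => (g * c, y) := fun g y a b hab =>
      mul_left_cancel (congrArg Prod.fst hab)
    have hle : ∀ b ∈ B, Nat.card P ≤ (A.filter fun z => F z = b).card := by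
      intro b hb
      have hbN : b ∉ N := (Finset.mem_filter.1 hb).2
      obtain ⟨k, hk⟩ := h2 b hbN
      obtain ⟨g, -, hg⟩ := (hS x hx).exists_cj_le (isPGroup_zpowers hk) le_top
      have h1 : g * b * g⁻¹ ∉ N := fun hm =>
        hbN (by simpa [mul_assoc] using ‹N.Normal›.conj_mem _ hm g⁻¹)
      have h3 := Finset.card_le_card (hfib g⁻¹ _ (hg (conj_mem_cj (mem_zpowers b))) h1)
      rw [Finset.card_image_of_injective _ (hinj _ _), hcP _ h1] at h3
      simpa [mul_assoc] using h3
    have hlt : Nat.card P < (A.filter fun z => F z = y₀).card := by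
      have h1 : u * y₀ * u⁻¹ ∉ N := fun hm =>
        hy₀N (by simpa [mul_assoc] using ‹N.Normal›.conj_mem _ hm u⁻¹)
      have h3 := hfib 1 _ hy₀ hy₀N
      have h4 := hfib u⁻¹ _ (mul_mem (mul_mem hu hy₀) (inv_mem hu)) h1
      simp only [one_mul, inv_one, mul_one] at h3
      rw [show u⁻¹ * (u * y₀ * u⁻¹) * u⁻¹⁻¹ = y₀ by group] at h4
      have h5 := Finset.card_le_card (Finset.union_subset h3 h4)
      rw [Finset.card_union_of_disjoint, Finset.card_image_of_injective _ (hinj _ _), hcP _ h1,
        Finset.card_image_of_injective _ (fun a b hab => congrArg Prod.fst hab), hcP _ hy₀N] at h5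
      · have := Nat.card_pos (α := P)
        omega
      · rw [Finset.disjoint_left]
        intro z hz1 hz2
        obtain ⟨c, -, rfl⟩ := Finset.mem_image.1 hz1
        obtain ⟨d, -, e⟩ := Finset.mem_image.1 hz2
        exact hne (congrArg Prod.snd e)
    have hsum : ∑ _b ∈ B, Nat.card P < ∑ b ∈ B, (A.filter fun z => F z = b).card :=
      Finset.sum_lt_sum hle ⟨y₀, Finset.mem_filter.2 ⟨Finset.mem_univ _, hy₀N⟩, hlt⟩
    rw [← hcard, Finset.sum_const, smul_eq_mul, Finset.card_product, Finset.card_univ] at hsum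
    have e1 : B.card + Nat.card N = Fintype.card G := by
      rw [Nat.card_eq_fintype_card, Fintype.card_subtype, add_comm, ← Finset.card_univ]
      exact Finset.card_filter_add_card_filter_not _
    have e2 : (Finset.univ.filter fun y => y ∈ P ∧ y ∉ N).card + Nat.card (P ⊓ N : Subgroup G) =
        Nat.card P := by
      rw [Nat.card_eq_fintype_card, Fintype.card_subtype, Nat.card_eq_fintype_card,
        Fintype.card_subtype, add_comm,
        ← Finset.card_filter_add_card_filter_not (s := Finset.univ.filter fun y => y ∈ P) (· ∈ N)]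
      simp only [Finset.filter_filter, mem_inf]
    have e3 := card_sup_of_normal P N
    rw [hPN, card_top, Nat.card_eq_fintype_card (α := G)] at e3
    nlinarith
  have hxP : x ∈ P := mem_centralizer_singleton_iff.2 rfl
  refine CF.SolvStr.isSolvable_of_coatom_class_two (h x hx).2 (hC2 x hx).isNilpotent ?_
  have hcomm : ∀ a ∈ P, ∀ b ∈ P, a * b = b * a := by
    intro a ha b hb
    by_cases hbN : b ∈ N
    · have h1 : x * b ∉ N := fun hm => hx (by simpa using mul_mem hm (inv_mem hbN))
      have h3 := hcen _ (mul_mem hxP hb) h1 a ha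
      have h4 := mem_centralizer_singleton_iff.1 ha
      rw [← mul_assoc, h4, mul_assoc, mul_assoc, mul_right_inj, ← mul_assoc] at h3
      exact mul_inv_eq_iff_eq_mul.1 h3
    · exact mul_inv_eq_iff_eq_mul.1 (hcen b hb hbN a ha)
  rw [_root_.commutator_def, commutator_le]
  intro a _ b _
  rw [commutatorElement_eq_one_iff_mul_comm.2 (Subtype.ext (hcomm _ a.2 _ b.2))]
  exact one_mem _

end Cfsg.Agent.S3903
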