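import Mathlib
import Cfsg.Agent.Fgs2.MaxCent
import Cfsg.Statements.S3904

set_option autoImplicit false
open Cfsg

namespace Cfsg.Agent.S3904

open Subgroup CF.BG

/-- Let G be a non-abelian finite group in which the centralizer of every non-central element is a maximal subgroup. Then G/Z(G) is either an elementary abelian p-group for some prime p, or a minimal non-abelian group (non-abelian with all proper subgroups abelian) of order p^a · q for distinct primes p, q with a normal Sylow p-subgroup. -/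
theorem result {G : Type*} [Group G] [Finite G] (hna : ¬ IsMulCommutative G)
    (h : ∀ x : G, x ∉ Subgroup.center G → IsCoatom (Subgroup.centralizer ({x} : Set G))) :
    (∃ p : ℕ, p.Prime ∧ Cfsg.IsElementaryAbelian p (⊤ : Subgroup (G ⧸ Subgroup.center G))) ∨
    (¬ IsMulCommutative (G ⧸ Subgroup.center G) ∧ (∀ H : Subgroup (G ⧸ Subgroup.center G), H ≠ ⊤ → IsMulCommutative ↥H) ∧
      ∃ p q a : ℕ, p.Prime ∧ q.Prime ∧ p ≠ q ∧ Nat.card (G ⧸ Subgroup.center G) = p ^ a * q ∧
        ∀ P : Subgroup (G ⧸ Subgroup.center G), Nat.card ↥P = p ^ a → P.Normal) := by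
  have hc : 𝐂 (⊤ : Subgroup G) = center G := by rw [coe_top, centralizer_univ]
  have hs := (QuotientGroup.mk'_surjective (center G)).comp (topEquiv (G := G)).surjective
  refine (CF.Fgs2.MC.quot (N := ⊤) (fun x _ hx => h x (hc ▸ hx)) (.refl _)
    ((QuotientGroup.mk' (center G)).comp (⊤ : Subgroup G).subtype) hs
    fun a => ?_).imp_right fun ⟨Q, K, p, hp, hq, pq, nK, ab, fr, w, _, hw, e⟩ => ?_
  · rw [hc]; exact QuotientGroup.eq_one_iff _
  rw [hc] at hw
  have hQ : IsCoatom Q := by
    have : Q = (𝐂₁ w).map (QuotientGroup.mk' (center G)) := by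
      rw [e, ← Subgroup.map_map, top_inf_eq, map_subgroupOf_eq_of_le le_top]
    rw [this]
    exact CF.Solv.isCoatom_map_of_ker_le (QuotientGroup.mk'_surjective _) (h w hw)
      (by rw [QuotientGroup.ker_mk']; exact center_le_centralizer _)
  have := Fact.mk hp
  obtain ⟨a, ha⟩ := IsPGroup.iff_card.1 ((piGrp_iff_isPGroup hp).1 ab.pi)
  have hK : Syl p K ⊤ := fr.sd.hall_left ab.pi ((piGrp_of_card_prime hq rfl).of_single' pq.symm)
  have hQs : Syl (♯Q) Q ⊤ := fr.sd.hall_right (ab.pi.of_single' pq) (piGrp_of_card_prime hq rfl)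
  refine ⟨fun k => ?_, fun H hH => ?_, p, ♯Q, a, hp, hq, pq, by rw [← ha, fr.sd.card, card_top'], fun P hP => ?_⟩
  · obtain ⟨x, hx, x1⟩ := exists_mem_ne_one fr.ker_ne
    obtain ⟨y, hy, y1⟩ := exists_mem_ne_one fr.compl_ne
    exact (fr.reg.eq_one hy hx (k.is_comm.comm _ _)).elim y1 x1
  · by_cases d : ♯Q ∣ ♯H
    · obtain ⟨X, hX, c⟩ := exists_card_eq_prime hq d
      obtain ⟨g, -, hg⟩ := hQs.syl_conj (hQs.of_card le_top c)
      have : X = H := hX.eq_or_lt.resolve_right fun k => hH ((isCoatom_cj.2 hQ).2 _ (hg ▸ k))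
      exact (cyc_of_prime (this ▸ c ▸ hq)).abel.comm
    · refine (ab.abel.mono (hK.le_normal le_normalizer_of_normal le_top fun r hr hd => ?_)).comm
      have := hd.trans (card_dvd (le_top (a := H)))
      rw [← fr.sd.card] at this
      rcases (Nat.Prime.dvd_mul hr).1 this with k | k
      · exact ab.pi r hr k
      · exact absurd ((Nat.prime_dvd_prime_iff_eq hr hq).1 k ▸ hd) d
  · rwa [hK.eq_of_normal le_normalizer_of_normal (hK.of_card le_top (hP.trans ha.symm))]

end Cfsg.Agent.S3904
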