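import Mathlib
import Cfsg.Agent.Fgs2.MaxCent
import Cfsg.Statements.S3905

set_option autoImplicit false
open Cfsg

namespace Cfsg.Agent.S3905

open Subgroup CF.BG

/-- Let N be a normal subgroup of the finite group G such that for every element x of N outside the center of N the centralizer C_G(x) is a maximal subgroup of G. Then N/Z(N) is either an elementary abelian p-group for some prime p, or a Frobenius group whose kernel is an elementary abelian normal subgroup and whose complement has prime order. -/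
theorem result {G : Type*} [Group G] [Finite G] (N : Subgroup G) [N.Normal]
    (h : ∀ x : G, x ∈ N → x ∉ Subgroup.centralizer (N : Set G) → IsCoatom (Subgroup.centralizer ({x} : Set G))) :
    (∃ p : ℕ, p.Prime ∧ Cfsg.IsElementaryAbelian p (⊤ : Subgroup (↥N ⧸ Subgroup.center ↥N))) ∨
    (∃ (Q K : Subgroup (↥N ⧸ Subgroup.center ↥N)) (p : ℕ), p.Prime ∧ Cfsg.IsFrobeniusComplement Q ∧ (Nat.card ↥Q).Prime ∧
      K.Normal ∧ (K : Set (↥N ⧸ Subgroup.center ↥N)) = Cfsg.frobeniusKernel Q ∧ Cfsg.IsElementaryAbelian p K) := by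
  refine (CF.Fgs2.MC.quot h (normalIn_top.2 ‹_›) (QuotientGroup.mk' (center N)) (QuotientGroup.mk'_surjective _)
    fun a => ?_).imp_right fun ⟨Q, K, p, hp, hq, _, nK, ab, fr, _⟩ => ?_
  · rw [QuotientGroup.mk'_apply, QuotientGroup.eq_one_iff, mem_center_iff, mem_cent]
    exact ⟨fun k g hg => congrArg Subtype.val (k ⟨g, hg⟩), fun k g => Subtype.ext (k g g.2)⟩
  · obtain ⟨a, b⟩ := CF.Fgs2.frobenius_of_fpf fr.sd.sup fr.ker_ne fr.compl_ne fr.sd.inf
      fun a ha a1 n hn c => (fr.reg.eq_one ha hn c).resolve_left a1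
    exact ⟨Q, K, p, hp, a, hq, nK, b.symm, ab.isEA⟩

end Cfsg.Agent.S3905
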