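import Mathlib
import Cfsg.Agent.Solv.CyclicMax
import Cfsg.Agent.BG.B8
import Cfsg.Statements.S3908

set_option autoImplicit false
open Cfsg

namespace Cfsg.Agent.S3908

open Subgroup CF.BG

theorem key {G : Type*} [Group G] [Finite G] (hB : ∀ A B : Subgroup G, IsMulCommutative ↥A → IsMulCommutative ↥B → Nat.card ↥A = Nat.card ↥B → ∃ g : G, B = A.map (MulAut.conj g).toMonoidHom)
    {p : ℕ} [hp : Fact p.Prime] (P : Subgroup G) (hP : IsPGroup p P) :
    (∀ x ∈ P, x ^ p = 1) ∨ IsCyclic P ∨ (p = 2 ∧ ∃ n : ℕ, 1 ≤ n ∧ Nonempty (P ≃* QuaternionGroup (2 ^ n))) := by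
  by_cases h : ∀ x ∈ P, x ^ p = 1
  · exact Or.inl h
  right
  push Not at h
  obtain ⟨w, hw, hw1⟩ := h
  obtain ⟨k, hk⟩ := IsPGroup.iff_orderOf.1 hP ⟨w, hw⟩
  rw [← orderOf_coe] at hk
  have hk2 : 2 ≤ k := by
    by_contra! h
    exact hw1 (orderOf_dvd_iff_pow_eq_one.1 (hk ▸ (pow_dvd_pow p (by omega : k ≤ 1)).trans (by simp)))
  have ho : orderOf (w ^ p ^ (k - 2)) = p ^ 2 := by
    rw [orderOf_pow_of_dvd (pow_ne_zero _ hp.out.ne_zero) (hk ▸ pow_dvd_pow _ (by omega)), hk,
      Nat.pow_div (by omega) hp.out.pos]; congr 1; omega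
  have key : ∀ x y : G, x * y = y * x → x ^ p = 1 → y ^ p = 1 → x ≠ 1 → y ∈ zpowers x := by
    intro x y hxy hx hy h1
    by_contra h2
    have y1 : y ≠ 1 := fun h => h2 (h ▸ one_mem _)
    have cx : ♯(zpowers x) = p := by rw [Nat.card_zpowers, orderOf_eq_prime hx h1]
    have cy : ♯(zpowers y) = p := by rw [Nat.card_zpowers, orderOf_eq_prime hy y1]
    have hc : zpowers y ≤ 𝐂 (zpowers x) := by
      rw [zpowers_le, mem_centralizer_iff]
      rintro _ ⟨i, rfl⟩; exact (Commute.zpow_left hxy i)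
    have hi : zpowers x ⊓ zpowers y = ⊥ := by
      by_contra h
      obtain ⟨⟨z, z1, z2⟩, hz⟩ := (ne_bot_iff_exists_ne_one).1 h
      have hz' : z ≠ 1 := fun h => hz (Subtype.ext h)
      apply h2
      rw [← zpowers_eq_of_prime (cx ▸ hp.out) z1 hz', zpowers_eq_of_prime (cy ▸ hp.out) z2 hz']
      exact mem_zpowers y
    have d : DProd (zpowers x) (zpowers y) (zpowers x ⊔ zpowers y) := ⟨hc, rfl, hi⟩
    have ab : Abel (zpowers x ⊔ zpowers y) := d.abel (Cyc.abel inferInstance) (Cyc.abel inferInstance)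
    obtain ⟨g, hg⟩ := hB (zpowers (w ^ p ^ (k - 2))) _ inferInstance (abel_iff.1 ab)
      (by rw [Nat.card_zpowers, ho, ← d.card, cx, cy, sq])
    have : Cyc (zpowers x ⊔ zpowers y) := hg ▸ Cyc.map inferInstance _
    exact h2 (this.eq_of_card le_sup_left le_sup_right (cx.trans cy.symm) ▸ mem_zpowers y)
  refine CF.Solv.isCyclic_or_quaternion hP fun x y hx hy h1 => ?_
  have : Nontrivial P := ⟨⟨x, 1, h1⟩⟩
  have := hP.center_nontrivial
  obtain ⟨z, hz⟩ := exists_prime_orderOf_dvd_card' (G := center P) p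
    (((hP.to_subgroup _).card_eq_or_dvd).resolve_left Finite.one_lt_card.ne')
  have hz1 : ((z : P) : G) ^ p = 1 := by
    have := pow_orderOf_eq_one z
    rw [hz] at this
    simpa using congrArg (fun t : center P => ((t : P) : G)) this
  have hz2 : ((z : P) : G) ≠ 1 := by
    intro h
    have : z = 1 := Subtype.ext (Subtype.ext h)
    rw [this, orderOf_one] at hz; exact hp.out.one_lt.ne hz
  have hx' : (x : G) ^ p = 1 := by simpa using congrArg Subtype.val hx
  have hy' : (y : G) ^ p = 1 := by simpa using congrArg Subtype.val hy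
  have c1 := key x z (congrArg Subtype.val (mem_center_iff.1 z.2 x)) hx' hz1 (fun h => h1 (Subtype.ext h))
  have c2 := key z y (congrArg Subtype.val (mem_center_iff.1 z.2 y)).symm hz1 hy' hz2
  obtain ⟨i, hi⟩ := zpowers_le.2 c1 c2
  exact ⟨i, Subtype.ext (by simpa using hi)⟩

/-- Let G be a finite group in which any two abelian subgroups of the same order are conjugate. Then a Sylow 2-subgroup of G is cyclic, elementary abelian or generalized quaternion, and for an odd prime p a Sylow p-subgroup of G is cyclic or has exponent dividing p. -/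
theorem result {G : Type*} [Group G] [Finite G] (hB : ∀ A B : Subgroup G, IsMulCommutative ↥A → IsMulCommutative ↥B → Nat.card ↥A = Nat.card ↥B → ∃ g : G, B = A.map (MulAut.conj g).toMonoidHom) :
    (∀ P : Sylow 2 G, IsCyclic ↥(P : Subgroup G) ∨ Cfsg.IsElementaryAbelian 2 (P : Subgroup G) ∨ ∃ k : ℕ, Nonempty (↥(P : Subgroup G) ≃* QuaternionGroup (2 ^ k))) ∧
    ∀ (p : ℕ) [Fact p.Prime], p ≠ 2 → ∀ P : Sylow p G, IsCyclic ↥(P : Subgroup G) ∨ ∀ x ∈ (P : Subgroup G), x ^ p = 1 := by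
  refine ⟨fun P => ?_, fun p _ hp P => ?_⟩
  · rcases key hB P P.2 with h | h | ⟨-, n, -, h⟩
    · refine Or.inr (Or.inl ⟨⟨⟨fun a b => Subtype.ext ?_⟩⟩, h⟩)
      have e : ∀ x ∈ (P : Subgroup G), x⁻¹ = x := fun x hx => inv_eq_of_mul_eq_one_right (by rw [← sq, h x hx])
      have := e _ (mul_mem a.2 b.2)
      rw [mul_inv_rev, e _ a.2, e _ b.2] at this
      exact this.symm
    · exact Or.inl h
    · exact Or.inr (Or.inr ⟨n, h⟩)
  · rcases key hB P P.2 with h | h | ⟨h, -⟩
    · exact Or.inr h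
    · exact Or.inl h
    · exact absurd h hp

end Cfsg.Agent.S3908
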