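import Mathlib
import Cfsg.Statements.S3909
import Cfsg.Agent.Fgs1.Extra

set_option autoImplicit false
open Cfsg

namespace Cfsg.Agent.S3909


/-- Let G be a finite group in which any two abelian subgroups of the same order are conjugate. Let M be a normal subgroup of G. If M contains an element of the same order as a ∈ G, then a ∈ M; and if M is elementary abelian of order p^t with p prime and t ≥ 2, then M is the unique Sylow p-subgroup of G. -/
theorem result {G : Type*} [Group G] [Finite G] (hB : ∀ A B : Subgroup G, IsMulCommutative ↥A → IsMulCommutative ↥B → Nat.card ↥A = Nat.card ↥B → ∃ g : G, B = A.map (MulAut.conj g).toMonoidHom) (M : Subgroup G) [M.Normal] :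
    (∀ a : G, (∃ m ∈ M, orderOf m = orderOf a) → a ∈ M) ∧
    ∀ (p t : ℕ) [Fact p.Prime], 2 ≤ t → Nat.card ↥M = p ^ t → Cfsg.IsElementaryAbelian p M → ∀ P : Sylow p G, (P : Subgroup G) = M := by
  refine ⟨fun a ⟨m, hm, ho⟩ => ?_, fun p t _ ht hM hel P => ?_⟩
  · obtain ⟨g, hg⟩ := hB (Subgroup.zpowers m) (Subgroup.zpowers a) inferInstance inferInstance
      (by rw [Nat.card_zpowers, Nat.card_zpowers, ho])
    have := CF.Fgs1.map_conj_mono (Subgroup.zpowers_le.mpr hm) g
    rw [← hg, CF.Fgs1.map_conj_of_normal] at this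
    exact this (Subgroup.mem_zpowers a)
  have hpp : p.Prime := Fact.out
  have hMP : M ≤ P := (IsPGroup.of_card hM).le_sylow_of_normal P
  refine le_antisymm (fun x hx => ?_) hMP
  obtain ⟨k, hk⟩ := IsPGroup.iff_orderOf.mp P.isPGroup' ⟨x, hx⟩
  rw [← Subgroup.orderOf_coe] at hk
  have key : ∀ y : G, ∀ j ≤ t, orderOf y = p ^ j → y ∈ M := by
    intro y j hj hy
    obtain ⟨K, hK⟩ := Sylow.exists_subgroup_card_pow_prime (G := M) p (hM ▸ pow_dvd_pow p hj)
    obtain ⟨g, hg⟩ := hB (K.map M.subtype) (Subgroup.zpowers y)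
      (CF.Fgs1.isMulCommutative_of_le hel.1 (Subgroup.map_subtype_le _)) inferInstance
      (by rw [Nat.card_zpowers, hy, Subgroup.card_subtype, hK])
    have := CF.Fgs1.map_conj_mono (Subgroup.map_subtype_le K) g
    rw [← hg, CF.Fgs1.map_conj_of_normal] at this
    exact this (Subgroup.mem_zpowers y)
  by_cases h2 : k ≤ t
  · exact key x k h2 hk
  exfalso
  have h3 : orderOf (x ^ p ^ (k - 2)) = p ^ 2 := by
    rw [orderOf_pow' _ (pow_ne_zero _ hpp.ne_zero)]
    change orderOf x = _ at hk
    rw [hk, Nat.gcd_eq_right (pow_dvd_pow p (by omega)), Nat.pow_div (by omega) hpp.pos]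
    congr 1; omega
  have := orderOf_dvd_of_pow_eq_one (hel.2 _ (key _ 2 ht h3))
  rw [h3] at this
  have := Nat.le_of_dvd hpp.pos this
  nlinarith [hpp.one_lt]

end Cfsg.Agent.S3909
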