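import Mathlib
import Cfsg.Statements.S3910
import Cfsg.Agent.Solv.CyclicMax
import Cfsg.Agent.Fgs1.Extra

set_option autoImplicit false
open Cfsg

namespace Cfsg.Agent.S3910


/-- A finite nilpotent group in which any two abelian subgroups of the same order are conjugate is cyclic. -/
theorem result {G : Type*} [Group G] [Finite G] (hB : ∀ A B : Subgroup G, IsMulCommutative ↥A → IsMulCommutative ↥B → Nat.card ↥A = Nat.card ↥B → ∃ g : G, B = A.map (MulAut.conj g).toMonoidHom) (hnil : Group.IsNilpotent G) : IsCyclic G := by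
  suffices h : IsZGroup G from inferInstance
  refine ⟨fun p hp P => ?_⟩
  haveI : Fact p.Prime := ⟨hp⟩
  haveI hPn : (P : Subgroup G).Normal := CF.Solv.isNilpotent_iff_sylow_normal.mp hnil p inferInstance P
  have key : ∀ x y : P, orderOf x = orderOf y → ∃ (g : P) (n : ℤ), y = g * x ^ n * g⁻¹ := by
    intro x y hxy
    obtain ⟨g, hg⟩ := hB (Subgroup.zpowers (x : G)) (Subgroup.zpowers (y : G)) inferInstance
      inferInstance (by rw [Nat.card_zpowers, Nat.card_zpowers, Subgroup.orderOf_coe,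
        Subgroup.orderOf_coe, hxy])
    obtain ⟨_, ⟨n, rfl⟩, h⟩ : (y : G) ∈ (Subgroup.zpowers (x : G)).map (MulAut.conj g).toMonoidHom :=
      hg ▸ Subgroup.mem_zpowers _
    have hg' : g ∈ pCore p G ⊔ pPrimeCore p G := by rw [CF.Solv.pCore_sup_pPrimeCore]; trivial
    obtain ⟨a, ha, b, hb, rfl⟩ := (CF.Solv.mem_sup_of_le_normalizer
      Subgroup.le_normalizer_of_normal).mp hg'
    have hc : pPrimeCore p G ≤ Subgroup.centralizer ((P : Subgroup G) : Set G) := by
      haveI : Group.IsNilpotent (⊤ : Subgroup G) := inferInstance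
      refine CF.Solv.le_centralizer_of_coprime_of_isNilpotent (K := ⊤) le_top le_top ?_
      obtain ⟨k, hk⟩ := P.isPGroup'.exists_card_eq
      rw [hk]
      exact Nat.Coprime.pow_right _ CF.Solv.pPrimeCore_coprime
    refine ⟨⟨a, CF.Solv.pCore_le_sylow P ha⟩, n, Subtype.ext ?_⟩
    rw [← h]
    have := hc hb _ (x ^ n).2
    change a * b * (x : G) ^ n * (a * b)⁻¹ = a * ((x ^ n : P) : G) * a⁻¹
    rw [mul_assoc a b, ← Subgroup.coe_zpow, ← this]
    group
  rcases subsingleton_or_nontrivial P with h | h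
  · infer_instance
  obtain ⟨z, -, hzc, hzo⟩ := CF.Fgs1.exists_center_orderOf P.isPGroup' (N := ⊤) top_ne_bot
  have hz : ∀ y : P, orderOf y = p → y ∈ Subgroup.zpowers z := by
    intro y hy
    obtain ⟨g, n, rfl⟩ := key z y (hzo.trans hy.symm)
    rw [Subgroup.mem_center_iff.mp (Subgroup.zpow_mem _ hzc n) g, mul_inv_cancel_right]
    exact ⟨n, rfl⟩
  rcases CF.Solv.isCyclic_or_quaternion P.isPGroup' (fun x y hx hy hx1 => by
    by_cases hy1 : y = 1
    · rw [hy1]; exact one_mem _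
    rw [← CF.Fgs1.eq_zpowers_of_card_prime (by rw [Nat.card_zpowers, hzo]; exact hp)
      (hz x (orderOf_eq_prime hx hx1)) hx1]
    exact hz y (orderOf_eq_prime hy hy1)) with h | ⟨-, n, hn, ⟨e⟩⟩
  · exact h
  exfalso
  obtain ⟨m, rfl⟩ := Nat.exists_eq_add_of_le' hn
  obtain ⟨g, k, h⟩ := key (e.symm (QuaternionGroup.a 1 ^ 2 ^ m)) (e.symm (QuaternionGroup.xa 0)) (by
    rw [MulEquiv.orderOf_eq, MulEquiv.orderOf_eq, QuaternionGroup.orderOf_xa,
      orderOf_pow' _ (by positivity), QuaternionGroup.orderOf_a_one,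
      show 2 * 2 ^ (m + 1) = 2 ^ m * 4 by ring, Nat.gcd_mul_right_left,
      Nat.mul_div_cancel_left _ (by positivity)])
  have h2 := congrArg e h
  simp only [map_mul, map_inv, map_zpow, MulEquiv.apply_symm_apply] at h2
  obtain ⟨i, hi⟩ : ∃ i, ((QuaternionGroup.a 1 : QuaternionGroup (2 ^ (m + 1))) ^ 2 ^ m) ^ k =
      QuaternionGroup.a i := by
    obtain ⟨j, hj⟩ := mem_powers_iff_mem_zpowers.mpr
      (⟨k, rfl⟩ : ((QuaternionGroup.a 1 : QuaternionGroup (2 ^ (m + 1))) ^ 2 ^ m) ^ k ∈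
        Subgroup.zpowers ((QuaternionGroup.a 1 : QuaternionGroup (2 ^ (m + 1))) ^ 2 ^ m))
    exact ⟨_, by rw [← hj]; dsimp only; rw [← pow_mul, QuaternionGroup.a_one_pow]⟩
  rw [hi, eq_mul_inv_iff_mul_eq] at h2
  cases h3 : e g <;> simp [h3] at h2

end Cfsg.Agent.S3910
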