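import Cfsg.Statements.S3915
import Cfsg.Agent.Sig.Amb
import Cfsg.Agent.Fgs3.Misc

set_option autoImplicit false
open Cfsg

namespace Cfsg.Agent.S3915

open CF.BG CF.Fgs3 CF.Sig Subgroup

theorem exists_two {G : Type*} [Group G] [Finite G] {L : Subgroup G} (h : IsComponent L) :
    ∃ x ∈ L, x ∉ 𝐂 L ∧ ∃ a, orderOf x = 2 ^ a := by
  have h2 : 2 ∣ ♯L := by
    by_contra hn
    exact qs_not_isSolvable h.2 (sol_of_odd (Nat.odd_iff.mpr (by omega)))
  have hd := qs_dvd_relIndex h.2 Nat.prime_two h2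
  obtain ⟨P, hP⟩ := exists_syl 2 L
  have hn : ¬ P ≤ 𝐂 L := fun hle =>
    (hP.idx_of_le hle).not_dvd' Nat.prime_two rfl hd
  obtain ⟨x, hx, hxn⟩ := SetLike.not_le_iff_exists.mp hn
  exact ⟨x, hP.le hx, hxn, PiNat.exists_pow (hP.pi.elt hx) (orderOf_pos x).ne'⟩

theorem aux {G : Type*} [Group G] [Finite G] (hP : ∀ (p : ℕ), p.Prime → ∀ A B : Subgroup G, IsCyclic ↥A → IsCyclic ↥B → IsPGroup p ↥A → Nat.card ↥A = Nat.card ↥B → ∃ g : G, B = A.map (MulAut.conj g).toMonoidHom)
    {K L : Subgroup G} (hK : IsComponent K) (hL : IsComponent L) (hne : K ≠ L) {x y : G}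
    (hx : x ∈ K) (hy : y ∈ L) (hxn : x ∉ 𝐂 K) (hyn : y ∉ 𝐂 L) {a b : ℕ} (ha : orderOf x = 2 ^ a)
    (hb : orderOf y = 2 ^ b) (hab : b ≤ a) : False := by
  have hKL : K ≤ 𝐂 L := comm_eq_bot.mp (comp_commutator_eq_bot_of_ne hK hL hne)
  have hc : Commute x y := ((mem_cent.mp (hKL hx)) y hy).symm
  have hd : orderOf (x * y) ∣ orderOf x := by
    rw [orderOf_dvd_iff_pow_eq_one, hc.mul_pow, pow_orderOf_eq_one, one_mul,
      ← orderOf_dvd_iff_pow_eq_one, ha, hb]
    exact pow_dvd_pow 2 hab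
  have ho : orderOf (x ^ (orderOf x / orderOf (x * y))) = orderOf (x * y) :=
    orderOf_pow_orderOf_div (orderOf_pos x).ne' hd
  set z := x ^ (orderOf x / orderOf (x * y)) with hz
  have hzp : PiGrp {2} (zpowers z) := by
    rw [piGrp_zpowers]
    have : PiElt {2} x := by
      show PiNat {2} (orderOf x)
      rw [ha]; exact piNat_pow_self Nat.prime_two a
    exact this.pow _
  obtain ⟨g, hg⟩ := hP 2 Nat.prime_two (zpowers z) (zpowers (x * y)) (cyc_zpowers _) (cyc_zpowers _)
    hzp.isPGroup (by rw [Nat.card_zpowers, Nat.card_zpowers, ho])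
  have hM := comp_map_conj hK g
  have hxy : x * y ∈ K.map (MulAut.conj g).toMonoidHom := by
    have : zpowers (x * y) ≤ K.map (MulAut.conj g).toMonoidHom := by
      rw [hg]; exact map_mono ((zpowers_le).mpr (K.pow_mem hx _))
    exact this (mem_zpowers _)
  have h1 : K.map (MulAut.conj g).toMonoidHom = K := by
    refine comp_eq_of_not_le_centralizer hM hK fun hle => hxn ?_
    have := (𝐂 K).mul_mem (hle hxy) ((𝐂 K).inv_mem (cent_symm hKL hy))
    simpa using this
  have h2 : K.map (MulAut.conj g).toMonoidHom = L := by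
    refine comp_eq_of_not_le_centralizer hM hL fun hle => hyn ?_
    have := (𝐂 L).mul_mem ((𝐂 L).inv_mem (hKL hx)) (hle hxy)
    simpa using this
  exact hne (h1.symm.trans h2)


/-- Let G be a finite group in which, for every prime p, any two cyclic p-subgroups of the same order are conjugate. If the layer E(G), the subgroup generated by the components of G, is non-trivial, then E(G)/Z(E(G)) is a non-abelian simple group. -/
theorem result {G : Type*} [Group G] [Finite G] (hP : ∀ (p : ℕ), p.Prime → ∀ A B : Subgroup G, IsCyclic ↥A → IsCyclic ↥B → IsPGroup p ↥A → Nat.card ↥A = Nat.card ↥B → ∃ g : G, B = A.map (MulAut.conj g).toMonoidHom) (hE : Cfsg.layer G ≠ ⊥) :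
    IsSimpleGroup (↥(Cfsg.layer G) ⧸ Subgroup.center ↥(Cfsg.layer G)) ∧ ¬ IsMulCommutative (↥(Cfsg.layer G) ⧸ Subgroup.center ↥(Cfsg.layer G)) := by
  obtain ⟨K, hK⟩ := hasComponent_iff.mp (hasComponent_iff_layer_ne_bot.mpr hE)
  have hall : ∀ L : Subgroup G, IsComponent L → L = K := by
    intro L hL
    by_contra hne
    obtain ⟨x, hx, hxn, a, ha⟩ := exists_two hK
    obtain ⟨y, hy, hyn, b, hb⟩ := exists_two hL
    rcases le_total a b with h | h
    · exact aux hP hL hK hne hy hx hyn hxn hb ha h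
    · exact aux hP hK hL (Ne.symm hne) hx hy hxn hyn ha hb h
  have hE' : layer G = K := le_antisymm (layer_le fun L hL => (hall L hL).le) (comp_le_layer hK)
  rw [hE']
  have hs := hK.2.2
  refine ⟨hs, ?_⟩
  exact qs_not_isMulCommutative (qs_of_surjective hK.2 (QuotientGroup.mk'_surjective (center K)))

end Cfsg.Agent.S3915
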