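import Mathlib
import Cfsg.Statements.S3917
import Cfsg.Agent.Solv.CyclicMax

set_option autoImplicit false
open Cfsg

namespace Cfsg.Agent.S3917


/-- Say that a group has self-centralizing non-cyclic subgroups when every non-cyclic subgroup H satisfies C_G(H) ≤ H. A finite abelian group with self-centralizing non-cyclic subgroups is cyclic or elementary abelian of order p² for a prime p. -/
theorem result {G : Type*} [CommGroup G] [Finite G] (hX : (∀ H : Subgroup G, ¬ IsCyclic ↥H → Subgroup.centralizer (H : Set G) ≤ H)) :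
    IsCyclic G ∨ ∃ p : ℕ, p.Prime ∧ Nat.card G = p ^ 2 ∧ Monoid.exponent G = p := by
  by_cases hc : IsCyclic G
  · exact Or.inl hc
  right
  have : ¬ IsZGroup G := fun h => hc inferInstance
  rw [isZGroup_iff] at this
  push Not at this
  obtain ⟨p, hp, P, hP⟩ := this
  haveI : Fact p.Prime := ⟨hp⟩
  have h2 := mt (CF.Solv.isCyclic_of_abelian_of_omega P.isPGroup') hP
  push Not at h2
  obtain ⟨x, hx, y, hy, hx2, hy2, hx1, hyx⟩ := h2
  have hxy : Subgroup.zpowers x ≤ Subgroup.centralizer (Subgroup.zpowers y : Set G) :=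
    fun a _ b _ => mul_comm _ _
  have hy1 : y ≠ 1 := by rintro rfl; exact hyx (one_mem _)
  have hV : Nat.card (Subgroup.zpowers x ⊔ Subgroup.zpowers y : Subgroup G) = p ^ 2 := by
    rw [CF.Solv.card_sup_of_inf_eq_bot (hxy.trans (Subgroup.centralizer_le_normalizer _)),
      CF.Solv.card_zpowers_of_pow_eq_one hx2 hx1, CF.Solv.card_zpowers_of_pow_eq_one hy2 hy1, sq]
    rw [inf_comm]
    refine (CF.Solv.le_or_inf_eq_bot_of_card_prime ?_ _).resolve_left
      fun h => hyx (h (Subgroup.mem_zpowers y))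
    rw [CF.Solv.card_zpowers_of_pow_eq_one hy2 hy1]; exact hp
  have hel := CF.Solv.isElementaryAbelian_sup
      (CF.Solv.isElementaryAbelian_zpowers hx2) (CF.Solv.isElementaryAbelian_zpowers hy2) hxy
  have htop : Subgroup.zpowers x ⊔ Subgroup.zpowers y = ⊤ := by
    rw [eq_top_iff]
    exact fun a _ => hX _ (CF.Solv.not_isCyclic_of_isElementaryAbelian hel
      (by rw [hV, sq]; nlinarith [hp.one_lt])) (fun b _ => mul_comm _ _)
  rw [htop] at hV hel
  refine ⟨p, hp, by rwa [Subgroup.card_top] at hV, ?_⟩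
  have h1 : Monoid.exponent G ∣ p := Monoid.exponent_dvd_of_forall_pow_eq_one fun g => hel.2 g trivial
  refine ((Nat.dvd_prime hp).mp h1).resolve_left fun h => hx1 ?_
  have := Monoid.pow_exponent_eq_one x
  rwa [h, pow_one] at this

end Cfsg.Agent.S3917
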