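import Mathlib
import Cfsg.Statements.S3918
import Cfsg.Agent.Solv.CyclicMax
import Cfsg.Agent.Fgs1.Extra

set_option autoImplicit false
open Cfsg

namespace Cfsg.Agent.S3918


/-- Say that a group has self-centralizing non-cyclic subgroups when every non-cyclic subgroup H satisfies C_G(H) ≤ H. For an odd prime p, a finite non-abelian p-group has self-centralizing non-cyclic subgroups if and only if it has order p³. -/
theorem result {G : Type*} [Group G] [Finite G] {p : ℕ} [Fact p.Prime] (hp : p ≠ 2) (hG : IsPGroup p G) (hna : ¬ IsMulCommutative G) :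
    (∀ H : Subgroup G, ¬ IsCyclic ↥H → Subgroup.centralizer (H : Set G) ≤ H) ↔ Nat.card G = p ^ 3 := by
  have hpp : p.Prime := Fact.out
  constructor
  · intro h
    have h1 := mt (CF.Solv.isCyclic_of_normal_abelian_cyclic hp hG) (fun h => hna inferInstance)
    push Not at h1
    obtain ⟨A, hAn, hA, hAc⟩ := h1
    let Ω : Subgroup G :=
      { carrier := {x | x ∈ A ∧ x ^ p = 1}
        one_mem' := ⟨A.one_mem, one_pow _⟩
        mul_mem' := fun {a b} ha hb => ⟨A.mul_mem ha.1 hb.1, by
          rw [(show Commute a b from CF.Fgs1.comm_of_mem hA ha.1 hb.1).mul_pow, ha.2, hb.2, one_mul]⟩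
        inv_mem' := fun {a} ha => ⟨A.inv_mem ha.1, by rw [inv_pow, ha.2, inv_one]⟩ }
    haveI : Ω.Normal := ⟨fun a ha g => ⟨hAn.conj_mem a ha.1 g, by rw [conj_pow, ha.2]; group⟩⟩
    have h2 := mt (CF.Solv.isCyclic_of_abelian_of_omega (hG.to_subgroup A)) hAc
    push Not at h2
    obtain ⟨x, hx, y, hy, hx2, hy2, hx1, hyx⟩ := h2
    obtain ⟨z, hz, hzc, hzo⟩ := CF.Fgs1.exists_center_orderOf hG (N := Ω)
      (fun h => hx1 (Subgroup.mem_bot.mp (h ▸ (⟨hx, hx2⟩ : x ∈ Ω))))
    have hZc : Subgroup.zpowers z ≤ Subgroup.center G := Subgroup.zpowers_le.mpr hzc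
    haveI := CF.Fgs1.normal_of_le_center hZc
    have hZ : Nat.card (Subgroup.zpowers z) = p := by rw [Nat.card_zpowers, hzo]
    have hlt : Subgroup.zpowers z < Ω := by
      refine lt_of_le_of_ne (Subgroup.zpowers_le.mpr hz) fun h => hyx ?_
      have hx' : x ∈ Subgroup.zpowers z := h ▸ (⟨hx, hx2⟩ : x ∈ Ω)
      rw [← CF.Fgs1.eq_zpowers_of_card_prime (hZ ▸ hpp) hx' hx1, h]
      exact ⟨hy, hy2⟩
    obtain ⟨v, hv, hvZ, -, hvc, -, hV⟩ := CF.Fgs1.exists_normal_card_mul hG hlt
    set V := Subgroup.zpowers z ⊔ Subgroup.zpowers v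
    have hVΩ : V ≤ Ω := sup_le hlt.le (Subgroup.zpowers_le.mpr hv)
    have hVA : IsMulCommutative V := CF.Fgs1.isMulCommutative_of_le hA (fun a ha => (hVΩ ha).1)
    have hC := h V (CF.Solv.not_isCyclic_of_isElementaryAbelian (p := p)
      ⟨hVA, fun a ha => (hVΩ ha).2⟩ (by rw [hV, hZ]; nlinarith [hpp.one_lt]))
    have hCv : Subgroup.centralizer ({v} : Set G) = V := by
      apply le_antisymm
      · refine le_trans ?_ hC
        rw [Subgroup.le_centralizer_iff]
        refine sup_le (hZc.trans (Subgroup.center_le_centralizer _)) (Subgroup.zpowers_le.mpr ?_)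
        intro a ha
        exact Subgroup.mem_centralizer_singleton_iff.mp ha
      · intro a ha
        rw [Subgroup.mem_centralizer_singleton_iff]
        exact CF.Fgs1.comm_of_mem hVA ha (Subgroup.mem_sup_right (Subgroup.mem_zpowers v))
    have := CF.Fgs1.card_inf_centralizer_mul (B := ⊤) (a := v) hZ
      (hZc.trans (Subgroup.center_le_centralizer _)) (fun b _ => hvc b) (by
        intro h
        have : V = ⊤ := by
          rw [← hCv, eq_top_iff]
          intro a _
          exact Subgroup.mem_centralizer_singleton_iff.mpr (h a trivial)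
        rw [this] at hVA
        exact hna (CF.Solv.isMulCommutative_top_iff.mp hVA))
    rw [top_inf_eq, hCv, hV, hZ, Subgroup.card_top] at this
    rw [← this]; ring
  · intro hc H hH x hx
    by_contra hxH
    obtain ⟨k, hk, hk2⟩ := (Nat.dvd_prime_pow hpp).mp (hc ▸ H.card_subgroup_dvd_card)
    have : k = 0 ∨ k = 1 ∨ k = 2 ∨ k = 3 := by omega
    rcases this with rfl | rfl | rfl | rfl
    · exact hH (isCyclic_of_card_dvd_prime (p := p) (by simp [hk2]))
    · exact hH (isCyclic_of_card_dvd_prime (p := p) (by simp [hk2]))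
    · have hA := IsPGroup.isMulCommutative_of_card_eq_prime_sq hk2
      have hi : H.index = p := by
        have := H.card_mul_index
        rw [hk2, hc, pow_succ p 2] at this
        exact Nat.eq_of_mul_eq_mul_left (pow_pos hpp.pos _) this
      have := CF.Fgs1.isMulCommutative_sup_zpowers hA hx
      rw [CF.Fgs1.sup_zpowers_eq_top (hi ▸ hpp) hxH] at this
      exact hna (CF.Solv.isMulCommutative_top_iff.mp this)
    · rw [Subgroup.eq_top_of_card_eq H (hk2.trans hc.symm)] at hxH
      exact hxH trivial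

end Cfsg.Agent.S3918
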