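import Mathlib
import Cfsg.Agent.Fgs2.DQS
import Cfsg.Statements.S3919

set_option autoImplicit false
open Cfsg

namespace Cfsg.Agent.S3919

/-- Say that a group has self-centralizing non-cyclic subgroups when every non-cyclic subgroup H satisfies C_G(H) ≤ H. A finite non-abelian 2-group G of order 2^n has self-centralizing non-cyclic subgroups if and only if G has nilpotency class n − 1 (that is, G is dihedral, semidihedral or generalized quaternion). -/
theorem result {G : Type*} [Group G] [Finite G] (hna : ¬ IsMulCommutative G) (n : ℕ) (hG : Nat.card G = 2 ^ n) :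
    (∀ H : Subgroup G, ¬ IsCyclic ↥H → Subgroup.centralizer (H : Set G) ≤ H) ↔ (⊤ : Subgroup G).lowerCentralSeries (n - 2) ≠ ⊥ := by
  have hp := IsPGroup.of_card hG
  have hn : 3 ≤ n := by
    by_contra h
    have : n = 0 ∨ n = 1 ∨ n = 2 := by omega
    rcases this with rfl | rfl | rfl
    · have := isCyclic_of_card_dvd_prime (α := G) (p := 2) (by simp [hG])
      exact hna inferInstance
    · have := isCyclic_of_card_dvd_prime (α := G) (p := 2) (by simp [hG])
      exact hna inferInstance
    · exact hna (IsPGroup.isMulCommutative_of_card_eq_prime_sq hG)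
  constructor
  · intro h
    rw [← CF.Fgs2.nilpotencyClass_eq_iff hG (by omega)]
    by_cases h1 : ∀ A : Subgroup G, A.Normal → IsMulCommutative A → IsCyclic A
    · rcases CF.Solv.normalRankOne_cases hp h1 with h2 | ⟨-, m, a, c, hm, ha, hi, hc, h2, -⟩
      · exact (hna inferInstance).elim
      rw [CF.Fgs2.DQS_nilpotencyClass h2 (by omega) ha hi hc]
      have := (Subgroup.zpowers a).index_mul_card
      rw [hi, Nat.card_zpowers, ha, hG, ← pow_succ', (Nat.pow_right_injective le_rfl).eq_iff] at this
      omega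
    push Not at h1
    obtain ⟨A, -, hA, hAc⟩ := h1
    have h2 := mt (CF.Solv.isCyclic_of_abelian_of_omega (hp.to_subgroup A)) hAc
    push Not at h2
    obtain ⟨x, hx, y, hy, hx2, hy2, hx1, hyx⟩ := h2
    have hxy : Subgroup.zpowers x ≤ Subgroup.centralizer (Subgroup.zpowers y : Set G) := by
      rw [Subgroup.zpowers_le, CF.Solv.mem_centralizer_zpowers_iff]
      exact setLike_mul_comm hx hy
    have hy1 : y ≠ 1 := by rintro rfl; exact hyx (one_mem _)
    have hV : Nat.card (Subgroup.zpowers x ⊔ Subgroup.zpowers y : Subgroup G) = 2 ^ 2 := by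
      rw [CF.Solv.card_sup_of_inf_eq_bot (hxy.trans (Subgroup.centralizer_le_normalizer _)),
        CF.Solv.card_zpowers_of_pow_eq_one hx2 hx1, CF.Solv.card_zpowers_of_pow_eq_one hy2 hy1]
      · rfl
      rw [inf_comm]
      refine (CF.Solv.le_or_inf_eq_bot_of_card_prime ?_ _).resolve_left
        fun h => hyx (h (Subgroup.mem_zpowers y))
      rw [CF.Solv.card_zpowers_of_pow_eq_one hy2 hy1]; exact Nat.prime_two
    refine CF.Fgs2.nilpotencyClass_eq_of_selfCentralizing hG _ hV (h _ ?_)
    exact CF.Solv.not_isCyclic_of_isElementaryAbelian (CF.Solv.isElementaryAbelian_sup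
      (CF.Solv.isElementaryAbelian_zpowers hx2) (CF.Solv.isElementaryAbelian_zpowers hy2) hxy)
      (by rw [hV]; norm_num)
  · intro h H hH
    obtain ⟨m, a, c, hm, -, ha, hi, hc, h1⟩ := CF.Fgs2.taussky hp
      (CF.Fgs2.index_lcs_of_maxClass hG hn h (r := 1) le_rfl (by omega)) hna
    exact CF.Fgs2.DQS_centralizer_le h1 (by omega) ha hi hc hH

end Cfsg.Agent.S3919
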