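import Mathlib
import Cfsg.Statements.S3920
import Cfsg.Agent.Solv.Symplectic

set_option autoImplicit false
open Cfsg

namespace Cfsg.Agent.S3920


/-- Say that a group has self-centralizing non-cyclic subgroups when every non-cyclic subgroup H satisfies C_G(H) ≤ H. For n ≥ 3, the dihedral group of order 2n has self-centralizing non-cyclic subgroups if and only if n is odd or a power of 2. -/
theorem result (n : ℕ) (hn : 3 ≤ n) : (∀ H : Subgroup (DihedralGroup n), ¬ IsCyclic ↥H → Subgroup.centralizer (H : Set (DihedralGroup n)) ≤ H) ↔ (Odd n ∨ ∃ k : ℕ, n = 2 ^ k) := by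
  haveI : NeZero n := ⟨by omega⟩
  constructor
  · intro h
    by_contra hne
    push Not at hne
    obtain ⟨a, ha⟩ := even_iff_two_dvd.mp (Nat.not_odd_iff_even.mp hne.1)
    obtain ⟨q, hq, hqn, hq2⟩ : ∃ q, q.Prime ∧ q ∣ n ∧ q ≠ 2 := by
      by_contra h2
      push Not at h2
      exact hne.2 _ (Nat.eq_prime_pow_of_unique_prime_dvd (by omega) (fun {d} h1 h3 => h2 d h1 h3))
    obtain ⟨b, hb⟩ := hqn
    let H : Subgroup (DihedralGroup n) :=
      { carrier := {x | ∃ i : ZMod n, (q : ZMod n) * i = 0 ∧
          (x = DihedralGroup.r i ∨ x = DihedralGroup.sr i)}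
        one_mem' := ⟨0, mul_zero _, Or.inl rfl⟩
        mul_mem' := by
          rintro _ _ ⟨i, hi, rfl | rfl⟩ ⟨j, hj, rfl | rfl⟩
          · exact ⟨i + j, by rw [mul_add, hi, hj, add_zero], Or.inl rfl⟩
          · exact ⟨j - i, by rw [mul_sub, hi, hj, sub_zero], Or.inr rfl⟩
          · exact ⟨i + j, by rw [mul_add, hi, hj, add_zero], Or.inr rfl⟩
          · exact ⟨j - i, by rw [mul_sub, hi, hj, sub_zero], Or.inl rfl⟩
        inv_mem' := by
          rintro _ ⟨i, hi, rfl | rfl⟩
          · exact ⟨-i, by rw [mul_neg, hi, neg_zero], Or.inl rfl⟩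
          · exact ⟨i, hi, Or.inr rfl⟩ }
    have ha2 : (a : ZMod n) + a = 0 := by
      rw [← Nat.cast_add, ← two_mul, ← ha, ZMod.natCast_self]
    have hH : ¬ IsCyclic H := by
      intro hc
      have h1 : DihedralGroup.r (b : ZMod n) ∈ H :=
        ⟨b, by rw [← Nat.cast_mul, ← hb, ZMod.natCast_self], Or.inl rfl⟩
      have h2 : DihedralGroup.sr (0 : ZMod n) ∈ H := ⟨0, mul_zero _, Or.inr rfl⟩
      have := setLike_mul_comm h1 h2
      simp only [DihedralGroup.r_mul_sr, DihedralGroup.sr_mul_r, DihedralGroup.sr.injEq, zero_add,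
        zero_sub] at this
      have h3 : ((2 * b : ℕ) : ZMod n) = 0 := by
        push_cast; linear_combination -this
      rw [ZMod.natCast_eq_zero_iff, hb] at h3
      have h4 := Nat.dvd_of_mul_dvd_mul_right (by rcases b with _ | b; omega; omega) h3
      exact hq2 ((Nat.prime_dvd_prime_iff_eq hq Nat.prime_two).mp h4)
    obtain ⟨i, hi, h1 | h1⟩ := h H hH (show DihedralGroup.r (a : ZMod n) ∈ _ from by
      intro x _
      cases x with
      | r j => simp [add_comm]
      | sr j =>
        simp only [DihedralGroup.r_mul_sr, DihedralGroup.sr_mul_r, DihedralGroup.sr.injEq]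
        linear_combination ha2)
    · obtain rfl := DihedralGroup.r.inj h1
      rw [← Nat.cast_mul, ZMod.natCast_eq_zero_iff] at hi
      nth_rw 1 [ha] at hi
      have h4 := Nat.dvd_of_mul_dvd_mul_right (by omega) hi
      exact hq2 ((Nat.prime_dvd_prime_iff_eq Nat.prime_two hq).mp h4).symm
    · cases h1
  · intro h H hH x hx
    have hr : ∀ i : ZMod n, DihedralGroup.r i ∈ Subgroup.zpowers (DihedralGroup.r (1 : ZMod n)) :=
      fun i => ⟨i.val, by simp⟩
    obtain ⟨i, hi⟩ : ∃ i, DihedralGroup.sr i ∈ H := by
      by_contra h1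
      push Not at h1
      apply hH
      refine Subgroup.isCyclic_of_le (H' := Subgroup.zpowers (DihedralGroup.r (1 : ZMod n))) ?_
      intro y hy
      cases y with
      | r j => exact hr j
      | sr j => exact absurd hy (h1 j)
    obtain ⟨j, hj0, hj⟩ : ∃ j, j ≠ 0 ∧ DihedralGroup.r j ∈ H := by
      by_contra h1
      push Not at h1
      apply hH
      refine Subgroup.isCyclic_of_le (H' := Subgroup.zpowers (DihedralGroup.sr i)) ?_
      intro y hy
      cases y with
      | r j =>
        by_cases h0 : j = 0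
        · rw [h0]; exact one_mem _
        · exact absurd hy (h1 j h0)
      | sr j =>
        by_cases h0 : j - i = 0
        · rw [sub_eq_zero.mp h0]; exact Subgroup.mem_zpowers _
        · exact absurd (H.mul_mem hi hy) (h1 _ h0)
    have key : ∀ k : ZMod n, k + k = 0 → DihedralGroup.r k ∈ H := by
      intro k hk
      rcases h with h | ⟨m, hm⟩
      · have : IsUnit (2 : ZMod n) := by
          have := (ZMod.isUnit_iff_coprime 2 n).mpr (Nat.coprime_two_left.mpr h)
          exact_mod_cast this
        rw [← two_mul, this.mul_right_eq_zero] at hk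
        rw [hk]; exact one_mem _
      · have hG : IsPGroup 2 (DihedralGroup n) :=
          IsPGroup.of_card (n := m + 1) (by rw [DihedralGroup.nat_card, hm, pow_succ'])
        obtain ⟨t, h1, h2⟩ := CF.Solv.exists_pow_notMem_pow_mem hG (U := ⊥)
          (g := DihedralGroup.r j) (fun h => hj0 (DihedralGroup.r.inj (Subgroup.mem_bot.mp h)))
        have := CF.Solv.mem_zpowers_of_isCyclic_of_pow_eq_one (p := 2)
          (V := Subgroup.zpowers (DihedralGroup.r (1 : ZMod n))) inferInstance
          (Subgroup.pow_mem _ (hr j) (2 ^ t)) (hr k) (fun h => h1 (Subgroup.mem_bot.mpr h))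
          (Subgroup.mem_bot.mp h2) (by rw [sq, DihedralGroup.r_mul_r, hk]; rfl)
        exact (Subgroup.zpowers_le.mpr (H.pow_mem hj _)) this
    have h1 := hx _ hi
    cases x with
    | r k =>
      simp only [DihedralGroup.r_mul_sr, DihedralGroup.sr_mul_r, DihedralGroup.sr.injEq] at h1
      exact key k (by linear_combination h1)
    | sr k =>
      simp only [DihedralGroup.sr_mul_sr, DihedralGroup.r.injEq] at h1
      have := H.mul_mem hi (key (k - i) (by linear_combination h1))
      simpa using this

end Cfsg.Agent.S3920
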