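import Cfsg.Statements.S3921
import Cfsg.Agent.CIT.More

set_option autoImplicit false
open Cfsg

namespace Cfsg.Agent.S3921

/-- Say that a group has self-centralizing non-cyclic subgroups when every non-cyclic subgroup H satisfies C_G(H) ≤ H. A non-abelian finite simple group has self-centralizing non-cyclic subgroups if and only if it is isomorphic to PSL₂(q) with q = 4, q = 9, or q a prime of the form 2^k + 1 or 2^k − 1. -/
theorem result {G : Type*} [Group G] [Finite G] [IsSimpleGroup G] (hna : ¬ IsMulCommutative G) :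
    (∀ H : Subgroup G, ¬ IsCyclic ↥H → Subgroup.centralizer (H : Set G) ≤ H) ↔ ∃ (F : Type) (_ : Field F) (_ : Fintype F),
      (Fintype.card F = 4 ∨ Fintype.card F = 9 ∨ ((Fintype.card F).Prime ∧ ∃ k : ℕ, Fintype.card F = 2 ^ k + 1 ∨ Fintype.card F = 2 ^ k - 1)) ∧
      Nonempty (G ≃* Matrix.ProjectiveSpecialLinearGroup (Fin 2) F) := by
  open CF.CIT CF.BG in
  constructor
  · intro h
    have r := rank2_of_simple hna
    have ns := not_sol_of_simple hna
    obtain ⟨t, -, ht⟩ := exists_inv_of_not_sol ns
    obtain ⟨V, k, -⟩ := exists_klein r ht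
    rcases (SCNC.cit h r).klein_case (O_eq_bot_of_simple ns 2) ns k
      (h V (CF.Invol.klein_not_isCyclic k)) with ⟨F, _, _, h1, e⟩ |
        ⟨F, _, _, h1 | ⟨h1, j, -, h2⟩, e⟩ | ⟨N, -, i, -⟩
    · exact ⟨F, _, _, Or.inl h1, e⟩
    · exact ⟨F, _, _, Or.inr (Or.inl h1), e⟩
    · exact ⟨F, _, _, Or.inr (Or.inr ⟨h1, j, h2.imp_right fun h => by omega⟩), e⟩
    · exact absurd i (CF.GW.no_index_two_of_simple
        (fun e => ns (piGrp_of_card_prime Nat.prime_two (card_top'.trans e)).sol) N)
  · rintro ⟨F, _, _, h, ⟨e⟩⟩ H nc g hg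
    have k : SCNC (Matrix.ProjectiveSpecialLinearGroup (Fin 2) F) := by
      rcases h with h | h | ⟨pp, j, h⟩
      · exact scnc_psl (a := 2) Nat.prime_two le_rfl h fun n d e => by norm_num at e; omega
      · exact scnc_psl (a := 2) Nat.prime_three le_rfl h fun n d e =>
          ⟨2, by norm_num at e; rw [show n = 4 by omega]; norm_num⟩
      · refine scnc_psl (a := 1) pp one_le_two (pow_one _).symm fun n d e => ?_
        generalize Fintype.card F = q at *
        rw [pow_one] at e
        rcases pp.eq_two_or_odd' with rfl | o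
        · norm_num at e; omega
        rw [gcd_of_odd o] at e
        have h2 := pp.two_le
        have h4 : 2 ≤ j → 4 ∣ 2 ^ j := pow_dvd_pow 2
        rcases h with h | h <;> rcases e with e | e
        · exact ⟨j, Dvd.intro 2 (by omega)⟩
        · have : j < 2 := by omega
          exact ⟨2, Dvd.intro 2 (by interval_cases j <;> omega)⟩
        · have : j < 2 := by omega
          interval_cases j <;> omega
        · exact ⟨j, Dvd.intro 2 (by omega)⟩
    have := k (H.map e.toMonoidHom) (mt (cyc_map_iff e.injective).1 nc)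
      (map_cent (Subgroup.zpowers_le.2 hg) e.toMonoidHom ⟨g, Subgroup.mem_zpowers g, rfl⟩)
    exact (Subgroup.mem_map_iff_mem e.injective).1 this

end Cfsg.Agent.S3921
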