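import Mathlib
import Cfsg.Statements.S3922
import Cfsg.Agent.Fgs1.Ito2

set_option autoImplicit false
open Cfsg

namespace Cfsg.Agent.S3922

open Subgroup CF.BG CF.Fgs1

/-- A finite group whose conjugacy classes have exactly three distinct sizes (1 and two further values) is solvable. -/
theorem result {G : Type*} [Group G] [Finite G] (n₁ n₂ : ℕ) (h12 : n₂ < n₁) (h2 : 1 < n₂)
    (h : ∀ x : G, (Subgroup.centralizer ({x} : Set G)).index = 1 ∨ (Subgroup.centralizer ({x} : Set G)).index = n₂ ∨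
      (Subgroup.centralizer ({x} : Set G)).index = n₁)
    (h₁ : ∃ x : G, (Subgroup.centralizer ({x} : Set G)).index = n₁) (h₂ : ∃ x : G, (Subgroup.centralizer ({x} : Set G)).index = n₂) :
    Group.IsSolvable G := by
  have s : Sol (⊤ : Subgroup G) := ito_two fun x y z nx ny nz => by
    have n1 : ∀ x : G, x ∉ 𝐂 (⊤ : Subgroup G) → (𝐂₁ x).index ≠ 1 := fun x nx e =>
      nx (le_cent1_iff.1 (index_eq_one.1 e).ge)
    have e : ∀ x y : G, (𝐂₁ x).index = (𝐂₁ y).index → ♯(𝐂₁ x) = ♯(𝐂₁ y) := fun x y e => by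
      have e1 := (𝐂₁ x).card_mul_index
      rw [e, ← (𝐂₁ y).card_mul_index] at e1
      exact Nat.eq_of_mul_eq_mul_right (Nat.pos_of_ne_zero FiniteIndex.index_ne_zero) e1
    refine Or.imp (e x y) (Or.imp (e x z) (e y z)) ?_
    have := h x
    have := h y
    have := h z
    have := n1 x nx
    have := n1 y ny
    have := n1 z nz
    omega
  exact Group.isSolvable_of_surjective (f := (⊤ : Subgroup G).subtype) fun x => ⟨⟨x, trivial⟩, rfl⟩

end Cfsg.Agent.S3922
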