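import Cfsg.Statements.S3937
import Cfsg.Agent.Solv.Crit
import Cfsg.Agent.SolvStr.Subnormal

set_option autoImplicit false
open Cfsg

namespace Cfsg.Agent.S3937

theorem foldl_eq {G : Type*} [Group G] (g : G) (n : ℕ) (x : G) :
    (List.replicate n g).foldl (fun a b => a * b * a⁻¹ * b⁻¹) x =
      (fun a => a * g * a⁻¹ * g⁻¹)^[n] x := by
  induction n generalizing x with
  | zero => rfl
  | succ n ih => rw [List.replicate_succ, List.foldl_cons, ih, Function.iterate_succ_apply]

open Subgroup CF.Solv CF.SolvStr in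
open scoped Pointwise in
theorem aux {G : Type*} [Group G] [Finite G] {g : G}
    (h : ∀ x : G, ∃ n : ℕ, (fun a => a * g * a⁻¹ * g⁻¹)^[n] x = 1) {X : Subgroup G}
    (hSX : zpowers g ≤ X) : SN (zpowers g) X := by
  induction X using WellFoundedLT.induction with
  | ind X ih =>
  by_contra hn
  have h1 : ∀ H, zpowers g ≤ H → H < X → SN (zpowers g) H := fun H h1 h2 => ih H h2 h1
  obtain ⟨M, hM, h2⟩ := zipper hSX hn h1
  have hSM : zpowers g ≤ M := h2 _ le_rfl (lt_of_le_of_ne hSX fun e => hn (e ▸ SN.refl _))
  have hN : X ⊓ normalizer (M : Set G) ≤ M := by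
    refine h2 _ (le_inf hSX (hSM.trans le_normalizer)) (lt_of_le_of_ne inf_le_left fun e => ?_)
    exact hn ((h1 M hSM hM).trans (SN.of_le_normalizer hM.le (inf_eq_left.1 e)))
  have hgX := hSX (mem_zpowers g)
  have hgM := hSM (mem_zpowers g)
  have step : ∀ b ∈ X, b * g * b⁻¹ * g⁻¹ ∈ M → b ∈ M := by
    intro b hb h4
    refine hN ⟨hb, ?_⟩
    rw [← inv_inv b]
    refine Subgroup.inv_mem _ (mem_normalizer_of_conj_smul_le (h2 _ (zpowers_le.2 ?_) ?_))
    · rw [mem_conj_smul_iff, inv_inv]
      simpa using M.mul_mem h4 hgM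
    · rw [← conj_smul_eq_iff.mpr (le_normalizer (X.inv_mem hb))]
      exact lt_of_le_of_ne (pointwise_smul_le_pointwise_smul_iff.mpr hM.le)
        fun e => hM.ne (MulAction.injective _ e)
  have all : ∀ n, ∀ b ∈ X, (fun a => a * g * a⁻¹ * g⁻¹)^[n] b ∈ M → b ∈ M := by
    intro n
    induction n with
    | zero => exact fun b _ h => h
    | succ n ih =>
      intro b hb h4
      rw [Function.iterate_succ_apply] at h4
      exact step b hb (ih _ (X.mul_mem (X.mul_mem (X.mul_mem hb hgX) (X.inv_mem hb))
        (X.inv_mem hgX)) h4)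
  refine hM.not_ge fun b hb => ?_
  obtain ⟨n, hn⟩ := h b
  exact all n b hb (hn ▸ M.one_mem)


/-- Baer's characterization of the Fitting subgroup: in a finite group G, an element g lies in the Fitting subgroup if and only if g is a left Engel element, that is, for every x there is n with [x, g, g, …, g] = 1 (n entries g, [a, b] = aba⁻¹b⁻¹). -/
theorem result {G : Type*} [Group G] [Finite G] (g : G) :
    g ∈ Cfsg.fittingSubgroup G ↔ ∀ x : G, ∃ n : ℕ, (List.replicate n g).foldl (fun a b => a * b * a⁻¹ * b⁻¹) x = 1 := by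
  open Subgroup CF.Solv CF.SolvStr in
  simp only [foldl_eq]
  constructor
  · intro hg x
    obtain ⟨n, hn⟩ := (Subgroup.isNilpotent_iff_lowerCentralSeries (fittingSubgroup G)).1
      inferInstance
    have key : ∀ k, (fun a => a * g * a⁻¹ * g⁻¹)^[k + 1] x ∈
        (fittingSubgroup G).lowerCentralSeries k := by
      intro k
      induction k with
      | zero =>
        exact (fittingSubgroup G).mul_mem ((CF.Solv.fitting_normal G).conj_mem g hg x)
          ((fittingSubgroup G).inv_mem hg)
      | succ k ih =>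
        rw [Function.iterate_succ_apply']
        exact Subgroup.commutator_mem_commutator ih hg
    exact ⟨n + 1, by simpa [hn] using key n⟩
  · intro h
    have h1 := CF.SolvStr.sn_top_iff.1 (aux h le_top)
    have : Group.IsNilpotent (Subgroup.zpowers g) := CF.Solv.isNilpotent_of_isMulCommutative _
    exact CF.Solv.le_fitting_of_isSubnormal h1 (Subgroup.mem_zpowers g)

end Cfsg.Agent.S3937
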