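import Cfsg.Statements.S3939
import Cfsg.Agent.SolvStr.Misc1
import Cfsg.Agent.SolvStr.Factor2

set_option autoImplicit false
open Cfsg
universe u

namespace Cfsg.Agent.S3939

open Subgroup CF.Solv CF.SolvStr CF.Transfer in
theorem aux1 (G : Type u) [Group G] [Finite G] : ∀ g : G,
    (∀ x : G, Group.IsNilpotent ↥(closure ({x, g} : Set G))) →
      ∃ n, g ∈ Subgroup.upperCentralSeries G n := by
  refine group_induction (P := fun G _ _ => ∀ g : G,
    (∀ x : G, Group.IsNilpotent ↥(closure ({x, g} : Set G))) →
      ∃ n, g ∈ Subgroup.upperCentralSeries G n) ?_ G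
  intro G _ _ ih g h
  by_cases hZ : center G = ⊥
  · refine ⟨0, ?_⟩
    by_contra hg
    have hg1 : orderOf g ≠ 1 := fun e => hg (by simpa using e)
    obtain ⟨p, hp, hd⟩ := Nat.exists_prime_and_dvd hg1
    have : Fact p.Prime := ⟨hp⟩
    have ho : orderOf (g ^ (orderOf g / p)) = p :=
      orderOf_pow_orderOf_div (orderOf_pos g).ne' hd
    set y := g ^ (orderOf g / p) with hy
    have hyC : y ∈ centralizer ((pResidual p G : Subgroup G) : Set G) := by
      have : pResidual p G ≤ centralizer ({y} : Set G) := by
        rw [pResidual_le_iff']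
        rintro x hx w hw
        rw [Set.mem_singleton_iff.1 hw]
        have := h x
        refine (commute_of_coprime_orderOf (K := closure ({x, g} : Set G))
          (pow_mem (subset_closure (by simp)) _) (subset_closure (by simp)) ?_).eq
        rw [ho]; exact hx.symm
      intro x hx
      exact (this hx y rfl).symm
    obtain ⟨P, hP⟩ := CF.Fgs2.exists_sylow_mem (x := y) (k := 1) (p := p) (by simpa using ho)
    have := P.isPGroup'.isNilpotent
    refine inf_centralizer_ne_bot_of_isNilpotent
      (H := (P : Subgroup G) ⊓ centralizer ((pResidual p G : Subgroup G) : Set G)) (K := P)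
      inf_le_left ?_ ?_ ?_
    · exact (le_inf le_normalizer le_normalizer_of_normal).trans inf_normalizer_le_normalizer_inf
    · intro e
      have : y ∈ (⊥ : Subgroup G) := e ▸ ⟨hP, hyC⟩
      rw [mem_bot.1 this, orderOf_one] at ho
      exact hp.one_lt.ne ho
    · rw [eq_bot_iff, ← hZ]
      exact le_center_of_sup (sylow_sup_pResidual P) inf_le_right (inf_le_left.trans inf_le_right)
  · obtain ⟨n, hn⟩ := ih (G ⧸ center G) (card_quotient_lt hZ) (g : G ⧸ center G) fun x => by
      obtain ⟨x, rfl⟩ := QuotientGroup.mk_surjective x
      have := h x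
      have := isNilpotent_map (QuotientGroup.mk' (center G)) (closure ({x, g} : Set G))
      rwa [MonoidHom.map_closure, Set.image_pair] at this
    refine ⟨n + 1, ?_⟩
    rw [← Subgroup.comap_upperCentralSeries_quotient_center]
    exact hn

open Subgroup CF.Solv CF.SolvStr CF.Transfer in
theorem aux2 (n : ℕ) : ∀ (G : Type u) [Group G] (g : G), g ∈ Subgroup.upperCentralSeries G n →
    ∀ x : G, Group.IsNilpotent ↥(closure ({x, g} : Set G)) := by
  induction n with
  | zero =>
    intro G _ g hg x
    have : closure ({x, g} : Set G) ≤ zpowers x := by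
      rw [closure_le]
      rintro y (rfl | rfl)
      · exact mem_zpowers _
      · rw [mem_bot.1 hg]; exact one_mem _
    have := isNilpotent_of_isMulCommutative (zpowers x)
    exact isNilpotent_of_le ‹_›
  | succ n ih =>
    intro G _ g hg x
    rw [← Subgroup.comap_upperCentralSeries_quotient_center] at hg
    have := ih _ _ hg (x : G ⧸ center G)
    have : Group.IsNilpotent ((closure ({x, g} : Set G)).map (QuotientGroup.mk' (center G))) := by
      rwa [MonoidHom.map_closure, Set.image_pair]
    refine isNilpotent_of_map_of_inf_ker_le (f := QuotientGroup.mk' (center G)) ?_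
    rw [QuotientGroup.ker_mk']
    exact inf_le_right.trans (center_le_centralizer _)


/-- In a finite group G the set of elements g such that the subgroup generated by g and x is nilpotent for every x ∈ G is exactly the hypercenter of G (the last term of the upper central series). -/
theorem result {G : Type*} [Group G] [Finite G] (g : G) :
    (∀ x : G, Group.IsNilpotent ↥(Subgroup.closure ({x, g} : Set G))) ↔ g ∈ ⨆ n : ℕ, Subgroup.upperCentralSeries G n := by
  constructor
  · intro h
    obtain ⟨n, hn⟩ := aux1 G g h
    exact Subgroup.mem_iSup_of_mem n hn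
  · intro h
    obtain ⟨n, hn⟩ := (Subgroup.mem_iSup_of_directed
      (Subgroup.upperCentralSeries_mono G).directed_le).1 h
    exact aux2 n G g hn

end Cfsg.Agent.S3939
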