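import Mathlib
import Cfsg.Statements.S3941
import Cfsg.Agent.Solv.Basic

set_option autoImplicit false
open Cfsg

namespace Cfsg.Agent.S3941

theorem aux (m p : ℕ) [Fact p.Prime] (hp : p ≠ 2) (hm : 4 ≤ m) (hpm : p ≤ m)
    (N : Subgroup (alternatingGroup (Fin m))) [hN : N.Normal] (h1 : IsPGroup p N) : p ∣ N.index := by
  have hpp : p.Prime := Fact.out
  haveI : Nontrivial (Fin m) := Fin.nontrivial_iff_two_le.mpr (by omega)
  have hc : 2 * Nat.card (alternatingGroup (Fin m)) = m.factorial := by
    rw [two_mul_nat_card_alternatingGroup, Nat.card_perm, Nat.card_fin]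
  have hd : p ∣ Nat.card (alternatingGroup (Fin m)) :=
    ((Nat.coprime_primes hpp Nat.prime_two).mpr hp).dvd_of_dvd_mul_left
      (hc ▸ Nat.dvd_factorial hpp.pos hpm)
  rcases hm.eq_or_lt with rfl | h5
  · have hp3 : p = 3 := by
      have := hpp.two_le
      interval_cases p
      · omega
      · rfl
      · norm_num at hpp
    subst hp3
    by_contra hi
    have key : ∀ x : alternatingGroup (Fin 4), x ^ 3 = 1 → x ∈ N := fun x hx =>
      CF.Solv.mem_of_coprime_index (Nat.Coprime.coprime_dvd_left (orderOf_dvd_of_pow_eq_one hx)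
        ((Nat.Prime.coprime_iff_not_dvd hpp).mpr hi))
    let a : alternatingGroup (Fin 4) := ⟨Equiv.swap 0 1 * Equiv.swap 1 2, Equiv.Perm.mem_alternatingGroup.mpr (by decide)⟩
    let b : alternatingGroup (Fin 4) := ⟨Equiv.swap 2 1 * Equiv.swap 2 3, Equiv.Perm.mem_alternatingGroup.mpr (by decide)⟩
    obtain ⟨k, hk⟩ := h1 ⟨a * b, N.mul_mem (key a (by decide)) (key b (by decide))⟩
    have h2 : (a * b) ^ 3 ^ k = 1 := congrArg Subtype.val hk
    have h3 : orderOf (a * b) = 2 := orderOf_eq_prime (by decide) (by decide)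
    have := orderOf_dvd_of_pow_eq_one h2
    rw [h3] at this
    have := Nat.prime_two.dvd_of_dvd_pow this
    omega
  · haveI := alternatingGroup.isSimpleGroup (α := Fin m) (by rw [Nat.card_fin]; omega)
    rcases hN.eq_bot_or_eq_top with rfl | rfl
    · rwa [Subgroup.index_bot]
    · exfalso
      obtain ⟨k, hk⟩ := h1.exists_card_eq
      rw [Subgroup.card_top] at hk
      have h2 : 2 * 2 ∣ m.factorial := Nat.dvd_factorial (by norm_num) hm
      rw [← hc, hk] at h2
      have := Nat.prime_two.dvd_of_dvd_pow (Nat.dvd_of_mul_dvd_mul_left two_pos h2)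
      exact hp ((Nat.prime_dvd_prime_iff_eq Nat.prime_two hpp).mp this).symm

/-- Let n ≥ 5 and p an odd prime with p ≤ n, and suppose that every proper subgroup of the alternating group of degree n whose order is divisible by p has a normal Sylow p-subgroup. Then n = p. -/
theorem result (n p : ℕ) (hn : 5 ≤ n) [Fact p.Prime] (hp : p ≠ 2) (hpn : p ≤ n)
    (h : ∀ H : Subgroup ↥(alternatingGroup (Fin n)), H ≠ ⊤ → p ∣ Nat.card ↥H → Cfsg.IsPClosed p ↥H) : n = p := by
  by_contra hne
  obtain ⟨m, rfl⟩ : ∃ m, n = m + 1 := ⟨n - 1, by omega⟩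
  have hpp : p.Prime := Fact.out
  let s : Finset (Fin (m + 1)) := Finset.univ.erase 0
  have hs : Fintype.card s = m := by simp [s]
  let f := (alternatingGroup.ofSubtype s).comp
    (Equiv.altCongrHom (Fintype.equivFinOfCardEq hs).symm).toMonoidHom
  have hf : Function.Injective f := alternatingGroup.ofSubtype_injective.comp (MulEquiv.injective _)
  let e := MonoidHom.ofInjective hf
  haveI : Nontrivial (Fin m) := Fin.nontrivial_iff_two_le.mpr (by omega)
  haveI : Nontrivial (Fin (m + 1)) := Fin.nontrivial_iff_two_le.mpr (by omega)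
  have hc : 2 * Nat.card f.range = m.factorial := by
    rw [← Nat.card_congr e.toEquiv, two_mul_nat_card_alternatingGroup, Nat.card_perm, Nat.card_fin]
  obtain ⟨P⟩ : Nonempty (Sylow p f.range) := inferInstance
  haveI := h f.range (by
    intro h
    rw [h, Subgroup.card_top, two_mul_nat_card_alternatingGroup, Nat.card_perm, Nat.card_fin,
      Nat.factorial_succ] at hc
    have := Nat.factorial_pos m
    nlinarith) (((Nat.coprime_primes hpp Nat.prime_two).mpr hp).dvd_of_dvd_mul_left
      (hc ▸ Nat.dvd_factorial hpp.pos (by omega))) P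
  have := aux m p hp (by omega) (by omega) ((P : Subgroup f.range).comap e.toMonoidHom)
    (P.isPGroup'.comap_of_injective _ e.injective)
  rw [Subgroup.index_comap_of_surjective (f := e.toMonoidHom) _ e.surjective] at this
  exact P.not_dvd_index this

end Cfsg.Agent.S3941
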