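import Cfsg.Statements.S3946
import Cfsg.Agent.SolvStr.Hughes

set_option autoImplicit false
open Cfsg

namespace Cfsg.Agent.S3946

/-- Call an automorphism α of order n of a group G splitting when x · α(x) · α²(x) ⋯ α^(n−1)(x) = 1 for every x ∈ G. A finite group admitting a splitting automorphism of prime order is nilpotent (this contains the case of a fixed-point-free automorphism of prime order). -/
theorem result {G : Type*} [Group G] [Finite G] (α : MulAut G) (hp : (orderOf α).Prime)
    (hsplit : ∀ x : G, (((List.range (orderOf α)).map (fun i : ℕ => (α ^ i) x)).prod = 1)) : Group.IsNilpotent G := by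
  open CF.BG SemidirectProduct in
  have : Finite (G ⋊[MonoidHom.id (MulAut G)] MulAut G) :=
    Finite.of_equiv _ SemidirectProduct.equivProd.symm
  have pw : ∀ (g : G) (n : ℕ), (inl g * inr α : G ⋊[MonoidHom.id (MulAut G)] MulAut G) ^ n =
      inl ((List.range n).map fun i : ℕ => (α ^ i) g).prod * inr (α ^ n) := by
    intro g n
    induction n with
    | zero => simp
    | succ n ih =>
      rw [pow_succ, ih, List.range_succ, List.map_append, List.prod_append, pow_succ]
      ext <;> simp [-map_pow]
  have := CF.SolvStr.kegel_nil (M := (inl : G →* G ⋊[MonoidHom.id (MulAut G)] MulAut G).range)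
    (x := inr α) hp (by
      rw [range_inl_eq_ker_rightHom]
      exact (normalIn_top.2 inferInstance).norm (Subgroup.mem_top _)) (by
      rintro _ ⟨g, rfl⟩
      rw [pw, hsplit, pow_orderOf_eq_one, map_one, map_one, one_mul])
  exact @Group.nilpotent_of_mulEquiv _ _ _ _ this (MonoidHom.ofInjective inl_injective).symm

end Cfsg.Agent.S3946
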