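import Mathlib
import Cfsg.Statements.S3947
import Cfsg.Agent.Solv.Crit

set_option autoImplicit false
open Cfsg

namespace Cfsg.Agent.S3947

open Subgroup CF.Solv CF.SolvStr
open scoped Pointwise

section
variable {G : Type*} [Group G]

/-- no proper normal subgroup of `K` contains `B` -/
def Gen (B K : Subgroup G) : Prop :=
  ∀ N, B ≤ N → N ≤ K → K ≤ normalizer (N : Set G) → K ≤ N

theorem Gen.le_of_sn {B H L K : Subgroup G} (h : Gen B H) (hBH : B ≤ H) (hBL : B ≤ L)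
    (hL : SN L K) (hHK : H ≤ K) : H ≤ L := by
  have h1 := hL.inf H
  rw [inf_eq_right.mpr hHK] at h1
  by_contra hne
  obtain ⟨Y, h2, h3, h4⟩ := h1.exists_last (fun e => hne (inf_eq_right.mp e))
  exact h3.not_ge (h Y ((le_inf hBL hBH).trans h2.le) h3.le h4)

theorem exists_gen [Finite G] {B K : Subgroup G} (hBK : B ≤ K) :
    ∃ H, B ≤ H ∧ SN H K ∧ Gen B H := by
  obtain ⟨H, -, hH⟩ := exists_minimal_le_of_wellFoundedLT
    (fun H : Subgroup G => B ≤ H ∧ SN H K) K ⟨hBK, SN.refl K⟩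
  exact ⟨H, hH.1.1, hH.1.2, fun N h1 h2 h3 =>
    hH.2 ⟨h1, (SN.of_le_normalizer h2 h3).trans hH.1.2⟩ h2⟩

theorem coatom_conj {V : Subgroup G} (hV : IsCoatom V) (g : G) :
    IsCoatom (MulAut.conj g • V) := by
  rw [conj_smul_eq_map]
  exact (OrderIso.isCoatom_iff (MulAut.conj g).mapSubgroup V).mpr hV

theorem sn_conj_iff {D V : Subgroup G} (g : G) :
    SN (MulAut.conj g • D) (MulAut.conj g • V) ↔ SN D V :=
  ⟨fun h => by simpa using h.smul g⁻¹, fun h => h.smul g⟩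

theorem conj_le_conj {D V : Subgroup G} (g : G) (h : D ≤ V) :
    MulAut.conj g • D ≤ MulAut.conj g • V := pointwise_smul_le_pointwise_smul_iff.mpr h

structure Ctx (C : Set (Subgroup G)) (k : ℕ) : Prop where
  conj : ∀ D ∈ C, ∀ g : G, MulAut.conj g • D ∈ C
  nn : ∀ D ∈ C, ∀ N : Subgroup G, D ≤ N → N.Normal → N = ⊤
  two : ∀ D ∈ C, ∀ D' ∈ C, ∀ V W : Subgroup G, IsCoatom V → IsCoatom W → D ≤ V → D' ≤ V →
    ¬ SN D V → ¬ SN D' V → D ≤ W → D' ≤ W → D ≠ D' → W = V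
  one : ∀ D ∈ C, ∀ V W : Subgroup G, IsCoatom V → IsCoatom W → D ≤ V → D ≤ W →
    ¬ SN D V → ¬ SN D W → V = W
  pos : 0 < k
  max : ∀ V W : Subgroup G, IsCoatom V → IsCoatom W → V ≠ W →
    {D ∈ C | D ≤ V ∧ D ≤ W}.ncard ≤ k

def Line (C : Set (Subgroup G)) (k : ℕ) (L : Set (Subgroup G)) : Prop :=
  L ⊆ C ∧ L.ncard = k ∧ ∃ V W : Subgroup G, IsCoatom V ∧ IsCoatom W ∧ V ≠ W ∧
    sSup L ≤ V ∧ sSup L ≤ W

def Flag (L : Set (Subgroup G)) (D V : Subgroup G) : Prop :=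
  D ∈ L ∧ IsCoatom V ∧ sSup L ≤ V ∧ ¬ SN D V

def Good (C : Set (Subgroup G)) (k : ℕ) (L : Set (Subgroup G)) (D V : Subgroup G) : Prop :=
  Flag L D V ∧ ∃ D', D' ≠ D ∧ Line C k (insert D' (L \ {D})) ∧ Flag (insert D' (L \ {D})) D' V

variable [Finite G] {C : Set (Subgroup G)} {k : ℕ} {L : Set (Subgroup G)}

theorem Ctx.mem (c : Ctx C k) (l : Line C k L) {X X' D : Subgroup G} (hX : IsCoatom X)
    (hX' : IsCoatom X') (hne : X ≠ X') (h1 : sSup L ≤ X) (h2 : sSup L ≤ X') (hD : D ∈ C)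
    (h3 : D ≤ X) (h4 : D ≤ X') : D ∈ L := by
  have : L = {D ∈ C | D ≤ X ∧ D ≤ X'} := Set.eq_of_subset_of_ncard_le
    (fun E hE => ⟨l.1 hE, (le_sSup hE).trans h1, (le_sSup hE).trans h2⟩)
    (l.2.1 ▸ c.max X X' hX hX' hne)
  rw [this]; exact ⟨hD, h3, h4⟩

theorem Ctx.mem_of_le (c : Ctx C k) (l : Line C k L) {D : Subgroup G} (hD : D ∈ C)
    (h : D ≤ sSup L) : D ∈ L := by
  obtain ⟨V, W, hV, hW, hne, h1, h2⟩ := l.2.2
  exact c.mem l hV hW hne h1 h2 hD (h.trans h1) (h.trans h2)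

theorem Ctx.norm_le (c : Ctx C k) {D V : Subgroup G} (hD : D ∈ C) (hV : IsCoatom V) (hDV : D ≤ V)
    (hn : ¬ SN D V) : normalizer (D : Set G) ≤ V := by
  intro g hg
  have e := conj_smul_eq_iff.mpr hg
  have h1 := c.one D hD _ _ (coatom_conj hV g) hV (e ▸ conj_le_conj g hDV) hDV
    (by rw [← e] at hn ⊢; rw [e]; nth_rw 1 [← e]; rw [sn_conj_iff]; rwa [e] at hn) hn
  have h2 := conj_smul_eq_iff.mp h1
  rcases hV.le_iff.mp (le_normalizer (H := V)) with h | h
  · exact absurd (c.nn D hD V hDV (normalizer_eq_top_iff.mp h)) hV.1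
  · rwa [h] at h2

theorem Ctx.flag_eq (c : Ctx C k) (l : Line C k L) {D D' V : Subgroup G} (f : Flag L D V)
    (hD' : D' ∈ L) (hn : ¬ SN D' V) : D' = D := by
  by_contra hne
  obtain ⟨X, W, hX, hW, hne', h1, h2⟩ := l.2.2
  have key : ∀ X, IsCoatom X → sSup L ≤ X → X = V := fun X hX h =>
    c.two D' (l.1 hD') D (l.1 f.1) V X f.2.1 hX ((le_sSup hD').trans f.2.2.1)
      ((le_sSup f.1).trans f.2.2.1) hn f.2.2.2 ((le_sSup hD').trans h) ((le_sSup f.1).trans h) hne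
  exact hne' ((key X hX h1).trans (key W hW h2).symm)

theorem Ctx.grow (c : Ctx C k) {S : Set (Subgroup G)} (hS : S ⊆ C) {V : Subgroup G}
    (h : ∀ D ∈ S, SN D V) : V ≤ normalizer ((sSup S : Subgroup G) : Set G) ∨
      ∃ D ∈ C, SN D V ∧ D ≤ normalizer ((sSup S : Subgroup G) : Set G) ∧ ¬ D ≤ sSup S := by
  rcases exists_conj_le_normalizer_of_sn (SN.sSup h) with h1 | ⟨x, hx, h1, h2⟩
  · exact Or.inl h1
  right
  by_contra hcon
  push Not at hcon
  apply h1
  apply mem_normalizer_of_conj_smul_le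
  rw [pointwise_smul_subset_iff]
  refine sSup_le fun D hD => ?_
  rw [← pointwise_smul_subset_iff]
  exact hcon _ (c.conj D (hS hD) x) ((h D hD).conj (le_normalizer hx))
    ((conj_le_conj x (le_sSup hD)).trans h2)

theorem Ctx.exists_coatom (c : Ctx C k) (l : Line C k L) :
    ∃ X, IsCoatom X ∧ normalizer ((sSup L : Subgroup G) : Set G) ≤ X := by
  obtain ⟨D, hD⟩ := Set.nonempty_of_ncard_ne_zero (s := L) (by rw [l.2.1]; exact c.pos.ne')
  obtain ⟨V, W, hV, hW, hne, h1, h2⟩ := l.2.2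
  refine (eq_top_or_exists_le_coatom _).resolve_left fun h => hV.1 ?_
  exact top_le_iff.mp ((c.nn D (l.1 hD) _ (le_sSup hD) (normalizer_eq_top_iff.mp h)).ge.trans h1)

theorem Ctx.exists_flag (c : Ctx C k) (l : Line C k L) {X V : Subgroup G} (hX : IsCoatom X)
    (hNX : normalizer ((sSup L : Subgroup G) : Set G) ≤ X) (hV : IsCoatom V) (hLV : sSup L ≤ V)
    (hne : V ≠ X) : ∃ D, Flag L D V := by
  by_contra hcon
  have h : ∀ D ∈ L, SN D V := fun D hD => by
    by_contra hn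
    exact hcon ⟨D, hD, hV, hLV, hn⟩
  rcases c.grow l.1 h with h1 | ⟨D, hD, h1, h2, h3⟩
  · exact (hV.le_iff.mp (h1.trans hNX)).symm.elim (fun e => hne e.symm) (fun e => hX.1 e)
  · exact h3 (le_sSup (c.mem l hV hX hne hLV (le_normalizer.trans hNX) hD h1.le (h2.trans hNX)))

theorem Ctx.good (c : Ctx C k) (l : Line C k L) {X V D : Subgroup G} (hX : IsCoatom X)
    (hNX : normalizer ((sSup L : Subgroup G) : Set G) ≤ X) (f : Flag L D V)
    (hne : V ≠ X) : Good C k L D V := by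
  refine ⟨f, ?_⟩
  have hsn : ∀ E ∈ L \ {D}, SN E V := fun E hE => by
    by_contra hn
    exact hE.2 (c.flag_eq l f hE.1 hn)
  have hJ : sSup (L \ {D}) ≤ sSup L := sSup_le_sSup Set.diff_subset
  by_cases hh : ∃ h ∈ V, h ∈ normalizer ((sSup (L \ {D}) : Subgroup G) : Set G) ∧
      MulAut.conj h • D ≠ D
  · obtain ⟨h, hV, hN, hD⟩ := hh
    have hn : ¬ SN (MulAut.conj h • D) V := fun h1 => f.2.2.2 (by
      simpa using h1.conj (le_normalizer (V.inv_mem hV)))
    have hle : ∀ W, sSup L ≤ W → sSup (insert (MulAut.conj h • D) (L \ {D})) ≤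
        MulAut.conj h • W := fun W hW => by
      rw [sSup_insert]
      refine sup_le (conj_le_conj h ((le_sSup f.1).trans hW)) ?_
      rw [← conj_smul_eq_iff.mpr hN]
      exact conj_le_conj h (hJ.trans hW)
    refine ⟨_, hD, ⟨?_, ?_, ?_⟩, Set.mem_insert _ _, f.2.1, ?_, hn⟩
    · rintro E (rfl | hE)
      · exact c.conj D (l.1 f.1) h
      · exact l.1 hE.1
    · rw [Set.ncard_insert_of_notMem (fun h1 => hn (hsn _ h1)), Set.ncard_diff_singleton_add_one f.1,
        l.2.1]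
    · obtain ⟨X, W, hX, hW, hne', h1, h2⟩ := l.2.2
      exact ⟨_, _, coatom_conj hX h, coatom_conj hW h, fun e => hne' (smul_left_cancel _ e),
        hle X h1, hle W h2⟩
    · have := hle V f.2.2.1
      rwa [conj_smul_eq_iff.mpr (le_normalizer hV)] at this
  · exfalso
    push Not at hh
    rcases c.grow (Set.diff_subset.trans l.1) hsn with h1 | ⟨E, hE, h1, h2, h3⟩
    · exact f.2.2.2 (SN.of_le_normalizer ((le_sSup f.1).trans f.2.2.1) fun g hg =>
        conj_smul_eq_iff.mp (hh g hg (h1 hg)))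
    · have h4 : E ≤ normalizer ((sSup L : Subgroup G) : Set G) := fun g hg => by
        have e : sSup L = D ⊔ sSup (L \ {D}) := by
          rw [← sSup_insert, Set.insert_diff_singleton, Set.insert_eq_of_mem f.1]
        rw [← conj_smul_eq_iff, e, smul_sup, hh g (h1.le hg) (h2 hg), conj_smul_eq_iff.mpr (h2 hg)]
      have h5 := c.mem l f.2.1 hX hne f.2.2.1 (le_normalizer.trans hNX) hE h1.le (h4.trans hNX)
      exact h3 (le_sSup ⟨h5, fun e => f.2.2.2 (by rwa [Set.mem_singleton_iff.mp e] at h1)⟩)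

theorem Ctx.two_good (c : Ctx C k) (l : Line C k L) :
    ∃ D V D' V', D ≠ D' ∧ Good C k L D V ∧ Good C k L D' V' := by
  obtain ⟨X, hX, hNX⟩ := c.exists_coatom l
  obtain ⟨V, hV, hLV, hne⟩ : ∃ V, IsCoatom V ∧ sSup L ≤ V ∧ V ≠ X := by
    obtain ⟨V, W, hV, hW, hne, h1, h2⟩ := l.2.2
    by_cases h : V = X
    · exact ⟨W, hW, h2, fun e => hne (h.trans e.symm)⟩
    · exact ⟨V, hV, h1, h⟩
  obtain ⟨D, f⟩ := c.exists_flag l hX hNX hV hLV hne
  by_cases hh : ∃ d ∈ normalizer ((sSup L : Subgroup G) : Set G), MulAut.conj d • D ≠ D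
  · obtain ⟨d, hd, hD⟩ := hh
    have e := conj_smul_eq_iff.mpr hd
    refine ⟨D, V, _, MulAut.conj d • V, hD.symm, c.good l hX hNX f hne, c.good l hX hNX
      ⟨c.mem_of_le l (c.conj D (l.1 f.1) d) (e ▸ conj_le_conj d (le_sSup f.1)), coatom_conj hV d,
        e ▸ conj_le_conj d hLV, by rw [sn_conj_iff]; exact f.2.2.2⟩ fun h => hne ?_⟩
    rw [← conj_smul_eq_iff.mpr (le_normalizer (hNX hd))] at h
    exact smul_left_cancel _ h
  · push Not at hh
    have hNV : normalizer ((sSup L : Subgroup G) : Set G) ≤ V := fun d hd =>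
      c.norm_le (l.1 f.1) hV ((le_sSup f.1).trans hLV) f.2.2.2 (conj_smul_eq_iff.mp (hh d hd))
    obtain ⟨D', f'⟩ := c.exists_flag l hV hNV hX (le_normalizer.trans hNX) hne.symm
    refine ⟨D, V, D', X, fun e => hne ?_, c.good l hX hNX f hne, c.good l hV hNV f' hne.symm⟩
    subst e
    exact c.one D (l.1 f.1) V X hV hX ((le_sSup f.1).trans hLV) ((le_sSup f.1).trans f'.2.2.1)
      f.2.2.2 f'.2.2.2

theorem Ctx.no_line (c : Ctx C k) (l : Line C k L) : False := by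
  let St := {s : Set (Subgroup G) × Subgroup G × Subgroup G // Line C k s.1 ∧ Flag s.1 s.2.1 s.2.2}
  have step : ∀ s : St, ∃ t : St, ∃ r, r ≠ s.1.2.1 ∧ Flag s.1.1 r t.1.2.2 ∧ t.1.2.1 ≠ r ∧
      t.1.1 = insert t.1.2.1 (s.1.1 \ {r}) := by
    rintro ⟨⟨L, a, V⟩, l, f⟩
    obtain ⟨r, W, hr, ⟨g, a', h1, h2, h3⟩⟩ : ∃ r W, r ≠ a ∧ Good C k L r W := by
      obtain ⟨D, V, D', V', hne, g, g'⟩ := c.two_good l
      by_cases h : D = a
      · exact ⟨D', V', fun e => hne (h.trans e.symm), g'⟩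
      · exact ⟨D, V, h, g⟩
    exact ⟨⟨⟨_, a', W⟩, h2, h3⟩, r, hr, g, h1, rfl⟩
  choose nx r h1 h2 h3 h4 using step
  obtain ⟨D, V, -, -, -, g, -⟩ := c.two_good l
  let s0 : St := ⟨⟨L, D, V⟩, l, g.1⟩
  have new : ∀ s : St, (nx s).1.2.1 ∉ s.1.1 := fun s h =>
    h3 s (c.flag_eq s.2.1 (h2 s) h (nx s).2.2.2.2.2)
  have key : ∀ t : ℕ, ∀ s : St, s.1.2.1 ∈ (nx^[t] s).1.1 := by
    intro t
    induction t using Nat.strong_induction_on with
    | _ t ih =>
    intro s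
    rcases t with _ | t
    · exact s.2.2.1
    rw [Function.iterate_succ_apply', h4]
    refine Or.inr ⟨ih t (Nat.lt_succ_self t) s, fun e => ?_⟩
    replace e : s.1.2.1 = r (nx^[t] s) := e
    rcases t with _ | t
    · exact h1 s e.symm
    have a1 := ih t (by omega) (nx s)
    rw [← Function.iterate_succ_apply] at a1
    have f := h2 (nx^[t + 1] s)
    rw [← e] at f
    have hC := s.2.1.1 s.2.2.1
    have a2 := c.one _ hC _ _ f.2.1 s.2.2.2.1 ((le_sSup f.1).trans f.2.2.1)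
      ((le_sSup s.2.2.1).trans s.2.2.2.2.1) f.2.2.2 s.2.2.2.2.2
    refine new s (c.mem s.2.1 s.2.2.2.1 (h2 s).2.1 (fun e' => h1 s ?_) s.2.2.2.2.1 (h2 s).2.2.1
      ((nx s).2.1.1 (nx s).2.2.1) (a2 ▸ (le_sSup a1).trans f.2.2.1)
      ((le_sSup (nx s).2.2.1).trans (nx s).2.2.2.2.1))
    exact c.flag_eq s.2.1 s.2.2 (h2 s).1 (e' ▸ (h2 s).2.2.2)
  obtain ⟨i, j, hij, e⟩ := Finite.exists_ne_map_eq_of_infinite fun n : ℕ => (nx^[n] s0).1.2.1
  wlog hlt : i < j generalizing i j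
  · exact this j i hij.symm e.symm (by omega)
  obtain ⟨t, rfl⟩ := Nat.exists_eq_add_of_lt hlt
  have a := key t (nx^[i] s0)
  rw [← Function.iterate_add_apply, add_comm t i] at a
  refine new (nx^[i + t] s0) ?_
  rw [← Function.iterate_succ_apply' nx]
  exact e ▸ a

theorem main (n : ℕ) : ∀ A M : Subgroup G, A.index = n → (∀ N : Subgroup G, A ≤ N → N.Normal → N = ⊤) →
    IsCoatom M → (∀ H, A ≤ H → H ≠ ⊤ → Gen A H → H ≤ M) → ∀ N, IsCoatom N → A ≤ N → N = M := by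
  induction n using Nat.strong_induction_on with
  | _ n ih =>
  intro A M hn hA hM hY N0 hN0 hAN0
  by_contra hne0
  have hAM : A ≤ M := hY A le_rfl (fun e => hN0.1 (top_le_iff.mp (e ▸ hAN0))) fun N h _ _ => h
  have s1 : ∀ N, IsCoatom N → A ≤ N → ¬ SN A N → N = M := by
    intro N hN hAN hsn
    obtain ⟨H, h1, h2, h3⟩ := exists_gen hAN
    have hlt : A < H := lt_of_le_of_ne h1 fun e => hsn (e ▸ h2)
    refine ih H.index (hn ▸ index_strictAnti hlt) H M rfl (fun K h => hA K (h1.trans h)) hM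
      (fun K hK hK' hg => hY K (h1.trans hK) hK' fun L a b d => hg L ?_ b d) N hN h2.le
    exact h3.le_of_sn h1 a (SN.of_le_normalizer b d) hK
  let C : Set (Subgroup G) := {D | ∃ g : G, D = MulAut.conj g • A}
  have hnn : ∀ D ∈ C, ∀ N : Subgroup G, D ≤ N → N.Normal → N = ⊤ := by
    rintro _ ⟨g, rfl⟩ N h hN
    refine hA N ?_ hN
    simpa using conj_smul_le_of_mem_normalizer h (g := g⁻¹) (by rw [normalizer_eq_top]; trivial)
  have hone : ∀ D ∈ C, ∀ V W : Subgroup G, IsCoatom V → IsCoatom W → D ≤ V → D ≤ W →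
      ¬ SN D V → ¬ SN D W → V = W := by
    rintro _ ⟨g, rfl⟩ V W hV hW h1 h2 h3 h4
    have key : ∀ V, IsCoatom V → MulAut.conj g • A ≤ V → ¬ SN (MulAut.conj g • A) V →
        MulAut.conj g⁻¹ • V = M := fun V hV h1 h3 =>
      s1 _ (coatom_conj hV _) (by simpa using conj_le_conj g⁻¹ h1) fun h => h3 (by
        simpa using h.smul g)
    exact smul_left_cancel _ ((key V hV h1 h3).trans (key W hW h2 h4).symm)
  obtain ⟨⟨V0, W0⟩, ⟨hV0, hW0, hVW⟩, hmax⟩ := Set.exists_max_image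
    {p : Subgroup G × Subgroup G | IsCoatom p.1 ∧ IsCoatom p.2 ∧ p.1 ≠ p.2}
    (fun p => {D ∈ C | D ≤ p.1 ∧ D ≤ p.2}.ncard) (Set.toFinite _) ⟨(N0, M), hN0, hM, hne0⟩
  have c : Ctx C {D ∈ C | D ≤ V0 ∧ D ≤ W0}.ncard := by
    refine ⟨?_, hnn, ?_, hone, ?_, fun V W hV hW h => hmax (V, W) ⟨hV, hW, h⟩⟩
    · rintro _ ⟨g, rfl⟩ h
      exact ⟨h * g, conj_smul_conj_smul _ _ _⟩
    · intro D hD D' hD' V W hV hW h1 h2 h3 h4 h5 h6 hne
      have hi : ∀ D ∈ C, D.index = n := by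
        rintro _ ⟨g, rfl⟩
        rw [conj_smul_eq_map, ← hn]
        exact index_map_equiv A (MulAut.conj g)
      have hlt : D < D ⊔ D' := by
        refine lt_of_le_of_ne le_sup_left fun e => hne ?_
        have h7 : D' ≤ D := e ▸ le_sup_right
        by_contra h8
        have := index_strictAnti (lt_of_le_of_ne h7 (Ne.symm h8))
        rw [hi D hD, hi D' hD'] at this
        exact lt_irrefl _ this
      refine ih _ (hi D hD ▸ index_strictAnti hlt) (D ⊔ D') V rfl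
        (fun N h => hnn D hD N (le_sup_left.trans h)) hV (fun K hK hK' hg => ?_) W hW (sup_le h5 h6)
      obtain ⟨X, hX, hKX⟩ := (eq_top_or_exists_le_coatom K).resolve_left hK'
      by_cases hXV : X = V
      · exact hXV ▸ hKX
      have a1 : SN D X := by
        by_contra h
        exact hXV (hone D hD X V hX hV (le_sup_left.trans (hK.trans hKX)) h1 h h3)
      have a2 : SN D' X := by
        by_contra h
        exact hXV (hone D' hD' X V hX hV (le_sup_right.trans (hK.trans hKX)) h2 h h4)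
      exact (hg.le_of_sn hK le_rfl (a1.sup a2) hKX).trans (sup_le h1 h2)
    · refine lt_of_lt_of_le ?_ (hmax (N0, M) ⟨hN0, hM, hne0⟩)
      exact (Set.ncard_pos (Set.toFinite _)).mpr ⟨A, ⟨1, by simp⟩, hAN0, hAM⟩
  exact c.no_line (L := {D ∈ C | D ≤ V0 ∧ D ≤ W0}) ⟨fun D h => h.1, rfl, V0, W0, hV0, hW0, hVW,
    sSup_le fun D h => h.2.1, sSup_le fun D h => h.2.2⟩

end

/-- Let G be a finite group and A a proper subgroup of G whose normal closure is G. Let Y be the join of all proper subgroups H of G that contain A and are generated by their own conjugates of A (the normal closure of A in H is H). Then either Y = G, or A is contained in exactly one maximal subgroup of G. -/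
theorem result {G : Type*} [Group G] [Finite G] (A : Subgroup G) (hA : Subgroup.normalClosure (A : Set G) = ⊤) (hAG : A ≠ ⊤) :
    sSup {H : Subgroup G | A ≤ H ∧ H ≠ ⊤ ∧ Subgroup.normalClosure ((A.subgroupOf H : Subgroup ↥H) : Set ↥H) = ⊤} = ⊤ ∨
      ∃! M : Subgroup G, IsCoatom M ∧ A ≤ M := by
  refine (eq_top_or_exists_le_coatom _).imp_right ?_
  rintro ⟨M, hM, hle⟩
  have key : ∀ H, A ≤ H → H ≠ ⊤ → Gen A H → H ≤ M := by
    intro H h1 h2 h3
    refine le_trans (le_sSup ?_) hle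
    refine ⟨h1, h2, ?_⟩
    have h4 := h3 ((Subgroup.normalClosure ((A.subgroupOf H : Subgroup ↥H) : Set ↥H)).map H.subtype)
      (fun a ha => ⟨⟨a, h1 ha⟩, Subgroup.subset_normalClosure ha, rfl⟩) (map_subtype_le _)
      (by
        have := Subgroup.le_normalizer_map (H := Subgroup.normalClosure
          ((A.subgroupOf H : Subgroup ↥H) : Set ↥H)) H.subtype
        rwa [normalizer_eq_top, ← MonoidHom.range_eq_map, range_subtype] at this)
    rw [eq_top_iff]
    intro x _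
    obtain ⟨y, hy, e⟩ := h4 x.2
    rwa [← Subtype.ext e]
  refine ⟨M, ⟨hM, key A le_rfl hAG fun N h _ _ => h⟩, fun N hN => ?_⟩
  exact main _ A M rfl (fun N h hN => top_le_iff.mp (hA ▸ Subgroup.normalClosure_le_normal h)) hM key
    N hN.1 hN.2

end Cfsg.Agent.S3947
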