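import Mathlib
import Cfsg.Statements.S3949
import Cfsg.Agent.Solv.Basic

set_option autoImplicit false
open Cfsg

namespace Cfsg.Agent.S3949


/-- Let G be a finite group and α an automorphism of G of order 2 such that the elements g·α(g)⁻¹ generate G. Let j be a positive integer such that 2^j divides the order of no element inverted by α. Then the set of values of the j-th iterate of the map c ↦ c·α(c)⁻¹ is exactly the set of elements of odd order inverted by α. -/
theorem result {G : Type*} [Group G] [Finite G] (α : MulAut G) (hα : orderOf α = 2) (hG : Subgroup.closure (Set.range (fun c : G => c * (α c)⁻¹)) = ⊤)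
    (j : ℕ) (hj : ∀ g : G, α g = g⁻¹ → ¬ 2 ^ j ∣ orderOf g) :
    Set.range ((fun c : G => c * (α c)⁻¹)^[j]) = {g : G | Odd (orderOf g) ∧ α g = g⁻¹} := by
  have h2 : ∀ c, α (α c) = c := by
    intro c
    have := pow_orderOf_eq_one α
    rw [hα, sq] at this
    exact congrArg (fun β : MulAut G => β c) this
  have hit : ∀ k : ℕ, ∀ g : G, α g = g⁻¹ → (fun c : G => c * (α c)⁻¹)^[k] g = g ^ 2 ^ k := by
    intro k g hg
    induction k with
    | zero => simp
    | succ k ih =>
      rw [Function.iterate_succ_apply', ih, map_pow, hg, inv_pow, inv_inv, pow_succ, pow_mul, sq]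
  obtain ⟨k, rfl⟩ : ∃ k, j = k + 1 := by
    refine Nat.exists_eq_succ_of_ne_zero ?_
    rintro rfl
    exact hj 1 (by simp) (by simp)
  ext g
  constructor
  · rintro ⟨c, rfl⟩
    have hc : α (c * (α c)⁻¹) = (c * (α c)⁻¹)⁻¹ := by simp [h2]
    rw [Function.iterate_succ_apply, hit k _ hc]
    refine ⟨?_, by rw [map_pow, hc, inv_pow]⟩
    have h3 := hj _ hc
    generalize c * (α c)⁻¹ = x at h3
    obtain ⟨i, m, hm, h⟩ := Nat.exists_eq_two_pow_mul_odd (orderOf_pos x).ne'
    have hik : i ≤ k := by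
      by_contra hh
      exact h3 (h ▸ Dvd.dvd.mul_right (pow_dvd_pow 2 (by omega)) m)
    refine Odd.of_dvd_nat hm (orderOf_dvd_of_pow_eq_one ?_)
    rw [← pow_mul, ← orderOf_dvd_iff_pow_eq_one, h]
    exact Nat.mul_dvd_mul_right (pow_dvd_pow 2 hik) m
  · rintro ⟨ho, hg⟩
    obtain ⟨m, hm⟩ := exists_pow_eq_self_of_coprime (x := g) (n := 2 ^ (k + 1))
      (Nat.Coprime.pow_left _ (Nat.coprime_two_left.mpr ho))
    refine ⟨g ^ m, ?_⟩
    rw [hit _ _ (by rw [map_pow, hg, inv_pow]), ← pow_mul, mul_comm, pow_mul, hm]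

end Cfsg.Agent.S3949
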