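import Cfsg.Statements.S3982
import Cfsg.Agent.BG.B11

set_option autoImplicit false
open Cfsg

namespace Cfsg.Agent.S3982

open CF.BG Subgroup


/-- Let p be an odd prime and G a finite group of even order divisible by p in which the centralizer of every non-identity p-element has odd order. If some nontrivial p-subgroup of G has a normalizer of even order, then the normalizer of every Sylow p-subgroup of G has even order. -/
theorem result {G : Type*} [Group G] [Finite G] (p : ℕ) [Fact p.Prime] (hp2 : p ≠ 2) (hpG : p ∣ Nat.card G) (h2G : 2 ∣ Nat.card G) (hC : ∀ g : G, g ≠ 1 → (∃ k : ℕ, orderOf g = p ^ k) → Odd (Nat.card ↥(Subgroup.centralizer ({g} : Set G)))) (Q : Subgroup G) (hQ : IsPGroup p ↥Q) (hQ1 : Q ≠ ⊥) (hev : Even (Nat.card ↥(Subgroup.normalizer (Q : Set G)))) (P : Sylow p G) : Even (Nat.card ↥(Subgroup.normalizer ((P : Subgroup G) : Set G))) := by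
  have hp : p.Prime := Fact.out
  have hQ' : PiGrp {p} Q := piGrp_of_isPGroup hp hQ
  obtain ⟨y, hyQ, hy⟩ := exists_mem_orderOf_eq Nat.prime_two hev.two_dvd
  obtain ⟨R, hQR, ⟨hR, hyR⟩, hmax⟩ :=
    exists_maximal (P := fun R : Subgroup G => PiGrp {p} R ∧ y ∈ 𝐍 R) ⟨hQ', hyQ⟩
  have hR1 : R ≠ ⊥ := ne_bot_mono hQ1 hQR
  have hodd : ∀ g ∈ R, g ≠ 1 → Odd (♯(𝐂₁ g)) := fun g hg hg1 =>
    hC g hg1 ((hR.elt hg).exists_pow (orderOf_pos g).ne')
  have hinv : ∀ t, orderOf t = 2 → t ∈ 𝐍 R → ∀ k ∈ R, t * k * t⁻¹ = k⁻¹ := by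
    intro t ht htR k hk
    refine CF.Coprime.fpf_conj_eq_inv htR ?_ ?_ hk
    · rw [CF.Coprime.fpf_iff]
      intro x hx hc
      by_contra h1
      have h2 : t ∈ 𝐂₁ x := mem_cent1.2 hc
      have := orderOf_dvd_card' h2
      rw [ht] at this
      exact (Nat.not_even_iff_odd.2 (hodd x hx h1)) (even_iff_two_dvd.2 this)
    · rw [← ht, pow_orderOf_eq_one]; exact one_mem _
  have hCodd : Odd (♯(𝐂 R)) := by
    obtain ⟨g, hg, hg1⟩ := exists_mem_ne_one hR1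
    exact odd_mono (hodd g hg hg1) (cent_le_cent1 hg)
  obtain ⟨S, hS⟩ := exists_syl p (𝐍 R)
  have hRS : R ≤ S := hS.le_of_normal (normalIn_norm R) hR
  have hSC : S ≤ 𝐍 (𝐂 R) := norm_cent hS.le
  have hyT : zpowers y ≤ 𝐍 (𝐂 R ⊔ S) := by
    rw [zpowers_le]
    apply mem_norm_of_cj_le
    rw [cj_sup, cj_of_norm (norm_le_norm_cent R hyR)]
    refine sup_le le_sup_left ?_
    intro x hx
    obtain ⟨s, hs, rfl⟩ := mem_cj_iff.1 hx
    have hsN : s ∈ 𝐍 R := hS.le hs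
    have h1 : y * (s * y * s⁻¹)⁻¹ ∈ 𝐂 R := by
      rw [mem_cent]
      intro k hk
      have a := hinv (s * y * s⁻¹) (by rw [orderOf_conj', hy])
        (mul_mem (mul_mem hsN hyR) (inv_mem hsN))
      have b := hinv y hy hyR
      set t := s * y * s⁻¹
      have a1 : t⁻¹ * k * t = k⁻¹ := by
        have := a k⁻¹ (inv_mem hk)
        rw [inv_inv] at this
        calc t⁻¹ * k * t = t⁻¹ * (t * k⁻¹ * t⁻¹) * t := by rw [this]
          _ = k⁻¹ := by group
      have b1 : y * k⁻¹ * y⁻¹ = k := by rw [b _ (inv_mem hk), inv_inv]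
      calc k * (y * t⁻¹) = (y * k⁻¹ * y⁻¹) * (y * t⁻¹) := by rw [b1]
        _ = y * k⁻¹ * t⁻¹ := by group
        _ = y * (t⁻¹ * k * t) * t⁻¹ := by rw [a1]
        _ = y * t⁻¹ * k := by group
    have : y * s * y⁻¹ = (y * (s * y * s⁻¹)⁻¹) * s := by group
    rw [this]
    exact mul_mem (mem_sup_left h1) (mem_sup_right hs)
  have hSodd : Odd (♯S) := by
    obtain ⟨k, hk⟩ := hS.pi.card_pow
    rw [hk]; exact (hp.odd_of_ne_two hp2).pow
  have hTodd : Odd (♯(𝐂 R ⊔ S)) :=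
    (hCodd.mul hSodd).of_dvd_nat (card_sup_dvd (Or.inr hSC))
  obtain ⟨P₁, hP₁, hyP₁, hRP₁⟩ := exists_syl_inv_le (p := p) hyT
    (by rw [Nat.card_zpowers, hy]; exact Nat.coprime_two_left.2 hTodd)
    (Or.inl (cyc_zpowers y).sol) (hRS.trans le_sup_right) hR (zpowers_le.2 hyR)
  have e1 : P₁ = R := hmax P₁ ⟨hP₁.pi, hyP₁ (mem_zpowers y)⟩ hRP₁
  subst e1
  have e2 : P₁ = S := hP₁.eq_of_le hRS le_sup_right hS.pi
  have hsyl : Syl p P₁ ⊤ := syl_of_syl_norm le_top (by rw [top_inf_eq]; exact e2 ▸ hS)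
  obtain ⟨g, -, hg⟩ := hsyl.syl_conj (syl_sylow_top P)
  rw [hg, ← cj_norm, card_cj, even_iff_two_dvd, ← hy]
  exact orderOf_dvd_card' hyR

end Cfsg.Agent.S3982
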