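import Cfsg.Statements.S3983
import Cfsg.Agent.SolvStr.Misc1

set_option autoImplicit false
open scoped Pointwise
open Cfsg

namespace Cfsg.Agent.S3983

/-- Let P be a Sylow p-subgroup of the finite group G that meets each conjugate g P g⁻¹ with g outside N_G(P) trivially, and let U be a subgroup of G of order divisible by p. Then a Sylow p-subgroup Q of U has the same property inside U: Q meets each conjugate u Q u⁻¹ with u ∈ U outside N_U(Q) trivially. -/
theorem result {G : Type*} [Group G] [Finite G] (p : ℕ) [Fact p.Prime] (P : Sylow p G) (hTI : ∀ g : G, g ∉ Subgroup.normalizer ((P : Subgroup G) : Set G) → (P : Subgroup G) ⊓ (MulAut.conj g • (P : Subgroup G)) = ⊥) (U : Subgroup G) (hU : p ∣ Nat.card ↥U) (Q : Sylow p ↥U) : ∀ u : ↥U, u ∉ Subgroup.normalizer ((Q : Subgroup ↥U) : Set ↥U) → (Q : Subgroup ↥U) ⊓ (MulAut.conj u • (Q : Subgroup ↥U)) = ⊥ := by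
  open CF.Transfer CF.SolvStr in
  intro u hu
  by_contra hne
  apply hu
  obtain ⟨S, hS⟩ := (isSylowIn_map_sylow Q).exists_sylow_inf_eq
  have hQ : (Q : Subgroup U) = (S : Subgroup G).subgroupOf U := by
    rw [← Subgroup.inf_subgroupOf_right, hS]
    exact (Subgroup.comap_map_eq_self_of_injective U.subtype_injective _).symm
  have h1 : (S : Subgroup G) = cj (u : G) S := by
    refine ti_of_ne hTI (isSylowIn_top S) ((isSylowIn_top S).cj_of_mem trivial) fun h => hne ?_
    rw [conj_smul_eq_cj, hQ, cj_subgroupOf, ← Subgroup.bot_subgroupOf, ← h]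
    rfl
  rw [mem_normalizer_iff_cj, hQ, cj_subgroupOf, ← h1]

end Cfsg.Agent.S3983
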