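import Cfsg.Statements.S3984
import Cfsg.Agent.SolvStr.Misc1

set_option autoImplicit false
open scoped Pointwise
open Cfsg

namespace Cfsg.Agent.S3984

/-- Let P be a Sylow p-subgroup of the finite group G that meets each conjugate g P g⁻¹ with g outside N_G(P) trivially, and let N be a normal subgroup of G of order prime to p. Then every Sylow p-subgroup Q of G ⧸ N meets each conjugate x Q x⁻¹ with x outside its normalizer trivially. -/
theorem result {G : Type*} [Group G] [Finite G] (p : ℕ) [Fact p.Prime] (P : Sylow p G) (hTI : ∀ g : G, g ∉ Subgroup.normalizer ((P : Subgroup G) : Set G) → (P : Subgroup G) ⊓ (MulAut.conj g • (P : Subgroup G)) = ⊥) (N : Subgroup G) [N.Normal] (hN : (Nat.card ↥N).Coprime p) (Q : Sylow p (G ⧸ N)) : ∀ x : G ⧸ N, x ∉ Subgroup.normalizer ((Q : Subgroup (G ⧸ N)) : Set (G ⧸ N)) → (Q : Subgroup (G ⧸ N)) ⊓ (MulAut.conj x • (Q : Subgroup (G ⧸ N))) = ⊥ := by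
  open CF.Transfer CF.SolvStr CF.Solv in
  intro x hx
  by_contra hne
  apply hx
  have hs := QuotientGroup.mk'_surjective N
  obtain ⟨g, rfl⟩ := hs x
  -- `Q` is the image of a Sylow subgroup
  obtain ⟨S, hS, hSQ⟩ : ∃ S : Subgroup G, IsSylowIn p S ⊤ ∧
      S.map (QuotientGroup.mk' N) = (Q : Subgroup (G ⧸ N)) := by
    have h1 := (isSylowIn_top P).map (QuotientGroup.mk' N)
    rw [Subgroup.map_top_of_surjective _ hs] at h1
    obtain ⟨a, -, ha⟩ := h1.exists_cj_eq (isSylowIn_top Q)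
    obtain ⟨a, rfl⟩ := hs a
    exact ⟨cj a P, (isSylowIn_top P).cj_of_mem trivial, by rw [map_cj, ha]⟩
  have hT : IsSylowIn p (cj g S) ⊤ := hS.cj_of_mem trivial
  rw [conj_smul_eq_cj, ← hSQ, ← map_cj] at hne
  obtain ⟨y, ⟨⟨s, hsS, rfl⟩, t, htT, hts⟩, hy1⟩ := (Subgroup.bot_or_exists_ne_one _).resolve_left hne
  have key : ∀ (z : G) (R : Subgroup G), IsPGroup p R → z ∈ R →
      IsSylowIn p (Subgroup.zpowers z) (Subgroup.zpowers z ⊔ N) := by
    intro z R hR hz
    refine isSylowIn_iff.2 ⟨le_sup_left, hR.to_le (Subgroup.zpowers_le.2 hz), fun h => ?_⟩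
    rw [relIndex_sup_eq_relIndex_of_le_normalizer Subgroup.le_normalizer_of_normal] at h
    exact (Nat.Prime.coprime_iff_not_dvd Fact.out).1 hN.symm
      (h.trans (Subgroup.relIndex_dvd_card _ _))
  have he : Subgroup.zpowers t ⊔ N = Subgroup.zpowers s ⊔ N := by
    rw [← comap_map_mk', ← comap_map_mk', MonoidHom.map_zpowers, MonoidHom.map_zpowers, hts]
  obtain ⟨d, hd, hde⟩ := (key t _ hT.isPGroup htT).exists_cj_eq (he ▸ key s _ hS.isPGroup hsS)
  have h1 : S = cj d (cj g S) := by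
    refine ti_of_ne hTI hS (hT.cj_of_mem trivial) fun h => hy1 ?_
    have : s ∈ S ⊓ cj d (cj g S) :=
      ⟨hsS, cj_mono d (Subgroup.zpowers_le.2 htT) (hde ▸ Subgroup.mem_zpowers s)⟩
    rw [h, Subgroup.mem_bot] at this
    rw [this, map_one]
  have hd' : QuotientGroup.mk' N d ∈ (cj g S).map (QuotientGroup.mk' N) := by
    have : d ∈ cj g S ⊔ N := sup_le_sup_right (Subgroup.zpowers_le.2 htT) N hd
    rwa [← comap_map_mk'] at this
  have h2 := congrArg (Subgroup.map (QuotientGroup.mk' N)) h1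
  rw [map_cj, cj_eq_of_mem hd', map_cj, hSQ] at h2
  exact mem_normalizer_iff_cj.2 h2.symm

end Cfsg.Agent.S3984
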