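import Cfsg.Statements.S3985
import Cfsg.Agent.SolvStr.Misc1

set_option autoImplicit false
open scoped Pointwise
open Cfsg

namespace Cfsg.Agent.S3985

/-- Let P be a cyclic Sylow p-subgroup of the finite group G. Then P meets each conjugate g P g⁻¹ with g outside N_G(P) trivially if and only if P is weakly self-centralizing: C_G(x) = C_G(P) for every non-identity x ∈ P. -/
theorem result {G : Type*} [Group G] [Finite G] (p : ℕ) [Fact p.Prime] (P : Sylow p G) (hcyc : IsCyclic ↥(P : Subgroup G)) : (∀ g : G, g ∉ Subgroup.normalizer ((P : Subgroup G) : Set G) → (P : Subgroup G) ⊓ (MulAut.conj g • (P : Subgroup G)) = ⊥) ↔ ∀ x : G, x ∈ (P : Subgroup G) → x ≠ 1 → Subgroup.centralizer ({x} : Set G) = Subgroup.centralizer ((P : Subgroup G) : Set G) := by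
  open CF.Transfer CF.SolvStr CF.Solv in
  constructor
  · intro hTI x hx hx1
    refine le_antisymm (fun g hg => ?_)
      (Subgroup.centralizer_le (Set.singleton_subset_iff.2 hx))
    have hgx : g * x = x * g := ((Subgroup.mem_centralizer_iff.1 hg) x rfl).symm
    have hN : g ∈ Subgroup.normalizer ((P : Subgroup G) : Set G) := by
      by_contra h
      have : x ∈ (P : Subgroup G) ⊓ (MulAut.conj g • (P : Subgroup G)) := by
        refine ⟨hx, CF.Solv.mem_conj_smul_iff.2 ?_⟩
        rw [mul_assoc, ← hgx, inv_mul_cancel_left]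
        exact hx
      rw [hTI g h] at this
      exact hx1 this
    obtain ⟨y, hy, z, hz, ⟨k, hk⟩, hzc, rfl, -⟩ :=
      exists_pPart_pPrimePart (p := p) (isOfFinOrder_of_finite g)
    have hyP : y ∈ (P : Subgroup G) :=
      (isSylowIn_top P).le_of_le_normalizer (isPGroup_zpowers hk) le_top
        (Subgroup.zpowers_le.2 (Subgroup.zpowers_le.2 hN hy)) (Subgroup.mem_zpowers y)
    refine Subgroup.mul_mem _ (Subgroup.le_centralizer _ hyP) ?_
    refine le_centralizer_of_cyclic_of_fixed (A := Subgroup.zpowers z) P.isPGroup'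
      (Subgroup.zpowers_le.2 (Subgroup.zpowers_le.2 hN hz)) ?_ ?_ (Subgroup.mem_zpowers z)
    · rw [Nat.card_zpowers]
      exact (coprime_card_of_isPGroup P.isPGroup' hzc).symm
    · intro h
      have : x ∈ (P : Subgroup G) ⊓ Subgroup.centralizer (Subgroup.zpowers z : Set G) := by
        refine ⟨hx, fun w hw => ?_⟩
        exact ((Subgroup.zpowers_le.2 (Subgroup.zpowers_le.2 hg hz) hw) x rfl).symm
      rw [h] at this
      exact hx1 this
  · intro h g hg
    by_contra hne
    apply hg
    obtain ⟨x, ⟨hx, hxg⟩, hx1⟩ := (Subgroup.bot_or_exists_ne_one _).resolve_left hne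
    replace hxg := CF.Solv.mem_conj_smul_iff.1 hxg
    have h1 : g⁻¹ * x * g ≠ 1 := fun e => hx1 (by
      calc x = g * (g⁻¹ * x * g) * g⁻¹ := by group
        _ = 1 := by rw [e]; group)
    have h2 : cj g (P : Subgroup G) ≤ Subgroup.centralizer ((P : Subgroup G) : Set G) := by
      rw [← h x hx hx1, cj_le_iff_forall]
      intro a ha w hw
      rw [Set.mem_singleton_iff.1 hw]
      have := mul_comm_of_mem ha hxg
      calc x * (g * a * g⁻¹) = g * ((g⁻¹ * x * g) * a) * g⁻¹ := by group
        _ = _ := by rw [← this]; group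
    exact mem_normalizer_of_cj_le ((isSylowIn_top P).le_of_le_normalizer
      (isPGroup_cj P.isPGroup' g) le_top (h2.trans (Subgroup.centralizer_le_normalizer _)))

end Cfsg.Agent.S3985
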