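import Cfsg.Statements.S3986
import Cfsg.Agent.SolvStr.Misc1

set_option autoImplicit false
open Cfsg

namespace Cfsg.Agent.S3986

/-- Let p be a prime and G a finite group. Then some Sylow p-subgroup of G is a direct factor of G (it is normal and has a normal complement) if and only if every element of p-power order commutes with every element whose order is a power of a prime other than p. -/
theorem result {G : Type*} [Group G] [Finite G] (p : ℕ) [Fact p.Prime] : (∃ (P : Sylow p G) (K : Subgroup G), (P : Subgroup G).Normal ∧ K.Normal ∧ (P : Subgroup G) ⊓ K = ⊥ ∧ (P : Subgroup G) ⊔ K = ⊤) ↔ ∀ x y : G, (∃ a : ℕ, orderOf x = p ^ a) → (∃ q b : ℕ, q.Prime ∧ q ≠ p ∧ orderOf y = q ^ b) → x * y = y * x := by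
  open CF.Transfer CF.SolvStr CF.Solv in
  refine ⟨?_, exists_direct_of_commute⟩
  rintro ⟨P, K, hP, hK, h1, h2⟩ x y ⟨a, ha⟩ ⟨q, b, hq, hqp, hb⟩
  exact CF.SolvStr.commute_of_normal_inf_bot h1 (CF.SolvStr.mem_of_pElt_of_normal_sylow P ha)
    (CF.SolvStr.mem_of_direct h1 h2 hq hqp hb)

end Cfsg.Agent.S3986
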