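import Cfsg.Statements.S3987
import Cfsg.Agent.SolvStr.Misc1

set_option autoImplicit false
open Cfsg

namespace Cfsg.Agent.S3987

/-- Let p be a prime and G a finite group. Then some Sylow p-subgroup of G is a direct factor of G (normal with a normal complement) if and only if for every element x of p-power order and every element y whose order is a power of a prime other than p, the conjugacy class of x y has as many elements as the product of the sizes of the classes of x and of y. -/
theorem result {G : Type*} [Group G] [Finite G] (p : ℕ) [Fact p.Prime] : (∃ (P : Sylow p G) (K : Subgroup G), (P : Subgroup G).Normal ∧ K.Normal ∧ (P : Subgroup G) ⊓ K = ⊥ ∧ (P : Subgroup G) ⊔ K = ⊤) ↔ ∀ x y : G, (∃ a : ℕ, orderOf x = p ^ a) → (∃ q b : ℕ, q.Prime ∧ q ≠ p ∧ orderOf y = q ^ b) → (Subgroup.centralizer ({x * y} : Set G)).index = (Subgroup.centralizer ({x} : Set G)).index * (Subgroup.centralizer ({y} : Set G)).index := by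
  open CF.Transfer CF.SolvStr CF.Solv in
  constructor
  · rintro ⟨P, K, hP, hK, h1, h2⟩ x y ⟨a, ha⟩ ⟨q, b, hq, hqp, hb⟩
    have hx := mem_of_pElt_of_normal_sylow P ha
    have hy := mem_of_direct h1 h2 hq hqp hb
    have hc := commute_of_normal_inf_bot h1 hx hy
    rw [CF.Fgs2.centralizer_mul_of_coprime hc
      (ha ▸ hb ▸ Nat.coprime_pow_primes _ _ Fact.out hq hqp.symm)]
    refine index_inf_of_coprime ?_
    have h3 : K ≤ Subgroup.centralizer ({x} : Set G) := by
      rintro k hk _ rfl
      exact commute_of_normal_inf_bot h1 hx hk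
    have h4 : (P : Subgroup G) ≤ Subgroup.centralizer ({y} : Set G) := by
      rintro k hk _ rfl
      exact (commute_of_normal_inf_bot h1 hk hy).symm
    refine Nat.Coprime.coprime_dvd_left (Subgroup.index_dvd_of_le h3)
      (Nat.Coprime.coprime_dvd_right (Subgroup.index_dvd_of_le h4) ?_)
    rw [index_eq_card_of_inf_sup h1 h2]
    exact P.card_coprime_index
  · intro h
    refine exists_direct_of_commute fun x y hx hy => ?_
    have h1 := h x y hx hy
    have h2 : Subgroup.centralizer ({x} : Set G) ⊓ Subgroup.centralizer ({y} : Set G) ≤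
        Subgroup.centralizer ({x * y} : Set G) := by
      rintro g ⟨hg1, hg2⟩ _ rfl
      rw [mul_assoc, hg2 y rfl, ← mul_assoc, hg1 x rfl, mul_assoc]
    have h3 := Subgroup.index_inf_le (H := Subgroup.centralizer ({x} : Set G))
      (K := Subgroup.centralizer ({y} : Set G))
    have h4 : Subgroup.centralizer ({x} : Set G) ⊓ Subgroup.centralizer ({y} : Set G) =
        Subgroup.centralizer ({x * y} : Set G) := by
      by_contra hne
      have := Subgroup.index_strictAnti (lt_of_le_of_ne h2 hne)
      omega
    have h5 : x * y ∈ Subgroup.centralizer ({x * y} : Set G) := by rintro _ rfl; rfl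
    rw [← h4] at h5
    have := h5.1 x rfl
    rw [mul_assoc] at this
    exact mul_left_cancel this

end Cfsg.Agent.S3987
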