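import Cfsg.Statements.S3989
import Cfsg.Agent.Solv.PiSep
import Cfsg.Agent.Transfer.Frobenius

set_option autoImplicit false
open Cfsg

namespace Cfsg.Agent.S3989

open CF.Solv Subgroup

universe u

/-- Products of conjugates stay in the class of `x * y`. -/
def HP (p : ℕ) (G : Type u) [Group G] : Prop :=
  ∀ x y : G, (∃ a : ℕ, orderOf x = p ^ a) → (∃ q b : ℕ, q.Prime ∧ q ≠ p ∧ orderOf y = q ^ b) →
    ∀ b : G, IsConj (x * y) (x * (b * y * b⁻¹))

theorem lift_pow {G G' : Type u} [Group G] [Group G'] [Finite G] {f : G →* G'}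
    (hf : Function.Surjective f) {q a : ℕ} (hq : q.Prime) {g : G'} (hg : orderOf g = q ^ a) :
    ∃ x : G, f x = g ∧ ∃ k, orderOf x = q ^ k := by
  obtain ⟨x, rfl⟩ := hf g
  have hn : orderOf x ≠ 0 := (orderOf_pos x).ne'
  have hc : (q ^ a).Coprime (ordCompl[q] (orderOf x)) :=
    (Nat.coprime_ordCompl hq hn).pow_left a
  obtain ⟨e, he1, he2⟩ := Nat.chineseRemainder hc 1 0
  refine ⟨x ^ e, ?_, ?_⟩
  · rw [map_pow]
    have : f x ^ e = f x ^ 1 := pow_eq_pow_iff_modEq.2 (by rw [hg]; exact he1)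
    rw [this, pow_one]
  · have h1 : (x ^ e) ^ (q ^ (orderOf x).factorization q) = 1 := by
      rw [← pow_mul, ← orderOf_dvd_iff_pow_eq_one]
      obtain ⟨c, hc⟩ := (Nat.modEq_zero_iff_dvd).1 he2
      rw [hc]
      refine ⟨c, ?_⟩
      conv_rhs => rw [← Nat.ordProj_mul_ordCompl_eq_self (orderOf x) q]
      ring
    obtain ⟨k, -, hk⟩ := (Nat.dvd_prime_pow hq).1 (orderOf_dvd_of_pow_eq_one h1)
    exact ⟨k, hk⟩

theorem HP.map {G G' : Type u} [Group G] [Group G'] [Finite G] {p : ℕ} (hp : p.Prime)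
    (h : HP p G) {f : G →* G'} (hf : Function.Surjective f) : HP p G' := by
  rintro x y ⟨a, ha⟩ ⟨q, b, hq, hqp, hb⟩ c
  obtain ⟨x, rfl, hx⟩ := lift_pow hf hp ha
  obtain ⟨y, rfl, k, hy⟩ := lift_pow hf hq hb
  obtain ⟨c, rfl⟩ := hf c
  have := f.map_isConj (h x y hx ⟨q, k, hq, hqp, hy⟩ c)
  simpa only [map_mul, map_inv] using this

theorem mem_of_pow {G : Type u} [Group G] [Finite G] (C : Subgroup G) (g : G)
    (h : ∀ q m b : ℕ, q.Prime → q ∣ orderOf g → orderOf (g ^ m) = q ^ b → g ^ m ∈ C) :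
    g ∈ C := by
  classical
  have hex : ∃ k, 0 < k ∧ g ^ k ∈ C := ⟨orderOf g, orderOf_pos g, by simp⟩
  have hk := Nat.find_spec hex
  have hd : ∀ m, g ^ m ∈ C → Nat.find hex ∣ m := by
    intro m hm
    by_contra hnd
    have h0 : 0 < m % Nat.find hex := Nat.pos_of_ne_zero fun h0 => hnd (Nat.dvd_of_mod_eq_zero h0)
    refine Nat.find_min hex (Nat.mod_lt m hk.1) ⟨h0, ?_⟩
    have e : g ^ m = (g ^ Nat.find hex) ^ (m / Nat.find hex) * g ^ (m % Nat.find hex) := by
      rw [← pow_mul, ← pow_add, Nat.div_add_mod]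
    rw [e] at hm
    exact (C.mul_mem_cancel_left (C.pow_mem hk.2 _)).1 hm
  by_cases h1 : Nat.find hex = 1
  · have := hk.2
    rwa [h1, pow_one] at this
  obtain ⟨q, hq, hqk⟩ := Nat.exists_prime_and_dvd h1
  have hn : orderOf g ≠ 0 := (orderOf_pos g).ne'
  have hqn : q ∣ orderOf g := hqk.trans (hd _ (by simp))
  have h2 : (g ^ (ordCompl[q] (orderOf g))) ^ (q ^ (orderOf g).factorization q) = 1 := by
    rw [← pow_mul, mul_comm, Nat.ordProj_mul_ordCompl_eq_self, pow_orderOf_eq_one]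
  obtain ⟨b, -, hb⟩ := (Nat.dvd_prime_pow hq).1 (orderOf_dvd_of_pow_eq_one h2)
  exact absurd (hqk.trans (hd _ (h q _ b hq hqn hb))) (Nat.not_dvd_ordCompl hq hn)

/-- The key step: no `x ≠ 1` of a minimal normal subgroup preserves the class of `1 ≠ y ∈ N`. -/
theorem key {G : Type u} [Group G] [Finite G] {N : Subgroup G} (hN : IsMinNormal N) {x y : G}
    (hx : x ∈ N) (hy : y ∈ N) (hx1 : x ≠ 1) (h : ∀ z, IsConj y z → IsConj y (x * z)) : y = 1 := by
  let T : Subgroup G :=
    { carrier := {g | ∀ z, IsConj y z → IsConj y (g * z)}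
      one_mem' := fun z hz => by simpa using hz
      mul_mem' := fun {a b} ha hb z hz => by rw [mul_assoc]; exact ha _ (hb _ hz)
      inv_mem' := fun {a} ha => by
        have hp : ∀ n : ℕ, ∀ z, IsConj y z → IsConj y (a ^ n * z) := by
          intro n
          induction n with
          | zero => intro z hz; simpa using hz
          | succ n ih => intro z hz; rw [pow_succ', mul_assoc]; exact ha _ (ih z hz)
        have e : a⁻¹ = a ^ (orderOf a - 1) := by
          rw [eq_comm, ← mul_eq_one_iff_eq_inv, ← pow_succ,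
            Nat.sub_add_cancel (orderOf_pos a), pow_orderOf_eq_one]
        intro z hz
        rw [e]; exact hp _ z hz }
  have hT : T.Normal := ⟨fun g hg c z hz => by
    have h1 : IsConj y (c⁻¹ * z * c⁻¹⁻¹) := hz.trans (isConj_iff.2 ⟨c⁻¹, rfl⟩)
    refine (hg _ h1).trans (isConj_iff.2 ⟨c, by group⟩)⟩
  rcases hN.le_or_inf_eq_bot T with h1 | h1
  · have := h1 (N.inv_mem hy) y (IsConj.refl y)
    rw [inv_mul_cancel] at this
    exact isConj_one_left.1 this
  · exact absurd (mem_bot.1 (h1 ▸ mem_inf.2 ⟨hx, h⟩)) hx1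

theorem npc {G : Type u} [Group G] [Finite G] {p : ℕ} [hp : Fact p.Prime] (h : HP p G)
    {N : Subgroup G} (hN : IsMinNormal N) : HasNormalPComplement p N := by
  refine CF.Transfer.frobenius_hasNPC' fun Q hQ _ g hg hc => mem_of_pow _ g ?_
  intro q m b hq hqg hb
  have hqp : q ≠ p := by
    rintro rfl
    exact hq.one_lt.ne' (Nat.eq_one_of_dvd_coprimes hc hqg dvd_rfl)
  have hy : g ^ m ∈ normalizer (Q : Set N) := pow_mem hg m
  generalize g ^ m = y at hb hy
  refine mem_centralizer_iff.2 fun u hu => ?_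
  by_contra hne
  have hxQ : u * (y * u⁻¹ * y⁻¹) ∈ Q := Q.mul_mem hu ((mem_normalizer_iff.1 hy _).1 (Q.inv_mem hu))
  obtain ⟨k, hk⟩ := (IsPGroup.iff_orderOf.1 hQ) ⟨_, hxQ⟩
  rw [← Subgroup.orderOf_coe, ← Subgroup.orderOf_coe] at hk
  have hb' : orderOf (y : G) = q ^ b := by rw [Subgroup.orderOf_coe, hb]
  have hx1 : ((u * (y * u⁻¹ * y⁻¹) : N) : G) ≠ 1 := fun e => hne (by
    have e' : u * (y * u⁻¹ * y⁻¹) = 1 := Subtype.ext e
    calc u * y = u * (y * u⁻¹ * y⁻¹) * (y * u) := by group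
      _ = y * u := by rw [e', one_mul])
  have h1 : (y : G) = 1 := by
    refine key hN (u * (y * u⁻¹ * y⁻¹)).2 y.2 hx1 fun z hz => ?_
    obtain ⟨c, rfl⟩ := isConj_iff.1 hz
    refine IsConj.trans (isConj_iff.2 ⟨u, ?_⟩) (h _ y ⟨k, hk⟩ ⟨q, b, hq, hqp, hb'⟩ c)
    simp only [coe_mul, coe_inv]; group
  have h2 : y = 1 := Subtype.ext h1
  exact hne (by rw [h2, mul_one, one_mul])

theorem psol_of_npc {G : Type u} [Group G] [Finite G] {p : ℕ} [hp : Fact p.Prime]
    (h : HasNormalPComplement p G) : IsPSolvable p G := by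
  obtain ⟨P, K, hK, c⟩ := h
  refine isPSolvable_of_normal_of_quotient K ?_ ?_
  · refine isPSolvable_iff_isPiSep.2 (isPiSep_of_piNum (Or.inr ?_))
    rw [piNum_compl_singleton_iff hp.out, ← c.index_eq_card, Nat.coprime_comm,
      hp.out.coprime_iff_not_dvd]
    exact P.not_dvd_index
  · refine isPSolvable_iff_isPiSep.2 (isPiSep_of_piNum (Or.inl ?_))
    rw [piNum_singleton_iff hp.out Nat.card_pos.ne', ← index_eq_card, c.symm.index_eq_card]
    exact IsPGroup.iff_card.1 P.isPGroup'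

theorem main {p : ℕ} [hp : Fact p.Prime] (n : ℕ) : ∀ (G : Type u) [Group G] [Finite G],
    Nat.card G = n → HP p G → IsPSolvable p G := by
  induction n using Nat.strong_induction_on with
  | _ n ih =>
    intro G _ _ hn h
    rcases subsingleton_or_nontrivial G with h0 | h0
    · exact isPSolvable_of_isSolvable p
    obtain ⟨N, hN⟩ := exists_isMinNormal (G := G)
    haveI := hN.1
    refine isPSolvable_of_normal_of_quotient N (psol_of_npc (npc h hN))
      (ih _ ?_ _ rfl (h.map hp.out (QuotientGroup.mk'_surjective N)))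
    rw [← hn, card_eq_card_quotient_mul_card_subgroup N]
    exact lt_mul_of_one_lt_right Nat.card_pos ((one_lt_card_iff_ne_bot N).2 hN.2.1)

/-- Let p be a prime and G a finite group such that for every element x of p-power order and every element y whose order is a power of a prime other than p, the conjugacy class of x y is the set of all products of a conjugate of x with a conjugate of y. Then G is p-solvable. -/
theorem result {G : Type*} [Group G] [Finite G] (p : ℕ) [Fact p.Prime] (h : ∀ x y : G, (∃ a : ℕ, orderOf x = p ^ a) → (∃ q b : ℕ, q.Prime ∧ q ≠ p ∧ orderOf y = q ^ b) → ∀ z : G, IsConj (x * y) z ↔ ∃ a b : G, z = a * x * a⁻¹ * (b * y * b⁻¹)) : Cfsg.IsPSolvable p G := by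
  exact main _ G rfl fun x y hx hy b => (h x y hx hy _).2 ⟨1, b, by simp⟩

end Cfsg.Agent.S3989
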