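import Cfsg.Statements.S4009
import Cfsg.Agent.BG.B11

set_option autoImplicit false
open Cfsg

namespace Cfsg.Agent.S4009
open CF.BG Subgroup
open scoped commutatorElement Pointwise
section
variable {G : Type*} [Group G] {N K : Subgroup G}

/-- iterated commutator with the whole group -/
def cc (N : Subgroup G) : ℕ → Subgroup G
  | 0 => N
  | t + 1 => ⁅cc N t, ⊤⁆

theorem cc_add (N : Subgroup G) (s t : ℕ) : cc (cc N s) t = cc N (s + t) := by
  induction t with
  | zero => rfl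
  | succ t ih => rw [← add_assoc, cc, cc, ih]

theorem cc_norm (h : ⊤ ≤ 𝐍 N) (t : ℕ) : ⊤ ≤ 𝐍 (cc N t) := by
  cases t with
  | zero => exact h
  | succ t => exact norm_comm_right _ _

theorem cc_mono (h : N ≤ K) (t : ℕ) : cc N t ≤ cc K t := by
  induction t with
  | zero => exact h
  | succ t ih => exact commutator_mono ih le_rfl

theorem comm_le_cc (i : ℕ) : ∀ N : Subgroup G, ⁅N, cc ⊤ i⁆ ≤ cc N (i + 1) := by
  induction i with
  | zero => exact fun N => le_rfl
  | succ i ih =>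
    intro N
    have n : ∀ X : Subgroup G, X ≤ 𝐍 (cc N (i + 1 + 1)) := fun X =>
      le_top.trans (norm_comm_right _ _)
    rw [commutator_comm]
    refine three_subgroup (n _) (n _) (n _) ?_ (commutator_mono (ih N) le_rfl)
    rw [commutator_comm ⊤ N]
    refine (ih _).trans (le_of_eq ?_)
    exact (cc_add N 1 (i + 1)).trans (by rw [add_comm 1])

theorem der_le_of_cyc (h : ⊤ ≤ 𝐍 N) {a : G} (ha : a ∈ N) (e : N ≤ zpowers a ⊔ cc N 1) :
    ⁅N, N⁆ ≤ ⁅cc N 1, N⁆ := by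
  have n : ∀ X : Subgroup G, X ≤ 𝐍 ⁅cc N 1, N⁆ := fun X =>
    le_top.trans (norm_commutator (cc_norm h 1) h)
  refine (commutator_mono e le_rfl).trans (comm_sup_le ?_ le_rfl (n _) (n _))
  refine (commutator_mono le_rfl e).trans (comm_sup_le' ?_ ?_ (n _) (n _))
  · rw [der_eq_bot.2 (abel_zpowers a)]; exact bot_le
  · rw [commutator_comm]; exact commutator_mono le_rfl (zpowers_le.2 ha)

variable [Finite G] {p : ℕ} (hG : PiGrp {p} (⊤ : Subgroup G))
include hG

theorem log_cc (h : ⊤ ≤ 𝐍 N) (s t : ℕ) (h1 : cc N (s + t) ≠ ⊥) :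
    logn p (♯(cc N (s + t))) + t ≤ logn p (♯(cc N s)) := by
  induction t with
  | zero => exact le_rfl
  | succ t ih =>
    have l : cc N (s + (t + 1)) ≤ cc N (s + t) := comm_le_left (cc_norm h _)
    have h2 := ne_bot_mono h1 l
    have := (hG.le le_top).logn_lt (hG.comm_lt (hG.le le_top) (cc_norm h (s + t)) h2)
    have := ih h2
    change logn p (♯⁅cc N (s + t), ⊤⁆) + (t + 1) ≤ _
    omega

theorem exists_gen (l : K ≤ N) (h : logn p (♯N) ≤ logn p (♯K) + 1) :
    ∃ a ∈ N, N ≤ zpowers a ⊔ K := by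
  by_cases e : N ≤ K
  · exact ⟨1, one_mem _, e.trans le_sup_right⟩
  obtain ⟨a, ha, hK⟩ := SetLike.not_le_iff_exists.1 e
  have l1 : zpowers a ⊔ K ≤ N := sup_le (zpowers_le.2 ha) l
  have l2 : K < zpowers a ⊔ K :=
    lt_of_le_of_ne le_sup_right fun h => hK (h ▸ mem_sup_left (mem_zpowers a))
  have := (hG.le le_top).logn_lt l2
  exact ⟨a, ha, ((hG.le le_top).eq_of_logn_le l1 (by omega)).ge⟩

theorem step1 {v : ℕ} (h : ⊤ ≤ 𝐍 N) (hv : N ≤ cc ⊤ v) {a : G} (ha : a ∈ N)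
    (e : N ≤ zpowers a ⊔ cc N 1) (h1 : ⁅N, N⁆ ≠ ⊥) :
    logn p (♯⁅N, N⁆) + v + 2 ≤ logn p (♯N) ∧ ⁅N, N⁆ ≤ cc ⊤ (2 * v + 2) := by
  have l : ⁅N, N⁆ ≤ cc N (0 + (v + 2)) := by
    refine (der_le_of_cyc h ha e).trans ((commutator_mono le_rfl hv).trans ((comm_le_cc v _).trans ?_))
    rw [cc_add]; exact le_of_eq (by congr 1; omega)
  refine ⟨?_, l.trans ((cc_mono hv _).trans (by rw [cc_add]; exact le_of_eq (by congr 1; omega)))⟩
  have := log_cc hG h 0 _ (ne_bot_mono h1 l)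
  have := logn_card_le (p := p) l
  change _ ≤ logn p (♯(cc N 0))
  omega

omit hG [Finite G] in
theorem der_le_cc {v : ℕ} (hv : N ≤ cc ⊤ v) :
    ⁅N, N⁆ ≤ cc N (1 + v) ∧ ⁅N, N⁆ ≤ cc ⊤ (2 * v + 1) := by
  have l : ⁅N, N⁆ ≤ cc N (1 + v) :=
    (commutator_mono le_rfl hv).trans (by rw [add_comm]; exact comm_le_cc v _)
  exact ⟨l, l.trans ((cc_mono hv _).trans (by rw [cc_add]; exact le_of_eq (by congr 1; omega)))⟩

omit hG [Finite G] in
theorem der_ne_bot {k : ℕ} (h1 : (fun X : Subgroup G => ⁅X, X⁆)^[k] N ≠ ⊥) : N ≠ ⊥ := by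
  rintro rfl
  exact h1 (Function.iterate_fixed (by simp) k)

theorem p0 (k : ℕ) : ∀ (v : ℕ) (N : Subgroup G), ⊤ ≤ 𝐍 N → N ≤ cc ⊤ v →
    (fun X : Subgroup G => ⁅X, X⁆)^[k] N ≠ ⊥ → (v + 1) * 2 ^ k + k ≤ logn p (♯N) + v := by
  induction k with
  | zero =>
    intro v N _ _ h1
    have := (hG.le (le_top : N ≤ ⊤)).logn_pos.2 h1
    omega
  | succ k ih =>
    intro v N h hv h1
    rw [Function.iterate_succ_apply] at h1
    have h2 := der_ne_bot h1
    obtain ⟨l1, l2⟩ := der_le_cc hv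
    have := ih _ _ (norm_commutator h h) l2 h1
    have : logn p (♯⁅N, N⁆) + v + 2 ≤ logn p (♯N) := by
      by_cases c : logn p (♯N) ≤ logn p (♯(cc N 1)) + 1
      · obtain ⟨a, ha, e⟩ := exists_gen hG (comm_le_left h) c
        exact (step1 hG h hv ha e h2).1
      · have := log_cc hG h 1 v (ne_bot_mono h2 l1)
        have := logn_card_le (p := p) l1
        omega
    rw [pow_succ]; nlinarith

theorem p1 (k v : ℕ) (h : ⊤ ≤ 𝐍 N) (hv : N ≤ cc ⊤ v) {a : G} (ha : a ∈ N)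
    (e : N ≤ zpowers a ⊔ cc N 1) (h1 : (fun X : Subgroup G => ⁅X, X⁆)^[k] N ≠ ⊥) :
    (v + 1) * 2 ^ k + 2 * k ≤ logn p (♯N) + v + 1 := by
  cases k with
  | zero => omega
  | succ k =>
    rw [Function.iterate_succ_apply] at h1
    obtain ⟨l1, l2⟩ := step1 hG h hv ha e (der_ne_bot h1)
    have := p0 hG k _ _ (norm_commutator h h) l2 h1
    have : k + 1 ≤ 2 ^ k := Nat.lt_two_pow_self
    rw [pow_succ]; nlinarith

theorem p2 (k : ℕ) : ∀ (v : ℕ) (N : Subgroup G), ⊤ ≤ 𝐍 N → N ≤ cc ⊤ v →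
    (fun X : Subgroup G => ⁅X, X⁆)^[k] N ≠ ⊥ → (v + 1) * 2 ^ k + 2 * k ≤ logn p (♯N) + v + 2 := by
  induction k with
  | zero => intro v N _ _ h1; omega
  | succ k ih =>
    intro v N h hv h1
    have l0 : cc N 1 ≤ N := comm_le_left h
    by_cases c : logn p (♯N) ≤ logn p (♯(cc N 1)) + 1
    · obtain ⟨a, ha, e⟩ := exists_gen hG l0 c
      have := p1 hG (k + 1) v h hv ha e h1
      omega
    rw [Function.iterate_succ_apply] at h1
    have h2 := der_ne_bot h1
    obtain ⟨l1, l2⟩ := der_le_cc hv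
    have b1 := log_cc hG h 1 v (ne_bot_mono h2 l1)
    have b2 := logn_card_le (p := p) l1
    have hn := norm_commutator h h
    by_cases c2 : logn p (♯⁅N, N⁆) + v + 3 ≤ logn p (♯N)
    · have := ih _ _ hn l2 h1
      rw [pow_succ]; nlinarith
    have e1 : ⁅N, N⁆ = cc N (1 + v) := (hG.le le_top).eq_of_logn_le l1 (by omega)
    obtain ⟨L, L1, L2, hL⟩ := (hG.le (le_top : N ≤ ⊤)).exists_logn_between l0
      (n := logn p (♯(cc N 1)) + 1) (by omega) (by omega)
    obtain ⟨a, ha, ea⟩ := exists_gen hG L1 hL.le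
    obtain ⟨b, hb, eb⟩ := exists_gen hG L2 (by omega)
    have e2 : N ≤ zpowers b ⊔ (zpowers a ⊔ cc N 1) := eb.trans (sup_le_sup_left ea _)
    have hab : ⁅a, b⁆ ∈ ⁅N, N⁆ := commutator_mem_commutator (L2 ha) hb
    have e3 : ⁅N, N⁆ ≤ zpowers ⁅a, b⁆ ⊔ cc ⁅N, N⁆ 1 := by
      set T := zpowers ⁅a, b⁆ ⊔ cc ⁅N, N⁆ 1 with hT
      have n : ∀ X : Subgroup G, X ≤ 𝐍 T := fun X => le_top.trans (norm_of_comm_le
        ((commutator_mono (sup_le (zpowers_le.2 hab) (comm_le_left hn)) le_rfl).trans le_sup_right))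
      have c1 : ⁅cc N 1, N⁆ ≤ T := by
        refine ((commutator_mono le_rfl hv).trans ((comm_le_cc v _).trans ?_)).trans le_sup_right
        rw [e1, cc_add, cc_add, add_assoc]
      have c3 : ∀ x ∈ N, ⁅zpowers x, cc N 1⁆ ≤ T := fun x hx => by
        rw [commutator_comm]; exact (commutator_mono le_rfl (zpowers_le.2 hx)).trans c1
      have c4 : ∀ x : G, ⁅zpowers x, zpowers x⁆ ≤ T := fun x => by
        rw [der_eq_bot.2 (abel_zpowers x)]; exact bot_le
      have c5 : ⁅zpowers a, zpowers b⁆ ≤ T := by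
        have hT' : ∀ X : Subgroup G, X ≤ 𝐍 T := n
        rw [← qt_cent_iff (n _) (n _), qt_zpowers (n ⊤ (mem_top _)), qt_zpowers (n ⊤ (mem_top _)),
          zpowers_le, cent_zpowers, mem_cent1, ← commutatorElement_eq_one_iff_mul_comm,
          ← qe_comm (n ⊤ (mem_top _)) (n ⊤ (mem_top _))]
        exact qe_of_mem (mem_sup_left (mem_zpowers _))
      refine (commutator_mono e2 le_rfl).trans
        (comm_sup_le ?_ (comm_sup_le ?_ c1 (n _) (n _)) (n _) (n _))
      · refine (commutator_mono le_rfl e2).trans (comm_sup_le' (c4 _)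
          (comm_sup_le' (by rw [commutator_comm]; exact c5) (c3 _ hb) (n _) (n _)) (n _) (n _))
      · refine (commutator_mono le_rfl e2).trans (comm_sup_le' c5
          (comm_sup_le' (c4 _) (c3 _ (L2 ha)) (n _) (n _)) (n _) (n _))
    have := p1 hG k _ hn l2 hab e3 h1
    rw [pow_succ]; nlinarith

end

/-- Let P be a finite p-group of order p^n whose derived length is exactly k + 1 (the k-th derived subgroup is nontrivial and the (k+1)-st is trivial). Then n ≥ 2^k + 2k − 2. -/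
theorem result {P : Type*} [Group P] [Finite P] (p : ℕ) [Fact p.Prime] (n k : ℕ) (hcard : Nat.card P = p ^ n) (hk : derivedSeries P k ≠ ⊥) (hk' : derivedSeries P (k + 1) = ⊥) : 2 ^ k + 2 * k ≤ n + 2 := by
  have hp : p.Prime := Fact.out
  have hG : PiGrp {p} (⊤ : Subgroup P) := piGrp_of_card hp (by rw [card_top', hcard])
  have e : ∀ k, derivedSeries P k = (fun X : Subgroup P => ⁅X, X⁆)^[k] ⊤ := fun k => by
    induction k with
    | zero => rfl
    | succ k ih => rw [Function.iterate_succ_apply', ← ih]; rfl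
  have := p2 hG k 0 ⊤ (by simp) le_rfl (e k ▸ hk)
  rw [card_top', hcard, logn_pow hp] at this
  omega

end Cfsg.Agent.S4009
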