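import Cfsg.Statements.S4010
import Cfsg.Agent.Xs.M

set_option autoImplicit false
open Cfsg

namespace Cfsg.Agent.S4010


/-- Let F be a field, n ≥ 1, and P a finite p-group (p a prime) admitting an injective homomorphism into the general linear group of degree n over F. Then the derived length of P is at most ⌊log₂ n⌋ + 1: that term of the derived series of P is trivial. -/
theorem result {P : Type*} [Group P] [Finite P] (p : ℕ) [Fact p.Prime] (hP : IsPGroup p P) (F : Type*) [Field F] (n : ℕ) (hn : 1 ≤ n) (ρ : P →* Matrix.GeneralLinearGroup (Fin n) F) (hρ : Function.Injective ρ) : derivedSeries P (Nat.log 2 n + 1) = ⊥ := by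
    have h2 := Nat.lt_pow_succ_log_self one_lt_two n
    refine eq_bot_iff.2 fun g hg => CF.Xs.extRep_inj (AlgebraicClosure F) hρ (Eq.trans ?_ (map_one _).symm)
    by_cases h : (p : AlgebraicClosure F) = 0
    · have := (CharP.charP_iff_prime_eq_zero (R := AlgebraicClosure F) (Fact.out : p.Prime)).2 h
      exact CF.Xs.derived_le_ker_of_charP _ hP (by simpa using h2.le) hg
    · exact CF.Xs.derived_le_ker h _ _ hP (by
        simpa using h2.trans_le (Nat.pow_le_pow_left (Fact.out : p.Prime).two_le _)) hg

end Cfsg.Agent.S4010
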