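import Cfsg.Statements.S4013
import Cfsg.Agent.BG.B11
import Cfsg.Agent.Fgs2.Basic

set_option autoImplicit false
open Cfsg

namespace Cfsg.Agent.S4013

open CF.BG Subgroup


/-- Let G be a finite p-group (p prime) and N < M normal subgroups of G such that for some g ∈ M ∖ N the conjugacy class of g is exactly M ∖ N. Then p = 2 and N has index 2 in M. -/
theorem result {G : Type*} [Group G] [Finite G] (p : ℕ) [Fact p.Prime] (hG : IsPGroup p G) (N M : Subgroup G) [N.Normal] [M.Normal] (hNM : N < M) (g : G) (hgM : g ∈ M) (hgN : g ∉ N) (hcl : {h : G | IsConj g h} = (M : Set G) \ (N : Set G)) : p = 2 ∧ N.relIndex M = 2 := by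
  have hp : p.Prime := Fact.out
  have h1 : Nat.card {y : G // IsConj g y} = ((M : Set G) \ (N : Set G)).ncard := by
    rw [← hcl]; rfl
  rw [CF.Fgs2.card_isConj, Set.ncard_sdiff (SetLike.coe_subset_coe.2 hNM.le)] at h1
  have h2 : (M : Set G).ncard = ♯M := rfl
  have h3 : (N : Set G).ncard = ♯N := rfl
  rw [h2, h3, ← card_mul_relIndex hNM.le, ← Nat.mul_sub_one] at h1
  obtain ⟨n, hn⟩ := hG.exists_card_eq
  have h4 : N.relIndex M - 1 ∣ p ^ n := by
    rw [← hn]
    exact (Dvd.intro_left _ h1.symm).trans (index_dvd_card _)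
  have h5 : N.relIndex M ∣ p ^ n := by
    rw [← hn]
    exact (relIndex_dvd_card N M).trans (card_subgroup_dvd_card M)
  obtain ⟨j, -, hj⟩ := (Nat.dvd_prime_pow hp).1 h5
  obtain ⟨i, -, hi⟩ := (Nat.dvd_prime_pow hp).1 h4
  have hj0 : j ≠ 0 := by
    rintro rfl
    rw [pow_zero, relIndex_eq_one] at hj
    exact hNM.not_ge hj
  have hpos := relIndex_pos N M
  have hi0 : i = 0 := by
    by_contra hi0
    have a : p ∣ N.relIndex M := hj ▸ dvd_pow_self p hj0
    have b : p ∣ N.relIndex M - 1 := hi ▸ dvd_pow_self p hi0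
    have := Nat.dvd_sub a b
    rw [Nat.sub_sub_self hpos] at this
    exact hp.one_lt.ne' (Nat.dvd_one.1 this)
  rw [hi0, pow_zero] at hi
  have h6 : N.relIndex M = 2 := by omega
  refine ⟨?_, h6⟩
  have a : p ∣ 2 := h6 ▸ hj ▸ dvd_pow_self p hj0
  exact (Nat.prime_dvd_prime_iff_eq hp Nat.prime_two).1 a

end Cfsg.Agent.S4013
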