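import Cfsg.Statements.S4015
import Cfsg.Agent.Xs.M

set_option autoImplicit false
open Cfsg

namespace Cfsg.Agent.S4015


/-- Let p be an odd prime, F a finite field with q elements where p does not divide q, and e the multiplicative order of q modulo p. Let n ≥ e and write w = ⌊n/e⌋ and k = ⌊log_p w⌋. Then a Sylow p-subgroup of GL(n, F) has derived length exactly k + 1: its (k+1)-st derived subgroup is trivial and its k-th is not. -/
theorem result (p : ℕ) [Fact p.Prime] (hp : p ≠ 2) (F : Type*) [Field F] [Fintype F] (q : ℕ) (hq : Fintype.card F = q) (hpq : ¬ p ∣ q) (n : ℕ) (hn : orderOf (q : ZMod p) ≤ n) (P : Sylow p (Matrix.GeneralLinearGroup (Fin n) F)) : derivedSeries ↥(P : Subgroup (Matrix.GeneralLinearGroup (Fin n) F)) (Nat.log p (n / orderOf (q : ZMod p)) + 1) = ⊥ ∧ derivedSeries ↥(P : Subgroup (Matrix.GeneralLinearGroup (Fin n) F)) (Nat.log p (n / orderOf (q : ZMod p))) ≠ ⊥ := by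
    subst hq
    have h7 : 0 < orderOf (Fintype.card F : ZMod p) :=
      (isOfFinOrder_iff_pow_eq_one.2 ⟨p - 1, by have := (Fact.out : p.Prime).two_le; omega,
        ZMod.pow_card_sub_one_eq_one (mt (ZMod.natCast_eq_zero_iff _ _).1 hpq)⟩).orderOf_pos
    refine ⟨CF.Xs.derived_eq_bot_of_finite hpq P.2 (Subgroup.subtype_injective _)
      (Nat.lt_pow_succ_log_self (Fact.out : p.Prime).one_lt _),
      CF.Xs.derived_sylow_ne_bot h7.ne' ?_ ?_ P⟩
    · refine (Nat.modEq_iff_dvd' (Nat.one_le_pow _ _ Fintype.card_pos)).1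
        ((ZMod.natCast_eq_natCast_iff _ _ _).1 ?_)
      simp [pow_orderOf_eq_one]
    · exact (Nat.mul_le_mul_left _ (Nat.pow_log_le_self p (Nat.div_pos hn h7).ne')).trans
        (Nat.mul_div_le _ _)

end Cfsg.Agent.S4015
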