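import Mathlib
import Cfsg.Statements.S4020
import Cfsg.Agent.Fgs1.EqConj
import Cfsg.Agent.Hyp.BSProof
import Cfsg.Agent.Hyp.FTProof

set_option autoImplicit false
open Cfsg

namespace Cfsg.Agent.S4020

theorem quat_sq : ∀ x : QuaternionGroup 2, (x ^ 2) ^ 2 = 1 := by decide

theorem quat_inv : ∀ x y : QuaternionGroup 2, x ^ 2 = 1 → y ^ 2 = 1 → x ≠ 1 → y ≠ 1 → x = y := by
  decide

theorem conj_odd_pow {G : Type*} [Group G] {t z : G} (h : t * z * t⁻¹ = z⁻¹) (k : ℕ) :
    t ^ (2 * k + 1) * z * (t ^ (2 * k + 1))⁻¹ = z⁻¹ := by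
  induction k with
  | zero => simpa using h
  | succ k ih =>
    calc _ = t * (t * (t ^ (2 * k + 1) * z * (t ^ (2 * k + 1))⁻¹) * t⁻¹) * t⁻¹ := by
          rw [show 2 * (k + 1) + 1 = 2 + (2 * k + 1) by ring, pow_add, sq]; group
      _ = t * (t * z * t⁻¹)⁻¹ * t⁻¹ := by rw [ih]; group
      _ = z⁻¹ := by rw [h, inv_inv, h]

open CF.Fgs1.EqConj CF.Transfer Subgroup in

/-- Let G be a finite group in which, for every prime p, any two p-subgroups of the same order are conjugate. Then every Sylow subgroup of G is cyclic, elementary abelian, or a quaternion group of order 8. -/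
theorem result {G : Type*} [Group G] [Finite G]
    (hD : ∀ p : ℕ, p.Prime → ∀ H K : Subgroup G, IsPGroup p H → IsPGroup p K → Nat.card H = Nat.card K →
      ∃ g : G, K = H.map (MulAut.conj g).toMonoidHom) {p : ℕ} [Fact p.Prime] (P : Sylow p G) :
    IsCyclic P ∨ Cfsg.IsElementaryAbelian p (P : Subgroup G) ∨ Nonempty ((P : Subgroup G) ≃* QuaternionGroup 2) := by
  have hp : p.Prime := Fact.out
  have hC : EqCj p G := hD p hp
  rcases (EqCj.eqIso hC P.2).cases P.2 with h | ⟨h1, h2⟩ | h | ⟨hp2, h2, h3, h4⟩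
  · exact Or.inl h
  · exact Or.inr (Or.inl ⟨h1, fun a ha => congrArg Subtype.val (h2 ⟨a, ha⟩)⟩)
  · exact Or.inr (Or.inr h.2)
  exfalso
  have hexp : ∀ x ∈ (P : Subgroup G), x ^ p = 1 := fun a ha => congrArg Subtype.val (h4 ⟨a, ha⟩)
  obtain ⟨z, w, hz1, hzp, hw⟩ := hC.exists_sq_inverts P h3 h2 hexp
  have hzo : orderOf z = p := orderOf_eq_prime hzp hz1
  have hpodd : Odd p := hp.odd_of_ne_two hp2
  -- it suffices to put `z` in a normal subgroup of odd order
  suffices hN : ∃ N : Subgroup G, N.Normal ∧ Odd (Nat.card N) ∧ z ∈ N by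
    obtain ⟨N, hN, ho, hzN⟩ := hN
    have := CF.Hyp.isSolvable_of_odd ho
    exact h2 (hC.comm_of_exp P.2 hexp N (CF.Solv.isPSolvable_of_isSolvable p)
      (hzo ▸ N.orderOf_dvd_natCard hzN))
  have hsq : ∀ N : Subgroup G, z ^ 2 ∈ N → z ∈ N := by
    intro N hN
    obtain ⟨k, hk⟩ := hpodd
    have : z = ((z ^ 2) ^ k)⁻¹ := by
      rw [eq_inv_iff_mul_eq_one, ← pow_mul, ← pow_succ', ← hk, hzp]
    exact this ▸ inv_mem (pow_mem hN k)
  obtain ⟨a, m, hm, ham⟩ := Nat.exists_eq_two_pow_mul_odd (orderOf_pos w).ne'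
  set v := w ^ m with hv
  have hvz : v ^ 2 * z * (v ^ 2)⁻¹ = z⁻¹ := by
    obtain ⟨k, rfl⟩ := hm
    rw [hv, ← pow_mul, mul_comm, pow_mul]
    exact conj_odd_pow hw k
  have hv1 : v ^ 2 ≠ 1 := by
    intro h1
    rw [h1, one_mul, inv_one, mul_one, eq_inv_iff_mul_eq_one, ← sq] at hvz
    exact hz1 (mem_bot.mp (hsq ⊥ (mem_bot.mpr hvz)))
  have hv2 : IsPGroup 2 (zpowers v) := by
    refine IsPGroup.of_card (n := a) ?_
    rw [Nat.card_zpowers, hv, orderOf_pow_of_dvd hm.pos.ne' (ham ▸ dvd_mul_left _ _), ham,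
      Nat.mul_div_cancel _ hm.pos]
  obtain ⟨S, hS⟩ := hv2.exists_le_sylow
  have hvS : v ∈ (S : Subgroup G) := hS (mem_zpowers v)
  have hC2 : EqCj 2 G := hD 2 Nat.prime_two
  rcases (EqCj.eqIso hC2 S.2).cases S.2 with h | ⟨-, h5⟩ | ⟨-, ⟨e⟩⟩ | ⟨h5, -⟩
  · have hev : 2 ∣ Nat.card G := by
      obtain ⟨k, hk⟩ := orderOf_eq_pow_of_mem S.2 hvS
      have hk0 : k ≠ 0 := by
        rintro rfl
        rw [pow_zero, orderOf_eq_one_iff] at hk
        exact hv1 (by rw [hk, one_pow])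
      exact (dvd_pow_self 2 hk0).trans (hk ▸ orderOf_dvd_natCard v)
    have hmin : (Nat.card G).minFac = 2 := (Nat.minFac_eq_two_iff _).mpr hev
    have hc := h.isComplement' hmin
    refine ⟨_, inferInstance, ?_, CF.Solv.mem_of_coprime_index
      (N := (MonoidHom.transferSylow S (h.normalizer_le_centralizer hmin)).ker) ?_⟩
    · rw [← hc.index_eq_card, ← Nat.not_even_iff_odd, even_iff_two_dvd]
      exact S.not_dvd_index
    · rw [hc.symm.index_eq_card, hzo]
      exact (CF.Solv.coprime_card_of_isPGroup S.2 (Nat.coprime_two_right.mpr hpodd)).symm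
  · exact absurd (congrArg Subtype.val (h5 ⟨v, hvS⟩)) hv1
  · have hv4 : (v ^ 2) ^ 2 = 1 := by
      have := quat_sq (e ⟨v, hvS⟩)
      rw [← map_pow, ← map_pow, map_eq_one_iff _ e.injective] at this
      exact congrArg Subtype.val this
    obtain ⟨N, hN, ho, hc⟩ := CF.Hyp.brauer_suzuki (orderOf_eq_prime hv4 hv1) (fun x y hx hy hxy => by
      have hx2 : x ^ 2 = 1 := hx ▸ pow_orderOf_eq_one x
      have hy2 : y ^ 2 = 1 := hy ▸ pow_orderOf_eq_one y
      have hx1 : x ≠ 1 := fun h => by simp [h] at hx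
      have hy1 : y ≠ 1 := fun h => by simp [h] at hy
      have hxy' : IsPGroup 2 (zpowers x ⊔ zpowers y : Subgroup G) :=
        IsPGroup.to_sup_of_normal_right'
          (isPGroup_zpowers (hx.trans (pow_one 2).symm)) (isPGroup_zpowers (hy.trans (pow_one 2).symm))
          ((zpowers_le.mpr (CF.Solv.mem_centralizer_zpowers_iff.mpr hxy)).trans
            (centralizer_le_normalizer _))
      obtain ⟨g, -, hg⟩ := (isSylowIn_top S).exists_cj_le hxy' le_top
      have hx' := hg (conj_mem_cj (mem_sup_left (mem_zpowers x)))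
      have hy' := hg (conj_mem_cj (mem_sup_right (mem_zpowers y)))
      have key : ∀ t (ht : g * t * g⁻¹ ∈ (S : Subgroup G)), t ^ 2 = 1 → t ≠ 1 →
          e ⟨_, ht⟩ ^ 2 = 1 ∧ e ⟨_, ht⟩ ≠ 1 := by
        intro t ht h1 h2
        constructor
        · rw [← map_pow, map_eq_one_iff _ e.injective]
          apply Subtype.ext
          simp [h1]
        · rw [Ne, map_eq_one_iff _ e.injective]
          intro h3
          apply h2
          simpa using congrArg Subtype.val h3
      have := e.injective (quat_inv _ _ (key x hx' hx2 hx1).1 (key y hy' hy2 hy1).1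
        (key x hx' hx2 hx1).2 (key y hy' hy2 hy1).2)
      simpa using congrArg Subtype.val this)
    refine ⟨N, hN, ho, hsq N ?_⟩
    have := inv_mem (hc z)
    rwa [hvz, mul_inv_rev, inv_inv, ← sq] at this
  · exact absurd rfl h5

end Cfsg.Agent.S4020
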