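import Cfsg.Statements.S4025
import Cfsg.Agent.EqC.Aff2
import Cfsg.Agent.Solv.Fitting

set_option autoImplicit false
open Cfsg

namespace Cfsg.Agent.S4025
open Subgroup
open scoped commutatorElement Pointwise

/-- Let p be a prime and G a finite group in which any two p-subgroups of the same order are conjugate, and suppose a Sylow p-subgroup P of G is elementary abelian of order pⁿ with n ≥ 3. Let N be the normalizer of P and K the largest normal subgroup of N of order prime to p, and assume N/K is solvable. Then either n = 3 and N/K embeds in the one-dimensional semi-affine group over the field with p³ elements (and for p = 2 it is isomorphic to the affine or the semi-affine group over the field with 8 elements), or n = 5, p = 2 and N/K is isomorphic to the one-dimensional semi-affine group over the field with 32 elements. -/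
theorem result {G : Type*} [Group G] [Finite G]
    {p : ℕ} [Fact p.Prime] (hC : ∀ H K : Subgroup G, IsPGroup p H → IsPGroup p K → Nat.card H = Nat.card K →
      ∃ g : G, K = H.map (MulAut.conj g).toMonoidHom) (P : Sylow p G) (n : ℕ) (hn : 3 ≤ n)
    (hel : Cfsg.IsElementaryAbelian p (P : Subgroup G)) (hcard : Nat.card P = p ^ n)
    (N : Subgroup G) (hN : N = Subgroup.normalizer ((P : Subgroup G) : Set G))
    (hsolv : Group.IsSolvable (↥N ⧸ Cfsg.pPrimeCore p ↥N)) :
    (n = 3 ∧ (∃ f : ↥N ⧸ Cfsg.pPrimeCore p ↥N →* ↥(Cfsg.semiaffineGroup (GaloisField p 3)), Function.Injective f) ∧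
      (p = 2 → Nonempty (↥N ⧸ Cfsg.pPrimeCore p ↥N ≃* Cfsg.semiaffineGroup (GaloisField 2 3)) ∨
               Nonempty (↥N ⧸ Cfsg.pPrimeCore p ↥N ≃* Cfsg.affineGroup (GaloisField 2 3)))) ∨
    (n = 5 ∧ p = 2 ∧ Nonempty (↥N ⧸ Cfsg.pPrimeCore p ↥N ≃* Cfsg.semiaffineGroup (GaloisField 2 5))) := by
  open CF.Transfer CF.Fgs1.EqConj CF.EqC CF.Solv in
  have hPN : (P : Subgroup G) ≤ N := hN ▸ le_normalizer
  have hS := isSylowIn_of_le P hPN
  have hle : ∀ H : Subgroup N, IsPGroup p H → H.map N.subtype ≤ P := fun H hH =>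
    hS.le_of_le_normalizer (hH.map _) (map_subtype_le _) (hN ▸ map_subtype_le _)
  have := hel.1
  have hcen : ∀ H : Subgroup G, H ≤ P → (P : Subgroup G) ≤ centralizer (H : Set G) :=
    fun H hH a ha b hb => setLike_mul_comm (hH hb) ha
  have hCN : EqCj p N := fun H K hH hK hc => by
    obtain ⟨g, hg⟩ := hC _ _ (hH.map N.subtype) (hK.map N.subtype) (by
      rw [card_map_of_injective N.subtype_injective, card_map_of_injective N.subtype_injective, hc])
    rw [map_conj_eq_cj] at hg
    have h1 := (isSylowIn_of_le P (hcen _ (hle H hH))).cj g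
    rw [← centralizer_cj, ← hg] at h1
    obtain ⟨c, c1, c2⟩ := h1.exists_cj_eq (isSylowIn_of_le P (hcen _ (hle K hK)))
    rw [cj_cj, ← mem_normalizer_iff_cj, ← hN] at c2
    refine ⟨⟨_, c2⟩, map_injective N.subtype_injective ?_⟩
    rw [map_conj_eq_cj, map_cj]
    change _ = cj (c * g) _
    rw [cj_mul, ← hg, cj_eq_of_mem_centralizer c1]
  let π := QuotientGroup.mk' (pPrimeCore p N)
  have hπ := QuotientGroup.mk'_surjective (pPrimeCore p N)
  let Q := ((P : Subgroup G).subgroupOf N).map π
  have hQ : IsSylowIn p Q ⊤ := map_top_of_surjective π hπ ▸ hS.subgroupOf_top.map π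
  have hn1 : ((P : Subgroup G).subgroupOf N).Normal := by
    subst hN; infer_instance
  have : Q.Normal := hn1.map π hπ
  have hQc : pCore p _ = Q := hQ.eq_of_le pCore_isPGroup (le_pCore hQ.isPGroup) le_top
  have h1 : Nat.card Q = p ^ n := by
    have h2 := card_map_mk'_mul (pPrimeCore p N) ((P : Subgroup G).subgroupOf N)
    rwa [disjoint_iff.1 (disjoint_of_coprime_natCard (coprime_card_of_isPGroup
      hS.subgroupOf_top.isPGroup pPrimeCore_coprime).symm), card_bot, mul_one,
      Nat.card_congr (subgroupOfEquivOfLe hPN).toEquiv, hcard] at h2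
  have : IsMulCommutative Q := inferInstance
  exact affine (eqCj_of_surj hCN hπ) Q (by
    rintro _ ⟨a, ha, rfl⟩
    rw [← map_pow, show a ^ p = 1 from Subtype.ext (hel.2 _ ha), map_one])
    (hQc ▸ centralizer_pCore_le pPrimeCore_quotient_pPrimeCore)
    (by simpa using hQ.not_dvd) hn h1

end Cfsg.Agent.S4025
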