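import Cfsg.Statements.S4032
import Cfsg.Agent.BG.B11

set_option autoImplicit false
open Cfsg

namespace Cfsg.Agent.S4032

open CF.BG Subgroup


/-- Let π be a set of primes and G a finite group in which N_G(⟨x⟩) = C_G(x) for every π-element x. If N is a normal subgroup of G whose order is divisible by no prime of π, then G/N has the same property: N_{G/N}(⟨y⟩) = C_{G/N}(y) for every π-element y of G/N. -/
theorem result {G : Type*} [Group G] [Finite G] (π : Set ℕ)
    (hirr : ∀ x : G, (∀ r : ℕ, r.Prime → r ∣ orderOf x → r ∈ π) →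
      Subgroup.normalizer ((Subgroup.zpowers x : Subgroup G) : Set G) ≤ Subgroup.centralizer {x})
    (N : Subgroup G) [N.Normal] (hN : ∀ r : ℕ, r.Prime → r ∣ Nat.card N → r ∉ π) :
    ∀ y : G ⧸ N, (∀ r : ℕ, r.Prime → r ∣ orderOf y → r ∈ π) →
      Subgroup.normalizer ((Subgroup.zpowers y : Subgroup (G ⧸ N)) : Set (G ⧸ N)) ≤ Subgroup.centralizer {y} := by
  intro y hy g hg
  have hy' : PiElt π y := fun r hr hd => hy r hr hd
  have hN' : PiGrp πᶜ N := fun r hr hd => hN r hr hd
  obtain ⟨x₀, rfl⟩ := QuotientGroup.mk'_surjective N y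
  obtain ⟨g, rfl⟩ := QuotientGroup.mk'_surjective N g
  obtain ⟨x, z, hx, hz, hxπ, hzπ, e⟩ := exists_piPart π x₀
  have hc : x * z = z * x := (abel_zpowers x₀).mul_comm hx hz
  have hxx : QuotientGroup.mk' N x = QuotientGroup.mk' N x₀ := by
    have := piPart_unique (hxπ.map (QuotientGroup.mk' N)) (hzπ.map (QuotientGroup.mk' N)) hy'
      (piElt_one _) (by rw [← map_mul, ← map_mul, hc]) (by simp) (by rw [← map_mul, e, mul_one])
    exact this.1
  rw [← hxx] at hg ⊢
  have hxN : zpowers x ≤ 𝐍 N := by rw [normalizer_eq_top]; exact le_top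
  have h1 : cj g (zpowers x) ≤ N ⊔ zpowers x := by
    rw [cj_zpowers, zpowers_le]
    have := conj_mem_of_norm hg (mem_zpowers _)
    rw [← map_inv, ← map_mul, ← map_mul, ← MonoidHom.map_zpowers, ← mem_comap,
      QuotientGroup.comap_map_mk'] at this
    exact this
  obtain ⟨k, hk, h2⟩ := exists_cj_le_of_le_sup hxN h1
    ((hxπ.zpowers.cj g).coprime hN') (Or.inl (sol_cj.2 (cyc_zpowers x).sol))
  rw [cj_cj] at h2
  have h3 := mem_cent1.1 (hirr x (fun r hr hd => hxπ r hr hd) (mem_norm_of_cj_le h2))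
  have h4 := congrArg (QuotientGroup.mk' N) h3
  have hk1 : QuotientGroup.mk' N k = 1 := (QuotientGroup.eq_one_iff k).2 hk
  simp only [map_mul, hk1, one_mul] at h4
  exact mem_cent1.2 h4

end Cfsg.Agent.S4032
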