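import Cfsg.Statements.S4027
import Cfsg.Agent.S4032
import Cfsg.Agent.Loc.Sidki

set_option autoImplicit false
open Cfsg

namespace Cfsg.Agent.S4027

open CF.BG Subgroup


/-- Let G be a finite group in which every element x of odd order satisfies N_G(⟨x⟩) = C_G(x). Then the Sylow 2-subgroups of G are normal. -/
theorem result {G : Type*} [Group G] [Finite G]
    (hirr : ∀ x : G, (∀ r : ℕ, r.Prime → r ∣ orderOf x → r ≠ 2) →
      Subgroup.normalizer ((Subgroup.zpowers x : Subgroup G) : Set G) ≤ Subgroup.centralizer {x}) (P : Sylow 2 G) :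
    (P : Subgroup G).Normal := by
  haveI : Fact (Nat.Prime 2) := ⟨Nat.prime_two⟩
  set N := Cfsg.pCore 2 G with hN
  have hN2 : PiGrp {2} N := piGrp_of_isPGroup Nat.prime_two CF.Solv.pCore_isPGroup
  have h1 := S4032.result {2}ᶜ hirr N (fun r hr hd h => h (hN2 r hr hd))
  have h2 : ¬ 2 ∣ N.index := by
    intro h2
    obtain ⟨v, hv⟩ := exists_prime_orderOf_dvd_card' (G := G ⧸ N) 2 h2
    have hv1 : v ≠ 1 := by rintro rfl; simp at hv
    have hvv : v * v = 1 := by
      have := pow_orderOf_eq_one v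
      rwa [hv, pow_two] at this
    obtain ⟨x, -, hx1, hxo, hx⟩ := CF.Loc.exists_odd_inverted_of_not_mem (L := ⊤) hvv (mem_top v)
      (by
        rw [Cfsg.pCoreOf, CF.Solv.map_pCore_top, CF.Solv.pCore_quotient_pCore]
        exact hv1)
    have hx2 : PiElt {2}ᶜ x := (piNat_compl_single Nat.prime_two).2 fun h =>
      (Nat.not_even_iff_odd.2 hxo) (even_iff_two_dvd.2 h)
    have h3 : v ∈ 𝐍 (zpowers x) := by
      apply mem_norm_of_cj_le
      rw [cj_zpowers, hx, zpowers_inv]
    have h4 := mem_cent1.1 (h1 x hx2 h3)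
    rw [h4, mul_inv_cancel_right] at hx
    exact hx1 (CF.Loc.eq_one_of_odd_of_eq_inv hxo hx)
  have h3 : Syl 2 N ⊤ := syl_mk Nat.prime_two le_top hN2 (by rwa [relIndex_top_right])
  rw [h3.eq_of_normal (normalIn_top.2 inferInstance).norm (syl_sylow_top P)]
  infer_instance

end Cfsg.Agent.S4027
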