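import Cfsg.Statements.S4028
import Cfsg.Agent.BG.B11

set_option autoImplicit false
open Cfsg

namespace Cfsg.Agent.S4028

open CF.BG Subgroup


/-- Let G be a finite group with Sylow 2-subgroup P. Then N_G(⟨x⟩) = C_G(x) holds for every 2-element x of G if and only if N_P(⟨y⟩) = C_P(y) holds for every y ∈ P (computed inside P). -/
theorem result {G : Type*} [Group G] [Finite G] (P : Sylow 2 G) :
    (∀ x : G, (∀ r : ℕ, r.Prime → r ∣ orderOf x → r = 2) →
      Subgroup.normalizer ((Subgroup.zpowers x : Subgroup G) : Set G) ≤ Subgroup.centralizer {x}) ↔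
    (∀ y : ↥(P : Subgroup G), Subgroup.normalizer ((Subgroup.zpowers y : Subgroup ↥(P : Subgroup G)) : Set ↥(P : Subgroup G)) ≤
        Subgroup.centralizer {y}) := by
  have hS := syl_sylow_top P
  have hinj : Function.Injective (P : Subgroup G).subtype := Subtype.val_injective
  constructor
  · intro h y n hn
    have hy : PiElt {2} (y : G) := hS.pi.elt y.2
    have h1 : (n : G) ∈ 𝐍 (zpowers (y : G)) := by
      have := map_norm (zpowers_le.2 hn) (P : Subgroup G).subtype
      rw [MonoidHom.map_zpowers, MonoidHom.map_zpowers, zpowers_le] at this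
      exact this
    have h2 := mem_cent1.1 (h y (fun r hr hd => hy r hr hd) h1)
    exact mem_cent1.2 (Subtype.ext h2)
  · intro h x hx
    have hx' : PiElt {2} x := fun r hr hd => hx r hr hd
    apply le_of_forall_syl'
    intro p hp _ S hSN
    by_cases h2 : p = 2
    · subst h2
      have hxS : x ∈ S := hSN.mem_of_norm (le_norm_self _ (mem_zpowers x)) ?_ hx'
      swap
      · have : zpowers x ≤ S := hSN.le_of_normal (normalIn_norm _) hx'.zpowers
        exact le_norm_self _ (this (mem_zpowers x))
      obtain ⟨g, -, hg⟩ := hS.syl_cj_le le_top hSN.pi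
      intro s hs
      have a : g * x * g⁻¹ ∈ (P : Subgroup G) := hg (conj_mem_cj.2 hxS)
      have b : g * s * g⁻¹ ∈ (P : Subgroup G) := hg (conj_mem_cj.2 hs)
      have c : (⟨_, b⟩ : (P : Subgroup G)) ∈ 𝐍 (zpowers (⟨_, a⟩ : (P : Subgroup G))) := by
        rw [← zpowers_le, ← map_norm_iff hinj, MonoidHom.map_zpowers, MonoidHom.map_zpowers,
          zpowers_le]
        show g * s * g⁻¹ ∈ 𝐍 (zpowers (g * x * g⁻¹))
        rw [← cj_zpowers, ← cj_norm, conj_mem_cj]
        exact hSN.le hs
      have d : g * s * g⁻¹ ∈ 𝐂₁ (g * x * g⁻¹) :=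
        mem_cent1.2 (congrArg Subtype.val (mem_cent1.1 (h _ c)))
      rwa [← cj_cent1, conj_mem_cj] at d
    · rw [← cent_zpowers]
      apply hSN.pi.le_of_relIndex'
      have d := (cyc_zpowers x).relIndex_cent_dvd hSN.le
      obtain ⟨k, hk⟩ := hx'.zpowers.card_pow
      rw [hk] at d
      have e : (2 ^ k).totient ∣ 2 ^ k := by
        rcases k with _ | k
        · simp
        · rw [Nat.totient_prime_pow_succ Nat.prime_two]
          simp [pow_succ]
      exact ((piNat_pow_self Nat.prime_two k).dvd (d.trans e)).mono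
        (by rintro _ rfl; exact fun h => h2 (Eq.symm h))

end Cfsg.Agent.S4028
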