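import Mathlib
import Cfsg.Agent.Char.PermLemma
import Cfsg.Agent.Char.Kernel
import Cfsg.Agent.Solv.FrattiniP
import Cfsg.Statements.S4029

set_option autoImplicit false
open Cfsg

namespace Cfsg.Agent.S4029

open Subgroup CF.Solv CF.Char Cfsg

/-- Let P be a finite 2-group in which N_P(⟨y⟩) = C_P(y) for every y ∈ P. If s is the number of conjugacy classes of involutions of P, then #(P/Φ(P)) ≤ s + 1; in particular the subgroup generated by the involutions of P has order at least #(P/Φ(P)). -/
theorem result {P : Type*} [Group P] [Finite P] (hP : IsPGroup 2 P)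
    (hirr : ∀ y : P, Subgroup.normalizer ((Subgroup.zpowers y : Subgroup P) : Set P) ≤ Subgroup.centralizer {y}) :
    Nat.card (P ⧸ frattini P) ≤ Nat.card {c : ConjClasses P // ∃ y : P, ConjClasses.mk y = c ∧ orderOf y = 2} + 1 ∧
    Nat.card (P ⧸ frattini P) ≤ Nat.card (Subgroup.closure {y : P | orderOf y = 2}) := by
  classical
  haveI : Fact (Nat.Prime 2) := ⟨Nat.prime_two⟩
  have h1 : Nat.card (P ⧸ frattini P) ≤
      Nat.card {c : ConjClasses P // ∃ y : P, ConjClasses.mk y = c ∧ orderOf y = 2} + 1 := by
    have hE := isElementaryAbelian_top_iff.1 (isElementaryAbelian_quotient_frattini hP)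
    have hc : Nat.card (P ⧸ frattini P) = Nat.card ((P ⧸ frattini P) →* ℂˣ) := by
      rw [card_linear]
      haveI := hE.1
      rw [show _root_.commutator (P ⧸ frattini P) = ⊥ from ?_, index_bot]
      rw [_root_.commutator, commutator_eq_bot_iff_le_centralizer]
      intro x _ y _
      exact mul_comm' y x
    let f : ((P ⧸ frattini P) →* ℂˣ) →
        {χ : IrrCharacter P // ∀ g, ((χ : P → ℂ) g).im = 0} := fun lam =>
      ⟨⟨_, irr_linear (lam.comp (QuotientGroup.mk' _))⟩, fun g => by
        have : ((lam (g : P ⧸ frattini P) : ℂˣ) : ℂ) ^ 2 = 1 := by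
          rw [← Units.val_pow_eq_pow_val, ← map_pow, hE.2, map_one, Units.val_one]
        change ((lam (g : P ⧸ frattini P) : ℂˣ) : ℂ).im = 0
        rcases sq_eq_one_iff.1 this with h | h <;> simp [h]⟩
    have hf : Function.Injective f := by
      intro a b e
      have e2 := congrArg (fun χ => (χ.1.1 : P → ℂ)) e
      ext x
      exact congrFun e2 x
    rw [hc]
    refine (Nat.card_le_card_of_injective f hf).trans ?_
    rw [card_real_irr, ← Finite.card_option]
    let g : Option {c : ConjClasses P // ∃ y : P, ConjClasses.mk y = c ∧ orderOf y = 2} →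
        ConjClasses P := fun o => o.elim 1 Subtype.val
    have hg : ∀ C : {C : ConjClasses P // ∀ g, ConjClasses.mk g = C → IsConj g g⁻¹},
        ∃ o, g o = C.1 := by
      rintro ⟨C, hC⟩
      obtain ⟨y, rfl⟩ := ConjClasses.mk_surjective C
      obtain ⟨c, hc⟩ := isConj_iff.1 (hC y rfl)
      have hn : c ∈ normalizer ((zpowers y : Subgroup P) : Set P) := by
        refine mem_normalizer_fintype ?_
        rintro _ ⟨k, rfl⟩
        refine ⟨-k, ?_⟩
        simp only
        rw [← conj_zpow, hc]; simp
      have := mem_centralizer_iff.1 (hirr y hn) y rfl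
      have h2 : y ^ 2 = 1 := by
        rw [← this, mul_assoc, mul_inv_cancel, mul_one] at hc
        rw [sq]; nth_rewrite 1 [hc]; simp
      by_cases h1 : y = 1
      · exact ⟨none, by subst h1; rfl⟩
      · exact ⟨some ⟨_, y, rfl, orderOf_eq_prime h2 h1⟩, rfl⟩
    choose s hs using hg
    refine Nat.card_le_card_of_injective s fun a b e => Subtype.ext ?_
    rw [← hs, ← hs, e]
  refine ⟨h1, h1.trans ?_⟩
  rw [← Finite.card_option]
  have : ∀ c : {c : ConjClasses P // ∃ y : P, ConjClasses.mk y = c ∧ orderOf y = 2},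
      ∃ y : P, ConjClasses.mk y = c.1 ∧ orderOf y = 2 := fun c => c.2
  choose r hr using this
  let g : Option {c : ConjClasses P // ∃ y : P, ConjClasses.mk y = c ∧ orderOf y = 2} →
      closure {y : P | orderOf y = 2} := fun o => o.elim 1 fun c => ⟨r c, subset_closure (hr c).2⟩
  refine Nat.card_le_card_of_injective g ?_
  have h0 : ∀ c, r c ≠ 1 := fun c e => by have := (hr c).2; rw [e] at this; simp at this
  rintro (_ | a) (_ | b) e
  · rfl
  · exact absurd (congrArg Subtype.val e).symm (h0 b)
  · exact absurd (congrArg Subtype.val e) (h0 a)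
  · have e2 : r a = r b := congrArg Subtype.val e
    congr 1
    exact Subtype.ext (by rw [← (hr a).1, ← (hr b).1, e2])

end Cfsg.Agent.S4029
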