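import Mathlib
import Cfsg.Statements.S4033
import Cfsg.Agent.Fgs1.PReg2

set_option autoImplicit false
open Cfsg

namespace Cfsg.Agent.S4033

open Subgroup CF.BG CF.Fgs1

/-- Let G be a finite group and p a prime, and suppose the conjugacy classes of p-regular elements of G (elements of order prime to p) have exactly two distinct sizes. Then either G has an abelian p-complement (an abelian subgroup of order prime to p and p-power index), or there are a prime q ≠ p, a Sylow p-subgroup P, a Sylow q-subgroup Q and a central subgroup A such that PQ is a normal subgroup of order #P·#Q and G is the internal direct product PQ × A. -/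
theorem result {G : Type*} [Group G] [Finite G] {p : ℕ} (hp : p.Prime)
    (h2 : Set.ncard (Set.range fun x : {x : G // (orderOf x).Coprime p} => (ConjClasses.mk (x : G)).carrier.ncard) = 2) :
    (∃ H : Subgroup G, IsMulCommutative H ∧ ¬ p ∣ Nat.card H ∧ ∃ k : ℕ, H.index = p ^ k) ∨
    (∃ (q : ℕ) (_ : Fact q.Prime) (P : Sylow p G) (Q : Sylow q G) (A : Subgroup G), q ≠ p ∧
        A ≤ Subgroup.center G ∧ Nat.card ↥((P : Subgroup G) ⊔ (Q : Subgroup G)) = Nat.card P * Nat.card Q ∧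
        ((P : Subgroup G) ⊔ (Q : Subgroup G)).Normal ∧
        ((P : Subgroup G) ⊔ (Q : Subgroup G)) ⊓ A = ⊥ ∧ ((P : Subgroup G) ⊔ (Q : Subgroup G)) ⊔ A = ⊤) := by
  have := Fact.mk hp
  obtain ⟨m, n, mn, e⟩ := Set.ncard_eq_two.1 h2
  have k : ∀ x : G, PiElt {p}ᶜ x → (𝐂₁ x).index = m ∨ (𝐂₁ x).index = n := fun x px => by
    rw [← CF.Fgs2.ncard_carrier_mk]
    exact e.le ⟨⟨x, (piNat_compl_single_iff_coprime hp).1 px⟩, rfl⟩
  have k1 := k 1 (piElt_one _)
  rw [show 𝐂₁ (1 : G) = ⊤ by simp, index_top] at k1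
  rcases camina (H := (⊤ : Subgroup G)) hp (fun x _ y _ px nx py ny => by
    have n1 : ∀ x : G, x ∉ 𝐂 (⊤ : Subgroup G) → (𝐂₁ x).index ≠ 1 := fun x nx e =>
      nx (le_cent1_iff.1 (index_eq_one.1 e).ge)
    have e : (𝐂₁ x).index = (𝐂₁ y).index := by
      have := k x px
      have := k y py
      have := n1 x nx
      have := n1 y ny
      omega
    have e1 := (𝐂₁ x).card_mul_index
    rw [e, ← (𝐂₁ y).card_mul_index] at e1
    rw [top_inf_eq, top_inf_eq]
    exact Nat.eq_of_mul_eq_mul_right (Nat.pos_of_ne_zero FiniteIndex.index_ne_zero) e1) with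
    ⟨K, hK, aK⟩ | ⟨q, hq, qp, h⟩
  · refine Or.inl ⟨K, aK.comm, hK.pi.not_dvd' hp rfl, ?_⟩
    rw [← relIndex_top_right]
    exact hK.idx.of_compl_compl.exists_pow (relIndex_ne_zero' _ _)
  have := Fact.mk hq
  obtain ⟨P⟩ : Nonempty (Sylow p G) := inferInstance
  obtain ⟨Q⟩ : Nonempty (Sylow q G) := inferInstance
  have hA := hall_O_center (π := {p}ᶜ ∩ {q}ᶜ) (K := (⊤ : Subgroup G)) fun x hx px =>
    h x hx (px.mono Set.inter_subset_left) (px.mono Set.inter_subset_right)
  have c := (O_le ({p}ᶜ ∩ {q}ᶜ) (𝐙 (⊤ : Subgroup G))).trans inf_le_right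
  have d := hA.dprod_of_cent (cent_symm c)
  have hK := d.symm.sdprod.hall_left (O_pi _ _) (O_pi _ _).compl_compl
  have l : ∀ r (R : Subgroup G), Syl r R ⊤ → r = p ∨ r = q → R ≤ 𝐎 ({p}ᶜ ∩ {q}ᶜ)ᶜ ⊤ :=
    fun r R hR e => hK.le_normal (O_normal _ _).norm le_top (hR.pi.of_single (by
      rcases e with rfl | rfl <;> simp))
  have hP := (syl_sylow_top P).of_le (l p _ (syl_sylow_top P) (Or.inl rfl)) le_top
  have hQ := ((syl_sylow_top Q).of_le (l q _ (syl_sylow_top Q) (Or.inr rfl)) le_top).congr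
    (ρ := {p}ᶜ) fun r hr dr => ⟨fun e => e ▸ qp, fun e => by
      by_contra k
      exact O_pi _ _ r hr dr ⟨e, k⟩⟩
  refine Or.inr ⟨q, inferInstance, P, Q, _, qp, fun x hx => mem_center_iff.2 fun g =>
    mem_cent.1 (c hx) g trivial, ?_⟩
  rw [hP.sup_eq hQ]
  exact ⟨(hP.card_mul_card hQ).symm, normalIn_top.1 (O_normal _ _), d.symm.inf, d.symm.sup⟩

end Cfsg.Agent.S4033
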