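import Mathlib
import Cfsg.Statements.S4034
import Cfsg.Agent.Fgs1.ClassSize

set_option autoImplicit false
open Cfsg

namespace Cfsg.Agent.S4034

open Subgroup

universe u

theorem ncard_eq {G : Type*} [Group G] (x : G) :
    (ConjClasses.mk x).carrier.ncard = (centralizer ({x} : Set G)).index := by
  rw [← CF.Char.card_carrier_eq_index, Nat.card_coe_set_eq]

theorem abelian_of {G : Type u} [Group G] [Finite G] {p : ℕ} (hp : p.Prime)
    (h : ∀ x : G, (orderOf x).Coprime p → ∃ k, (centralizer ({x} : Set G)).index = p ^ k)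
    (H : Subgroup G) (hH : Cfsg.IsPiHall {p}ᶜ H) : ∀ a ∈ H, ∀ b ∈ H, a * b = b * a := by
  haveI := Fact.mk hp
  have hH' := (CF.Solv.isPiHall_compl_singleton_iff hp).1 hH
  -- pass to the quotient by the `p`-core
  set N := Cfsg.pCore p G with hN
  haveI : N.Normal := inferInstance
  set f := QuotientGroup.mk' N with hf
  have hfs : Function.Surjective f := QuotientGroup.mk'_surjective N
  have hq : ∀ x : G ⧸ N, (orderOf x).Coprime p →
      ∃ k, (centralizer ({x} : Set (G ⧸ N))).index = p ^ k := by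
    intro x hx
    obtain ⟨y, rfl⟩ := hfs x
    obtain ⟨z, -, hz, hzy⟩ := CF.Transfer.exists_coprime_lift (p := p) f
      (isOfFinOrder_of_finite y) hx
    obtain ⟨k, hk⟩ := h z hz
    rw [← hzy]
    exact CF.Fgs1.exists_pow_of_dvd_pow hp (hk ▸ CF.Fgs1.index_centralizer_map_dvd hfs z)
  haveI := CF.Fgs1.isSolvable_of_regular_class_pow hp hq
  have h0 : Cfsg.pCore p (G ⧸ N) = ⊥ := CF.Solv.pCore_quotient_pCore
  have hF : Cfsg.fittingSubgroup (G ⧸ N) ≤ Cfsg.pPrimeCore p (G ⧸ N) := by
    simpa [h0] using CF.Solv.fitting_le_pCore_sup_pPrimeCore (G := G ⧸ N) p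
  have hFc : (Nat.card (Cfsg.fittingSubgroup (G ⧸ N))).Coprime p :=
    Nat.Coprime.coprime_dvd_left (card_dvd_of_le hF) CF.Solv.pPrimeCore_coprime
  have hcent : ∀ x : G ⧸ N, (orderOf x).Coprime p →
      Cfsg.fittingSubgroup (G ⧸ N) ≤ centralizer ({x} : Set (G ⧸ N)) := by
    intro x hx
    obtain ⟨k, hk⟩ := hq x hx
    exact CF.Solv.normal_le_of_coprime_index (hk ▸ hFc.pow_right k)
  have hord : ∀ a ∈ H, (orderOf (f a)).Coprime p := fun a ha =>
    Nat.Coprime.coprime_dvd_left ((orderOf_map_dvd f a).trans (H.orderOf_dvd_natCard ha)) hH'.1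
  have hmem : ∀ a ∈ H, f a ∈ Cfsg.fittingSubgroup (G ⧸ N) := by
    intro a ha
    apply CF.Solv.centralizer_fitting_le
    rw [mem_centralizer_iff]
    intro y hy
    exact ((mem_centralizer_iff.1 (hcent _ (hord a ha) hy)) _ rfl).symm
  intro a ha b hb
  have hab : f a * f b = f b * f a :=
    (mem_centralizer_iff.1 (hcent _ (hord a ha) (hmem b hb))) _ rfl
  have hc : a * b * (b * a)⁻¹ ∈ N ⊓ H := by
    refine ⟨?_, H.mul_mem (H.mul_mem ha hb) (H.inv_mem (H.mul_mem hb ha))⟩
    rw [← QuotientGroup.ker_mk' N]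
    change f _ = 1
    rw [map_mul, map_inv, map_mul, map_mul, hab, mul_inv_cancel]
  rw [CF.Solv.inf_eq_bot_of_isPGroup_of_coprime CF.Solv.pCore_isPGroup hH'.1, mem_bot] at hc
  exact mul_inv_eq_one.1 hc


/-- Let G be a finite group and p a prime. Every conjugacy class of p-regular elements of G (elements of order prime to p) has p-power size if and only if G has an abelian p-complement, i.e. an abelian subgroup of order prime to p and p-power index. -/
theorem result {G : Type*} [Group G] [Finite G] {p : ℕ} (hp : p.Prime) :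
    (∀ x : G, (orderOf x).Coprime p → ∃ k : ℕ, (ConjClasses.mk x).carrier.ncard = p ^ k) ↔
    (∃ H : Subgroup G, IsMulCommutative H ∧ ¬ p ∣ Nat.card H ∧ ∃ k : ℕ, H.index = p ^ k) := by
  simp only [ncard_eq]
  constructor
  · intro h
    haveI := CF.Fgs1.isSolvable_of_regular_class_pow hp h
    obtain ⟨H, hH⟩ := CF.Solv.exists_isPiHall (G := G) {p}ᶜ
    have hH' := (CF.Solv.isPiHall_compl_singleton_iff hp).1 hH
    refine ⟨H, ⟨⟨fun a b => Subtype.ext (abelian_of hp h H hH _ a.2 _ b.2)⟩⟩, ?_, hH'.2⟩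
    exact (Nat.Prime.coprime_iff_not_dvd hp).1 hH'.1.symm
  · rintro ⟨H, hab, hnd, k, hk⟩ x hx
    haveI := CF.Fgs1.isSolvable_of_abelian_index_pow hp H hk
    have hH : Cfsg.IsPiHall {p}ᶜ H := (CF.Solv.isPiHall_compl_singleton_iff hp).2
      ⟨((Nat.Prime.coprime_iff_not_dvd hp).2 hnd).symm, k, hk⟩
    obtain ⟨g, hg⟩ := CF.Solv.exists_conj_le_isPiHall hH (K := Subgroup.zpowers x)
      (by rw [Nat.card_zpowers, CF.Solv.piNum_compl_singleton_iff hp]; exact hx)
    have hmem : g * x * g⁻¹ ∈ H := hg (CF.Solv.conj_mem_conj_smul (Subgroup.mem_zpowers x) g)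
    have hle : H ≤ Subgroup.centralizer ({g * x * g⁻¹} : Set G) := by
      intro y hy
      rw [Subgroup.mem_centralizer_iff]
      rintro _ rfl
      exact congrArg Subtype.val (IsMulCommutative.is_comm.comm (⟨_, hmem⟩ : H) ⟨y, hy⟩)
    have h1 : (Subgroup.centralizer ({x} : Set G)).index =
        (Subgroup.centralizer ({g * x * g⁻¹} : Set G)).index := by
      have e := CF.Char.card_centralizer_eq_of_isConj (isConj_iff.2 ⟨g, rfl⟩ : IsConj x (g * x * g⁻¹))
      have e1 := (Subgroup.centralizer ({x} : Set G)).card_mul_index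
      have e2 := (Subgroup.centralizer ({g * x * g⁻¹} : Set G)).card_mul_index
      rw [← e, ← e1] at e2
      exact (Nat.eq_of_mul_eq_mul_left Nat.card_pos e2).symm
    rw [h1]
    exact CF.Fgs1.exists_pow_of_dvd_pow hp (hk ▸ Subgroup.index_dvd_of_le hle)

end Cfsg.Agent.S4034
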