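import Cfsg.Statements.S4035
import Cfsg.Agent.BG.B11
import Cfsg.Agent.Fgs2.Basic2

set_option autoImplicit false
open Cfsg

namespace Cfsg.Agent.S4035

open CF.BG Subgroup


/-- Let G be a finite group and p a prime such that p divides the size of no conjugacy class of p-regular elements (elements of order prime to p). Then G is the internal direct product of a Sylow p-subgroup P and a normal subgroup H of order prime to p: P is normal, P ⊓ H = 1 and PH = G. -/
theorem result {G : Type*} [Group G] [Finite G] {p : ℕ} [Fact p.Prime]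
    (h : ∀ x : G, (orderOf x).Coprime p → ¬ p ∣ (ConjClasses.mk x).carrier.ncard) (P : Sylow p G) :
    (P : Subgroup G).Normal ∧ ∃ H : Subgroup G, H.Normal ∧ ¬ p ∣ Nat.card H ∧
      (P : Subgroup G) ⊓ H = ⊥ ∧ (P : Subgroup G) ⊔ H = ⊤ := by
  have hp : p.Prime := Fact.out
  have hP := syl_sylow_top P
  have h1 : (P : Subgroup G) ⊔ 𝐂 (P : Subgroup G) = ⊤ := by
    by_contra hne
    obtain ⟨g, hg⟩ := CF.Fgs2.exists_forall_conj_notMem hne
    obtain ⟨u, v, hu, hv, hup, hvp, e⟩ := exists_piPart {p} g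
    have h2 := h v ((piNat_compl_single_iff_coprime hp).1 hvp)
    rw [CF.Fgs2.ncard_carrier_mk] at h2
    have huv : u ∈ 𝐂₁ v := mem_cent1.2 ((abel_zpowers g).mul_comm hu hv)
    obtain ⟨S, hS, huS⟩ := exists_syl_le (zpowers_le.2 huv) hup.zpowers
    have hS' : Syl p S ⊤ := hS.trans_idx le_top
      (by rw [relIndex_top_right]; exact (piNat_compl_single hp).2 h2)
    obtain ⟨k, -, hk⟩ := hS'.syl_conj hP
    apply hg k⁻¹
    rw [← mem_cj, cj_sup, cj_cent, hk, cj_inv_cj, ← e]
    exact mul_mem (mem_sup_left (huS (mem_zpowers u))) (mem_sup_right (le_cent1_iff.1 hS.le))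
  have hn : ⊤ ≤ 𝐍 (P : Subgroup G) := h1 ▸ sup_le (le_norm_self _) (cent_le_norm _)
  obtain ⟨H, hH, hH'⟩ := hP.exists_compl hn
  have hC : 𝐂 (P : Subgroup G) ⊴ ⊤ := ⟨le_top, norm_cent hn⟩
  have hHC : H ≤ 𝐂 (P : Subgroup G) := by
    refine hH'.pi.le_of_relIndex le_top hC.norm ?_
    rw [← h1, relIndex_sup_norm (Or.inl (le_top.trans hC.norm))]
    exact (hP.pi.relIndex _).compl_compl
  exact ⟨normalIn_top.1 hH.normal, H, normalIn_top.1 (hH.dprod hHC).normal_right,
    hH'.pi.not_dvd' hp rfl, hH.inf, hH.sup⟩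

end Cfsg.Agent.S4035
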