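import Cfsg.Statements.S4036
import Cfsg.Agent.BG.B11
import Cfsg.Agent.Coprime.Action

set_option autoImplicit false
open Cfsg

namespace Cfsg.Agent.S4036

open CF.BG Subgroup CF.Coprime


/-- Let P be a finite abelian p-group and K a group of automorphisms of P (a subgroup of Aut P) whose order is divisible by p. If all non-identity elements of K have the same fixed-point subgroup on P, then K has no non-trivial normal subgroup of order prime to p. -/
theorem result {P : Type*} [CommGroup P] [Finite P] {p : ℕ}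
    [Fact p.Prime] (hP : IsPGroup p P) (K : Subgroup (MulAut P)) (hK : p ∣ Nat.card K)
    (hfix : ∀ x y : MulAut P, x ∈ K → y ∈ K → x ≠ 1 → y ≠ 1 → ∀ v : P, x v = v ↔ y v = v) :
    ∀ N : Subgroup ↥K, N.Normal → ¬ p ∣ Nat.card N → N = ⊥ := by
  intro N hN hpN
  have hp : p.Prime := Fact.out
  by_contra h1
  obtain ⟨n, hn, hn1⟩ := exists_mem_ne_one h1
  obtain ⟨k, hk⟩ := exists_prime_orderOf_dvd_card' p hK
  have hk1 : k ≠ 1 := by rintro rfl; rw [orderOf_one] at hk; exact hp.one_lt.ne hk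
  let φ : K →* MulAut P := K.subtype
  have hV : PiGrp {p} (sdL φ ⊤) :=
    piGrp_of_isPGroup hp ((isPGroup_sdL_iff φ).2 (hP.to_subgroup ⊤))
  have hA : Abel (sdL φ ⊤) := Abel.of_comm ((isMulCommutative_sdL_iff φ).2 inferInstance)
  have hN' : PiGrp {p}ᶜ (sdR φ N) := by
    show PiNat _ _
    rw [card_sdR]; exact (piNat_compl_single hp).2 hpN
  have hn' : ∀ B, sdR φ B ≤ 𝐍 (sdL φ ⊤) := fun B => (inv_top φ B).le_normalizer
  have h2 := hA.comm_inf_cent (hn' N) (hN'.coprime' hV)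
  have hkN : sdR φ (zpowers k) ≤ 𝐍 (sdR φ N) := map_norm (by rw [normalizer_eq_top]; exact le_top) _
  have hkp : PiGrp {p} (sdR φ (zpowers k)) := by
    apply piGrp_of_card_prime hp
    rw [card_sdR, Nat.card_zpowers, hk]
  have h3 : ⁅sdL φ ⊤, sdR φ N⁆ ≠ ⊥ := by
    intro h
    rw [comm_eq_bot, sdL_le_centralizer_iff] at h
    apply hn1
    ext v
    exact (mem_fixSub φ).1 (h (mem_top v)) n hn
  have h4 := hkp.inf_cent_ne_bot (hV.le (comm_le_left (hn' N))) (norm_commutator (hn' _) hkN) h3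
  apply h4
  rw [eq_bot_iff, ← h2]
  rintro x ⟨hx1, hx2⟩
  refine ⟨hx1, ?_⟩
  obtain ⟨v, -, rfl⟩ := comm_le_left (hn' N) hx1
  have h5 := (mem_fixSub φ).1 ((inl_mem_centralizer_iff φ).1 hx2) k (mem_zpowers k)
  refine (inl_mem_centralizer_iff φ).2 ((mem_fixSub φ).2 fun b hb => ?_)
  by_cases hb1 : b = 1
  · rw [hb1, map_one]; rfl
  · exact (hfix k b k.2 b.2 (fun h => hk1 (Subtype.ext h)) (fun h => hb1 (Subtype.ext h)) v).1 h5

end Cfsg.Agent.S4036
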