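import Cfsg.Statements.S4038
import Cfsg.Agent.SolvStr.InvMax
import Cfsg.Agent.Hyp.FTProof
import Cfsg.Agent.Coprime.Action

set_option autoImplicit false
open Cfsg

namespace Cfsg.Agent.S4038

/-- Let A and G be finite groups of coprime orders with A acting on G by automorphisms. Suppose G has a proper A-invariant subgroup M, maximal among proper A-invariant subgroups, which is nilpotent and whose Sylow 2-subgroups have nilpotency class at most 2. Then G is solvable. -/
theorem result {G A : Type*} [Group G] [Finite G]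
    [Group A] [Finite A] (φ : A →* MulAut G) (hcop : (Nat.card A).Coprime (Nat.card G))
    (M : Subgroup G) (hMtop : M ≠ ⊤) (hMinv : ∀ a : A, ∀ m : G, m ∈ M → φ a m ∈ M)
    (hMmax : ∀ H : Subgroup G, M ≤ H → H ≠ ⊤ → (∀ a : A, ∀ h : G, h ∈ H → φ a h ∈ H) → H = M)
    (hnil : Group.IsNilpotent M) (h2 : ∀ S : Sylow 2 ↥M, Group.nilpotencyClass ↥(S : Subgroup ↥M) ≤ 2) :
    Group.IsSolvable G := by
  open CF.BG CF.Coprime in
  rw [← isSolvable_top_iff, ← isSolvable_sdL_iff φ]
  refine CF.SolvStr.sol_of_max_inv (A := sdR φ ⊤) (M := sdL φ M) (inv_top φ ⊤).le_normalizer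
    (sd_coprime φ (coprime_sub hcop ⊤ ⊤)) ((sdL_le_iff φ).2 le_top)
    (Inv.le_normalizer fun a _ => hMinv a) (fun X a b c => ?_) ((isNilpotent_sdL_iff φ).2 hnil) ?_
  · obtain ⟨Y, -, rfl⟩ := exists_sdL_eq φ b
    by_cases e : Y = ⊤
    · exact Or.inr (e ▸ rfl)
    · rw [hMmax Y ((sdL_le_iff φ).1 a) e fun x => (sdR_le_normalizer_iff φ).1 c x trivial]
      exact Or.inl rfl
  · rw [← map_O _ _ SemidirectProduct.inl_injective, ← Subgroup.map_commutator]
    refine map_cent ?_ _
    obtain ⟨P, hP⟩ := (Nil.hall_O hnil {2}).exists_sylow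
    have := Subgroup.lowerCentralSeries_eq_bot_of_nilpotencyClass_le (h2 P)
    rw [← hP, ← Subgroup.map_commutator]
    exact map_cent (comm_eq_bot.1 this) _

end Cfsg.Agent.S4038
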