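import Cfsg.Statements.S4039
import Cfsg.Agent.SolvStr.Centric

set_option autoImplicit false
open Cfsg

namespace Cfsg.Agent.S4039

/-- A finite group possessing a maximal subgroup that is nilpotent of class at most 2 is solvable. -/
theorem result {G : Type*} [Group G] [Finite G]
    (M : Subgroup G) (hmax : IsCoatom M) (hnil : Group.IsNilpotent M) (hcl : Group.nilpotencyClass ↥M ≤ 2) :
    Group.IsSolvable G := by
  refine CF.SolvStr.isSolvable_of_coatom_class_two hmax hnil ?_
  have h := Subgroup.upperCentralSeries_eq_top_iff_nilpotencyClass_le.2 hcl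
  rw [commutator_def, Subgroup.commutator_le, ← Subgroup.upperCentralSeries_one]
  intro x _ y _
  exact Subgroup.mem_upperCentralSeries_succ_iff.1 (h ▸ Subgroup.mem_top x) y

end Cfsg.Agent.S4039
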