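import Cfsg.Statements.S4043
import Cfsg.Agent.SolvStr.Centric
import Cfsg.Agent.SolvStr.Factor2

set_option autoImplicit false
open Cfsg

namespace Cfsg.Agent.S4043

open Subgroup CF.Solv CF.SolvStr CF.Transfer in
theorem norm_eq {G : Type*} [Group G] [Finite G] {p : ℕ}
    [Fact p.Prime] (N : Subgroup G) [N.Normal] (hN : IsPGroup p N) (A : Subgroup G)
    (hA : A.IsComplement' N) (hAp : HasNormalPComplement p A)
    (hC : ∀ n : G, n ∈ N → (∀ a : G, a ∈ A → a * n * a⁻¹ = n) → n = 1) :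
    normalizer (pRes p A : Set G) = A := by
  have hK := hasNPC_subgroup_iff_coprime.1 hAp
  have h1 := le_normalizer_pRes (p := p) A
  set K := pRes p A
  have h2 : N ⊓ centralizer (K : Set G) = ⊥ := by
    by_contra h
    obtain ⟨S, hS⟩ := exists_isSylowIn p A
    have h3 : S ≤ normalizer ((N ⊓ centralizer (K : Set G) : Subgroup G) : Set G) :=
      CF.PLocal.le_normalizer_inf le_normalizer_of_normal
        (CF.PLocal.le_normalizer_centralizer (hS.le.trans h1))
    have h4 := card_modEq_card_inf_centralizer hS.isPGroup h3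
    have h5 : N ⊓ centralizer (K : Set G) ⊓ centralizer (S : Set G) = ⊥ := by
      rw [inf_assoc, ← CF.PLocal.centralizer_sup, sup_comm, hS.sup_pRes, eq_bot_iff]
      rintro n ⟨hn, hn'⟩
      exact hC n hn fun a ha => by rw [hn' a ha, mul_inv_cancel_right]
    rw [h5, card_bot] at h4
    have := (nontrivial_iff_ne_bot _).2 h
    have h6 := (hN.to_le (inf_le_left (b := centralizer (K : Set G)))).card_eq_or_dvd.resolve_left
      Finite.one_lt_card.ne'
    exact (Fact.out : p.Prime).one_lt.ne' (Nat.dvd_one.1 ((h4.dvd_iff dvd_rfl).1 h6))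
  refine le_antisymm ?_ h1
  rw [← top_inf_eq (normalizer _), ← hA.sup_eq_top, sup_inf_assoc N h1]
  refine sup_le le_rfl (le_trans ?_ bot_le)
  rw [← h2]
  refine le_inf inf_le_left (le_centralizer_of_le_normalizer_of_inf_eq_bot inf_le_right
    (CF.PLocal.le_normalizer_inf le_normalizer_of_normal (le_normalizer.trans le_normalizer))
    (inf_eq_bot_of_isPGroup_of_coprime (hN.to_le inf_le_left) hK))

open Subgroup CF.Solv CF.SolvStr CF.Transfer in
theorem hall {G : Type*} [Group G] [Finite G] {p : ℕ}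
    [hp : Fact p.Prime] (N : Subgroup G) [N.Normal] (hN : IsPGroup p N) (A : Subgroup G)
    (hA : A.IsComplement' N) (hAp : HasNormalPComplement p A) :
    IsPiHall {p}ᶜ (pRes p A) ∧ IsPSolvable p G ∧
      pRes p A ⊔ N = (pResidual p (G ⧸ N)).comap (QuotientGroup.mk' N) := by
  have h1 : A.map (QuotientGroup.mk' N) = ⊤ := map_mk'_eq_top_iff.2 hA.sup_eq_top
  refine ⟨(isPiHall_compl_singleton_iff hp.out).2 ⟨hasNPC_subgroup_iff_coprime.1 hAp, ?_⟩, ?_, ?_⟩
  · obtain ⟨a, ha⟩ := relIndex_pRes (p := p) A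
    obtain ⟨b, hb⟩ := IsPGroup.iff_card.1 hN
    exact ⟨a + b, by rw [← relIndex_mul_index (pRes_le A), ha, hA.symm.index_eq_card, hb, pow_add]⟩
  · refine isPSolvable_of_normal_of_quotient N (CF.PLocal.isPSolvable_of_isPGroup hN)
      (CF.PLocal.isPSolvable_of_hasNPC (hasNPC_top_iff.1 (h1 ▸ HasNPC.map hAp _)))
  · rw [← comap_map_mk', map_pRes, h1, pRes_top]


/-- Let G be a finite group that is the semidirect product of a normal p-subgroup N by a subgroup A, and also of N by a subgroup A₁, where p is a prime and A and A₁ both have normal p-complements. If C_N(A) = C_N(A₁) = 1, then A₁ is conjugate to A by an element of N. -/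
theorem result {G : Type*} [Group G] [Finite G] {p : ℕ}
    [Fact p.Prime] (N : Subgroup G) [N.Normal] (hN : IsPGroup p N) (A A₁ : Subgroup G)
    (hA : A.IsComplement' N) (hA₁ : A₁.IsComplement' N)
    (hAp : Cfsg.HasNormalPComplement p A) (hA₁p : Cfsg.HasNormalPComplement p A₁)
    (hC : ∀ n : G, n ∈ N → (∀ a : G, a ∈ A → a * n * a⁻¹ = n) → n = 1)
    (hC₁ : ∀ n : G, n ∈ N → (∀ a : G, a ∈ A₁ → a * n * a⁻¹ = n) → n = 1) :
    ∃ n : G, n ∈ N ∧ A₁ = A.map (MulAut.conj n).toMonoidHom := by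
  open Subgroup CF.Solv CF.SolvStr CF.Transfer in
  obtain ⟨h1, h2, h3⟩ := hall N hN A hA hAp
  obtain ⟨h4, -, h5⟩ := hall N hN A₁ hA₁ hA₁p
  have h6 := (CF.Solv.isPSolvable_iff_isPiSep.1 h2).compl
  obtain ⟨g, hg, e⟩ := (h6.subgroup (CF.Transfer.pRes p A ⊔ N)).isPiHallOf_conj
    CF.Solv.hallOK_compl_singleton (CF.Solv.isPiHallOf_of_isPiHall h1 le_sup_left)
    (CF.Solv.isPiHallOf_of_isPiHall h4 (by rw [h3, ← h5]; exact le_sup_left))
  rw [sup_comm] at hg
  obtain ⟨n, hn, k, hk, rfl⟩ := (CF.Solv.mem_sup_of_le_normalizer'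
    Subgroup.le_normalizer_of_normal).1 hg
  refine ⟨n, hn, ?_⟩
  rw [CF.Transfer.conj_smul_eq_cj, CF.Transfer.cj_mul, CF.Transfer.cj_eq_of_mem hk] at e
  rw [← norm_eq N hN A₁ hA₁ hA₁p hC₁, ← e, CF.Transfer.normalizer_cj, norm_eq N hN A hA hAp hC]
  rfl

end Cfsg.Agent.S4043
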