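import Cfsg.Statements.S4049
import Cfsg.Agent.SolvStr.Homog

set_option autoImplicit false
open Cfsg

namespace Cfsg.Agent.S4049

/-- Let G be a finite group such that N_G(H)/C_G(H) has odd order for every nontrivial subgroup H of odd order. Then the Sylow 2-subgroups of G are normal. -/
theorem result {G : Type*} [Group G] [Finite G]
    (hhom : ∀ H : Subgroup G, H ≠ ⊥ → ¬ 2 ∣ Nat.card ↥H →
        ¬ 2 ∣ (Subgroup.centralizer (H : Set G)).relIndex (Subgroup.normalizer (H : Set G))) (P : Sylow 2 G) :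
    (P : Subgroup G).Normal := by
  open CF.Transfer CF.SolvStr CF.Solv in
  by_contra hP
  obtain ⟨x, n, h1, h2, h3⟩ := exists_odd_inverted P hP
  have hn : n ∈ Subgroup.normalizer (Subgroup.zpowers x : Set G) := by
    refine mem_normalizer_of_cj_le ?_
    rw [cj_zpowers, h3, Subgroup.zpowers_inv]
  refine hhom (Subgroup.zpowers x) (by simpa using h1)
    (by rw [Nat.card_zpowers]; exact h2.not_two_dvd_nat) ?_
  set C := (Subgroup.centralizer (Subgroup.zpowers x : Set G)).subgroupOf
    (Subgroup.normalizer (Subgroup.zpowers x : Set G)) with hC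
  have h4 : orderOf ((⟨n, hn⟩ : Subgroup.normalizer (Subgroup.zpowers x : Set G)) :
      _ ⧸ C) = 2 := by
    refine orderOf_eq_prime ?_ ?_
    · rw [← QuotientGroup.mk_pow, QuotientGroup.eq_one_iff, hC, Subgroup.mem_subgroupOf]
      rintro _ ⟨k, rfl⟩
      refine Commute.zpow_left ?_ k
      change x * n ^ 2 = n ^ 2 * x
      have h5 : n * x⁻¹ * n⁻¹ = x := by
        rw [← conj_inv, h3, inv_inv]
      calc x * n ^ 2 = (n * x⁻¹ * n⁻¹) * n ^ 2 := by rw [h5]
        _ = n * (n * x * n⁻¹) * n⁻¹ * n ^ 2 := by rw [h3]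
        _ = _ := by simp [sq, mul_assoc]
    · rw [Ne, QuotientGroup.eq_one_iff, hC, Subgroup.mem_subgroupOf]
      intro h5
      have h6 : x * n = n * x := h5 x (Subgroup.mem_zpowers x)
      rw [← h6, mul_inv_cancel_right] at h3
      have h7 : orderOf x ∣ 2 := orderOf_dvd_of_pow_eq_one (by rw [sq]; nth_rw 1 [h3]; simp)
      rcases (Nat.dvd_prime Nat.prime_two).1 h7 with h | h
      · exact h1 (orderOf_eq_one_iff.1 h)
      · rw [h] at h2; exact absurd h2 (by decide)
  rw [← h4]
  exact orderOf_dvd_natCard _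

end Cfsg.Agent.S4049
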