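import Cfsg.Statements.S4052
import Cfsg.Agent.Fgs3.Misc
import Cfsg.Agent.S0877

set_option autoImplicit false
open Cfsg

namespace Cfsg.Agent.S4052

open CF.BG CF.Fgs3 Subgroup

section
variable {G : Type*} [Group G] [Finite G] {π : Set ℕ}

theorem bs_ambient {H M : Subgroup G} (hH : Hall π H M)
    (hf : ∀ x ∈ H, ∀ g ∈ M, g * x * g⁻¹ ∈ H → ∃ h ∈ H, h * x * h⁻¹ = g * x * g⁻¹)
    (hD : ∀ U, U ≤ M → PiGrp π U → ∃ g ∈ M, cj g U ≤ H) : ∃ K, SDProd K H M := by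
  obtain ⟨H', rfl⟩ := exists_map_subtype hH.le
  have hH' : Hall π H' ⊤ := (hall_map_iff M.subtype_injective).1 (by rwa [map_top_subtype])
  have key : ∃ K : Subgroup M, K.Normal ∧ K ⊔ H' = ⊤ ∧ K ⊓ H' = ⊥ := ?_
  · obtain ⟨K, hK, h1, h2⟩ := key
    have := (SDProd.of_normal (normalIn_top.2 hK) h1 h2).map M.subtype_injective
    rw [map_top_subtype] at this
    exact ⟨_, this⟩
  refine Cfsg.Agent.S0877.result H'
    (by have := hH'.coprime; rwa [Subgroup.relIndex_top_right] at this) ?_ ?_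
  · intro x hx y hy hc
    obtain ⟨g, rfl⟩ := isConj_iff.1 hc
    obtain ⟨_, ⟨h, hh, rfl⟩, e⟩ := hf x ⟨x, hx, rfl⟩ g g.2 ⟨_, hy, rfl⟩
    exact ⟨h, hh, Subtype.ext e⟩
  · intro E p _ _ hd
    obtain ⟨g, hg, e⟩ := hD (E.map M.subtype) (map_subtype_le _)
      ((piGrp_map_iff M.subtype_injective).2 (PiNat.dvd hH'.pi hd))
    refine ⟨⟨g, hg⟩, ?_⟩
    rw [← cj_def, ← map_le_map_iff_of_injective M.subtype_injective, map_cj]
    exact e

theorem trans_aux {H M : Subgroup G} (hH : Hall π H M)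
    (hD : ∀ U, U ≤ M → PiGrp π U → ∃ g ∈ M, cj g U ≤ H)
    (hh : ∀ U, U ≤ M → PiGrp π U → PiNat π ((𝐂 U).relIndex (M ⊓ 𝐍 U))) {p : ℕ} (hp : p ∈ π)
    (U : Subgroup G) (hU : PiGrp {p} U) (H1 H2 : Subgroup G) (h1 : Hall π H1 M) (h2 : Hall π H2 M)
    (a1 : U ≤ H1) (a2 : U ≤ H2) : ∃ c ∈ M ⊓ 𝐂 U, H2 = cj c H1 := by
  have ex : ∀ Y, Y ≤ M → PiGrp π Y → ∃ L, Hall π L M ∧ Y ≤ L := fun Y hY hY' => by
    obtain ⟨g, hg, e⟩ := hD Y hY hY'
    exact ⟨cj g⁻¹ H, hH.cj_of_mem (inv_mem hg), cj_le_iff.1 e⟩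
  have conj : ∀ A B, Hall π A M → Hall π B M → ∃ g ∈ M, B = cj g A := fun A B hA hB => by
    obtain ⟨g, hg, e⟩ := hD A hA.le hA.pi
    obtain ⟨g', hg', e'⟩ := hD B hB.le hB.pi
    have e1 := (hA.cj_of_mem hg).eq_of_le' hH e
    have e2 := (hB.cj_of_mem hg').eq_of_le' hH e'
    exact ⟨g'⁻¹ * g, mul_mem (inv_mem hg') hg, by rw [← cj_cj, e1, ← e2, cj_inv_cj]⟩
  by_contra hne
  obtain ⟨U, ⟨hU, H1, H2, h1, h2, a1, a2, hne⟩, hmax⟩ := exists_max_card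
    (P := fun U => PiGrp {p} U ∧ ∃ H1 H2, Hall π H1 M ∧ Hall π H2 M ∧ U ≤ H1 ∧ U ≤ H2 ∧
      ¬ ∃ c ∈ M ⊓ 𝐂 U, H2 = cj c H1) ⟨hU, H1, H2, h1, h2, a1, a2, hne⟩
  have big : ∀ V, U < V → PiGrp {p} V → ∀ A B, Hall π A M → Hall π B M → V ≤ A → V ≤ B →
      ∃ c ∈ M ⊓ 𝐍 U, B = cj c A := by
    intro V hV hV' A B hA hB b1 b2
    by_contra hc
    refine (hmax V ⟨hV', A, B, hA, hB, b1, b2, ?_⟩).not_gt (card_lt hV)
    rintro ⟨c, hc', e⟩
    exact hc ⟨c, ⟨hc'.1, cent_le_norm _ (cent_anti hV.le hc'.2)⟩, e⟩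
  set N := M ⊓ 𝐍 U with hN
  have stepA : ∀ A B, Hall π A M → Hall π B M → U ≤ A → U ≤ B → ∃ n ∈ N, B = cj n A := by
    intro A B hA hB b1 b2
    obtain ⟨P1, hP1, c1⟩ := exists_syl_le b1 hU
    obtain ⟨P2, hP2, c2⟩ := exists_syl_le b2 hU
    have hc : ♯P1 = ♯P2 := (hP1.syl_trans hA hp).card_eq (hP2.syl_trans hB hp)
    by_cases e : U = P1
    · have e' : U = P2 := eq_of_card_eq c2 (by rw [← hc, ← e])
      rw [← e] at hP1
      rw [← e'] at hP2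
      obtain ⟨g, hg, rfl⟩ := conj A B hA hB
      obtain ⟨h, hh, e2⟩ := hP2.syl_conj (hP1.cj g)
      refine ⟨h⁻¹ * g, ⟨M.mul_mem (M.inv_mem (hB.le hh)) hg, cj_eq_self.1 ?_⟩, ?_⟩
      · rw [← cj_cj, e2, cj_inv_cj]
      · rw [← cj_cj, cj_of_mem (inv_mem hh)]
    have l1 : U < P1 := lt_of_le_of_ne c1 e
    have l2 : U < P2 := lt_of_le_of_ne c2 fun e' => e (eq_of_card_eq c1 (by rw [hc, ← e']))
    have m1 := hP1.pi.nil.lt_inf_norm l1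
    have m2 := hP2.pi.nil.lt_inf_norm l2
    obtain ⟨Q1, hQ1, d1⟩ := exists_syl_le (M := N) (inf_le_inf_right _ (hP1.le.trans hA.le))
      hP1.pi.inf_left
    obtain ⟨Q2, hQ2, d2⟩ := exists_syl_le (M := N) (inf_le_inf_right _ (hP2.le.trans hB.le))
      hP2.pi.inf_left
    obtain ⟨n, hn, rfl⟩ := hQ1.syl_conj hQ2
    obtain ⟨L, hL, f⟩ := ex Q1 (hQ1.le.trans inf_le_left) (hQ1.pi.of_single hp)
    obtain ⟨x, hx, rfl⟩ := big _ m1 hP1.pi.inf_left A L hA hL (inf_le_left.trans hP1.le) (d1.trans f)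
    obtain ⟨y, hy, rfl⟩ := big _ m2 hP2.pi.inf_left _ B (hL.cj_of_mem hn.1) hB
      (d2.trans (cj_mono _ f)) (inf_le_left.trans hP2.le)
    exact ⟨y * n * x, mul_mem (mul_mem hy hn) hx, by rw [cj_cj, cj_cj]⟩
  have hUM : U ≤ M := a1.trans h1.le
  have hCN : M ⊓ 𝐂 U ≤ N := inf_le_inf_left _ (cent_le_norm _)
  have nC : N ≤ 𝐍 (M ⊓ 𝐂 U) := norm_inf_cent (norm_of_le inf_le_left) inf_le_right
  have hT : N ≤ (M ⊓ 𝐂 U) ⊔ (N ⊓ 𝐍 H1) := by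
    refine le_of_forall_syl fun r hr _ => ?_
    obtain ⟨R, hR⟩ := exists_syl r N
    by_cases hrπ : r ∈ π
    · obtain ⟨L, hL, f⟩ := ex (U ⊔ R) (sup_le hUM (hR.le.trans inf_le_left))
        ((hU.of_single hp).sup (hR.pi.of_single hrπ) (Or.inr (hR.le.trans inf_le_right)))
      obtain ⟨n, hn, rfl⟩ := stepA H1 L h1 hL a1 (le_sup_left.trans f)
      have hR' := hR.cj_of_mem (inv_mem hn)
      exact ⟨_, hR', le_sup_of_le_right (le_inf hR'.le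
        (norm_of_le (le_cj_iff.1 (le_sup_right.trans f))))⟩
    · refine ⟨R, hR, le_sup_of_le_left (le_inf (hR.le.trans inf_le_left) ?_)⟩
      exact (hR.pi.of_single' hrπ).le_of_relIndex hR.le (norm_cent inf_le_right)
        (hh U hUM (hU.of_single hp)).compl_compl
  obtain ⟨n, hn, e⟩ := stepA H1 H2 h1 h2 a1 a2
  obtain ⟨c, hc, m, hm, rfl⟩ := (mem_sup_norm' (inf_le_left.trans nC)).1 (hT hn)
  exact hne ⟨c, hc, by rw [e, ← cj_cj, cj_of_norm hm.2]⟩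

theorem main (M : Subgroup G) : ∀ H, Hall π H M →
    (∀ U, U ≤ M → PiGrp π U → ∃ g ∈ M, cj g U ≤ H) →
    (∀ U, U ≤ M → PiGrp π U → PiNat π ((𝐂 U).relIndex (M ⊓ 𝐍 U))) → ∃ K, SDProd K H M := by
  induction M using card_induction with
  | h M ih =>
  intro H hH hD hh
  refine bs_ambient hH (fun x hx g hg hy => ?_) hD
  by_cases hz : zpowers x ≤ 𝐂 M
  · refine ⟨1, one_mem _, ?_⟩
    rw [mem_cent.1 (hz (mem_zpowers x)) g hg]; group
  obtain ⟨p, hp, hd, U, hU, hUM⟩ : ∃ p : ℕ, p.Prime ∧ p ∣ ♯(zpowers x) ∧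
      ∃ U, Syl p U (zpowers x) ∧ ¬ U ≤ 𝐂 M := by
    by_contra h
    push Not at h
    exact hz (le_of_forall_syl' h)
  have hxH : zpowers x ≤ H := zpowers_le.2 hx
  have hpπ : p ∈ π := hH.pi.le hxH p hp hd
  have hUH : U ≤ H := hU.le.trans hxH
  have tr := trans_aux hH hD hh hpπ U hU.pi
  set C := M ⊓ 𝐂 U with hC
  obtain ⟨c, hc, e⟩ := tr H (cj g⁻¹ H) hH (hH.cj_of_mem (inv_mem hg)) hUH
    (hU.le.trans (zpowers_le.2 (mem_cj_inv.2 hy)))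
  have hn : g * c ∈ M ⊓ 𝐍 H := ⟨mul_mem hg hc.1, cj_eq_self.1 (by rw [← cj_cj, ← e, cj_cj_inv])⟩
  have hNH : M ⊓ 𝐍 H ≤ H ⊔ (M ⊓ 𝐂 H) := by
    rw [← Subgroup.relIndex_eq_one]
    refine PiNat.eq_one (π := π) (PiNat.dvd (hh H hH.le hH.pi) ?_) (hH.norm_self.idx_of_le le_sup_left)
    rw [← Subgroup.inf_relIndex_right (𝐂 H)]
    exact relIndex_dvd_left _ (le_sup_of_le_right (by
      rw [inf_comm M (𝐂 H)]; exact inf_le_inf_left _ inf_le_left))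
  obtain ⟨h, hh', d, hd', e2⟩ := (mem_sup_norm' (inf_le_right.trans (cent_le_norm _))).1 (hNH hn)
  have hc' : d * c⁻¹ ∈ C := mul_mem ⟨hd'.1, cent_anti hUH hd'.2⟩ (inv_mem hc)
  have hg' : g = h * (d * c⁻¹) := by rw [← mul_assoc, e2]; group
  have hDC : ∀ Y, Y ≤ C → PiGrp π Y → ∃ g ∈ C, cj g Y ≤ H ⊓ C := by
    intro Y hY hY'
    obtain ⟨a, ha, f⟩ := hD (U ⊔ Y) (sup_le (hUH.trans hH.le) (hY.trans inf_le_left))
      ((hU.pi.of_single hpπ).sup hY' (Or.inr (norm_of_cent (hY.trans inf_le_right))))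
    rw [cj_le_iff] at f
    obtain ⟨b, hb, f'⟩ := tr _ H (hH.cj_of_mem (inv_mem ha)) hH (le_sup_left.trans f) hUH
    exact ⟨b, hb, le_inf (by rw [f']; exact cj_mono _ (le_sup_right.trans f)) (cj_le_of_mem hb hY)⟩
  have hHC : Hall π (H ⊓ C) C := by
    refine ⟨inf_le_right, hH.pi.inf_left, fun r hr hd hrπ => ?_⟩
    obtain ⟨R, hR⟩ := exists_syl r C
    obtain ⟨a, ha, f⟩ := hDC R hR.le (hR.pi.of_single hrπ)
    exact ((hR.cj_of_mem ha).idx_of_le f).not_dvd' hr rfl hd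
  obtain ⟨K, hK⟩ := ih C (card_lt (lt_of_le_of_ne inf_le_left fun e =>
    hUM (cent_symm (e ▸ inf_le_right)))) (H ⊓ C) hHC hDC fun Y hY hY' =>
      (hh Y (hY.trans inf_le_left) hY').dvd
        (relIndex_dvd_of_norm (inf_le_inf_right _ inf_le_left) (norm_cent inf_le_right))
  obtain ⟨k, hk, a, ha, e3⟩ := hK.exists_mul hc'
  have hxC : x ∈ C := ⟨hH.le hx, (abel_zpowers x).cent le_rfl hU.le (mem_zpowers x)⟩
  have hx' : a * x * a⁻¹ ∈ H ⊓ C := mul_mem (mul_mem ha ⟨hx, hxC⟩) (inv_mem ha)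
  have h5 : k * (a * x * a⁻¹) * k⁻¹ * (a * x * a⁻¹)⁻¹ ∈ K ⊓ (H ⊓ C) := by
    refine Subgroup.mem_inf.2 ⟨?_, mul_mem (Subgroup.mem_inf.2 ⟨?_,
      mul_mem (mul_mem (hK.left_le hk) hx'.2) (inv_mem (hK.left_le hk))⟩) (inv_mem hx')⟩
    · rw [mul_assoc, mul_assoc, ← mul_assoc (a * x * a⁻¹)]
      exact mul_mem hk (hK.normal.conj_mem hx'.2 (inv_mem hk))
    · have : k * (a * x * a⁻¹) * k⁻¹ = h⁻¹ * (g * x * g⁻¹) * h := by rw [hg', ← e3]; group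
      rw [this]
      exact mul_mem (mul_mem (inv_mem hh') hy) hh'
  rw [hK.inf, mem_bot, mul_inv_eq_one] at h5
  refine ⟨h * a, mul_mem hh' ha.1, ?_⟩
  rw [hg', ← e3, show h * (k * a) * x * (h * (k * a))⁻¹ = h * (k * (a * x * a⁻¹) * k⁻¹) * h⁻¹ by
    group, h5]
  group
end


/-- Let π be a set of primes and G a finite group whose maximal π-subgroups are pairwise conjugate (so Hall π-subgroups exist, any two are conjugate, and every π-subgroup lies in one of them), and suppose N_G(H)/C_G(H) is a π-group for every nontrivial π-subgroup H. If either 3 does not divide the order of G, or the π'-elements of every proper subgroup of G form a subgroup, then the π'-elements of G form a subgroup. -/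
theorem result {G : Type*} [Group G] [Finite G] (π : Set ℕ)
    (hπ : ∀ p ∈ π, p.Prime) (hD : Cfsg.IsDPiGroup π G) (hhom : (∀ H : Subgroup G, H ≠ ⊥ → (∀ p : ℕ, p.Prime → p ∣ Nat.card ↥H → p ∈ π) →
        ∀ p : ℕ, p.Prime → p ∣ (Subgroup.centralizer (H : Set G)).relIndex (Subgroup.normalizer (H : Set G)) → p ∈ π))
    (hcase : ¬ 3 ∣ Nat.card G ∨ ∀ M : Subgroup G, M ≠ ⊤ →
      ∃ L : Subgroup ↥M, ∀ x : ↥M, x ∈ L ↔ ∀ p : ℕ, p.Prime → p ∣ orderOf x → p ∉ π) :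
    (∃ K : Subgroup G, ∀ x : G, x ∈ K ↔ ∀ p : ℕ, p.Prime → p ∣ orderOf x → p ∉ π) := by
  have ex : ∀ U : Subgroup G, PiGrp π U → ∃ H, Maximal (Cfsg.IsPiSubgroup π) H ∧ U ≤ H := by
    intro U hU
    obtain ⟨K, h1, h2, h3⟩ := exists_maximal (P := fun K : Subgroup G => PiGrp π K) hU
    exact ⟨K, ⟨h2, fun L hL hle => (h3 L hL hle).le⟩, h1⟩
  obtain ⟨H, hH, -⟩ := ex ⊥ (piGrp_bot π)
  have hD' : ∀ U : Subgroup G, U ≤ ⊤ → PiGrp π U → ∃ g ∈ (⊤ : Subgroup G), cj g U ≤ H := by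
    intro U _ hU
    obtain ⟨L, hL, hle⟩ := ex U hU
    obtain ⟨g, hg⟩ := hD L H hL hH
    exact ⟨g, trivial, by rw [hg]; exact cj_mono _ hle⟩
  have hH' : Hall π H ⊤ := by
    refine ⟨le_top, hH.1, fun r hr hd hrπ => ?_⟩
    obtain ⟨R, hR⟩ := exists_syl r (⊤ : Subgroup G)
    obtain ⟨a, ha, f⟩ := hD' R hR.le (hR.pi.of_single hrπ)
    exact ((hR.cj_of_mem ha).idx_of_le f).not_dvd' hr rfl hd
  obtain ⟨K, hK⟩ := main ⊤ H hH' hD' fun U _ hU => by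
    by_cases h0 : U = ⊥
    · rw [h0, cent_bot, Subgroup.relIndex_top_left]; exact piNat_one _
    rw [top_inf_eq]
    exact hhom U h0 hU
  have hK' := hK.hall_compl_left hH'
  exact ⟨K, fun x => ⟨fun hx => hK'.pi.elt hx, fun hx => hK'.mem_normal hK.normal.norm trivial hx⟩⟩

end Cfsg.Agent.S4052
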