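import Cfsg.Statements.S4056
import Cfsg.Agent.BG.B11
import Cfsg.Agent.Transfer.Frat
import Cfsg.Agent.Coprime.Action

set_option autoImplicit false
open Cfsg

namespace Cfsg.Agent.S4056

open CF.BG Subgroup
open scoped commutatorElement


/-- In a finite 2-group of nilpotency class at most 2 and exponent dividing 4, the Frattini subgroup lies in the centre and is elementary abelian. -/
theorem result {P : Type*} [Group P] [Finite P] (hP : IsPGroup 2 P)
    (hcl : Group.nilpotencyClass P ≤ 2) (hexp : Monoid.exponent P ∣ 4) :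
    frattini P ≤ Subgroup.center P ∧ Cfsg.IsElementaryAbelian 2 (frattini P) := by
  haveI : Fact (Nat.Prime 2) := ⟨Nat.prime_two⟩
  haveI := hP.isNilpotent
  have h4 : ∀ x : P, x ^ 4 = 1 := fun x => Monoid.exponent_dvd_iff_forall_pow_eq_one.1 hexp x
  have hc : ∀ x y z : P, Commute z ⁅x, y⁆ := by
    intro x y z
    have h := Subgroup.upperCentralSeries_eq_top_iff_nilpotencyClass_le.2 hcl
    have hx : x ∈ Subgroup.upperCentralSeries P 2 := h ▸ mem_top x
    have := Subgroup.mem_upperCentralSeries_succ_iff.1 hx y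
    rw [Subgroup.upperCentralSeries_one] at this
    exact mem_center_iff.1 this z
  have h2 : ∀ x y : P, ⁅x, y⁆ ^ 2 = 1 := by
    intro x y
    have := CF.Transfer.mul_pow_of_class_two (hc x y y) (hc x y x) 4
    rw [h4, h4, h4, one_mul, one_mul, show Nat.choose 4 2 = 4 + 2 from rfl, pow_add, h4,
      one_mul] at this
    exact this.symm
  have hT : PiGrp {2} (⊤ : Subgroup P) := piGrp_of_isPGroup Nat.prime_two (hP.to_subgroup ⊤)
  have hZ : ∀ x : P, (∀ z, Commute z x) → x ∈ 𝐙 (⊤ : Subgroup P) := fun x hx =>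
    ⟨mem_top x, mem_cent.2 fun h _ => hx h⟩
  have key : frattini P ≤ 𝛀 2 (𝐙 (⊤ : Subgroup P)) := by
    rw [← CF.Coprime.frattiniOf_top, hT.Phi_le_iff]
    refine ⟨commutator_le.2 fun x _ y _ => mem_Om (hZ _ (hc x y)) (h2 x y), fun x _ => ?_⟩
    refine mem_Om (hZ _ fun z => ?_) (by rw [← pow_mul, h4])
    rw [← commutatorElement_eq_one_iff_commute,
      CF.Transfer.commutatorElement_pow_right' (hc z x x), h2]
  refine ⟨fun x hx => ?_, (hT.abelem_Om_center.le key).isEA⟩
  have := (Om_le _ _ (key hx)).2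
  exact mem_center_iff.2 fun g => mem_cent.1 this g (mem_top g)

end Cfsg.Agent.S4056
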