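import Cfsg.Statements.S4057
import Cfsg.Agent.BG2.P4b
import Cfsg.Agent.Fgs3.Rank
import Cfsg.Agent.SolvStr.Cls1

set_option autoImplicit false
open Cfsg

namespace Cfsg.Agent.S4057
open CF.BG Subgroup
open scoped commutatorElement Pointwise
open CF.BG2 CF.SolvStr

universe u

section
variable {G : Type*} [Group G] [Finite G] {p m : ℕ} {A H K L M U W X Y Z : Subgroup G}

theorem logn_rel (p : ℕ) (a : L ≤ K) (b : K ≤ H) :
    logn p (L.relIndex H) = logn p (L.relIndex K) + logn p (K.relIndex H) := by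
  rw [← relIndex_mul_relIndex L K H a b, logn_mul (relIndex_ne_zero' _ _) (relIndex_ne_zero' _ _)]

theorem logn_rel_lt (k : PiGrp {p} X) (a : L < K) (b : K ≤ X) :
    logn p (K.relIndex X) < logn p (L.relIndex X) := by
  have := (k.le b).logn_lt a
  have := logn_card_eq_add (p := p) b
  have := logn_card_eq_add (p := p) (a.le.trans b)
  omega

omit [Finite G] in
theorem lt_sup_zp {x : G} (h : x ∉ L) : L < L ⊔ zpowers x :=
  lt_of_le_of_ne le_sup_left fun e => h (e ▸ mem_sup_right (mem_zpowers x))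

theorem exists_gens (k : PiGrp {p} X) (j : ℕ) : ∀ L, L ≤ X → logn p (L.relIndex X) ≤ j →
    ∃ S : Finset G, S.card ≤ j ∧ closure (S : Set G) ≤ X ∧ X ≤ closure (S : Set G) ⊔ L := by
  classical
  induction j with
  | zero =>
    intro L a b
    refine ⟨∅, le_rfl, by simp, le_sup_of_le_right (k.eq_of_logn_le a ?_).ge⟩
    have := logn_card_eq_add (p := p) a; omega
  | succ j ih =>
    intro L a b
    by_cases e : X ≤ L
    · exact ⟨∅, by simp, by simp, le_sup_of_le_right e⟩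
    obtain ⟨x, hx, hL⟩ := SetLike.not_le_iff_exists.1 e
    have l := sup_le a (zpowers_le.2 hx)
    obtain ⟨S, c, d, f⟩ := ih _ l (by have := logn_rel_lt k (lt_sup_zp hL) l; omega)
    refine ⟨insert x S, (Finset.card_insert_le _ _).trans (by omega), ?_, f.trans ?_⟩
    · rw [Finset.coe_insert, closure_le, Set.insert_subset_iff]
      exact ⟨hx, (closure_le _).1 d⟩
    · exact sup_le (le_sup_of_le_left (closure_mono (by simp))) (sup_le le_sup_right
        (le_sup_of_le_left (zpowers_le.2 (subset_closure (by simp)))))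

theorem pairing (hp : p.Prime) (k : PiGrp {p} X) (hZ : ♯Z = p) (c : ⁅X, Y⁆ ≤ Z) (y : Y ≤ 𝐂 Z) :
    logn p ((𝐂 X).relIndex Y) ≤ logn p ((𝐂 Y).relIndex X) := by
  have key : ∀ j, ∀ L, L ≤ X → logn p (L.relIndex X) ≤ j →
      logn p ((𝐂 X).relIndex (Y ⊓ 𝐂 L)) ≤ j := by
    intro j
    induction j with
    | zero =>
      intro L a b
      have e : L = X := k.eq_of_logn_le a (by have := logn_card_eq_add (p := p) a; omega)
      rw [e, relIndex_eq_one.2 inf_le_right]; simp [logn]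
    | succ j ih =>
      intro L a b
      by_cases e : X ≤ L
      · rw [relIndex_eq_one.2 (inf_le_right.trans (cent_anti e))]; simp [logn]
      obtain ⟨x, hx, hL⟩ := SetLike.not_le_iff_exists.1 e
      have l := sup_le a (zpowers_le.2 hx)
      have h1 := ih _ l (by have := logn_rel_lt k (lt_sup_zp hL) l; omega)
      have h2 := relIndex_cent1_dvd (a := x) (L := Y ⊓ 𝐂 L) (inf_le_left.trans y)
        fun l hl => c (commutator_mem_commutator hx hl.1)
      have h3 := logn_le_of_dvd (p := p) h2 (card_ne_zero' _)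
      rw [hZ, logn_self hp, ← inf_relIndex_left] at h3
      rw [cent_sup, cent_zpowers, ← inf_assoc] at h1
      rw [← inf_relIndex_left] at h1 ⊢
      have l2 : 𝐂 X ≤ 𝐂₁ x := cent_le_cent1 hx
      rw [inf_assoc (Y ⊓ 𝐂 L), inf_eq_right.2 l2] at h1
      rw [logn_rel p (inf_le_inf_left _ l2) inf_le_left]
      omega
  have := key _ (X ⊓ 𝐂 Y) inf_le_left le_rfl
  rwa [inf_eq_left.2 (cent_symm inf_le_right), inf_relIndex_left] at this

/-- all trivial sections of `A` are small -/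
def Bd (p m : ℕ) (H A : Subgroup G) : Prop :=
  ∀ U W, U ≤ W → W ≤ A → ⁅W, H⁆ ≤ U → logn p (U.relIndex W) ≤ m

omit [Finite G] in
theorem Bd.qt (h : Bd p m H A) (a : U ⊴ A) (n : H ≤ 𝐍 U) : Bd p m (qt U H) (qt U A) := by
  intro X Y a1 a2 a3
  rw [← relIndex_qp_qp]
  refine h _ _ (qp_mono a1) (qp_le_of_le_qt a a2) ?_
  rw [← qt_le_iff ((commutator_mono (qp_le_norm _) n).trans (der_le _)), qt_comm (qp_le_norm _) n,
    qt_qp]
  exact a3

theorem card_comm {v : G} (a : Abel (W ⊔ zpowers v)) (c : M ≤ 𝐂 W) (h : ⁅W ⊔ zpowers v, M⁆ ≤ W) :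
    ♯⁅W ⊔ zpowers v, M⁆ = (𝐂 (W ⊔ zpowers v)).relIndex M := by
  have hv : v ∈ W ⊔ zpowers v := mem_sup_right (mem_zpowers v)
  have h1 : ∀ l ∈ M, ⁅v, l⁆ ∈ W := fun l hl => h (commutator_mem_commutator hv hl)
  have e : ⁅W ⊔ zpowers v, M⁆ = (commHom c h1).range := by
    have l : (commHom c h1).range ≤ ⁅W ⊔ zpowers v, M⁆ := by
      rintro _ ⟨l, rfl⟩; exact commutator_mem_commutator hv l.2
    have n := a.le_norm (l.trans (h.trans le_sup_left))
    refine le_antisymm (le_centMod.1 (sup_le (le_centMod.2 ⟨le_sup_left.trans n, ?_⟩)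
      (zpowers_le.2 ⟨n hv, fun l hl => ⟨⟨l, hl⟩, rfl⟩⟩))).2 l
    rw [comm_eq_bot'.2 c]; exact bot_le
  rw [e, card_commHom, cent_sup, cent_zpowers, ← inf_relIndex_left M (_ ⊓ _),
    ← inf_assoc, inf_eq_left.2 c, inf_relIndex_left]

theorem up0 {v : G} (b : Bd p m H A) (w : W ≤ A) (a : Abel (W ⊔ zpowers v))
    (t : ⁅W ⊔ zpowers v, H⁆ ≤ W) (k : K ≤ H) (c : K ≤ 𝐂 W) (l : L ≤ K) (l2 : ⁅K, H⁆ ≤ L) :
    logn p ((𝐂 (W ⊔ zpowers v)).relIndex K) ≤ logn p ((𝐂 (W ⊔ zpowers v)).relIndex L) + m := by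
  have t1 : ⁅W ⊔ zpowers v, K⁆ ≤ W := (commutator_mono le_rfl k).trans t
  have t2 : ⁅W ⊔ zpowers v, L⁆ ≤ ⁅W ⊔ zpowers v, K⁆ := commutator_mono le_rfl l
  rw [← card_comm a c t1, ← card_comm a (l.trans c) (t2.trans t1), logn_card_eq_add t2]
  refine Nat.add_le_add_left (b _ _ t2 (t1.trans w) ?_) _
  have n : H ≤ 𝐍 ⁅W ⊔ zpowers v, L⁆ := norm_commutator (norm_of_comm_le (t.trans le_sup_left))
    (norm_of_comm_le ((commutator_mono l le_rfl).trans l2))
  refine three_subgroup (norm_comm_left _ _) (k.trans n) n ?_ ?_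
  · rw [commutator_comm]; exact commutator_mono le_rfl l2
  · rw [commutator_comm H]
    exact (commutator_mono t le_rfl).trans (by rw [comm_eq_bot'.2 c]; exact bot_le)

theorem down0 (hp : p.Prime) (b : Bd p m H A) (w : W ≤ A) (pw : PiGrp {p} W) (ph : PiGrp {p} H)
    (n : H ≤ 𝐍 W) (hZ : ♯Z = p) (zw : W ≤ 𝐂 Z) (zh : H ≤ 𝐂 Z) (k : K ≤ H) (c : ⁅W, K⁆ ≤ Z)
    (l : L ≤ K) (l2 : ⁅K, H⁆ ≤ L) :
    logn p ((𝐂 W).relIndex K) ≤ logn p ((𝐂 W).relIndex L) + m := by
  have h1 := pairing hp pw hZ c (k.trans zh)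
  have h2 := pairing hp (ph.le (l.trans k)) hZ
    (by rw [commutator_comm]; exact (commutator_mono le_rfl l).trans c) zw
  have l3 : W ⊓ 𝐂 K ≤ W ⊓ 𝐂 L := inf_le_inf_left _ (cent_anti l)
  have h3 := b _ _ l3 (inf_le_left.trans w) (le_inf ((commutator_mono inf_le_left le_rfl).trans
    (comm_le_left n)) (comm_eq_bot.1 (le_bot_iff.1 (three_subgroup (by simp) (by simp) (by simp)
      (by rw [commutator_comm H]
          exact (commutator_mono l2 le_rfl).trans (comm_eq_bot'.2 inf_le_right).le)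
      (by rw [commutator_comm K]
          exact (commutator_mono ((commutator_mono inf_le_left le_rfl).trans c) le_rfl).trans
            (comm_eq_bot'.2 zh).le)))))
  rw [← inf_relIndex_left W] at h1 h2
  rw [logn_rel p l3 inf_le_left] at h1
  omega

/-- the number of generators of `H` modulo the centralizer of the section `W / U` -/
noncomputable def ff (p : ℕ) (H U W : Subgroup G) : ℕ :=
  logn p ((𝚽 H ⊔ (H ⊓ centMod W U)).relIndex H)

theorem step (ph : PiGrp {p} H) {C C' : Subgroup G} (l : H ⊓ C' ≤ H ⊓ C) (n : H ≤ 𝐍 C)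
    (h : logn p (C'.relIndex (H ⊓ C)) ≤ logn p (C'.relIndex (H ⊓ C' ⊔ ⁅H ⊓ C, H⁆)) + m) :
    logn p ((𝚽 H ⊔ (H ⊓ C')).relIndex H) ≤ logn p ((𝚽 H ⊔ (H ⊓ C)).relIndex H) + m := by
  have l1 : H ⊓ C' ⊔ ⁅H ⊓ C, H⁆ ≤ H ⊓ C := sup_le l (comm_le_left (norm_inf (le_norm_self _) n))
  have e : ∀ Y, H ⊓ C' ≤ Y → Y ≤ H → C'.relIndex Y = (H ⊓ C').relIndex Y := fun Y a b => by
    rw [← inf_relIndex_left Y, ← inf_relIndex_left Y (H ⊓ C'), ← inf_assoc, inf_eq_left.2 b]
  rw [e _ l inf_le_left, e _ le_sup_left (l1.trans inf_le_left), logn_rel p le_sup_left l1] at h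
  rw [logn_rel p (sup_le_sup_left l _) (sup_le (Phi_le _) inf_le_left)]
  have n1 : H ≤ 𝐍 (𝚽 H ⊔ (H ⊓ C')) :=
    norm_of_der_le (sup_le (Phi_le _) inf_le_left) (ph.der_le_Phi.trans le_sup_left)
  have e1 : 𝚽 H ⊔ (H ⊓ C) = (𝚽 H ⊔ (H ⊓ C')) ⊔ (H ⊓ C) := by rw [sup_assoc, sup_eq_right.2 l]
  have e2 := relIndex_sup_norm' (Or.inl ((inf_le_left : H ⊓ C ≤ H).trans n1))
  rw [← e1] at e2
  rw [e2]
  have := logn_le_of_dvd (p := p) (relIndex_dvd_left (H ⊓ C) (sup_le le_sup_right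
    ((commutator_mono inf_le_left le_rfl).trans (ph.der_le_Phi.trans le_sup_left)) :
      H ⊓ C' ⊔ ⁅H ⊓ C, H⁆ ≤ 𝚽 H ⊔ (H ⊓ C'))) (relIndex_ne_zero' _ _)
  omega

omit [Finite G] in
theorem rel_centMod (w : W ≤ 𝐍 U) (k : K ≤ 𝐍 U) :
    (centMod W U).relIndex K = (𝐂 (qt U W)).relIndex (qt U K) := by
  rw [← qp_cent_eq w, relIndex_qp_left _ k]

theorem up {v : G} (ph : PiGrp {p} H) (b : Bd p m H A) (a : Abel A) (hv : v ∈ A) (u : U ≤ W)
    (w : W ≤ A) (n : H ≤ 𝐍 U) (t : ⁅W ⊔ zpowers v, H⁆ ≤ W) :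
    ff p H U (W ⊔ zpowers v) ≤ ff p H U W + m := by
  have ua := a.normalIn (u.trans w)
  have l : W ⊔ zpowers v ≤ A := sup_le w (zpowers_le.2 hv)
  have nW : H ≤ 𝐍 W := norm_of_comm_le ((commutator_mono le_sup_left le_rfl).trans t)
  have nC := norm_centMod nW n
  have l1 : H ⊓ centMod (W ⊔ zpowers v) U ≤ H ⊓ centMod W U :=
    inf_le_inf_left _ fun x hx => ⟨hx.1, fun y hy => hx.2 y (mem_sup_left hy)⟩
  have l2 := sup_le l1 (comm_le_left (norm_inf (le_norm_self _) nC))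
  refine step ph l1 nC ?_
  have e : qt U (W ⊔ zpowers v) = qt U W ⊔ zpowers (qe U v) := by
    rw [qt_sup (w.trans ua.norm) (zpowers_le.2 (ua.norm hv)), qt_zpowers (ua.norm hv)]
  rw [rel_centMod (l.trans ua.norm) (inf_le_left.trans n),
    rel_centMod (l.trans ua.norm) (l2.trans (inf_le_left.trans n)), e]
  refine up0 (b.qt ua n) (qt_mono _ w) (e ▸ (a.mono l).qt U) ?_ (qt_mono _ inf_le_left) ?_
    (qt_mono _ l2) ?_
  · rw [← e, ← qt_comm (l.trans ua.norm) n]; exact qt_mono _ t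
  · rw [qt_cent_iff (inf_le_left.trans n) (w.trans ua.norm)]
    exact (commutator_mono inf_le_right le_rfl).trans (comm_centMod_le _ _)
  · rw [← qt_comm (inf_le_left.trans n) n]; exact qt_mono _ le_sup_right

theorem down (hp : p.Prime) (ph : PiGrp {p} H) (b : Bd p m H A) (a : Abelem p A) (x : X ≤ U)
    (u : U ≤ W) (w : W ≤ A) (n : H ≤ 𝐍 W) (t : ⁅U, H⁆ ≤ X) (i : X.relIndex U = p) :
    ff p H X W ≤ ff p H U W + m := by
  have ua := a.abel.normalIn (x.trans (u.trans w))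
  have nU : H ≤ 𝐍 U := norm_of_comm_le (t.trans x)
  have nX : H ≤ 𝐍 X := norm_of_comm_le ((commutator_mono x le_rfl).trans t)
  have nC := norm_centMod n nU
  have l1 : H ⊓ centMod W X ≤ H ⊓ centMod W U :=
    fun y hy => ⟨hy.1, nU hy.1, fun z hz => x (hy.2.2 z hz)⟩
  have l2 := sup_le l1 (comm_le_left (norm_inf (le_norm_self _) nC))
  refine step ph l1 nC ?_
  rw [rel_centMod (w.trans ua.norm) (inf_le_left.trans nX),
    rel_centMod (w.trans ua.norm) (l2.trans (inf_le_left.trans nX))]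
  refine down0 (Z := qt X U) hp (b.qt ua nX) (qt_mono _ w) ((a.pi.le w).qt X) (ph.qt X) (qt_norm X n)
    (by rw [card_qt (u.trans (w.trans ua.norm)), i]) (qt_cent X (a.abel.cent w (u.trans w))) ?_
    (qt_mono _ inf_le_left) ?_ (qt_mono _ l2) ?_
  · rw [qt_cent_iff nX (u.trans (w.trans ua.norm)), commutator_comm]; exact t
  · rw [← qt_comm (w.trans ua.norm) (inf_le_left.trans nX), commutator_comm]
    exact qt_mono _ ((commutator_mono inf_le_right le_rfl).trans (comm_centMod_le _ _))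
  · rw [← qt_comm (inf_le_left.trans nX) nX]; exact qt_mono _ le_sup_right

theorem chain (hp : p.Prime) (ph : PiGrp {p} H) (b : Bd p m H A) (a : Abelem p A) (n : H ≤ 𝐍 A)
    (j : ℕ) : ∀ U W, U ≤ W → W ≤ A → H ≤ 𝐍 U → H ≤ 𝐍 W →
      logn p (W.relIndex A) + logn p (♯U) ≤ j → ff p H ⊥ A ≤ ff p H U W + j * m := by
  induction j with
  | zero =>
    intro U W u w nU nW h
    have e1 : W = A := a.pi.eq_of_logn_le w (by have := logn_card_eq_add (p := p) w; omega)
    have e2 : U = ⊥ := (a.pi.le (u.trans w)).logn_eq_zero.1 (by omega)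
    rw [e1, e2]; simp
  | succ j ih =>
    intro U W u w nU nW h
    rw [add_mul, one_mul]
    by_cases e1 : A ≤ W
    · by_cases e2 : U = ⊥
      · rw [le_antisymm w e1, e2]; omega
      have pu := a.pi.le (u.trans w)
      have l1 := pu.logn_lt (ph.comm_lt pu nU e2)
      obtain ⟨X, x1, x2, x3⟩ := pu.exists_logn_between (comm_le_left nU) (n := logn p (♯U) - 1)
        (by omega) (by omega)
      have := ih X W (x2.trans u) w (norm_of_comm_le ((commutator_mono x2 le_rfl).trans x1)) nW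
        (by omega)
      have := down hp ph b a x2 u w nW x1
        ((relIndex_eq_of_logn pu x2 (n := 1) (by omega)).trans (pow_one p))
      omega
    · have wa := a.abel.normalIn w
      obtain ⟨z, ⟨hz, zc⟩, z1⟩ := exists_mem_ne_one ((ph.qt W).inf_cent_ne_bot (a.pi.qt W)
        (qt_norm W n) fun h => e1 ((qt_eq_bot wa.norm).1 h))
      obtain ⟨v, hv, vn, rfl⟩ := mem_qt.1 hz
      have vW : v ∉ W := fun h => z1 (qe_of_mem h)
      have l : W ⊔ zpowers v ≤ A := sup_le w (zpowers_le.2 hv)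
      have t : ⁅W ⊔ zpowers v, H⁆ ≤ W := by
        rw [← qt_cent_iff (l.trans wa.norm) nW, qt_sup_left (zpowers_le.2 vn), qt_zpowers vn]
        exact zpowers_le.2 zc
      have := ih U _ (u.trans le_sup_left) l nU (norm_of_comm_le (t.trans le_sup_left))
        (by have := logn_rel_lt a.pi (lt_sup_zp vW) l; omega)
      have := up ph b a.abel hv u w nU t
      omega

theorem patterson (hp : p.Prime) (ph : PiGrp {p} H) (a : Abelem p A) (n : H ≤ 𝐍 A) :
    4 * logn p ((𝚽 H ⊔ (H ⊓ 𝐂 A)).relIndex H) ≤ logn p (♯A) ^ 2 := by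
  obtain ⟨⟨U, W⟩, ⟨u, w, t⟩, hm⟩ := Set.exists_max_image
    {x : Subgroup G × Subgroup G | x.1 ≤ x.2 ∧ x.2 ≤ A ∧ ⁅x.2, H⁆ ≤ x.1}
    (fun x => logn p (x.1.relIndex x.2)) (Set.toFinite _) ⟨(⊥, ⊥), le_rfl, bot_le, by simp⟩
  dsimp only at u w t hm
  have nU : H ≤ 𝐍 U := norm_of_comm_le ((commutator_mono u le_rfl).trans t)
  have h := chain hp ph (fun U W a b c => hm (U, W) ⟨a, b, c⟩) a n _ U W u w nU
    (norm_of_comm_le (t.trans u)) le_rfl
  have e : ff p H U W = 0 := by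
    rw [ff, relIndex_eq_one.2 (le_sup_of_le_right (le_inf le_rfl
      (le_centMod.2 ⟨nU, by rwa [commutator_comm]⟩)))]
    simp [logn]
  rw [e, ff, centMod_bot] at h
  rw [logn_card_eq_add w, logn_card_eq_add u]
  nlinarith [sq_nonneg ((logn p (W.relIndex A) + logn p (♯U) : ℤ) - logn p (U.relIndex W))]

end

theorem thompson {p : ℕ} (hp : p.Prime) (h2 : p ≠ 2) (n : ℕ) :
    ∀ {G : Type u} [Group G] [Finite G] {K : Subgroup G}, ♯K < n → PiGrp {p} K →
      𝛀 p K ≤ 𝐂 K → logn p ((𝚽 K).relIndex K) ≤ logn p (♯(𝛀 p K)) := by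
  induction n with
  | zero => intro G _ _ K h; omega
  | succ n ih =>
    intro G _ _ K hn k c
    by_cases h1 : K = ⊥
    · rw [h1, relIndex_eq_one.2 bot_le]; simp [logn]
    set W := 𝛀 p K with hW
    have wK : W ⊴ K := Om_normal p K
    have ab : Abelem p W := k.abelem_Om (c.trans (cent_anti wK.le))
    have key : ∀ x ∈ K, x ^ p ∈ W → ∀ N, N ⊴ K → ∀ y ∈ N, ⁅x, y⁆ ∈ W := by
      intro x hx xp N
      induction N using card_induction with
      | h N ihN =>
        intro hN y hy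
        by_cases e : N = ⊥
        · rw [eq_one_of_mem_bot e hy]; simp
        have m1 : ⁅x, y⁆ ∈ ⁅N, K⁆ := comm_mem_comm' hy hx
        have m2 := ihN _ (card_lt (k.nil.comm_lt hN e)) (comm_normalIn hN) _ m1
        have m3 : ⁅x, y⁆ ∈ K := hN.le (comm_le_left hN.norm m1)
        exact mem_Om m3 (comm_pow_eq_one hp h2 (comm_of_cent (c m2) hx) (comm_of_cent (c m2) m3)
          (ab.pow _ m2) (comm_of_cent (c xp) (hN.le hy)))
    have c' : 𝛀 p (qt W K) ≤ 𝐂 (qt W K) := by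
      refine Om_le_iff.2 fun z hz e => mem_cent.2 fun y hy => ?_
      obtain ⟨x, hx, xn, rfl⟩ := mem_qt.1 hz
      obtain ⟨y, hy', yn, rfl⟩ := mem_qt.1 hy
      rw [← qe_pow xn, qe_eq_one (pow_mem xn _)] at e
      rw [eq_comm, ← commutatorElement_eq_one_iff_mul_comm, ← qe_comm xn yn]
      exact qe_of_mem (key x hx e K (NormalIn.refl K) y hy')
    have h3 := ih (by have := card_qt_lt wK (k.Om_ne_bot h1); omega) (k.qt W) c'
    set R := qp W (𝛀 p (qt W K)) with hR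
    have rK : R ≤ K := qp_le_of_le_qt wK (Om_le _ _)
    have rW : ⁅R, K⁆ ≤ W := by rw [← qt_cent_iff (rK.trans wK.norm) wK.norm, qt_qp]; exact c'
    have rW' : ⁅R, R⁆ ≤ W := (commutator_mono le_rfl rK).trans rW
    obtain ⟨I, hI, -, e⟩ := card_Om_mul_card_range (R := R) hp fun u hu v hv =>
      SmallCl.mul_pow hp (Or.inl ⟨h2, rW'.trans (c.trans (cent_anti rK))⟩) (rK.trans wK.norm) ab.pow
        hu hv (rW' (commutator_mem_commutator hv hu))
    rw [Om_eq_of_le rK (le_qp _), hR, card_qp] at e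
    have e1 := Nat.eq_of_mul_eq_mul_left (card_pos' _) e
    have ab' := (k.qt W).abelem_Om (c'.trans (cent_anti (Om_le _ _)))
    have l1 : I ≤ 𝚽 K ⊓ W := fun x hx => by
      obtain ⟨y, hy, rfl⟩ := (hI x).1 hx
      refine ⟨k.pow_mem_Phi (rK hy), ?_⟩
      obtain ⟨yn, hy⟩ := mem_qp.1 hy
      exact (qe_eq_one (pow_mem yn _)).1 (by rw [qe_pow yn]; exact ab'.pow _ hy)
    have l2 := logn_card_le (p := p) l1
    have l3 : 𝚽 (qt W K) ≤ qt W (𝚽 K) := by
      refine (k.qt W).Phi_le_iff.2 ⟨?_, fun z hz => ?_⟩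
      · rw [← qt_comm wK.norm wK.norm]; exact qt_mono _ k.der_le_Phi
      · obtain ⟨x, hx, xn, rfl⟩ := mem_qt.1 hz
        rw [← qe_pow xn]; exact qe_mem_qt (k.pow_mem_Phi hx) (pow_mem xn _)
    have l4 := logn_le_of_dvd (p := p) (relIndex_dvd_left (qt W K) l3) (relIndex_ne_zero' _ _)
    rw [relIndex_qt' ((Phi_le K).trans wK.norm) wK.norm] at l4
    rw [logn_rel p (le_sup_right : 𝚽 K ≤ W ⊔ 𝚽 K) (sup_le wK.le (Phi_le K)),
      relIndex_sup_norm (Or.inl (wK.le.trans (Phi_normal K).norm)), logn_inf_add (𝚽 K) W]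
    rw [← e1] at h3
    omega

/-- Let p be an odd prime and P a finite p-group in which every normal abelian subgroup can be generated by k elements. Then every subgroup of P can be generated by at most ⌊k(k+4)/4⌋ elements. -/
theorem result {P : Type*} [Group P] [Finite P] {p : ℕ} [Fact p.Prime]
    (hp : p ≠ 2) (hP : IsPGroup p P) (k : ℕ)
    (hab : ∀ A : Subgroup P, A.Normal → IsMulCommutative A → ∃ S : Finset P, S.card ≤ k ∧ Subgroup.closure (S : Set P) = A) :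
    ∀ H : Subgroup P, ∃ S : Finset P, S.card ≤ k * (k + 4) / 4 ∧ Subgroup.closure (S : Set P) = H := by
  intro H
  have h1 : p.Prime := Fact.out
  have pt := piGrp_top h1 hP
  obtain ⟨A, -, hA, m⟩ := exists_normal_maxElem h1 hp pt (NormalIn.bot _) (abelem_bot p)
  have hk : logn p (♯A) ≤ k := by
    obtain ⟨S, c, e⟩ := hab A (normalIn_top.1 hA) m.ab.abel.comm
    have d := CF.Fgs3.relIndex_Phi_dvd_rank h1 m.ab.pi
    rw [m.ab.pi.Phi_eq_bot.2 m.ab, relIndex_bot_left] at d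
    have := logn_le_of_dvd (p := p) d (pow_ne_zero _ h1.ne_zero)
    rw [logn_pow h1] at this
    subst e
    exact this.trans ((rank_closure_finset_le_card S).trans c)
  have ph := pt.le (le_top : H ≤ ⊤)
  have h2 := patterson h1 ph m.ab (le_top.trans hA.norm)
  have o : 𝛀 p (H ⊓ 𝐂 A) ≤ A := (Om_mono p (inf_le_inf_right _ le_top)).trans (m.Om_cent h1).le
  have h3 := thompson h1 hp _ (Nat.lt_succ_self _) (ph.inf_left (K := 𝐂 A))
    (o.trans (cent_symm inf_le_right))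
  have h4 := logn_card_le (p := p) o
  have h5 := logn_le_of_dvd (p := p) (relIndex_dvd_left (H ⊓ 𝐂 A)
    (ph.Phi_mono (inf_le_left : H ⊓ 𝐂 A ≤ H))) (relIndex_ne_zero' _ _)
  obtain ⟨S, c, d, e⟩ := exists_gens ph _ (𝚽 H) (Phi_le H) le_rfl
  refine ⟨S, c.trans ?_, eq_of_le_sup_Phi d e⟩
  rw [logn_rel p (le_sup_left : 𝚽 H ≤ 𝚽 H ⊔ (H ⊓ 𝐂 A)) (sup_le (Phi_le H) inf_le_left),
    relIndex_sup_norm' (Or.inl (inf_le_left.trans (Phi_normal H).norm)),
    Nat.le_div_iff_mul_le (by norm_num)]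
  nlinarith [Nat.pow_le_pow_left hk 2]

end Cfsg.Agent.S4057
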