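import Mathlib
import Cfsg.Statements.S4058
import Cfsg.Agent.Char.FrobSchur
import Cfsg.Agent.Clifford.Det
import Cfsg.Agent.Solv.FrattiniP

set_option autoImplicit false
open Cfsg

namespace Cfsg.Agent.S4058

open Subgroup CF.Char CF.Clifford MulAction

theorem index_le {G : Type*} [Group G] [Finite G] {χ : G → ℂ} (hχ : IsIrrCharacter G χ) {d : ℕ}
    (hd : χ 1 = d) (K : Subgroup G) (h : ∀ g ∉ K, χ g = 0) : K.index ≤ d ^ 2 := by
  classical
  haveI := Fintype.ofFinite G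
  have h1 := inner_self_re χ
  rw [inner_irr_self hχ, Complex.one_re, eq_inv_mul_iff_mul_eq₀ (by simp), mul_one] at h1
  have h2 : ∑ g, ‖χ g‖ ^ 2 ≤ ∑ g : G, if g ∈ K then (d : ℝ) ^ 2 else 0 :=
    Finset.sum_le_sum fun g _ => by
      split_ifs with hg
      · have := char_norm_le (irr_isCharacter hχ) g
        rw [hd, Complex.norm_natCast] at this
        gcongr
      · simp [h g hg]
  rw [← h1, ← Finset.sum_filter, Finset.sum_const, nsmul_eq_mul, ← K.card_mul_index,
    ← Fintype.card_subtype, ← Nat.card_eq_fintype_card, Nat.cast_mul] at h2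
  exact_mod_cast le_of_mul_le_mul_left h2 (by exact_mod_cast Nat.card_pos)

theorem card_le {G : Type*} [Group G] [Finite G] {χ : G → ℂ} (hχ : IsIrrCharacter G χ) {d : ℕ}
    (hd : χ 1 = d) {A : Type*} [Group A] (f : A →* G →* ℂˣ) (hf : Function.Injective f)
    (h : ∀ a g, f a g * χ g = χ g) : Nat.card A ≤ d ^ 2 := by
  let K : Subgroup G := ⨅ a, (f a).ker
  haveI : K.Normal := normal_iInf_normal fun _ => inferInstance
  refine le_trans ?_ (index_le hχ hd K fun g hg => ?_)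
  · refine (Nat.card_le_card_of_injective (fun a => QuotientGroup.lift K (f a) (iInf_le _ a))
      fun a b e => hf (MonoidHom.ext fun g => DFunLike.congr_fun e (g : G ⧸ K))).trans ?_
    rw [card_linear]
    exact Nat.le_of_dvd Nat.card_pos (index_dvd_card _)
  · obtain ⟨a, ha⟩ := not_forall.mp (mt mem_iInf.mpr hg)
    exact (mul_left_eq_self₀.mp (h a g)).resolve_left fun e => ha (Units.ext e)


/-- Let G be a finite 2-group with #(G/Φ(G)) ≥ 2^(2k+1). Then the number of elements x of G with x² = 1 is divisible by 2^(k+1). -/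
theorem result {G : Type*} [Group G] [Finite G] (hG : IsPGroup 2 G) (k : ℕ)
    (hgen : 2 ^ (2 * k + 1) ≤ Nat.card (G ⧸ frattini G)) :
    2 ^ (k + 1) ∣ Nat.card {x : G // x ^ 2 = 1} := by
  classical
  haveI := Fintype.ofFinite G
  haveI : Fact (Nat.Prime 2) := ⟨Nat.prime_two⟩
  let Λ := G ⧸ frattini G →* ℂˣ
  letI : MulAction Λ (IrrCharacter G) :=
    { smul l χ := ⟨_, irr_linear_mul (l.comp (QuotientGroup.mk' _)) χ.2⟩
      one_smul χ := Subtype.ext (funext fun g => one_mul _)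
      mul_smul a b χ := Subtype.ext (funext fun g => by
        change ((a g * b g : ℂˣ) : ℂ) * _ = a g * (b g * _)
        rw [Units.val_mul, mul_assoc]) }
  have hs : ∀ (l : Λ) (χ : IrrCharacter G) g, (l • χ).1 g = l g * χ.1 g := fun _ _ _ => rfl
  have hΛ : Nat.card Λ = Nat.card (G ⧸ frattini G) := by
    rw [card_linear, _root_.commutator_def, ← map_top_of_surjective _ (QuotientGroup.mk'_surjective _),
      ← map_commutator, (Subgroup.map_eq_bot_iff _).mpr (by
        rw [QuotientGroup.ker_mk']; exact CF.Solv.commutator_le_frattini_of_isPGroup hG), index_bot]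
  have hF : ∀ (l : Λ) (χ : IrrCharacter G), fsInd (l • χ).1 * (l • χ).1 1 = fsInd χ.1 * χ.1 1 := by
    intro l χ
    have h1 : ∀ s : G, l (s * s : G) = 1 := fun s => by
      rw [(QuotientGroup.eq_one_iff _).mpr (sq s ▸ CF.Solv.pow_mem_frattini hG s), map_one]
    simp only [fsInd_def, hs, h1, QuotientGroup.mk_one, map_one, Units.val_one, one_mul]
  have h1 := card_sqrt_eq (1 : G)
  simp only [← sq] at h1
  suffices h : ∃ m : ℤ, (Nat.card {x : G // x ^ 2 = 1} : ℂ) = 2 ^ (k + 1) * m by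
    obtain ⟨m, hm⟩ := h
    exact Int.natCast_dvd_natCast.mp ⟨m, by exact_mod_cast hm⟩
  rw [h1, ← Finset.sum_fiberwise_of_maps_to (g := Quotient.mk (orbitRel Λ (IrrCharacter G)))
    (t := Finset.univ) fun _ _ => Finset.mem_univ _]
  refine Finset.sum_induction _ (fun z : ℂ => ∃ m : ℤ, z = 2 ^ (k + 1) * m) ?_ ⟨0, by simp⟩ ?_
  · rintro _ _ ⟨a, rfl⟩ ⟨b, rfl⟩
    exact ⟨a + b, by push_cast; ring⟩
  intro ω _
  obtain ⟨χ, rfl⟩ := Quotient.mk_surjective ω
  rw [Finset.sum_congr rfl (g := fun _ => fsInd χ.1 * χ.1 1) fun ψ hψ => by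
    obtain ⟨l, rfl⟩ : ψ ∈ orbit Λ χ := Quotient.exact (Finset.mem_filter.mp hψ).2
    exact hF l χ, Finset.sum_const, nsmul_eq_mul]
  obtain ⟨d, -, hd⟩ := irr_one_eq_nat χ.2
  obtain ⟨n, hn⟩ := hG.exists_card_eq
  obtain ⟨a, -, rfl⟩ := (Nat.dvd_prime_pow Nat.prime_two).mp (hn ▸ irr_one_dvd_card χ.2 hd)
  have h2 : (Finset.univ.filter fun ψ => Quotient.mk (orbitRel Λ (IrrCharacter G)) ψ =
      Quotient.mk _ χ).card = (stabilizer Λ χ).index := by
    rw [index_stabilizer, ← Set.ncard_coe_finset]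
    congr 1; ext ψ
    simp only [Finset.coe_filter, Finset.mem_univ, true_and, Set.mem_setOf_eq, Quotient.eq]
    rfl
  have h3 := card_le χ.2 hd ((MonoidHom.compHom' (QuotientGroup.mk' _)).comp
    (stabilizer Λ χ).subtype) (fun a b e => Subtype.ext (QuotientGroup.monoidHom_ext _ e))
    fun l g => congrFun (congrArg Subtype.val l.2) g
  have h4 := (stabilizer Λ χ).index_mul_card
  obtain ⟨b, -, hb⟩ := (Nat.dvd_prime_pow Nat.prime_two).mp
    ((index_dvd_card (stabilizer Λ χ)).trans (hΛ ▸ hn ▸ card_quotient_dvd_card _))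
  have h5 : 2 ^ (2 * k + 1) ≤ 2 ^ (b + a * 2) := by
    rw [pow_add 2 b, pow_mul 2 a, ← hb]
    exact hgen.trans (hΛ ▸ h4 ▸ Nat.mul_le_mul_left _ h3)
  obtain ⟨c, hc⟩ : ∃ c, b + a = k + 1 + c :=
    ⟨b + a - (k + 1), by have := (Nat.pow_le_pow_iff_right one_lt_two).mp h5; omega⟩
  have h6 : ((2 ^ b : ℕ) : ℂ) * (2 ^ a : ℕ) = 2 ^ (k + 1) * 2 ^ c := by
    push_cast; rw [← pow_add, hc, pow_add]
  rw [h2, hb, hd, mul_left_comm, h6]
  rcases fsInd_cases χ.2 with h | h | h <;> rw [h]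
  exacts [⟨0, by simp⟩, ⟨2 ^ c, by simp⟩, ⟨-2 ^ c, by simp⟩]

end Cfsg.Agent.S4058
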