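import Cfsg.Statements.S4065
import Cfsg.Agent.Classical.PSL2

set_option autoImplicit false
open Cfsg

namespace Cfsg.Agent.S4065

/-- Let F be a finite field with 2ⁿ elements, n ≥ 2. In PSL₂(F) the centralizer of every element meets each of its conjugates by elements outside its normalizer trivially. -/
theorem result (n : ℕ) (hn : 2 ≤ n)
    (x : Matrix.ProjectiveSpecialLinearGroup (Fin 2) (GaloisField 2 n)) :
    Cfsg.IsTISubset (Subgroup.centralizer ({x} : Set (Matrix.ProjectiveSpecialLinearGroup (Fin 2) (GaloisField 2 n))) :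
      Set (Matrix.ProjectiveSpecialLinearGroup (Fin 2) (GaloisField 2 n))) := by
  open CF.Classical MatrixGroups in
  have L := isL2_PSL (GaloisField 2 n) (AlgebraicClosure (GaloisField 2 n))
  intro g hg y hy hy'
  by_contra h1
  refine hg ?_
  by_cases hx : x = 1
  · rw [hx, (Subgroup.centralizer_eq_top_iff_subset).2 (by simp), Subgroup.normalizer_eq_top]; trivial
  rcases isUnip_or_mem_torus (OnePoint (AlgebraicClosure (GaloisField 2 n))) hx with ⟨z, h⟩ | ⟨z, w, hzw, h⟩
  · rw [centralizer_eq_unip h] at *
    rw [normalizer_unip (unip_ne_bot_iff.2 ⟨x, h⟩)]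
    exact ((mem_unip.1 hy).resolve_left h1 |>.conj g).eq ((mem_unip.1 hy').resolve_left (by simpa using h1))
  · rw [centralizer_eq_torus hzw h fun e => by
      have := (L.coprime_card_torus' 2 hzw).coprime_dvd_left ((torus _ z w).orderOf_dvd_natCard h)
      rw [orderOf_eq_prime ((sq x).trans e) hx] at this
      exact absurd this (by decide)] at *
    rw [normalizer_eq_pairStab hzw (fun e => hx (e.le h)) le_rfl]
    exact mem_pairStab_of_conj_mem hzw h1 hy hy'

end Cfsg.Agent.S4065
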