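import Cfsg.Statements.S4068
import Cfsg.Agent.Fgs3.SL2Even
import Cfsg.Agent.Char.Integral

set_option autoImplicit false
open Cfsg

namespace Cfsg.Agent.S4068

open CF.BG CF.Fgs3 CF.Classical Subgroup

theorem orders {G : Type*} [Group G] [Finite G] (hns : ¬ Group.IsSolvable G)
    (h4 : Nat.card (MulAction.orbitRel.Quotient (MulAut G) G) = 4) (x : G) (hx : x ≠ 1) :
    (orderOf x).Prime := by
  classical
  by_contra hnp
  have h3 : 2 < (Nat.card G).primeFactors.card := by
    by_contra hle
    exact hns (CF.Char.isSolvable_of_card_primeFactors_le_two (by omega))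
  let f : MulAction.orbitRel.Quotient (MulAut G) G → ℕ :=
    Quotient.lift (fun g => orderOf g) (by
      rintro a b ⟨σ, rfl⟩
      exact MulEquiv.orderOf_eq σ b)
  have hsub : ((insert 1 (insert (orderOf x) (Nat.card G).primeFactors) : Finset ℕ) : Set ℕ) ⊆
      Set.range f := by
    intro n hn
    simp only [Finset.coe_insert, Set.mem_insert_iff, Finset.mem_coe] at hn
    rcases hn with rfl | rfl | hn
    · exact ⟨Quotient.mk _ 1, orderOf_one⟩
    · exact ⟨Quotient.mk _ x, rfl⟩
    · haveI : Fact n.Prime := ⟨Nat.prime_of_mem_primeFactors hn⟩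
      obtain ⟨y, hy⟩ := exists_prime_orderOf_dvd_card' n (Nat.dvd_of_mem_primeFactors hn)
      exact ⟨Quotient.mk _ y, hy⟩
  have h5 := Set.ncard_le_ncard hsub (Set.finite_range f)
  have h6 : (Set.range f).ncard ≤ 4 := by
    rw [← h4, ← Set.image_univ, ← Set.ncard_univ]
    exact Set.ncard_image_le
  rw [Set.ncard_coe_finset, Finset.card_insert_of_notMem, Finset.card_insert_of_notMem] at h5
  · omega
  · exact fun h => hnp (Nat.prime_of_mem_primeFactors h)
  · simp only [Finset.mem_insert, not_or]
    exact ⟨fun h => hx (orderOf_eq_one_iff.mp h.symm),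
      fun h => Nat.not_prime_one (Nat.prime_of_mem_primeFactors h)⟩


/-- A finite non-solvable group on which its automorphism group has exactly four orbits is isomorphic to the alternating group of degree 5. -/
theorem result {G : Type*} [Group G] [Finite G] (hns : ¬ Group.IsSolvable G)
    (h4 : Nat.card (MulAction.orbitRel.Quotient (MulAut G) G) = 4) : Nonempty (G ≃* alternatingGroup (Fin 5)) := by
  have ho := orders hns h4
  obtain ⟨S, hS⟩ := exists_syl 2 (⊤ : Subgroup G)
  obtain ⟨F, _, _, -, h2, hF, ⟨e⟩⟩ := psl_of_elem_cent hS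
    (fun h => hns (sol_top_iff.mp (sol_of_cyc_syl hS h)))
    (fun h => hns (sol_top_iff.mp (sol_of_normal_syl hS h))) (by
      intro t c ht hc
      by_contra hne
      have hc1 : c ≠ 1 := by rintro rfl; simp at hne
      have hp := ho c hc1
      have hc2 : orderOf c ≠ 2 := fun h => hne (h ▸ pow_orderOf_eq_one c)
      have hcop : (orderOf c).Coprime (orderOf t) := by
        rw [ht]; exact (Nat.coprime_primes hp Nat.prime_two).mpr hc2
      have h1 := (show Commute c t from hc).orderOf_mul_eq_mul_orderOf_of_coprime hcop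
      have h3 := ho (c * t) (fun h => by
        rw [h, orderOf_one, ht] at h1; omega)
      rw [h1, ht] at h3
      exact Nat.not_prime_mul hp.ne_one (by norm_num) h3)
  have key : ∀ n, (n = Nat.card F - 1 ∨ n = Nat.card F + 1) → n.Prime := by
    intro n hn
    obtain ⟨g, hg⟩ := exists_orderOf_PSL2 h2 hn
    rw [← hg, ← MulEquiv.orderOf_eq e.symm]
    refine ho _ fun h => ?_
    have := congrArg orderOf h
    rw [MulEquiv.orderOf_eq, hg, orderOf_one] at this
    omega
  have p1 := key _ (Or.inl rfl)
  have p2 := key _ (Or.inr rfl)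
  haveI : CharP F 2 := by
    have := CharP.ringChar_of_prime_eq_zero Nat.prime_two (by exact_mod_cast h2)
    exact this ▸ ringChar.charP F
  obtain ⟨n, -, hn⟩ := exists_card_eq_pow F 2
  have h3 : ¬ 3 ∣ Nat.card F := by
    rw [hn]; intro h
    have := Nat.Prime.dvd_of_dvd_pow Nat.prime_three h
    omega
  have hc : Nat.card F = 4 := by
    by_contra hne
    have : 3 ∣ Nat.card F - 1 ∨ 3 ∣ Nat.card F + 1 := by omega
    rcases this with h | h
    · have := (Nat.prime_dvd_prime_iff_eq Nat.prime_three p1).mp h; omega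
    · have := (Nat.prime_dvd_prime_iff_eq Nat.prime_three p2).mp h; omega
  obtain ⟨e'⟩ := PSL2_four_equiv hc
  exact ⟨e.trans e'⟩

end Cfsg.Agent.S4068
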