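import Cfsg.Statements.S4070
import Cfsg.Agent.Crit.Ob5
-- import your own Cfsg.Agent.* helpers here

set_option autoImplicit false
open Cfsg

namespace Cfsg.Agent.S4070

/-- Let G be a finite solvable group acting faithfully by additive automorphisms on a finite vector space V over the field with p elements, completely reducibly (every G-invariant subspace has a G-invariant complement). Then some vector v ∈ V has stabilizer C_G(v) of derived length at most 9; and if both #G and p are odd, some vector has abelian stabilizer. -/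
theorem result {G V : Type*} [Group G] [Finite G] [Group.IsSolvable G]
    {p : ℕ} [Fact p.Prime] [AddCommGroup V] [Module (ZMod p) V] [Finite V] [DistribMulAction G V] [FaithfulSMul G V]
    (hcr : ∀ W : Submodule (ZMod p) V, (∀ (g : G) (w : V), w ∈ W → g • w ∈ W) →
      ∃ W' : Submodule (ZMod p) V, (∀ (g : G) (w : V), w ∈ W' → g • w ∈ W') ∧ IsCompl W W') :
    (∃ v : V, derivedSeries ↥(MulAction.stabilizer G v) 9 = ⊥) ∧
    (Odd (Nat.card G) → p ≠ 2 → ∃ v : V, IsMulCommutative ↥(MulAction.stabilizer G v)) := by
  obtain ⟨h1, h2⟩ := CF.Crit.Ob.exists_ds (G := G) (V := V) fun X _ hX => by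
    obtain ⟨W, h1, h2⟩ := hcr (AddSubgroup.toZModSubmodule p X) fun g w hw => hX g trivial w hw
    refine ⟨W.toAddSubgroup, le_top, fun g _ => h1 g, ?_, ?_⟩
    · apply (AddSubgroup.toZModSubmodule p).injective
      rw [OrderIso.map_inf, OrderIso.map_bot]; exact h2.inf_eq_bot
    · apply (AddSubgroup.toZModSubmodule p).injective
      rw [OrderIso.map_sup, OrderIso.map_top]; exact h2.sup_eq_top
  refine ⟨h1, fun hG hp => (h2 hG ?_).imp fun v hv => ?_⟩
  · rw [Module.natCard_eq_pow_finrank (K := ZMod p) (V := V), Nat.card_zmod]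
    exact ((Fact.out : p.Prime).odd_of_ne_two hp).pow
  · exact ⟨⟨fun a b => commutatorElement_eq_one_iff_mul_comm.1 (Subgroup.mem_bot.1
      (hv ▸ Subgroup.commutator_mem_commutator (Subgroup.mem_top a) (Subgroup.mem_top b)))⟩⟩

end Cfsg.Agent.S4070
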