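import Cfsg.Statements.S4071
import Cfsg.Agent.Pgp.C

set_option autoImplicit false
open Cfsg

namespace Cfsg.Agent.S4071


/-- Let G be a finite solvable non-nilpotent group. Every non-abelian subgroup of G is self-normalizing if and only if G is a semidirect product ⟨x⟩ ⋉ A in which ⟨x⟩ is a p-group for some prime p, A is a normal abelian subgroup of order prime to p, x^p is central in G, and x acts fixed-point-freely on A (no non-identity element of A commutes with x). -/
theorem result {G : Type*} [Group G] [Finite G]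
    [Group.IsSolvable G] (hnn : ¬ Group.IsNilpotent G) :
    (∀ H : Subgroup G, ¬ IsMulCommutative H → Subgroup.normalizer (H : Set G) = H) ↔
    ∃ (x : G) (A : Subgroup G) (p : ℕ), p.Prime ∧ A.Normal ∧ IsMulCommutative A ∧ (∃ k : ℕ, orderOf x = p ^ k) ∧
      ¬ p ∣ Nat.card A ∧ (Subgroup.zpowers x).IsComplement' A ∧ x ^ p ∈ Subgroup.center G ∧
      ∀ a : G, a ∈ A → a ≠ 1 → x * a * x⁻¹ ≠ a := by
  constructor
  · intro h
    obtain ⟨x, A, p, hp, a, k, k', d, c, e⟩ := CF.Pgp.SN.struct (fun H na => h H fun b => na (.of_comm b))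
      inferInstance fun b => hnn (Group.nilpotent_of_mulEquiv Subgroup.topEquiv)
    refine ⟨x, A, p, hp, CF.BG.normalIn_top.1 d.normal, a.comm, k.exists_pow (orderOf_pos x).ne',
      k'.not_dvd' hp rfl, d.isComplement'.symm, Subgroup.mem_center_iff.2 fun g => c g trivial,
      fun y hy y1 b => y1 (CF.BG.eq_one_of_mem_bot e ⟨hy, CF.BG.mem_cent1.2 ?_⟩)⟩
    rw [← mul_inv_eq_iff_eq_mul.1 b]
  · rintro ⟨x, A, p, hp, n, a, ⟨k, hk⟩, k', d, c, e⟩ H na
    refine CF.Pgp.sn_of_struct hp (.of_comm a) (by rw [CF.BG.PiElt, hk]; exact CF.BG.piNat_pow_self hp k)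
      ((CF.BG.piNat_compl_single hp).2 k') (.of_isComplement' d.symm)
      (fun g _ => Subgroup.mem_center_iff.1 c g) (CF.BG.eq_bot_of_forall fun y hy => ?_) H fun b => na b.comm
    by_contra y1
    exact e y hy.1 y1 (mul_inv_eq_iff_eq_mul.2 (CF.BG.mem_cent1.1 hy.2).symm)

end Cfsg.Agent.S4071
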