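import Cfsg.Statements.S4072
import Cfsg.Agent.Pgp.C

set_option autoImplicit false
open Cfsg

namespace Cfsg.Agent.S4072


/-- A finite group in which every non-abelian subgroup is self-normalizing is solvable or simple. -/
theorem result {G : Type*} [Group G] [Finite G] (hS : ∀ H : Subgroup G, ¬ IsMulCommutative H → Subgroup.normalizer (H : Set G) = H) :
    Group.IsSolvable G ∨ IsSimpleGroup G := by
  rcases subsingleton_or_nontrivial G with h | h
  · exact .inl inferInstance
  refine (CF.Pgp.SN.sol_or fun H na => hS H fun b => na (.of_comm b)).imp (fun s => ?_) fun s => ?_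
  · have : Group.IsSolvable (⊤ : Subgroup G) := s
    exact Group.isSolvable_of_surjective (f := (⊤ : Subgroup G).subtype) fun x => ⟨⟨x, trivial⟩, rfl⟩
  · exact ⟨fun N n => s N (CF.BG.normalIn_top.2 n)⟩

end Cfsg.Agent.S4072
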