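import Cfsg.Statements.S4073
import Cfsg.Agent.Fgs3.AbInv2
import Cfsg.Agent.Transfer.Frobenius

set_option autoImplicit false
open Cfsg

namespace Cfsg.Agent.S4073

open CF.BG CF.Fgs3 CF.Classical CF.Invol Subgroup
open scoped MatrixGroups

def SN (G : Type*) [Group G] : Prop := ∀ K M : Subgroup G, K ⊴ M → K ≠ M → Abel K

theorem SN.of_equiv {G G' : Type*} [Group G] [Group G'] (h : SN G) (e : G' ≃* G) : SN G' :=
  fun K M hn hne => (abel_map_iff e.injective).mp (h _ _ (hn.map e.toMonoidHom)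
    fun k => hne (map_injective e.injective k))

theorem SN.idx {G : Type*} [Group G] [Finite G] (h : SN G) {Q M : Subgroup G} (a : Abel Q)
    (h1 : 𝐂 Q ≤ M) (h2 : M ≤ 𝐍 Q) : (𝐂 Q).relIndex M = 1 ∨ ((𝐂 Q).relIndex M).Prime := by
  have hn : 𝐂 Q ⊴ M := ⟨h1, norm_cent h2⟩
  rw [← card_qt hn.norm]
  set W := qt (𝐂 Q) M
  have key : ∀ X Y : Subgroup (Quo (𝐂 Q)), X ≠ ⊥ → X ⊴ Y → X = Y := by
    intro X Y hX hXY
    by_contra hne
    have := h _ _ hXY.qp (fun k => hne (qp_inj.mp k))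
    exact hX (qp_eq_self.mp (le_antisymm (this.cent le_rfl (le_trans a (le_qp X))) (le_qp X)))
  by_cases hW : W = ⊥
  · left; rw [hW]; simp
  right
  obtain ⟨X, hX, hp⟩ := exists_prime_card_le hW
  have hX1 := ne_bot_of_prime_card hp
  have e : X = W ⊓ 𝐍 X := key _ _ hX1 ⟨le_inf hX (le_norm_self X), inf_le_right⟩
  have hS : Syl (♯X) X W := syl_of_syl_norm hX (e ▸ Hall.refl (piGrp_of_card_prime hp rfl))
  have hd := (hS.burnside (e ▸ (cyc_of_prime hp).abel)).sdprod hS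
  have hO : 𝐎 {♯X}ᶜ W = ⊥ := by
    by_contra hne
    have h3 := hd.inf
    rw [key _ _ hne (O_normal _ _), inf_eq_right.mpr hX] at h3
    exact hX1 h3
  have := hd.sup
  rw [hO, bot_sup_eq] at this
  rwa [← this]

theorem SN.syl {G : Type*} [Group G] [Finite G] (h : SN G) (hn : ¬ NPC 2 (⊤ : Subgroup G)) :
    ∃ S : Subgroup G, Syl 2 S ⊤ ∧ Abel S := by
  haveI : Fact (Nat.Prime 2) := ⟨Nat.prime_two⟩
  obtain ⟨Q, hQ⟩ : ∃ Q : Subgroup G, PiGrp {2} Q ∧ ∃ g ∈ 𝐍 Q, PiElt {2}ᶜ g ∧ g ∉ 𝐂 Q := by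
    by_contra hc
    push Not at hc
    refine hn ((npc_iff Nat.prime_two).mpr (CF.Transfer.HasNPC.of_equiv
      (CF.Transfer.frobenius_hasNPC' fun Q hQ _ g hg k => hc Q (piGrp_of_isPGroup Nat.prime_two hQ)
        g hg ((piNat_compl_single_iff_coprime Nat.prime_two).mpr k)) topEquiv.symm))
  obtain ⟨Q, -, ⟨hQ, g, hg, og, hgc⟩, hmax⟩ := exists_maximal
    (P := fun Q : Subgroup G => PiGrp {2} Q ∧ ∃ g ∈ 𝐍 Q, PiElt {2}ᶜ g ∧ g ∉ 𝐂 Q) hQ
  have a : Abel Q := h Q _ (normalIn_norm Q) fun e => hgc (by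
    rw [(hQ.elt (e ▸ hg)).eq_one og]; exact one_mem _)
  have hi : PiNat {2}ᶜ ((𝐂 Q).relIndex (𝐍 Q)) := by
    rcases h.idx a (cent_le_norm Q) le_rfl with k | k
    · rw [k]; exact piNat_one _
    · refine (piNat_prime k).mpr fun e => hgc (og.mem_of_relIndex hg (norm_le_norm_cent Q) ?_)
      exact ((piNat_prime k).mpr e).compl_compl
  obtain ⟨T, hT, hQT⟩ := exists_syl_le (le_norm_self Q) hQ
  have hTC : T ≤ 𝐂 Q := hT.pi.le_of_relIndex hT.le (norm_le_norm_cent Q) hi
  obtain ⟨x, hx, b, hb, rfl⟩ := (hT.of_le hTC (cent_le_norm Q)).syl_frattini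
    ⟨cent_le_norm Q, norm_le_norm_cent Q⟩ hg
  have hb2 : constt {2} b ∈ 𝐂 Q :=
    (constt_pi _ b).mem_of_relIndex (constt_mem_of_mem _ hb.1) (norm_le_norm_cent Q) hi
  have e := hmax T ⟨hT.pi, constt {2}ᶜ b, constt_mem_of_mem _ hb.2, constt_pi _ b, fun k => hgc (by
    rw [← constt_mul_constt {2} b]
    exact mul_mem hx (mul_mem hb2 (cent_anti hQT k)))⟩ hQT
  subst e
  exact ⟨T, syl_of_syl_norm le_top (by simpa using hT), a⟩

theorem eq_one_of_cent {G : Type*} [Group G] [Finite G] {p : ℕ} (hp : p.Prime) {S : Subgroup G}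
    (hS : Syl p S ⊤) (a : Abel S) {t : G} (h1 : t ∈ S) (h2 : t ∈ commutator G)
    (h3 : t ∈ 𝐂 (𝐍 S)) : t = 1 := by
  haveI : Fact p.Prime := ⟨hp⟩
  obtain ⟨K, hK, hK'⟩ := (hS.of_le (le_norm_self S) le_top).exists_compl le_rfl
  have h4 : t ∈ ⁅S, 𝐍 S⁆ := by
    obtain ⟨P, rfl⟩ := hS.exists_sylow_top
    rw [← CF.Transfer.abelian_sylow_inf_commutator P a.comm]; exact ⟨h1, h2⟩
  have h5 : ⁅S, 𝐍 S⁆ ≤ ⁅S, K⁆ := by
    rw [← hK.sup]
    exact comm_sup_le' (by rw [der_eq_bot.mpr a]; exact bot_le) le_rfl (norm_comm_left _ _)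
      (norm_comm_right _ _)
  exact eq_one_of_mem_bot (a.comm_inf_cent hK.norm (hK'.pi.coprime' hS.pi))
    ⟨h5 h4, cent_anti hK.right_le h3⟩

theorem SN.ab {G : Type*} [Group G] [Finite G] (h : SN G) (hs : ¬ Sol (⊤ : Subgroup G))
    (hp : commutator G = ⊤) {t : G} (o : orderOf t = 2) : Abel (𝐂₁ t) := by
  obtain ⟨S, hS, a⟩ := h.syl fun k => hs (sol_of_npc_two k)
  obtain ⟨g, -, hg⟩ := hS.syl_le_cj le_top (piElt_two o).zpowers
  replace hg := hg (mem_zpowers t)
  replace hS := hS.cj_top g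
  replace a : Abel (cj g S) := abel_cj.mpr a
  generalize cj g S = S at hg hS a
  have hCS : 𝐂 S ≤ 𝐂₁ t := cent_le_cent1 hg
  have hSC : S ≤ 𝐂₁ t := le_trans a hCS
  have hS' := hS.of_le hSC le_top
  have hM : 𝐂₁ t ⊓ 𝐍 S ≤ 𝐂 S := by
    by_contra hM
    have hle : 𝐂 S ≤ 𝐂₁ t ⊓ 𝐍 S := le_inf hCS (cent_le_norm S)
    have e := relIndex_mul_relIndex _ _ _ hle (inf_le_right : 𝐂₁ t ⊓ 𝐍 S ≤ 𝐍 S)
    have h1 : (𝐂 S).relIndex (𝐂₁ t ⊓ 𝐍 S) ≠ 1 := fun k => hM (relIndex_eq_one.mp k)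
    have h2 : (𝐂₁ t ⊓ 𝐍 S).relIndex (𝐍 S) = 1 := by
      rcases h.idx a (cent_le_norm S) le_rfl with k | k
      · exact Nat.eq_one_of_mul_eq_one_left (e.trans k)
      · rw [← e] at k
        exact (Nat.prime_mul_iff.mp k).elim (fun k => k.2) fun k => absurd k.2 h1
    exact ne_one_of_orderOf o (eq_one_of_cent Nat.prime_two hS a hg (hp ▸ mem_top t)
      (le_cent1_iff.mp ((relIndex_eq_one.mp h2).trans inf_le_left)))
  have hd := (hS'.burnside hM).sdprod hS'
  set K := 𝐎 {2}ᶜ (𝐂₁ t)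
  have hder : ⁅𝐂₁ t, 𝐂₁ t⁆ ≤ K := by
    rw [← abel_qt_iff hd.normal.norm, hd.qt_eq]; exact a.qt K
  have key : ∀ s ∈ S, Abel (K ⊔ zpowers s) := fun s hs' => by
    refine h _ (𝐂₁ t) (normalIn_of_der_le (sup_le hd.left_le (zpowers_le_of_mem (hSC hs')))
      (hder.trans le_sup_left)) fun e => hs (sol_of_cyc_syl hS ?_)
    have : S ⊓ (K ⊔ zpowers s) = zpowers s := by
      rw [inf_sup_right (zpowers_le_of_mem hs') (Or.inr ((zpowers_le_of_mem hs').trans hd.norm)),
        hd.inf', bot_sup_eq]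
    rw [e, inf_eq_left.mpr hSC] at this
    rw [this]; exact cyc_zpowers s
  rw [← hd.sup']
  exact a.sup ((key 1 (one_mem S)).mono le_sup_left) fun s hs' =>
    (key s hs').cent le_sup_right le_sup_left (mem_zpowers s)

section
variable {F : Type*} [Field F] [Finite F]

theorem card_two (h2 : (2 : F) = 0) : ∃ n, 0 < n ∧ Nat.card F = 2 ^ n :=
  haveI := charP_two h2
  exists_card_eq_pow F 2

theorem idx_one (h2 : (2 : F) = 0) :
    (Matrix.ProjectiveSpecialLinearGroup.toPGL : PSL(2, F) →* PGL(2, F)).range.index = 1 := by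
  rw [range_pslToPGL, psl_eq_top h2, index_top]

theorem forward (h2 : (2 : F) = 0) (h4 : 4 ≤ Nat.card F) (h : SN PSL(2, F)) :
    (Nat.card F - 1).Prime := by
  have L := isL2_PSL F (AlgebraicClosure F)
  set x := ratPt (AlgebraicClosure F) (OnePoint.infty : OnePoint F)
  obtain ⟨u, hu⟩ := L.exists_isUnip OnePoint.infty
  have a : Abel (unip PSL(2, F) x) := abel_of_forall fun _ hx _ hy => unip_comm hx hy
  have e : 𝐂 (unip PSL(2, F) x) = unip PSL(2, F) x :=
    le_antisymm ((cent_le_cent1 (mem_unip.mpr (Or.inr hu))).trans (centralizer_eq_unip hu).le) a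
  have h1 := h.idx a (cent_le_norm _) le_rfl
  rw [e, normalizer_unip (L.unip_ratPt_ne_bot _)] at h1
  have h3 := card_unip_mul_relIndex (H := PSL(2, F)) x
  have h5 := L.card_stabilizer_ratPt OnePoint.infty
  rw [idx_one h2, mul_one, ← h3, L.card_unip_ratPt] at h5
  rw [Nat.eq_of_mul_eq_mul_left (by omega) h5] at h1
  exact h1.resolve_left (by omega)

theorem converse (h2 : (2 : F) = 0) (h4 : 4 ≤ Nat.card F) (hp : (Nat.card F - 1).Prime)
    (H : Subgroup PSL(2, F)) (hH : ¬ Abel H) : 𝐍 H = H := by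
  have L := isL2_PSL F (AlgebraicClosure F)
  obtain ⟨n, hn0, hn⟩ := card_two h2
  obtain ⟨t, ht, o⟩ := exists_mem_orderOf_eq Nat.prime_two (H := H) (by
    by_contra k
    exact hH (odd_PSL2 h2 H (Nat.odd_iff.mpr (by omega))).1.abel)
  obtain ⟨x, hx⟩ : ∃ x : OnePoint (AlgebraicClosure F), IsUnip t x := by
    refine (isUnip_or_mem_torus _ (ne_one_of_orderOf o)).resolve_right ?_
    rintro ⟨x, y, hxy, k⟩
    exact not_dvd_of_coprime (L.coprime_card_torus hxy) Nat.prime_two (o.symm.dvd.trans (orderOf_dvd_card' k))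
      (hn ▸ dvd_pow_self 2 hn0.ne')
  obtain ⟨x, rfl⟩ := L.mem_range_of_isUnip hx
  set z := ratPt (AlgebraicClosure F) x
  have hU := L.card_unip_ratPt x
  have hB := L.card_stabilizer_ratPt x
  rw [idx_one h2, mul_one] at hB
  have hcop : ∀ m, Odd m → m ∣ Nat.card F * (Nat.card F - 1) → m ∣ Nat.card F - 1 := fun m hm k =>
    Nat.Coprime.dvd_of_dvd_mul_left (by rw [hn]; exact (Nat.coprime_two_right.mpr hm).pow_right n) k
  have hev : ∀ X : Subgroup PSL(2, F), t ∈ X → 2 ∣ Nat.card (unip X z) ∧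
      Nat.card (unip X z) ∣ Nat.card F ∧
      Nat.card (MulAction.stabilizer X z) ∣ Nat.card F * (Nat.card F - 1) := fun X hX => by
    rw [card_unip_subgroup, card_stabilizer_subgroup, ← hB, ← hU]
    exact ⟨o.symm.dvd.trans (orderOf_dvd_card' ⟨hX, mem_unip.mpr (Or.inr hx)⟩), card_dvd inf_le_right,
      card_dvd inf_le_right⟩
  refine le_antisymm ?_ (le_norm_self H)
  set N := 𝐍 H with hN
  have hHN : H ≤ N := le_norm_self H
  obtain ⟨e1, e2, e3⟩ := hev N (hHN ht)
  have hpos : 0 < Nat.card (unip N z) := Nat.card_pos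
  rcases klein_unipotent_cases (H := N) (x := z) (unip_ne_bot_iff.mpr ⟨⟨t, hHN ht⟩, hx⟩) with
    k | ⟨-, y, k1, -, k2⟩ | ⟨k, -⟩ | ⟨k1, k2⟩
  · have hNB : N ≤ MulAction.stabilizer PSL(2, F) z := fun g hg => k ⟨g, hg⟩
    obtain ⟨f1, f2, f3⟩ := hev H ht
    have f4 := relIndex_unip_dvd (H := H) z
    have f5 := card_unip_mul_relIndex (H := H) z
    have f6 : Nat.card (MulAction.stabilizer H z) = ♯H := by
      rw [card_stabilizer_subgroup, inf_eq_left.mpr (hHN.trans hNB)]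
    have f7 : 0 < Nat.card (unip H z) := Nat.card_pos
    generalize (unip H z).relIndex (MulAction.stabilizer H z) = m at f4 f5
    have f8 : m ∣ Nat.card F - 1 := hcop m (Odd.of_dvd_nat (Nat.odd_iff.mpr (by omega)) f4)
      ((Dvd.intro_left _ f5).trans f3)
    rcases (Nat.dvd_prime hp).mp f8 with rfl | rfl
    · rw [mul_one, f6, card_unip_subgroup] at f5
      exact absurd (abel_of_forall fun a ha b hb => unip_comm
        ((eq_of_card_eq inf_le_left f5).ge ha).2 ((eq_of_card_eq inf_le_left f5).ge hb).2) hH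
    · have := Nat.le_of_dvd (by omega) f4
      rw [eq_of_card_le (hHN.trans hNB) (by
        rw [hB, ← f6, ← f5]; exact Nat.mul_le_mul_right _ (by omega))]
      exact hNB
  · obtain ⟨y', hy, k3, -⟩ := exists_of_ncard_orbit_eq_two k1
    have k4 := ncard_orbit_mul_card_stabilizer (H := N) y
    have hS : Syl 2 (zpowers t) N := by
      refine syl_mk Nat.prime_two (zpowers_le_of_mem (hHN ht)) (piElt_two o).zpowers ?_
      have := card_mul_relIndex (zpowers_le_of_mem (hHN ht))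
      rw [Nat.card_zpowers, o, ← k4, k1] at this
      rw [Nat.eq_of_mul_eq_mul_left two_pos this]
      exact k2.not_two_dvd_nat
    have k5 : ∀ c : N, c • y = y' → c • y' = y → (c : PSL(2, F)) ∈ H := fun c c1 c2 => by
      have c3 := mul_self_eq_one_of_swap hy.symm c1 c2
      obtain ⟨g, hg, c4⟩ := hS.syl_le_cj (zpowers_le_of_mem c.2) (piElt_of_pow_eq_one Nat.prime_two
        (by rw [sq]; exact congrArg Subtype.val c3)).zpowers
      exact cj_le_of_norm hg (zpowers_le_of_mem ht) (c4 (mem_zpowers _))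
    intro c hc
    rcases k3 ⟨c, hc⟩ with ⟨c1, c2⟩ | ⟨c1, c2⟩
    · rcases k3 ⟨t, hHN ht⟩ with ⟨t1, -⟩ | ⟨t1, t2⟩
      · refine absurd ?_ k2.not_two_dvd_nat
        exact ((orderOf_coe (⟨t, hHN ht⟩ : N)).symm.trans o).symm.dvd.trans
          (orderOf_dvd_card' (show (⟨t, hHN ht⟩ : N) ∈ MulAction.stabilizer N y from t1))
      · have := k5 (⟨t, hHN ht⟩ * ⟨c, hc⟩) (by rw [mul_smul, c1, t1]) (by rw [mul_smul, c2, t2])
        simpa using mul_mem (inv_mem ht) this
    · exact k5 _ c1 c2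
  · rw [k, hn] at e2
    have := Nat.Prime.dvd_of_dvd_pow Nat.prime_three e2
    omega
  · have k3 := card_unip_mul_relIndex (H := N) z
    have k4 := ncard_orbit_mul_card_stabilizer (H := N) z
    generalize (unip N z).relIndex (MulAction.stabilizer N z) = m at k3
    generalize Nat.card (unip N z) = Q at *
    rcases k2 with k2 | k2
    · rw [k1, k2] at k4
      rcases (Nat.dvd_prime hp).mp (hcop (Q - 1) (Nat.odd_iff.mpr (by omega))
        ((Dvd.intro_left _ k2.symm).trans e3)) with k5 | k5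
      · obtain rfl : Q = 2 := by omega
        have d := card_dvd hHN
        refine (eq_of_card_eq hHN ?_).ge
        rw [← k4] at d ⊢
        have d1 := Nat.le_of_dvd (by norm_num) d
        have d2 := card_pos' H
        have d3 : ¬ (♯H).Prime := fun k => hH (cyc_of_prime k).abel
        have d4 : ♯H ≠ 1 := fun k => hH (card_eq_one'.mp k ▸ abel_bot)
        interval_cases ♯H <;> first | rfl | (exfalso; revert d d3 d4; decide)
      · obtain rfl : Q = Nat.card F := by omega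
        have k6 := L.card_mul_index
        rw [idx_one h2, mul_one] at k6
        have k7 : N = ⊤ := eq_of_card_eq le_top (by
          rw [card_top', k6, ← k4, Nat.sq_sub_sq _ 1]; ring)
        haveI := isSimpleGroup_PSL2 h4
        rcases (normalizer_eq_top_iff.mp k7).eq_bot_or_eq_top with k | k
        · exact absurd (k ▸ abel_bot) hH
        · rw [k]; exact le_top
    · rw [← k3, ← mul_assoc, mul_comm 2, mul_assoc] at k2
      have := Nat.eq_of_mul_eq_mul_left hpos k2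
      omega

end


/-- Let G be a finite non-abelian simple group. Every non-abelian subgroup of G is self-normalizing if and only if G is isomorphic to PSL₂(2ⁿ) for some n ≥ 2 with 2ⁿ − 1 prime (this includes the alternating group of degree 5 as PSL₂(4)). -/
theorem result {G : Type*} [Group G] [Finite G] [IsSimpleGroup G]
    (hna : ¬ IsMulCommutative G) :
    (∀ H : Subgroup G, ¬ IsMulCommutative H → Subgroup.normalizer (H : Set G) = H) ↔
    ∃ n : ℕ, 2 ≤ n ∧ (2 ^ n - 1).Prime ∧ Nonempty (G ≃* Matrix.ProjectiveSpecialLinearGroup (Fin 2) (GaloisField 2 n)) := by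
  haveI : Fact (Nat.Prime 2) := ⟨Nat.prime_two⟩
  constructor
  · intro h
    have h' : SN G := fun K M hn hne => by
      by_contra k
      exact hne (le_antisymm hn.le (h K (fun k' => k (Abel.of_comm k')) ▸ hn.norm))
    have hs : ¬ Sol (⊤ : Subgroup G) := fun k =>
      hna ⟨⟨IsSimpleGroup.comm_iff_isSolvable.mpr (sol_top_iff.mp k)⟩⟩
    have hp : commutator G = ⊤ := (inferInstance : (commutator G).Normal).eq_bot_or_eq_top.resolve_left
      fun k => hs (der_eq_bot.mp k).sol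
    obtain ⟨S, hS⟩ := exists_syl 2 (⊤ : Subgroup G)
    have hA : AI S := ⟨fun t o => h'.ab hs hp o, hS, fun k => hs (sol_of_cyc_syl hS k),
      fun k => hs (sol_of_normal_syl hS k.ge)⟩
    obtain ⟨F, _, _, h2, h4, π, hπ, -, hc⟩ := hA.main
    have hk : π.ker = ⊥ := (inferInstance : π.ker.Normal).eq_bot_or_eq_top.resolve_right fun k =>
      hna (center_eq_top_iff.mp (top_le_iff.mp (k ▸ hc)))
    let e := MulEquiv.ofBijective π ⟨(MonoidHom.ker_eq_bot_iff π).mp hk, hπ⟩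
    have hq := forward h2 h4 (h'.of_equiv e.symm)
    obtain ⟨n, hn0, hn⟩ := card_two h2
    obtain ⟨φ⟩ := nonempty_ringEquiv_of_card_eq (K := F) (K' := GaloisField 2 n)
      (by rw [hn, GaloisField.card 2 n hn0.ne'])
    refine ⟨n, ?_, hn ▸ hq, ⟨e.trans (pslCongr _ φ)⟩⟩
    by_contra k
    obtain rfl : n = 1 := by omega
    omega
  · rintro ⟨n, hn, hp, ⟨e⟩⟩ H hH
    have hc := GaloisField.card 2 n (by omega)
    have := converse (F := GaloisField 2 n) (by exact_mod_cast CharP.cast_eq_zero (GaloisField 2 n) 2)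
      (by rw [hc]; exact (Nat.pow_le_pow_right (by norm_num) hn : 2 ^ 2 ≤ 2 ^ n)) (hc ▸ hp)
      (H.map e.toMonoidHom) (fun k => hH ((abel_map_iff e.injective).mp k).comm)
    refine le_antisymm ?_ (le_norm_self H)
    rw [← map_le_map_iff_of_injective (f := e.toMonoidHom) e.injective, ← this]
    exact map_norm le_rfl _

end Cfsg.Agent.S4073
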