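import Cfsg.Statements.S4074
import Cfsg.Agent.BG.B11

set_option autoImplicit false
open Cfsg

namespace Cfsg.Agent.S4074

open CF.BG Subgroup DihedralGroup

def evenSub {n : ℕ} (h : 2 ∣ n) : Subgroup (DihedralGroup n) where
  carrier := {x | match x with
    | r i => ZMod.castHom h (ZMod 2) i = 0
    | sr i => ZMod.castHom h (ZMod 2) i = 0}
  one_mem' := by show ZMod.castHom h (ZMod 2) 0 = 0; exact map_zero _
  mul_mem' := by
    rintro (i | i) (j | j) hi hj <;> simp only [Set.mem_ofPred_eq] at hi hj <;>
      simp only [Set.mem_ofPred_eq, r_mul_r, r_mul_sr, sr_mul_r, sr_mul_sr, map_add, map_sub, hi, hj,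
        add_zero, sub_zero]
  inv_mem' := by
    rintro (i | i) hi <;> simp only [Set.mem_ofPred_eq] at hi <;>
      simp only [Set.mem_ofPred_eq, inv_r, inv_sr, map_neg, hi, neg_zero]

theorem r_mem {n : ℕ} (h : 2 ∣ n) (i : ZMod n) :
    r i ∈ evenSub h ↔ ZMod.castHom h (ZMod 2) i = 0 := Iff.rfl

theorem sr_mem {n : ℕ} (h : 2 ∣ n) (i : ZMod n) :
    sr i ∈ evenSub h ↔ ZMod.castHom h (ZMod 2) i = 0 := Iff.rfl


/-- For n > 2, every non-abelian subgroup of the dihedral group of order 2n is self-normalizing if and only if n = 4 or n is odd. -/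
theorem result (n : ℕ) (hn : 2 < n) :
    (∀ H : Subgroup (DihedralGroup n), ¬ IsMulCommutative H → Subgroup.normalizer (H : Set (DihedralGroup n)) = H) ↔
    (n = 4 ∨ Odd n) := by
  haveI : NeZero n := ⟨by omega⟩
  constructor
  · intro h
    by_contra hc
    push Not at hc
    obtain ⟨h4, ho⟩ := hc
    have h2 : 2 ∣ n := even_iff_two_dvd.1 (Nat.not_odd_iff_even.1 ho)
    have hna : ¬ IsMulCommutative (evenSub h2) := by
      intro hc
      have a : r (2 : ZMod n) ∈ evenSub h2 := by
        rw [r_mem, map_ofNat]; rfl
      have b : sr (0 : ZMod n) ∈ evenSub h2 := by rw [sr_mem, map_zero]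
      have := (Abel.of_comm hc).mul_comm a b
      rw [r_mul_sr, sr_mul_r, sr.injEq] at this
      have e : ((4 : ℕ) : ZMod n) = 0 := by
        push_cast
        linear_combination -this
      rw [ZMod.natCast_eq_zero_iff] at e
      have := Nat.le_of_dvd (by norm_num) e
      omega
    have h1 : r (1 : ZMod n) ∈ 𝐍 (evenSub h2) := by
      rw [mem_norm]
      have e : ∀ a : ZMod 2, a - 1 + -1 = a := by decide
      rintro (i | i)
      · rw [inv_r, r_mul_r, r_mul_r, r_mem, r_mem]
        congr! 2; ring
      · rw [inv_r, r_mul_sr, sr_mul_r, sr_mem, sr_mem, map_add, map_sub, map_neg, map_one, e]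
    rw [h _ hna, r_mem, map_one] at h1
    exact one_ne_zero h1
  · rintro (rfl | ho) H hH
    · obtain rfl : H = ⊤ := by
        by_contra hne
        have hT : ♯(⊤ : Subgroup (DihedralGroup 4)) = 2 ^ 3 := by
          rw [card_top', DihedralGroup.nat_card]; rfl
        have hT' := piGrp_of_card Nat.prime_two hT
        have := hT'.logn_lt (lt_top_iff_ne_top.2 hne)
        rw [hT, logn_pow Nat.prime_two] at this
        exact hH ((hT'.le le_top).abel_of_logn (by omega)).comm
      exact norm_top
    · have hex : ∃ i, sr i ∈ H := by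
        by_contra hc
        push Not at hc
        apply hH
        refine (abel_of_forall ?_).comm
        rintro (i | i) hi (j | j) hj
        · rw [r_mul_r, r_mul_r, add_comm]
        · exact absurd hj (hc j)
        · exact absurd hi (hc i)
        · exact absurd hi (hc i)
      obtain ⟨i, hi⟩ := hex
      have key : ∀ j, r j ∈ 𝐍 H → r j ∈ H := by
        intro j hj
        have a := mul_mem (conj_mem_of_norm hj hi) hi
        rw [inv_r, r_mul_sr, sr_mul_r, sr_mul_sr] at a
        obtain ⟨m, hm⟩ := ho
        have b := pow_mem a (m + 1)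
        rw [r_pow] at b
        convert b using 2
        have e : ((2 * m + 1 : ℕ) : ZMod n) = 0 := by rw [← hm, ZMod.natCast_self]
        push_cast at e ⊢
        linear_combination (-j) * e
      refine le_antisymm ?_ (le_norm_self H)
      rintro (j | j) hj
      · exact key j hj
      · have a := key _ (by simpa using mul_mem hj (le_norm_self H hi))
        have b := mul_mem a hi
        rw [r_mul_sr] at b
        simpa using b

end Cfsg.Agent.S4074
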