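import Cfsg.Statements.S4075
import Cfsg.Agent.BG.B11

set_option autoImplicit false
open Cfsg

namespace Cfsg.Agent.S4075

open CF.BG Subgroup


/-- Let G be a finite nilpotent group. Every non-abelian subgroup of G is self-normalizing if and only if G is abelian or G is a minimal non-abelian p-group for some prime p (non-abelian of prime-power order with every proper subgroup abelian). -/
theorem result {G : Type*} [Group G] [Finite G]
    [Group.IsNilpotent G] :
    (∀ H : Subgroup G, ¬ IsMulCommutative H → Subgroup.normalizer (H : Set G) = H) ↔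
    (IsMulCommutative G ∨ (IsPrimePow (Nat.card G) ∧ ¬ IsMulCommutative G ∧ ∀ H : Subgroup G, H ≠ ⊤ → IsMulCommutative H)) := by
  have hG : Nil (⊤ : Subgroup G) := inferInstance
  have htop : Abel (⊤ : Subgroup G) ↔ IsMulCommutative G := by
    constructor
    · intro h
      exact ⟨⟨fun a b => h.mul_comm (mem_top a) (mem_top b)⟩⟩
    · intro h
      exact abel_of_forall fun a _ b _ => h.1.1 a b
  constructor
  · intro h
    by_cases hc : IsMulCommutative G
    · exact Or.inl hc
    have h1 : ∀ H : Subgroup G, H ≠ ⊤ → IsMulCommutative H := by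
      intro H hH
      by_contra hn
      have := hG.lt_inf_norm (lt_top_iff_ne_top.2 hH)
      rw [h H hn, top_inf_eq] at this
      exact lt_irrefl _ this
    refine Or.inr ⟨?_, hc, h1⟩
    have hne : (⊤ : Subgroup G) ≠ ⊥ := fun h => hc (htop.1 (h ▸ abel_bot))
    obtain ⟨p, hp, hd⟩ := exists_prime_dvd_card hne
    have hD := hG.dprod {p}
    by_cases h2 : 𝐎 {p} (⊤ : Subgroup G) = ⊤
    · have h3 : PiGrp {p} (⊤ : Subgroup G) := h2 ▸ O_pi _ _
      obtain ⟨k, hk⟩ := h3.card_pow
      rw [card_top'] at hk hd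
      refine ⟨p, k, hp.prime, Nat.pos_of_ne_zero ?_, hk.symm⟩
      rintro rfl
      rw [hk, pow_zero] at hd
      exact hp.one_lt.ne' (Nat.dvd_one.1 hd)
    · exfalso
      have h3 : 𝐎 {p}ᶜ (⊤ : Subgroup G) ≠ ⊤ := by
        intro h3
        have h4 : PiGrp {p}ᶜ (⊤ : Subgroup G) := h3 ▸ O_pi _ _
        exact h4.not_dvd' hp rfl hd
      exact hc (htop.1 (hD.abel (Abel.of_comm (h1 _ h2)) (Abel.of_comm (h1 _ h3))))
  · rintro (h | ⟨-, -, h⟩) H hH
    · exact absurd ((htop.2 h).mono le_top).comm hH
    · obtain rfl : H = ⊤ := by_contra fun h' => hH (h H h')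
      exact norm_top

end Cfsg.Agent.S4075
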