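import Cfsg.Statements.S4080
import Cfsg.Agent.BG.B1

set_option autoImplicit false
open Cfsg

namespace Cfsg.Agent.S4080

theorem one_add_pow {R : Type*} [Ring R] {N : R} (h : N ^ 4 = 0) (k : ℕ) :
    (1 + N) ^ k = 1 + k • N + (k.choose 2) • N ^ 2 + (k.choose 3) • N ^ 3 := by
  induction k with
  | zero => simp
  | succ k ih =>
    have h4 : N ^ 3 * N = 0 := by rw [← pow_succ, h]
    rw [pow_succ, ih, Nat.choose_succ_succ' k 1, Nat.choose_succ_succ' k 2, Nat.choose_one_right]
    simp only [mul_add, add_mul, mul_one, one_mul, smul_mul_assoc, h4, smul_zero, add_smul,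
      one_smul, ← pow_succ, ← pow_two]
    abel

theorem exists_mul_of_cast {p : ℕ} [Fact p.Prime] (x : ZMod (p ^ 2))
    (h : ZMod.castHom (dvd_pow_self p two_ne_zero) (ZMod p) x = 0) : ∃ y : ZMod (p ^ 2), x = (p : ZMod (p ^ 2)) * y := by
  haveI : NeZero (p ^ 2) := ⟨pow_ne_zero _ (Fact.out : p.Prime).ne_zero⟩
  rw [ZMod.castHom_apply, ZMod.cast_eq_val, ZMod.natCast_eq_zero_iff] at h
  obtain ⟨c, hc⟩ := h
  exact ⟨c, by rw [← ZMod.natCast_zmod_val x, hc]; push_cast; rfl⟩

theorem exists_mul_of_mul {p : ℕ} [Fact p.Prime] (x : ZMod (p ^ 2))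
    (h : (p : ZMod (p ^ 2)) * x = 0) : ∃ y : ZMod (p ^ 2), x = (p : ZMod (p ^ 2)) * y := by
  have hp : p.Prime := Fact.out
  haveI : NeZero (p ^ 2) := ⟨pow_ne_zero _ hp.ne_zero⟩
  rw [← ZMod.natCast_zmod_val x, ← Nat.cast_mul, ZMod.natCast_eq_zero_iff] at h
  obtain ⟨c, hc⟩ := (Nat.mul_dvd_mul_iff_left hp.pos).1 ((pow_two p).symm.dvd.trans h)
  exact ⟨c, by rw [← ZMod.natCast_zmod_val x, hc]; push_cast; rfl⟩


/-- Let p > 3 be a prime and L the direct product of two cyclic groups of order p². Every automorphism of L of order p fixes every element of order p of L. -/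
theorem result {p : ℕ} [Fact p.Prime] (hp : 3 < p)
    (a : MulAut (Multiplicative (ZMod (p ^ 2) × ZMod (p ^ 2)))) (ha : orderOf a = p)
    (x : Multiplicative (ZMod (p ^ 2) × ZMod (p ^ 2))) (hx : orderOf x = p) : a x = x := by
  have hpp : p.Prime := Fact.out
  let R := ZMod (p ^ 2)
  let f₀ : R × R →+ R × R :=
    { toFun := fun v => Multiplicative.toAdd (a (Multiplicative.ofAdd v))
      map_zero' := by simp
      map_add' := fun v w => by simp }
  let f : R × R →ₗ[R] R × R := f₀.toZModLinearMap (p ^ 2)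
  have hf : ∀ v, f v = Multiplicative.toAdd (a (Multiplicative.ofAdd v)) := fun v => rfl
  have hfk : ∀ k v, (f ^ k) v = Multiplicative.toAdd ((a ^ k) (Multiplicative.ofAdd v)) := by
    intro k
    induction k with
    | zero => intro v; rfl
    | succ k ih => intro v; rw [pow_succ' f, pow_succ' a, Module.End.mul_apply, ih, hf]; rfl
  have hfp : f ^ p = 1 := by
    have : a ^ p = 1 := by have := pow_orderOf_eq_one a; rwa [ha] at this
    refine LinearMap.ext fun v => ?_
    rw [hfk, this]; rfl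
  let e := LinearMap.toMatrixAlgEquiv (Module.Basis.finTwoProd R)
  let c := ZMod.castHom (dvd_pow_self p two_ne_zero) (ZMod p)
  let N := e (f - 1)
  have h1 : IsNilpotent (c.mapMatrix N) := by
    refine ⟨p, ?_⟩
    simp only [N, map_sub, map_one]
    rw [sub_pow_char_of_commute p (Commute.one_right _), ← map_pow, ← map_pow, hfp, map_one,
      map_one, one_pow, sub_self]
  have h2 : (c.mapMatrix N) ^ 2 = 0 := by
    have := (Matrix.isNilpotent_charpoly_sub_pow_of_isNilpotent h1).eq_zero
    rw [sub_eq_zero] at this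
    have h := Matrix.aeval_self_charpoly (c.mapMatrix N)
    rwa [this, Fintype.card_fin, map_pow, Polynomial.aeval_X] at h
  rw [← map_pow] at h2
  have h3 : ∀ i j, ∃ y : R, (N ^ 2) i j = p * y := fun i j =>
    exists_mul_of_cast _ (congrFun (congrFun h2 i) j)
  choose K hK using h3
  have h4 : N ^ 2 = p • Matrix.of K := by
    ext i j; rw [hK]; simp
  have hp0 : ∀ M : Matrix (Fin 2) (Fin 2) R, p • p • M = 0 := by
    intro M
    ext i j
    rw [Matrix.smul_apply, Matrix.smul_apply, Matrix.zero_apply, nsmul_eq_mul, nsmul_eq_mul,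
      ← mul_assoc, ← Nat.cast_mul, ← pow_two, ZMod.natCast_self, zero_mul]
  have h5 : N ^ 4 = 0 := by
    rw [show 4 = 2 + 2 from rfl, pow_add, h4, smul_mul_assoc, mul_smul_comm, hp0]
  have h6 := one_add_pow h5 p
  have h7 : (1 + N) ^ p = 1 := by
    simp only [N, map_sub, map_one, add_sub_cancel]
    rw [← map_pow, hfp, map_one]
  obtain ⟨c2, hc2⟩ := hpp.dvd_choose_self (k := 2) two_ne_zero (by omega)
  obtain ⟨c3, hc3⟩ := hpp.dvd_choose_self (k := 3) three_ne_zero hp
  rw [h7, hc2, hc3, pow_succ N 2, h4, smul_mul_assoc, mul_comm p, mul_comm p, mul_smul, mul_smul,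
    hp0, hp0, smul_zero, smul_zero, add_zero, add_zero, left_eq_add] at h6
  have h8 : p • (f - 1) = 0 := by
    apply e.injective
    rw [map_nsmul, map_zero]; exact h6
  have h9 : p • Multiplicative.toAdd x = 0 := by
    have : x ^ p = 1 := by have := pow_orderOf_eq_one x; rwa [hx] at this
    rw [← toAdd_pow, this]; rfl
  obtain ⟨y1, hy1⟩ := exists_mul_of_mul (Multiplicative.toAdd x).1 (by
    have := congrArg Prod.fst h9; simpa using this)
  obtain ⟨y2, hy2⟩ := exists_mul_of_mul (Multiplicative.toAdd x).2 (by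
    have := congrArg Prod.snd h9; simpa using this)
  have h10 : Multiplicative.toAdd x = p • ((y1, y2) : R × R) := by
    ext
    · rw [hy1]; simp
    · rw [hy2]; simp
  have h11 : (f - 1) (Multiplicative.toAdd x) = 0 := by
    rw [h10, map_nsmul, ← LinearMap.smul_apply, h8]; rfl
  rw [LinearMap.sub_apply, sub_eq_zero, hf] at h11
  exact Multiplicative.toAdd.injective h11

end Cfsg.Agent.S4080
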