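import Cfsg.Statements.S4081
import Cfsg.Agent.SolvStr.Aut3

set_option autoImplicit false
open Cfsg

namespace Cfsg.Agent.S4081

/-- Let G be a finite group whose order is not a prime power. Then the automorphism group of G has exactly three orbits on G if and only if there are distinct primes p, q with #G = pⁿ·q (n ≥ 1) such that G has a normal elementary abelian Sylow p-subgroup P, p is a primitive root modulo q (the multiplicative order of p mod q is q − 1), and every element of order q of G acts on P without non-identity fixed points. -/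
theorem result {G : Type*} [Group G] [Finite G] (hnpp : ¬ IsPrimePow (Nat.card G)) (hnt : Nat.card G ≠ 1) :
    Nat.card (MulAction.orbitRel.Quotient (MulAut G) G) = 3 ↔
    ∃ (p q n : ℕ) (_ : Fact p.Prime) (_ : Fact q.Prime), p ≠ q ∧ 1 ≤ n ∧ Nat.card G = p ^ n * q ∧
      (∀ P : Sylow p G, (P : Subgroup G).Normal ∧ Cfsg.IsElementaryAbelian p (P : Subgroup G)) ∧
      orderOf (p : ZMod q) = q - 1 ∧
      ∀ x y : G, orderOf x = q → orderOf y = p → x * y * x⁻¹ ≠ y := by
  open CF.SolvStr CF.BG in
  rw [card_orbits_eq_three]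
  refine ⟨fun ⟨a, b, a1, b1, _, h⟩ => ?_, fun ⟨p, q, n, _, _, pq, n1, hc, hS, ho, nc⟩ =>
    aut3_of_struct pq n1 hc hS ho nc⟩
  have ord : ∀ t : ℕ, t ∈ (Nat.card G).primeFactors → t = orderOf a ∨ t = orderOf b := by
    intro t ht
    have := Fact.mk (Nat.prime_of_mem_primeFactors ht)
    obtain ⟨g, hg⟩ := exists_prime_orderOf_dvd_card' t (Nat.dvd_of_mem_primeFactors ht)
    have g1 : g ≠ 1 := by
      rintro rfl
      exact (Nat.prime_of_mem_primeFactors ht).one_lt.ne (by simpa using hg)
    exact (h g g1).imp (fun ⟨α, e⟩ => by rw [← hg, ← e, α.orderOf_eq])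
      fun ⟨α, e⟩ => by rw [← hg, ← e, α.orderOf_eq]
  have two : 1 < (Nat.card G).primeFactors.card := by
    by_contra c
    rcases Nat.le_one_iff_eq_zero_or_eq_one.1 (not_lt.1 c) with e | e
    · rw [Finset.card_eq_zero, Nat.primeFactors_eq_empty] at e
      exact e.elim Nat.card_pos.ne' hnt
    · exact hnpp (isPrimePow_iff_card_primeFactors_eq_one.2 e)
  obtain ⟨r, hr, s, hs, rs⟩ := Finset.one_lt_card.1 two
  have pr : (orderOf a).Prime ∧ (orderOf b).Prime ∧ orderOf a ≠ orderOf b := by
    have r1 := Nat.prime_of_mem_primeFactors hr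
    have s1 := Nat.prime_of_mem_primeFactors hs
    rcases ord r hr with e | e <;> rcases ord s hs with f | f <;> subst e
    · exact absurd f.symm rs
    · exact ⟨r1, f ▸ s1, f ▸ rs⟩
    · exact ⟨f ▸ s1, r1, f ▸ rs.symm⟩
    · exact absurd f.symm rs
  obtain ⟨pa, pb, ab⟩ := pr
  have := Fact.mk pa
  have := Fact.mk pb
  have sol : Group.IsSolvable G := CF.Char.isSolvable_of_card_primeFactors_le_two
    ((Finset.card_le_card (t := {orderOf a, orderOf b}) fun t ht => by
      simpa using ord t ht).trans Finset.card_le_two)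
  have top1 : (⊤ : Subgroup G) ≠ ⊥ := fun e => a1 (by simpa using e.le (Subgroup.mem_top a))
  obtain ⟨p, hp, P1⟩ := Sol.exists_O_ne_bot (H := (⊤ : Subgroup G)) inferInstance top1
  have : p ∈ (Nat.card G).primeFactors := Nat.mem_primeFactors.2 ⟨hp,
    ((O_pi _ _).dvd_card P1).trans (Subgroup.card_subgroup_dvd_card _), Nat.card_pos.ne'⟩
  rcases ord p this with rfl | rfl
  · obtain ⟨n, h⟩ := aut3_struct ab rfl rfl h P1
    exact ⟨_, _, n, inferInstance, inferInstance, ab, h⟩
  · obtain ⟨n, h⟩ := aut3_struct ab.symm rfl rfl (fun g g1 => (h g g1).symm) P1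
    exact ⟨_, _, n, inferInstance, inferInstance, ab.symm, h⟩

end Cfsg.Agent.S4081
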