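import Mathlib
import Cfsg.Agent.Fgs2.Oort
import Cfsg.Agent.Coprime.PGroup
import Cfsg.Statements.S4082

set_option autoImplicit false
open Cfsg

namespace Cfsg.Agent.S4082

open Subgroup CF.Fgs2

variable {G : Type*} [Group G] [Finite G] {p : ℕ} [hp : Fact p.Prime]

/-- normalizer of a cyclic `p`-group normalizes its subgroups -/
theorem norm_le {S Q : Subgroup G} [IsCyclic S] (hQ : Q ≤ S) :
    normalizer (S : Set G) ≤ normalizer (Q : Set G) := by
  intro g hg
  have h : ∀ g ∈ normalizer (S : Set G), ∀ x ∈ Q, g * x * g⁻¹ ∈ Q := by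
    intro g hg x hx
    have h1 : g * x * g⁻¹ ∈ S := (mem_normalizer_iff.1 hg x).1 (hQ hx)
    exact zpowers_le.2 hx (mem_zpowers_of_orderOf_dvd' h1 (hQ hx) (by rw [orderOf_conj]))
  rw [mem_normalizer_iff]
  refine fun x => ⟨h g hg x, fun hx => ?_⟩
  simpa [mul_assoc] using h g⁻¹ (inv_mem hg) _ hx

theorem cent_of_cent (hp2 : p ≠ 2) {S Q : Subgroup G} [IsCyclic S] (hS : IsPGroup p S) (hQ : Q ≤ S)
    (hc : Nat.card Q = p) {k : G} (hk : k ∈ normalizer (S : Set G)) (hpk : ¬ p ∣ orderOf k)
    (h : k ∈ centralizer (Q : Set G)) : k ∈ centralizer (S : Set G) := by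
  refine CF.Coprime.le_centralizer_of_omega_odd hp2 (zpowers k) S hS (by rwa [zpowers_le])
    (by rw [Nat.card_zpowers]; exact ((Nat.Prime.coprime_iff_not_dvd hp.out).2 hpk).symm) ?_ (mem_zpowers k)
  intro x hx hxp
  have : zpowers x ≤ Q := le_of_card_dvd_of_isCyclic (zpowers_le.2 hx) hQ (by
    rw [Nat.card_zpowers, hc]; exact orderOf_dvd_of_pow_eq_one hxp)
  have h2 : Q ≤ centralizer (zpowers k : Set G) := by rwa [le_centralizer_iff, zpowers_le]
  exact h2 (this (mem_zpowers x))

theorem exists_sub {S : Subgroup G} (hS : IsPGroup p S) (h : S ≠ ⊥) : ∃ Q ≤ S, Nat.card Q = p := by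
  obtain ⟨k, hk⟩ := hS.exists_card_eq
  have : p ∣ Nat.card S := by
    rw [hk]; refine dvd_pow_self _ fun h0 => h ?_
    rw [h0, pow_zero] at hk; exact card_eq_one.1 hk
  obtain ⟨x, hx⟩ := exists_prime_orderOf_dvd_card' p this
  exact ⟨zpowers (x : G), zpowers_le.2 x.2, by rw [Nat.card_zpowers, orderOf_coe, hx]⟩

theorem inv_of_invol {C N : Subgroup G} (hCN : C ≤ N) (h : ∀ x ∈ N, x ∉ C → orderOf x = 2)
    {x : G} (hx : x ∈ N) (hx' : x ∉ C) {c : G} (hc : c ∈ C) : x * c * x⁻¹ = c⁻¹ := by
  have h1 := CF.Invol.mul_self_of_orderOf (h x hx hx')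
  have h2 := CF.Invol.mul_self_of_orderOf (h (x * c) (mul_mem hx (hCN hc))
    fun h3 => hx' (by simpa using mul_mem h3 (inv_mem hc)))
  rw [← eq_inv_iff_mul_eq_one] at h1
  rw [← h1, eq_inv_iff_mul_eq_one, ← h2]; group

/-- Let p be an odd prime and G a finite group with Sylow p-subgroup P. Say that G has restricted p-by-cyclic subgroups when every subgroup H of G whose Sylow p-subgroup is normal in H with cyclic quotient is itself cyclic or dihedral of order 2pⁿ for some n. Then G has restricted p-by-cyclic subgroups if and only if P is cyclic and one of the following holds: (1) N_G(P) = C_G(P); or (2) N_G(P)/C_G(P) has order 2 and, for the subgroup Q of order p of P, the centralizer C_G(Q) is abelian and every element of N_G(Q) outside C_G(Q) is an involution inverting every element of C_G(Q). -/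
theorem result {G : Type*} [Group G] [Finite G] {p : ℕ}
    [Fact p.Prime] (hp : p ≠ 2) (P : Sylow p G) :
    (∀ H : Subgroup G, (∀ S : Sylow p ↥H, (S : Subgroup ↥H).Normal) →
        (∀ (S : Sylow p ↥H) [(S : Subgroup ↥H).Normal], IsCyclic (↥H ⧸ (S : Subgroup ↥H))) →
        IsCyclic H ∨ (∃ n : ℕ, Nonempty (H ≃* DihedralGroup (p ^ n)))) ↔
    (IsCyclic P ∧
      (Subgroup.normalizer ((P : Subgroup G) : Set G) = Subgroup.centralizer ((P : Subgroup G) : Set G) ∨
       ((Subgroup.centralizer ((P : Subgroup G) : Set G)).relIndex (Subgroup.normalizer ((P : Subgroup G) : Set G)) = 2 ∧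
        ∀ Q : Subgroup G, Q ≤ P → Nat.card Q = p →
          IsMulCommutative ↥(Subgroup.centralizer (Q : Set G)) ∧
          ∀ x : G, x ∈ Subgroup.normalizer (Q : Set G) → x ∉ Subgroup.centralizer (Q : Set G) →
            orderOf x = 2 ∧ ∀ c : G, c ∈ Subgroup.centralizer (Q : Set G) → x * c * x⁻¹ = c⁻¹))) := by
  constructor
  · intro h
    have h' : ∀ S : Subgroup G, IsPGroup p S → ∀ k ∈ normalizer (S : Set G),
        IsCyclic ↥(S ⊔ zpowers k) ∨ ∃ n : ℕ, Nonempty (↥(S ⊔ zpowers k) ≃* DihedralGroup (p ^ n)) :=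
      fun S hS k hk => h _ (pbc_of hS hk).1 (pbc_of hS hk).2
    have hcyc : IsCyclic P := by
      have := h' P P.2 1 (one_mem _)
      rw [zpowers_one_eq_bot, sup_bot_eq] at this
      refine this.resolve_right ?_
      rintro ⟨n, ⟨e⟩⟩
      have h1 := Nat.card_congr e.toEquiv
      obtain ⟨k, hk⟩ := P.2.exists_card_eq
      rw [DihedralGroup.nat_card] at h1
      have h2 : 2 ∣ p ^ k := ⟨_, hk.symm.trans h1⟩
      exact hp ((Nat.prime_dvd_prime_iff_eq Nat.prime_two Fact.out).1 (Nat.prime_two.dvd_of_dvd_pow h2)).symm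
    refine ⟨hcyc, ?_⟩
    by_cases hNC : normalizer ((P : Subgroup G) : Set G) = centralizer ((P : Subgroup G) : Set G)
    · exact Or.inl hNC
    right
    haveI : IsCyclic (P : Subgroup G) := hcyc
    have hinv : ∀ Q : Subgroup G, Q ≤ P → Nat.card Q = p → ∀ x ∈ normalizer (Q : Set G),
        x ∉ centralizer (Q : Set G) → orderOf x = 2 := by
      intro Q hQ hc x hx hx'
      obtain ⟨q, hq, hqx⟩ : ∃ q ∈ Q, ¬ q * x = x * q := by
        by_contra hcon; push Not at hcon; exact hx' hcon
      let q' : ↥(Q ⊔ zpowers x) := ⟨q, mem_sup_left hq⟩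
      let x' : ↥(Q ⊔ zpowers x) := ⟨x, mem_sup_right (mem_zpowers x)⟩
      have hne : ¬ Commute q' x' := fun hc => hqx (congrArg Subtype.val hc)
      rcases h' Q (P.2.to_le hQ) x hx with h1 | ⟨n, ⟨e⟩⟩
      · exact absurd ((IsCyclic.commGroup (α := ↥(Q ⊔ zpowers x))).mul_comm q' x') hne
      · have hq2 : q ^ 2 ≠ 1 := by
          intro h2
          have h3 : orderOf q ∣ p := hc ▸ Q.orderOf_dvd_natCard hq
          have : q = 1 := eq_one_of_orderOf_dvd_coprime (orderOf_dvd_of_pow_eq_one h2) h3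
            ((Nat.coprime_primes Nat.prime_two Fact.out).2 hp.symm)
          exact hqx (by simp [this])
        have hx2 : x ^ 2 = 1 := by
          by_contra h2
          refine hne (e.injective ?_)
          rw [map_mul, map_mul]
          refine dihedral_commute_of_sq ?_ ?_
          · rw [← map_pow, Ne, MulEquiv.map_eq_one_iff]; exact fun h => hq2 (congrArg Subtype.val h)
          · rw [← map_pow, Ne, MulEquiv.map_eq_one_iff]; exact fun h => h2 (congrArg Subtype.val h)
        exact orderOf_eq_prime hx2 fun h1 => hqx (by simp [h1])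
    have hcc : ∀ Q : Subgroup G, Q ≤ P → Nat.card Q = p → ∀ g ∈ normalizer ((P : Subgroup G) : Set G),
        g ∈ centralizer (Q : Set G) → g ∈ centralizer ((P : Subgroup G) : Set G) := by
      intro Q hQ hc g hg hg'
      obtain ⟨a, ha, b, hb, e, -, ⟨k, ha'⟩, hb'⟩ := exists_p_decomp p g
      have h1 := cent_of_cent hp P.2 hQ hc (zpowers_le.2 hg hb) hb' (zpowers_le.2 hg' hb)
      have h2 : a ∈ (P : Subgroup G) := by
        have h3 : IsPGroup p ↥(zpowers a ⊔ (P : Subgroup G)) :=
          (isPGroup_zpowers_of_orderOf ha').to_sup_of_normal_right' P.2 (zpowers_le.2 (zpowers_le.2 hg ha))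
        rw [← P.3 h3 le_sup_right]
        exact mem_sup_left (mem_zpowers a)
      rw [e]
      refine mul_mem ?_ h1
      intro y hy
      exact congrArg Subtype.val ((IsCyclic.commGroup (α := (P : Subgroup G))).mul_comm ⟨y, hy⟩ ⟨a, h2⟩)
    obtain ⟨g, hg, hg'⟩ : ∃ g ∈ normalizer ((P : Subgroup G) : Set G), g ∉ centralizer ((P : Subgroup G) : Set G) :=
      SetLike.exists_of_lt (lt_of_le_of_ne (centralizer_le_normalizer _) (Ne.symm hNC))
    have hP1 : (P : Subgroup G) ≠ ⊥ := fun h0 => hg' (by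
      intro y hy
      have : y = 1 := by rwa [SetLike.mem_coe, h0, mem_bot] at hy
      simp [this])
    refine ⟨?_, fun Q hQ hc => ⟨⟨⟨fun a b => Subtype.ext ?_⟩⟩, fun x hx hx' =>
      ⟨hinv Q hQ hc x hx hx', fun c hc' => inv_of_invol (centralizer_le_normalizer _) (hinv Q hQ hc) hx hx' hc'⟩⟩⟩
    · obtain ⟨Q, hQ, hc⟩ := exists_sub P.2 hP1
      rw [relIndex, index_eq_two_iff]
      refine ⟨⟨g, hg⟩, fun b => ?_⟩
      simp only [mem_subgroupOf, coe_mul]
      by_cases hb : (b : G) ∈ centralizer ((P : Subgroup G) : Set G)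
      · exact Or.inr ⟨hb, fun h1 => hg' (by simpa using mul_mem (inv_mem hb) h1)⟩
      · refine Or.inl ⟨hcc Q hQ hc _ (mul_mem b.2 hg) ?_, hb⟩
        intro q hq
        have hqc : q ∈ centralizer (Q : Set G) := by
          intro y hy
          exact congrArg Subtype.val ((IsCyclic.commGroup (α := (P : Subgroup G))).mul_comm ⟨y, hQ hy⟩ ⟨q, hQ hq⟩)
        have e1 := inv_of_invol (centralizer_le_normalizer _) (hinv Q hQ hc) (norm_le hQ hg)
          (fun h => hg' (hcc Q hQ hc g hg h)) hqc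
        have e2 := inv_of_invol (centralizer_le_normalizer _) (hinv Q hQ hc) (norm_le hQ b.2)
          (fun h => hb (hcc Q hQ hc b b.2 h)) (inv_mem hqc)
        rw [inv_inv, ← e1] at e2
        calc q * (b * g) = (b * (g * q * g⁻¹) * (b : G)⁻¹) * (b * g) := by rw [e2]
          _ = _ := by group
    · have hg1 := norm_le hQ hg
      have hg2 : g ∉ centralizer (Q : Set G) := fun h => hg' (hcc Q hQ hc g hg h)
      have e := fun c hc' => inv_of_invol (c := c) (centralizer_le_normalizer _) (hinv Q hQ hc) hg1 hg2 hc'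
      have h1 := e _ (a * b).2
      have h2 : g * ((a * b : _) : G) * g⁻¹ = (g * a * g⁻¹) * (g * b * g⁻¹) := by
        rw [coe_mul]; group
      rw [h2, e _ a.2, e _ b.2, ← mul_inv_rev, inv_inj] at h1
      exact h1.symm
  · rintro ⟨hcyc, h⟩ H h1 h2
    haveI : IsCyclic (P : Subgroup G) := hcyc
    refine pbc_reduce P (fun X _ => IsCyclic X ∨ ∃ n : ℕ, Nonempty (X ≃* DihedralGroup (p ^ n))) ?_ ?_ h1 h2
    · rintro X Y _ _ e (h | ⟨n, ⟨f⟩⟩)
      · exact Or.inl (isCyclic_of_surjective e e.surjective)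
      · exact Or.inr ⟨n, ⟨e.symm.trans f⟩⟩
    intro S hS k hk hpk
    haveI : IsCyclic S := isCyclic_of_le hS
    have hSp : IsPGroup p S := P.2.to_le hS
    by_cases hc : k ∈ centralizer (S : Set G)
    · exact Or.inl (isCyclic_sup_zpowers hSp hc hpk)
    right
    have hab : (P : Subgroup G) ≤ centralizer ((P : Subgroup G) : Set G) := fun a ha y hy =>
      congrArg Subtype.val ((IsCyclic.commGroup (α := (P : Subgroup G))).mul_comm ⟨y, hy⟩ ⟨a, ha⟩)
    rcases h with h | ⟨-, h⟩
    · exfalso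
      apply hc
      intro s hs
      have hs' : k⁻¹ * s * k ∈ S := by
        have := (mem_normalizer_iff.1 (inv_mem hk) s).1 hs
        rwa [inv_inv] at this
      obtain ⟨n, hn, e⟩ := P.conj_eq_normalizer_conj_of_mem_centralizer s k (hab (hS hs)) (hab (hS hs'))
      have hn' : n ∈ centralizer ((P : Subgroup G) : Set G) := h ▸ hn
      rw [mul_assoc n⁻¹, hn' s (hS hs), inv_mul_cancel_left] at e
      calc s * k = k * (k⁻¹ * s * k) := by group
        _ = k * s := by rw [e]
    · have hS1 : S ≠ ⊥ := fun h0 => hc (by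
        intro y hy
        have : y = 1 := by rwa [SetLike.mem_coe, h0, mem_bot] at hy
        simp [this])
      obtain ⟨Q, hQ, hcQ⟩ := exists_sub hSp hS1
      obtain ⟨-, h3⟩ := h Q (hQ.trans hS) hcQ
      obtain ⟨o, i⟩ := h3 k (norm_le hQ hk) fun h => hc (cent_of_cent hp hSp hQ hcQ hk hpk h)
      obtain ⟨s, rfl⟩ := exists_zpowers_eq S
      obtain ⟨n, hn⟩ := orderOf_eq_pow_of_mem hSp (mem_zpowers s)
      refine ⟨n, ?_⟩
      have := CF.Invol.nonempty_closure_equiv_dihedral hn (CF.Invol.mul_self_of_orderOf o)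
        (i s (centralizer_le (hQ.trans hS) (hab (hS (mem_zpowers s))))) fun h => hc (centralizer_le hS (hab (hS h)))
      rwa [show closure ({k, s} : Set G) = zpowers s ⊔ zpowers k by
        rw [Set.insert_eq, Subgroup.closure_union, sup_comm, zpowers_eq_closure, zpowers_eq_closure]] at this

end Cfsg.Agent.S4082
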