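import Mathlib
import Cfsg.Agent.Fgs2.Oort
import Cfsg.Agent.Fgs2.Yoshida
import Cfsg.Agent.Coprime.PGroup
import Cfsg.Agent.Invol.DihSylow
import Cfsg.Agent.Invol.Four
import Cfsg.Agent.Classical.SmallRecog
import Cfsg.Statements.S4083

set_option autoImplicit false
open Cfsg

namespace Cfsg.Agent.S4083

open Subgroup CF.Fgs2
open scoped commutatorElement

variable {G : Type*} [Group G] [Finite G]

theorem cent_cyc {S : Subgroup G} [IsCyclic S] (hS : IsPGroup 2 S) {k : G}
    (hk : k ∈ normalizer (S : Set G)) (hpk : ¬ 2 ∣ orderOf k) : k ∈ centralizer (S : Set G) := by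
  refine CF.Coprime.le_centralizer_of_commutator_le_frattiniOf (zpowers k) S (by rwa [zpowers_le])
    (CF.Coprime.coprime_card_of_isPGroup hS (by
      rw [Nat.card_zpowers]; exact ((Nat.Prime.coprime_iff_not_dvd Nat.prime_two).2 hpk).symm)) ?_ (mem_zpowers k)
  obtain ⟨s, rfl⟩ := exists_zpowers_eq S
  rw [commutator_le]
  intro x hx g hg
  have hg' : g ∈ normalizer (zpowers s : Set G) := zpowers_le.2 hk hg
  -- every element outside the Frattini subgroup is an odd power
  have hΦ : ∀ i : ℤ, s ^ (2 * i) ∈ CF.Coprime.frattiniOf (zpowers s) := fun i => by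
    have := CF.Coprime.pow_mem_frattiniOf hS (zpow_mem (mem_zpowers s) i)
    rwa [← zpow_natCast, ← zpow_mul, mul_comm] at this
  obtain ⟨m, hm⟩ := (mem_normalizer_iff.1 hg' s).1 (mem_zpowers s)
  obtain ⟨i, rfl⟩ := hx
  simp only at hm
  have e : ⁅s ^ i, g⁆ = s ^ (i * (1 - m)) := by
    have : g * s ^ i * g⁻¹ = s ^ (m * i) := by rw [← conj_zpow, ← hm, ← zpow_mul]
    rw [commutatorElement_def, show s ^ i * g * (s ^ i)⁻¹ * g⁻¹ = s ^ i * (g * s ^ i * g⁻¹)⁻¹ by group,
      this, ← zpow_sub]
    congr 1; ring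
  show ⁅s ^ i, g⁆ ∈ _
  rw [e]
  rcases Int.even_or_odd' m with ⟨j, rfl | rfl⟩
  · have h1 : g * s * g⁻¹ ∈ CF.Coprime.frattiniOf (zpowers s) := hm ▸ hΦ j
    have h2 := (mem_normalizer_iff.1 (CF.Coprime.normalizer_le_normalizer_frattiniOf _ hg') s).2 h1
    exact zpow_mem h2 _
  · convert hΦ (-(i * j)) using 2; ring

theorem sub_dih {P S : Subgroup G} {m : ℕ} (e : P ≃* DihedralGroup m) (hS : S ≤ P) (hc : ¬ IsCyclic S) :
    ∃ c t : G, t * t = 1 ∧ t * c * t⁻¹ = c⁻¹ ∧ t ∉ zpowers c ∧ S = closure {t, c} := by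
  let R : Subgroup G := (zpowers (e.symm (DihedralGroup.r 1))).map P.subtype
  haveI : IsCyclic R := by
    have : R = zpowers (P.subtype (e.symm (DihedralGroup.r 1))) := MonoidHom.map_zpowers _ _
    rw [this]; infer_instance
  have hR : ∀ x : P, (x : G) ∈ R ↔ ∃ i, e x = DihedralGroup.r i := by
    intro x
    simp only [R]
    rw [show (x : G) = P.subtype x from rfl, mem_map_iff_mem P.subtype_injective, mem_zpowers_iff]
    constructor
    · rintro ⟨k, rfl⟩
      exact ⟨k, by rw [map_zpow, MulEquiv.apply_symm_apply, DihedralGroup.r_one_zpow]⟩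
    · rintro ⟨i, hi⟩
      obtain ⟨k, rfl⟩ := ZMod.intCast_surjective i
      exact ⟨k, e.injective (by rw [map_zpow, MulEquiv.apply_symm_apply, DihedralGroup.r_one_zpow, hi])⟩
  have hR' : ∀ x : P, (x : G) ∉ R → ∃ i, e x = DihedralGroup.sr i := by
    intro x hx
    rw [hR] at hx
    cases h : e x with
    | r i => exact absurd ⟨i, h⟩ hx
    | sr i => exact ⟨i, rfl⟩
  haveI : IsCyclic ↥(S ⊓ R) := isCyclic_of_le inf_le_right
  obtain ⟨c, hc'⟩ := exists_zpowers_eq (S ⊓ R)
  obtain ⟨t, ht, htR⟩ : ∃ t ∈ S, t ∉ R := by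
    by_contra h; push Not at h; exact hc (isCyclic_of_le h)
  have hcm : c ∈ S ⊓ R := hc' ▸ mem_zpowers c
  obtain ⟨i, hi⟩ := hR' ⟨t, hS ht⟩ htR
  obtain ⟨j, hj⟩ := (hR ⟨c, hS hcm.1⟩).1 hcm.2
  have h1 : t * t = 1 := by
    have : (⟨t, hS ht⟩ : P) * ⟨t, hS ht⟩ = 1 := e.injective (by rw [map_mul, hi]; simp)
    exact congrArg Subtype.val this
  have h2 : t * c * t⁻¹ = c⁻¹ := by
    have : (⟨t, hS ht⟩ : P) * ⟨c, hS hcm.1⟩ * (⟨t, hS ht⟩ : P)⁻¹ = (⟨c, hS hcm.1⟩ : P)⁻¹ :=
      e.injective (by rw [map_mul, map_mul, map_inv, map_inv, hi, hj]; simp)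
    exact congrArg Subtype.val this
  refine ⟨c, t, h1, h2, fun h => htR (hc' ▸ h : t ∈ S ⊓ R).2, le_antisymm ?_ ?_⟩
  · intro d hd
    rw [CF.Invol.mem_closure_inverts_iff h2 (by rw [h1]; exact one_mem _), hc']
    by_cases h : d ∈ R
    · exact Or.inl ⟨hd, h⟩
    · refine Or.inr ⟨S.mul_mem (S.inv_mem ht) hd, ?_⟩
      obtain ⟨l, hl⟩ := hR' ⟨d, hS hd⟩ h
      exact (hR ((⟨t, hS ht⟩ : P)⁻¹ * ⟨d, hS hd⟩)).2 ⟨l - i, by rw [map_mul, map_inv, hi, hl]; simp⟩
  · rw [closure_le, Set.insert_subset_iff, Set.singleton_subset_iff]; exact ⟨ht, hcm.1⟩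

/-- Let G be a finite group with Sylow 2-subgroup P. Every subgroup H of G whose Sylow 2-subgroup is normal in H with cyclic quotient is cyclic, dihedral of 2-power order, or isomorphic to the alternating group of degree 4, if and only if either P is cyclic, or P is dihedral (of order at least 4) and every elementary abelian subgroup K of order 4 of P satisfies C_G(K) = K. -/
theorem result {G : Type*} [Group G] [Finite G] (P : Sylow 2 G) :
    (∀ H : Subgroup G, (∀ S : Sylow 2 ↥H, (S : Subgroup ↥H).Normal) →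
        (∀ (S : Sylow 2 ↥H) [(S : Subgroup ↥H).Normal], IsCyclic (↥H ⧸ (S : Subgroup ↥H))) →
        IsCyclic H ∨ (∃ n : ℕ, Nonempty (H ≃* DihedralGroup (2 ^ n))) ∨ Nonempty (H ≃* alternatingGroup (Fin 4))) ↔
    (IsCyclic P ∨
      ((∃ n : ℕ, 1 ≤ n ∧ Nonempty ((P : Subgroup G) ≃* DihedralGroup (2 ^ n))) ∧
        ∀ K : Subgroup G, K ≤ P → Nat.card K = 4 → (∀ k ∈ K, k ^ 2 = 1) → Subgroup.centralizer (K : Set G) = K)) := by
  constructor
  · intro h
    have h' : ∀ S : Subgroup G, IsPGroup 2 S → ∀ k ∈ normalizer (S : Set G),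
        IsCyclic ↥(S ⊔ zpowers k) ∨ (∃ n : ℕ, Nonempty (↥(S ⊔ zpowers k) ≃* DihedralGroup (2 ^ n))) ∨
          Nonempty (↥(S ⊔ zpowers k) ≃* alternatingGroup (Fin 4)) :=
      fun S hS k hk => h _ (pbc_of hS hk).1 (pbc_of hS hk).2
    have h0 := h' P P.2 1 (one_mem _)
    rw [zpowers_one_eq_bot, sup_bot_eq] at h0
    by_cases hcyc : IsCyclic (P : Subgroup G)
    · exact Or.inl hcyc
    right
    rcases h0 with h0 | ⟨n, ⟨e⟩⟩ | ⟨⟨e⟩⟩
    · exact absurd h0 hcyc
    · refine ⟨⟨n, ?_, ⟨e⟩⟩, ?_⟩
      · by_contra hn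
        obtain rfl : n = 0 := by omega
        have h1 := Nat.card_congr e.toEquiv
        rw [DihedralGroup.nat_card] at h1
        exact hcyc (isCyclic_of_prime_card (p := 2) h1)
      · intro K hK h4 h2
        have hKc : K ≤ centralizer (K : Set G) := by
          intro a ha b hb
          have e1 : ∀ x ∈ K, x⁻¹ = x := fun x hx => by rw [inv_eq_iff_mul_eq_one, ← sq, h2 x hx]
          rw [← e1 _ (mul_mem hb ha), mul_inv_rev, e1 a ha, e1 b hb]
        refine le_antisymm (fun c hc => ?_) hKc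
        have hcomm : ∀ a ∈ K ⊔ zpowers c, ∀ b ∈ K ⊔ zpowers c, a * b = b * a := by
          have h3 : K ⊔ zpowers c ≤ centralizer (K : Set G) := sup_le hKc (zpowers_le.2 hc)
          have h4 : K ⊔ zpowers c ≤ centralizer (zpowers c : Set G) := by
            refine sup_le (by rwa [le_centralizer_iff, zpowers_le]) (le_centralizer _)
          have h5 : K ⊔ zpowers c ≤ centralizer ((K ⊔ zpowers c : Subgroup G) : Set G) := by
            refine sup_le ?_ ?_ <;> rwa [le_centralizer_iff]
          exact fun a ha b hb => h5 hb a ha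
        rcases h' K (P.2.to_le hK) c (centralizer_le_normalizer _ hc) with h1 | ⟨m, ⟨f⟩⟩ | ⟨⟨f⟩⟩
        · haveI : IsCyclic K := isCyclic_of_le (le_sup_left : K ≤ K ⊔ zpowers c)
          obtain ⟨s, rfl⟩ := exists_zpowers_eq K
          rw [Nat.card_zpowers] at h4
          have := orderOf_dvd_of_pow_eq_one (h2 s (mem_zpowers s))
          rw [h4] at this; omega
        · have h1 := Nat.card_congr f.toEquiv
          rw [DihedralGroup.nat_card] at h1
          have h3 : DihedralGroup.sr (0 : ZMod (2 ^ m)) * DihedralGroup.r 1 =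
              DihedralGroup.r 1 * DihedralGroup.sr 0 := by
            obtain ⟨a, ha⟩ := f.surjective (DihedralGroup.sr 0)
            obtain ⟨b, hb⟩ := f.surjective (DihedralGroup.r 1)
            rw [← ha, ← hb, ← map_mul, ← map_mul]
            exact congrArg f (Subtype.ext (hcomm _ a.2 _ b.2))
          have h5 : ((2 : ℕ) : ZMod (2 ^ m)) = 0 := by
            simp only [DihedralGroup.sr_mul_r, DihedralGroup.r_mul_sr, DihedralGroup.sr.injEq] at h3
            push_cast; linear_combination h3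
          rw [ZMod.natCast_eq_zero_iff] at h5
          have h6 := Nat.le_of_dvd two_pos h5
          have : K = K ⊔ zpowers c := eq_of_le_of_card_ge le_sup_left (by rw [h4]; exact h1.le.trans (by omega))
          rw [this]; exact mem_sup_right (mem_zpowers c)
        · exfalso
          have h3 : ∀ a b : alternatingGroup (Fin 4), a * b = b * a := by
            intro a b
            obtain ⟨a, rfl⟩ := f.surjective a
            obtain ⟨b, rfl⟩ := f.surjective b
            rw [← map_mul, ← map_mul]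
            exact congrArg f (Subtype.ext (hcomm _ a.2 _ b.2))
          have := congrArg Subtype.val (h3 ⟨Equiv.swap 0 1 * Equiv.swap 1 2, by
            rw [Equiv.Perm.mem_alternatingGroup]; decide⟩ ⟨Equiv.swap 0 1 * Equiv.swap 2 3, by
            rw [Equiv.Perm.mem_alternatingGroup]; decide⟩)
          revert this; decide
    · exfalso
      have h1 := Nat.card_congr e.toEquiv
      obtain ⟨k, hk⟩ := P.2.exists_card_eq
      have h2 : Nat.card (alternatingGroup (Fin 4)) = 12 := by
        rw [nat_card_alternatingGroup]; simp; rfl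
      have h3 : 3 ∣ 2 ^ k := by rw [← hk, h1, h2]; norm_num
      have := Nat.prime_three.dvd_of_dvd_pow h3
      omega
  · intro h H h1 h2
    refine pbc_reduce P (fun X _ => IsCyclic X ∨ (∃ n : ℕ, Nonempty (X ≃* DihedralGroup (2 ^ n))) ∨
      Nonempty (X ≃* alternatingGroup (Fin 4))) ?_ ?_ h1 h2
    · rintro X Y _ _ e (h | ⟨n, ⟨f⟩⟩ | ⟨⟨f⟩⟩)
      · exact Or.inl (isCyclic_of_surjective e e.surjective)
      · exact Or.inr (Or.inl ⟨n, ⟨e.symm.trans f⟩⟩)
      · exact Or.inr (Or.inr ⟨e.symm.trans f⟩)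
    intro S hS k hk hpk
    have hSp : IsPGroup 2 S := P.2.to_le hS
    by_cases hc : IsCyclic S
    · exact Or.inl (isCyclic_sup_zpowers hSp (cent_cyc hSp hk hpk) hpk)
    right
    rcases h with h | ⟨⟨n, hn, ⟨e⟩⟩, h⟩
    · exact absurd (isCyclic_of_le hS) hc
    have hone : ∀ g ∈ (P : Subgroup G), Odd (orderOf g) → g = 1 := by
      intro g hg ho
      obtain ⟨j, hj⟩ := orderOf_eq_pow_of_mem P.2 hg
      rcases j with _ | j
      · exact orderOf_eq_one_iff.1 hj
      · rw [hj] at ho; exact absurd ho (Nat.not_odd_iff_even.2 (by rw [pow_succ]; simp))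
    have hko : Odd (orderOf k) := Nat.not_even_iff_odd.1 (by rwa [even_iff_two_dvd])
    obtain ⟨n', a, b, -, hD⟩ := CF.Invol.exists_dh P.2 (m := 2 ^ n) (le_self_pow₀ one_le_two (by omega)) e
    by_cases hkc : k ∈ centralizer (S : Set G)
    · left
      obtain ⟨c, t, h1, h2, h3, rfl⟩ := sub_dih e hS hc
      have hcS : c ∈ closure ({t, c} : Set G) := subset_closure (by simp)
      have htS : t ∈ closure ({t, c} : Set G) := subset_closure (by simp)
      obtain ⟨m, hm⟩ := orderOf_eq_pow_of_mem hSp hcS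
      have ht2 : orderOf t = 2 := CF.Invol.orderOf_eq_two_iff.2 ⟨h1, fun h => h3 (h ▸ one_mem _)⟩
      have hev : Even (orderOf c) := by
        rcases m with _ | m
        · exfalso
          rw [pow_zero, orderOf_eq_one_iff] at hm
          apply hc
          have : closure ({t, c} : Set G) ≤ zpowers t := by
            rw [closure_le, Set.insert_subset_iff, Set.singleton_subset_iff, hm]
            exact ⟨mem_zpowers t, one_mem _⟩
          exact isCyclic_of_le this
        · rw [hm, pow_succ]; simp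
      set z := c ^ (orderOf c / 2) with hz
      have hz2 : orderOf z = 2 := CF.Invol.orderOf_pow_half hev
      have hzt : Commute z t := CF.Invol.commute_pow_half_of_inverts h2 hev
      have hne : z * t ≠ 1 := fun h0 => h3 (by
        rw [eq_inv_of_mul_eq_one_right h0]; exact inv_mem (pow_mem (mem_zpowers c) _))
      have hzt2 : orderOf (z * t) = 2 := CF.Invol.orderOf_eq_two_iff.2 ⟨by
        rw [← sq, hzt.mul_pow, sq, sq, h1, CF.Invol.mul_self_of_orderOf hz2, one_mul], hne⟩
      have hK : closure ({z, t} : Set G) ≤ closure ({t, c} : Set G) := by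
        rw [closure_le, Set.insert_subset_iff, Set.singleton_subset_iff]; exact ⟨pow_mem hcS _, htS⟩
      have h5 := h _ (hK.trans hS) (by rw [CF.Invol.card_closure_pair hz2 ht2, hzt2]) (by
        intro x hx
        rcases (CF.Invol.mem_closure_pair_iff (CF.Invol.mul_self_of_orderOf hz2) h1).1 hx with ⟨i, rfl⟩ | ⟨i, rfl⟩
        · rw [← zpow_natCast, ← zpow_mul, mul_comm, zpow_mul, zpow_natCast, sq,
            CF.Invol.mul_self_of_orderOf hzt2, one_zpow]
        · rw [sq]
          exact CF.Invol.mul_mul_self_of_inverts (CF.Invol.mul_self_of_orderOf hz2)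
            (CF.Invol.inverts_of_mem_zpowers (CF.Invol.left_inverts_mul (CF.Invol.mul_self_of_orderOf hz2) h1)
              (zpow_mem (mem_zpowers _) i)))
      have hk1 : k = 1 := hone k (hS (hK (h5 ▸ centralizer_le hK hkc))) hko
      rw [hk1, zpowers_one_eq_bot, sup_bot_eq]
      exact ⟨m, CF.Invol.nonempty_closure_equiv_dihedral hm h1 h2 h3⟩
    · right
      obtain ⟨l, hl⟩ := hD.odd_cases' hS hk hko hkc
      have hV : IsKleinFour S := hl ▸ hD.klein l
      have hexp : ∀ x ∈ S, x ^ 2 = 1 := fun x hx => congrArg Subtype.val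
        (show (⟨x, hx⟩ : S) ^ 2 = 1 by rw [← hV.exponent_two]; exact Monoid.pow_exponent_eq_one _)
      have h5 := h S hS hV.card_four hexp
      have h6 := CF.Invol.klein_relIndex_dvd_six hV
      rw [h5] at h6
      have hdis : S ⊓ zpowers k = ⊥ := by
        rw [eq_bot_iff]
        intro x hx
        exact hone x (hS hx.1) (hko.of_dvd_nat (orderOf_dvd_of_mem_zpowers hx.2))
      have hle : S ⊔ zpowers k ≤ normalizer (S : Set G) := sup_le le_normalizer (zpowers_le.2 hk)
      have h7 : S.relIndex (S ⊔ zpowers k) = orderOf k := by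
        rw [relIndex_sup_of_le_normalizer (zpowers_le.2 hk), ← inf_relIndex_right, hdis, relIndex_bot_left,
          Nat.card_zpowers]
      have h8 : orderOf k ∣ 6 := h7 ▸ (Dvd.intro _ (relIndex_mul_relIndex _ _ _ le_sup_left hle)).trans h6
      have h9 : orderOf k = 3 := by
        have hk1 : orderOf k ≠ 1 := fun h0 => hkc (orderOf_eq_one_iff.1 h0 ▸ one_mem _)
        have := Nat.le_of_dvd (by norm_num) h8
        obtain ⟨j, hj⟩ := hko
        interval_cases (orderOf k) <;> omega
      have h10 : Nat.card ↥(S ⊔ zpowers k) = 12 := by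
        rw [← card_mul_relIndex_of_le (le_sup_left : S ≤ S ⊔ zpowers k), h7, h9, hV.card_four]
      refine CF.Classical.equiv_A4_of_card_twelve h10 fun z hz hzc => hkc ?_
      have hzk : (z : G) * k = k * z :=
        (congrArg Subtype.val (mem_center_iff.1 hzc ⟨k, mem_sup_right (mem_zpowers k)⟩)).symm
      have hzS : (z : G) ∈ S := h5.le fun s hs =>
        congrArg Subtype.val (mem_center_iff.1 hzc ⟨s, mem_sup_left hs⟩)
      have hz1 : (z : G) ≠ 1 := fun h0 => CF.Invol.ne_one_of_orderOf hz (Subtype.ext h0)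
      have hzz : (z : G) * z = 1 := by rw [← sq]; exact hexp _ hzS
      intro s hs
      by_contra hne
      have hs1 : s ≠ 1 := fun h0 => hne (by simp [h0])
      have hsz : s ≠ z := fun h0 => hne (h0 ▸ hzk)
      have hs' : k * s * k⁻¹ ∈ S := (mem_normalizer_iff.1 hk s).1 hs
      have e1 := IsKleinFour.eq_mul_of_ne_all (G := S) (x := ⟨z, hzS⟩) (y := ⟨s, hs⟩) (z := ⟨_, hs'⟩)
        (fun h0 => hz1 (congrArg Subtype.val h0)) (fun h0 => hs1 (congrArg Subtype.val h0))
        (fun h0 => hsz (congrArg Subtype.val h0).symm)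
        (fun h0 => hs1 (by simpa using congrArg Subtype.val h0))
        (fun h0 => hsz (by
          have h1 : k * s * k⁻¹ = z := congrArg Subtype.val h0
          calc s = k⁻¹ * (k * s * k⁻¹) * k := by group
            _ = z := by rw [h1, mul_assoc, hzk, inv_mul_cancel_left]))
        (fun h0 => hne (by
          have h1 : k * s * k⁻¹ = s := congrArg Subtype.val h0
          exact (mul_inv_eq_iff_eq_mul.1 h1).symm))
      have e2 : k * s * k⁻¹ = z * s := congrArg Subtype.val e1
      have e3 : Commute (k * k) s := by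
        have : k * k * s * (k * k)⁻¹ = s := by
          calc k * k * s * (k * k)⁻¹ = k * (k * s * k⁻¹) * k⁻¹ := by group
            _ = (k * z) * s * k⁻¹ := by rw [e2]; group
            _ = z * (k * s * k⁻¹) := by rw [← hzk]; group
            _ = s := by rw [e2, ← mul_assoc, hzz, one_mul]
        exact mul_inv_eq_iff_eq_mul.1 this
      have e4 : (k * k) ^ 2 = k := by
        rw [← sq, ← pow_mul, show 2 * 2 = 3 + 1 from rfl, pow_succ, ← h9, pow_orderOf_eq_one, one_mul]
      exact hne (e4 ▸ (e3.pow_left 2).symm)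

end Cfsg.Agent.S4083
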