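import Mathlib
import Cfsg.Agent.Fgs2.Basic
import Cfsg.Statements.S4085

set_option autoImplicit false
open Cfsg

namespace Cfsg.Agent.S4085

open Subgroup

theorem arith {a m n : ℕ} (hn : n ≠ 0) (ha : 1 < a) (ham : a ∣ m) (hne : a ≠ m) (hmn : m ∣ n)
    (h : ∀ b, b ∣ n → ((a ∣ b ∨ b ∣ a) ↔ (m ∣ b ∨ b ∣ m))) : ∃ r T, r.Prime ∧ n = r ^ T := by
  have hm : m ≠ 0 := fun h => hn (by simpa [h] using hmn)
  have ha0 : a ≠ 0 := by omega
  obtain ⟨k, rfl⟩ := ham
  have hk1 : k ≠ 1 := fun h => hne (by simp [h])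
  have hk0 : k ≠ 0 := fun h => hm (by simp [h])
  obtain ⟨r, hr, hrk⟩ := Nat.exists_prime_and_dvd hk1
  have h1 : ∀ s, s.Prime → s ∣ a * k → s ∣ a := by
    intro s hs hsm
    rcases (h s (hsm.trans hmn)).2 (Or.inr hsm) with h | h
    · rw [(Nat.dvd_prime hs).1 h |>.resolve_left ha.ne']
    · exact h
  have h2 : a ∣ r ^ (a * k).factorization r := by
    have hd := Nat.ordProj_dvd (a * k) r
    refine ((h _ (hd.trans hmn)).2 (Or.inr hd)).resolve_right fun h3 => ?_
    have h4 := (hr.pow_dvd_iff_le_factorization ha0).1 h3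
    rw [Nat.factorization_mul ha0 hk0] at h4
    have := hr.factorization_pos_of_dvd hk0 hrk
    simp at h4; omega
  have h3 : ∀ s, s.Prime → s ∣ a → s = r := fun s hs hsa =>
    (Nat.prime_dvd_prime_iff_eq hs hr).1 (hs.dvd_of_dvd_pow (hsa.trans h2))
  refine ⟨r, _, hr, Nat.eq_prime_pow_of_unique_prime_dvd hn fun {s} hs hsn => ?_⟩
  by_contra hsr
  have hsa : ¬ s ∣ a := fun h => hsr (h3 s hs h)
  have hc : a.Coprime s := ((Nat.Prime.coprime_iff_not_dvd hs).2 hsa).symm
  have h4 : a * s ∣ n := hc.mul_dvd_of_dvd_of_dvd ((Dvd.intro _ rfl).trans hmn) hsn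
  rcases (h _ h4).1 (Or.inl (Dvd.intro _ rfl)) with h5 | h5
  · have h6 := Nat.dvd_of_mul_dvd_mul_left (by omega) h5
    exact hsr ((Nat.prime_dvd_prime_iff_eq hr hs).1 (hrk.trans h6)).symm
  · exact hsa (h1 s hs ((Dvd.intro_left _ rfl).trans h5))

/-- adjacency -/
def adj {K : Type*} [Group K] (x y : K) : Prop := x ∈ zpowers y ∨ y ∈ zpowers x

theorem adj_iff {K : Type*} [Group K] [Finite K] {w s t : K} (hs : s ∈ zpowers w)
    (ht : t ∈ zpowers w) : adj s t ↔ orderOf s ∣ orderOf t ∨ orderOf t ∣ orderOf s :=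
  or_congr ⟨orderOf_dvd_of_mem_zpowers, CF.Fgs2.mem_zpowers_of_orderOf_dvd' hs ht⟩
    ⟨orderOf_dvd_of_mem_zpowers, CF.Fgs2.mem_zpowers_of_orderOf_dvd' ht hs⟩

theorem lemL {K : Type*} [Group K] [Finite K] {w s t : K} (ht : t ∈ zpowers w)
    (hs1 : s ≠ 1) (hst : s ∈ zpowers t) (hne : orderOf s ≠ orderOf t)
    (h : ∀ x ∈ zpowers w, adj s x ↔ adj t x) : ∃ r T, r.Prime ∧ orderOf w = r ^ T := by
  have hs : s ∈ zpowers w := zpowers_le_of_mem ht hst
  refine arith (orderOf_pos w).ne' (by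
    have := orderOf_pos s; have := mt orderOf_eq_one_iff.1 hs1; omega)
    (orderOf_dvd_of_mem_zpowers hst) hne (orderOf_dvd_of_mem_zpowers ht) fun b hb => ?_
  have h1 : orderOf (w ^ (orderOf w / b)) = b := orderOf_pow_orderOf_div (orderOf_pos w).ne' hb
  have h2 : w ^ (orderOf w / b) ∈ zpowers w := pow_mem (mem_zpowers w) _
  have := h _ h2
  rwa [adj_iff hs h2, adj_iff ht h2, h1] at this

theorem zp_eq {K : Type*} [Group K] [Finite K] {s t : K} (h : s ∈ zpowers t)
    (h' : orderOf t ≤ orderOf s) : zpowers s = zpowers t :=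
  Subgroup.eq_of_le_of_card_ge (zpowers_le_of_mem h) (by simpa using h')

theorem exists_max {K : Type*} [Group K] [Finite K] (x : K) :
    ∃ w, x ∈ zpowers w ∧ ∀ v, adj w v → v ∈ zpowers w := by
  obtain ⟨w, hw, hmax⟩ := Set.Finite.exists_maximalFor orderOf {v | x ∈ zpowers v}
    (Set.toFinite _) ⟨x, mem_zpowers x⟩
  refine ⟨w, hw, fun v hv => hv.elim (fun h => ?_) id⟩
  have h1 : orderOf w ≤ orderOf v := Nat.le_of_dvd (orderOf_pos v) (orderOf_dvd_of_mem_zpowers h)
  rw [zp_eq h (hmax (zpowers_le_of_mem h hw) h1)]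
  exact mem_zpowers v

theorem ncard_gens {K : Type*} [Group K] [Finite K] (y : K) :
    {x | zpowers x = zpowers y}.ncard = (orderOf y).totient := by
  classical
  have := Fintype.ofFinite (zpowers y)
  have h1 := IsCyclic.card_orderOf_eq_totient (α := zpowers y) (d := orderOf y)
    (by rw [Fintype.card_eq_nat_card, Nat.card_zpowers])
  rw [← h1, ← Set.ncard_coe_finset, ← Set.ncard_image_of_injective _ Subtype.val_injective]
  congr 1
  ext x
  simp only [Set.mem_ofPred_eq, Finset.coe_filter, Finset.mem_univ, true_and, Set.mem_image,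
    Subtype.exists, exists_and_right, exists_eq_right]
  constructor
  · intro h
    refine ⟨h ▸ mem_zpowers x, ?_⟩
    rw [← Subgroup.orderOf_coe, ← Nat.card_zpowers, ← Nat.card_zpowers, h]
  · rintro ⟨h, h2⟩
    rw [← Subgroup.orderOf_coe] at h2
    exact zp_eq h h2.ge

theorem adj_congr {K : Type*} [Group K] {s t : K} (h : zpowers s = zpowers t) (x : K) :
    adj s x ↔ adj t x := by
  unfold adj
  rw [h, ← zpowers_le, ← zpowers_le (g := t), h]

theorem key {G H : Type*} [Group G] [Finite G] [Group H] [Finite H] (f : H ≃ G)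
    (hf : ∀ x y : H, adj (f x) (f y) ↔ adj x y)
    {p q : ℕ} (hp : p.Prime) (hq : q.Prime) (hpq : p ≠ q) (g : G) (hg : orderOf g = p * q) :
    ∃ h : H, orderOf h = p * q := by
  by_contra hcon
  have hH : ∀ w : H, ¬ p * q ∣ orderOf w := fun w hw =>
    hcon ⟨_, orderOf_pow_orderOf_div (orderOf_pos w).ne' hw⟩
  obtain ⟨y, hgy, hy⟩ := exists_max g
  have hn : p * q ∣ orderOf y := hg ▸ orderOf_dvd_of_mem_zpowers hgy
  have hnp : ¬ ∃ r T, r.Prime ∧ orderOf y = r ^ T := by
    rintro ⟨r, T, hr, h⟩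
    rw [h] at hn
    exact hpq (((Nat.prime_dvd_prime_iff_eq hp hr).1 (hp.dvd_of_dvd_pow
      ((Dvd.intro _ rfl).trans hn))).trans ((Nat.prime_dvd_prime_iff_eq hq hr).1 (hq.dvd_of_dvd_pow
      ((Dvd.intro_left _ rfl).trans hn))).symm)
  have hy1 : y ≠ 1 := by
    rintro rfl
    exact hnp ⟨2, 0, Nat.prime_two, by simp⟩
  have hadjy : ∀ x, adj y x ↔ x ∈ zpowers y := fun x => ⟨hy x, Or.inr⟩
  have L1 : ∀ u ∈ zpowers y, (∀ x ∈ zpowers y, adj u x) → u = 1 ∨ zpowers u = zpowers y := by
    intro u hu h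
    by_contra h'
    push Not at h'
    exact hnp (lemL (mem_zpowers y) h'.1 hu (fun h => h'.2 (zp_eq hu h.ge))
      fun x hx => iff_of_true (h x hx) (Or.inr hx))
  have L2 : ∀ u ∈ zpowers y, ∀ v ∈ zpowers y, u ≠ 1 → v ≠ 1 → (∀ x, adj u x ↔ adj v x) →
      zpowers u = zpowers v := by
    intro u hu v hv hu1 hv1 h
    rcases (h v).2 (Or.inl (mem_zpowers v)) with h1 | h1
    · by_contra hne
      exact hnp (lemL hv hu1 h1 (fun h => hne (zp_eq h1 h.ge)) fun x _ => h x)
    · by_contra hne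
      exact hnp (lemL hu hv1 h1 (fun h => hne (zp_eq h1 h.ge).symm) fun x _ => (h x).symm)
  set D : Set H := {h | h ≠ 1 ∧ (f h = 1 ∨ zpowers (f h) = zpowers y)} with hD
  have P : ∀ d ∈ D, ∀ h, adj d h ↔ f h ∈ zpowers y := by
    rintro d ⟨hd1, hd | hd⟩ h
    · have h1 : ∀ x, adj (f 1) x := fun x => by
        rw [← f.apply_symm_apply x, hf]; exact Or.inl (one_mem _)
      have h2 : f 1 ∈ zpowers y := hy _ (h1 y).symm
      have h3 := (L1 _ h2 fun x _ => h1 x).resolve_left
        (fun h => hd1 (f.injective (hd.trans h.symm)))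
      refine iff_of_true ((hf _ _).1 (hd ▸ Or.inl (one_mem _))) ?_
      rw [← hadjy, ← adj_congr h3]; exact h1 _
    · rw [← hf, adj_congr hd, hadjy]
  have hDy : ∀ d ∈ D, f d ∈ zpowers y := fun d hd => (P d hd d).1 (Or.inl (mem_zpowers d))
  have hcard : (orderOf y).totient ≤ D.ncard := by
    have h1 : insert 1 {x | zpowers x = zpowers y} ⊆ f '' (insert 1 D) := by
      intro x hx
      refine ⟨f.symm x, ?_, by simp⟩
      by_cases h : f.symm x = 1
      · exact Or.inl h
      · exact Or.inr ⟨h, by simpa using hx⟩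
    have h2 := Set.ncard_le_ncard h1
    rw [Set.ncard_image_of_injective _ f.injective, Set.ncard_insert_of_notMem (by
      intro h
      rw [Set.mem_ofPred_eq, zpowers_one_eq_bot, eq_comm, zpowers_eq_bot] at h
      exact hy1 h), ncard_gens] at h2
    have := Set.ncard_insert_le 1 D
    omega
  have hDne : D.Nonempty := by
    rw [← Set.ncard_pos]
    exact lt_of_lt_of_le (Nat.totient_pos.2 (orderOf_pos y)) hcard
  obtain ⟨c, hc, hcmax⟩ := Set.Finite.exists_maximalFor orderOf D (Set.toFinite _) hDne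
  have hDc : ∀ d ∈ D, d ∈ zpowers c := by
    intro d hd
    rcases (P c hc d).2 (hDy d hd) with h | h
    · rw [zp_eq h (hcmax hd (Nat.le_of_dvd (orderOf_pos _) (orderOf_dvd_of_mem_zpowers h)))]
      exact mem_zpowers d
    · exact h
  have Q : ∀ w, c ∈ zpowers w → (∀ v, adj w v → v ∈ zpowers w) →
      f w ∈ zpowers y ∧ f w ≠ 1 ∧ zpowers (f w) ≠ zpowers y := by
    intro w hw hmax
    refine ⟨(P c hc w).1 (Or.inl hw), fun h => ?_, fun h => ?_⟩
    · have h1 : zpowers w = ⊤ := by
        rw [eq_top_iff]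
        intro v _
        exact hmax v ((hf _ _).1 (h ▸ Or.inl (one_mem _)))
      apply hH w
      rw [← Nat.card_zpowers, h1, Subgroup.card_top, Nat.card_congr f]
      exact hn.trans (orderOf_dvd_natCard y)
    · apply hH w
      have h1 : ∀ v, v ∈ zpowers w ↔ f v ∈ zpowers y := fun v => by
        rw [← hadjy, ← adj_congr h, hf]
        exact ⟨Or.inr, hmax v⟩
      rw [← Nat.card_zpowers, Nat.card_congr (f.subtypeEquiv h1), Nat.card_zpowers]
      exact hn
  have R : ∀ w, c ∈ zpowers w → (∀ v, adj w v → v ∈ zpowers w) →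
      (orderOf w).totient ≤ (orderOf (f w)).totient := by
    intro w hw hmax
    rw [← ncard_gens, ← ncard_gens, ← Set.ncard_image_of_injective _ f.injective]
    apply Set.ncard_le_ncard _ (Set.toFinite _)
    rintro _ ⟨v, hv, rfl⟩
    rw [Set.mem_ofPred_eq] at hv ⊢
    have h1 := Q w hw hmax
    have h2 := Q v (hv ▸ hw) (fun z hz => hv ▸ hmax z ((adj_congr hv z).1 hz))
    refine L2 _ h2.1 _ h1.1 h2.2.1 h1.2.1 fun x => ?_
    rw [← f.apply_symm_apply x, hf, hf, adj_congr hv]
  have htot : ∀ {a b : ℕ}, b ≠ 0 → a ∣ b → a.totient ≤ b.totient := fun hb h =>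
    Nat.le_of_dvd (Nat.totient_pos.2 (Nat.pos_of_ne_zero hb)) (Nat.totient_dvd_of_dvd h)
  obtain ⟨w, hw, hmax⟩ := exists_max c
  by_cases h1 : ∀ d ∈ D, zpowers d = zpowers c
  · have h2 : D.ncard ≤ (orderOf c).totient := by
      rw [← ncard_gens]
      exact Set.ncard_le_ncard h1 (Set.toFinite _)
    have h3 : ∀ w, c ∈ zpowers w → (∀ v, adj w v → v ∈ zpowers w) →
        2 * orderOf (f w) = orderOf y := by
      intro w hw hmax
      obtain ⟨q1, q2, q3⟩ := Q w hw hmax
      have h4 := orderOf_dvd_of_mem_zpowers q1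
      refine (Nat.eq_or_eq_of_totient_eq_totient h4 (le_antisymm (htot (orderOf_pos y).ne' h4)
        ?_)).resolve_left fun h => q3 (zp_eq q1 h.ge)
      exact hcard.trans (h2.trans ((htot (orderOf_pos w).ne'
        (orderOf_dvd_of_mem_zpowers hw)).trans (R w hw hmax)))
    obtain ⟨q1, q2, q3⟩ := Q w hw hmax
    refine (L1 _ q1 fun x hx => ?_).elim q2 q3
    rw [← f.apply_symm_apply x] at hx ⊢
    rw [hf]
    right
    rcases (P c hc _).2 hx with h | h
    · obtain ⟨v, hv, hvmax⟩ := exists_max (f.symm x)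
      have hcv : c ∈ zpowers v := zpowers_le_of_mem hv h
      have h4 : orderOf (f v) = orderOf (f w) := by
        have := h3 v hcv hvmax
        have := h3 w hw hmax
        omega
      have h5 : adj w v := by
        rw [← hf, adj_iff q1 (Q v hcv hvmax).1, h4]
        exact Or.inl dvd_rfl
      exact zpowers_le_of_mem (hmax v h5) hv
    · exact zpowers_le_of_mem hw h
  · push Not at h1
    obtain ⟨d, hd, hdc⟩ := h1
    obtain ⟨r, T, hr, hT⟩ := lemL hw hd.1 (hDc d hd) (fun h => hdc (zp_eq (hDc d hd) h.ge))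
      fun x _ => by rw [P d hd, P c hc]
    have h2 := orderOf_dvd_of_mem_zpowers hw
    have h3 : orderOf c ≠ orderOf w := by
      intro h
      have h4 := zp_eq hw h.ge
      obtain ⟨q1, q2, q3⟩ := Q c (mem_zpowers c) fun v hv => h4 ▸ hmax v ((adj_congr h4 v).1 hv)
      exact hc.2.elim q2 q3
    rw [hT] at h2 h3
    obtain ⟨t, ht, hct⟩ := (Nat.dvd_prime_pow hr).1 h2
    have htT : t < T := lt_of_le_of_ne ht (by rintro rfl; exact h3 hct)
    have h4 : orderOf c ≤ (orderOf w).totient := by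
      rw [hT, hct, Nat.totient_prime_pow hr (by omega)]
      calc r ^ t ≤ r ^ (T - 1) := Nat.pow_le_pow_right hr.pos (by omega)
        _ ≤ _ := Nat.le_mul_of_pos_right _ (by have := hr.two_le; omega)
    have h5 : D.ncard < orderOf c := by
      rw [← Nat.card_zpowers]
      change _ < Nat.card (zpowers c : Set H)
      rw [Nat.card_coe_set_eq]
      apply Set.ncard_lt_ncard _ (Set.toFinite _)
      refine ⟨hDc, fun h => ?_⟩
      exact (h (one_mem (zpowers c))).1 rfl
    have h6 := R w hw hmax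
    have h7 := htot (orderOf_pos y).ne' (orderOf_dvd_of_mem_zpowers (Q w hw hmax).1)
    omega

/-- Let G and H be finite groups whose power graphs are isomorphic: there is a bijection e : G → H such that, for all x, y, one of x, y is a power of the other exactly when one of e(x), e(y) is a power of the other. Then G and H have the same prime graph: for distinct primes p, q, G has an element of order pq if and only if H does. -/
theorem result {G H : Type*} [Group G] [Finite G] [Group H] [Finite H] (e : G ≃ H)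
    (he : ∀ x y : G, (x ∈ Subgroup.zpowers y ∨ y ∈ Subgroup.zpowers x) ↔
      (e x ∈ Subgroup.zpowers (e y) ∨ e y ∈ Subgroup.zpowers (e x)))
    {p q : ℕ} (hp : p.Prime) (hq : q.Prime) (hpq : p ≠ q) :
    (∃ g : G, orderOf g = p * q) ↔ (∃ h : H, orderOf h = p * q) := by
  constructor
  · rintro ⟨g, hg⟩
    refine key e.symm (fun x y => ?_) hp hq hpq g hg
    have := he (e.symm x) (e.symm y)
    simp only [Equiv.apply_symm_apply] at this
    exact this
  · rintro ⟨g, hg⟩
    exact key e (fun x y => (he x y).symm) hp hq hpq g hg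

end Cfsg.Agent.S4085
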