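import Mathlib
import Cfsg.Agent.Fgs2.Basic
import Cfsg.Statements.S4086

set_option autoImplicit false
open Cfsg

namespace Cfsg.Agent.S4086

/-- For a finite group G the following are equivalent: every non-identity element has prime-power order; whenever two elements generate a cyclic subgroup, one of them is a power of the other (the enhanced power graph of G coincides with its power graph). -/
theorem result {G : Type*} [Group G] [Finite G] :
    (∀ g : G, g ≠ 1 → IsPrimePow (orderOf g)) ↔
    (∀ x y : G, IsCyclic ↥(Subgroup.closure ({x, y} : Set G)) → (x ∈ Subgroup.zpowers y ∨ y ∈ Subgroup.zpowers x)) := by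
  constructor
  · intro h x y hc
    set C := Subgroup.closure ({x, y} : Set G)
    obtain ⟨g, hg⟩ := hc.exists_generator
    have hx : x ∈ C := Subgroup.subset_closure (by simp)
    have hy : y ∈ C := Subgroup.subset_closure (by simp)
    by_cases hg1 : (g : G) = 1
    · left
      obtain ⟨k, hk⟩ := Subgroup.mem_zpowers_iff.1 (hg ⟨x, hx⟩)
      have : x = 1 := by
        have := congrArg Subtype.val hk
        simp [hg1] at this
        exact this.symm
      rw [this]; exact one_mem _
    obtain ⟨p, k, hp, hk, hpk⟩ := h g hg1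
    have hp' : p.Prime := hp.nat_prime
    have hcard : Nat.card C = p ^ k := by
      rw [← orderOf_eq_card_of_forall_mem_zpowers hg, hpk, Subgroup.orderOf_coe]
    have hox : orderOf (⟨x, hx⟩ : C) ∣ p ^ k := hcard ▸ orderOf_dvd_natCard _
    have hoy : orderOf (⟨y, hy⟩ : C) ∣ p ^ k := hcard ▸ orderOf_dvd_natCard _
    obtain ⟨i, -, hi⟩ := (Nat.dvd_prime_pow hp').1 hox
    obtain ⟨j, -, hj⟩ := (Nat.dvd_prime_pow hp').1 hoy
    rcases le_total i j with hij | hij
    · left; exact CF.Fgs2.mem_zpowers_of_orderOf_dvd' hx hy (by rw [Subgroup.orderOf_mk] at hi hj; rw [hi, hj]; exact pow_dvd_pow _ hij)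
    · right; exact CF.Fgs2.mem_zpowers_of_orderOf_dvd' hy hx (by rw [Subgroup.orderOf_mk] at hi hj; rw [hi, hj]; exact pow_dvd_pow _ hij)
  · intro h g hg
    have h0 : orderOf g ≠ 0 := (orderOf_pos g).ne'
    have h1 : orderOf g ≠ 1 := by rwa [Ne, orderOf_eq_one_iff]
    rw [isPrimePow_iff_unique_prime_dvd]
    obtain ⟨p, hp, hpd⟩ := Nat.exists_prime_and_dvd h1
    refine ⟨p, ⟨hp, hpd⟩, ?_⟩
    rintro q ⟨hq, hqd⟩
    have hx : orderOf (g ^ (orderOf g / p)) = p := orderOf_pow_orderOf_div h0 hpd
    have hy : orderOf (g ^ (orderOf g / q)) = q := orderOf_pow_orderOf_div h0 hqd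
    have hle : Subgroup.closure ({g ^ (orderOf g / p), g ^ (orderOf g / q)} : Set G) ≤
        Subgroup.zpowers g := by
      rw [Subgroup.closure_le]
      rintro z (rfl | rfl) <;> exact Subgroup.pow_mem _ (Subgroup.mem_zpowers g) _
    have hc := Subgroup.isCyclic_of_le hle
    rcases h _ _ hc with h2 | h2
    · have := orderOf_dvd_of_mem_zpowers h2
      rw [hx, hy] at this
      exact ((Nat.prime_dvd_prime_iff_eq hp hq).1 this).symm
    · have := orderOf_dvd_of_mem_zpowers h2
      rw [hx, hy] at this
      exact ((Nat.prime_dvd_prime_iff_eq hq hp).1 this)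

end Cfsg.Agent.S4086
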