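import Cfsg.Statements.S4087
import Cfsg.Agent.CIT.Spec

set_option autoImplicit false
open Cfsg

namespace Cfsg.Agent.S4087

/-- Let G be a finite group in which every non-identity element has prime-power order (its prime graph has no edges). Then the order of G has at most four distinct prime divisors; and if it has exactly four, then either G is isomorphic to PSL(3,4), or G has a normal 2-subgroup N with G/N isomorphic to the Suzuki group over the field with 8 or with 32 elements. -/
theorem result {G : Type*} [Group G] [Finite G] (h : ∀ g : G, g ≠ 1 → IsPrimePow (orderOf g)) :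
    (Nat.card G).primeFactors.card ≤ 4 ∧
    ((Nat.card G).primeFactors.card = 4 →
      (∃ (F : Type) (_ : Field F) (_ : Fintype F), Fintype.card F = 4 ∧
        Nonempty (G ≃* Matrix.ProjectiveSpecialLinearGroup (Fin 3) F)) ∨
      (∃ (N : Subgroup G) (_ : N.Normal), IsPGroup 2 ↥N ∧
        ∃ (F : Type) (_ : Field F) (_ : Fintype F),
          (Fintype.card F = 8 ∧ Nonempty (G ⧸ N ≃* ↥(Cfsg.Lie.Sz F 4))) ∨
          (Fintype.card F = 32 ∧ Nonempty (G ⧸ N ≃* ↥(Cfsg.Lie.Sz F 8))))) := by
  open CF.CIT CF.BG in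
  by_cases h3 : (Nat.card G).primeFactors.card < 3
  · exact ⟨by omega, by omega⟩
  haveI := normalIn_top.1 (O_normal {2} (⊤ : Subgroup G))
  have k := O_pi {2} (⊤ : Subgroup G)
  rcases EPPO.cases h (EPPO.not_sol h (not_lt.1 h3)) rfl with ⟨F, _, _, h1 | h1, ⟨e⟩⟩ |
    ⟨F, _, _, l⟩ | ⟨-, l | ⟨F, _, _, h1 | h1 | h1, ⟨e⟩⟩ | l⟩
  · rw [primeFactors_quot k (card_of_psl e h1 (n := 60)) (by norm_num)]
    simp [Nat.primeFactors]
  · rw [primeFactors_quot k (card_of_psl e h1 (n := 504)) (by norm_num)]
    simp [Nat.primeFactors]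
  · refine ⟨?_, fun _ => Or.inr ⟨_, _, k.isPGroup, F, _, _, l⟩⟩
    rcases l with ⟨h1, ⟨e⟩⟩ | ⟨h1, ⟨e⟩⟩
    · rw [primeFactors_quot k ((Nat.card_congr e.toEquiv).trans (card_sz (m := 1) h1))
        (by norm_num)]
      simp [Nat.primeFactors]
    · rw [primeFactors_quot k ((Nat.card_congr e.toEquiv).trans (card_sz (m := 2) h1))
        (by norm_num)]
      simp [Nat.primeFactors]
  · exact ⟨by rw [l.card]; simp [Nat.primeFactors], fun _ => Or.inl l⟩
  · rw [card_of_psl e h1 (n := 360)]
    simp [Nat.primeFactors]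
  · rw [card_of_psl e h1 (n := 168)]
    simp [Nat.primeFactors]
  · rw [card_of_psl e h1 (n := 2448)]
    simp [Nat.primeFactors]
  · rw [l.card]
    simp [Nat.primeFactors]

end Cfsg.Agent.S4087
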