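import Cfsg.Statements.S4088
import Cfsg.Agent.SolvStr.Casolo

set_option autoImplicit false
open Cfsg

namespace Cfsg.Agent.S4088

/-- Let G be a finite group, p a prime dividing the order of G, H a p-subgroup of G and P a Sylow p-subgroup of G. Call the subnormalizer of H the set of elements g of G such that H is subnormal in the subgroup generated by H and g. Then the number of elements of the subnormalizer of H equals the number of Sylow p-subgroups of G containing H times the order of N_G(P), and also equals the number of conjugates of H contained in P times the order of N_G(H). -/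
theorem result {G : Type*} [Group G] [Finite G] (p : ℕ) [Fact p.Prime]
    (hp : p ∣ Nat.card G) (H : Subgroup G) (hH : IsPGroup p H) (P : Sylow p G) :
    Nat.card {g : G // ((H).subgroupOf (H ⊔ Subgroup.zpowers g)).IsSubnormal} =
        Nat.card {Q : Sylow p G // H ≤ (Q : Subgroup G)} * Nat.card (Subgroup.normalizer ((P : Subgroup G) : Set G)) ∧
    Nat.card {g : G // ((H).subgroupOf (H ⊔ Subgroup.zpowers g)).IsSubnormal} =
        Nat.card {K : Subgroup G // K ≤ (P : Subgroup G) ∧ ∃ g : G, K = H.map (MulAut.conj g).toMonoidHom} *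
          Nat.card (Subgroup.normalizer (H : Set G)) := by
  open CF.BG CF.SolvStr in
  have hp : p.Prime := Fact.out
  rw [card_snz' (piGrp_of_isPGroup hp hH) (syl_sylow_top P)]
  refine ⟨?_, ?_⟩
  · rw [← card_fibers (fun g : G => g⁻¹ • P) (fun Q => H ≤ (Q : Subgroup G)) _ fun Q _ => ?_]
    · exact Nat.card_congr (Equiv.subtypeEquivRight fun g => cj_le_iff)
    obtain ⟨a, rfl⟩ := MulAction.exists_smul_eq G P Q
    rw [← top_inf_eq (Subgroup.normalizer _), ← card_cj_eq (Subgroup.mem_top a)]
    exact Nat.card_congr ((Equiv.inv G).subtypeEquiv fun g => by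
      simp only [Subgroup.mem_top, true_and, Sylow.ext_iff]; rfl)
  · rw [← card_fibers (fun g : G => cj g H) (fun K => K ≤ (P : Subgroup G) ∧ ∃ g, K = H.map
      (MulAut.conj g).toMonoidHom) _ fun K hK => ?_]
    · exact Nat.card_congr (Equiv.subtypeEquivRight fun g => (and_iff_left ⟨g, rfl⟩).symm)
    obtain ⟨-, a, rfl⟩ := hK
    rw [← top_inf_eq (Subgroup.normalizer _), ← card_cj_eq (Subgroup.mem_top a)]
    exact Nat.card_congr (Equiv.subtypeEquivRight fun g => (and_iff_right trivial).symm)

end Cfsg.Agent.S4088
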