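import Cfsg.Statements.S4089
import Cfsg.Agent.SolvStr.Casolo

set_option autoImplicit false
open Cfsg

namespace Cfsg.Agent.S4089

open Subgroup CF.BG CF.SolvStr

theorem aux {G : Type*} [Group G] [Finite G] {p : ℕ} {H : Subgroup G} {g : G} (h : Snz p H g) :
    ∃ R, H ≤ R ∧ 𝐎 {p} (𝐍 R) = R ∧ g ∈ 𝐍 R := by
  obtain ⟨R, k, l, n⟩ := h
  obtain ⟨S, lS, ⟨k', n'⟩, m⟩ := exists_maximal (P := fun S => PiGrp {p} S ∧ g ∈ 𝐍 S) ⟨k, n⟩
  exact ⟨S, l.trans lS, m _ ⟨O_pi _ _, (O_normal _ _).norm n'⟩ (le_O (normalIn_norm S) k'), n'⟩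

theorem aux2 {G : Type*} [Group G] [Finite G] {p : ℕ} {R D : Subgroup G} (e : 𝐎 {p} (𝐍 R) = R)
    (k : PiGrp {p} D) (h : ∀ Q, Syl p Q ⊤ → R ≤ Q → D ≤ Q) : D ≤ R := by
  have kR : PiGrp {p} R := e ▸ O_pi _ _
  set E := sInf {Q | Syl p Q ⊤ ∧ R ≤ Q}
  have l : R ≤ E := le_sInf fun _ h => h.2
  obtain ⟨Q, hQ, lQ⟩ := exists_syl_le le_top kR
  have kE : PiGrp {p} E := hQ.pi.le (sInf_le ⟨hQ, lQ⟩)
  refine (le_sInf fun Q hQ => h Q hQ.1 hQ.2 : D ≤ E).trans (kE.nil.eq_of_inf_norm_le l ?_).ge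
  refine (le_O (normalIn_inf_right (le_norm_of_cj_le fun g hg => le_sInf fun Q hQ => ?_))
    kE.inf_left).trans e.le
  exact cj_le_iff.2 (sInf_le ⟨hQ.1.cj_top _, (cj_of_norm (inv_mem hg)).ge.trans (cj_mono _ hQ.2)⟩)


/-- Let G be a finite group, p a prime and H a p-subgroup of G. Then the set of elements g of G such that H is subnormal in the subgroup generated by H and g is the union of the normalizers N_G(R) over the subgroups R of G containing H with R = O_p(N_G(R)); and this set does not change when H is replaced by the intersection of all Sylow p-subgroups of G containing H. -/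
theorem result {G : Type*} [Group G] [Finite G] (p : ℕ) [Fact p.Prime]
    (H : Subgroup G) (hH : IsPGroup p H) :
    {g : G | ((H).subgroupOf (H ⊔ Subgroup.zpowers g)).IsSubnormal} =
      {g : G | ∃ R : Subgroup G, H ≤ R ∧ (Cfsg.pCore p (Subgroup.normalizer (R : Set G))).map (Subgroup.normalizer (R : Set G)).subtype = R ∧ g ∈ Subgroup.normalizer (R : Set G)} ∧
    ∀ g : G, (((H).subgroupOf (H ⊔ Subgroup.zpowers g)).IsSubnormal ↔
      (((sInf {K : Subgroup G | ∃ Q : Sylow p G, H ≤ (Q : Subgroup G) ∧ K = (Q : Subgroup G)})).subgroupOf ((sInf {K : Subgroup G | ∃ Q : Sylow p G, H ≤ (Q : Subgroup G) ∧ K = (Q : Subgroup G)}) ⊔ Subgroup.zpowers g)).IsSubnormal) := by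
  have hp : p.Prime := Fact.out
  have h := piGrp_of_isPGroup hp hH
  obtain ⟨Q, hQ, lQ⟩ := exists_syl_le le_top h
  obtain ⟨Q, rfl⟩ := hQ.exists_sylow_top
  have k : PiGrp {p} (sInf {K : Subgroup G | ∃ Q : Sylow p G, H ≤ (Q : Subgroup G) ∧ K = Q}) :=
    hQ.pi.le (sInf_le ⟨Q, lQ, rfl⟩)
  refine ⟨Set.ext fun g => ?_, fun g => ?_⟩
  · simp only [Set.mem_setOf_eq, snz_iff h, map_pCore hp]
    exact ⟨aux, fun ⟨R, l, e, n⟩ => ⟨R, e ▸ O_pi _ _, l, n⟩⟩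
  rw [snz_iff h, snz_iff k]
  refine ⟨fun s => ?_, fun ⟨R, k, l, n⟩ => ⟨R, k, (le_sInf ?_).trans l, n⟩⟩
  · obtain ⟨R, l, e, n⟩ := aux s
    refine ⟨R, e ▸ O_pi _ _, aux2 e k fun Q hQ l' => ?_, n⟩
    obtain ⟨Q, rfl⟩ := hQ.exists_sylow_top
    exact sInf_le ⟨Q, l.trans l', rfl⟩
  · rintro _ ⟨Q, l, rfl⟩
    exact l

end Cfsg.Agent.S4089
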