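import Cfsg.Statements.S4090
import Cfsg.Agent.SolvStr.Casolo

set_option autoImplicit false
open scoped BigOperators
open Cfsg

namespace Cfsg.Agent.S4090

open Subgroup CF.BG CF.SolvStr
open scoped commutatorElement

theorem tele (n : ℕ) : ∀ (u v : Fin (n + 1) → ℕ) (a : Fin n → ℕ), (∀ i, 0 < v i) →
    (∀ i, u i.castSucc * v i.succ = u i.succ * v i.castSucc * a i) →
    u 0 * v (Fin.last n) = u (Fin.last n) * v 0 * ∏ i, a i := by
  induction n with
  | zero => simp
  | succ n ih =>
    intro u v a hv h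
    have h1 := ih (u ∘ Fin.succ) (v ∘ Fin.succ) (a ∘ Fin.succ) (fun _ => hv _) fun i => h i.succ
    have h2 := h 0
    simp only [Function.comp, Fin.succ_last, Fin.castSucc_zero] at h1 h2
    rw [Fin.prod_univ_succ]
    refine Nat.eq_of_mul_eq_mul_left (hv (Fin.succ 0)) ?_
    calc _ = u 0 * v (Fin.succ 0) * v (Fin.last _) := by ring
      _ = u (Fin.succ 0) * v (Fin.last _) * (v 0 * a 0) := by rw [h2]; ring
      _ = _ := by rw [h1]; ring


/-- Let G be a finite p-solvable group, H a p-subgroup of G and P a Sylow p-subgroup, and fix a chain of normal subgroups 1 = M₀ ≤ M₁ ≤ ⋯ ≤ Mₙ = G of G each of whose factors is a p-group or a p'-group. Then the number of elements g of G such that H is subnormal in the subgroup generated by H and g equals the order of P times the product, over the factors Mᵢ₊₁/Mᵢ of order prime to p, of the order of the centralizer of H in Mᵢ₊₁/Mᵢ (counted as the number of u ∈ Mᵢ₊₁ with [h, u] ∈ Mᵢ for all h ∈ H, divided by the order of Mᵢ). -/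
theorem result {G : Type*} [Group G] [Finite G] (p : ℕ) [Fact p.Prime]
    (hG : Cfsg.IsPSolvable p G) (H : Subgroup G) (hH : IsPGroup p H) (P : Sylow p G)
    (n : ℕ) (M : Fin (n + 1) → Subgroup G) (h0 : M 0 = ⊥) (hn : M (Fin.last n) = ⊤) (hmono : Monotone M)
    (hnormal : ∀ i, (M i).Normal)
    (hfac : ∀ i : Fin n, (∃ m : ℕ, (M i.castSucc).relIndex (M i.succ) = p ^ m) ∨ ((M i.castSucc).relIndex (M i.succ)).Coprime p) :
    Nat.card {g : G // ((H).subgroupOf (H ⊔ Subgroup.zpowers g)).IsSubnormal} =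
      Nat.card (P : Subgroup G) *
        ∏ i : Fin n, (if ((M i.castSucc).relIndex (M i.succ)).Coprime p then
          Nat.card {u : G // u ∈ M i.succ ∧ ∀ h ∈ H, h * u * h⁻¹ * u⁻¹ ∈ M i.castSucc} / Nat.card (M i.castSucc)
          else 1) := by
  have hp : p.Prime := Fact.out
  have h := piGrp_of_isPGroup hp hH
  have s := syl_sylow_top P
  have := tele n (fun i => rc H (P ⊔ M i)) (fun i => ♯((P : Subgroup G) ⊔ M i))
    (fun i => if ((M i.castSucc).relIndex (M i.succ)).Coprime p then
      Nat.card {u : G // u ∈ M i.succ ∧ ∀ h ∈ H, h * u * h⁻¹ * u⁻¹ ∈ M i.castSucc} /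
        Nat.card (M i.castSucc) else 1) (fun _ => card_pos' _) fun i => by
    have l := hmono (Fin.castSucc_lt_succ (i := i)).le
    have f := hfac i
    have n1 := hnormal i.castSucc
    have n2 := hnormal i.succ
    generalize M i.castSucc = A at *
    generalize M i.succ = B at *
    have nA : ∀ X : Subgroup G, X ≤ 𝐍 A := fun X => le_top.trans (normalIn_top.2 n1).norm
    split_ifs with c
    swap
    · obtain ⟨m, e⟩ := f.resolve_right c
      rw [sup_eq_of_pi s l (e ▸ piNat_pow_self hp m), mul_one]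
    have k := (piNat_compl_single_iff_coprime hp).2 c
    have e1 := rc_step h s l k
    have e2 := card_sup_mul_card_inf (.inl (nA P))
    have e3 := card_sup_mul_card_inf (H := P) (.inl (le_top.trans (normalIn_top.2 n2).norm))
    rw [le_antisymm (le_inf inf_le_left (s.pi.inf_left.le_of_relIndex inf_le_right (nA _) k))
      (inf_le_inf_left P.1 l)] at e3
    rw [Nat.card_congr (Equiv.subtypeEquivRight (q := (· ∈ B ⊓ centMod H A))
      (p := fun u => u ∈ B ∧ ∀ h ∈ H, h * u * h⁻¹ * u⁻¹ ∈ A) fun u => by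
      rw [mem_inf, mem_centMod, and_iff_right (nA ⊤ trivial)]
      refine and_congr_right fun _ => forall₂_congr fun x _ => ?_
      rw [← inv_mem_iff, ← commutatorElement_def, commutatorElement_inv])]
    rw [card_centMod ⟨l, nA _⟩ (nA _)] at e1 ⊢
    rw [Nat.mul_div_cancel_left _ (card_pos' A)]
    refine Nat.eq_of_mul_eq_mul_left (card_pos' ((P : Subgroup G) ⊓ A)) ?_
    calc _ = rc H (P ⊔ A) * (♯((P : Subgroup G) ⊔ B) * ♯((P : Subgroup G) ⊓ A)) := by ring
      _ = ♯(P : Subgroup G) * (rc H (P ⊔ A) * ♯B) := by rw [e3]; ring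
      _ = rc H (P ⊔ B) * (♯(P : Subgroup G) * ♯A) * ♯(qt A B ⊓ 𝐂 (qt A H)) := by rw [e1]; ring
      _ = _ := by rw [← e2]; ring
  simp only [h0, hn, sup_bot_eq, sup_top_eq, rc, le_top, card_top',
    Nat.card_congr (Equiv.subtypeUnivEquiv fun _ : G => trivial)] at this
  rw [card_snz' h s]
  exact Nat.eq_of_mul_eq_mul_left Nat.card_pos (((mul_comm _ _).trans this).trans (mul_assoc _ _ _))

end Cfsg.Agent.S4090
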