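import Cfsg.Statements.S4091
import Cfsg.Agent.SolvStr.Casolo

set_option autoImplicit false
open Cfsg

namespace Cfsg.Agent.S4091

open Subgroup CF.BG CF.SolvStr Finset

theorem step {G : Type*} [Group G] [Finite G] {p : ℕ} (hp : p.Prime) {P A B : Subgroup G} [Fintype P]
    [A.Normal] [B.Normal] (s : Syl p P ⊤) (l : A ≤ B) (k : PiNat {p}ᶜ (A.relIndex B))
    (h : ∏ x : P, rc (zpowers x.1) (P ⊔ B) ^ p ≤
      rc P (P ⊔ B) ^ ((p - 1) * Fintype.card P) * Nat.card G ^ Fintype.card P) :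
    ∏ x : P, rc (zpowers x.1) (P ⊔ A) ^ p ≤
      rc P (P ⊔ A) ^ ((p - 1) * Fintype.card P) * Nat.card G ^ Fintype.card P := by
  have nA : ∀ X : Subgroup G, X ≤ 𝐍 A := fun X => le_top.trans (normalIn_top.2 ‹_›).norm
  have e : ∀ H, PiGrp {p} H → rc H (P ⊔ A) * ♯(qt A B) = rc H (P ⊔ B) * ♯(qt A B ⊓ 𝐂 (qt A H)) :=
    fun H h => by
      have := rc_step h s l k
      rw [card_centMod ⟨l, nA _⟩ (nA _), ← card_mul_relIndex l, ← card_qt (nA B)] at this
      exact Nat.eq_of_mul_eq_mul_left (card_pos' A) (by linear_combination this)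
  have e2 : (qtHom (nA P)).range.map (qt A P).subtype = qt A P := by
    rw [MonoidHom.range_eq_top.2 (qtHom_surj _), map_top_subtype]
  have h2 := nr_le (V := qt A B) hp s.pi.isPGroup ((qt A P).subtype.comp (qtHom (nA P)))
    (by rw [MonoidHom.range_comp, e2]; exact qt_norm _ (le_top.trans (normalIn_top.2 ‹_›).norm))
    ((piGrp_qt_iff (nA B)).2 k)
  rw [MonoidHom.range_comp, e2] at h2
  obtain ⟨q, rfl⟩ := Nat.exists_eq_succ_of_ne_zero hp.ne_zero
  refine Nat.le_of_mul_le_mul_right (c := ♯(qt A B) ^ ((q + 1) * Fintype.card P)) ?_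
    (pow_pos (card_pos' _) _)
  calc _ = ∏ x : P, (rc (zpowers x.1) (P ⊔ A) * ♯(qt A B)) ^ (q + 1) := by
        simp only [mul_pow, prod_mul_distrib, prod_const, card_univ, pow_mul]
    _ = (∏ x : P, rc (zpowers x.1) (P ⊔ B) ^ (q + 1)) *
        ∏ x : P, ♯(qt A B ⊓ 𝐂₁ (((qt A P).subtype.comp (qtHom (nA P))) x)) ^ (q + 1) := by
        rw [← prod_mul_distrib]
        refine prod_congr rfl fun x _ => ?_
        rw [e _ (s.pi.elt x.2).zpowers, mul_pow, qt_zpowers (nA P x.2), cent_zpowers, ← qtHom_apply (nA P)]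
        rfl
    _ ≤ _ := Nat.mul_le_mul h h2
    _ = (rc P (P ⊔ B) * ♯(qt A B ⊓ 𝐂 (qt A P))) ^ (q * Fintype.card P) * Nat.card G ^ Fintype.card P *
        ♯(qt A B) ^ Fintype.card P := by simp only [Nat.succ_sub_one]; ring
    _ = _ := by rw [← e _ s.pi]; simp only [Nat.succ_sub_one]; ring

theorem count {G : Type*} [Group G] [Finite G] {p : ℕ} (hp : p.Prime) {P : Subgroup G} [Fintype P]
    (s : Syl p P ⊤) : (Nat.card {g : G // ∃ k : ℕ, orderOf g = p ^ k} : ℝ) =
      Nat.card G * ∑ x : P, (rc (zpowers x.1) P : ℝ)⁻¹ := by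
  classical
  have := Fintype.ofFinite G
  have e : ∀ g : G, ∑ x : P, (rc (zpowers x.1) P : ℝ)⁻¹ =
      ∑ y : G, if cj g (zpowers y) ≤ P then (rc (zpowers y) P : ℝ)⁻¹ else 0 := fun g => by
    rw [← sum_subtype (univ.filter (· ∈ P)) (by simp) fun x => (rc (zpowers x) P : ℝ)⁻¹, sum_filter]
    refine (Fintype.sum_equiv (MulAut.conj g).toEquiv _ _ fun y => ?_).symm
    simp only [MulEquiv.toEquiv_eq_coe, MulEquiv.coe_toEquiv, MulAut.conj_apply, ← cj_zpowers, rc_cj,
      ← zpowers_le]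
  rw [Nat.card_eq_fintype_card (α := G), ← card_univ, ← nsmul_eq_mul, ← sum_const,
    sum_congr rfl fun g _ => e g, sum_comm, Nat.card_eq_fintype_card, Fintype.card_subtype, card_filter,
    Nat.cast_sum]
  refine sum_congr rfl fun y _ => ?_
  rw [← sum_filter, sum_const, ← Fintype.card_subtype, ← Nat.card_eq_fintype_card, nsmul_eq_mul]
  split_ifs with c
  · obtain ⟨k, c⟩ := c
    have := rc_pos (piGrp_zpowers.2 (show PiNat {p} (orderOf y) from c ▸ piNat_pow_self hp k)) s le_rfl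
    rw [mul_inv_cancel₀ (by exact_mod_cast this.ne'), Nat.cast_one]
  · have : IsEmpty {g // cj g (zpowers y) ≤ P} := ⟨fun g => c
      ((piGrp_zpowers.1 (piGrp_cj.1 (s.pi.le g.2))).exists_pow (orderOf_pos y).ne')⟩
    simp


/-- Let G be a finite p-solvable group, P a Sylow p-subgroup of G, u the number of p-elements of G (elements of p-power order, the identity included) and n the number of Sylow p-subgroups of G. Then u/#P ≥ n^((p−1)/p), stated as u^p ≥ #P^p · n^(p−1). -/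
theorem result {G : Type*} [Group G] [Finite G] (p : ℕ) [Fact p.Prime]
    (hG : Cfsg.IsPSolvable p G) (P : Sylow p G) :
    Nat.card (P : Subgroup G) ^ p * Nat.card (Sylow p G) ^ (p - 1) ≤ Nat.card {g : G // ∃ k : ℕ, orderOf g = p ^ k} ^ p := by
  have hp : p.Prime := Fact.out
  have s := syl_sylow_top P
  have := Fintype.ofFinite (P : Subgroup G)
  obtain ⟨n, M, h0, hn, hmono, hnormal, hfac⟩ := hG
  have h : ∀ i, ∏ x : (P : Subgroup G), rc (zpowers x.1) (P ⊔ M i) ^ p ≤ rc (P : Subgroup G) (P ⊔ M i) ^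
      ((p - 1) * Fintype.card (P : Subgroup G)) * Nat.card G ^ Fintype.card (P : Subgroup G) := fun i => by
    induction i using Fin.reverseInduction with
    | last =>
      obtain ⟨q, rfl⟩ := Nat.exists_eq_succ_of_ne_zero hp.ne_zero
      simp only [hn, sup_top_eq, rc, le_top, prod_const, card_univ, Nat.succ_sub_one, Nat.succ_eq_add_one,
        Nat.card_congr (Equiv.subtypeUnivEquiv fun _ : G => trivial)]
      exact le_of_eq (by ring)
    | cast i ih =>
      have l := hmono (Fin.castSucc_lt_succ (i := i)).le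
      rcases hfac i with ⟨m, e⟩ | c
      · rwa [sup_eq_of_pi s l (e ▸ piNat_pow_self hp m)]
      · exact step hp s l ((piNat_compl_single_iff_coprime hp).2 c) ih
  replace h := h 0
  have e : Nat.card G = ♯(𝐍 (P : Subgroup G)) * Nat.card (Sylow p G) :=
    P.card_eq_index_normalizer ▸ (𝐍 (P : Subgroup G)).card_mul_index.symm
  rw [h0, sup_bot_eq, rc_self, e] at h
  have c := count hp s
  rw [e, Nat.cast_mul] at c
  have r := fun x : (P : Subgroup G) => rc_pos (s.pi.elt x.2).zpowers s le_rfl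
  have hR := card_pos' (𝐍 (P : Subgroup G))
  have hN : 0 < Nat.card (Sylow p G) := Nat.card_pos
  rw [Nat.card_eq_fintype_card (α := (P : Subgroup G))]
  have hm : 0 < Fintype.card (P : Subgroup G) := Fintype.card_pos
  generalize Nat.card {g : G // ∃ k : ℕ, orderOf g = p ^ k} = u at c ⊢
  rify at h hR hN hm ⊢
  rw [c]
  have am := Real.geom_mean_le_arith_mean_weighted univ
    (fun _ => (Fintype.card (P : Subgroup G) : ℝ)⁻¹) (fun x : (P : Subgroup G) => (rc (zpowers x.1) P : ℝ)⁻¹)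
    (fun _ _ => by positivity) (by simp) fun _ _ => by positivity
  rw [Real.finsetProd_rpow _ _ (fun _ _ => by positivity), ← mul_sum,
    Real.rpow_inv_le_iff_of_pos (by positivity) (by positivity) hm, Real.rpow_natCast, prod_inv_distrib] at am
  rw [prod_pow] at h
  have r' : (0 : ℝ) < ∏ x : (P : Subgroup G), (rc (zpowers x.1) P : ℝ) :=
    prod_pos fun x _ => by exact_mod_cast r x
  generalize ∏ x : (P : Subgroup G), (rc (zpowers x.1) P : ℝ) = a at *
  have hS : 0 ≤ ∑ x : (P : Subgroup G), (rc (zpowers x.1) P : ℝ)⁻¹ :=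
    sum_nonneg fun _ _ => inv_nonneg.2 (Nat.cast_nonneg _)
  generalize ∑ x : (P : Subgroup G), (rc (zpowers x.1) P : ℝ)⁻¹ = S at *
  generalize (♯(𝐍 (P : Subgroup G)) : ℝ) = R at *
  generalize (Nat.card (Sylow p G) : ℝ) = N at *
  have m' : Fintype.card (P : Subgroup G) ≠ 0 := Fintype.card_ne_zero
  generalize Fintype.card (P : Subgroup G) = m at *
  obtain ⟨q, rfl⟩ := Nat.exists_eq_succ_of_ne_zero hp.ne_zero
  simp only [Nat.succ_sub_one, Nat.succ_eq_add_one] at *
  have h1 : 1 ≤ (((m : ℝ)⁻¹ * S) ^ (q + 1) * (R ^ q * (R * N))) ^ m := by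
    rw [inv_le_iff_one_le_mul₀ r'] at am
    calc (1 : ℝ) ≤ (((m : ℝ)⁻¹ * S) ^ m * a) ^ (q + 1) := one_le_pow₀ am
      _ ≤ (((m : ℝ)⁻¹ * S) ^ m) ^ (q + 1) * (R ^ (q * m) * (R * N) ^ m) := by
        rw [mul_pow _ a]; gcongr
      _ = _ := by ring
  have h2 := (one_le_pow_iff_of_nonneg (by positivity) m').1 h1
  calc _ ≤ (m : ℝ) ^ (q + 1) * N ^ q * (((m : ℝ)⁻¹ * S) ^ (q + 1) * (R ^ q * (R * N))) :=
        le_mul_of_one_le_right (by positivity) h2
    _ = ((m : ℝ) * (m : ℝ)⁻¹) ^ (q + 1) * (R * N * S) ^ (q + 1) := by ring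
    _ = _ := by rw [mul_inv_cancel₀ (by positivity), one_pow, one_mul]

end Cfsg.Agent.S4091
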