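import Mathlib
import Cfsg.Agent.Fgs2.Basic
import Cfsg.Statements.S4092

set_option autoImplicit false
open Cfsg

namespace Cfsg.Agent.S4092

/-- Let G be a finite group, p a prime and P a Sylow p-subgroup of G that is not normal in G. Then G has at least p·#P elements of p-power order (the identity included). -/
theorem result {G : Type*} [Group G] [Finite G] (p : ℕ) [Fact p.Prime]
    (P : Sylow p G) (hP : ¬ (P : Subgroup G).Normal) :
    p * Nat.card (P : Subgroup G) ≤ Nat.card {g : G // ∃ k : ℕ, orderOf g = p ^ k} := by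
  classical
  have hp : p.Prime := Fact.out
  have := Fintype.ofFinite G
  have := Fintype.ofFinite (Sylow p G)
  have hnt : ∃ Q R : Sylow p G, Q ≠ R := by
    by_contra h
    push Not at h
    have : Subsingleton (Sylow p G) := ⟨h⟩
    exact hP P.normal_of_subsingleton
  obtain ⟨⟨Q, R⟩, hQR, hmax⟩ := Finset.exists_max_image
    (Finset.univ.filter fun x : Sylow p G × Sylow p G => x.1 ≠ x.2)
    (fun x => Nat.card ((x.1 : Subgroup G) ⊓ (x.2 : Subgroup G) : Subgroup G))
    (by obtain ⟨Q, R, h⟩ := hnt; exact ⟨(Q, R), by simpa using h⟩)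
  simp only [Finset.mem_filter, Finset.mem_univ, true_and] at hQR hmax
  set D : Subgroup G := (Q : Subgroup G) ⊓ (R : Subgroup G) with hD
  have hDp : IsPGroup p D := Q.2.to_inf_left
  set S : Finset (Sylow p G) := Finset.univ.filter fun T : Sylow p G => D ≤ T with hS
  have hS1 : S.card ≡ 1 [MOD p] := by
    have h1 := hDp.card_modEq_card_fixedPoints (Sylow p G)
    have h2 : Nat.card (MulAction.fixedPoints D (Sylow p G)) = S.card := by
      rw [← Fintype.card_coe, ← Nat.card_eq_fintype_card]
      refine Nat.card_congr (Equiv.subtypeEquivRight fun T => ?_)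
      rw [hDp.sylow_mem_fixedPoints_iff]; simp [hS]
    rw [h2] at h1
    exact h1.symm.trans (card_sylow_modEq_one p G)
  have hS2 : 2 ≤ S.card := by
    refine Finset.one_lt_card.2 ⟨Q, ?_, R, ?_, hQR⟩ <;> simp [hS, hD]
  have hS3 : p + 1 ≤ S.card := by
    have h1 : p ∣ S.card - 1 := (Nat.modEq_iff_dvd' (by omega)).1 hS1.symm
    have := Nat.le_of_dvd (by omega) h1
    omega
  have hcardP : ∀ T : Sylow p G, Nat.card (T : Subgroup G) = Nat.card (P : Subgroup G) := by
    intro T; rw [T.card_eq_multiplicity, P.card_eq_multiplicity]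
  have hinter : ∀ T ∈ S, ∀ U ∈ S, T ≠ U → (T : Subgroup G) ⊓ U = D := by
    intro T hT U hU hne
    simp only [hS, Finset.mem_filter, Finset.mem_univ, true_and] at hT hU
    exact (Subgroup.eq_of_le_of_card_ge (le_inf hT hU) (hmax (T, U) hne)).symm
  have hDlt : p * Nat.card D ≤ Nat.card (P : Subgroup G) := by
    have hlt : D.relIndex (Q : Subgroup G) ≠ 1 := by
      rw [Ne, Subgroup.relIndex_eq_one]
      intro h
      apply hQR
      exact Sylow.ext (Q.3 R.2 (h.trans inf_le_right)).symm
    obtain ⟨k, hk⟩ := Q.2.index (D.subgroupOf Q)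
    have hk' : D.relIndex (Q : Subgroup G) = p ^ k := hk
    have hk0 : k ≠ 0 := by rintro rfl; simp [hk'] at hlt
    rw [← hcardP Q, ← CF.Fgs2.card_mul_relIndex_of_le (inf_le_left : D ≤ Q), hk', mul_comm]
    exact Nat.mul_le_mul_left _ (Nat.le_self_pow hk0 p)
  let A : Sylow p G → Finset G := fun T => Finset.univ.filter fun x => x ∈ T ∧ x ∉ D
  let D' : Finset G := Finset.univ.filter fun x => x ∈ D
  have hA : ∀ T ∈ S, (A T).card + Nat.card D = Nat.card (P : Subgroup G) := by
    intro T hT
    simp only [hS, Finset.mem_filter, Finset.mem_univ, true_and] at hT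
    rw [← hcardP T, Nat.card_eq_fintype_card, Nat.card_eq_fintype_card, Fintype.card_subtype,
      Fintype.card_subtype, ← Finset.card_union_of_disjoint]
    · congr 1
      ext x
      simp only [A, Finset.mem_union, Finset.mem_filter, Finset.mem_univ, true_and]
      constructor
      · rintro (h | h)
        · exact h.1
        · exact hT h
      · intro h
        by_cases hx : x ∈ D
        · exact Or.inr hx
        · exact Or.inl ⟨h, hx⟩
    · rw [Finset.disjoint_left]
      intro x hx hx'
      simp only [A, Finset.mem_filter, Finset.mem_univ, true_and] at hx hx'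
      exact hx.2 hx'
  have hdisj : (S : Set (Sylow p G)).PairwiseDisjoint A := by
    intro T hT U hU hne
    rw [Function.onFun, Finset.disjoint_left]
    intro x hx hx'
    simp only [A, Finset.mem_filter, Finset.mem_univ, true_and] at hx hx'
    apply hx.2
    rw [← hinter T hT U hU hne]
    exact ⟨hx.1, hx'.1⟩
  have hsub : S.biUnion A ∪ D' ⊆ Finset.univ.filter fun g : G => ∃ k : ℕ, orderOf g = p ^ k := by
    intro x hx
    simp only [Finset.mem_union, Finset.mem_biUnion, A, D', Finset.mem_filter, Finset.mem_univ,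
      true_and] at hx ⊢
    rcases hx with ⟨T, -, hx, -⟩ | hx
    · exact CF.Fgs2.orderOf_eq_pow_of_mem T.2 hx
    · exact CF.Fgs2.orderOf_eq_pow_of_mem hDp hx
  have hcard := Finset.card_le_card hsub
  rw [Finset.card_union_of_disjoint, Finset.card_biUnion hdisj] at hcard
  · rw [Nat.card_eq_fintype_card (α := {g : G // ∃ k : ℕ, orderOf g = p ^ k}), Fintype.card_subtype]
    refine le_trans ?_ hcard
    have hD' : D'.card = Nat.card D := by rw [Nat.card_eq_fintype_card, Fintype.card_subtype]
    have hsum : ∑ T ∈ S, (A T).card = S.card * (Nat.card (P : Subgroup G) - Nat.card D) := by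
      rw [Finset.sum_congr rfl (g := fun _ => Nat.card (P : Subgroup G) - Nat.card D)]
      · simp
      · intro T hT; have := hA T hT; omega
    rw [hsum, hD']
    obtain ⟨e, he⟩ := Nat.exists_eq_add_of_le hDlt
    have h2 := hp.two_le
    obtain ⟨s, hs⟩ := Nat.exists_eq_add_of_le hS3
    obtain ⟨r, rfl⟩ := Nat.exists_eq_add_of_le hp.one_le
    rw [he, hs]
    have : (1 + r) * Nat.card D + e - Nat.card D = r * Nat.card D + e := by
      rw [add_mul, one_mul]; omega
    rw [this]
    nlinarith [Nat.zero_le (s * (r * Nat.card D + e)), Nat.zero_le e]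
  · rw [Finset.disjoint_left]
    intro x hx hx'
    simp only [Finset.mem_biUnion, A, D', Finset.mem_filter, Finset.mem_univ, true_and] at hx hx'
    obtain ⟨T, -, -, hx⟩ := hx
    exact hx hx'

end Cfsg.Agent.S4092
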