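import Mathlib
import Cfsg.Agent.Fgs2.Basic
import Cfsg.Statements.S4093

set_option autoImplicit false
open scoped BigOperators
open Cfsg

namespace Cfsg.Agent.S4093

/-- Let G be a finite group with a normal subgroup N complementing a Sylow p-subgroup P (a normal p-complement). Then the number of elements of G of p-power order equals the sum over x ∈ P of the index of C_N(x) in N. -/
theorem result {G : Type*} [Group G] [Finite G] (p : ℕ) [Fact p.Prime]
    (P : Sylow p G) (N : Subgroup G) [N.Normal] (hNP : N.IsComplement' (P : Subgroup G)) :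
    Nat.card {g : G // ∃ k : ℕ, orderOf g = p ^ k} =
      ∑ᶠ x : (P : Subgroup G), Nat.card N / Nat.card ↥(N ⊓ Subgroup.centralizer ({(x : G)} : Set G)) := by
  classical
  have := Fintype.ofFinite (P : Subgroup G)
  rw [finsum_eq_sum_of_fintype]
  have h1 : ∀ x : (P : Subgroup G),
      Nat.card N / Nat.card ↥(N ⊓ Subgroup.centralizer ({(x : G)} : Set G)) =
        Nat.card {y : G // ∃ k ∈ N, k * x * k⁻¹ = y} := by
    intro x
    rw [CF.Fgs2.card_conj_subgroup, inf_comm,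
      ← CF.Fgs2.card_inf_mul_relIndex (Subgroup.centralizer ({(x : G)} : Set G)) N,
      Nat.mul_div_cancel_left _ Nat.card_pos]
  simp_rw [h1]
  rw [← Nat.card_sigma]
  symm
  refine Nat.card_congr (Equiv.ofBijective (fun z => ⟨z.2.1, ?_⟩) ⟨?_, ?_⟩)
  · obtain ⟨x, y, k, hk, rfl⟩ := z
    obtain ⟨j, hj⟩ := CF.Fgs2.orderOf_eq_pow_of_mem P.2 x.2
    exact ⟨j, by rw [CF.Fgs2.orderOf_conj, hj]⟩
  · rintro ⟨x, y, k, hk, rfl⟩ ⟨x', y', k', hk', rfl⟩ h
    have h : k * x * k⁻¹ = k' * x' * k'⁻¹ := congrArg Subtype.val h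
    have hxx : x = x' := by
      have h1 : (x : G) * (x' : G)⁻¹ ∈ N := by
        have : (x : G) * (x' : G)⁻¹ = k⁻¹ * k' * (x' * (k'⁻¹ * k) * (x' : G)⁻¹) := by
          calc (x : G) * (x' : G)⁻¹ = k⁻¹ * (k * x * k⁻¹) * k * (x' : G)⁻¹ := by group
            _ = _ := by rw [h]; group
        rw [this]
        exact N.mul_mem (N.mul_mem (N.inv_mem hk) hk')
          (‹N.Normal›.conj_mem _ (N.mul_mem (N.inv_mem hk') hk) _)
      have h2 : (x : G) * (x' : G)⁻¹ ∈ (P : Subgroup G) := mul_mem x.2 (inv_mem x'.2)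
      have := (Subgroup.disjoint_def.1 hNP.disjoint) h1 h2
      exact Subtype.ext (mul_inv_eq_one.1 this)
    subst hxx
    simp only [Sigma.mk.injEq, heq_eq_eq, true_and]
    exact Subtype.ext h
  · rintro ⟨g, j, hj⟩
    obtain ⟨h, hh⟩ := CF.Fgs2.exists_conj_mem_sylow P hj
    obtain ⟨⟨n, y⟩, hny, -⟩ := hNP.existsUnique h
    simp only at hny
    refine ⟨⟨⟨y * (h⁻¹ * g * h) * (y : G)⁻¹, mul_mem (mul_mem y.2 hh) (inv_mem y.2)⟩,
      ⟨g, n, n.2, ?_⟩⟩, rfl⟩
    subst hny
    simp only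
    group

end Cfsg.Agent.S4093
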