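import Cfsg.Statements.S4096
import Cfsg.Agent.Cmx.B

set_option autoImplicit false
open Cfsg

namespace Cfsg.Agent.S4096

/-- Let G be a finite group and x ∈ G. Suppose there are two distinct primes r and s such that for every g ∈ G the commutator x⁻¹g⁻¹xg is either trivial or has order divisible by r·s. Then x lies in the Fitting subgroup of G (the subgroup generated by all normal nilpotent subgroups). -/
theorem result {G : Type*} [Group G] [Finite G]
    (x : G) (r s : ℕ) (hr : r.Prime) (hs : s.Prime) (hrs : r ≠ s)
    (h : ∀ g : G, (x⁻¹ * g⁻¹ * x * g) = 1 ∨ r * s ∣ orderOf (x⁻¹ * g⁻¹ * x * g)) : x ∈ Cfsg.fittingSubgroup G := by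
  exact CF.Cmx.main _ G rfl x r s hr hs hrs h

end Cfsg.Agent.S4096
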