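import Mathlib
import Cfsg.Statements.S4097
import Cfsg.Agent.BG.B11
import Cfsg.Agent.S0035
import Cfsg.Agent.S0042

set_option autoImplicit false
open Cfsg

namespace Cfsg.Agent.S4097

open Subgroup CF.BG in
theorem step {G : Type*} [Group G] [Finite G] {A : Subgroup G}
    (s : ∀ S, A ≤ S → Sol S → S ≤ 𝐂 A) (sA : Sol A) (ih : ∀ L, L ≠ ⊤ → A ≤ L → L ≤ 𝐂 A) : 𝐂 A = ⊤ := by
  by_contra hM
  have aA := s A le_rfl sA
  have ab : ∀ X, X ⊴ ⊤ → Abel X → ¬ A ≤ X := fun X n a l => hM <| eq_top_iff.2 fun g _ =>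
    s _ (le_sup_of_le_right l) ((abel_zpowers g).sol.sup a.sol (le_top.trans n.norm))
      (mem_sup_left (mem_zpowers g))
  have nm : ∀ g, A ≤ cj g (𝐂 A) → g ∈ 𝐍 (𝐂 A) := fun g l => cj_eq_self.1 <|
    eq_of_le_of_card_ge (ih _ (fun e => hM (by rw [← cj_inv_cj g (𝐂 A), e, cj_top])) l) (card_cj ..).ge
  have sn : 𝐍 (𝐂 A) ≤ 𝐂 A := ih _ (fun e => ab _ ⟨le_top, e.ge.trans (norm_center _)⟩ (center_abel _)
    (le_inf aA (cent_symm le_rfl))) (aA.trans (le_norm_self _))
  have zc : ∀ T, T ⊴ ⊤ → T ≤ 𝐂 A → T ≤ center G := fun T n l => by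
    by_contra k
    have c : 𝐂 T ≠ ⊤ := fun e => k fun x hx => mem_center_iff.2 fun g =>
      (mem_cent.1 (e ▸ mem_top g : g ∈ 𝐂 T) x hx).symm
    exact ab _ ⟨le_top, (norm_cent n.norm).trans (norm_center _)⟩ (center_abel _)
      (le_inf (cent_symm l) (cent_symm (ih _ c (cent_symm l))))
  have ti : ∀ g, g ∉ 𝐂 A → 𝐂 A ⊓ cj g (𝐂 A) ≤ center G := fun g hg => by
    by_cases e : 𝐍 (𝐂 A ⊓ cj g (𝐂 A)) = ⊤
    · exact zc _ ⟨le_top, e.ge⟩ inf_le_left
    have := ih _ e (norm_of_cent (cent_symm inf_le_left))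
    have l : cj g A ≤ 𝐂 A := (norm_of_cent (cent_symm (inf_le_right.trans (cj_cent ..).le))).trans this
    exact (hg (sn (inv_mem_iff.1 (nm _ (cj_le_iff.1 l))))).elim
  have zM : center G ≤ 𝐂 A := center_le_centralizer _
  let f := QuotientGroup.mk' (center G)
  have kf : f.ker = center G := QuotientGroup.ker_mk' _
  have cm : ((𝐂 A).map f).comap f = 𝐂 A := comap_map_eq_self (kf.le.trans zM)
  have F : IsFrobeniusComplement ((𝐂 A).map f) := by
    refine ⟨fun e => hM (eq_top_iff.2 (cent_symm ?_)), fun e => hM (by rw [← cm, e, comap_top]), fun g hg => ?_⟩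
    · rw [Subgroup.map_eq_bot_iff, kf] at e
      exact (aA.trans e).trans (center_le_centralizer _)
    obtain ⟨g, rfl⟩ := QuotientGroup.mk'_surjective _ g
    refine eq_bot_iff.2 (?_ : (𝐂 A).map f ⊓ cj (f g) ((𝐂 A).map f) ≤ ⊥)
    rw [← map_cj]
    rintro _ ⟨⟨a, ha, rfl⟩, b, hb, e⟩
    have z : b⁻¹ * a ∈ center G := QuotientGroup.eq.1 e
    refine (QuotientGroup.eq_one_iff a).2 (ti g (fun k => hg ⟨g, k, rfl⟩) ⟨ha, ?_⟩)
    simpa using mul_mem hb ((cj_cent ..).ge (center_le_centralizer _ z))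
  obtain ⟨K, k1, k2, k3⟩ := S0035.result _ F
  obtain ⟨K', k4, -, k5⟩ := S0042.result _ F
  obtain rfl : K = K' := SetLike.coe_injective (k1.trans k4.symm)
  have sK : Sol (K.comap f) := by
    have : Group.IsSolvable (center G) := Group.isSolvable_of_comm fun a b => mul_comm' a b
    refine Group.isSolvable_of_ker_le_range (inclusion (?_ : center G ≤ K.comap f)) (f.subgroupComap K) ?_
    · exact kf.ge.trans (ker_le_comap f K)
    · exact fun x hx => ⟨⟨x, kf.le (congrArg Subtype.val hx)⟩, rfl⟩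
  have := le_sup_right.trans (s _ le_sup_left (sA.sup sK le_normalizer_of_normal))
  refine F.2.1 (by rw [← k3.sup_eq_top, eq_comm, sup_eq_right, ← comap_le_comap_of_surjective
    (QuotientGroup.mk'_surjective _), cm]; exact this)

open Subgroup CF.BG in
theorem aux.{u} (n : ℕ) : ∀ {G : Type u} [Group G] [Finite G] {A : Subgroup G}, Nat.card G < n →
    (∀ S, A ≤ S → Sol S → S ≤ 𝐂 A) → Sol A → 𝐂 A = ⊤ := by
  induction n with
  | zero => simp
  | succ n ih =>
  intro G _ _ A c s sA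
  refine step s sA fun L hL l x hx => mem_cent.2 fun a ha => ?_
  have := ih (A := A.subgroupOf L) ((card_lt (lt_top_iff_ne_top.2 hL)).trans_le (card_top.trans_le (Nat.lt_succ_iff.1 c))) (fun S h k y hy b hb =>
    Subtype.ext (s _ (by rw [← map_subgroupOf_eq_of_le l]; exact map_mono h) (k.map L.subtype)
      ⟨y, hy, rfl⟩ b hb)) (sA.subgroupOf L)
  exact congrArg Subtype.val (mem_cent.1 (this ▸ mem_top _ : (⟨x, hx⟩ : L) ∈ 𝐂 (A.subgroupOf L)) ⟨a, l ha⟩ ha)

/-- Let A be a solvable subgroup of a finite group G such that A lies in the centre of every solvable subgroup of G containing A. Then A lies in the centre of G. -/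
theorem result {G : Type*} [Group G] [Finite G]
    (A : Subgroup G) (hA : Group.IsSolvable A)
    (hc : ∀ S : Subgroup G, A ≤ S → Group.IsSolvable S → ∀ a ∈ A, ∀ s ∈ S, a * s = s * a) : A ≤ Subgroup.center G := by
  have := aux _ (Nat.lt_succ_self _) (fun S h k x hx a ha => hc S h k a ha x hx) hA
  exact fun a ha => Subgroup.mem_center_iff.2 fun g =>
    (CF.BG.mem_cent.1 (this ▸ Subgroup.mem_top g : g ∈ Subgroup.centralizer (A : Set G)) a ha).symm

end Cfsg.Agent.S4097
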