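import Cfsg.Statements.S4105
import Cfsg.Agent.KPi.C

set_option autoImplicit false
open Cfsg

namespace Cfsg.Agent.S4105

/-- Let G be a finite group, π a set of primes with least member p, m the π-part of the order of G and k the number of conjugacy classes of G consisting of π-elements. If k > m·(p² + p − 1)/p³, then G has an abelian Hall π-subgroup (an abelian subgroup of order m). -/
theorem result {G : Type*} [Group G] [Finite G]
    (π : Set ℕ) (hπ : ∀ q ∈ π, q.Prime) (p : ℕ) (hp : p ∈ π) (hmin : ∀ q ∈ π, p ≤ q)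
    (m : ℕ) (hm : m ∣ Nat.card G) (hmπ : ∀ q : ℕ, q.Prime → q ∣ m → q ∈ π)
    (hm' : ∀ q ∈ π, ¬ q ∣ Nat.card G / m)
    (k : ℕ) (hk : k = Nat.card {C : ConjClasses G // ∀ q : ℕ, q.Prime → (∃ g : G, ConjClasses.mk g = C ∧ q ∣ orderOf g) → q ∈ π})
    (hmany : m * (p ^ 2 + p - 1) < p ^ 3 * k) :
    ∃ H : Subgroup G, Nat.card H = m ∧ IsMulCommutative H := by
  have := Fact.mk (hπ p hp)
  have h0 : m < p * k := by
    have h2 := (hπ p hp).two_le
    refine Nat.lt_of_mul_lt_mul_left (a := p ^ 2) (lt_of_le_of_lt ?_ (hmany.trans_eq (by ring)))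
    rw [mul_comm]
    exact Nat.mul_le_mul_left _ (by omega)
  obtain ⟨H, h1, -, P, h3, h4⟩ := CF.KPi.final π hπ p hp hmin m hm hmπ hm' k hk h0
  have h5 := CF.KPi.comm_of_kp P (h4 _ _ hmany)
  have h6 : commutator (P : Subgroup G) = ⊥ := eq_bot_iff.mpr (Subgroup.commutator_le.mpr
    fun a _ b _ => Subgroup.mem_bot.mpr (commutatorElement_eq_one_iff_mul_comm.mpr (h5.1.1 a b)))
  rw [h6, Subgroup.card_bot] at h3
  have h7 := Subgroup.card_eq_one.mp (le_antisymm h3 Nat.card_pos)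
  exact ⟨H, h1, ⟨⟨fun a b => commutatorElement_eq_one_iff_mul_comm.mp (Subgroup.mem_bot.mp
    (h7 ▸ Subgroup.commutator_mem_commutator (Subgroup.mem_top a) (Subgroup.mem_top b)))⟩⟩⟩

end Cfsg.Agent.S4105
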