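import Mathlib
import Cfsg.Agent.Fgs2.Count
import Cfsg.Statements.S4106

set_option autoImplicit false
open Cfsg

namespace Cfsg.Agent.S4106

/-- Let G be a finite group, π a set of primes and m the π-part of the order of G. Then the number of conjugacy classes of G consisting of π-elements (elements whose order is divisible only by primes in π) is at most m. -/
theorem result {G : Type*} [Group G] [Finite G]
    (π : Set ℕ) (hπ : ∀ q ∈ π, q.Prime)
    (m : ℕ) (hm : m ∣ Nat.card G) (hmπ : ∀ q : ℕ, q.Prime → q ∣ m → q ∈ π)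
    (hm' : ∀ q ∈ π, ¬ q ∣ Nat.card G / m) :
    Nat.card {C : ConjClasses G // ∀ q : ℕ, q.Prime → (∃ g : G, ConjClasses.mk g = C ∧ q ∣ orderOf g) → q ∈ π} ≤ m := by
  have hG : Nat.card G ≠ 0 := Nat.card_pos.ne'
  have hm0 : m ≠ 0 := ne_zero_of_dvd_ne_zero hG hm
  have h := CF.Fgs2.cp_piElts_le_prod m.primeFactors (fun p hp => Nat.prime_of_mem_primeFactors hp) G
  obtain ⟨k, hk⟩ := hm
  have hk' : Nat.card G / m = k := by rw [hk, Nat.mul_div_cancel_left _ (Nat.pos_of_ne_zero hm0)]
  rw [hk'] at hm'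
  have hk0 : k ≠ 0 := by rintro rfl; simp [hk] at hG
  have h1 : CF.Fgs2.piElts (m.primeFactors : Set ℕ) G = CF.Fgs2.piElts π G := by
    ext x
    constructor
    · intro hx q hq hd
      exact hmπ q hq (Nat.dvd_of_mem_primeFactors (hx q hq hd))
    · intro hx q hq hd
      have h2 : q ∣ m * k := hk ▸ hd.trans (orderOf_dvd_natCard x)
      exact Nat.mem_primeFactors.2
        ⟨hq, ((Nat.Prime.dvd_mul hq).1 h2).resolve_right (hm' q (hx q hq hd)), hm0⟩
  have h2 : ∏ p ∈ m.primeFactors, p ^ (Nat.card G).factorization p = m := by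
    conv_rhs => rw [← Nat.prod_factorization_pow_eq_self hm0]
    refine Finset.prod_congr rfl fun p hp => ?_
    rw [hk, Nat.factorization_mul hm0 hk0, Finsupp.add_apply, Nat.factorization_eq_zero_of_not_dvd
      (hm' p (hmπ p (Nat.prime_of_mem_primeFactors hp) (Nat.dvd_of_mem_primeFactors hp))), add_zero]
  rw [h1, h2, ← CF.Fgs2.card_piClasses_mul] at h
  exact Nat.le_of_mul_le_mul_right h Nat.card_pos

end Cfsg.Agent.S4106
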