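import Mathlib
import Cfsg.Agent.Fgs2.Basic
import Cfsg.Agent.Solv.Fitting
import Cfsg.Statements.S4107

set_option autoImplicit false
open Cfsg

namespace Cfsg.Agent.S4107

theorem key {G : Type*} [Group G] [Finite G] (N : Subgroup G) [N.Normal]
    (heq : ∀ x : G, x ∉ N → ∀ n ∈ N, orderOf (x * n) = orderOf x) (p : ℕ) [Fact p.Prime]
    (h : ¬ pCore p G ≤ N) : IsPGroup p N := by
  obtain ⟨x, hx, hxN⟩ := SetLike.not_le_iff_exists.1 h
  rintro ⟨n, hn⟩
  obtain ⟨k, hk⟩ := CF.Fgs2.orderOf_eq_pow_of_mem CF.Solv.pCore_isPGroup hx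
  have h1 : (x * n) ^ p ^ k = 1 := by rw [← hk, ← heq x hxN n hn, pow_orderOf_eq_one]
  have h2 : n ^ p ^ k ∈ pCore p G := by
    rw [← QuotientGroup.eq_one_iff]
    have := congrArg (QuotientGroup.mk' (pCore p G)) h1
    rw [map_pow, map_mul, map_one, QuotientGroup.mk'_apply, (QuotientGroup.eq_one_iff x).2 hx,
      one_mul] at this
    exact this
  obtain ⟨l, hl⟩ := CF.Solv.pCore_isPGroup (p := p) ⟨_, h2⟩
  refine ⟨k + l, Subtype.ext ?_⟩
  have := congrArg Subtype.val hl
  simpa [pow_add, pow_mul] using this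

/-- Let G be a finite group and N a proper non-trivial normal subgroup such that for every x outside N all elements of the coset xN have the same order as x. Then N ≤ F(G) or F(G) ≤ N, where F(G) is the Fitting subgroup; and if N is properly contained in F(G) then F(G) has prime-power order. -/
theorem result {G : Type*} [Group G] [Finite G] (N : Subgroup G) [N.Normal] (hN1 : N ≠ ⊥) (hN2 : N ≠ ⊤)
    (heq : ∀ x : G, x ∉ N → ∀ n ∈ N, orderOf (x * n) = orderOf x) :
    (N ≤ Cfsg.fittingSubgroup G ∨ Cfsg.fittingSubgroup G ≤ N) ∧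
    (N < Cfsg.fittingSubgroup G → IsPrimePow (Nat.card (Cfsg.fittingSubgroup G))) := by
  have main : ¬ fittingSubgroup G ≤ N → ∃ p, p.Prime ∧ IsPGroup p N := by
    intro h
    rw [CF.Solv.fitting_le_iff] at h
    push Not at h
    obtain ⟨p, hp, h⟩ := h
    exact ⟨p, hp.out, key N heq p h⟩
  constructor
  · by_cases h : fittingSubgroup G ≤ N
    · exact Or.inr h
    · obtain ⟨p, hp, hN⟩ := main h
      have := Fact.mk hp
      exact Or.inl ((CF.Solv.le_pCore hN).trans CF.Solv.pCore_le_fitting)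
  · intro hlt
    obtain ⟨p, hp, hN⟩ := main hlt.not_ge
    have := Fact.mk hp
    have h1 : fittingSubgroup G ≤ pCore p G := by
      rw [CF.Solv.fitting_le_iff]
      intro q hq
      by_cases hqp : q = p
      · subst hqp; exact le_rfl
      by_cases h : pCore q G ≤ N
      · exact h.trans (CF.Solv.le_pCore hN)
      · have h2 := key N heq q h
        have := IsPGroup.disjoint_of_ne p q (Ne.symm hqp) N N hN h2
        exact absurd (disjoint_self.1 this) hN1
    have h2 : IsPGroup p (fittingSubgroup G) := CF.Solv.pCore_isPGroup.to_le h1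
    obtain ⟨k, hk⟩ := IsPGroup.iff_card.1 h2
    refine ⟨p, k, hp.prime, Nat.pos_of_ne_zero ?_, hk.symm⟩
    rintro rfl
    rw [pow_zero, Subgroup.card_eq_one] at hk
    rw [hk] at hlt
    exact not_lt_bot hlt

end Cfsg.Agent.S4107
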