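import Mathlib
import Cfsg.Agent.Fgs2.Basic2
import Cfsg.Statements.S4108

set_option autoImplicit false
open Cfsg

namespace Cfsg.Agent.S4108

/-- Let G be a finite group, p a prime and N a proper non-trivial normal p-subgroup such that for every x outside N all elements of the coset xN have the same order as x. Then every non-trivial subgroup H of G of order prime to p acts fixed-point-freely on N: NH is a Frobenius group with complement H and kernel N. -/
theorem result {G : Type*} [Group G] [Finite G] (N : Subgroup G) [N.Normal] (hN1 : N ≠ ⊥) (hN2 : N ≠ ⊤)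
    (heq : ∀ x : G, x ∉ N → ∀ n ∈ N, orderOf (x * n) = orderOf x)
    (p : ℕ) [Fact p.Prime] (hNp : IsPGroup p N) :
    ∀ H : Subgroup G, H ≠ ⊥ → (Nat.card H).Coprime p →
      Cfsg.IsFrobeniusComplement (H.subgroupOf (N ⊔ H)) ∧ Cfsg.frobeniusKernel (H.subgroupOf (N ⊔ H)) = (N.subgroupOf (N ⊔ H) : Set ↥(N ⊔ H)) := by
  intro H hH hc
  have hd : N ⊓ H = ⊥ := CF.Solv.inf_eq_bot_of_isPGroup_of_coprime hNp hc
  refine CF.Fgs2.frobenius_of_fpf_subgroupOf Subgroup.le_normalizer_of_normal hN1 hH hd ?_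
  intro a ha ha1 n hn hcomm
  have haN : a ∉ N := fun h => ha1 (Subgroup.mem_bot.1 (hd ▸ (⟨h, ha⟩ : a ∈ N ⊓ H)))
  have h1 := heq a haN n hn
  obtain ⟨k, hk⟩ := CF.Fgs2.orderOf_eq_pow_of_mem hNp hn
  rw [Commute.orderOf_mul_eq_mul_orderOf_of_coprime hcomm (hk ▸ (Nat.Coprime.coprime_dvd_left
    (Subgroup.orderOf_dvd_natCard _ ha) hc).pow_right k)] at h1
  exact orderOf_eq_one_iff.1 (Nat.eq_of_mul_eq_mul_left (orderOf_pos a) (by rw [h1, mul_one]))

end Cfsg.Agent.S4108
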