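import Mathlib
import Cfsg.Agent.Fgs2.Basic
import Cfsg.Agent.Solv.Frattini
import Cfsg.Agent.Solv.Nilpotent
import Cfsg.Statements.S4112

set_option autoImplicit false
open Cfsg

namespace Cfsg.Agent.S4112

theorem coprime_of_cent {G : Type*} [Group G] [Finite G] (N M : Subgroup G) [N.Normal] [M.Normal]
    (h : ∀ x ∈ M, x ≠ 1 → Subgroup.centralizer ({x} : Set G) ≤ N) :
    N.index.Coprime (Nat.card M) := by
  apply Nat.Coprime.symm
  rw [Nat.coprime_iff_gcd_eq_one]
  by_contra hne
  obtain ⟨p, hp, hpd⟩ := Nat.exists_prime_and_dvd hne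
  have := Fact.mk hp
  have hM := hpd.trans (Nat.gcd_dvd_left _ _)
  have hN := hpd.trans (Nat.gcd_dvd_right _ _)
  obtain ⟨P⟩ : Nonempty (Sylow p G) := inferInstance
  have hPM : M ⊓ (P : Subgroup G) ≠ ⊥ := by
    intro h0
    have h1 := CF.Solv.card_inf_mul_relIndex (P : Subgroup G) M
    rw [inf_comm, h0, Subgroup.card_bot, one_mul] at h1
    exact CF.Solv.not_dvd_relIndex_sylow P M (h1 ▸ hM)
  have : Group.IsNilpotent (P : Subgroup G) := P.isPGroup'.isNilpotent
  have h2 := CF.Solv.inf_centralizer_ne_bot_of_isNilpotent (H := M ⊓ P) (K := P) inf_le_right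
    (by
      intro g hg
      rw [Subgroup.mem_normalizer_iff]
      intro x
      constructor
      · rintro ⟨h1, h2⟩
        exact ⟨Subgroup.Normal.conj_mem inferInstance _ h1 _,
          (P : Subgroup G).mul_mem ((P : Subgroup G).mul_mem hg h2) ((P : Subgroup G).inv_mem hg)⟩
      · rintro ⟨h1, h2⟩
        have h3 := Subgroup.Normal.conj_mem inferInstance _ h1 g⁻¹
        have h4 := (P : Subgroup G).mul_mem ((P : Subgroup G).mul_mem ((P : Subgroup G).inv_mem hg) h2) hg
        simp only [mul_assoc, inv_mul_cancel_left, inv_inv, inv_mul_cancel, mul_one] at h3 h4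
        exact ⟨h3, h4⟩) hPM
  obtain ⟨⟨x, ⟨hx1, hx0⟩, hx2⟩, hx3⟩ := Subgroup.ne_bot_iff_exists_ne_one.1 h2
  have hx4 : x ≠ 1 := fun h => hx3 (Subtype.ext h)
  apply CF.Solv.not_dvd_index_of_sylow_le P _ hN
  refine le_trans ?_ (h x hx1 hx4)
  intro g hg
  rw [Subgroup.mem_centralizer_singleton_iff]
  exact hx2 g hg

/-- Let G be a finite group and M ≤ N non-trivial proper normal subgroups such that for every g outside N the conjugacy class of g is a union of cosets of M (equivalently gm is conjugate to g for every m ∈ M). Then (1) and (2) below are equivalent, and they imply (3): (1) every g outside N acts fixed-point-freely on M, that is C_G(x) ≤ N for every x ∈ M, x ≠ 1; (2) the index of N in G is coprime to the order of M; (3) there is a subgroup H of G with HN = G and H ∩ M = 1. -/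
theorem result {G : Type*} [Group G] [Finite G] (N M : Subgroup G) [N.Normal] [M.Normal] (hMN : M ≤ N) (hM1 : M ≠ ⊥) (hN2 : N ≠ ⊤)
    (hcam : ∀ g : G, g ∉ N → ∀ m ∈ M, ∃ x : G, x * g * x⁻¹ = g * m) :
    ((∀ x ∈ M, x ≠ 1 → Subgroup.centralizer ({x} : Set G) ≤ N) ↔ N.index.Coprime (Nat.card M)) ∧
    ((∀ x ∈ M, x ≠ 1 → Subgroup.centralizer ({x} : Set G) ≤ N) → ∃ H : Subgroup G, H ⊔ N = ⊤ ∧ H ⊓ M = ⊥) := by
  refine ⟨⟨coprime_of_cent N M, fun hc x hx hx1 g hg => ?_⟩, fun h => ?_⟩
  · by_contra hgN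
    obtain ⟨p, hp, hpd⟩ := Nat.exists_prime_and_dvd (mt orderOf_eq_one_iff.1 hx1)
    have := Fact.mk hp
    have hpM : p ∣ Nat.card M := hpd.trans (M.orderOf_dvd_natCard hx)
    have hpN : p.Coprime N.index := (hc.symm.coprime_dvd_left hpM)
    obtain ⟨a, ha, b, hb, hab, -, ⟨k, hk⟩, hb'⟩ := CF.Fgs2.exists_p_decomp p g
    have haN : a ∈ N := CF.Fgs2.mem_of_coprime_index (hk ▸ hpN.pow_left k)
    have hbN : b ∉ N := fun h => hgN (hab ▸ N.mul_mem haN h)
    set y := x ^ (orderOf x / p) with hy
    have hyo : orderOf y = p := orderOf_pow_orderOf_div (orderOf_pos x).ne' hpd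
    have hyM : y ∈ M := M.pow_mem hx _
    obtain ⟨z, hz⟩ := hcam b hbN y hyM
    have hgx : Commute g x := Subgroup.mem_centralizer_singleton_iff.1 hg
    have hby : Commute b y := (CF.Fgs2.commute_of_mem_zpowers hgx hb).pow_right _
    have h1 : orderOf (b * y) = orderOf b * orderOf y :=
      hby.orderOf_mul_eq_mul_orderOf_of_coprime (by
        rw [hyo]; exact ((Nat.Prime.coprime_iff_not_dvd hp).2 hb').symm)
    rw [← hz, CF.Fgs2.orderOf_conj, hyo] at h1
    exact hb' (h1 ▸ Dvd.intro_left _ rfl)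
  · have hc := coprime_of_cent N M h
    obtain ⟨H, hH, hmin⟩ := (wellFounded_lt (α := Subgroup G)).has_min {H | H ⊔ N = ⊤} ⟨⊤, by simp⟩
    refine ⟨H, hH, ?_⟩
    have hfr : N.subgroupOf H ≤ frattini H := by
      rw [CF.Solv.le_frattini_iff_forall_sup]
      intro K hK
      by_contra hne
      apply hmin (K.map H.subtype)
      · show _ = _
        rw [eq_top_iff, ← (show H ⊔ N = ⊤ from hH)]
        refine sup_le ?_ le_sup_right
        have := congrArg (Subgroup.map H.subtype) hK
        rw [Subgroup.map_sup, Subgroup.subgroupOf_map_subtype, ← MonoidHom.range_eq_map,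
          Subgroup.range_subtype] at this
        exact this.ge.trans (sup_le_sup_left inf_le_left _)
      · refine lt_of_le_of_ne (Subgroup.map_subtype_le K) fun h => hne ?_
        apply Subgroup.map_injective H.subtype_injective
        rw [h, ← MonoidHom.range_eq_map, Subgroup.range_subtype]
    rw [← Subgroup.card_eq_one]
    by_contra hne
    obtain ⟨p, hp, hpd⟩ := Nat.exists_prime_and_dvd hne
    have h1 : p ∣ Nat.card H := hpd.trans (Subgroup.card_dvd_of_le inf_le_left)
    have h2 : p ∣ Nat.card M := hpd.trans (Subgroup.card_dvd_of_le inf_le_right)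
    have h3 := (CF.Solv.dvd_index_frattini hp h1).trans (Subgroup.index_dvd_of_le hfr)
    have h4 : p ∣ N.index := h3.trans (Subgroup.relIndex_dvd_index_of_normal N H)
    exact hp.one_lt.ne' (Nat.eq_one_of_dvd_coprimes hc h4 h2)

end Cfsg.Agent.S4112
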