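import Cfsg.Statements.S4115
import Cfsg.Agent.SolvStr.TIHall

set_option autoImplicit false
universe u
open Cfsg

namespace Cfsg.Agent.S4115

/-- Let G be a finite group and H a subgroup that meets each of its conjugates by elements outside N_G(H) trivially and whose order is coprime to its index in N_G(H). Then H has a normal complement in N_G(H) if and only if H has a normal complement in G. Moreover, if H is not normal in G and has a normal complement in N_G(H), then H is isomorphic to a Frobenius complement of some finite Frobenius group. -/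
theorem result {G : Type u} [Group G] [Finite G] (H : Subgroup G)
    (hTI : Cfsg.IsTISubset (H : Set G)) (hHall : (Nat.card H).Coprime (H.subgroupOf (Subgroup.normalizer (H : Set G))).index) :
    ((∃ K : Subgroup (Subgroup.normalizer (H : Set G)), K.Normal ∧ K.IsComplement' (H.subgroupOf (Subgroup.normalizer (H : Set G)))) ↔
      (∃ N : Subgroup G, N.Normal ∧ N.IsComplement' H)) ∧
    (¬ H.Normal → (∃ K : Subgroup (Subgroup.normalizer (H : Set G)), K.Normal ∧ K.IsComplement' (H.subgroupOf (Subgroup.normalizer (H : Set G)))) →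
      ∃ (F : Type u) (_ : Group F) (_ : Finite F) (C : Subgroup F), Cfsg.IsFrobeniusComplement C ∧ Nonempty (H ≃* C)) := by
  open Subgroup CF.Solv CF.SolvStr CF.Transfer in
  have hcop := coprime_index_of_ti hTI hHall
  have hH := isPiHall_of_coprime hcop
  set N := normalizer (H : Set G) with hN
  have hHN : H ≤ N := le_normalizer
  have h1 : (∃ K : Subgroup N, K.Normal ∧ K.IsComplement' (H.subgroupOf N)) →
      ∃ N : Subgroup G, N.Normal ∧ N.IsComplement' H := by
    rintro ⟨K, hK, hc⟩
    set L := K.map N.subtype with hL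
    have hLN : L ≤ N := map_subtype_le _
    have hNL : N ≤ normalizer (L : Set G) := (normal_map_subtype_iff K).1 hK
    have hLH : L ⊔ H = N := by
      rw [← map_subgroupOf_eq_of_le hHN, ← Subgroup.map_sup, hc.sup_eq_top, ← MonoidHom.range_eq_map,
        range_subtype]
    have hcL : (Nat.card L).Coprime (Nat.card H) := by
      rw [hL, card_map_of_injective N.subtype_injective, ← hc.index_eq_card]
      exact hHall.symm
    have hd := inf_eq_bot_of_cop hcL
    have hC : L ≤ centralizer (H : Set G) :=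
      le_centralizer_of_le_normalizer_of_inf_eq_bot hLN (hHN.trans hNL) hd
    obtain ⟨M, hM, -, h2, h3, -⟩ := CF.Char.frobenius_wielandt (H := N) (L := L)
      (fun h hh l hl => conj_mem_of_mem_normalizer (hNL hh) hl) (fun g hg x hx hgx => by
        rw [← hLH] at hx
        obtain ⟨l, hl, h, hh, rfl⟩ := (CF.Solv.mem_sup_of_le_normalizer' (hHN.trans hNL)).1 hx
        have h4 : h ∈ zpowers (l * h) := CF.Fgs2.mem_zpowers_mul_right (hC hl h hh).symm
          (hcL.coprime_dvd_left (L.orderOf_dvd_natCard hl) |>.coprime_dvd_right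
            (H.orderOf_dvd_natCard hh))
        have h5 : g * h * g⁻¹ ∈ N := by
          have := conj_mem_cj (g := g) h4
          rw [cj_zpowers] at this
          exact zpowers_le.2 hgx this
        have h6 := hTI g hg h hh (mem_of_mem_normalizer_hall hH h5 (by
          rw [orderOf_conj']; exact piNum_card_iff_orderOf.1 (isPiHall_piNum_card hH) h hh))
        rwa [h6, mul_one]) hLN
    refine ⟨M, hM, isComplement'_of_inf_eq_bot_of_sup_eq_top ?_ ?_⟩
    · rw [← hd, ← h2, inf_assoc, inf_eq_right.2 hHN]
    · rw [← h3, ← hLH, ← sup_assoc, sup_eq_left.2 (h2 ▸ inf_le_left : L ≤ M)]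
  refine ⟨⟨h1, ?_⟩, fun hnn h => ?_⟩
  · rintro ⟨M, hM, hc⟩
    refine ⟨M.subgroupOf N, inferInstance, isComplement'_of_inf_eq_bot_of_sup_eq_top ?_ ?_⟩
    · rw [← bot_subgroupOf, ← hc.disjoint.eq_bot]; rfl
    · rw [← inf_subgroupOf_right M, ← subgroupOf_sup inf_le_right hHN, subgroupOf_eq_top, sup_comm,
        ← sup_inf_assoc M hHN, sup_comm, hc.sup_eq_top, top_inf_eq]
  obtain ⟨M, hM, hc⟩ := h1 h
  have hcM : (Nat.card H).Coprime (Nat.card M) := by rwa [← hc.index_eq_card]
  have h2 : (centralizer (H : Set G)).relIndex M ≠ 1 := fun e => hnn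
    (normal_of_sup_eq_top hc.sup_eq_top ((relIndex_eq_one.1 e).trans (centralizer_le_normalizer _))
      le_normalizer)
  obtain ⟨q, hq, hqd⟩ := Nat.exists_prime_and_dvd h2
  have := Fact.mk hq
  obtain ⟨Q, hQ⟩ := exists_isSylowIn q M
  have h3 : (M ⊓ normalizer (Q : Set G)).relIndex (normalizer (Q : Set G)) = Nat.card H := by
    rw [inf_relIndex_right, ← hc.symm.index_eq_card]
    refine (CF.Fgs2.forall_exists_mul_iff_relIndex_eq _ _).1 fun g => ?_
    obtain ⟨y, hy, n, hn, e⟩ := hQ.frattini' (h := g) (le_normalizer_of_normal (mem_top g))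
    exact ⟨y, hy, n, hn, e⟩
  obtain ⟨H₁, h4, -, -, h5⟩ := exists_complement_of_coprime
    (inf_le_right : M ⊓ normalizer (Q : Set G) ≤ _)
    (CF.Coprime.le_normalizer_inf le_normalizer_of_normal le_normalizer)
    (h3 ▸ (hcM.coprime_dvd_right (card_dvd_of_le inf_le_left)).symm)
  rw [h3] at h5
  obtain ⟨g, hg⟩ := exists_le_cj_of_ti (K := H₁) hH hTI ((isPiHall_piNum_card hH).of_dvd h5.dvd)
  have h6 : H₁ = cj g H := eq_of_le_of_card_ge hg (by rw [card_cj, h5])
  have hQ' := hQ.cj_of_mem_normalizer (g := g⁻¹) (le_normalizer_of_normal (mem_top _))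
  have h7 : H ≤ normalizer (cj g⁻¹ Q : Set G) := by
    rw [normalizer_cj, ← cj_le_iff, ← h6]; exact h4
  generalize cj g⁻¹ Q = R at hQ' h7
  have := hQ'.isPGroup.isNilpotent
  refine exists_frobenius_of_centralizer h7 (hcM.coprime_dvd_right (card_dvd_of_le hQ'.le))
    (fun e => hQ'.not_dvd (hqd.trans (relIndex_dvd_of_le_left _ e))) fun x hx hx1 y hy => ?_
  refine le_centralizer_of_le_normalizer_of_inf_eq_bot (A := M ⊓ N) inf_le_right
    (CF.Coprime.le_normalizer_inf le_normalizer_of_normal (hHN.trans le_normalizer))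
    (le_bot_iff.1 ((inf_le_inf_right _ inf_le_left).trans hc.disjoint.eq_bot.le))
    ⟨hQ'.le hy.1, ti_mem_normalizer hTI hx hx1 ?_⟩
  rw [← hy.2 x rfl, mul_inv_cancel_right]
  exact hx

end Cfsg.Agent.S4115
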