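import Cfsg.Statements.S4116
import Cfsg.Agent.SolvStr.TIHall

set_option autoImplicit false
open Cfsg

namespace Cfsg.Agent.S4116

/-- Let G be a finite group with a subgroup H whose order is coprime to its index (a Hall subgroup) and which meets each of its conjugates by elements outside N_G(H) trivially. Then every subgroup of G whose order is divisible only by primes dividing the order of H lies in a conjugate of H. -/
theorem result {G : Type*} [Group G] [Finite G] (H : Subgroup G)
    (hHall : (Nat.card H).Coprime H.index) (hTI : Cfsg.IsTISubset (H : Set G))
    (K : Subgroup G) (hK : ∀ q : ℕ, q.Prime → q ∣ Nat.card K → q ∣ Nat.card H) :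
    ∃ g : G, K ≤ H.map (MulAut.conj g).toMonoidHom := by
  exact CF.SolvStr.exists_le_cj_of_ti (CF.Solv.isPiHall_of_coprime hHall) hTI hK

end Cfsg.Agent.S4116
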