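import Cfsg.Statements.S4117
import Cfsg.Agent.Coprime.Misc
import Cfsg.Agent.Solv.CyclicMax
import Mathlib.GroupTheory.SpecificGroups.ZGroup

set_option autoImplicit false
open Cfsg

namespace Cfsg.Agent.S4117

open Subgroup CF.Coprime CF.Solv in
theorem aux {X : Type*} [Group X] [Finite X] (A K : Subgroup X) [IsZGroup K]
    (hAK : A ≤ normalizer (K : Set X)) (hcop : (Nat.card A).Coprime (Nat.card K)) :
    (Nat.card (K ⊓ centralizer (A : Set X) : Subgroup X)).Coprime
      ((K ⊓ centralizer (A : Set X)).relIndex K) ∧ IsCyclic (⁅K, A⁆ : Subgroup X) ∧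
      (K ⊓ centralizer (A : Set X)) ⊓ ⁅K, A⁆ = ⊥ := by
  have hs : Group.IsSolvable A ∨ Group.IsSolvable K := Or.inr inferInstance
  have hle := commutator_le_of_le_normalizer hAK
  have hZ : ∀ H ≤ K, IsZGroup H := fun H hH =>
    IsZGroup.of_injective (inclusion_injective hH)
  have h1 : IsCyclic (⁅K, A⁆ : Subgroup X) := by
    set H := ⁅K, A⁆ with hH
    have := hZ H hle
    have hc : IsCyclic (⁅H, H⁆ : Subgroup X) := by
      rw [← map_subtype_commutator]
      have := IsZGroup.isCyclic_commutator H
      exact isCyclic_of_surjective _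
        ((_root_.commutator H).equivMapOfInjective _ H.subtype_injective).surjective
    have hAH : A ≤ normalizer (H : Set X) := normalizer_commutator_ge_right K A
    have h2 : ⁅H, A⁆ ≤ centralizer ((⁅H, H⁆ : Subgroup X) : Set X) := by
      let L := normalizer ((⁅H, H⁆ : Subgroup X) : Set X)
      have : IsCyclic ((⁅H, H⁆ : Subgroup X).subgroupOf L) :=
        isCyclic_of_surjective _ (subgroupOfEquivOfLe le_normalizer).symm.surjective
      have h3 := commutator_le_centralizer_of_cyclic ((⁅H, H⁆ : Subgroup X).subgroupOf L)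
      rw [commutator_le]
      intro x hx a ha y hy
      exact congrArg Subtype.val (h3 (commutator_mem_commutator
        (mem_top (⟨x, le_normalizer_commutator le_normalizer le_normalizer hx⟩ : L))
        (mem_top (⟨a, le_normalizer_commutator hAH hAH ha⟩ : L))) ⟨y, le_normalizer hy⟩ hy)
    rw [commutator_commutator_eq A K hAK hcop hs] at h2
    have := isNilpotent_of_commutator_le_centralizer (le_centralizer_iff.mp h2)
    infer_instance
  refine ⟨?_, h1, ?_⟩
  · refine Nat.coprime_of_dvd fun p hp h2 h3 => ?_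
    have := Fact.mk hp
    obtain ⟨P, hP, hAP⟩ := exists_invariant_isSylowOf A K hAK hcop hs p
    have := hZ P hP.le
    have : IsCyclic P := by
      have h0 : IsPGroup p (⊤ : Subgroup P) := hP.isPGroup.to_subgroup ⊤
      have := h0.isCyclic_of_isZGroup
      exact isCyclic_of_surjective _ (topEquiv (G := P)).surjective
    have h4 := (IsSylowOf.inf_centralizer A K hAK hcop hs p hP hAP).ne_bot h2
    have h5 : A ≤ centralizer (P : Set X) := le_centralizer_of_abelian_of_prime_order A P hAP
      (coprime_of_le hcop le_rfl hP.le) fun v hv hv' => by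
        have h6 : zpowers v ≤ P :=
          zpowers_le_of_mem (commutator_le_of_le_normalizer hAP hv)
        have h7 : orderOf v = p := by
          obtain ⟨k, hk⟩ := IsPGroup.iff_card.mp hP.isPGroup
          have := card_dvd_of_le h6
          rw [Nat.card_zpowers, hk] at this
          exact (Nat.prime_dvd_prime_iff_eq hv' hp).mp (hv'.dvd_of_dvd_pow this)
        exact (CF.Fgs2.le_of_card_dvd_of_isCyclic h6 inf_le_left (by
          rw [Nat.card_zpowers, h7]
          exact CF.Fgs1.dvd_card_of_ne_bot (hP.isPGroup.to_le inf_le_left) h4)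
          (mem_zpowers v)).2
    exact hP.not_dvd (h3.trans (relIndex_dvd_of_le_left K
      (le_inf hP.le (le_centralizer_iff.mp h5))))
  · rw [eq_bot_iff, ← inf_centralizer_inf_commutator_eq_bot A ⁅K, A⁆
      (normalizer_commutator_ge_right K A) (coprime_of_le hcop le_rfl hle),
      commutator_commutator_eq A K hAK hcop hs]
    exact le_inf (le_inf inf_le_right (inf_le_left.trans inf_le_right)) inf_le_right


/-- Let A be a finite group acting on the finite group G by automorphisms with the orders of A and G coprime, and suppose every Sylow subgroup of G is cyclic. Then the fixed-point subgroup C_G(A) is a Hall subgroup of G (its order is coprime to its index), the subgroup [G, A] generated by the elements g⁻¹·a(g) is cyclic and normal with [G, A] ∩ C_G(A) = 1 and [G, A]·C_G(A) = G. -/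
theorem result {G A : Type*} [Group G] [Finite G] [Group A] [Finite A]
    [MulDistribMulAction A G] (hcop : (Nat.card A).Coprime (Nat.card G))
    (hcyc : ∀ (p : ℕ) [Fact p.Prime] (P : Sylow p G), IsCyclic (P : Subgroup G)) :
    (Nat.card (MulAction.fixedPoints A G : Set G)).Coprime (Nat.card G / Nat.card (MulAction.fixedPoints A G : Set G)) ∧
    IsCyclic (Subgroup.closure {y : G | ∃ (a : A) (g : G), y = g⁻¹ * a • g}) ∧
    (Subgroup.closure {y : G | ∃ (a : A) (g : G), y = g⁻¹ * a • g}).Normal ∧
    (Subgroup.closure {y : G | ∃ (a : A) (g : G), y = g⁻¹ * a • g} : Set G) ∩ MulAction.fixedPoints A G = {1} ∧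
    Subgroup.closure {y : G | ∃ (a : A) (g : G), y = g⁻¹ * a • g} ⊔ Subgroup.closure (MulAction.fixedPoints A G) = ⊤ := by
  let φ := MulDistribMulAction.toMulAut A G
  have hZ : IsZGroup G := ⟨fun p hp P => by have := Fact.mk hp; exact hcyc p P⟩
  have : IsZGroup (CF.Coprime.sdL φ ⊤) := IsZGroup.of_injective
    (f := (CF.Coprime.sdLEquiv φ ⊤).symm.toMonoidHom) (CF.Coprime.sdLEquiv φ ⊤).symm.injective
  have hc := CF.Coprime.coprime_sub hcop ⊤ ⊤
  obtain ⟨h1, h2, h3⟩ := aux (CF.Coprime.sdR φ ⊤) (CF.Coprime.sdL φ ⊤)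
    Subgroup.le_normalizer_of_normal (CF.Coprime.sd_coprime φ hc)
  rw [CF.Coprime.sdL_inf_centralizer, top_inf_eq] at h1 h3
  rw [CF.Coprime.card_sdL, CF.Coprime.relIndex_sdL, Subgroup.relIndex_top_right] at h1
  rw [CF.Coprime.commutator_sdL_sdR] at h2 h3
  rw [CF.Coprime.isCyclic_sdL_iff] at h2
  rw [← CF.Coprime.sdL_inf, CF.Coprime.sdL_eq_bot_iff] at h3
  have h4 := CF.Coprime.act_commSub_sup_fixSub φ (CF.Coprime.inv_top φ ⊤) hc
    (Or.inr inferInstance)
  have h5 : MulAction.fixedPoints A G = CF.Coprime.fixSub φ ⊤ := by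
    ext x
    exact (CF.Coprime.mem_fixSub_top φ).symm
  have h6 : Subgroup.closure {y : G | ∃ (a : A) (g : G), y = g⁻¹ * a • g} =
      CF.Coprime.commSub φ ⊤ ⊤ := (CF.Coprime.commSub_top_top φ).symm
  rw [h5, h6, Subgroup.closure_eq]
  refine ⟨?_, h2, inferInstance, ?_, by simpa using h4⟩
  · have h7 := (CF.Coprime.fixSub φ ⊤).card_mul_index
    have h8 : Nat.card G / Nat.card (CF.Coprime.fixSub φ ⊤) = (CF.Coprime.fixSub φ ⊤).index := by
      rw [← h7, Nat.mul_div_cancel_left _ Nat.card_pos]
    exact h8 ▸ h1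
  · rw [← Subgroup.coe_inf, inf_comm, h3, Subgroup.coe_bot]

end Cfsg.Agent.S4117
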