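import Mathlib
import Cfsg.Statements.S4118
import Cfsg.Agent.S4115
import Cfsg.Agent.Hyp.FTProof
import Cfsg.Agent.Classical.MaxL2
import Cfsg.Agent.Fgs1.FPF7
import Cfsg.Agent.Fgs1.ClassSize
import Cfsg.Agent.Solv.CyclicMax

set_option autoImplicit false
open Cfsg

namespace Cfsg.Agent.S4118

open Subgroup CF.Fgs1 CF.Fgs1.Fpf CF.Solv CF.SolvStr CF.Transfer
open scoped commutatorElement

theorem aux {X : Type*} [Group X] [Finite X] (H : Subgroup X) [H.Normal] [IsZGroup H]
    (hcop : (Nat.card H).Coprime H.index) (R : Subgroup X) [R.Normal] (hR : ⁅R, R⁆ = R) :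
    (Nat.card R).Coprime (Nat.card H) := by
  have hRc : R ≤ commutator X := hR ▸ commutator_mono le_top le_top
  let D := ⁅H, H⁆
  have hD : D = (commutator H).map H.subtype := by
    rw [_root_.commutator_def, map_commutator, ← MonoidHom.range_eq_map, range_subtype]
  haveI : IsCyclic D := by
    rw [hD]
    haveI := IsZGroup.isCyclic_commutator H
    exact isCyclic_of_surjective _ (MonoidHom.subgroupMap_surjective _ _)
  haveI : IsCyclic (H.map (QuotientGroup.mk' D)) := by
    haveI : IsCyclic (H ⧸ commutator H) := IsZGroup.isCyclic_abelianization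
    refine isCyclic_of_surjective (QuotientGroup.lift (commutator H)
      ((QuotientGroup.mk' D).subgroupMap H) fun x hx => Subtype.ext
        ((QuotientGroup.eq_one_iff _).mpr (hD ▸ mem_map_of_mem _ hx))) fun y => ?_
    obtain ⟨x, rfl⟩ := MonoidHom.subgroupMap_surjective _ _ y
    exact ⟨x, rfl⟩
  haveI : (H.map (QuotientGroup.mk' D)).Normal :=
    Normal.map inferInstance _ (QuotientGroup.mk'_surjective D)
  have h1 : ⁅H, R⁆ ≤ D := by
    rw [← QuotientGroup.ker_mk' D, ← Subgroup.map_eq_bot_iff, map_commutator, commutator_comm,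
      commutator_eq_bot_iff_le_centralizer]
    refine le_trans ?_ (commutator_le_centralizer_of_cyclic _)
    rw [← hR, map_commutator]
    exact commutator_mono le_top le_top
  have h2 : ⁅⁅H, R⁆, R⁆ = ⊥ := by
    rw [eq_bot_iff]
    refine (commutator_mono h1 le_rfl).trans (le_of_eq ?_)
    rw [commutator_comm, commutator_eq_bot_iff_le_centralizer]
    exact hRc.trans (commutator_le_centralizer_of_cyclic _)
  have h3 : R ≤ centralizer (H : Set X) := by
    rw [← commutator_eq_bot_iff_le_centralizer, ← hR]
    exact commutator_commutator_eq_bot_of_rotate (by rwa [commutator_comm R H]) h2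
  have h4 : (R ⊓ H).relIndex R ∣ H.index := by
    rw [inf_relIndex_left]; exact relIndex_dvd_index_of_normal _ _
  obtain ⟨A, hA, -, h5, h6⟩ := exists_complement_of_coprime (inf_le_left : R ⊓ H ≤ R)
    le_normalizer_of_normal
    ((hcop.coprime_dvd_left (card_dvd_of_le inf_le_right)).coprime_dvd_right h4)
  have h7 : R ≤ A := by
    rw [← hR, commutator_le]
    intro x hx y hy
    obtain ⟨z, hz, a, ha, rfl⟩ := (CF.Solv.mem_sup_of_le_normalizer'
      le_normalizer_of_normal).mp (h5.ge hx)
    obtain ⟨w, hw, b, hb, rfl⟩ := (CF.Solv.mem_sup_of_le_normalizer'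
      le_normalizer_of_normal).mp (h5.ge hy)
    have e1 := h3 hy z hz.2
    have e2 := h3 (hA ha) w hw.2
    have e3 := h3 (hA ha) z hz.2
    have e4 := h3 (hA hb) w hw.2
    have : ⁅z * a, w * b⁆ = ⁅a, b⁆ := by
      calc ⁅z * a, w * b⁆ = z * a * (z⁻¹ * (z * (w * b))) * a⁻¹ * z⁻¹ * (w * b)⁻¹ := by
            rw [commutatorElement_def]; group
        _ = (z * a) * z⁻¹ * (w * b) * (z * a⁻¹ * z⁻¹) * (w * b)⁻¹ := by rw [e1]; group
        _ = (a * w) * b * a⁻¹ * (w * b)⁻¹ := by
            rw [e3, ← inv_inv (z * a⁻¹ * z⁻¹), show (z * a⁻¹ * z⁻¹)⁻¹ = z * a * z⁻¹ by group, e3]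
            group
        _ = w * ⁅a, b⁆ * w⁻¹ := by rw [← e2, commutatorElement_def]; group
        _ = _ := by
            rw [h3 ((commutator_le_left R R) (commutator_mem_commutator (hA ha) (hA hb))) w hw.2]
            group
    rw [this]
    exact mul_mem (mul_mem (mul_mem ha hb) (inv_mem ha)) (inv_mem hb)
  rw [le_antisymm h7 hA, h6]
  exact (hcop.coprime_dvd_right h4).symm


/-- Let G be a finite group and H a non-normal subgroup meeting each of its conjugates by elements outside N_G(H) trivially, with the order of H coprime to its index in N_G(H); let π be the set of primes dividing the order of H and suppose G is π-separable (it has a chain of normal subgroups from 1 to G each of whose factors has order divisible only by primes in π or coprime to the order of H). Let O be the largest normal subgroup of G of order coprime to the order of H. Then G = O·N_G(H), O·H is normal in G, and G is solvable if and only if O is solvable and H has no subgroup isomorphic to SL₂(5). -/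
theorem result {G : Type*} [Group G] [Finite G] (H : Subgroup G)
    (hTI : Cfsg.IsTISubset (H : Set G)) (hnn : ¬ H.Normal)
    (hHall : (Nat.card H).Coprime (H.subgroupOf (Subgroup.normalizer (H : Set G))).index)
    (hsep : ∃ (n : ℕ) (M : Fin (n + 1) → Subgroup G), M 0 = ⊥ ∧ M (Fin.last n) = ⊤ ∧ Monotone M ∧ (∀ i, (M i).Normal) ∧
      ∀ i : Fin n, (∀ q : ℕ, q.Prime → q ∣ (M i.castSucc).relIndex (M i.succ) → q ∣ Nat.card H) ∨
        ((M i.castSucc).relIndex (M i.succ)).Coprime (Nat.card H))
    (O : Subgroup G) (hO : O = sSup {K : Subgroup G | K.Normal ∧ (Nat.card K).Coprime (Nat.card H)}) :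
    O ⊔ Subgroup.normalizer (H : Set G) = ⊤ ∧ (O ⊔ H).Normal ∧
    (Group.IsSolvable G ↔ Group.IsSolvable O ∧
      ∀ K : Subgroup G, K ≤ H → ¬ Nonempty (K ≃* Matrix.SpecialLinearGroup (Fin 2) (ZMod 5))) := by
  have hcop := coprime_index_of_ti hTI hHall
  have hO' : O = piCore {q | q ∣ Nat.card H}ᶜ G := by
    rw [hO, piCore]; congr; ext K; exact and_congr_right fun _ => piNum_compl_setOf_dvd_iff.symm
  have hle : ∀ K : Subgroup G, K.Normal → (Nat.card K).Coprime (Nat.card H) → K ≤ O :=
    fun K h1 h2 => hO ▸ le_sSup ⟨h1, h2⟩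
  haveI : O.Normal := hO' ▸ inferInstance
  have hOc : (Nat.card O).Coprime (Nat.card H) :=
    piNum_compl_setOf_dvd_iff.mp (hO' ▸ piCore_piNum)
  have h1 : O ⊔ normalizer (H : Set G) = ⊤ := by
    obtain ⟨n, M, h0, hl, hm, hn, hs⟩ := hsep
    by_contra hne
    have key : ∀ i, M i ≤ O := fun i => by
      induction i using Fin.induction with
      | zero => exact h0 ▸ bot_le
      | succ i ih =>
        haveI := hn i.succ
        haveI := hn i.castSucc
        have hi : M i.castSucc ≤ M i.succ := hm (Fin.castSucc_lt_succ (i := i)).le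
        rcases hs i with h | h
        · by_contra hK
          obtain ⟨p, hp, hpd⟩ := Nat.exists_prime_and_dvd
            (fun e => hK ((relIndex_eq_one.mp e).trans ih) : (M i.castSucc).relIndex (M i.succ) ≠ 1)
          haveI := Fact.mk hp
          obtain ⟨S, hS⟩ := exists_isSylowIn p H
          have hS' : IsSylowIn p S ⊤ := hS.trans_of_not_dvd le_top fun hd =>
            hp.one_lt.ne' (Nat.eq_one_of_dvd_coprimes hcop (h p hp hpd) (by simpa using hd))
          have hP := hS'.inf_of_normalized (N := M i.succ) le_top le_normalizer_of_normal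
          obtain ⟨x, hx1⟩ := ne_bot_iff_exists_ne_one.mp fun e => hP.eq_bot_iff.mp e
            (hpd.trans (relIndex_dvd_card _ _))
          have hKO : M i.succ ≤ O ⊔ H := by
            refine le_trans (relIndex_eq_one.mp ?_) (sup_le_sup_right ih H)
            refine PiNum.eq_one (π := {q | q ∣ Nat.card H}) (PiNum.of_dvd h
              (relIndex_dvd_of_le_left _ le_sup_left)) (piNum_compl_setOf_dvd_iff.mpr ?_)
            exact (hcop.coprime_dvd_right ((relIndex_dvd_index_of_normal_right _ _).trans
              (index_dvd_of_le le_sup_right))).symm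
          refine hne (eq_top_iff.mpr fun g _ => ?_)
          obtain ⟨k, hk, y, hy, rfl⟩ := hP.frattini (h := g) (le_normalizer_of_normal (mem_top g))
          refine mul_mem (sup_le_sup_left le_normalizer O (hKO hk)) (mem_sup_right ?_)
          exact ti_mem_normalizer hTI (hS.le x.2.1) (fun e => hx1 (Subtype.ext e))
            (hS.le (CF.Transfer.conj_mem_of_mem_normalizer hy x.2).1)
        · refine hle _ inferInstance ?_
          rw [← CF.Transfer.card_mul_relIndex hi]
          exact (hOc.coprime_dvd_left (card_dvd_of_le ih)).mul_left h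
    exact hne (eq_top_iff.mpr (hl ▸ (key _).trans le_sup_left))
  refine ⟨h1, normal_of_sup_eq_top h1 (le_sup_left.trans le_normalizer)
    (CF.Coprime.le_normalizer_sup le_normalizer_of_normal le_rfl), fun _ => ⟨inferInstance, ?_⟩, ?_⟩
  · rintro K - ⟨e⟩
    obtain ⟨z, π, hD⟩ := exists_dc_of_equiv e
    exact CF.Classical.not_isSolvable_A5 (Group.isSolvable_of_surjective hD.surj)
  rintro ⟨_, hK⟩
  have hF : FPF H := by
    have e := subgroupOf_normalizer_eq (le_sup_right : H ≤ O ⊔ H)
    have hT : IsTISubset (H.subgroupOf (O ⊔ H) : Set (O ⊔ H : Subgroup G)) := fun g hg x hx h =>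
      Subtype.ext (hTI g (fun h' => hg (e ▸ h')) x hx h)
    have hc : Nat.card (H.subgroupOf (O ⊔ H)) = Nat.card H :=
      Nat.card_congr (subgroupOfEquivOfLe le_sup_right).toEquiv
    obtain ⟨h2, h3⟩ := S4115.result (H.subgroupOf (O ⊔ H)) hT (by
      rw [hc]
      exact hcop.coprime_dvd_right ((relIndex_dvd_index_of_le le_normalizer).trans
        (relIndex_dvd_index_of_le le_sup_right)))
    refine (fpf_of_fc (h3 (fun h => hnn ?_) (h2.mpr ⟨O.subgroupOf _, inferInstance,
      isComplement'_of_inf_eq_bot_of_sup_eq_top ?_ ?_⟩))).of_equiv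
      (subgroupOfEquivOfLe le_sup_right).symm
    · exact normal_of_sup_eq_top h1 (le_sup_left.trans
        ((normal_subgroupOf_iff_le_normalizer le_sup_right).mp h)) le_rfl
    · rw [← bot_subgroupOf, ← inf_eq_bot_of_cop hOc]; rfl
    · rw [← subgroupOf_sup le_sup_left le_sup_right, subgroupOf_self]
  haveI : Group.IsSolvable H := by
    by_contra hs
    obtain ⟨L, -, -, -, -, ⟨e⟩, -⟩ := hF.nonsolvable hs
    exact hK _ (map_subtype_le L) ⟨(L.equivMapOfInjective _ H.subtype_injective).symm.trans e⟩
  set N := normalizer (H : Set G) with hN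
  have eH : H.subgroupOf N ≃* H := subgroupOfEquivOfLe le_normalizer
  haveI : Group.IsSolvable N := by
    rcases (Nat.card H).even_or_odd with h | h
    · haveI : Group.IsSolvable (N ⧸ H.subgroupOf N) := CF.Hyp.isSolvable_of_odd
        (Nat.coprime_two_left.mp (hHall.coprime_dvd_left h.two_dvd))
      haveI := Group.isSolvable_of_isSolvable_injective (f := eH.toMonoidHom) eH.injective
      exact isSolvable_of_normal_of_quotient (H.subgroupOf N)
    · by_contra hs
      obtain ⟨R, _, hR1, hR, -⟩ := exists_perfect_normal hs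
      haveI : IsZGroup (⊤ : Subgroup H) := hF.isZGroup_of_odd (by rwa [card_top])
      haveI : IsZGroup (H.subgroupOf N) := IsZGroup.of_injective
        (f := (eH.trans topEquiv.symm).toMonoidHom) (eH.trans topEquiv.symm).injective
      have h2 := aux (H.subgroupOf N) (by rwa [Nat.card_congr eH.toEquiv]) R hR
      rw [Nat.card_congr eH.toEquiv, ← card_map_of_injective N.subtype_injective] at h2
      have h3 : R.map N.subtype ≤ O := le_sup_left.trans (hle (R.map N.subtype ⊔ O)
        (normal_of_sup_eq_top h1 (le_sup_right.trans le_normalizer)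
          (CF.Coprime.le_normalizer_sup ((normal_map_subtype_iff R).mp ‹_›) le_normalizer_of_normal))
        (piNum_compl_setOf_dvd_iff.mp (piNum_card_sup (piNum_compl_setOf_dvd_iff.mpr h2)
          (piNum_compl_setOf_dvd_iff.mpr hOc))))
      haveI := CF.Solv.isSolvable_of_le h3
      haveI : Group.IsSolvable R := Group.isSolvable_of_isSolvable_injective
        (f := (R.equivMapOfInjective _ N.subtype_injective).toMonoidHom) (MulEquiv.injective _)
      haveI := (nontrivial_iff_ne_bot R).mpr hR1
      exact (Group.IsSolvable.commutator_lt_top_of_nontrivial R).ne (commutator_eq_top_of_eq hR)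
  haveI := CF.Solv.isSolvable_sup N O
  exact Group.isSolvable_of_surjective (f := (N ⊔ O).subtype) fun g =>
    ⟨⟨g, by rw [sup_comm, h1]; trivial⟩, rfl⟩

end Cfsg.Agent.S4118
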