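import Cfsg.Statements.S4120
import Cfsg.Agent.FrobNil.D

set_option autoImplicit false
open Cfsg

namespace Cfsg.Agent.S4120

/-- Let the finite group A act faithfully on the finite group G by automorphisms, and suppose A is a Frobenius group with kernel F and complement H such that F fixes only the identity of G. If the fixed-point subgroup C_G(H) is nilpotent, then G is nilpotent. -/
theorem result {G A : Type*} [Group G] [Finite G] [Group A] [Finite A] [MulDistribMulAction A G] [FaithfulSMul A G]
    (Fk Hc : Subgroup A) [Fk.Normal] (hHc : Cfsg.IsFrobeniusComplement Hc) (hker : Cfsg.frobeniusKernel Hc = (Fk : Set A))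
    (hCF : ∀ g : G, (∀ f ∈ Fk, f • g = g) → g = 1) (hnil : Group.IsNilpotent (Subgroup.closure {g : G | ∀ h ∈ Hc, h • g = g})) : Group.IsNilpotent G := by
  let φ := MulDistribMulAction.toMulAut A G
  have hs : CF.Coprime.SemiReg Hc Fk := CF.Coprime.frob_semiReg hHc (by
    rw [eq_bot_iff]
    intro x hx
    have h1 : x ∈ Cfsg.frobeniusKernel Hc := hker ▸ hx.1
    rcases CF.Coprime.mem_frobeniusKernel_iff.1 h1 with h | h
    · exact h
    · exact (h 1 (by simpa using hx.2)).elim)
  have hF := hs.isNilpotent Subgroup.le_normalizer_of_normal hHc.1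
  have h : CF.FrobNil.Hyp (CF.Coprime.sdL φ ⊤) (CF.Coprime.sdR φ Fk) (CF.Coprime.sdR φ Hc) := by
    refine ⟨Subgroup.le_normalizer_of_normal, Subgroup.le_normalizer_of_normal,
      (Subgroup.map_mono Subgroup.le_normalizer_of_normal).trans (Subgroup.le_normalizer_map _),
      CF.Solv.isNilpotent_map _ _, hs.map _ Subgroup.le_normalizer_of_normal, ?_, ?_⟩
    · rw [CF.Coprime.sdL_inf_centralizer, CF.Coprime.sdL_eq_bot_iff, eq_bot_iff]
      exact fun g hg => hCF g hg.2
    · rw [CF.Coprime.sdL_inf_centralizer, CF.Coprime.isNilpotent_sdL_iff]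
      exact CF.Solv.isNilpotent_of_le (K := Subgroup.closure {g : G | ∀ h ∈ Hc, h • g = g})
        fun g hg => Subgroup.subset_closure hg.2
  have h2 := h.isNilpotent
  rw [CF.Coprime.isNilpotent_sdL_iff] at h2
  exact Group.nilpotent_of_mulEquiv Subgroup.topEquiv

end Cfsg.Agent.S4120
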