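import Cfsg.Statements.S4130
import Cfsg.Agent.Fgs3.SqFree
import Cfsg.Agent.SolvStr.Super

set_option autoImplicit false
open Cfsg

namespace Cfsg.Agent.S4130

open CF.BG CF.Fgs3 Subgroup
open scoped commutatorElement

/-- Let G be a finite group all of whose conjugacy class sizes are square-free. Then G is supersolvable, G/F(G) and the derived subgroup G′ are cyclic of square-free order (F(G) the Fitting subgroup, which is normal), F(G) has nilpotency class at most 2, and G is metabelian. -/
theorem result {G : Type*} [Group G] [Finite G]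
    (h : ∀ x : G, Squarefree (Subgroup.centralizer ({x} : Set G)).index) :
    Cfsg.IsSupersolvable G ∧ (Cfsg.fittingSubgroup G).Normal ∧
    (∀ _h : (Cfsg.fittingSubgroup G).Normal, IsCyclic (G ⧸ Cfsg.fittingSubgroup G) ∧ Squarefree (Cfsg.fittingSubgroup G).index) ∧
    IsCyclic (commutator G) ∧ Squarefree (Nat.card (commutator G)) ∧
    Subgroup.upperCentralSeries ↥(Cfsg.fittingSubgroup G) 2 = ⊤ ∧ commutator ↥(commutator G) = ⊥ := by
  have h' : ∀ q : ℕ, q.Prime → ∀ x ∈ (⊤ : Subgroup G), ¬ q ^ 2 ∣ (𝐂₁ x).relIndex ⊤ := by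
    intro q hq x _ hd
    rw [relIndex_top_right, pow_two] at hd
    exact hq.one_lt.ne' (Nat.isUnit_iff.1 (h x q hd))
  have hs : Group.IsSolvable G := solvable_of_no_four G fun x hd =>
    h' 2 Nat.prime_two x trivial (by rwa [relIndex_top_right])
  have s : Sol (⊤ : Subgroup G) := inferInstance
  have hF := der_le_F_of_class s h'
  have hl := fun p hp => logn_der_le_of_class (p := p) s h' hp
  rw [← _root_.commutator_def] at hF hl
  set D := _root_.commutator G with hD
  have nD : D ⊴ ⊤ := normalIn_top.2 inferInstance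
  have hsq : Squarefree (♯D) := by
    rw [Nat.squarefree_iff_factorization_le_one (card_ne_zero' D)]
    intro p
    by_cases hp : p.Prime
    · exact hl p hp
    · rw [Nat.factorization_eq_zero_of_not_prime _ hp]; exact zero_le_one
  have hnil : Nil D := nil_of_le_F hF
  have hc : Cyc D := ZGrp.cyc_of_nil (IsZGroup.of_squarefree hsq) hnil
  have hFC : D ≤ 𝐂 (𝐅 (⊤ : Subgroup G)) := by
    refine hnil.le_of_forall fun p hp hd => ?_
    refine (F_nil ⊤).cent_of_prime ((nD.O {p}).of_le ((O_le _ _).trans hF) le_top) ?_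
    have h1 := (hnil.hall_O {p}).logn_eq (p := p) rfl
    have h2 := (logn_pos (card_ne_zero' D)).2 ⟨hp, hd⟩
    have h3 := hl p hp
    rw [(O_pi {p} D).card_eq, h1, show logn p (♯D) = 1 by omega, pow_one]
    exact hp
  have hCF : 𝐂 D = 𝐅 (⊤ : Subgroup G) := by
    refine le_antisymm (le_F ⟨le_top, norm_cent nD.norm⟩ (nil_of_der_le_cent ?_)) (cent_symm hFC)
    exact (commutator_mono le_top le_top).trans (cent_symm le_rfl)
  obtain ⟨x, hx⟩ := hc.exists_gen
  have hi : Squarefree (Cfsg.fittingSubgroup G).index := by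
    rw [← F_top, ← hCF, ← hx, cent_zpowers]
    exact h x
  have hab : IsMulCommutative (G ⧸ D) := Normal.quotient_commutative_iff_commutator_le.2 le_rfl
  have hn : Group.IsNilpotent (G ⧸ D) := ⟨1, upperCentralSeries_one_eq_top_iff.2 hab⟩
  refine ⟨CF.SolvStr.ss_of_quotient_cyclic D CF.SolvStr.ss_of_isNilpotent,
    F_top (G := G) ▸ normalIn_top.1 (F_normal ⊤), fun _ => ⟨?_, hi⟩, hc, hsq, ?_, ?_⟩
  · have : IsMulCommutative (G ⧸ Cfsg.fittingSubgroup G) :=
      Normal.quotient_commutative_iff_commutator_le.2 (F_top (G := G) ▸ hF)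
    have : Group.IsNilpotent (G ⧸ Cfsg.fittingSubgroup G) :=
      ⟨1, upperCentralSeries_one_eq_top_iff.2 this⟩
    have := IsZGroup.of_squarefree (G := G ⧸ Cfsg.fittingSubgroup G) hi
    infer_instance
  · rw [← lowerCentralSeries_eq_bot_iff_upperCentralSeries_eq_top, ← F_top]
    apply map_injective (𝐅 (⊤ : Subgroup G)).subtype_injective
    show Subgroup.map _ ⁅⁅(⊤ : Subgroup (𝐅 (⊤ : Subgroup G))), ⊤⁆, ⊤⁆ = _
    rw [map_commutator, map_commutator, map_top_subtype, Subgroup.map_bot, comm_eq_bot]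
    exact (commutator_mono le_top le_top).trans hFC
  · exact (_root_.commutator_eq_bot_iff _).2 hc.abel.comm

end Cfsg.Agent.S4130
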