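import Mathlib
import Cfsg.Statements.S4133
import Cfsg.Agent.Fgs1.AbTwo
import Cfsg.Agent.Ab2.App2

set_option autoImplicit false
open Cfsg

namespace Cfsg.Agent.S4133

open CF.BG

/-- Let G be a finite group all of whose Sylow subgroups are abelian, and let 2^a be the largest power of 2 dividing the size of any conjugacy class of G. If some element has a conjugacy class of size exactly 2^a, then G is solvable. -/
theorem result {G : Type*} [Group G] [Finite G]
    (hA : ∀ (p : ℕ) [Fact p.Prime] (P : Sylow p G), IsMulCommutative (P : Subgroup G))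
    (a : ℕ) (hmax : ∀ y : G, ¬ 2 ^ (a + 1) ∣ (Subgroup.centralizer ({y} : Set G)).index) (hx : ∃ x : G, (Subgroup.centralizer ({x} : Set G)).index = 2 ^ a) :
    Group.IsSolvable G := by
  obtain ⟨x, hx⟩ := hx
  refine CF.Ab2.sol_top.1 (CF.Fgs1.sol_of_A (fun p P h => ?_) hmax hx)
  by_cases hp : p.Prime
  · haveI := Fact.mk hp
    obtain ⟨Q, rfl⟩ := h.exists_sylow_top
    exact Abel.of_comm (hA p Q)
  · rw [piGrp_eq_bot_of_not_prime hp h.pi]
    exact der_eq_bot.1 (by simp)

end Cfsg.Agent.S4133
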