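import Cfsg.Statements.S4134
import Cfsg.Agent.SolvStr.Cls2

set_option autoImplicit false
open Cfsg

namespace Cfsg.Agent.S4134

/-- Let G be a finite group whose conjugacy classes have exactly two sizes, 1 and n > 1. Then n is a power of a prime p and G is the direct product of a p-group and an abelian group of order prime to p: its Sylow p-subgroup P is normal with an abelian normal complement centralizing it; moreover P has an abelian normal subgroup A with P/A of exponent dividing p. -/
theorem result {G : Type*} [Group G] [Finite G] (n : ℕ) (hn : 1 < n)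
    (h : ∀ x : G, (Subgroup.centralizer ({x} : Set G)).index = 1 ∨ (Subgroup.centralizer ({x} : Set G)).index = n) (hex : ∃ x : G, (Subgroup.centralizer ({x} : Set G)).index = n) :
    ∃ (p : ℕ) (_ : Fact p.Prime) (a : ℕ), n = p ^ a ∧ ∀ P : Sylow p G, (P : Subgroup G).Normal ∧
      (∃ N : Subgroup G, N.Normal ∧ N.IsComplement' (P : Subgroup G) ∧ IsMulCommutative N ∧
        ∀ x ∈ N, ∀ y ∈ (P : Subgroup G), x * y = y * x) ∧
      ∃ A : Subgroup (P : Subgroup G), A.Normal ∧ IsMulCommutative A ∧ ∀ y : (P : Subgroup G), y ^ p ∈ A := by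
  open CF.BG CF.SolvStr in
  obtain ⟨x, hx⟩ := hex
  obtain ⟨p, hp, c⟩ := exists_prime_of_two h (x := x) (one_lt_ind.1 (hn.trans_eq hx.symm))
  have := Fact.mk hp
  obtain ⟨P, hP⟩ := exists_syl p (⊤ : Subgroup G)
  obtain ⟨d, l⟩ := dprod_of_pi'_center hP c
  obtain ⟨a, ha⟩ := (pi_ind_of_hall (d.symm.sdprod.hall_left (O_pi _ _) hP.pi.compl_compl)
    (l.trans (center_le_cent1 x))).of_compl_compl.exists_pow (ind_pos x).ne'
  refine ⟨p, this, a, hx ▸ ha, fun S => ?_⟩
  have hS := syl_sylow_top S
  obtain ⟨d, l⟩ := dprod_of_pi'_center hS c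
  refine ⟨normalIn_top.1 d.normal_left, ⟨_, normalIn_top.1 d.normal_right,
    d.symm.sdprod.isComplement', Abel.comm (l.trans (center_le_cent _)),
    fun x hx y _ => (Subgroup.mem_center_iff.1 (l hx) y).symm⟩,
    Subgroup.center _, inferInstance, inferInstance, fun y => ?_⟩
  refine pow_mem_center_of_two (m := n) hp (piGrp_of_isPGroup hp (S.isPGroup'.to_subgroup ⊤))
    (fun z => ?_) y
  rw [ind_coe (top_le_iff.1 (d.sup.ge.trans (sup_le_sup_left (l.trans (center_le_cent1 _)) _))) z.2
    (Or.inr (le_top.trans d.normal_left.norm))]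
  exact h z

end Cfsg.Agent.S4134
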