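import Cfsg.Statements.S4135
import Cfsg.Agent.Mx23.Tc

set_option autoImplicit false
open Cfsg

namespace Cfsg.Agent.S4135


/-- Let G be a finite group, r a prime and R a Sylow r-subgroup of G that is not central, N a normal subgroup of G containing R, and m a natural number such that every element of N has a conjugacy class in G of size 1 or m. Then N is nilpotent. -/
theorem result {G : Type*} [Group G] [Finite G] (r : ℕ) [Fact r.Prime]
    (R : Sylow r G) (hR : ¬ (R : Subgroup G) ≤ Subgroup.center G) (N : Subgroup G) [N.Normal] (hRN : (R : Subgroup G) ≤ N)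
    (m : ℕ) (h : ∀ x ∈ N, (Subgroup.centralizer ({x} : Set G)).index = 1 ∨ (Subgroup.centralizer ({x} : Set G)).index = m) : Group.IsNilpotent N := by
  refine CF.Tc.Two.nil (r := r) (R := R) (c := Nat.card G / m)
    ⟨Fact.out, CF.Transfer.isSylowIn_top R, hR, inferInstance, hRN, fun x hx nx => ?_⟩
  rcases h x hx with e | e
  · refine absurd (Subgroup.mem_center_iff.2 fun g => ?_) nx
    exact Subgroup.mem_centralizer_singleton_iff.1
      (Subgroup.index_eq_one.1 e ▸ Subgroup.mem_top g)
  · have h1 := (Subgroup.centralizer ({x} : Set G)).card_mul_index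
    have h2 : m ≠ 0 := e ▸ Subgroup.FiniteIndex.index_ne_zero
    rw [e] at h1
    rw [← h1, Nat.mul_div_cancel _ (Nat.pos_of_ne_zero h2)]

end Cfsg.Agent.S4135
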