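import Mathlib
import Cfsg.Statements.S4137
import Cfsg.Agent.Fgs1.L2cs

set_option autoImplicit false
open Cfsg

namespace Cfsg.Agent.S4137

open Subgroup CF.BG CF.Fgs1 CF.SolvStr

/-- Let G be a finite group with trivial centre and at most three distinct sizes of conjugacy classes other than 1. Then G is solvable or G is isomorphic to PSL₂(2^a) for some a ≥ 1. -/
theorem result {G : Type*} [Group G] [Finite G]
    (hZ : Subgroup.center G = ⊥) (h : Nat.card {n : ℕ | 1 < n ∧ ∃ x : G, (Subgroup.centralizer ({x} : Set G)).index = n} ≤ 3) :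
    Group.IsSolvable G ∨ ∃ a : ℕ, 0 < a ∧ Nonempty (G ≃* Matrix.ProjectiveSpecialLinearGroup (Fin 2) (GaloisField 2 a)) := by
  refine or_iff_not_imp_left.2 fun ns => ?_
  obtain ⟨a, ha, e⟩ := (evL2_of_ncard hZ (fun s => ns (by
    have : Group.IsSolvable (⊤ : Subgroup G) := s
    exact solvable_of_surjective (f := (⊤ : Subgroup G).subtype) fun g => ⟨⟨g, trivial⟩, rfl⟩)) (by
    rw [← ncard_ind hZ]
    refine le_of_eq_of_le (congrArg _ (Set.ext fun n => ?_)) h
    exact ⟨fun ⟨x, h, e⟩ => ⟨e ▸ one_lt_ind.2 h, x, e.symm⟩,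
      fun ⟨h, x, e⟩ => ⟨x, one_lt_ind.1 (h.trans_eq e.symm), e.symm⟩⟩)).galois
  exact ⟨a, by omega, e⟩

end Cfsg.Agent.S4137
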