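import Cfsg.Statements.S4139
import Cfsg.Agent.SolvStr.Cls2

set_option autoImplicit false
open Cfsg

namespace Cfsg.Agent.S4139

theorem card_ind {G : Type*} [Group G] [Finite G] (k : ℕ) :
    Nat.card {x : G // CF.SolvStr.ind x = k} =
      Nat.card {C : ConjClasses G // Nat.card C.carrier = k} * k := by
  have e : ∀ x : G, Nat.card (ConjClasses.mk x).carrier = CF.SolvStr.ind x :=
    CF.Fgs2.ncard_carrier_mk
  refine (CF.Fgs2.ncard_eq_mul_of_fibers {x : G | CF.SolvStr.ind x = k} (Set.toFinite _)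
    ConjClasses.mk k fun s hs => ?_).trans ?_
  · rw [← hs, ← CF.SolvStr.ncard_cls]
    refine congrArg _ (Set.ext fun t => ⟨fun h => (ConjClasses.mk_eq_mk_iff_isConj.1 h.2).symm,
      fun h => ⟨(CF.SolvStr.ind_of_mem_cls h).trans (CF.SolvStr.ncard_cls s).symm, ConjClasses.mk_eq_mk_iff_isConj.2 h.symm⟩⟩)
  · congr 1
    refine congrArg Set.ncard (Set.ext fun C => ⟨?_, fun h => ?_⟩ :
      _ = {C : ConjClasses G | Nat.card C.carrier = k})
    · rintro ⟨x, hx, rfl⟩
      exact (e x).trans hx
    · obtain ⟨x, rfl⟩ := ConjClasses.mk_surjective C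
      exact ⟨x, (e x).symm.trans h, rfl⟩

/-- Let G and H be finite groups such that for every natural number k, G and H have the same number of conjugacy classes of size k. If H is nilpotent then G is nilpotent. -/
theorem result {G H : Type*} [Group G] [Finite G] [Group H] [Finite H]
    (hH : Group.IsNilpotent H)
    (h : ∀ k : ℕ, Nat.card {C : ConjClasses G // Nat.card C.carrier = k} = Nat.card {C : ConjClasses H // Nat.card C.carrier = k}) :
    Group.IsNilpotent G := by
  open CF.BG CF.SolvStr in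
  obtain ⟨e, he⟩ : ∃ e : G ≃ H, ∀ g, ind (e g) = ind g :=
    ⟨Equiv.ofFiberEquiv (f := ind) (g := ind) fun k => (Finite.card_eq.1 (by
      rw [card_ind, card_ind, h])).some, fun g => Equiv.ofFiberEquiv_map _ g⟩
  have c : ∀ P : ℕ → Prop, {x : G | P (ind x)}.ncard = {x : H | P (ind x)}.ncard := fun P =>
    Nat.card_congr (e.subtypeEquiv fun g => by rw [Set.mem_ofPred_eq, Set.mem_ofPred_eq, he])
  have z : ♯(Subgroup.center G) = ♯(Subgroup.center H) := by
    have := c (· = 1)
    simp only [ind_eq_one] at this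
    exact this
  refine Group.isNilpotent_top.1 (nil_of_forall_syl fun p hp _ => ?_)
  obtain ⟨P, hP⟩ := exists_syl p (⊤ : Subgroup G)
  obtain ⟨Q, hQ⟩ := exists_syl p (⊤ : Subgroup H)
  refine ⟨P, hP, norm_of_ncard_pcls hp hP ((c _).trans ((ncard_pcls_of_nil
    (Group.isNilpotent_top.2 hH) hQ).trans ?_))⟩
  have b : ♯P = ♯Q := by
    rw [hP.pi.card_eq, hQ.pi.card_eq, hP.logn_eq rfl, hQ.logn_eq rfl, card_top', card_top',
      Nat.card_congr e]
  have d : Q.index = P.index := Nat.eq_of_mul_eq_mul_left (card_pos' P) (by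
    rw [Subgroup.card_mul_index, b, Subgroup.card_mul_index, Nat.card_congr e])
  rw [d, (O_pi _ _).card_eq, (O_pi {p} (Subgroup.center G)).card_eq,
    ((Abel.nil (center_le_cent _)).hall_O {p}).logn_eq rfl,
    ((Abel.nil (center_le_cent _)).hall_O {p}).logn_eq rfl, z]

end Cfsg.Agent.S4139
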