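import Mathlib
import Cfsg.Agent.Fgs2.Basic
import Cfsg.Statements.S4142

set_option autoImplicit false
open Cfsg

namespace Cfsg.Agent.S4142

theorem aux {G : Type*} [Group G] [Finite G] (N : Subgroup G) [N.Normal] (g : G) :
    (∀ n ∈ N, ∃ x : G, x * g * x⁻¹ = g * n) ↔
      Nat.card (Subgroup.centralizer ({g} : Set G)) =
        Nat.card (Subgroup.centralizer ({(QuotientGroup.mk g : G ⧸ N)} : Set (G ⧸ N))) := by
  set D := (Subgroup.centralizer ({(QuotientGroup.mk g : G ⧸ N)} : Set (G ⧸ N))).comap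
    (QuotientGroup.mk' N) with hD
  have hmem : ∀ x, x ∈ D ↔ g⁻¹ * (x * g * x⁻¹) ∈ N := by
    intro x
    rw [hD, Subgroup.mem_comap, Subgroup.mem_centralizer_singleton_iff, ← QuotientGroup.eq,
      QuotientGroup.mk'_apply]
    simp only [QuotientGroup.mk_mul, QuotientGroup.mk_inv]
    rw [eq_mul_inv_iff_mul_eq, eq_comm]
  have hCD : Subgroup.centralizer ({g} : Set G) ≤ D := by
    intro x hx
    rw [Subgroup.mem_centralizer_singleton_iff] at hx
    rw [hmem, hx]; simp
  have h1 := CF.Fgs2.card_mul_relIndex_of_le hCD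
  rw [hD, CF.Fgs2.card_comap_mk', ← hD, ← CF.Fgs2.card_conj_subgroup] at h1
  let f : {y : G // ∃ k ∈ D, k * g * k⁻¹ = y} → N := fun y => ⟨g⁻¹ * y, by
    obtain ⟨y, k, hk, rfl⟩ := y
    exact (hmem k).1 hk⟩
  have hf : Function.Injective f := by
    intro a b h
    exact Subtype.ext (mul_left_cancel (congrArg Subtype.val h : g⁻¹ * a = g⁻¹ * b))
  constructor
  · intro h
    have hs : Function.Surjective f := by
      rintro ⟨n, hn⟩
      obtain ⟨x, hx⟩ := h n hn
      refine ⟨⟨g * n, x, (hmem x).2 (by rw [hx]; simpa using hn), hx⟩, Subtype.ext ?_⟩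
      simp [f]
    rw [Nat.card_congr (Equiv.ofBijective f ⟨hf, hs⟩), mul_comm] at h1
    exact Nat.eq_of_mul_eq_mul_left Nat.card_pos h1
  · intro h n hn
    rw [h, mul_comm] at h1
    have h2 := Nat.eq_of_mul_eq_mul_right Nat.card_pos h1
    obtain ⟨⟨y, x, hx, rfl⟩, hy⟩ := (hf.bijective_of_nat_card_le h2.ge).2 ⟨n, hn⟩
    have : g⁻¹ * (x * g * x⁻¹) = n := congrArg Subtype.val hy
    exact ⟨x, by rw [← this]; group⟩

/-- Let G be a finite group and N a normal subgroup. Then the conjugacy class of every element g outside N is a union of cosets of N (gn is conjugate to g for all n ∈ N) if and only if for every g outside N the centralizer of g in G has the same order as the centralizer of gN in G/N. -/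
theorem result {G : Type*} [Group G] [Finite G] (N : Subgroup G) [N.Normal] :
    (∀ g : G, g ∉ N → ∀ n ∈ N, ∃ x : G, x * g * x⁻¹ = g * n) ↔
      ∀ g : G, g ∉ N → Nat.card (Subgroup.centralizer ({g} : Set G)) =
        Nat.card (Subgroup.centralizer ({(QuotientGroup.mk g : G ⧸ N)} : Set (G ⧸ N))) := by
  exact forall_congr' fun g => imp_congr_right fun _ => aux N g

end Cfsg.Agent.S4142
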