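import Cfsg.Statements.S4145
import Cfsg.Agent.SolvStr.Misc1
import Cfsg.Agent.Solv.PiSep

set_option autoImplicit false
open Cfsg

namespace Cfsg.Agent.S4145

open Subgroup CF.Solv CF.SolvStr CF.Transfer in
theorem npc {G : Type*} [Group G] [Finite G] {p : ℕ} [Fact p.Prime] {S L : Subgroup G}
    (hS : IsSylowIn p S L) [IsCyclic S]
    (h : ∀ y ∈ L, y ∈ normalizer (S : Set G) → (orderOf y).Coprime p →
      S ⊓ centralizer (zpowers y : Set G) ≠ ⊥) : HasNormalPComplement p L := by
  refine hS.hasNPC_of_normalizer_le ?_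
  rintro g ⟨hgL, hN⟩
  obtain ⟨y, hy, z, hz, ⟨k, hk⟩, hzc, rfl, -⟩ :=
    exists_pPart_pPrimePart (p := p) (isOfFinOrder_of_finite g)
  have hyP : y ∈ S :=
    hS.le_of_le_normalizer (isPGroup_zpowers hk) (zpowers_le.2 (zpowers_le.2 hgL hy))
      (zpowers_le.2 (zpowers_le.2 hN hy)) (mem_zpowers y)
  refine mul_mem (le_centralizer _ hyP) ?_
  refine le_centralizer_of_cyclic_of_fixed (A := zpowers z) hS.isPGroup
    (zpowers_le.2 (zpowers_le.2 hN hz)) ?_
    (h z (zpowers_le.2 hgL hz) (zpowers_le.2 hN hz) hzc) (mem_zpowers z)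
  rw [Nat.card_zpowers]
  exact (coprime_card_of_isPGroup hS.isPGroup hzc).symm

open Subgroup CF.Solv CF.SolvStr CF.Transfer in
theorem psolv {G : Type*} [Group G] [Finite G] {p : ℕ} [hp : Fact p.Prime]
    (h : HasNormalPComplement p G) : IsPiSep {p} G :=
  isPiSep_of_normal_of_quotient (pResidual p G)
    (isPiSep_of_piNum (Or.inr ((piNum_compl_singleton_iff hp.out).2 (hasNPC_iff_coprime.1 h))))
    (isPiSep_of_piNum (Or.inl (isPGroup_iff_piNum_singleton.1 isPGroup_quotient_pResidual)))


/-- Let G be a finite group with a cyclic Sylow p-subgroup and H a normal subgroup such that p divides both the order of H and the index of H. Then H has a normal p-complement and G is p-solvable. -/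
theorem result {G : Type*} [Group G] [Finite G] (p : ℕ) [Fact p.Prime]
    (P : Sylow p G) (hP : IsCyclic (P : Subgroup G)) (H : Subgroup G) [H.Normal] (h1 : p ∣ Nat.card H) (h2 : p ∣ H.index) :
    Cfsg.HasNormalPComplement p H ∧ Cfsg.IsPSolvable p G := by
  open Subgroup CF.Solv CF.SolvStr CF.Transfer in
  have hp : p.Prime := Fact.out
  have hPH : ¬ (P : Subgroup G) ≤ H := fun h => not_dvd_index_of_sylow_le P h h2
  have h3 : HasNormalPComplement p ((P : Subgroup G) ⊔ H : Subgroup G) := by
    refine npc (isSylowIn_of_le P le_sup_left) fun y hy hN hc => ?_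
    have hyH : y ∈ H := by
      rw [← QuotientGroup.eq_one_iff]
      rw [← comap_map_mk'] at hy
      exact eq_one_of_mem_pGroup_of_coprime (P.isPGroup'.map _) hy
        (hc.coprime_dvd_left (orderOf_map_dvd (QuotientGroup.mk' H) y))
    intro h0
    have h4 := CF.Coprime.commutator_sup_centralizer (zpowers y) P (zpowers_le.2 hN)
      (by rw [Nat.card_zpowers]; exact (coprime_card_of_isPGroup P.isPGroup' hc).symm)
      (Or.inl (isSolvable_of_isMulCommutative _))
    rw [h0, sup_bot_eq] at h4
    exact hPH (h4.ge.trans ((commutator_mono le_rfl (zpowers_le.2 hyH)).trans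
      (commutator_le_right _ _)))
  have h4 : HasNormalPComplement p H := HasNPC.of_le h3 le_sup_right
  refine ⟨h4, isPSolvable_iff_isPiSep.2 ?_⟩
  set K := pRes p H with hK
  have hKc : (Nat.card K).Coprime p := hasNPC_subgroup_iff_coprime.1 h4
  refine isPiSep_of_normal_of_quotient K
    (isPiSep_of_piNum (Or.inr ((piNum_compl_singleton_iff hp).2 hKc))) ?_
  have hs := QuotientGroup.mk'_surjective K
  set Q := H.map (QuotientGroup.mk' K) with hQ
  have hQn : Q.Normal := Normal.map inferInstance _ hs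
  have hQp : IsPGroup p Q := by
    rw [← pRes_eq_bot_iff, hQ, ← map_pRes, map_mk'_eq_bot_iff]
  have hQ0 : Q ≠ ⊥ := by
    rw [hQ, Ne, map_mk'_eq_bot_iff]
    intro h
    exact (hp.coprime_iff_not_dvd.1 hKc.symm) (h1.trans (card_dvd_of_le h))
  have hS := (isSylowIn_top P).map (QuotientGroup.mk' K)
  rw [map_top_of_surjective _ hs] at hS
  have : IsCyclic ((P : Subgroup G).map (QuotientGroup.mk' K)) :=
    isCyclic_of_surjective _ ((QuotientGroup.mk' K).subgroupMap_surjective _)
  generalize (P : Subgroup G).map (QuotientGroup.mk' K) = S at hS this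
  have hQS : Q ≤ S := hS.le_of_normalized hQp le_top le_normalizer_of_normal
  have hSC : S ≤ centralizer (Q : Set (G ⧸ K)) := fun s hs q hq => mul_comm_of_mem (hQS hq) hs
  refine isPiSep_of_normal_of_quotient (centralizer (Q : Set (G ⧸ K))) (psolv ?_)
    (isPiSep_of_piNum (Or.inr ((piNum_compl_singleton_iff hp).2 ?_)))
  · refine npc (hS.of_le hSC le_top) fun y hy _ _ h0 => hQ0 ?_
    rw [eq_bot_iff, ← h0]
    exact le_inf hQS (le_centralizer_iff.1 (zpowers_le.2 hy))
  · refine (hp.coprime_iff_not_dvd.2 fun h => hS.not_dvd ?_).symm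
    rw [relIndex_top_right]
    exact h.trans (index_dvd_of_le hSC)

end Cfsg.Agent.S4145
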