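import Cfsg.Statements.S4146
import Cfsg.Agent.Mx23.Fo

set_option autoImplicit false
open Cfsg

namespace Cfsg.Agent.S4146


/-- Let G be a finite group whose conjugacy class sizes are exactly 1, n, m and nm for coprime integers n, m > 1. Then G is nilpotent and n and m are prime powers. -/
theorem result {G : Type*} [Group G] [Finite G] (n m : ℕ) (hn : 1 < n) (hm : 1 < m) (hcop : n.Coprime m)
    (h : Set.range (fun x : G => (Subgroup.centralizer ({x} : Set G)).index) = ({1, n, m, n * m} : Set ℕ)) :
    Group.IsNilpotent G ∧ IsPrimePow n ∧ IsPrimePow m := by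
  have k : ∀ a ∈ ({1, n, m, n * m} : Set ℕ), ∃ x : G, CF.SolvStr.ind x = a := fun a ha => by
    rw [← h] at ha
    exact ha
  have h4 : CF.Fo.Four G n m := ⟨hn, hm, hcop, fun x => by
      have : CF.SolvStr.ind x ∈ ({1, n, m, n * m} : Set ℕ) := by rw [← h]; exact ⟨x, rfl⟩
      simpa using this, k n (by simp), k m (by simp), k _ (by simp)⟩
  obtain ⟨h1, h2⟩ := h4.main
  exact ⟨nilpotent_of_mulEquiv (Subgroup.topEquiv (G := G)), h2⟩

end Cfsg.Agent.S4146
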