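import Mathlib
import Cfsg.Statements.S4149
import Cfsg.Agent.Fgs1.ClassSize2
import Cfsg.Agent.Transfer.Frobenius

set_option autoImplicit false
open Cfsg

namespace Cfsg.Agent.S4149

open Cfsg Subgroup CF.Fgs1

theorem two_mul_card_le {G : Type*} [Group G] [Fintype G] {p : ℕ} [hp : Fact p.Prime]
    (h : ¬ HasNormalPComplement p G) [DecidablePred fun g : G => p ∣ (centralizer ({g} : Set G)).index] :
    Fintype.card G ≤ 2 * (Finset.univ.filter fun g : G => p ∣ (centralizer ({g} : Set G)).index).card := by
  classical
  haveI : Fintype (Sylow p G) := Fintype.ofFinite _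
  have key : ∀ P : Sylow p G, 2 * (Nat.card (Sylow p G) * Nat.card (centralizer ((P : Subgroup G) : Set G))) ≤ Nat.card G := by
    intro P
    have hlt : centralizer ((P : Subgroup G) : Set G) < normalizer ((P : Subgroup G) : Set G) := by
      refine lt_of_le_of_ne (centralizer_le_normalizer _) fun e => h ?_
      exact CF.Transfer.burnside_hasNPC P e.ge
    have h1 := card_mul_relIndex hlt.le
    have h2 : 2 ≤ (centralizer ((P : Subgroup G) : Set G)).relIndex (normalizer ((P : Subgroup G) : Set G)) := by
      have h3 : (centralizer ((P : Subgroup G) : Set G)).relIndex (normalizer ((P : Subgroup G) : Set G)) ≠ 1 := by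
        rw [Ne, relIndex_eq_one]; exact fun e => hlt.ne (le_antisymm hlt.le e)
      have h4 : (centralizer ((P : Subgroup G) : Set G)).relIndex (normalizer ((P : Subgroup G) : Set G)) ≠ 0 :=
        index_ne_zero_of_finite
      omega
    have h5 : Nat.card (Sylow p G) = (normalizer ((P : Subgroup G) : Set G)).index :=
      P.card_eq_index_normalizer
    rw [h5, ← (normalizer ((P : Subgroup G) : Set G)).index_mul_card, ← h1]
    calc _ = (normalizer ((P : Subgroup G) : Set G)).index * (Nat.card (centralizer ((P : Subgroup G) : Set G)) * 2) := by ring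
      _ ≤ _ := Nat.mul_le_mul_left _ (Nat.mul_le_mul_left _ h2)
  have hsub : (Finset.univ.filter fun g : G => ¬ p ∣ (centralizer ({g} : Set G)).index) ⊆
      Finset.univ.biUnion fun P : Sylow p G =>
        Finset.univ.filter fun g => g ∈ centralizer ((P : Subgroup G) : Set G) := by
    intro g hg
    rw [Finset.mem_filter] at hg
    obtain ⟨P, hP⟩ := CF.Solv.exists_sylow_le_of_not_dvd_index hg.2
    simp only [Finset.mem_biUnion, Finset.mem_univ, true_and, Finset.mem_filter]
    exact ⟨P, fun w hw => (mem_cent_iff.mp (hP hw)).symm⟩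
  have h1 := (Finset.card_le_card hsub).trans Finset.card_biUnion_le
  have h2 : Nat.card (Sylow p G) * (2 * ∑ P : Sylow p G,
      (Finset.univ.filter fun g => g ∈ centralizer ((P : Subgroup G) : Set G)).card) ≤
      Nat.card (Sylow p G) * Nat.card G := by
    rw [Finset.mul_sum, Finset.mul_sum]
    calc _ ≤ ∑ _P : Sylow p G, Nat.card G := by
          apply Finset.sum_le_sum
          intro P _
          have := key P
          rw [Nat.card_eq_fintype_card (α := centralizer ((P : Subgroup G) : Set G)),
            Fintype.card_subtype] at this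
          calc _ = 2 * (Nat.card (Sylow p G) * (Finset.univ.filter fun g => g ∈ centralizer ((P : Subgroup G) : Set G)).card) := by ring
            _ ≤ _ := this
      _ = _ := by simp [Nat.card_eq_fintype_card]
  have h3 := Nat.le_of_mul_le_mul_left h2 Nat.card_pos
  have h4 := Finset.card_filter_add_card_filter_not (s := (Finset.univ : Finset G))
    (fun g : G => p ∣ (centralizer ({g} : Set G)).index)
  rw [Nat.card_eq_fintype_card] at h3
  rw [Finset.card_univ] at h4
  omega


/-- Let G be a finite group that has a normal p-complement for at most one prime p dividing its order, and let σ be a natural number such that every conjugacy class size of G has at most σ distinct prime divisors. Then the number of primes dividing at least one conjugacy class size of G is at most 2σ. -/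
theorem result {G : Type*} [Group G] [Finite G] (σ : ℕ)
    (hσ : ∀ x : G, ((Subgroup.centralizer ({x} : Set G)).index).primeFactors.card ≤ σ)
    (hnil : ∀ p q : ℕ, p.Prime → q.Prime → p ∣ Nat.card G → q ∣ Nat.card G →
      Cfsg.HasNormalPComplement p G → Cfsg.HasNormalPComplement q G → p = q) :
    Nat.card {p : ℕ | p.Prime ∧ ∃ x : G, p ∣ (Subgroup.centralizer ({x} : Set G)).index} ≤ 2 * σ := by
  classical
  haveI := Fintype.ofFinite G
  set R : Finset ℕ := (Nat.card G).primeFactors.filter
    fun p => ∃ x : G, p ∣ (centralizer ({x} : Set G)).index with hR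
  have hRe : {p : ℕ | p.Prime ∧ ∃ x : G, p ∣ (centralizer ({x} : Set G)).index} = (R : Set ℕ) := by
    ext p
    simp only [hR, Set.mem_setOf_eq, Finset.coe_filter, Nat.mem_primeFactors]
    constructor
    · rintro ⟨h1, x, hx⟩
      exact ⟨⟨h1, hx.trans (index_dvd_card _), Nat.card_pos.ne'⟩, x, hx⟩
    · rintro ⟨h1, h2⟩
      exact ⟨h1.1, h2⟩
  rw [hRe, Nat.card_coe_set_eq, Set.ncard_coe_finset]
  have hle : ∀ g : G, (R.filter fun p => p ∣ (centralizer ({g} : Set G)).index).card ≤ σ := by
    intro g
    refine le_trans (Finset.card_le_card ?_) (hσ g)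
    intro p hp
    simp only [hR, Finset.mem_filter, Nat.mem_primeFactors] at hp ⊢
    exact ⟨hp.1.1.1, hp.2, index_ne_zero_of_finite⟩
  have hone : (R.filter fun p => p ∣ (centralizer ({(1 : G)} : Set G)).index).card = 0 := by
    rw [Finset.card_eq_zero, Finset.filter_eq_empty_iff]
    intro p hp
    simp only [hR, Finset.mem_filter, Nat.mem_primeFactors] at hp
    have : centralizer ({(1 : G)} : Set G) = ⊤ := by
      rw [eq_top_iff]; intro g _; rw [mem_cent_iff]; simp
    rw [this, index_top, Nat.dvd_one]
    exact hp.1.1.ne_one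
  have hsum : ∑ g : G, (R.filter fun p => p ∣ (centralizer ({g} : Set G)).index).card =
      ∑ p ∈ R, (Finset.univ.filter fun g : G => p ∣ (centralizer ({g} : Set G)).index).card := by
    simp only [Finset.card_filter]
    exact Finset.sum_comm
  have hup : ∑ g : G, (R.filter fun p => p ∣ (centralizer ({g} : Set G)).index).card + σ ≤
      Fintype.card G * σ := by
    rw [← Finset.add_sum_erase _ _ (Finset.mem_univ (1 : G)), hone, zero_add]
    have := Finset.sum_le_card_nsmul (Finset.univ.erase (1 : G)) _ σ fun g _ => hle g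
    rw [Finset.card_erase_of_mem (Finset.mem_univ _), Finset.card_univ, smul_eq_mul] at this
    have h0 : 0 < Fintype.card G := Fintype.card_pos
    obtain ⟨n, hn⟩ : ∃ n, Fintype.card G = n + 1 := ⟨Fintype.card G - 1, by omega⟩
    rw [hn] at this ⊢
    simp only [Nat.add_sub_cancel] at this
    nlinarith
  rcases R.eq_empty_or_nonempty with h0 | ⟨p0, hp0⟩
  · rw [h0]; simp
  have hσ0 : 0 < σ := by
    have h1 := hp0
    simp only [hR, Finset.mem_filter] at h1
    obtain ⟨-, x, hx⟩ := h1
    exact lt_of_lt_of_le (Finset.card_pos.mpr ⟨p0, Finset.mem_filter.mpr ⟨hp0, hx⟩⟩) (hle x)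
  obtain ⟨q, hq, hqn⟩ : ∃ q ∈ R, ∀ p ∈ R.erase q, ¬ HasNormalPComplement p G := by
    by_cases h : ∃ q ∈ R, HasNormalPComplement q G
    · obtain ⟨q, hq, hqn⟩ := h
      refine ⟨q, hq, fun p hp hpn => ?_⟩
      have hp' := Finset.mem_erase.mp hp
      simp only [hR, Finset.mem_filter, Nat.mem_primeFactors] at hp' hq
      exact hp'.1 (hnil p q hp'.2.1.1 hq.1.1 hp'.2.1.2.1 hq.1.2.1 hpn hqn)
    · push Not at h
      exact ⟨p0, hp0, fun p hp => h p (Finset.mem_of_mem_erase hp)⟩
  have hlow : (R.erase q).card * Fintype.card G ≤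
      2 * ∑ p ∈ R, (Finset.univ.filter fun g : G => p ∣ (centralizer ({g} : Set G)).index).card := by
    rw [← Finset.add_sum_erase _ _ hq, mul_add]
    refine le_trans ?_ (Nat.le_add_left _ _)
    rw [Finset.mul_sum, ← smul_eq_mul]
    apply Finset.card_nsmul_le_sum
    intro p hp
    have hp' := Finset.mem_of_mem_erase hp
    simp only [hR, Finset.mem_filter, Nat.mem_primeFactors] at hp'
    haveI := Fact.mk hp'.1.1
    exact two_mul_card_le (hqn p hp)
  rw [Finset.card_erase_of_mem hq, ← hsum] at hlow
  have h0 : 0 < Fintype.card G := Fintype.card_pos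
  have h1 : (R.card - 1) * Fintype.card G < (2 * σ) * Fintype.card G := by nlinarith
  have := lt_of_mul_lt_mul_right h1 h0.le
  omega

end Cfsg.Agent.S4149
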