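import Mathlib
import Cfsg.Statements.S4151
import Cfsg.Agent.BG.B11
import Cfsg.Agent.SolvStr.TIHall
import Cfsg.Agent.S4117

set_option autoImplicit false
open Cfsg

namespace Cfsg.Agent.S4151

open Subgroup CF.BG CF.Solv in
theorem aux {G : Type*} [Group G] [Finite G] {H : Subgroup G} {π : Set ℕ}
    (hTI : Cfsg.IsTISubset (H : Set G)) (hnn : ¬ H.Normal) (hH : Hall π H ⊤) (hs : IsPiSep π G)
    (h2 : ∀ P, Syl 2 P H → Abel P) : ZGrp H ∧ 𝐎 πᶜ (⊤ : Subgroup G) ⊔ 𝐍 H = ⊤ := by
  have H1 : H ≠ ⊥ := fun e => hnn (e ▸ inferInstance)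
  have hN : ∀ {X : Subgroup G}, X ≤ H → X ≠ ⊥ → 𝐍 X ≤ 𝐍 H := by
    intro X hX X1 g hg
    obtain ⟨x, hx, hx1⟩ := exists_mem_ne_one X1
    exact CF.SolvStr.ti_mem_normalizer hTI (hX hx) hx1 (hX ((mem_normalizer_iff.1 hg x).1 hx))
  have hO : piCore π G = ⊥ := by
    by_contra h0
    have h1 : piCore π G ≤ H := by rw [← O_top]; exact hH.O_le
    have := hN h1 h0
    rw [normalizer_eq_top] at this
    exact hnn (normalizer_eq_top_iff.1 (top_le_iff.1 this))
  set K := piCore πᶜ G with hK
  have hKπ : PiGrp πᶜ K := piCore_piNum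
  have hCK : 𝐂 K ≤ K := hs.compl.centralizer_piCore_le (by rwa [compl_compl])
  have nK : ∀ A : Subgroup G, A ≤ 𝐍 K := fun A => by rw [normalizer_eq_top]; exact le_top
  have hHK : H ⊓ K = ⊥ := hH.pi.inf_eq_bot hKπ
  have hcyc : ∀ A, A ≤ H → Abel A → Cyc A := by
    intro A hA a
    by_contra nc
    have h1 : K ≤ 𝐂 H := by
      refine a.le_of_cent1 nc (nK A) ((hH.pi.le hA).coprime hKπ) fun x hx x1 => ?_
      refine le_trans ?_ (inf_norm_le_cent (nK H) hHK)
      refine inf_le_inf_left K (le_trans ?_ (hN (zpowers_le_of_mem (hA hx)) (by simpa using x1)))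
      intro g hg
      exact centralizer_le_normalizer _ (by
        rw [← zpowers_le, le_centralizer_iff, zpowers_le]
        rw [mem_centralizer_iff]
        rintro _ ⟨n, rfl⟩
        exact (Commute.zpow_left (mem_centralizer_singleton_iff.1 hg) n))
    exact H1 (le_bot_iff.1 (hHK ▸ le_inf le_rfl ((cent_symm h1).trans hCK)))
  refine ⟨zGrp_of_forall fun p hp _ => ?_, ?_⟩
  · obtain ⟨P, hP⟩ := exists_syl p H
    refine ⟨P, hP, ?_⟩
    by_cases p2 : p = 2
    · subst p2
      exact hcyc P hP.le (h2 P hP)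
    · by_contra nc
      have o : Odd (♯P) := by
        obtain ⟨k, e⟩ := hP.pi.card_pow
        rw [e]; exact (hp.odd_of_ne_two p2).pow
      obtain ⟨A, hA⟩ := hP.pi.exists_elem_two o nc
      exact hA.not_cyc (hcyc A (hA.le.trans hP.le) hA.abel)
  · rw [O_top, ← hK]
    have hKt : K ≠ ⊤ := fun e => H1 (by rw [← hHK, e, inf_top_eq])
    haveI : Nontrivial (G ⧸ K) := QuotientGroup.nontrivial_iff.2 hKt
    have h1 : piCore π (G ⧸ K) ≠ ⊥ :=
      ((hs.quotient K).piCore_ne_bot).resolve_right (not_not.2 piCore_quotient_piCore)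
    set L := (piCore π (G ⧸ K)).comap (QuotientGroup.mk' K) with hL
    have hKL : K ≤ L := fun x hx => by
      rw [hL, mem_comap, QuotientGroup.mk'_apply, (QuotientGroup.eq_one_iff x).2 hx]
      exact one_mem _
    have hi : K.relIndex L = ♯(piCore π (G ⧸ K)) := by
      have : K = (⊥ : Subgroup (G ⧸ K)).comap (QuotientGroup.mk' K) := by
        rw [MonoidHom.comap_bot, QuotientGroup.ker_mk']
      conv_lhs => rw [this]
      rw [hL, relIndex_comap, map_comap_eq_self_of_surjective (QuotientGroup.mk'_surjective K),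
        relIndex_bot_left]
    have hKh : Hall πᶜ K L := ⟨hKL, hKπ, by rw [hi, compl_compl]; exact piCore_piNum⟩
    have nL : L ⊴ ⊤ := normalIn_top.2 inferInstance
    have hHL : Hall π (H ⊓ L) L := hH.inf_normal nL
    have e1 : H ⊓ L ⊔ K = L := hHL.sup_eq hKh
    have h3 : H ⊓ L ≠ ⊥ := by
      intro e
      rw [e, bot_sup_eq] at e1
      rw [← e1, relIndex_self] at hi
      exact h1 (card_eq_one'.1 hi.symm)
    obtain ⟨p, hp, hd⟩ := exists_prime_dvd_card h3
    obtain ⟨P, hP⟩ := exists_syl p (H ⊓ L)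
    have hP' : Syl p P L := hP.syl_trans hHL (hHL.pi p hp hd)
    have e2 := hP'.syl_frattini_sup nL
    rw [eq_top_iff, ← e2, ← e1]
    refine sup_le (sup_le (le_sup_of_le_right (inf_le_left.trans le_normalizer)) le_sup_left) ?_
    exact le_sup_of_le_right (inf_le_right.trans
      (hN (hP.le.trans inf_le_left) (hP.syl_ne_bot hp hd)))

open Subgroup CF.BG CF.Solv in

/-- Let G be a finite group and H a non-normal subgroup meeting each of its conjugates by elements outside N_G(H) trivially, with the order of H coprime to its index in N_G(H), such that G is π-separable for π the set of primes dividing the order of H (G has a chain of normal subgroups from 1 to G each of whose factors has order divisible only by primes dividing the order of H or coprime to it). Suppose a Sylow 2-subgroup of H is abelian and Q is a complement of H in N_G(H). Then C_H(Q), the subgroup of elements of H commuting with Q, has order coprime to its index in G and has a normal complement in G. -/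
theorem result {G : Type*} [Group G] [Finite G] (H : Subgroup G)
    (hTI : Cfsg.IsTISubset (H : Set G)) (hnn : ¬ H.Normal)
    (hHall : (Nat.card H).Coprime (H.subgroupOf (Subgroup.normalizer (H : Set G))).index)
    (hsep : ∃ (n : ℕ) (M : Fin (n + 1) → Subgroup G), M 0 = ⊥ ∧ M (Fin.last n) = ⊤ ∧ Monotone M ∧ (∀ i, (M i).Normal) ∧
      ∀ i : Fin n, (∀ q : ℕ, q.Prime → q ∣ (M i.castSucc).relIndex (M i.succ) → q ∣ Nat.card H) ∨
        ((M i.castSucc).relIndex (M i.succ)).Coprime (Nat.card H))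
    (h2 : ∀ P : Sylow 2 H, IsMulCommutative (P : Subgroup H))
    (Q : Subgroup G) (hQ : Q ≤ Subgroup.normalizer (H : Set G)) (hQH : Q ⊓ H = ⊥) (hQH' : Q ⊔ H = Subgroup.normalizer (H : Set G)) :
    (Nat.card ↥(H ⊓ Subgroup.centralizer (Q : Set G))).Coprime (H ⊓ Subgroup.centralizer (Q : Set G)).index ∧
    ∃ N : Subgroup G, N.Normal ∧ N.IsComplement' (H ⊓ Subgroup.centralizer (Q : Set G)) := by
  have hc : (♯H).Coprime H.index := CF.SolvStr.coprime_index_of_ti hTI hHall
  set π := piOf (♯H) with hπ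
  have hH : Hall π H ⊤ := hall_of_coprime le_top (by rwa [relIndex_top_right])
  have hs : IsPiSep π G := by
    obtain ⟨n, M, h0, h1, h3, h4, h5⟩ := hsep
    refine isPiSep_iff_exists_chain.2 ⟨n, M, h0, h1, h3, h4, fun i => (h5 i).imp ?_ ?_⟩
    · exact fun h q hq hd => mem_piOf.2 ⟨hq, h q hq hd⟩
    · exact fun h => piNat_compl_piOf.2 h
  obtain ⟨hZ, hG⟩ := aux hTI hnn hH hs (fun P hP => by
    obtain ⟨S, rfl⟩ := hP.exists_sylow
    haveI := h2 S
    exact abel_iff.2 inferInstance)
  have hQπ : PiGrp πᶜ Q := by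
    have h1 := (hH.of_le le_normalizer le_top).idx
    rwa [← hQH', relIndex_sup_norm (Or.inl hQ), relIndex_of_inf_bot (by rw [inf_comm, hQH])] at h1
  have cop : (♯Q).Coprime (♯H) := (hH.pi.coprime hQπ).symm
  haveI : IsZGroup H := hZ
  obtain ⟨a1, -, a2⟩ := Cfsg.Agent.S4117.aux Q H hQ cop
  set C := H ⊓ 𝐂 Q with hC
  set D := ⁅H, Q⁆ with hD
  have e1 : D ⊔ C = H := comm_sup_inf_cent hQ cop (Or.inr inferInstance)
  have nD : H ≤ 𝐍 D := norm_comm_left H Q
  have hCH : Hall (piOf (♯C)) C H := hall_of_coprime inf_le_left a1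
  have sub : piOf (♯C) ⊆ π := piNat_iff_subset.1 (hH.pi.le inf_le_left)
  have hCG : Hall (piOf (♯C)) C ⊤ := hCH.trans hH sub
  have hDρ : PiGrp (piOf (♯C))ᶜ D := by
    have h1 := hCH.idx
    rwa [← e1, relIndex_sup_norm (Or.inr (inf_le_left.trans nD)), relIndex_of_inf_bot a2] at h1
  set K := 𝐎 πᶜ (⊤ : Subgroup G) with hK
  have nK : ∀ A : Subgroup G, A ≤ 𝐍 K := fun A => le_top.trans (O_normal _ _).norm
  have sub' : πᶜ ⊆ (piOf (♯C))ᶜ := Set.compl_subset_compl.2 sub
  have hN : PiGrp (piOf (♯C))ᶜ (K ⊔ (D ⊔ Q)) :=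
    ((O_pi _ _).mono sub').sup (hDρ.sup (hQπ.mono sub') (Or.inr (norm_comm_right H Q)))
      (Or.inr (nK _))
  have hn : (K ⊔ (D ⊔ Q)).Normal := by
    rw [← normalizer_eq_top_iff, eq_top_iff, ← hG, ← hQH']
    refine sup_le (le_sup_left.trans le_normalizer) (sup_le
      ((le_sup_of_le_right le_sup_right).trans le_normalizer) (norm_sup (nK _) ?_))
    refine norm_of_comm_le (comm_sup_le ((comm_le_left nD).trans le_sup_left) ?_
      (le_sup_left.trans le_normalizer) (le_sup_right.trans le_normalizer))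
    rw [commutator_comm]; exact le_sup_left
  refine ⟨by have := hCG.coprime; rwa [relIndex_top_right] at this, K ⊔ (D ⊔ Q), hn, ?_⟩
  refine isComplement'_of_disjoint_and_mul_eq_univ
    (disjoint_iff.2 (hN.inf_eq_bot' hCG.pi)) ?_
  rw [← normal_mul, coe_eq_univ, eq_top_iff, ← hG, ← hQH', ← e1]
  refine sup_le (le_sup_of_le_left le_sup_left) (sup_le
    (le_sup_of_le_left (le_sup_of_le_right le_sup_right))
    (sup_le (le_sup_of_le_left (le_sup_of_le_right le_sup_left)) le_sup_right))

end Cfsg.Agent.S4151
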