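import Mathlib
import Cfsg.Agent.Fgs2.Count
import Cfsg.Statements.S4152

set_option autoImplicit false
open Cfsg

namespace Cfsg.Agent.S4152

/-- Let G be a finite group, N a normal subgroup and π a set of primes. Then the number of conjugacy classes of π-elements of G (elements whose order is divisible only by primes in π) is at most the number of conjugacy classes of π-elements of N (under conjugation by N) times the number of conjugacy classes of π-elements of G/N. -/
theorem result {G : Type*} [Group G] [Finite G] (N : Subgroup G) [N.Normal] (π : Set ℕ) :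
    Nat.card {C : ConjClasses G // ∀ q : ℕ, q.Prime → (∃ g : G, ConjClasses.mk g = C ∧ q ∣ orderOf g) → q ∈ π} ≤ Nat.card {C : ConjClasses N // ∀ q : ℕ, q.Prime → (∃ g : N, ConjClasses.mk g = C ∧ q ∣ orderOf g) → q ∈ π} * Nat.card {C : ConjClasses (G ⧸ N) // ∀ q : ℕ, q.Prime → (∃ g : (G ⧸ N), ConjClasses.mk g = C ∧ q ∣ orderOf g) → q ∈ π} := by
  have h := CF.Fgs2.cp_piElts_le π N
  rw [← CF.Fgs2.card_piClasses_mul, ← CF.Fgs2.card_piClasses_mul, ← CF.Fgs2.card_piClasses_mul,
    mul_mul_mul_comm, ← Subgroup.index_eq_card, N.card_mul_index] at h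
  exact Nat.le_of_mul_le_mul_right h Nat.card_pos

end Cfsg.Agent.S4152
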