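import Mathlib
import Cfsg.Agent.Fgs2.Basic
import Cfsg.Statements.S4153

set_option autoImplicit false
open Cfsg

namespace Cfsg.Agent.S4153

theorem card_eq_sum {G : Type*} [Group G] [Finite G] (p : ℕ) [Fact p.Prime] (N : Subgroup G)
    [N.Normal] [Fintype {g : (G ⧸ N) // ∃ k : ℕ, orderOf g = p ^ k}] :
    Nat.card {g : G // ∃ k : ℕ, orderOf g = p ^ k} =
      ∑ q : {g : (G ⧸ N) // ∃ k : ℕ, orderOf g = p ^ k},
        Nat.card {g : G // (∃ k : ℕ, orderOf g = p ^ k) ∧ (g : G ⧸ N) = q} := by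
  rw [← Nat.card_sigma]
  symm
  refine Nat.card_congr (Equiv.ofBijective (fun z => ⟨z.2.1, z.2.2.1⟩) ⟨?_, ?_⟩)
  · rintro ⟨q, y, hy, h1⟩ ⟨q', y', hy', h2⟩ h
    have h : y = y' := congrArg Subtype.val h
    subst h
    have : q = q' := Subtype.ext (h1.symm.trans h2)
    subst this
    rfl
  · rintro ⟨g, k, hk⟩
    have : orderOf (g : G ⧸ N) ∣ p ^ k := hk ▸ orderOf_map_dvd (QuotientGroup.mk' N) g
    obtain ⟨j, -, hj⟩ := (Nat.dvd_prime_pow Fact.out).1 this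
    exact ⟨⟨⟨g, j, hj⟩, ⟨g, ⟨k, hk⟩, rfl⟩⟩, rfl⟩

theorem exists_lift {G : Type*} [Group G] [Finite G] (p : ℕ) [hp : Fact p.Prime] (N : Subgroup G)
    [N.Normal] (q : G ⧸ N) (hq : ∃ k : ℕ, orderOf q = p ^ k) :
    ∃ x : G, (∃ k : ℕ, orderOf x = p ^ k) ∧ (x : G ⧸ N) = q := by
  induction q using QuotientGroup.induction_on with | H y =>
  obtain ⟨k, hk⟩ := hq
  obtain ⟨a, ha, b, hb, h1, h2, h3, h4⟩ := CF.Fgs2.exists_p_decomp p y
  refine ⟨a, h3, ?_⟩
  have hb1 : (b : G ⧸ N) = 1 := by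
    refine CF.Fgs2.eq_one_of_orderOf_dvd_coprime (m := p ^ k) (n := orderOf b) ?_
      (orderOf_map_dvd (QuotientGroup.mk' N) b)
      (Nat.Coprime.pow_left k ((Nat.Prime.coprime_iff_not_dvd hp.out).2 h4))
    obtain ⟨n, rfl⟩ := Subgroup.mem_zpowers_iff.1 hb
    rw [← hk]
    exact orderOf_dvd_of_mem_zpowers ⟨n, by simp⟩
  rw [h1, QuotientGroup.mk_mul, hb1, mul_one]

theorem card_sylow {G : Type*} [Group G] [Finite G] (p : ℕ) [hp : Fact p.Prime] (N : Subgroup G)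
    [N.Normal] (Q : Sylow p G) (Pbar : Sylow p (G ⧸ N)) :
    Nat.card (Q : Subgroup G) =
      Nat.card (N ⊓ Q : Subgroup G) * Nat.card (Pbar : Subgroup (G ⧸ N)) := by
  rw [← CF.Fgs2.card_inf_mul_relIndex N Q, ← CF.Fgs2.card_map_mk',
    ← Sylow.coe_mapSurjective (QuotientGroup.mk'_surjective N), Sylow.card_eq_multiplicity,
    Sylow.card_eq_multiplicity]

/-- Let G be a finite group, p a prime, N a normal subgroup, P a Sylow p-subgroup of G and P̄ a Sylow p-subgroup of G/N. Count the elements of p-power order, the identity included. Then (number of such elements of G/N)/#P̄ ≤ (number of such elements of G)/#P, stated as a cross-multiplied inequality, with equality when N is central. -/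
theorem result {G : Type*} [Group G] [Finite G] (p : ℕ) [Fact p.Prime] (N : Subgroup G) [N.Normal]
    (P : Sylow p G) (Pbar : Sylow p (G ⧸ N)) :
    Nat.card {g : (G ⧸ N) // ∃ k : ℕ, orderOf g = p ^ k} * Nat.card (P : Subgroup G) ≤ Nat.card {g : G // ∃ k : ℕ, orderOf g = p ^ k} * Nat.card (Pbar : Subgroup (G ⧸ N)) ∧
    (N ≤ Subgroup.center G → Nat.card {g : (G ⧸ N) // ∃ k : ℕ, orderOf g = p ^ k} * Nat.card (P : Subgroup G) = Nat.card {g : G // ∃ k : ℕ, orderOf g = p ^ k} * Nat.card (Pbar : Subgroup (G ⧸ N))) := by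
  classical
  have := Fintype.ofFinite {g : (G ⧸ N) // ∃ k : ℕ, orderOf g = p ^ k}
  have hpos : 0 < Nat.card (Pbar : Subgroup (G ⧸ N)) := Nat.card_pos
  have hQ : ∀ Q : Sylow p G, Nat.card (N ⊓ Q : Subgroup G) = Nat.card (N ⊓ P : Subgroup G) := by
    intro Q
    refine Nat.eq_of_mul_eq_mul_right hpos ?_
    rw [← card_sylow, ← card_sylow, Sylow.card_eq_multiplicity, Sylow.card_eq_multiplicity]
  have key : ∀ q : {g : (G ⧸ N) // ∃ k : ℕ, orderOf g = p ^ k},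
      Nat.card (N ⊓ P : Subgroup G) ≤
        Nat.card {g : G // (∃ k : ℕ, orderOf g = p ^ k) ∧ (g : G ⧸ N) = q} ∧
      (N ≤ Subgroup.center G → Nat.card (N ⊓ P : Subgroup G) =
        Nat.card {g : G // (∃ k : ℕ, orderOf g = p ^ k) ∧ (g : G ⧸ N) = q}) := by
    rintro ⟨q, hq⟩
    obtain ⟨x, ⟨k, hk⟩, rfl⟩ := exists_lift p N q hq
    obtain ⟨Q, hxQ⟩ := CF.Fgs2.exists_sylow_mem hk
    rw [← hQ Q]
    let f : (N ⊓ Q : Subgroup G) →
        {g : G // (∃ k : ℕ, orderOf g = p ^ k) ∧ (g : G ⧸ N) = x} := fun n =>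
      ⟨x * n, CF.Fgs2.orderOf_eq_pow_of_mem Q.2 (mul_mem hxQ n.2.2), by
        rw [QuotientGroup.mk_mul_of_mem _ n.2.1]⟩
    have hf : Function.Injective f := by
      intro a b h
      exact Subtype.ext (mul_left_cancel (congrArg Subtype.val h : x * a = x * b))
    refine ⟨Nat.card_le_card_of_injective f hf, fun hZ => ?_⟩
    refine Nat.card_congr (Equiv.ofBijective f ⟨hf, ?_⟩)
    rintro ⟨g, ⟨j, hj⟩, hg⟩
    have hn : x⁻¹ * g ∈ N := QuotientGroup.eq.1 hg.symm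
    have hc : Commute x⁻¹ g := by
      have := Subgroup.mem_center_iff.1 (hZ hn) g
      calc x⁻¹ * g = g⁻¹ * (g * (x⁻¹ * g)) := by group
        _ = g⁻¹ * ((x⁻¹ * g) * g) := by rw [this]
        _ = g⁻¹ * (x⁻¹ * g) * g := by group
        _ = (x⁻¹ * g) * g⁻¹ * g := by rw [Subgroup.mem_center_iff.1 (hZ hn) g⁻¹]
        _ = x * (x⁻¹ * g) * x⁻¹ * g⁻¹ * g := by
          rw [Subgroup.mem_center_iff.1 (hZ hn) x]; group
        _ = g * x⁻¹ := by group
    have hdv : orderOf (x⁻¹ * g) ∣ p ^ (k + j) := by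
      rw [pow_add, ← hk, ← hj, ← orderOf_inv x]
      exact hc.orderOf_mul_dvd_mul_orderOf
    obtain ⟨i, -, hi⟩ := (Nat.dvd_prime_pow Fact.out).1 hdv
    obtain ⟨h, hh⟩ := CF.Fgs2.exists_conj_mem_sylow Q hi
    have : h⁻¹ * (x⁻¹ * g) * h = x⁻¹ * g := by
      rw [Subgroup.mem_center_iff.1 (hZ hn) h⁻¹]; group
    rw [this] at hh
    exact ⟨⟨x⁻¹ * g, hn, hh⟩, Subtype.ext (by simp [f])⟩
  rw [card_eq_sum p N, card_sylow p N P Pbar, ← mul_assoc]
  constructor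
  · refine Nat.mul_le_mul_right _ ?_
    rw [Nat.card_eq_fintype_card, ← Finset.card_univ, ← smul_eq_mul]
    exact Finset.card_nsmul_le_sum _ _ _ fun q _ => (key q).1
  · intro hZ
    congr 1
    rw [Finset.sum_congr rfl fun q _ => ((key q).2 hZ).symm]
    simp

end Cfsg.Agent.S4153
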