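import Mathlib
import Cfsg.Agent.Fgs2.Basic
import Cfsg.Statements.S4154

set_option autoImplicit false
open Cfsg

namespace Cfsg.Agent.S4154

theorem aux {H : Type*} [Group H] [Finite H] (β : H →* H) (C : Subgroup H)
    (hC : C ≤ β.eqLocus (MonoidHom.id H)) (h : ∀ x : H, ∃ c ∈ C, ∃ g : H, x = c * (g⁻¹ * β g)) :
    C = β.eqLocus (MonoidHom.id H) := by
  set F := β.eqLocus (MonoidHom.id H)
  let f : C × (H ⧸ F) → H := fun z => z.1 * (z.2.out * (β z.2.out)⁻¹)
  have hf : Function.Surjective f := by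
    intro x
    obtain ⟨c, hc, g, rfl⟩ := h x
    obtain ⟨u, hu⟩ := QuotientGroup.mk_out_eq_mul F g⁻¹
    have hu' : β u = u := u.2
    refine ⟨(⟨c, hc⟩, QuotientGroup.mk g⁻¹), ?_⟩
    simp only [f, hu, map_mul, map_inv, hu']
    group
  have h1 := Nat.card_le_card_of_surjective f hf
  rw [Nat.card_prod, ← Subgroup.index_eq_card, ← F.card_mul_index] at h1
  exact Subgroup.eq_of_le_of_card_ge hC
    (Nat.le_of_mul_le_mul_right h1 (Nat.pos_of_ne_zero Subgroup.index_ne_zero_of_finite))

/-- Let G be a finite group and α an automorphism of G such that every element of G is the product of an element fixed by α and an element of the form g⁻¹α(g). If N is a normal α-invariant subgroup, then the automorphism ᾱ induced on G/N has the same property, and every coset fixed by ᾱ contains an element fixed by α (so the fixed points of ᾱ are the images of the fixed points of α). -/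
theorem result {G : Type*} [Group G] [Finite G] (α : MulAut G)
    (hccp : ∀ x : G, ∃ c g : G, α c = c ∧ x = c * (g⁻¹ * α g))
    (N : Subgroup G) [N.Normal] (hN : ∀ n ∈ N, α n ∈ N) :
    (∀ x : G, ∃ c g : G, c⁻¹ * α c ∈ N ∧ x⁻¹ * (c * (g⁻¹ * α g)) ∈ N) ∧
    (∀ x : G, x⁻¹ * α x ∈ N → ∃ c : G, α c = c ∧ c⁻¹ * x ∈ N) := by
  constructor
  · intro x
    obtain ⟨c, g, h1, h2⟩ := hccp x
    exact ⟨c, g, by simp [h1], by rw [← h2]; simp⟩
  · intro x hx
    let β : G ⧸ N →* G ⧸ N := QuotientGroup.map N N α.toMonoidHom (fun n hn => hN n hn)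
    have hβ : ∀ g : G, β g = ((α g : G) : G ⧸ N) := fun g => rfl
    have := aux β ((α.toMonoidHom.eqLocus (MonoidHom.id G)).map (QuotientGroup.mk' N)) (by
      rintro _ ⟨c, hc, rfl⟩
      have hc : α c = c := hc
      change β c = c
      rw [hβ, hc]) (by
      intro q
      induction q using QuotientGroup.induction_on with | H y =>
      obtain ⟨c, g, h1, h2⟩ := hccp y
      exact ⟨c, ⟨c, h1, rfl⟩, g, by rw [h2, hβ]; rfl⟩)
    have hx' : (x : G ⧸ N) ∈ β.eqLocus (MonoidHom.id _) := by
      change β x = x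
      rw [hβ]; exact (QuotientGroup.eq.2 hx).symm
    rw [← this] at hx'
    obtain ⟨c, hc, hcx⟩ := hx'
    exact ⟨c, hc, QuotientGroup.eq.1 hcx⟩

end Cfsg.Agent.S4154
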