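import Cfsg.Statements.S4155
import Cfsg.Agent.SolvStr.Cam

set_option autoImplicit false
open Cfsg

namespace Cfsg.Agent.S4155

/-- Let G be a finite group and N a proper non-trivial normal nilpotent subgroup whose order is not a prime power, such that for every x outside N all elements of the coset xN have the same order as x. Then N is the Fitting subgroup of G, and for every prime q every Sylow q-subgroup of G/N is cyclic or generalized quaternion. -/
theorem result {G : Type*} [Group G] [Finite G] (N : Subgroup G) [N.Normal] (hN1 : N ≠ ⊥) (hN2 : N ≠ ⊤)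
    (heq : ∀ x : G, x ∉ N → ∀ n ∈ N, orderOf (x * n) = orderOf x)
    (hnil : Group.IsNilpotent N) (hnpp : ¬ IsPrimePow (Nat.card N)) :
    N = Cfsg.fittingSubgroup G ∧
    ∀ (q : ℕ) [Fact q.Prime] (Q : Sylow q (G ⧸ N)), IsCyclic (Q : Subgroup (G ⧸ N)) ∨ ∃ n : ℕ, Nonempty ((Q : Subgroup (G ⧸ N)) ≃* QuaternionGroup (2 ^ n)) := by
  open CF.BG CF.SolvStr in
  have n : ⊤ ≤ 𝐍 N := (normalIn_top.2 ‹_›).norm
  have ne : ∀ q : ℕ, q.Prime → 𝐎 {q}ᶜ N ≠ ⊥ := fun q hq e => by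
    have := (Nil.dprod hnil {q}).sup
    rw [e, sup_bot_eq] at this
    obtain ⟨k, e⟩ := (this ▸ O_pi {q} N : PiGrp {q} N).card_pow
    refine hnpp ⟨q, k, hq.prime, Nat.pos_of_ne_zero ?_, e.symm⟩
    rintro rfl
    exact hN1 (Subgroup.card_eq_one.1 e)
  have l : N ≤ 𝐅 ⊤ := le_F ⟨le_top, n⟩ hnil
  rw [← F_top]
  refine ⟨le_antisymm l (F_le_of_forall fun p hp _ x hx => by_contra fun x1 => ?_),
    fun q hq Q => ?_⟩
  · refine ne p hp (EqOrd.inf_cent1 heq x1 ((O_pi _ _).elt hx) (O_le _ _) (O_pi _ _) ▸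
      (inf_eq_left.2 (le_cent1_iff.2 ?_)).symm)
    exact (F_nil ⊤).cent_of_pi (O_le_F p ⊤) ((O_le _ _).trans l) (O_pi _ _) (O_pi _ _) hx
  obtain ⟨P, hP⟩ := exists_syl q (⊤ : Subgroup G)
  have s := hP.map (QuotientGroup.mk' N)
  rw [Subgroup.map_top_of_surjective _ (QuotientGroup.mk'_surjective N)] at s
  obtain ⟨g, -, e⟩ := s.syl_conj (syl_sylow_top Q)
  obtain ⟨g, rfl⟩ := QuotientGroup.mk'_surjective N g
  rw [← map_cj] at e
  have hP := hP.cj_top g
  generalize cj g P = P at e hP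
  refine (CF.Solv.isCyclic_or_quaternion Q.isPGroup' fun x y hx hy x1 => ?_).imp_right
    fun ⟨_, k, _, h⟩ => ⟨k, h⟩
  obtain ⟨a, ha, ea⟩ := e.le x.2
  obtain ⟨b, hb, eb⟩ := e.le y.2
  have pw : ∀ (z : Q) (c : G), QuotientGroup.mk' N c = z → z ^ q = 1 → c ^ q ∈ N := fun z c e h => by
    rw [← QuotientGroup.eq_one_iff, ← QuotientGroup.mk'_apply, map_pow, e]
    exact congrArg Subtype.val h
  have := mem_sup_of_fpf hq.out hP.pi (le_norm_O {q}ᶜ (le_top.trans n)) (ne q hq.out) (O_pi _ _)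
    (le_top.trans n) (Nil.cent_of_pi hnil inf_le_right (O_le _ _) hP.pi.inf_left (O_pi _ _))
    (fun x hx x1 => EqOrd.inf_cent1 heq x1 (hP.pi.elt hx) (O_le _ _) (O_pi _ _)) ha hb
    (pw x a ea hx) (pw y b eb hy) fun k => x1 (Subtype.ext (ea ▸ (QuotientGroup.eq_one_iff a).2 k))
  have := Subgroup.mem_map_of_mem (QuotientGroup.mk' N) this
  rw [Subgroup.map_sup, (Subgroup.map_eq_bot_iff _).2 (inf_le_right.trans (QuotientGroup.ker_mk' _).ge),
    bot_sup_eq, MonoidHom.map_zpowers, ea, eb] at this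
  obtain ⟨k, hk⟩ := this
  exact ⟨k, Subtype.ext hk⟩

end Cfsg.Agent.S4155
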