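import Mathlib
import Cfsg.Agent.Small.Basic
import Cfsg.Statements.S4156

set_option autoImplicit false
open Cfsg

namespace Cfsg.Agent.S4156

/-- the matrix of a permutation on the sum-zero module -/
def mat (n : ℕ) (F : Type*) [Field F] : Equiv.Perm (Fin (n + 1)) →* Matrix (Fin n) (Fin n) F where
  toFun σ := Matrix.of fun i j =>
    (if σ j.succ = i.succ then 1 else 0) - (if σ 0 = i.succ then 1 else 0)
  map_one' := by
    ext i j
    simp [Matrix.one_apply, eq_comm, (Fin.succ_ne_zero i)]
  map_mul' σ τ := by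
    ext i j
    have key : ∀ b : Fin (n + 1), ∑ k : Fin n, ((if σ k.succ = i.succ then (1 : F) else 0) -
        (if σ 0 = i.succ then 1 else 0)) * (if b = k.succ then 1 else 0) =
        (if σ b = i.succ then 1 else 0) - (if σ 0 = i.succ then 1 else 0) := by
      intro b
      refine Fin.cases ?_ (fun b => ?_) b
      · simp [(Fin.succ_ne_zero _).symm]
      · simp
    simp only [Matrix.mul_apply, Matrix.of_apply, mul_sub, Finset.sum_sub_distrib, key,
      Equiv.Perm.mul_apply]
    exact (sub_sub_sub_cancel_right _ _ _).symm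

/-- Let n ≥ 5 and F a finite field. Then the projective special linear group PSL_n(F) contains a subgroup isomorphic to the alternating group of degree n + 1. -/
theorem result (n : ℕ) (hn : 5 ≤ n) (F : Type*) [Field F] [Finite F] :
    ∃ f : alternatingGroup (Fin (n + 1)) →* Matrix.ProjectiveSpecialLinearGroup (Fin n) F, Function.Injective f := by
  have : IsSimpleGroup (alternatingGroup (Fin (n + 1))) :=
    alternatingGroup.isSimpleGroup (by simp; omega)
  have hperf : commutator (alternatingGroup (Fin (n + 1))) = ⊤ :=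
    commutator_alternatingGroup_eq_top (by simp; omega)
  let ρ := (mat n F).comp (alternatingGroup (Fin (n + 1))).subtype
  have hdet : ∀ g, (ρ g).det = 1 := fun g =>
    congrArg Units.val (CF.Small.hom_eq_one_of_perfect hperf
      (Matrix.detMonoidHom.comp ρ).toHomUnits g)
  let φ : alternatingGroup (Fin (n + 1)) →* Matrix.SpecialLinearGroup (Fin n) F :=
    { toFun := fun g => ⟨ρ g, hdet g⟩
      map_one' := Subtype.ext (map_one ρ)
      map_mul' := fun a b => Subtype.ext (map_mul ρ a b) }
  refine ⟨(QuotientGroup.mk' _).comp φ, ?_⟩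
  rw [← MonoidHom.ker_eq_bot_iff]
  refine (Subgroup.Normal.eq_bot_or_eq_top inferInstance).resolve_right fun h => ?_
  have h1 : ∀ g, φ g ∈ Subgroup.center _ := fun g => by
    have : g ∈ ((QuotientGroup.mk' (Subgroup.center _)).comp φ).ker := h ▸ trivial
    exact (QuotientGroup.eq_one_iff _).1 this
  have h2 : ∀ g, φ g = 1 := by
    have : commutator (alternatingGroup (Fin (n + 1))) ≤ φ.ker := by
      rw [commutator_def, Subgroup.commutator_le]
      intro a _ b _
      rw [MonoidHom.mem_ker, map_commutatorElement, commutatorElement_eq_one_iff_mul_comm]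
      exact Subgroup.mem_center_iff.1 (h1 b) _
    exact fun g => this (hperf ▸ trivial)
  obtain ⟨m, rfl⟩ : ∃ m, n = m + 2 := ⟨n - 2, by omega⟩
  let a : Fin (m + 2 + 1) := 0
  let b : Fin (m + 2 + 1) := Fin.succ 0
  let c : Fin (m + 2 + 1) := Fin.succ (Fin.succ 0)
  have hab : a ≠ b := (Fin.succ_ne_zero _).symm
  have hac : a ≠ c := (Fin.succ_ne_zero _).symm
  have hbc : b ≠ c := fun h => (Fin.succ_ne_zero _).symm (Fin.succ_injective _ h)
  have h3 := h2 ⟨Equiv.swap a b * Equiv.swap b c, by
    rw [Equiv.Perm.mem_alternatingGroup, map_mul, Equiv.Perm.sign_swap hab,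
      Equiv.Perm.sign_swap hbc]; simp⟩
  have h4 : mat (m + 2) F (Equiv.swap a b * Equiv.swap b c) = 1 :=
    congrArg (fun x => x.1) h3
  have h5 := congrFun (congrFun h4 (Fin.succ 0)) 0
  rw [Matrix.one_apply_ne (Fin.succ_ne_zero _)] at h5
  change (if Equiv.swap a b (Equiv.swap b c b) = c then (1 : F) else 0) -
    (if Equiv.swap a b (Equiv.swap b c a) = c then 1 else 0) = 0 at h5
  rw [Equiv.swap_apply_left, Equiv.swap_apply_of_ne_of_ne hac.symm hbc.symm,
    Equiv.swap_apply_of_ne_of_ne hab hac, Equiv.swap_apply_left, if_pos rfl, if_neg hbc] at h5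
  simp at h5

end Cfsg.Agent.S4156
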