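import Cfsg.Statements.S4159
import Cfsg.Agent.Fgs3.Misc
import Cfsg.Agent.SolvStr.Homog

set_option autoImplicit false
open Cfsg

namespace Cfsg.Agent.S4159

open CF.BG CF.Fgs3 Subgroup

theorem idx_eq {G : Type*} [Group G] (H : Subgroup G) (x : H) :
    (Subgroup.centralizer ({x} : Set H)).index = (𝐂₁ (x : G)).relIndex H := by
  have : Subgroup.centralizer ({x} : Set H) = (𝐂₁ (x : G)).subgroupOf H := by
    ext y
    rw [mem_cent1, Subgroup.mem_subgroupOf, mem_cent1, Subtype.ext_iff]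
    simp
  rw [this]; rfl


/-- Let G be a finite group such that in every subgroup H of G, any two conjugacy classes of H of size greater than 1 have non-coprime sizes. Then G is solvable. -/
theorem result {G : Type*} [Group G] [Finite G]
    (h : ∀ (H : Subgroup G) (x y : H), 1 < (Subgroup.centralizer ({x} : Set H)).index → 1 < (Subgroup.centralizer ({y} : Set H)).index →
      ¬ ((Subgroup.centralizer ({x} : Set H)).index).Coprime (Subgroup.centralizer ({y} : Set H)).index) : Group.IsSolvable G := by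
  by_contra hG
  obtain ⟨P⟩ : Nonempty (Sylow 2 G) := inferInstance
  have hP : ¬ (P : Subgroup G).Normal := by
    intro hn
    apply hG
    have h1 : Sol (⊤ : Subgroup G) := by
      have hN : (P : Subgroup G) ⊴ ⊤ := normalIn_top.2 hn
      refine Sol.of_qt (syl_sylow_top P).pi.sol hN.norm (sol_of_pi' ?_)
      exact (piGrp_qt_iff hN.norm).2 (syl_sylow_top P).idx
    exact Group.isSolvable_of_surjective (f := (⊤ : Subgroup G).subtype) fun g => ⟨⟨g, trivial⟩, rfl⟩
  obtain ⟨x, n, hx1, hodd, hn⟩ := CF.SolvStr.exists_odd_inverted P hP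
  have hne : x⁻¹ ≠ x := by
    intro e
    have h2 : x ^ 2 = 1 := by rw [pow_two]; nth_rewrite 1 [← e]; simp
    have h3 := orderOf_dvd_of_pow_eq_one h2
    rcases (Nat.dvd_prime Nat.prime_two).1 h3 with h4 | h4
    · exact hx1 (orderOf_eq_one_iff.1 h4)
    · rw [h4] at hodd; exact absurd hodd (by decide)
  have hn' : n⁻¹ * x * n = x⁻¹ := by
    have : n⁻¹ * x⁻¹ * n = x := by rw [← hn]; group
    calc n⁻¹ * x * n = (n⁻¹ * x⁻¹ * n)⁻¹ := by group
      _ = x⁻¹ := by rw [this]
  have hXn : zpowers n ≤ 𝐍 (zpowers x) := by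
    rw [Subgroup.zpowers_le, ← cj_eq_self, cj_zpowers, hn, Subgroup.zpowers_inv]
  set H := zpowers x ⊔ zpowers n with hH
  have hxH : x ∈ H := (le_sup_left : zpowers x ≤ H) (mem_zpowers x)
  have hnH : n ∈ H := (le_sup_right : zpowers n ≤ H) (mem_zpowers n)
  have key : ∀ g ∈ H, g * x * g⁻¹ = x ∨ g * x * g⁻¹ = x⁻¹ := by
    intro g hg
    obtain ⟨a, ha, b, hb, rfl⟩ := (mem_sup_norm' hXn).1 hg
    have hb' : b * x * b⁻¹ = x ∨ b * x * b⁻¹ = x⁻¹ := by
      obtain ⟨k, rfl⟩ := (Submonoid.mem_powers_iff _ _).1 (mem_powers_iff_mem_zpowers.2 hb)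
      clear hg hb
      induction k with
      | zero => left; simp
      | succ k ih =>
        rw [pow_succ']
        rcases ih with e | e
        · right
          rw [show n * n ^ k * x * (n * n ^ k)⁻¹ = n * (n ^ k * x * (n ^ k)⁻¹) * n⁻¹ by group, e, hn]
        · left
          rw [show n * n ^ k * x * (n * n ^ k)⁻¹ = n * (n ^ k * x * (n ^ k)⁻¹) * n⁻¹ by group, e,
            show n * x⁻¹ * n⁻¹ = (n * x * n⁻¹)⁻¹ by group, hn, inv_inv]
    have hax : a * x * a⁻¹ = x := by
      rw [(abel_zpowers x).mul_comm ha (mem_zpowers x)]; group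
    rcases hb' with e | e
    · left; rw [show a * b * x * (a * b)⁻¹ = a * (b * x * b⁻¹) * a⁻¹ by group, e, hax]
    · right
      rw [show a * b * x * (a * b)⁻¹ = a * (b * x * b⁻¹) * a⁻¹ by group, e,
        show a * x⁻¹ * a⁻¹ = (a * x * a⁻¹)⁻¹ by group, hax]
  have h2 : (𝐂₁ x).relIndex H = 2 := by
    rw [Subgroup.relIndex, Subgroup.index_eq_two_iff]
    refine ⟨⟨n, hnH⟩, fun b => ?_⟩
    simp only [Subgroup.mem_subgroupOf, mem_cent1, Subgroup.coe_mul]
    have e1 : ∀ g : G, g * x = x * g ↔ g * x * g⁻¹ = x := fun g => by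
      rw [mul_inv_eq_iff_eq_mul]
    rw [e1, e1, show (b : G) * n * x * ((b : G) * n)⁻¹ = ((b : G) * (n * x * n⁻¹)⁻¹ * (b : G)⁻¹)⁻¹ by group, hn, inv_inv]
    rcases key b b.2 with e | e
    · rw [e]; right; exact ⟨rfl, hne⟩
    · rw [e, inv_inv]; left; exact ⟨rfl, hne⟩
  have h3 : (𝐂₁ n).relIndex H ∣ orderOf x := by
    have a1 : (𝐂₁ n).relIndex H ∣ (zpowers n).relIndex H :=
      relIndex_dvd_left H (by rw [Subgroup.zpowers_le]; exact self_mem_cent1 n)
    rw [hH, relIndex_sup_norm (Or.inr hXn)] at a1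
    refine a1.trans ?_
    rw [← Nat.card_zpowers]
    exact Subgroup.relIndex_dvd_card _ _
  have h4 : 1 < (𝐂₁ n).relIndex H := by
    have h0 := relIndex_pos (𝐂₁ n) H
    have : (𝐂₁ n).relIndex H ≠ 1 := fun e => by
      have := mem_cent1.1 (Subgroup.relIndex_eq_one.1 e hxH)
      apply hne
      rw [← hn, ← this]; group
    omega
  refine h H ⟨x, hxH⟩ ⟨n, hnH⟩ (by rw [idx_eq, h2]; norm_num) (by rw [idx_eq]; exact h4) ?_
  rw [idx_eq, idx_eq, h2]
  exact Nat.Coprime.coprime_dvd_right h3 ((Nat.coprime_two_left).2 hodd)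

end Cfsg.Agent.S4159
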