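import Cfsg.Statements.S4160
import Cfsg.Agent.SolvStr.Cls1

set_option autoImplicit false
open Cfsg

namespace Cfsg.Agent.S4160

/-- Let G be a finite group and p ≠ q primes each dividing the size of some conjugacy class of G, such that no conjugacy class size is divisible by pq. Then G has a normal p-complement or a normal q-complement. -/
theorem result {G : Type*} [Group G] [Finite G] (p q : ℕ) (hp : p.Prime) (hq : q.Prime) (hpq : p ≠ q)
    (hp' : ∃ x : G, p ∣ (Subgroup.centralizer ({x} : Set G)).index) (hq' : ∃ x : G, q ∣ (Subgroup.centralizer ({x} : Set G)).index) (h : ∀ x : G, ¬ p * q ∣ (Subgroup.centralizer ({x} : Set G)).index) :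
    Cfsg.HasNormalPComplement p G ∨ Cfsg.HasNormalPComplement q G := by
  open CF.BG CF.SolvStr in
  obtain ⟨P, hP⟩ := exists_syl p (⊤ : Subgroup G)
  obtain ⟨Q, hQ⟩ := exists_syl q (⊤ : Subgroup G)
  have k : ∀ r : ℕ, r.Prime → NPC r (⊤ : Subgroup G) → Cfsg.HasNormalPComplement r G := fun r hr n =>
    have := Fact.mk hr
    CF.Transfer.hasNPC_top_iff.1 ((npc_iff hr).1 n)
  refine (ito hP hQ fun x => ?_).imp (fun c => k p hp (hP.burnside (inf_le_right.trans c)))
    fun c => k q hq (hQ.burnside (inf_le_right.trans c))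
  rw [piNat_compl_single hp, piNat_compl_single hq, ← not_and_or]
  exact fun c => h x (((Nat.coprime_primes hp hq).2 hpq).mul_dvd_of_dvd_of_dvd c.1 c.2)

end Cfsg.Agent.S4160
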