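import Cfsg.Statements.S4162
import Cfsg.Agent.Dc.F

set_option autoImplicit false
open Cfsg

namespace Cfsg.Agent.S4162

/-- Let G be a non-trivial finite solvable group in which distinct conjugacy classes have distinct sizes. Then G is isomorphic to the symmetric group of degree 3. -/
theorem result {G : Type*} [Group G] [Finite G] [Nontrivial G] (hG : Group.IsSolvable G)
    (h : Function.Injective fun C : ConjClasses G => Nat.card C.carrier) : Nonempty (G ≃* Equiv.Perm (Fin 3)) := by
  refine CF.Dc.Ah.main (fun x y e => ConjClasses.mk_eq_mk_iff_isConj.1 (h ?_)) hG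
  have k : ∀ x : G, Nat.card (ConjClasses.mk x).carrier = {y | IsConj x y}.ncard := fun x => by
    rw [Nat.card_coe_set_eq]
    exact congrArg Set.ncard (Set.ext fun y => ConjClasses.mem_carrier_iff_mk_eq.trans
      (ConjClasses.mk_eq_mk_iff_isConj.trans isConj_comm))
  have k1 := CF.Dc.ncard_cl x
  rw [← CF.Dc.ncard_cl y, e] at k1
  simpa only [k] using Nat.eq_of_mul_eq_mul_right Nat.card_pos k1

end Cfsg.Agent.S4162
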