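import Mathlib
import Cfsg.Agent.Fgs2.Basic
import Cfsg.Statements.S4168

set_option autoImplicit false
open Cfsg

namespace Cfsg.Agent.S4168

/-- Let L be a finite quasisimple group (perfect with L/Z(L) simple). Then every prime dividing the order of the centre Z(L) also divides the order of L/Z(L). -/
theorem result {L : Type*} [Group L] [Finite L] (hL : Cfsg.IsQuasisimple L)
    (p : ℕ) (hp : p.Prime) (hdiv : p ∣ Nat.card (Subgroup.center L)) : p ∣ (Subgroup.center L).index := by
  have := Fact.mk hp
  obtain ⟨z, hz⟩ := exists_prime_orderOf_dvd_card' p hdiv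
  have h1 : commutator L ≤ (MonoidHom.transferCenterPow L).ker := by
    rw [commutator_def, Subgroup.commutator_le]
    intro a _ b _
    rw [MonoidHom.mem_ker, map_commutatorElement, commutatorElement_eq_one_iff_mul_comm]
    exact mul_comm' _ _
  have hperf : commutator L = ⊤ := hL.1.commutator_eq_top
  have h2 : MonoidHom.transferCenterPow L z = 1 := h1 (hperf ▸ Subgroup.mem_top _)
  have h3 : (z : L) ^ (Subgroup.center L).index = 1 := by
    rw [← MonoidHom.transferCenterPow_apply, h2]; rfl
  rw [← hz, ← Subgroup.orderOf_coe]
  exact orderOf_dvd_of_pow_eq_one h3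

end Cfsg.Agent.S4168
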