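import Cfsg.Statements.S4170
import Cfsg.Agent.Coprime.Basic
import Cfsg.Agent.Solv.Nilpotent

set_option autoImplicit false
open scoped Pointwise
open Cfsg

namespace Cfsg.Agent.S4170

/-- Let p be an odd prime and G a nontrivial group of permutations of a finite set Ω that is generated by its elements of p-power order. Then Ω has two disjoint nonempty subsets Δ₁ and Δ₂ such that the index in G of the subgroup of elements mapping Δ₁ onto Δ₁ and Δ₂ onto Δ₂ (and hence also the complement of their union onto itself) is divisible by p. -/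
theorem result {Ω : Type*} [Fintype Ω] (p : ℕ) [Fact p.Prime] (hp : p ≠ 2) (G : Subgroup (Equiv.Perm Ω)) (hG : G ≠ ⊥) (hgen : Subgroup.closure {g : G | ∃ k : ℕ, orderOf g = p ^ k} = ⊤) :
    ∃ Δ₁ Δ₂ : Set Ω, Δ₁.Nonempty ∧ Δ₂.Nonempty ∧ Disjoint Δ₁ Δ₂ ∧ p ∣ (MulAction.stabilizer G Δ₁ ⊓ MulAction.stabilizer G Δ₂).index := by
  classical
  have hpp : p.Prime := Fact.out
  obtain ⟨g, ⟨k, hk⟩, hg1⟩ : ∃ g : G, (∃ k : ℕ, orderOf g = p ^ k) ∧ g ≠ 1 := by
    by_contra h
    push Not at h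
    have h1 : (⊤ : Subgroup G) ≤ ⊥ := by
      rw [← hgen, Subgroup.closure_le]
      exact fun g hg => h g hg
    refine hG (eq_bot_iff.mpr fun x hx => ?_)
    exact congrArg Subtype.val (Subgroup.mem_bot.mp (h1 (Subgroup.mem_top (⟨x, hx⟩ : G))))
  have hk0 : k ≠ 0 := by
    rintro rfl
    exact hg1 (orderOf_eq_one_iff.mp hk)
  obtain ⟨x, hx⟩ := exists_prime_orderOf_dvd_card' (G := G) p
    ((hk ▸ dvd_pow_self p hk0).trans (orderOf_dvd_natCard g))
  obtain ⟨β, hβ⟩ : ∃ β : Ω, x • β ≠ β := by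
    by_contra h
    push Not at h
    have : x = 1 := Subtype.ext (Equiv.ext h)
    exact hpp.ne_one (by rw [← hx, this, orderOf_one])
  let Λ : Set Ω := MulAction.orbit (Subgroup.zpowers x) β
  have hΛ : Λ.ncard ≤ p := by
    rw [← hx, ← Nat.card_zpowers, ← Nat.card_coe_set_eq]
    exact Nat.card_le_card_of_surjective _ (Set.rangeFactorization_surjective)
  have hβΛ : β ∈ Λ := MulAction.mem_orbit_self β
  have hxΛ : x • Λ = Λ := MulAction.smul_orbit (⟨x, Subgroup.mem_zpowers x⟩ : Subgroup.zpowers x) β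
  refine ⟨{β}, Λ \ {β}, Set.singleton_nonempty β,
    ⟨x • β, ⟨⟨x, Subgroup.mem_zpowers x⟩, rfl⟩, hβ⟩, Set.disjoint_sdiff_right, ?_⟩
  by_contra hnd
  obtain ⟨P, hP⟩ := CF.Solv.exists_sylow_le_of_not_dvd_index hnd
  have hfix : ∀ g ∈ (P : Subgroup G), ∀ γ ∈ Λ, g • γ = γ := by
    intro g hg γ hγ
    by_cases e : γ = β
    · subst e
      simpa using (hP hg).1
    · have h1 : MulAction.orbit P γ ⊆ Λ \ {β} := by
        rintro _ ⟨u, rfl⟩
        have h2 : (u : G) • (Λ \ {β}) = Λ \ {β} := (hP u.2).2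
        rw [← h2]
        exact Set.smul_mem_smul_set ⟨hγ, e⟩
      have h3 : (MulAction.orbit P γ).ncard < p :=
        ((Set.ncard_le_ncard h1).trans_lt (Set.ncard_diff_singleton_lt_of_mem hβΛ)).trans_le hΛ
      obtain ⟨n, hn⟩ := P.isPGroup'.card_orbit γ
      rw [Nat.card_coe_set_eq] at hn
      have hn0 : n = 0 := by
        by_contra h
        rw [hn] at h3
        exact absurd (Nat.le_self_pow h p) (not_le.mpr h3)
      rw [hn0, pow_zero, Set.ncard_eq_one] at hn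
      obtain ⟨a, ha⟩ := hn
      have h4 : (⟨g, hg⟩ : (P : Subgroup G)) • γ ∈ MulAction.orbit P γ := MulAction.mem_orbit _ _
      have h5 := MulAction.mem_orbit_self (M := P) γ
      rw [ha] at h4 h5
      exact h4.trans h5.symm
  let L := MulAction.stabilizer G Λ
  have hPL : (P : Subgroup G) ≤ L := fun g hg => by
    change g • Λ = Λ
    ext γ
    refine ⟨?_, fun h => ⟨γ, h, hfix g hg γ h⟩⟩
    rintro ⟨δ, hδ, rfl⟩
    simpa [hfix g hg δ hδ] using hδ
  have hxp : IsPGroup p (Subgroup.zpowers x) :=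
    IsPGroup.of_card (n := 1) (by rw [Nat.card_zpowers, hx, pow_one])
  obtain ⟨Q, hQ, hxQ⟩ := CF.Coprime.exists_isSylowOf_ge (K := L)
    (Subgroup.zpowers_le_of_mem hxΛ) hxp
  obtain ⟨l, hl, e⟩ := ((CF.Coprime.isSylowOf_top P).of_le hPL le_top).conj hQ
  have h1 := hxQ (Subgroup.mem_zpowers x)
  rw [← e, CF.Solv.mem_conj_smul_iff] at h1
  have h2 : l⁻¹ • β ∈ Λ := by
    have h3 : l⁻¹ • Λ = Λ := L.inv_mem hl
    rw [← h3]
    exact Set.smul_mem_smul_set hβΛ
  have h3 := hfix _ h1 _ h2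
  rw [← mul_smul, mul_inv_cancel_right, mul_smul] at h3
  exact hβ (smul_left_cancel _ h3)

end Cfsg.Agent.S4170
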