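import Mathlib
import Cfsg.Agent.Solv.Hall
import Cfsg.Agent.BG.B6
import Cfsg.Statements.S4176

set_option autoImplicit false
open Cfsg

namespace Cfsg.Agent.S4176

open Subgroup CF.Solv CF.BG

section
variable {k V H : Type*} [Field k] [AddCommGroup V] [Module k V] [Group H] (ρ : Representation k H V)

/-- stabiliser of a vector -/
def stab (a : V) : Subgroup H where
  carrier := {h | ρ h a = a}
  one_mem' := by simp
  mul_mem' := fun {x y} hx hy => by
    simp only [Set.mem_setOf_eq] at *
    rw [map_mul, Module.End.mul_apply, hy, hx]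
  inv_mem' := fun {x} hx => by
    simp only [Set.mem_setOf_eq] at *
    nth_rewrite 1 [← hx]
    rw [← Module.End.mul_apply, ← map_mul, inv_mul_cancel, map_one, Module.End.one_apply]

theorem mem_stab {a : V} {h : H} : h ∈ stab ρ a ↔ ρ h a = a := Iff.rfl

theorem index_stab (a : V) : (stab ρ a).index = Nat.card {u : V | ∃ h : H, ρ h a = u} := by
  refine Nat.card_congr (Equiv.ofBijective (Quotient.lift (fun h => ⟨ρ h a, h, rfl⟩) ?_) ⟨?_, ?_⟩)
  · intro x y hxy
    have := (mem_stab ρ).1 (QuotientGroup.leftRel_apply.1 hxy)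
    apply Subtype.ext
    change ρ x a = ρ y a
    nth_rewrite 1 [← this]
    rw [← Module.End.mul_apply, ← map_mul, mul_inv_cancel_left]
  · intro x y
    induction x using QuotientGroup.induction_on with | H x => ?_
    induction y using QuotientGroup.induction_on with | H y => ?_
    intro e
    have e2 : ρ x a = ρ y a := congrArg Subtype.val e
    refine QuotientGroup.eq.2 ((mem_stab ρ).2 ?_)
    rw [map_mul, Module.End.mul_apply, ← e2, ← Module.End.mul_apply, ← map_mul, inv_mul_cancel,
      map_one, Module.End.one_apply]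
  · rintro ⟨_, h, rfl⟩
    exact ⟨(h : H ⧸ stab ρ a), rfl⟩

theorem key [Finite H] {p : ℕ} [Fact p.Prime] [CharP k p] {a : V}
    (hm : ¬ p ∣ (stab ρ a).index)
    (hspan : Submodule.span k {u : V | ∃ h : H, ρ h a = u} = ⊤) :
    ∃ t : V, (∀ h, ρ h t = t) ∧ ∀ B : Subgroup H, ¬ p ∣ Nat.card B →
      B.index.Coprime (stab ρ a).index → ∀ v, (∀ x ∈ B, ρ x v = v) → v ∈ Submodule.span k {t} := by
  classical
  have hfin : {u : V | ∃ h : H, ρ h a = u}.Finite := Set.finite_range fun h => ρ h a
  have hO : ∀ u, u ∈ hfin.toFinset ↔ ∃ h : H, ρ h a = u := fun u => by simp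
  have hmul : ∀ x y v, ρ x (ρ y v) = ρ (x * y) v := fun x y v => by
    rw [map_mul, Module.End.mul_apply]
  have ht : ∀ h, ρ h (∑ u ∈ hfin.toFinset, u) = ∑ u ∈ hfin.toFinset, u := by
    intro h
    rw [map_sum]
    refine Finset.sum_nbij' (fun u => ρ h u) (fun u => ρ h⁻¹ u) ?_ ?_ ?_ ?_ ?_
    · intro u hu
      obtain ⟨x, rfl⟩ := (hO u).1 hu
      exact (hO _).2 ⟨_, (hmul _ _ _).symm⟩
    · intro u hu
      obtain ⟨x, rfl⟩ := (hO u).1 hu
      exact (hO _).2 ⟨_, (hmul _ _ _).symm⟩
    · intro u _; simp [hmul]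
    · intro u _; simp [hmul]
    · intro u _; rfl
  refine ⟨_, ht, fun B hB hc v hv => ?_⟩
  haveI := Fintype.ofFinite B
  let S : Module.End k V := ∑ x : B, ρ x
  have hS : ∀ u, S u = ∑ x : B, ρ x u := fun u => LinearMap.sum_apply _ _ _
  have hS1 : ∀ h : H, S (ρ h a) = S a := by
    intro h
    obtain ⟨x, hx, y, hy, rfl⟩ := exists_mul_eq_of_coprime_index hc h
    rw [← hmul, (mem_stab ρ).1 hy, hS, hS]
    refine Fintype.sum_equiv (Equiv.mulRight (⟨x, hx⟩ : B)) _ _ fun z => ?_
    rw [hmul]; rfl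
  have hS2 : ∀ w, (∀ x ∈ B, ρ x w = w) → S w = (Nat.card B : k) • w := by
    intro w hw
    rw [hS, Finset.sum_congr rfl fun (x : B) _ => hw x x.2, Finset.sum_const, Finset.card_univ,
      Nat.card_eq_fintype_card, Nat.cast_smul_eq_nsmul]
  have hS3 : ((stab ρ a).index : k) • S a = (Nat.card B : k) • ∑ u ∈ hfin.toFinset, u := by
    rw [← hS2 _ fun x _ => ht x, map_sum, Finset.sum_congr rfl (g := fun _ => S a), Finset.sum_const,
      index_stab, Nat.cast_smul_eq_nsmul, Nat.card_coe_set_eq, Set.ncard_eq_toFinset_card _ hfin]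
    intro u hu
    obtain ⟨x, rfl⟩ := (hO u).1 hu
    exact hS1 x
  have hm0 : ((stab ρ a).index : k) ≠ 0 := fun e => hm ((CharP.cast_eq_zero_iff k p _).1 e)
  have hB0 : (Nat.card B : k) ≠ 0 := fun e => hB ((CharP.cast_eq_zero_iff k p _).1 e)
  have hS4 : S a ∈ Submodule.span k {∑ u ∈ hfin.toFinset, u} := by
    rw [← Submodule.smul_mem_iff _ hm0, hS3]
    exact Submodule.smul_mem _ _ (Submodule.mem_span_singleton_self _)
  have hS5 : (⊤ : Submodule k V) ≤ (Submodule.span k {∑ u ∈ hfin.toFinset, u}).comap S := by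
    rw [← hspan, Submodule.span_le]
    rintro _ ⟨h, rfl⟩
    rw [SetLike.mem_coe, Submodule.mem_comap, hS1]; exact hS4
  have := hS5 (Submodule.mem_top (x := v))
  rwa [Submodule.mem_comap, hS2 v hv, Submodule.smul_mem_iff _ hB0] at this

end

/-- Let k be a field of prime characteristic p, H a finite p-soluble group and ρ a k-linear representation of H on V. Let a be a vector that is fixed by some Sylow p-subgroup of H and whose H-orbit spans V. Then the space of H-fixed vectors has dimension at most 1, and every vector b whose H-orbit has size coprime to the size of the orbit of a is fixed by H. -/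
theorem result {k V H : Type*} [Field k] (p : ℕ) [Fact p.Prime] [CharP k p] [AddCommGroup V] [Module k V]
    [Group H] [Finite H] (hsol : Cfsg.IsPSolvable p H) (ρ : Representation k H V) (a : V)
    (hfix : ∃ P : Sylow p H, ∀ x : H, x ∈ (P : Subgroup H) → ρ x a = a)
    (hspan : Submodule.span k {u : V | ∃ h : H, ρ h a = u} = ⊤) :
    Module.finrank k ρ.invariants ≤ 1 ∧
    ∀ b : V, (Nat.card {u : V | ∃ h : H, ρ h a = u}).Coprime (Nat.card {u : V | ∃ h : H, ρ h b = u}) → ∀ h : H, ρ h b = b := by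
  have hpp : p.Prime := Fact.out
  obtain ⟨P, hP⟩ := hfix
  have hm : ¬ p ∣ (stab ρ a).index := fun h =>
    P.not_dvd_index (h.trans (index_dvd_of_le (fun x hx => hP x hx)))
  obtain ⟨t, ht, hB⟩ := key ρ hm hspan
  have hsep := isPSolvable_iff_isPiSep.1 hsol
  have aux : ∀ M : Subgroup H, M.index.Coprime (stab ρ a).index → ∀ v, (∀ x ∈ M, ρ x v = v) →
      v ∈ Submodule.span k {t} := by
    intro M hM v hv
    obtain ⟨B, hB'⟩ := (hsep.compl.subgroup M).exists_isPiHallOf
    have hB' := hall_iff.2 hB'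
    refine hB B (hB'.pi.not_dvd' hpp rfl) ?_ v fun x hx => hv x (hB'.le hx)
    rw [← relIndex_mul_index hB'.le]
    exact Nat.Coprime.mul_left (hB'.idx.of_compl_compl.coprime ((piNat_compl_single hpp).2 hm)) hM
  constructor
  · have : ρ.invariants ≤ Submodule.span k {t} := fun v hv =>
      aux ⊤ (by simp) v fun x _ => hv x
    refine (Submodule.finrank_mono this).trans ?_
    simpa using finrank_span_le_card (R := k) ({t} : Set V)
  · intro b hb h
    rw [← index_stab, ← index_stab] at hb
    obtain ⟨c, rfl⟩ := Submodule.mem_span_singleton.1 (aux _ hb.symm b fun x hx => hx)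
    rw [map_smul, ht]

end Cfsg.Agent.S4176
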