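import Mathlib
import Cfsg.Agent.Fgs2.Basic
import Cfsg.Statements.S4177

set_option autoImplicit false
open Cfsg

namespace Cfsg.Agent.S4177

/-- stabiliser of a vector -/
def stab {k V H : Type*} [Field k] [AddCommGroup V] [Module k V] [Group H]
    (ρ : Representation k H V) (a : V) : Subgroup H where
  carrier := {h | ρ h a = a}
  one_mem' := by simp
  mul_mem' := by
    intro x y hx hy
    simp only [Set.mem_setOf_eq, map_mul, Module.End.mul_apply] at *
    rw [hy, hx]
  inv_mem' := by
    intro x hx
    simp only [Set.mem_setOf_eq] at *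
    conv_lhs => rw [← hx]
    rw [← Module.End.mul_apply, ← map_mul]; simp

theorem index_stab {k V H : Type*} [Field k] [AddCommGroup V] [Module k V] [Group H]
    (ρ : Representation k H V) (a : V) :
    (stab ρ a).index = Nat.card {u : V | ∃ h : H, ρ h a = u} := by
  let f : H ⧸ stab ρ a → {u : V | ∃ h : H, ρ h a = u} :=
    Quotient.lift (fun h => ⟨ρ h a, h, rfl⟩) (by
      intro x y h
      have h : ρ (x⁻¹ * y) a = a := QuotientGroup.leftRel_apply.1 h
      apply Subtype.ext
      simp only
      conv_lhs => rw [← h]
      rw [← Module.End.mul_apply, ← map_mul]; simp)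
  refine Nat.card_congr (Equiv.ofBijective f ⟨?_, ?_⟩)
  · intro x y
    induction x using QuotientGroup.induction_on with | H x =>
    induction y using QuotientGroup.induction_on with | H y =>
    intro h
    have h : ρ x a = ρ y a := congrArg Subtype.val h
    refine QuotientGroup.eq.2 ?_
    change ρ (x⁻¹ * y) a = a
    rw [map_mul, Module.End.mul_apply, ← h, ← Module.End.mul_apply, ← map_mul]; simp
  · rintro ⟨u, h, rfl⟩
    exact ⟨QuotientGroup.mk h, rfl⟩

theorem fixed_mem_span {k V H : Type*} [Field k] [AddCommGroup V] [Module k V] [Group H]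
    (ρ : Representation k H V) (a : V) (K : Subgroup H) [Fintype K]
    (hK : (Fintype.card K : k) ≠ 0)
    (hspan : Submodule.span k {u : V | ∃ h ∈ K, ρ h a = u} = ⊤) (b : V)
    (hb : ∀ h ∈ K, ρ h b = b) : b ∈ Submodule.span k {∑ h : K, ρ h a} := by
  have h1 : ∀ v : V, ∑ h : K, ρ h v ∈ Submodule.span k {∑ h : K, ρ h a} := by
    intro v
    have hv : v ∈ Submodule.span k {u : V | ∃ h ∈ K, ρ h a = u} := hspan ▸ Submodule.mem_top
    induction hv using Submodule.span_induction with
    | mem x hx =>
      obtain ⟨h, hh, rfl⟩ := hx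
      have : ∑ g : K, ρ g (ρ h a) = ∑ g : K, ρ g a := by
        refine Fintype.sum_equiv (Equiv.mulRight (⟨h, hh⟩ : K)) _ _ fun g => ?_
        simp
      rw [this]; exact Submodule.mem_span_singleton_self _
    | zero => simp
    | add x y _ _ hx hy =>
      simp only [map_add, Finset.sum_add_distrib]; exact add_mem hx hy
    | smul c x _ hx =>
      simp only [map_smul, ← Finset.smul_sum]; exact Submodule.smul_mem _ _ hx
  have h2 := h1 b
  rw [Finset.sum_congr rfl fun (h : K) _ => hb h h.2, Finset.sum_const, Finset.card_univ,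
    ← Nat.cast_smul_eq_nsmul k] at h2
  have := Submodule.smul_mem _ (Fintype.card K : k)⁻¹ h2
  rwa [smul_smul, inv_mul_cancel₀ hK, one_smul] at this

/-- Let k be a field whose characteristic does not divide the order of the finite group H (for instance a field of characteristic zero), and ρ a k-linear representation of H on V. Let a be a vector whose H-orbit spans V. Then the space of H-fixed vectors has dimension at most 1, and every vector b whose H-orbit has size coprime to the size of the orbit of a is fixed by H. -/
theorem result {k V H : Type*} [Field k] [AddCommGroup V] [Module k V] [Group H] [Finite H]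
    (hchar : ¬ ringChar k ∣ Nat.card H) (ρ : Representation k H V) (a : V)
    (hspan : Submodule.span k {u : V | ∃ h : H, ρ h a = u} = ⊤) :
    Module.finrank k ρ.invariants ≤ 1 ∧
    ∀ b : V, (Nat.card {u : V | ∃ h : H, ρ h a = u}).Coprime (Nat.card {u : V | ∃ h : H, ρ h b = u}) → ∀ h : H, ρ h b = b := by
  classical
  have := Fintype.ofFinite H
  have hK : ∀ K : Subgroup H, (Fintype.card K : k) ≠ 0 := by
    intro K h
    rw [ringChar.spec] at h
    exact hchar (h.trans (Nat.card_eq_fintype_card (α := K) ▸ Subgroup.card_subgroup_dvd_card K))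
  constructor
  · have h1 : ρ.invariants ≤ Submodule.span k {∑ h : (⊤ : Subgroup H), ρ h a} := by
      intro b hb
      exact fixed_mem_span ρ a ⊤ (hK _) (by simpa using hspan) b fun h _ => hb h
    refine (Submodule.finrank_mono h1).trans ?_
    exact (finrank_span_le_card _).trans (by simp)
  · intro b hcop h
    rw [← index_stab, ← index_stab] at hcop
    have hKA := CF.Fgs2.exists_mul_of_coprime_index hcop
    set K := stab ρ b
    set A := stab ρ a
    have hset : {u : V | ∃ h ∈ K, ρ h a = u} = {u : V | ∃ h : H, ρ h a = u} := by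
      ext u
      constructor
      · rintro ⟨h, -, rfl⟩; exact ⟨h, rfl⟩
      · rintro ⟨h, rfl⟩
        obtain ⟨x, hx, y, hy, rfl⟩ := hKA h
        have hy : ρ y a = a := hy
        exact ⟨x, hx, by simp [hy]⟩
    have h1 := fixed_mem_span ρ a K (hK _) (hset ▸ hspan) b fun h hh => hh
    obtain ⟨c, hc⟩ := Submodule.mem_span_singleton.1 h1
    let O : Finset V := Finset.univ.image fun g : H => ρ g a
    let m : ℕ := (Finset.univ.filter fun g : K => ρ g a = a).card
    have hT : ∑ g : K, ρ g a = m • ∑ u ∈ O, u := by
      rw [← Finset.sum_fiberwise_of_maps_to (s := Finset.univ) (t := O) (g := fun g : K => ρ g a)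
        (fun g _ => Finset.mem_image_of_mem _ (Finset.mem_univ _)), Finset.smul_sum]
      refine Finset.sum_congr rfl fun u hu => ?_
      rw [Finset.sum_congr rfl (g := fun _ => u) fun g hg => (Finset.mem_filter.1 hg).2,
        Finset.sum_const]
      congr 1
      obtain ⟨g, -, rfl⟩ := Finset.mem_image.1 hu
      obtain ⟨x, hx, y, hy, rfl⟩ := hKA g
      have hy : ρ y a = a := hy
      refine Finset.card_equiv (Equiv.mulLeft (⟨x, hx⟩ : K)⁻¹) fun g => ?_
      simp only [Finset.mem_filter, Finset.mem_univ, true_and, map_mul, Module.End.mul_apply, hy,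
        Equiv.coe_mulLeft, Subgroup.coe_mul, Subgroup.coe_inv]
      constructor
      · intro h; rw [h, ← Module.End.mul_apply, ← map_mul]; simp
      · intro h
        conv_rhs => rw [← h]
        rw [← Module.End.mul_apply (ρ x), ← map_mul]; simp
    have hO : ρ h (∑ u ∈ O, u) = ∑ u ∈ O, u := by
      rw [map_sum]
      refine Finset.sum_bij (fun u _ => ρ h u) ?_ ?_ ?_ fun _ _ => rfl
      · intro u hu
        obtain ⟨g, -, rfl⟩ := Finset.mem_image.1 hu
        exact Finset.mem_image.2 ⟨h * g, Finset.mem_univ _, by simp⟩
      · intro u _ v _ huv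
        have := congrArg (ρ h⁻¹) huv
        simpa [← Module.End.mul_apply, ← map_mul] using this
      · intro u hu
        obtain ⟨g, -, rfl⟩ := Finset.mem_image.1 hu
        refine ⟨ρ (h⁻¹ * g) a, Finset.mem_image.2 ⟨_, Finset.mem_univ _, rfl⟩, ?_⟩
        rw [← Module.End.mul_apply, ← map_mul]; simp
    rw [← hc, hT, map_smul, map_nsmul, hO]

end Cfsg.Agent.S4177
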