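import Mathlib
import Cfsg.Statements.S4178

set_option autoImplicit false
open Cfsg

namespace Cfsg.Agent.S4178

theorem idx_le {H T : Type*} [Group H] [Finite T] (R : Subgroup H) (f : H → T)
    (hf : ∀ a b, f a = f b → a⁻¹ * b ∈ R) : R.index ≤ Nat.card T := by
  unfold Subgroup.index
  refine Nat.card_le_card_of_injective (fun q : H ⧸ R => f q.out) ?_
  intro a b hab
  have := hf _ _ hab
  rw [← QuotientGroup.eq, QuotientGroup.out_eq', QuotientGroup.out_eq'] at this
  exact this

theorem card_ne {F U : Type*} [Field F] [Fintype F] [AddCommGroup U] [Module F U]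
    [FiniteDimensional F U] :
    Nat.card {u : U // u ≠ 0} = Fintype.card F ^ Module.finrank F U - 1 := by
  classical
  haveI : Finite U := Module.finite_of_finite F
  letI : Fintype U := Fintype.ofFinite U
  rw [Nat.card_eq_fintype_card, Fintype.card_subtype_compl, Module.card_eq_pow_finrank (K := F)]
  simp

/-- Let F be a finite field with q elements, V a non-zero finite-dimensional F-space of dimension d, H a group of invertible linear maps of V, and R the subgroup of H generated by the elements of H that fix some non-zero vector (have eigenvalue 1). Then the index of R in H is at most q^d − 1; and if H leaves invariant some proper non-zero subspace, the index is at most q^(d/2) − 1. -/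
theorem result {F V : Type*} [Field F] [Fintype F] [AddCommGroup V] [Module F V] [FiniteDimensional F V] [Nontrivial V]
    (H : Subgroup (V ≃ₗ[F] V)) :
    (Subgroup.closure {h : ↥H | ∃ v : V, v ≠ 0 ∧ (h : V ≃ₗ[F] V) v = v}).index ≤ Fintype.card F ^ Module.finrank F V - 1 ∧
    ((∃ W : Submodule F V, W ≠ ⊥ ∧ W ≠ ⊤ ∧ ∀ h ∈ H, ∀ w ∈ W, h w ∈ W) →
      ((Subgroup.closure {h : ↥H | ∃ v : V, v ≠ 0 ∧ (h : V ≃ₗ[F] V) v = v}).index : ℝ) ≤ Real.sqrt ((Fintype.card F : ℝ) ^ Module.finrank F V) - 1) := by
  classical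
  haveI : Finite V := Module.finite_of_finite F
  set R := Subgroup.closure {h : ↥H | ∃ v : V, v ≠ 0 ∧ (h : V ≃ₗ[F] V) v = v} with hR
  have hq : 1 ≤ Fintype.card F := Fintype.card_pos
  have key : ∀ (a b : H) (v : V), v ≠ 0 → (a : V ≃ₗ[F] V) v = (b : V ≃ₗ[F] V) v → a⁻¹ * b ∈ R := by
    intro a b v hv hab
    refine Subgroup.subset_closure ⟨v, hv, ?_⟩
    show ((a : V ≃ₗ[F] V)⁻¹ * (b : V ≃ₗ[F] V)) v = v
    rw [LinearEquiv.mul_apply, ← hab, ← LinearEquiv.mul_apply, inv_mul_cancel]
    rfl
  refine ⟨?_, ?_⟩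
  · obtain ⟨v, hv⟩ := exists_ne (0 : V)
    rw [← card_ne (F := F) (U := V)]
    refine idx_le R (fun h => (⟨(h : V ≃ₗ[F] V) v, by simpa using hv⟩ : {u : V // u ≠ 0})) ?_
    intro a b hab
    exact key a b v hv (congrArg Subtype.val hab)
  · rintro ⟨W, hW0, hW1, hW⟩
    have h1 : R.index ≤ Fintype.card F ^ Module.finrank F W - 1 := by
      obtain ⟨v, hvW, hv⟩ := (Submodule.ne_bot_iff W).1 hW0
      rw [← card_ne (F := F) (U := W)]
      refine idx_le R (fun h => (⟨⟨(h : V ≃ₗ[F] V) v, hW _ h.2 _ hvW⟩, by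
        intro h0
        have := congrArg Subtype.val h0
        simp at this
        exact hv this⟩ : {u : W // u ≠ 0})) ?_
      intro a b hab
      exact key a b v hv (congrArg (fun t => t.1.1) hab)
    have h2 : R.index ≤ Fintype.card F ^ Module.finrank F (V ⧸ W) - 1 := by
      obtain ⟨x, hx⟩ : ∃ x, x ∉ W := by
        by_contra hc
        push Not at hc
        exact hW1 (Submodule.eq_top_iff'.2 hc)
      rw [← card_ne (F := F) (U := V ⧸ W)]
      haveI : Finite (V ⧸ W) := Module.finite_of_finite F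
      have hinv : ∀ (h : H) (y : V), (h : V ≃ₗ[F] V) y ∈ W → y ∈ W := by
        intro h y hy
        have := hW _ (h⁻¹).2 _ hy
        have e : ((h⁻¹ : H) : V ≃ₗ[F] V) ((h : V ≃ₗ[F] V) y) = y := by
          show ((h : V ≃ₗ[F] V)⁻¹ * (h : V ≃ₗ[F] V)) y = y
          rw [inv_mul_cancel]; rfl
        rwa [e] at this
      refine idx_le R (fun h => (⟨W.mkQ ((h : V ≃ₗ[F] V) x), by
        intro h0
        rw [Submodule.mkQ_apply, Submodule.Quotient.mk_eq_zero] at h0
        exact hx (hinv _ _ h0)⟩ : {u : V ⧸ W // u ≠ 0})) ?_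
      intro a b hab
      have hab' : W.mkQ ((a : V ≃ₗ[F] V) x) = W.mkQ ((b : V ≃ₗ[F] V) x) := congrArg Subtype.val hab
      rw [Submodule.mkQ_apply, Submodule.mkQ_apply, Submodule.Quotient.eq] at hab'
      set c : H := a⁻¹ * b with hc
      have hcx : (c : V ≃ₗ[F] V) x - x ∈ W := by
        refine hinv a _ ?_
        have e : (a : V ≃ₗ[F] V) ((c : V ≃ₗ[F] V) x) = (b : V ≃ₗ[F] V) x := by
          show ((a : V ≃ₗ[F] V) * ((a : V ≃ₗ[F] V)⁻¹ * (b : V ≃ₗ[F] V))) x = _
          rw [mul_inv_cancel_left]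
        rw [map_sub, e]
        have := W.neg_mem hab'
        simpa using this
      by_contra hcR
      have hfix : ∀ v, (c : V ≃ₗ[F] V) v = v → v = 0 := by
        intro v hv
        by_contra h0
        exact hcR (Subgroup.subset_closure ⟨v, h0, hv⟩)
      let g : W → W := fun w => ⟨(c : V ≃ₗ[F] V) w - w, W.sub_mem (hW _ c.2 _ w.2) w.2⟩
      have hg : Function.Injective g := by
        intro u w huw
        have e : (c : V ≃ₗ[F] V) u - u = (c : V ≃ₗ[F] V) w - w := congrArg Subtype.val huw
        have : (u : V) - w = 0 := by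
          apply hfix
          rw [map_sub]
          rw [sub_eq_sub_iff_sub_eq_sub] at e
          exact e
        exact Subtype.ext (sub_eq_zero.1 this)
      obtain ⟨w, hw⟩ := Finite.surjective_of_injective hg ⟨_, hcx⟩
      have e : (c : V ≃ₗ[F] V) w - w = (c : V ≃ₗ[F] V) x - x := congrArg Subtype.val hw
      have : (w : V) - x = 0 := by
        apply hfix
        rw [map_sub]
        rw [sub_eq_sub_iff_sub_eq_sub] at e
        exact e
      exact hx (by rw [← sub_eq_zero.1 this]; exact w.2)
    have hd : Module.finrank F (V ⧸ W) + Module.finrank F W = Module.finrank F V :=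
      Submodule.finrank_quotient_add_finrank W
    have p1 : 1 ≤ Fintype.card F ^ Module.finrank F W := Nat.one_le_pow _ _ hq
    have p2 : 1 ≤ Fintype.card F ^ Module.finrank F (V ⧸ W) := Nat.one_le_pow _ _ hq
    have h3 : (R.index + 1) * (R.index + 1) ≤ Fintype.card F ^ Module.finrank F V := by
      rw [← hd, pow_add]
      exact Nat.mul_le_mul (by omega) (by omega)
    rw [le_sub_iff_add_le]
    apply Real.le_sqrt_of_sq_le
    have : ((R.index + 1 : ℕ) : ℝ) * ((R.index + 1 : ℕ) : ℝ) ≤ ((Fintype.card F ^ Module.finrank F V : ℕ) : ℝ) := by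
      exact_mod_cast h3
    push_cast at this
    nlinarith

end Cfsg.Agent.S4178
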