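import Cfsg.Statements.S4179
import Cfsg.Agent.AFl.G
import Cfsg.Agent.Perm.PrimeDegree
import Cfsg.Agent.Classical.Singer

set_option autoImplicit false
set_option linter.style.haveILetI false
open Cfsg

namespace Cfsg.Agent.S4179

/-- Let V be a vector space of dimension n over the field with two elements with 2^n − 1 prime, and H a group of invertible linear maps of V. Then H is transitive on the non-zero vectors of V if and only if H is cyclic of order 2^n − 1, or H has order n·(2^n − 1) and contains a normal cyclic subgroup of order 2^n − 1, or H is the whole general linear group of V. -/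
theorem result {V : Type*} [AddCommGroup V] [Module (ZMod 2) V] [Finite V] (n : ℕ) (hn : Module.finrank (ZMod 2) V = n)
    (hprime : (2 ^ n - 1).Prime) (H : Subgroup (V ≃ₗ[ZMod 2] V)) :
    (∀ v w : V, v ≠ 0 → w ≠ 0 → ∃ h ∈ H, h v = w) ↔
      ((IsCyclic ↥H ∧ Nat.card ↥H = 2 ^ n - 1) ∨
       (Nat.card ↥H = n * (2 ^ n - 1) ∧ ∃ C : Subgroup (V ≃ₗ[ZMod 2] V), C ≤ H ∧ (C.subgroupOf H).Normal ∧
          IsCyclic ↥C ∧ Nat.card ↥C = 2 ^ n - 1) ∨
       H = ⊤) := by
  classical
  have hn1 : n ≠ 1 := by rintro rfl; exact Nat.not_prime_one hprime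
  have hnp : n.Prime := (Nat.prime_of_pow_sub_one_prime hn1 hprime).2
  have hn2 := hnp.two_le
  haveI : Fact (2 ^ n - 1).Prime := ⟨hprime⟩
  let A : ∀ K : Subgroup (V ≃ₗ[ZMod 2] V), SubMulAction K V := fun K =>
    ⟨{v | v ≠ 0}, fun g v hv e => hv (g.1.map_eq_zero_iff.1 e)⟩
  letI : ∀ K, Fintype (A K) := fun _ => Fintype.ofFinite _
  have hA : ∀ K, Fintype.card (A K) = 2 ^ n - 1 := by
    intro K
    have c4 := Set.ncard_diff_singleton_add_one
      (s := ((⊤ : Submodule (ZMod 2) V) : Set V)) (a := 0) trivial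
    rw [CF.AFl.card_sub, finrank_top, hn] at c4
    rw [← c4, ← Nat.card_eq_fintype_card, Nat.add_sub_cancel, ← Nat.card_coe_set_eq]
    exact Nat.card_congr (Equiv.subtypeEquivRight fun v => by simp [A]; rfl)
  haveI : ∀ K : Subgroup (V ≃ₗ[ZMod 2] V), FaithfulSMul K (A K) := fun K => ⟨fun {g h} e => by
    ext v
    by_cases hv : v = 0
    · simp [hv]
    · exact congrArg Subtype.val (e ⟨v, hv⟩)⟩
  have hC : ∀ C : Subgroup (V ≃ₗ[ZMod 2] V), Nat.card C = 2 ^ n - 1 →
      ∀ v w : V, v ≠ 0 → w ≠ 0 → ∃ h ∈ C, h v = w := by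
    intro C hc v w hv hw
    obtain ⟨t, ht⟩ := exists_prime_orderOf_dvd_card' (G := C) (2 ^ n - 1) hc.symm.dvd
    obtain ⟨e, he⟩ := CF.Perm.exists_coord' (hA C) t ht
    have : ∀ (k : ℕ) j, t ^ k • e j = e (j + k) := by
      intro k
      induction k with
      | zero => simp
      | succ k ih => intro j; rw [pow_succ', mul_smul, ih, he]; push_cast; rw [add_assoc]
    obtain ⟨a, ha⟩ := e.surjective ⟨v, hv⟩
    obtain ⟨b, hb⟩ := e.surjective ⟨w, hw⟩
    have h1 := this (b - a).val a
    rw [ZMod.natCast_zmod_val, add_sub_cancel, ha, hb] at h1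
    exact ⟨_, (t ^ (b - a).val).2, congrArg Subtype.val h1⟩
  constructor
  · intro htr
    haveI : MulAction.IsPretransitive H (A H) := ⟨fun a b => by
      obtain ⟨h, hh, e⟩ := htr a b a.2 b.2
      exact ⟨⟨h, hh⟩, Subtype.ext e⟩⟩
    obtain ⟨t, ht⟩ := CF.Perm.exists_orderOf_eq_prime_degree (G := H) (hA H)
    obtain ⟨e, he⟩ := CF.Perm.exists_coord' (hA H) t ht
    by_cases haff : CF.Perm.ActsAffinely H e
    swap
    · have h2 := CF.Perm.twoTrans_of_not_affine (hA H) he haff
      rw [MulAction.is_two_pretransitive_iff] at h2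
      have : CF.AFl.Tr2 H := fun x y x' y' a b => by
        obtain ⟨g, c, d⟩ := h2 (a := ⟨x, a.1⟩) (b := ⟨y, a.2.1⟩) (c := ⟨x', b.1⟩) (d := ⟨y', b.2.1⟩)
          (fun e => a.2.2 (congrArg Subtype.val e)) (fun e => b.2.2 (congrArg Subtype.val e))
        exact ⟨g.1, g.2, congrArg Subtype.val c, congrArg Subtype.val d⟩
      rcases (CF.AFl.ck_main n V hn hn2 H this).1 with h | ⟨rfl, -⟩
      · exact Or.inr (Or.inr h)
      · exact absurd hnp (by norm_num)
    have hpow : ∀ (k : ℕ) j, t ^ k • e j = e (j + k) := by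
      intro k
      induction k with
      | zero => simp
      | succ k ih => intro j; rw [pow_succ', mul_smul, ih, he]; push_cast; rw [add_assoc]
    have hN : (Subgroup.zpowers t).Normal := ⟨by
      rintro _ ⟨i, rfl⟩ g
      obtain ⟨a, b, hab⟩ := haff g
      have : g * t = t ^ a.val * g := FaithfulSMul.eq_of_smul_eq_smul (α := A H) fun x => by
        obtain ⟨x, rfl⟩ := e.surjective x
        rw [mul_smul, mul_smul, he, hab, hab, hpow, ZMod.natCast_zmod_val]
        congr 1; ring
      show g * t ^ i * g⁻¹ ∈ _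
      rw [← conj_zpow, this, mul_inv_cancel_right]
      exact Subgroup.zpow_mem _ (Subgroup.npow_mem_zpowers _ _) _⟩
    let C := (Subgroup.zpowers t).map H.subtype
    have hCH : C.subgroupOf H = Subgroup.zpowers t := Subgroup.comap_map_eq_self_of_injective
      H.subtype_injective _
    have hCc : Nat.card C = 2 ^ n - 1 := by
      rw [Subgroup.card_map_of_injective H.subtype_injective, Nat.card_zpowers, ht]
    haveI : IsCyclic C := isCyclic_of_prime_card hCc
    have hle : H ≤ Subgroup.normalizer (C : Set (V ≃ₗ[ZMod 2] V)) :=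
      Subgroup.le_normalizer_of_normal_subgroupOf (hK := hCH ▸ hN) (Subgroup.map_subtype_le _)
    let K := GaloisField 2 n
    have hK : Nat.card K = 2 ^ n := GaloisField.card 2 n (by omega)
    have hK' : Module.finrank (ZMod 2) K = n := GaloisField.finrank 2 (by omega)
    let ε : V ≃ₗ[ZMod 2] K := LinearEquiv.ofFinrankEq _ _ (by rw [hn, hK'])
    let Ψ : (V ≃ₗ[ZMod 2] V) ≃* (Module.End (ZMod 2) K)ˣ :=
      (LinearMap.GeneralLinearGroup.generalLinearEquiv (ZMod 2) V).symm.trans
        (Units.mapEquiv (ε.conjAlgEquiv (ZMod 2)).toMulEquiv)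
    haveI : IsMulCommutative (C.map Ψ.toMonoidHom) := by
      haveI : IsCyclic (C.map Ψ.toMonoidHom) := isCyclic_of_surjective _
        (C.equivMapOfInjective Ψ.toMonoidHom Ψ.injective).surjective
      infer_instance
    obtain ⟨g, hg⟩ := CF.Classical.exists_conj_singer (F := ZMod 2) (K := K) hprime (by rw [hK])
      (fun k h1 h2 h3 => by
        rw [hK'] at h2
        rw [Nat.card_zmod] at h3
        have := Nat.le_of_dvd (by have := Nat.one_lt_two_pow (n := k) (by omega); omega) h3
        have := Nat.pow_lt_pow_right (a := 2) (by omega) h2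
        have := Nat.one_lt_two_pow (n := k) (by omega)
        omega) (U := C.map Ψ.toMonoidHom)
      (by rw [Subgroup.card_map_of_injective Ψ.injective, hCc, hK])
    have hNc := CF.Classical.card_normalizer_singer (F := ZMod 2) (K := K)
    rw [← hg, ← Subgroup.map_equiv_normalizer_eq, ← Subgroup.map_equiv_normalizer_eq,
      Subgroup.card_map_of_injective (MulAut.conj g).injective,
      Subgroup.card_map_of_injective Ψ.injective, hK, hK'] at hNc
    have d1 := Subgroup.card_dvd_of_le hle
    obtain ⟨k, hk⟩ := Subgroup.card_dvd_of_le (Subgroup.map_subtype_le _ : C ≤ H)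
    rw [hNc, hk, hCc, mul_comm n] at d1
    rcases (Nat.dvd_prime hnp).1 (Nat.dvd_of_mul_dvd_mul_left hprime.pos d1) with rfl | rfl
    · rw [hCc, mul_one] at hk
      exact Or.inl ⟨isCyclic_of_prime_card hk, hk⟩
    · exact Or.inr (Or.inl ⟨by rw [hk, hCc, mul_comm], C, Subgroup.map_subtype_le _, hCH ▸ hN,
        inferInstance, hCc⟩)
  · rintro (⟨-, h⟩ | ⟨-, C, h1, -, -, h2⟩ | rfl) v w hv hw
    · exact hC H h v w hv hw
    · obtain ⟨g, a, b⟩ := hC C h2 v w hv hw
      exact ⟨g, h1 a, b⟩
    · by_cases e : v = w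
      · exact ⟨1, trivial, e⟩
      obtain ⟨φ, p1, p2⟩ : ∃ φ : Module.Dual (ZMod 2) V, φ v = 1 ∧ φ w = 1 := by
        obtain ⟨φ, a, b⟩ := CF.AFl.exists_dual (U := Submodule.span (ZMod 2) {v + w}) (y := v) (by
          rw [CF.AFl.mem_span1]
          rintro (c | c)
          · exact hv c
          · exact hw (by simpa using c))
        have := b _ (CF.AFl.mem_span1.2 (Or.inr rfl))
        rw [map_add, CF.AFl.f2_add_eq_zero] at this
        exact ⟨φ, a, this ▸ a⟩
      refine ⟨LinearEquiv.transvection (f := φ) (v := v + w)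
        (by rw [map_add, p1, p2]; rfl), trivial, ?_⟩
      rw [LinearEquiv.transvection.apply, p1, one_smul, CF.AFl.add_add_cancel]

end Cfsg.Agent.S4179
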