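import Cfsg.Statements.S4184
import Cfsg.Agent.BG.B6

set_option autoImplicit false
open Cfsg

namespace Cfsg.Agent.S4184
open Subgroup CF.BG

section
variable {G : Type*} [Group G] [Finite G] {a b p q : ℕ}

structure CS (G : Type*) [Group G] (a b : ℕ) : Prop where
  cop : a.Coprime b
  dvd : ∀ g : G, (𝐂₁ g).index ∣ a * b
  ndvd : ∀ g : G, ¬ a * b ∣ (𝐂₁ g).index
  or : ∀ g : G, g ≠ 1 → a ∣ (𝐂₁ g).index ∨ b ∣ (𝐂₁ g).index

theorem CS.symm (h : CS G a b) : CS G b a :=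
  ⟨h.cop.symm, fun g => mul_comm a b ▸ h.dvd g, fun g => mul_comm a b ▸ h.ndvd g,
    fun g k => (h.or g k).symm⟩

theorem CS.same (h : CS G a b) {x y : G} (hx : b ∣ (𝐂₁ x).index) (y1 : y ≠ 1) (px : PiElt {p} x)
    (py : PiElt {q} y) (ne : q ≠ p) (c : y ∈ 𝐂₁ x) : b ∣ (𝐂₁ y).index := by
  refine (h.or y y1).resolve_left fun k => h.ndvd (y * x) ?_
  rw [cent1_mul (mem_cent1.1 c) (PiNat.coprime' (py.to_compl_single (p := p) ne.symm) px)]
  exact h.cop.mul_dvd_of_dvd_of_dvd (k.trans (index_dvd_of_le inf_le_left))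
    (hx.trans (index_dvd_of_le inf_le_right))

theorem exists_central {P : Subgroup G} (hP : Syl p P ⊤) (hp : p.Prime) {z : G} (hz : z ∈ 𝐙 P) :
    ¬ p ∣ (𝐂₁ z).index := fun d => hP.not_dvd hp (by
  rw [relIndex_top_right]; exact d.trans (index_dvd_of_le (le_cent1_iff.2 hz.2)))

theorem CS.exists_elt (h : CS G a b) (hp : p.Prime) (d : p ∣ a) (k : p ∣ Nat.card G) :
    ∃ x : G, PiElt {p} x ∧ b ∣ (𝐂₁ x).index := by
  obtain ⟨P, hP⟩ := exists_syl p (⊤ : Subgroup G)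
  obtain ⟨x, hx, x1⟩ := exists_mem_ne_one (hP.pi.center_ne_bot
    (hP.syl_ne_bot hp (by rwa [card_top])))
  exact ⟨x, hP.pi.elt hx.1, (h.or x x1).resolve_left fun e => exists_central hP hp hx (d.trans e)⟩

theorem CS.not_dvd (h : CS G a b) (hq : q.Prime) (d : q ∣ b) {x : G} (px : PiElt {p} x) (ne : q ≠ p)
    (hx : b ∣ (𝐂₁ x).index) : ¬ q ∣ ♯(𝐂₁ x) := fun k => by
  obtain ⟨R, hR⟩ := exists_syl q (𝐂₁ x)
  obtain ⟨y, hy, y1⟩ := exists_mem_ne_one (hR.pi.center_ne_bot (hR.syl_ne_bot hq k))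
  have hb := h.same hx y1 px (hR.pi.elt hy.1) ne (hR.le hy.1)
  have l : R ≤ 𝐂₁ y := le_cent1_iff.2 hy.2
  have sy : Syl q R (𝐂₁ y) := syl_mk hq l hR.pi fun e => by
    obtain ⟨m, hm⟩ := hx
    obtain ⟨n, hn⟩ := hb
    have b0 : 0 < b := Nat.pos_of_ne_zero fun z => index_ne_zero_of_finite (H := 𝐂₁ x) (by simp [hm, z])
    have e1 := relIndex_mul_index hR.le
    rw [← relIndex_mul_index l, hm, hn, mul_left_comm, mul_left_comm _ b] at e1
    have e2 := Nat.eq_of_mul_eq_mul_left b0 e1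
    have ma : m ∣ a := Nat.dvd_of_mul_dvd_mul_left b0 (by rw [← hm, mul_comm]; exact h.dvd x)
    rcases (Nat.Prime.dvd_mul hq).1 (e2 ▸ e.mul_right n) with j | j
    · exact hR.not_dvd hq j
    · exact hq.one_lt.ne' (Nat.eq_one_of_dvd_coprimes h.cop (j.trans ma) d)
  obtain ⟨Q, hQ, le⟩ := exists_syl_le (M := ⊤) le_top hR.pi
  obtain ⟨z, hz, z1⟩ := exists_mem_ne_one (hQ.pi.center_ne_bot
    (ne_bot_of_mem (le hy.1) y1))
  have zR : z ∈ R := (sy.eq_of_le (le_inf le l) inf_le_right hQ.pi.inf_left).ge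
    ⟨hz.1, cent_le_cent1 (le hy.1) hz.2⟩
  exact exists_central hQ hq hz (d.trans (h.same hx z1 px (hR.pi.elt zR) ne (hR.le zR)))

theorem CS.card_dvd (h : CS G a b) (a1 : a ≠ 1) (b1 : b ≠ 1) (ha : a ∣ Nat.card G) (hb : b ∣ Nat.card G) :
    Nat.card G ∣ a * b := by
  obtain ⟨p, hp, pa⟩ := Nat.exists_prime_and_dvd a1
  obtain ⟨r, hr, rb⟩ := Nat.exists_prime_and_dvd b1
  obtain ⟨x, px, hx⟩ := h.exists_elt hp pa (pa.trans ha)
  obtain ⟨y, py, hy⟩ := h.symm.exists_elt hr rb (rb.trans hb)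
  refine (Nat.dvd_iff_prime_pow_dvd_dvd _ _).2 fun q k hq d => ?_
  have key : ∀ g : G, ¬ q ∣ ♯(𝐂₁ g) → q ^ k ∣ a * b := fun g n => by
    rw [← card_mul_index (𝐂₁ g)] at d
    exact (((Nat.Prime.coprime_iff_not_dvd hq).2 n).pow_left k).dvd_of_dvd_mul_left d |>.trans (h.dvd g)
  by_cases qb : q ∣ b
  · exact key x (h.not_dvd hq qb px (fun e => hq.one_lt.ne'
      (Nat.eq_one_of_dvd_coprimes h.cop (e ▸ pa) qb)) hx)
  by_cases qa : q ∣ a
  · exact key y (h.symm.not_dvd hq qa py (fun e => qb (e ▸ rb)) hy)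
  refine key x fun n => ?_
  have s : ∀ g : G, ∃ Q, Syl q Q ⊤ ∧ Q ≤ 𝐂₁ g := fun g => by
    obtain ⟨Q, hQ⟩ := exists_syl q (𝐂₁ g)
    refine ⟨Q, hQ.trans_idx le_top ((piNat_compl_single hq).2 fun e => ?_), hQ.le⟩
    rw [relIndex_top_right] at e
    exact ((Nat.Prime.dvd_mul hq).1 (e.trans (h.dvd g))).elim qa qb
  obtain ⟨Q, hQ, lx⟩ := s x
  obtain ⟨R, hR, ly⟩ := s y
  obtain ⟨g, -, rfl⟩ := hQ.syl_conj hR
  obtain ⟨z, hz, z1⟩ := exists_mem_ne_one (hR.syl_ne_bot hq (n.trans (card_dvd_of_le le_top)))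
  refine h.ndvd z (h.cop.mul_dvd_of_dvd_of_dvd
    (h.symm.same hy z1 py (hR.pi.elt hz) (fun e => qb (e ▸ rb)) (ly hz))
    (h.same (x := g * x * g⁻¹) ?_ z1 (px.conj g) (hR.pi.elt hz) (fun e => qa (e ▸ pa)) ?_))
  · rwa [← cj_cent1, index_cj]
  · rw [← cj_cent1]; exact cj_mono g lx hz

theorem pi_cent {A : Set ℕ} (h : ∀ a ∈ A, ∀ b ∉ A, a.Prime → b.Prime → a ∣ Nat.card G → b ∣ Nat.card G →
    ¬ ∃ x : G, orderOf x = a * b) {x : G} (hp : p.Prime) (o : orderOf x = p) (hA : p ∈ A) :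
    PiGrp A (𝐂₁ x) := fun q hq d => by
  by_contra n
  haveI := Fact.mk hq
  obtain ⟨y, oy⟩ := exists_prime_orderOf_dvd_card' q d
  rw [← orderOf_coe] at oy
  have c : (orderOf x).Coprime (orderOf (y : G)) := by
    rw [o, oy]; exact (Nat.coprime_primes hp hq).2 fun e => n (e ▸ hA)
  exact h p hA q n hp hq (o ▸ orderOf_dvd_natCard x) (oy ▸ orderOf_dvd_natCard _) ⟨x * y, by
    rw [Commute.orderOf_mul_eq_mul_orderOf_of_coprime (mem_cent1.1 y.2).symm c, o, oy]⟩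

end

/-- Let G and M be finite groups with trivial centres and the same set of conjugacy class sizes, and suppose the prime graph of M is disconnected: the prime divisors of #M split into two non-empty parts such that M has no element of order pq with p in one part and q in the other. Then #G = #M. -/
theorem result {G M : Type*}
    [Group G] [Finite G] [Group M] [Finite M] (hZG : Subgroup.center G = ⊥) (hZM : Subgroup.center M = ⊥)
    (h : Set.range (fun g : G => (Subgroup.centralizer ({g} : Set G)).index) = Set.range (fun g : M => (Subgroup.centralizer ({g} : Set M)).index))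
    (hdisc : ∃ A : Set ℕ, (∃ a ∈ A, a.Prime ∧ a ∣ Nat.card M) ∧ (∃ b ∉ A, b.Prime ∧ b ∣ Nat.card M) ∧
      ∀ a ∈ A, ∀ b ∉ A, a.Prime → b.Prime → a ∣ Nat.card M → b ∣ Nat.card M → ¬ ∃ x : M, orderOf x = a * b) :
    Nat.card G = Nat.card M := by
  obtain ⟨A, ⟨p, pA, hp, pM⟩, ⟨q, qA, hq, qM⟩, hA⟩ := hdisc
  obtain ⟨a, b, e, ha, hb⟩ := exists_pi_factor A (Nat.card_pos (α := M)).ne'
  have cop := ha.coprime hb
  have pa : p ∣ a := ((Nat.Prime.dvd_mul hp).1 (e ▸ pM)).resolve_right (hb.not_dvd' hp pA)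
  have qb : q ∣ b := ((Nat.Prime.dvd_mul hq).1 (e ▸ qM)).resolve_left (ha.not_dvd hq qA)
  have a1 : a ≠ 1 := fun z => hp.one_lt.ne' (Nat.dvd_one.1 (z ▸ pa))
  have b1 : b ≠ 1 := fun z => hq.one_lt.ne' (Nat.dvd_one.1 (z ▸ qb))
  have cM : CS M a b := by
    refine ⟨cop, fun g => e ▸ index_dvd_card _, fun g d => ?_, fun g g1 => ?_⟩
    · rw [← e, ← card_mul_index (𝐂₁ g)] at d
      have := Nat.dvd_one.1 ((Nat.mul_dvd_mul_iff_right (Nat.pos_of_ne_zero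
        (index_ne_zero_of_finite (H := 𝐂₁ g)))).1 (d.trans (by rw [one_mul])))
      have j := card_eq_one.1 this
      have t : ∀ x : M, x = 1 := fun x => by
        have g1 : g = 1 := mem_bot.1 (j ▸ self_mem_cent1 g)
        rw [g1, cent1_one] at j
        exact mem_bot.1 (j ▸ mem_top x)
      haveI : Subsingleton M := ⟨fun x y => (t x).trans (t y).symm⟩
      exact hp.one_lt.ne' (Nat.dvd_one.1 (Nat.card_unique (α := M) ▸ pM))
    obtain ⟨r, hr, d⟩ := Nat.exists_prime_and_dvd (mt orderOf_eq_one_iff.1 g1)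
    have o := orderOf_pow_orderOf_div (orderOf_pos g).ne' d
    have l : 𝐂₁ g ≤ 𝐂₁ (g ^ (orderOf g / r)) := cent_zpowers g ▸ cent_le_cent1 (npow_mem_zpowers g _)
    have m := (card_mul_index (𝐂₁ g)).trans e
    by_cases rA : r ∈ A
    · exact .inr ((hb.coprime' ((pi_cent hA hr o rA).le l)).dvd_of_dvd_mul_left (m ▸ dvd_mul_left b a))
    · refine .inl ((ha.coprime ((pi_cent (A := Aᶜ) (fun a ha b hb pa pb da db => ?_) hr o rA).le
        l)).dvd_of_dvd_mul_left (m ▸ dvd_mul_right a b))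
      rw [mul_comm]; exact hA b (not_not.1 hb) a ha pb pa db da
  have f : ∀ g : G, ∃ m : M, (𝐂₁ m).index = (𝐂₁ g).index := fun g => h.le ⟨g, rfl⟩
  have f' : ∀ m : M, ∃ g : G, (𝐂₁ g).index = (𝐂₁ m).index := fun g => h.ge ⟨g, rfl⟩
  have cG : CS G a b := by
    refine ⟨cop, fun g => ?_, fun g => ?_, fun g g1 => ?_⟩ <;> obtain ⟨m, k⟩ := f g <;> rw [← k]
    · exact cM.dvd m
    · exact cM.ndvd m
    refine cM.or m fun m1 => g1 (mem_bot.1 (hZG ▸ mem_center_iff.2 fun u => ?_))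
    rw [m1, cent1_one, index_top, eq_comm, index_eq_one] at k
    exact mem_cent1.1 (k.ge (mem_top u))
  obtain ⟨x, -, hx⟩ := cM.exists_elt hp pa pM
  obtain ⟨y, -, hy⟩ := cM.symm.exists_elt hq qb qM
  obtain ⟨x, k⟩ := f' x
  obtain ⟨y, j⟩ := f' y
  have da : a ∣ Nat.card G := (j ▸ hy).trans (index_dvd_card _)
  have db : b ∣ Nat.card G := (k ▸ hx).trans (index_dvd_card _)
  rw [e]
  exact Nat.dvd_antisymm (cG.card_dvd a1 b1 da db) (cop.mul_dvd_of_dvd_of_dvd da db)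

end Cfsg.Agent.S4184
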