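import Mathlib
import Cfsg.Statements.S4186

set_option autoImplicit false
open Cfsg

namespace Cfsg.Agent.S4186

/-- Let T and X be subgroups of a group with T a finite 2-group normalizing X but not centralizing it. Then some element of T inverts some non-identity element of X under conjugation. -/
theorem result {G : Type*} [Group G] (T X : Subgroup G) [Finite ↥T] (hT : IsPGroup 2 ↥T) (hTN : T ≤ Subgroup.normalizer (X : Set G)) (hTC : ¬ T ≤ Subgroup.centralizer (X : Set G)) : ∃ t ∈ T, ∃ x ∈ X, x ≠ 1 ∧ t * x * t⁻¹ = x⁻¹ := by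
  have h : ∃ t ∈ T, t ∉ Subgroup.centralizer (X : Set G) ∧
      t * t ∈ Subgroup.centralizer (X : Set G) := by
    by_contra h
    push Not at h
    apply hTC
    intro t ht
    by_contra hc
    obtain ⟨k, hk⟩ := hT ⟨t, ht⟩
    have hk : t ^ 2 ^ k = 1 := by simpa using congrArg Subtype.val hk
    have : ∀ j : ℕ, t ^ 2 ^ j ∉ Subgroup.centralizer (X : Set G) := by
      intro j
      induction j with
      | zero => simpa using hc
      | succ j ih =>
        have := h _ (T.pow_mem ht _) ih
        rwa [← pow_add, ← two_mul, ← pow_succ'] at this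
    exact this k (hk ▸ one_mem _)
  obtain ⟨t, ht, h1, h2⟩ := h
  rw [Subgroup.mem_centralizer_iff] at h1 h2
  push Not at h1
  obtain ⟨y, hy, hne⟩ := h1
  have hty : t * y * t⁻¹ ∈ X := (Subgroup.mem_normalizer_iff.1 (hTN ht) y).1 hy
  refine ⟨t, ht, t * y * t⁻¹ * y⁻¹, X.mul_mem hty (X.inv_mem hy), ?_, ?_⟩
  · intro h
    apply hne
    calc y * t = (t * y * t⁻¹ * y⁻¹) * y * t := by rw [h, one_mul]
      _ = t * y := by group
  · calc t * (t * y * t⁻¹ * y⁻¹) * t⁻¹ = ((t * t) * y) * t⁻¹ * t⁻¹ * (t * y⁻¹ * t⁻¹) := by group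
      _ = _ := by rw [← h2 y hy]; group

end Cfsg.Agent.S4186
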