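import Cfsg.Statements.S4188
import Cfsg.Agent.Pgp.F

set_option autoImplicit false
open Cfsg

namespace Cfsg.Agent.S4188


/-- Let G be a finite group that is the semidirect product of a normal abelian subgroup N of odd order by a 2-subgroup P, and suppose N is the unique minimal normal subgroup of G. Then the index of the Frattini subgroup of P in P is at most #N − 1. -/
theorem result {G : Type*} [Group G] [Finite G] (N P : Subgroup G) (hN : N.Normal) (hNab : IsMulCommutative ↥N) (hNodd : Odd (Nat.card ↥N)) (hP : IsPGroup 2 ↥P) (hdisj : N ⊓ P = ⊥) (hprod : N ⊔ P = ⊤) (hmin : N ≠ ⊥ ∧ ∀ M : Subgroup G, M.Normal → M ≠ ⊥ → N ≤ M) : (frattini ↥P).index ≤ Nat.card ↥N - 1 := by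
  have k := CF.BG.piGrp_of_isPGroup Nat.prime_two hP
  have k' : CF.BG.PiGrp {2}ᶜ N := (CF.BG.piNat_compl_single Nat.prime_two).2 hNodd.not_two_dvd_nat
  have a := CF.BG.Abel.of_comm hNab
  have n : ∀ M : Subgroup G, N ≤ Subgroup.normalizer M → P ≤ Subgroup.normalizer M → M.Normal :=
    fun M h1 h2 => Subgroup.normalizer_eq_top_iff.1 (top_le_iff.1 (hprod.ge.trans (sup_le h1 h2)))
  open CF.BG in
  have := CF.Pgp.relIndex_Phi_lt k k' a ⟨hmin.1, Subgroup.le_normalizer_of_normal, fun M l ne nM =>
    le_antisymm l (hmin.2 M (n M (a.le_norm l) nM) ne)⟩ (by_contra fun ne => hmin.1 (by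
      rw [← hdisj, left_eq_inf]
      exact (hmin.2 _ (n _ (norm_of_cent (cent_symm inf_le_right))
        (normalIn_inf_cent Subgroup.le_normalizer_of_normal).norm) ne).trans inf_le_left))
  rw [CF.Coprime.frattiniOf, Subgroup.relIndex, Subgroup.subgroupOf,
    Subgroup.comap_map_eq_self_of_injective P.subtype_injective] at this
  omega

end Cfsg.Agent.S4188
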