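import Mathlib
import Cfsg.Statements.S4194
import Cfsg.Agent.Fgs1.PCentral

set_option autoImplicit false
open Cfsg

namespace Cfsg.Agent.S4194

open Subgroup CF.Transfer CF.Fgs1 in

/-- A finite group G has commutative Sylow 2-subgroups if and only if every 2-element of G (element of order a power of 2) is 2-central, that is, its centralizer contains a Sylow 2-subgroup of G. -/
theorem result {G : Type*} [Group G] [Finite G] (P : Sylow 2 G) :
    IsMulCommutative (P : Subgroup G) ↔ ∀ x : G, (∃ k : ℕ, orderOf x = 2 ^ k) → (∃ Q : Sylow 2 G, (Q : Subgroup G) ≤ Subgroup.centralizer ({x} : Set G)) := by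
  constructor
  · rintro hP x ⟨k, hk⟩
    obtain ⟨Q, hQ⟩ := (isPGroup_zpowers hk).exists_le_sylow
    obtain ⟨g, rfl⟩ := MulAction.exists_smul_eq G P Q
    refine ⟨g • P, fun y hy => ?_⟩
    have hx := hQ (mem_zpowers x)
    rw [coe_sylow_smul, mem_cj] at hx hy
    have h1 := comm_of_mem hP hy hx
    rw [mem_centralizer_singleton_iff]
    have h2 : g⁻¹ * (y * x) * g = g⁻¹ * (x * y) * g := by simpa [mul_assoc] using h1
    simpa using h2
  · intro h
    refine PCen.comm_two G (fun x hx => ?_) P
    obtain ⟨Q, hQ⟩ := h x hx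
    exact not_dvd_index_of_sylow_le (isSylowIn_top Q) hQ

end Cfsg.Agent.S4194
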