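import Mathlib
import Cfsg.Agent.Fgs2.Basic
import Cfsg.Agent.S4195
import Cfsg.Statements.S4196

set_option autoImplicit false
open Cfsg

namespace Cfsg.Agent.S4196

/-- A finite group G has elementary abelian Sylow 2-subgroups (commutative with every element squaring to the identity) if and only if every 2-element of G has a Sylow 2-subgroup in its centralizer and is conjugate to its inverse. -/
theorem result {G : Type*} [Group G] [Finite G] (P : Sylow 2 G) :
    (IsMulCommutative (P : Subgroup G) ∧ ∀ x ∈ (P : Subgroup G), x ^ 2 = 1) ↔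
      ∀ x : G, (∃ k : ℕ, orderOf x = 2 ^ k) → (∃ Q : Sylow 2 G, (Q : Subgroup G) ≤ Subgroup.centralizer ({x} : Set G)) ∧ IsConj x x⁻¹ := by
  constructor
  · rintro ⟨h1, h2⟩ x ⟨k, hk⟩
    obtain ⟨g, hg⟩ := CF.Fgs2.exists_conj_mem_sylow P hk
    constructor
    · refine ⟨g • P, fun y hy => ?_⟩
      have hy : g⁻¹ * y * g ∈ P := CF.Fgs2.mem_sylow_smul_iff.1 hy
      have := Subgroup.mul_comm_of_mem_isMulCommutative (P : Subgroup G) hy hg
      rw [Subgroup.mem_centralizer_singleton_iff]
      calc y * x = g * (g⁻¹ * y * g * (g⁻¹ * x * g)) * g⁻¹ := by group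
        _ = _ := by rw [this]; group
    · have := h2 _ hg
      have h3 : x * x = 1 := by
        calc x * x = g * (g⁻¹ * x * g) ^ 2 * g⁻¹ := by rw [pow_two]; group
          _ = 1 := by rw [this]; group
      rw [inv_eq_of_mul_eq_one_right h3]
  · intro h
    have h2 : ∀ x ∈ (P : Subgroup G), x ^ 2 = 1 := by
      intro x hx
      by_cases h1 : x = 1
      · simp [h1]
      obtain ⟨⟨Q, hQ⟩, hc⟩ := h x (CF.Fgs2.orderOf_eq_pow_of_mem P.2 hx)
      rw [← Cfsg.Agent.S4195.result x h1 Q hQ hc, pow_orderOf_eq_one]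
    refine ⟨IsMulCommutative.of_setLike_mul_comm fun a ha b hb => ?_, h2⟩
    have h3 := h2 _ (mul_mem ha hb)
    have ha2 := h2 _ ha
    have hb2 := h2 _ hb
    rw [pow_two] at h3 ha2 hb2
    calc a * b = a * (a * b * (a * b)) * b * (b * b) * a⁻¹ * a * b⁻¹ * b := by
          rw [h3, hb2]; group
      _ = (a * a) * b * a * (b * b) * (b * b) := by group
      _ = b * a := by rw [ha2, hb2]; group

end Cfsg.Agent.S4196
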