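import Cfsg.Statements.S4198
import Mathlib

set_option autoImplicit false
open Cfsg

namespace Cfsg.Agent.S4198

open Equiv Equiv.Perm

/-- possible cycle types -/
def T (n : ℕ) : Set (Multiset ℕ) := {m | m.sum ≤ n ∧ ∀ a ∈ m, 2 ≤ a}

theorem range_eq (n : ℕ) : Set.range (cycleType : Perm (Fin n) → _) = T n := by
  ext m; simpa [T] using exists_with_cycleType_iff (Fin n) (m := m)

theorem fin (n : ℕ) : (T n).Finite := range_eq n ▸ Set.finite_range _

theorem card_eq (n : ℕ) : Nat.card (ConjClasses (Perm (Fin n))) = (T n).ncard := by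
  let f : ConjClasses (Perm (Fin n)) → Multiset ℕ := Quotient.lift cycleType fun _ _ => isConj_iff_cycleType_eq.1
  have : Function.Injective f := by
    rintro ⟨a⟩ ⟨b⟩ e; exact Quotient.sound (isConj_iff_cycleType_eq.2 e)
  rw [← Set.ncard_range_of_injective this, ← range_eq]
  congr 1; ext m; exact ⟨by rintro ⟨⟨a⟩, rfl⟩; exact ⟨a, rfl⟩, by rintro ⟨a, rfl⟩; exact ⟨ConjClasses.mk a, rfl⟩⟩

/-- a chosen part -/
noncomputable def pt (m : Multiset ℕ) : ℕ := Classical.epsilon (· ∈ m)

theorem pt_mem {m : Multiset ℕ} (h : m.sum ≠ 0) : pt m ∈ m :=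
  Classical.epsilon_spec (Multiset.exists_mem_of_ne_zero (by rintro rfl; simp at h))

theorem rec2 (n : ℕ) : (T (n + 2)).ncard ≤ (T (n + 1)).ncard + (T n).ncard := by
  rw [← Set.ncard_inter_add_ncard_sdiff_eq_ncard (T (n + 2)) (T (n + 1)) (fin _)]
  have key : ∀ m ∈ T (n + 2) \ T (n + 1), pt m ∈ m ∧ pt m + (m.erase (pt m)).sum = n + 2 := fun m hm => by
    have : m.sum = n + 2 := by_contra fun e => hm.2 ⟨by have := hm.1.1; omega, hm.1.2⟩
    have h := pt_mem (this.trans_ne (by omega))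
    exact ⟨h, by rw [← this, ← Multiset.sum_cons, Multiset.cons_erase h]⟩
  refine add_le_add (Set.ncard_le_ncard Set.inter_subset_right (fin _)) (Set.ncard_le_ncard_of_injOn
    (fun m => m.erase (pt m)) (fun m hm => ⟨?_, fun a ha => hm.1.2 a (Multiset.mem_of_mem_erase ha)⟩)
    (fun m hm m' hm' e => ?_) (fin _))
  · have := key m hm; have := hm.1.2 _ this.1; omega
  · have h1 := key m hm
    have h2 := key m' hm'
    simp only at e
    rw [← Multiset.cons_erase h1.1, ← Multiset.cons_erase h2.1, e, show pt m = pt m' by rw [e] at h1; omega]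

theorem bound (n : ℕ) : (T (n + 5)).ncard ≤ 2 ^ (n + 3) ∧ (T (n + 4)).ncard ≤ 2 ^ (n + 3) := by
  have h1 : ∀ k ≤ 1, (T k).ncard ≤ 1 := fun k hk => (Set.ncard_le_one (fin _)).2 fun a ha b hb => by
    have : ∀ a ∈ T k, a = 0 := fun a ha => Multiset.eq_zero_of_forall_notMem fun x hx => by
      have := Multiset.le_sum_of_mem hx; have := ha.1; have := ha.2 x hx; omega
    rw [this a ha, this b hb]
  induction n with
  | zero => have := h1 0; have := h1 1; have := rec2 0; have := rec2 1; have := rec2 2; have := rec2 3; simp at *; omega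
  | succ n ih =>
    have := rec2 (n + 4)
    rw [show n + 1 + 3 = n + 3 + 1 by ring, pow_succ, show n + 1 + 5 = n + 4 + 2 by ring, show n + 1 + 4 = n + 5 by ring]
    rw [show n + 4 + 1 = n + 5 by ring] at this
    omega

theorem lt (n : ℕ) (hn : 5 ≤ n) : Nat.card (ConjClasses (alternatingGroup (Fin n))) < (T n).ncard := by
  classical
  let f : ConjClasses (alternatingGroup (Fin n)) → Multiset ℕ := Quotient.lift (fun a => a.1.cycleType)
    fun _ _ e => isConj_iff_cycleType_eq.1 ((alternatingGroup _).subtype.map_isConj e)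
  have h1 : ∀ x y : alternatingGroup (Fin n), x.1.cycleType = y.1.cycleType → ConjClasses.mk x ≠ ConjClasses.mk y →
      ∃ g, g * x.1 * g⁻¹ = y ∧ ∀ k, g * k ∈ alternatingGroup (Fin n) → k * x.1 * k⁻¹ ≠ x := fun x y e e' => by
    obtain ⟨g, hg⟩ := isConj_iff.1 (isConj_iff_cycleType_eq.2 e)
    refine ⟨g, hg, fun k hk e2 => e' (Quotient.sound (isConj_iff.2 ⟨⟨_, hk⟩, Subtype.ext ?_⟩))⟩
    simp only [Subgroup.coe_mul, Subgroup.coe_inv, ← hg]
    conv_rhs => rw [← e2]
    group
  have h2 : ∀ c d, f c = f d → c ≠ d → (∀ a ∈ f c, Odd a) ∧ n ≤ (f c).sum + 1 := by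
    rintro ⟨x⟩ ⟨y⟩ e e'
    obtain ⟨g, -, h2⟩ := h1 x y e e'
    have := (centralizer_le_alternating_iff (g := x.1)).1 fun k hk => by_contra fun h3 => h2 k (by
      have : sign g = -1 := Int.units_ne_iff_eq_neg.1 fun e => h2 1 (by simpa using e) (by simp)
      rw [mem_alternatingGroup, ← ne_eq, Int.units_ne_iff_eq_neg] at h3
      simp [h3, this]) (by rw [mul_inv_eq_iff_eq_mul, Subgroup.mem_centralizer_singleton_iff.1 hk])
    exact ⟨this.1, by simpa using this.2.1⟩
  have h3 : ∀ c d e, f c = f d → f c = f e → c ≠ d → c ≠ e → d = e := by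
    rintro ⟨x⟩ ⟨y⟩ ⟨z⟩ e1 e2 e3 e4
    obtain ⟨g, h3, h4⟩ := h1 x y e1 e3
    obtain ⟨k, h5, h6⟩ := h1 x z e2 e4
    have h7 : sign g = -1 := Int.units_ne_iff_eq_neg.1 fun e => h4 1 (by simpa using e) (by simp)
    have h8 : sign k = -1 := Int.units_ne_iff_eq_neg.1 fun e => h6 1 (by simpa using e) (by simp)
    refine Quotient.sound (isConj_iff.2 ⟨⟨k * g⁻¹, by simp [h7, h8]⟩, Subtype.ext ?_⟩)
    simp only [Subgroup.coe_mul, Subgroup.coe_inv, ← h3, ← h5]; group
  have h4 : ∀ c, f c ∈ T n ∧ Even ((f c).sum + (f c).card) := by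
    rintro ⟨x⟩
    exact ⟨range_eq n ▸ ⟨x.1, rfl⟩, (neg_one_pow_eq_one_iff_even (by decide)).1
      ((sign_of_cycleType x.1).symm.trans x.2)⟩
  let r := Function.invFun f
  have h5 : ∀ c, f (r (f c)) = f c := fun c => Function.invFun_eq ⟨c, rfl⟩
  let F : ConjClasses (alternatingGroup (Fin n)) → Multiset ℕ := fun c =>
    if r (f c) = c then f c else (pt (f c) - 1) ::ₘ (f c).erase (pt (f c))
  have h6 : ∀ c, r (f c) ≠ c → ∃ a m, f c = (a + 1) ::ₘ m ∧ F c = a ::ₘ m ∧ Even a ∧ 2 ≤ a ∧ (∀ b ∈ m, Odd b) ∧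
      n ≤ a + m.sum + 2 := fun c e => by
    obtain ⟨h6, h7⟩ := h2 c _ (h5 c).symm e.symm
    have h8 := pt_mem (by omega : (f c).sum ≠ 0)
    have h9 := (h4 c).1.2 _ h8
    obtain ⟨k, hk⟩ := h6 _ h8
    refine ⟨pt (f c) - 1, _, by rw [Nat.sub_add_cancel (by omega), Multiset.cons_erase h8], if_neg e,
      ⟨k, by omega⟩, by omega, fun b hb => h6 b (Multiset.mem_of_mem_erase hb), ?_⟩
    rw [← Multiset.cons_erase h8, Multiset.sum_cons] at h7; omega
  have h7 : ∀ c d, r (f c) = c → r (f d) ≠ d → F c ≠ F d := fun c d e e' e2 => by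
    obtain ⟨a, m, h6, h7, -⟩ := h6 d e'
    have h8 := (h4 c).2
    have h9 := (h4 d).2
    rw [show f c = F c from (if_pos e).symm, e2, h7] at h8
    simp only [h6, Multiset.sum_cons, Multiset.card_cons, Nat.even_iff] at h8 h9
    omega
  have h8 : Function.Injective F := fun c d e => by
    by_cases e1 : r (f c) = c <;> by_cases e2 : r (f d) = d
    · rw [← e1, ← e2, show f c = f d from (if_pos e1).symm.trans (e.trans (if_pos e2))]
    · exact absurd e (h7 c d e1 e2)
    · exact absurd e.symm (h7 d c e2 e1)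
    obtain ⟨a, m, h8, h9, h10, -, h11, -⟩ := h6 c e1
    obtain ⟨b, k, h12, h13, -, -, h14, -⟩ := h6 d e2
    rw [h9, h13] at e
    obtain rfl : a = b := (Multiset.mem_cons.1 (e ▸ Multiset.mem_cons_self a m)).resolve_right fun e =>
      Nat.not_even_iff_odd.2 (h14 a e) h10
    have h15 : f c = f d := by rw [h8, h12, (Multiset.cons_inj_right a).1 e]
    exact h3 _ c d (h5 c) ((h5 c).trans h15) e1 (h15 ▸ e2)
  rw [← Set.ncard_range_of_injective h8]
  refine Set.ncard_lt_ncard ⟨?_, fun e => ?_⟩ (fin n)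
  · rintro _ ⟨c, rfl⟩
    by_cases e : r (f c) = c
    · exact (show F c = f c from if_pos e) ▸ (h4 c).1
    obtain ⟨a, m, h8, h9, -, h10, -⟩ := h6 c e
    have := (h4 c).1
    simp only [h8, h9, T, Set.mem_ofPred_eq, Multiset.sum_cons, Multiset.mem_cons, forall_eq_or_imp] at this ⊢
    exact ⟨by omega, h10, this.2.2⟩
  · obtain ⟨c, hc⟩ := e (a := {2}) ⟨by simp; omega, by simp⟩
    by_cases e : r (f c) = c
    · have := (h4 c).2
      rw [show f c = F c from (if_pos e).symm, hc] at this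
      exact absurd this (by decide)
    obtain ⟨a, m, -, h9, -, -, -, h10⟩ := h6 c e
    have := congrArg Multiset.sum (h9.symm.trans hc)
    simp at this; omega

/-- For n ≥ 5 the alternating group of degree n has strictly fewer conjugacy classes than the symmetric group of degree n, and the symmetric group of degree n (whose classes correspond to the partitions of n) has at most 2^(n−2) conjugacy classes. -/
theorem result (n : ℕ) (hn : 5 ≤ n) : Nat.card (ConjClasses (alternatingGroup (Fin n))) < Nat.card (ConjClasses (Equiv.Perm (Fin n))) ∧ Nat.card (ConjClasses (Equiv.Perm (Fin n))) ≤ 2 ^ (n - 2) := by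
  rw [card_eq]
  obtain ⟨k, rfl⟩ := Nat.exists_eq_add_of_le' hn
  exact ⟨lt _ hn, (bound k).1⟩

end Cfsg.Agent.S4198
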