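import Mathlib
import Cfsg.Agent.Fgs2.SubCount2
import Cfsg.Agent.Invol.Q8
import Cfsg.Agent.Solv.FrattiniP
import Cfsg.Statements.S4211

set_option autoImplicit false
open Cfsg

namespace Cfsg.Agent.S4211

open Subgroup
open scoped commutatorElement

theorem comm_pow_right {G : Type*} [Group G] {x y : G} (h : Commute ⁅y, x⁆ x) (n : ℕ) :
    ⁅y, x ^ n⁆ = ⁅y, x⁆ ^ n := by
  have h1 : y * x * y⁻¹ = ⁅y, x⁆ * x := by rw [commutatorElement_def]; group
  rw [commutatorElement_def, ← conj_pow, h1, h.mul_pow]; group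

theorem zpowers_eq {G : Type*} [Group G] [Finite G] {p a : ℕ} (hp : p.Prime) {x c : G}
    (hx : orderOf x = p ^ (a + 1)) (hc : c ∈ zpowers x) (hco : orderOf c = p) :
    zpowers c = zpowers (x ^ p ^ a) := by
  rw [← mem_powers_iff_mem_zpowers] at hc
  obtain ⟨t, rfl⟩ := hc
  simp only at hco ⊢
  have h1 : p ^ a * p ∣ t * p := by
    rw [← pow_succ, ← hx, orderOf_dvd_iff_pow_eq_one, pow_mul, ← hco, pow_orderOf_eq_one]
  obtain ⟨s, rfl⟩ := Nat.dvd_of_mul_dvd_mul_right hp.pos h1
  refine eq_of_le_of_card_ge (zpowers_le.2 (by rw [pow_mul]; exact npow_mem_zpowers _ _)) ?_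
  rw [Nat.card_zpowers, Nat.card_zpowers, hco,
    orderOf_pow_of_dvd (pow_ne_zero _ hp.ne_zero) (hx ▸ pow_dvd_pow _ (Nat.le_succ a)), hx,
    pow_succ, Nat.mul_div_cancel_left _ (pow_pos hp.pos _)]

theorem core {G : Type*} [Group G] [Finite G] (hn : ∀ H : Subgroup G, H.Normal) (H : Subgroup G)
    {x0 y0 : G} (hx0 : x0 ∈ H) (hy0 : y0 ∈ H) (h0 : ¬ Commute x0 y0) :
    ∃ i ∈ H, ∃ j ∈ H, j * j = i * i ∧ i * i ≠ 1 ∧ j * i * j⁻¹ = i⁻¹ := by
  obtain ⟨⟨x1, y1⟩, ⟨hx1, hy1, h1⟩, hmin⟩ := WellFounded.has_min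
    (measure (fun w : G × G => orderOf w.1 + orderOf w.2)).wf
    {w | w.1 ∈ H ∧ w.2 ∈ H ∧ ¬ Commute w.1 w.2} ⟨(x0, y0), hx0, hy0, h0⟩
  obtain ⟨x, y, hx, hy, hxy, hle, hm⟩ : ∃ x y, x ∈ H ∧ y ∈ H ∧ ¬ Commute x y ∧
      orderOf y ≤ orderOf x ∧ ∀ u ∈ H, ∀ v ∈ H, orderOf u + orderOf v < orderOf x + orderOf y →
        Commute u v := by
    have hm : ∀ u ∈ H, ∀ v ∈ H, orderOf u + orderOf v < orderOf x1 + orderOf y1 →
        Commute u v := fun u hu v hv h => by
      by_contra hc
      exact hmin (u, v) ⟨hu, hv, hc⟩ h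
    rcases le_total (orderOf y1) (orderOf x1) with h | h
    · exact ⟨x1, y1, hx1, hy1, h1, h, hm⟩
    · exact ⟨y1, x1, hy1, hx1, fun h' => h1 h'.symm, h, by rw [add_comm (orderOf y1)]; exact hm⟩
  have hcx : ⁅y, x⁆ ∈ zpowers x :=
    mul_mem ((hn _).conj_mem x (mem_zpowers x) y) (inv_mem (mem_zpowers x))
  have hcy : ⁅y, x⁆ ∈ zpowers y := by
    rw [← commutatorElement_inv]
    exact inv_mem (mul_mem ((hn _).conj_mem y (mem_zpowers y) x) (inv_mem (mem_zpowers y)))
  have hc1 : ⁅y, x⁆ ≠ 1 := fun h => hxy (commutatorElement_eq_one_iff_commute.1 h).symm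
  have hccx : Commute ⁅y, x⁆ x := by
    obtain ⟨k, hk⟩ := hcx
    rw [← hk]; exact Commute.zpow_self x k
  have hccy : Commute ⁅y, x⁆ y := by
    obtain ⟨k, hk⟩ := hcy
    rw [← hk]; exact Commute.zpow_self y k
  have hlt : ∀ (g : G) (r : ℕ), r.Prime → r ∣ orderOf g → orderOf (g ^ r) < orderOf g := by
    intro g r hr h
    rw [orderOf_pow_of_dvd hr.ne_zero h]
    exact Nat.div_lt_self (orderOf_pos _) hr.one_lt
  have hrx : ∀ r : ℕ, r.Prime → r ∣ orderOf x → ⁅y, x⁆ ^ r = 1 := by
    intro r hr h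
    rw [← comm_pow_right hccx, commutatorElement_eq_one_iff_commute]
    exact (hm _ (pow_mem hx r) _ hy (by have := hlt x r hr h; omega)).symm
  have hry : ∀ r : ℕ, r.Prime → r ∣ orderOf y → ⁅y, x⁆ ^ r = 1 := by
    intro r hr h
    rw [← commutatorElement_inv, inv_pow, ← comm_pow_right (by
      rw [← commutatorElement_inv]; exact hccy.inv_left), inv_eq_one,
      commutatorElement_eq_one_iff_commute]
    exact hm _ hx _ (pow_mem hy r) (by have := hlt y r hr h; omega)
  have hx1' : orderOf x ≠ 1 := by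
    rw [Ne, orderOf_eq_one_iff]; rintro rfl; exact hxy (Commute.one_left _)
  have hy1' : orderOf y ≠ 1 := by
    rw [Ne, orderOf_eq_one_iff]; rintro rfl; exact hxy (Commute.one_right _)
  obtain ⟨p, hp, hpx⟩ := Nat.exists_prime_and_dvd hx1'
  haveI := Fact.mk hp
  have hco : orderOf ⁅y, x⁆ = p := orderOf_eq_prime (hrx p hp hpx) hc1
  have hpow : ∀ g : G, orderOf g ≠ 1 → (∀ r : ℕ, r.Prime → r ∣ orderOf g → ⁅y, x⁆ ^ r = 1) →
      ∃ a, orderOf g = p ^ (a + 1) := by
    intro g hg h
    have := Nat.eq_prime_pow_of_unique_prime_dvd (orderOf_pos g).ne' (p := p) (fun {d} hd hd' =>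
      ((Nat.prime_dvd_prime_iff_eq hp hd).1 (hco ▸ orderOf_dvd_of_pow_eq_one (h d hd hd'))).symm)
    generalize (orderOf g).primeFactorsList.length = e at this
    cases e with
    | zero => exact absurd this hg
    | succ e => exact ⟨e, this⟩
  obtain ⟨a, ha⟩ := hpow x hx1' hrx
  obtain ⟨b, hb⟩ := hpow y hy1' hry
  have hza := zpowers_eq hp ha hcx hco
  have hzb := zpowers_eq hp hb hcy hco
  have hba : b ≤ a := by
    rw [ha, hb, Nat.pow_le_pow_iff_right hp.one_lt] at hle; omega
  have hb0 : 1 ≤ b := by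
    by_contra h
    obtain rfl : b = 0 := by omega
    obtain ⟨k, hk⟩ : y ∈ zpowers ⁅y, x⁆ := by rw [hzb]; simp
    exact hxy (by rw [← hk]; exact (hccx.zpow_left k).symm)
  have h2 : (y ^ p ^ b)⁻¹ ∈ zpowers (x ^ p ^ a) := by
    rw [← hza, hzb]; exact inv_mem (mem_zpowers _)
  rw [← mem_powers_iff_mem_zpowers] at h2
  obtain ⟨k, hk⟩ := h2
  simp only at hk
  obtain ⟨d, rfl⟩ := Nat.exists_eq_add_of_le hba
  have h3 : ⁅y, x⁆ ^ (p ^ d * k * (p ^ b).choose 2) ≠ 1 := by
    intro h
    have h4 : (x ^ (p ^ d * k) * y) ^ p ^ b = 1 := by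
      rw [CF.Coprime.mul_pow_of_commutator_comm, comm_pow_right hccx, ← pow_mul ⁅y, x⁆, h,
        mul_one, ← pow_mul, mul_right_comm, ← pow_add, add_comm, pow_mul, hk, inv_mul_cancel]
      · rw [comm_pow_right hccx]; exact hccx.pow_pow _ _
      · rw [comm_pow_right hccx]; exact hccy.pow_left _
    have h5 := orderOf_le_of_pow_eq_one (pow_pos hp.pos b) h4
    have h6 := hm _ hx _ (mul_mem (pow_mem hx (p ^ d * k)) hy) (by
      have := Nat.pow_lt_pow_right hp.one_lt (Nat.lt_add_one b)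
      rw [hb]; omega)
    apply hxy
    have := (Commute.pow_self x (p ^ d * k)).symm.inv_right.mul_right h6
    simpa using this
  rw [Ne, ← orderOf_dvd_iff_pow_eq_one, hco] at h3
  obtain rfl : d = 0 := by
    by_contra h
    exact h3 (((dvd_pow_self p h).mul_right _).mul_right _)
  obtain rfl : p = 2 := by
    by_contra h
    exact h3 ((CF.Fgs2.dvd_choose_two_of_odd hp h hb0).mul_left _)
  obtain rfl : b = 1 := by
    by_contra h
    exact h3 ((CF.Fgs2.two_dvd_choose_two (by omega)).mul_left _)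
  have hzp : ∀ w ∈ zpowers ⁅y, x⁆, w ≠ 1 → w = ⁅y, x⁆ := by
    intro w hw
    classical
    rw [mem_zpowers_iff_mem_range_orderOf, hco] at hw
    have : w = 1 ∨ w = ⁅y, x⁆ := by simpa [Finset.range_add_one, or_comm, eq_comm] using hw
    exact this.resolve_left
  have hx2 : x * x ≠ 1 := by
    rw [← sq, Ne, ← orderOf_dvd_iff_pow_eq_one, ha]; norm_num
  have hy2 : y * y ≠ 1 := by
    rw [← sq, Ne, ← orderOf_dvd_iff_pow_eq_one, hb]; norm_num
  have hxc : x * x = ⁅y, x⁆ := hzp _ (by rw [hza, ← sq]; exact mem_zpowers _) hx2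
  have hyc : y * y = ⁅y, x⁆ := hzp _ (by rw [hzb, ← sq]; exact mem_zpowers _) hy2
  refine ⟨x, hx, y, hy, hyc.trans hxc.symm, hx2, ?_⟩
  have h4 : x ^ 4 = 1 := by
    have := pow_orderOf_eq_one x
    rwa [ha] at this
  rw [show y * x * y⁻¹ = ⁅y, x⁆ * x by rw [commutatorElement_def]; group, ← hxc,
    eq_inv_iff_mul_eq_one, ← h4]
  simp only [pow_succ, pow_zero, one_mul]

/-- A finite non-abelian group in which every subgroup is normal is the internal direct product of a subgroup isomorphic to the quaternion group of order `8`, an elementary abelian `2`-subgroup and an abelian subgroup of odd order. -/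
theorem result {G : Type*} [Group G] [Finite G] (hna : ¬ IsMulCommutative G) (hn : ∀ H : Subgroup G, H.Normal) : ∃ Q E A : Subgroup G, Nonempty (Q ≃* QuaternionGroup 2) ∧ Cfsg.IsElementaryAbelian 2 E ∧ IsMulCommutative A ∧ Odd (Nat.card A) ∧ E ⊓ A = ⊥ ∧ Q ⊓ (E ⊔ A) = ⊥ ∧ Q ⊔ (E ⊔ A) = ⊤ := by
  classical
  obtain ⟨x0, y0, h0⟩ : ∃ x y : G, ¬ Commute x y := by
    by_contra h
    push Not at h
    exact hna ⟨⟨h⟩⟩
  obtain ⟨i, -, j, -, h1, h2, h3⟩ := core hn ⊤ (mem_top x0) (mem_top y0) h0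
  have hQ := CF.Invol.isQ8_closure h1 h2 h3
  set Q := closure ({j, i} : Set G) with hQdef
  -- elements of odd order are central
  have hodd : ∀ a : G, Odd (orderOf a) → ∀ g, Commute a g := by
    intro a ha g
    by_contra hc
    obtain ⟨y, hy, w, hw, ⟨k, hk⟩, hw', rfl, -⟩ :=
      CF.Transfer.exists_pPart_pPrimePart (p := 2) (isOfFinOrder_of_finite g)
    refine hc (Commute.mul_right ?_ ?_)
    · rw [← commutatorElement_eq_one_iff_commute]
      have h4 : ⁅a, y⁆ ∈ zpowers y :=
        mul_mem ((hn _).conj_mem y (mem_zpowers y) a) (inv_mem (mem_zpowers y))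
      have h5 : ⁅a, y⁆ ∈ zpowers a := by
        rw [← commutatorElement_inv]
        exact inv_mem (mul_mem ((hn _).conj_mem a (mem_zpowers a) y) (inv_mem (mem_zpowers a)))
      rw [← orderOf_eq_one_iff]
      refine Nat.eq_one_of_dvd_coprimes (show (orderOf a).Coprime (orderOf y) from ?_)
        (orderOf_dvd_of_mem_zpowers h5) (orderOf_dvd_of_mem_zpowers h4)
      rw [hk]
      exact (Nat.coprime_two_right.2 ha).pow_right _
    · by_contra hc'
      obtain ⟨u, hu, v, -, h4, h5, h6⟩ := core hn (zpowers a ⊔ zpowers w)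
        (mem_sup_left (mem_zpowers a)) (mem_sup_right (mem_zpowers w)) hc'
      have h7 : orderOf u = 4 := CF.Invol.orderOf_eq_four_iff.2 ⟨CF.Invol.q8_pow_four h4 h6, h5⟩
      haveI := hn (zpowers w)
      have h8 : Nat.card ↥(zpowers a ⊔ zpowers w) ∣ orderOf a * orderOf w := by
        rw [← Nat.card_zpowers, ← Nat.card_zpowers, ← relIndex_bot_left,
          ← relIndex_mul_relIndex ⊥ (zpowers w) _ bot_le le_sup_right, relIndex_bot_left,
          relIndex_sup_right, mul_comm]
        exact Nat.mul_dvd_mul_right (relIndex_dvd_card _ _) _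
      have h9 := (orderOf_dvd_natCard _ hu).trans h8
      rw [h7] at h9
      have := (ha.mul (Nat.coprime_two_right.1 hw')).of_dvd_nat h9
      norm_num at this
  have hinv : ∀ t : G, t ^ 2 = 1 → ∀ g, Commute t g := by
    intro t ht g
    by_cases h : t = 1
    · rw [h]; exact Commute.one_left g
    have h4 := (hn _).conj_mem t (mem_zpowers t) g
    rw [mem_zpowers_iff_mem_range_orderOf, orderOf_eq_prime ht h] at h4
    have : g * t * g⁻¹ = 1 ∨ g * t * g⁻¹ = t := by
      simpa [Finset.range_add_one, or_comm, eq_comm] using h4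
    rcases this with h5 | h5
    · exact absurd (by simpa using h5) h
    · exact (mul_inv_eq_iff_eq_mul.1 h5).symm
  let A : Subgroup G :=
    { carrier := {a | Odd (orderOf a)}
      mul_mem' := fun {a b} ha hb => (ha.mul hb).of_dvd_nat (hodd a ha b).orderOf_mul_dvd_mul_orderOf
      one_mem' := by simp
      inv_mem' := fun {a} ha => by simpa using ha }
  let E0 : Subgroup G :=
    { carrier := {a | a ^ 2 = 1}
      mul_mem' := fun {a b} ha hb => by
        simp only [Set.mem_ofPred_eq] at *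
        rw [(hinv a ha b).mul_pow, ha, hb, one_mul]
      one_mem' := by simp
      inv_mem' := fun {a} ha => by simpa using ha }
  have hE0 : Cfsg.IsElementaryAbelian 2 E0 := ⟨⟨⟨fun a b => Subtype.ext (hinv a a.2 b)⟩⟩, fun a ha => ha⟩
  have hz : i * i ∈ E0 := by
    change _ ^ 2 = 1
    rw [sq]; exact hQ.pow_four
  obtain ⟨E, hE, hE1, hE2⟩ := CF.Solv.exists_complement_of_isElementaryAbelian hE0 (zpowers_le.2 hz)
  have hEA : ∀ e ∈ E0, ∀ a ∈ A, (e * a) ^ 2 = 1 → a = 1 := by
    intro e he a ha h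
    rw [(hinv e he a).mul_pow, show e ^ 2 = 1 from he, one_mul] at h
    rw [← orderOf_eq_one_iff]
    exact Nat.eq_one_of_dvd_coprimes (Nat.coprime_two_right.2 ha) dvd_rfl
      (orderOf_dvd_of_pow_eq_one h)
  refine ⟨Q, E, A, hQ.nonempty_equiv, ⟨⟨⟨fun a b => Subtype.ext (hinv a (hE a.2) b)⟩⟩,
    fun a ha => hE ha⟩, ⟨⟨fun a b => Subtype.ext (hodd a a.2 b)⟩⟩, ?_, ?_, ?_, ?_⟩
  · rw [← Nat.not_even_iff_odd, even_iff_two_dvd]
    intro h
    obtain ⟨a, ha⟩ := exists_prime_orderOf_dvd_card' 2 h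
    have : Odd (orderOf (a : G)) := a.2
    rw [orderOf_coe, ha] at this
    norm_num at this
  · rw [eq_bot_iff]
    intro a ha
    exact hEA 1 E0.one_mem a ha.2 (by rw [one_mul]; exact hE ha.1)
  · rw [eq_bot_iff]
    intro q hq0
    obtain ⟨hq, hq'⟩ := mem_inf.1 hq0
    clear hq0
    haveI := hn A
    rw [← SetLike.mem_coe, mul_normal] at hq'
    obtain ⟨e, he, a, ha, rfl⟩ := hq'
    simp only at hq ⊢
    have hc : ∀ g, Commute (e * a) g := fun g => (hinv e (hE he) g).mul_left (hodd a ha g)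
    have h4 : (e * a) ∈ zpowers (i * i) := by
      rcases hQ.mul_self_cases hq with h | h | h
      · exact h ▸ one_mem _
      · exact h ▸ mem_zpowers _
      · exfalso
        have h5 := hQ.eq_or_inv (hQ.mem_zpowers_left hq (hc i)) (h ▸ h2)
        apply hQ.not_commute
        rcases h5 with h5 | h5
        · exact h5 ▸ hc j
        · simpa [h5] using (hc j).inv_left
    obtain rfl := hEA e (hE he) a ha (zpowers_le.2 hz h4)
    rw [← hE1]
    exact ⟨h4, by simpa using he⟩
  · rw [eq_top_iff]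
    intro g _
    obtain ⟨q, hq, hc⟩ := hQ.exists_mul_of_cj_eq (g := g)
      (by haveI := hn (zpowers i); exact CF.Transfer.cj_eq_of_normal _ _)
      (by haveI := hn (zpowers j); exact CF.Transfer.cj_eq_of_normal _ _)
    obtain ⟨y, hy, w, hw, ⟨k, hk⟩, hw', hyw, -⟩ :=
      CF.Transfer.exists_pPart_pPrimePart (p := 2) (isOfFinOrder_of_finite (q⁻¹ * g))
    have h4 : ∀ u ∈ centralizer (Q : Set G), (u * u) * (u * u) = 1 → u * u = 1 := by
      intro u hu hu4
      by_contra hu2
      obtain ⟨hui, huj⟩ := hQ.mem_centralizer_iff'.1 hu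
      have h5 := (hn _).conj_mem _ (mem_zpowers (i * u)) j
      have h6 : j * (i * u) * j⁻¹ = i⁻¹ * u := by
        rw [← h3, mul_assoc (j * i), ← huj.inv_right.eq]; group
      have h7 : (i * u) ^ 4 = 1 := by
        rw [hui.symm.mul_pow, ← hQ.orderOf_left, pow_orderOf_eq_one, hQ.orderOf_left, one_mul, ← hu4]
        simp only [pow_succ, pow_zero, one_mul, mul_assoc]
      rw [h6, ← mem_powers_iff_mem_zpowers] at h5
      obtain ⟨m, hm⟩ := h5
      simp only at hm
      rw [← Nat.div_add_mod m 4, pow_add, pow_mul, h7, one_pow, one_mul, hui.symm.mul_pow] at hm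
      have hi4 : i ^ 4 = 1 := by rw [← hQ.orderOf_left, pow_orderOf_eq_one]
      have hui' : u ≠ i := by rintro rfl; exact hQ.not_commute huj
      have hlt : m % 4 < 4 := Nat.mod_lt _ (by norm_num)
      generalize m % 4 = r at hm hlt
      interval_cases r
      · apply hui'
        simp only [pow_zero, mul_one] at hm
        exact (eq_inv_mul_iff_mul_eq.1 hm).symm.trans (mul_one i)
      · apply h2
        simp only [pow_one, mul_left_inj] at hm
        exact mul_eq_one_iff_eq_inv.2 hm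
      · apply hui'
        have : i ^ 3 * u = 1 := by
          apply mul_right_cancel (b := u)
          apply mul_left_cancel (a := i⁻¹)
          rw [one_mul, ← hm]
          simp only [pow_succ, pow_zero, one_mul, mul_assoc, inv_mul_cancel_left]
        rw [← hi4, pow_succ i 3] at this
        exact mul_left_cancel this
      · apply hu2
        have : i ^ 3 = i⁻¹ := by rw [eq_inv_iff_mul_eq_one, ← pow_succ, hi4]
        rw [this, mul_right_inj] at hm
        apply mul_right_cancel (b := u)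
        rw [one_mul]
        conv_rhs => rw [← hm]
        simp only [pow_succ, pow_zero, one_mul, mul_assoc]
    have hyC : y ∈ centralizer (Q : Set G) := zpowers_le.2 hc hy
    have hy2 : y ^ 2 = 1 := by
      by_contra hne
      have hk2 : 2 ≤ k := by
        by_contra h
        apply hne
        rw [← orderOf_dvd_iff_pow_eq_one, hk]
        interval_cases k <;> norm_num
      obtain ⟨l, rfl⟩ := Nat.exists_eq_add_of_le hk2
      have := h4 (y ^ 2 ^ l) (pow_mem hyC _) (by
        rw [← pow_add, ← pow_add, ← orderOf_dvd_iff_pow_eq_one, hk]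
        exact dvd_of_eq (by ring))
      rw [← pow_add, ← orderOf_dvd_iff_pow_eq_one, hk, ← mul_two, ← pow_succ,
        Nat.pow_dvd_pow_iff_le_right one_lt_two] at this
      omega
    have : g = q * (y * w) := by rw [← hyw]; group
    rw [this]
    refine mul_mem (mem_sup_left hq) (mul_mem ?_
      (mem_sup_right (mem_sup_right (Nat.coprime_two_right.1 hw'))))
    have h5 : E0 ≤ Q ⊔ (E ⊔ A) := by
      rw [← hE2]
      exact sup_le (le_sup_of_le_left (zpowers_le.2 (mul_mem hQ.left_mem hQ.left_mem)))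
        (le_sup_of_le_right le_sup_left)
    exact h5 hy2

end Cfsg.Agent.S4211
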