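import Mathlib
import Cfsg.Agent.Fgs2.Zsigmondy
import Cfsg.Statements.S4230

set_option autoImplicit false
open Cfsg

namespace Cfsg.Agent.S4230

/-- Let p be an odd prime, q a natural number not divisible by p, and e the multiplicative order of q modulo p. For a natural number f, p divides the value at q of the f-th cyclotomic polynomial if and only if f = e·p^j for some j ≥ 0. -/
theorem result (p q f : ℕ) (hp : p.Prime) (hp2 : p ≠ 2) (hpq : ¬ p ∣ q) :
    ((p : ℤ) ∣ (Polynomial.cyclotomic f ℤ).eval (q : ℤ)) ↔ ∃ j : ℕ, f = orderOf (q : ZMod p) * p ^ j := by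
  have := Fact.mk hp
  have hq0 : (q : ZMod p) ≠ 0 := by rwa [Ne, ZMod.natCast_eq_zero_iff]
  have h1 := ZMod.orderOf_dvd_card_sub_one hq0
  have h2 := hp.two_le
  have h3 : orderOf (q : ZMod p) ≠ 0 := ne_zero_of_dvd_ne_zero (by omega) h1
  rcases eq_or_ne f 0 with rfl | hf
  · simp only [Polynomial.cyclotomic_zero, Polynomial.eval_one]
    constructor
    · intro h; exact absurd h (Nat.prime_iff_prime_int.1 hp).not_dvd_one
    · rintro ⟨j, hj⟩
      exact absurd hj.symm (mul_ne_zero h3 (pow_ne_zero _ hp.ne_zero))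
  constructor
  · intro h
    obtain ⟨k, m, hm, rfl⟩ := Nat.exists_eq_pow_mul_and_not_dvd hf p hp.ne_one
    rw [CF.Fgs2.prime_dvd_cyclotomic_eval_iff hp q k hm] at h
    exact ⟨k, by rw [h, mul_comm]⟩
  · rintro ⟨j, rfl⟩
    rw [mul_comm, CF.Fgs2.prime_dvd_cyclotomic_eval_iff hp q j]
    intro h
    have := Nat.le_of_dvd (by omega) (h.trans h1)
    omega

end Cfsg.Agent.S4230
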