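import Cfsg.Statements.S4234
import Cfsg.Agent.Classical.MaxL2c

set_option autoImplicit false
open Cfsg

namespace Cfsg.Agent.S4234

open CF.Classical Subgroup MulAction Matrix
open scoped MatrixGroups

/-- Normalisers of non-normal subgroups are maximal. -/
def NM (G : Type*) [Group G] : Prop :=
  ∀ H : Subgroup G, ¬ H.Normal → IsCoatom (normalizer (H : Set G))

theorem NM.of_surj {G G' : Type*} [Group G] [Group G'] [Finite G] (h : NM G') (π : G →* G')
    (hπ : Function.Surjective π)
    (hk : ∀ (H : Subgroup G) (g : G), ∀ x ∈ H, π (g * x * g⁻¹) ∈ H.map π → g * x * g⁻¹ ∈ H) :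
    NM G := by
  intro H hH
  have h1 : normalizer (H : Set G) = (normalizer (H.map π : Set G')).comap π := by
    refine le_antisymm (map_le_iff_le_comap.1 (le_normalizer_map π)) fun g hg => ?_
    refine mem_normalizer_fintype fun x hx => hk H g x hx ?_
    rw [map_mul, map_mul, map_inv]
    exact (mem_normalizer_iff.1 hg _).1 ⟨x, hx, rfl⟩
  rw [h1]
  refine isCoatom_comap_of_surjective hπ (h _ fun hn => hH ?_)
  rw [← normalizer_eq_top_iff] at hn ⊢
  rw [h1, hn, comap_top]

theorem NM.prod {K S : Type*} [Group K] [CommGroup S] [Finite K] [Finite S] (h : NM K)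
    (hKS : (Nat.card K).Coprime (Nat.card S)) : NM (K × S) := by
  have h1 : ∀ (H : Subgroup (K × S)) (k : K) (s : S), (k, s) ∈ H → (k, 1) ∈ H := by
    intro H k s hx
    obtain ⟨m, h1, h2⟩ := Nat.chineseRemainder hKS 1 0
    have := pow_mem hx m
    rwa [Prod.pow_mk, ← pow_mod_natCard k, ← pow_mod_natCard s, h1, h2, pow_mod_natCard,
      pow_mod_natCard, pow_one, pow_zero] at this
  refine h.of_surj (MonoidHom.fst K S) Prod.fst_surjective ?_
  rintro H ⟨a, b⟩ ⟨k, s⟩ hx ⟨⟨k', s'⟩, h2, h3⟩
  have h4 : k' = a * k * a⁻¹ := h3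
  have := mul_mem (h1 H _ _ h2) (mul_mem (inv_mem (h1 H _ _ hx)) hx)
  simpa [h4] using this

theorem NM.sl {F : Type*} [Field F] [Finite F] (h2 : (2 : F) ≠ 0) (h : NM PSL(2, F)) :
    NM SL(2, F) := by
  refine h.of_surj (slToPSL F) slToPSL_surjective ?_
  rintro H g x hx ⟨y, hy, e⟩
  rcases slToPSL_eq_iff.1 e with e | e
  · exact e ▸ hy
  suffices h1 : (-1 : SL(2, F)) ∈ H by simpa [e] using mul_mem h1 hy
  rcases Nat.even_or_odd (orderOf x) with ⟨m, hm⟩ | ho
  · have h3 : x ^ m * x ^ m = 1 := by rw [← pow_add, ← hm, pow_orderOf_eq_one]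
    have h4 := orderOf_pos x
    rcases (SL2_mul_self_eq_one_iff h2).1 h3 with h5 | h5
    · have := Nat.le_of_dvd (by omega) (orderOf_dvd_of_pow_eq_one h5)
      omega
    · exact h5 ▸ pow_mem hx m
  · have := pow_mem hy (orderOf x)
    rwa [e, ← neg_one_mul, (Commute.neg_one_left _).mul_pow, conj_pow, pow_orderOf_eq_one,
      ho.neg_one_pow, mul_one, mul_inv_cancel, mul_one] at this

theorem nm_psl {F : Type*} [Field F] [Finite F] (hF : Nat.card F = 13) : NM PSL(2, F) := by
  intro H hH
  have L := isL2_PSL F (AlgebraicClosure F)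
  have := L.finite
  have hi : (ProjectiveSpecialLinearGroup.toPGL : PSL(2, F) →* PGL(2, F)).range.index = 2 := by
    rw [index_range_pslToPGL, hF]; rfl
  have hc := L.card_mul_index
  rw [hi, hF] at hc
  have hd := card_subgroup_dvd_card H
  rw [show Nat.card PSL(2, F) = 1092 by omega] at hd
  have h2 : (2 : F) ≠ 0 := by
    intro h
    have := Fintype.ofFinite F
    have h1 := Nat.cast_card_eq_zero F
    rw [← Nat.card_eq_fintype_card, hF] at h1
    exact one_ne_zero (α := F) (by push_cast at h1; linear_combination h1 - 6 * h)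
  suffices h : ∃ M, IsCoatom M ∧ M ≤ normalizer (H : Set PSL(2, F)) by
    obtain ⟨M, h1, h3⟩ := h
    rwa [((h1.le_iff.1 h3).resolve_left fun e => hH (normalizer_eq_top_iff.1 e))]
  have H0 : H ≠ ⊥ := by rintro rfl; exact hH inferInstance
  have hP : ∀ {x y : OnePoint (AlgebraicClosure F)}, x ≠ y → torus PSL(2, F) x y ≠ ⊥ →
      IsCoatom (pairStab PSL(2, F) x y) := fun hxy h =>
    L.isCoatom_pairStab range_pslToPGL hxy ((L.torus_cases hxy h).2.imp
      (fun e => ⟨e.2, by simp [hF]⟩) fun e => ⟨e.2.2, by simp [hF]⟩)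
  have hT : ∀ {x y : OnePoint (AlgebraicClosure F)}, x ≠ y → H ≤ torus PSL(2, F) x y →
      ∃ M, IsCoatom M ∧ M ≤ normalizer (H : Set PSL(2, F)) := fun hxy h =>
    ⟨_, hP hxy fun e => H0 (le_bot_iff.1 (e ▸ h)), (normalizer_eq_pairStab hxy H0 h).ge⟩
  have hA : ∀ {A : Subgroup PGL(2, F)}, Nonempty (A ≃* alternatingGroup (Fin 4)) →
      ∃ M : Subgroup PSL(2, F), IsCoatom M ∧ M.map ProjectiveSpecialLinearGroup.toPGL = A := by
    intro A hA
    obtain ⟨M, rfl⟩ := exists_map_toPGL_eq (A4_le_psl hA)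
    refine ⟨M, (isCoatom_iff_covBy_range L.inj).2 ?_, rfl⟩
    rw [range_pslToPGL]
    exact covBy_A4 h2 (by rw [hF]; norm_num) (by omega) (by omega) (by rw [hF]; norm_num) hA
  rcases L.dickson H with ⟨x, h⟩ | ⟨x, y, hxy, h0, h⟩ | ⟨-, h | h | h⟩ | ⟨-, h⟩ | ⟨K, c, H', h1, h⟩
  · by_cases hu : H ⊓ unip _ (ratPt (AlgebraicClosure F) x) = ⊥
    · obtain ⟨y, hxy, h3⟩ := exists_le_torus h hu
      exact hT hxy h3
    have h3 : unip _ (ratPt (AlgebraicClosure F) x) ≤ H := by
      have h4 := card_dvd_of_le (inf_le_right (a := H) (b := unip _ (ratPt (AlgebraicClosure F) x)))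
      have h5 := L.card_unip_ratPt x
      rw [h5, hF] at h4
      rcases (Nat.dvd_prime (by norm_num)).1 h4 with h6 | h6
      · exact absurd (card_eq_one.1 h6) hu
      · exact inf_eq_right.1 (eq_of_le_of_card_ge inf_le_right (by omega))
    refine ⟨_, L.isCoatom_stabilizer x, fun g hg => mem_normalizer_fintype fun z hz => ?_⟩
    simpa [commutatorElement_def] using mul_mem (h3 (L.commutator_mem_unip hg (h hz))) hz
  · by_cases h3 : H ≤ torus _ x y
    · exact hT hxy h3
    obtain ⟨e⟩ := equiv_dihedral_of_le_pairStab hxy h h3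
    have h4 := Nat.card_congr e.toEquiv
    rw [DihedralGroup.nat_card] at h4
    obtain ⟨⟨t, t1, t2⟩, h5⟩ := L.torus_cases hxy h0
    have h6 := card_pairStab hxy t1 t2
    have h7 := card_dvd_of_le (inf_le_right (a := H) (b := torus _ x y))
    have h8 : H.relIndex (pairStab _ x y) * Nat.card H = Nat.card (pairStab PSL(2, F) x y) := by
      rw [relIndex, ← Nat.card_congr (subgroupOfEquivOfLe h).toEquiv, index_mul_card]
    rw [hi, hF] at h5
    have h9 : Nat.card H = 2 ∨ Nat.card H = 4 ∨ H.relIndex (pairStab _ x y) = 2 ∨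
        H.relIndex (pairStab _ x y) = 1 := by
      generalize H.relIndex (pairStab _ x y) = r at *
      rw [h6, h4] at h8
      rw [h4]
      generalize Nat.card (H ⊓ torus PSL(2, F) x y : Subgroup _) = d at *
      have : Nat.card (torus PSL(2, F) x y) = 6 ∨ Nat.card (torus PSL(2, F) x y) = 7 := by omega
      rcases this with e | e <;> rw [e] at h7 h8 <;> have := Nat.le_of_dvd (by norm_num) h7 <;>
        interval_cases d <;> omega
    rcases h9 with h9 | h9 | h9 | h9
    · obtain ⟨g, hg⟩ := (isCyclic_of_prime_card (p := 2) h9).exists_generator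
      obtain ⟨u, v, huv, hg'⟩ := L.exists_torus_of_mul_self h2 (t := g.1) (by
        have := pow_card_eq_one' (x := g)
        rw [h9, pow_two] at this
        exact congrArg Subtype.val this)
      refine hT huv fun z hz => ?_
      obtain ⟨m, hm⟩ := hg ⟨z, hz⟩
      exact (show (g : PSL(2, F)) ^ m = z from congrArg Subtype.val hm) ▸ zpow_mem hg' m
    · rw [show Nat.card (H ⊓ torus PSL(2, F) x y : Subgroup _) = 2 by omega] at e
      have hV : IsKleinFour H := ⟨h9, by
        rw [Monoid.exponent_eq_of_mulEquiv e, DihedralGroup.exponent]; rfl⟩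
      obtain ⟨A, h10, h11⟩ := exists_A4_le_of_S4
        (normalizer_four_equiv h2 (isKleinFour_map hV L.inj) (map_toPGL_le_psl H))
      obtain ⟨M, h12, rfl⟩ := hA h11
      refine ⟨M, h12, fun g hg => mem_normalizer_fintype fun z hz => ?_⟩
      rw [SetLike.mem_coe, ← mem_map_iff_mem L.inj, map_mul, map_mul, map_inv]
      exact (mem_normalizer_iff.1 (h10 ⟨g, hg, rfl⟩) _).1 ⟨z, hz, rfl⟩
    · exact ⟨_, hP hxy h0, (normal_subgroupOf_iff_le_normalizer h).1 (normal_of_index_eq_two h9)⟩
    · exact ⟨_, hP hxy h0, (relIndex_eq_one.1 h9).trans le_normalizer⟩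
  · obtain ⟨M, h3, h4⟩ := hA (L.equiv_map_iff.2 h)
    exact ⟨M, h3, (map_injective L.inj h4) ▸ le_normalizer⟩
  · rw [card_of_equiv h, Nat.card_perm] at hd; simp [Nat.factorial] at hd
  · rw [card_of_equiv h, nat_card_alternatingGroup] at hd; simp [Nat.factorial] at hd
  · rw [card_of_equiv h, nat_card_alternatingGroup] at hd; simp [Nat.factorial] at hd
  · refine absurd (subfield_eq_top_of_prime (by rw [hF]; norm_num) K)
      (ne_top_of_map_subPGL (c := c) h1 fun e => hH ?_)
    rw [← h, ← range_pslToPGL, MonoidHom.range_eq_map, map_le_map_iff_of_injective L.inj,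
      top_le_iff] at e
    rw [e]; infer_instance


/-- Let K be isomorphic to PSL(2, 13) or to SL(2, 13) and let S be a finite abelian group of order coprime to the order of K. Then in the direct product K × S every subgroup that is not normal has a normalizer that is a maximal subgroup. -/
theorem result {K S : Type*} [Group K] [CommGroup S] [Finite K] [Finite S]
    (hK : Nonempty (K ≃* Matrix.ProjectiveSpecialLinearGroup (Fin 2) (ZMod 13)) ∨
      Nonempty (K ≃* Matrix.SpecialLinearGroup (Fin 2) (ZMod 13)))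
    (hKS : (Nat.card K).Coprime (Nat.card S)) (H : Subgroup (K × S)) (hH : ¬ H.Normal) :
    IsCoatom (Subgroup.normalizer (H : Set (K × S))) := by
  have : Fact (Nat.Prime 13) := ⟨by norm_num⟩
  have h1 : NM (Matrix.ProjectiveSpecialLinearGroup (Fin 2) (ZMod 13)) :=
    nm_psl (F := ZMod 13) (Nat.card_zmod 13)
  refine NM.prod ?_ hKS H hH
  rcases hK with ⟨⟨e⟩⟩ | ⟨⟨e⟩⟩
  · exact h1.of_surj e.toMonoidHom e.surjective fun H g x _ h =>
      (Subgroup.mem_map_iff_mem e.injective).1 h
  · have h2 : NM (Matrix.SpecialLinearGroup (Fin 2) (ZMod 13)) := 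
      NM.sl (F := ZMod 13) (show (2 : ZMod 13) ≠ 0 from by decide +revert) h1
    exact h2.of_surj e.toMonoidHom e.surjective fun H g x _ h =>
      (Subgroup.mem_map_iff_mem e.injective).1 h

end Cfsg.Agent.S4234
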