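import Mathlib
import Cfsg.Statements.S4235
import Cfsg.Agent.CIT.App
import Cfsg.Agent.Coprime.Thompson

set_option autoImplicit false
open scoped Pointwise
open Cfsg

namespace Cfsg.Agent.S4235

open Cfsg Subgroup CF.BG CF.Bender CF.Suz CF.CIT

theorem psl_equiv_sl {K : Type} [Field K] [Fintype K] {n : ℕ} (h1 : 1 ≤ n)
    (h : Fintype.card K = 2 ^ n) :
    Nonempty (Matrix.ProjectiveSpecialLinearGroup (Fin 2) K ≃* Matrix.SpecialLinearGroup (Fin 2) K) := by
  have h2 := CF.Classical.card_center_SL (ι := Fin 2) K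
  have h3 : Nat.gcd 2 (2 ^ n - 1) = 1 := Nat.coprime_two_left.2
    (Nat.Even.sub_odd Nat.one_le_two_pow ((Nat.even_pow' (by omega)).2 even_two) odd_one)
  rw [Nat.card_eq_fintype_card (α := K), h, Fintype.card_fin, h3] at h2
  exact ⟨(QuotientGroup.quotientMulEquivOfEq (card_eq_one.mp h2)).trans QuotientGroup.quotientBot⟩

theorem core {G : Type*} [Group G] [Finite G] (ns : ¬ Sol (⊤ : Subgroup G)) {S M F : Subgroup G}
    (hS : Syl 2 S ⊤) (hSM : 𝐍 S ≤ M) (sM : Sol M) (mx : ∀ L, Sol L → M ≤ L → L = M)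
    (hF : F ≤ M) (nF : M ≤ 𝐍 F) (fpf : ∀ a ∈ M, a ∉ F → ∀ x ∈ F, x * a = a * x → x = 1)
    (ti : ∀ g, g ∉ M → F ⊓ cj g F = ⊥) (h1 : F ≠ ⊥) : CF.Fgs3.ZT S F := by
  have hMt : M ≠ ⊤ := fun e => ns (e ▸ sM)
  obtain ⟨g₀, hg₀⟩ : ∃ g, g ∉ M := by
    by_contra h; push Not at h; exact hMt (eq_top_iff.mpr fun g _ => h g)
  have noab : ∀ N : Subgroup G, N ⊴ ⊤ → Sol N → N = ⊥ := by
    intro N hN sN
    by_contra hN1
    obtain ⟨p, A, -, hA1, -, nA, hA⟩ := sN.exists_abelem_norm hN1 hN.norm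
    have hAM : A ≤ M := by
      rw [← mx (M ⊔ A) (sM.sup hA.abel.sol (le_top.trans nA)) le_sup_left]; exact le_sup_right
    by_cases hAF : A ≤ F
    · apply hA1
      rw [eq_bot_iff, ← ti g₀ hg₀]
      exact le_inf hAF (by rw [← cj_of_norm (nA (mem_top g₀))]; exact cj_mono _ hAF)
    · obtain ⟨a, ha, haF⟩ := SetLike.not_le_iff_exists.mp hAF
      have hi : A ⊓ F = ⊥ := eq_bot_of_forall fun x hx =>
        fpf a (hAM ha) haF x hx.2 (hA.abel.mul_comm hx.1 ha)
      have hc : A ≤ 𝐂 F := cent_of_inf_eq_bot (hAM.trans nF) (le_top.trans nA) hi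
      exact h1 (eq_bot_of_forall fun x hx => fpf a (hAM ha) haF x hx (hc ha x hx))
  have r : Rank2 G := by
    by_contra r
    obtain ⟨z, -, hz⟩ := exists_inv_of_not_sol ns
    have h2 := rank_one_sup r (iv_iff.2 hz)
    rw [noab (oddCore G) (normalIn_top.mpr inferInstance) (sol_of_odd oddCore_odd), bot_sup_eq] at h2
    have h3 := noab (zpowers z) ⟨le_top, by
      rw [← h2, ← cent_zpowers]; exact cent_le_norm _⟩ (abel_zpowers z).sol
    rw [zpowers_eq_bot] at h3
    rw [h3, orderOf_one] at hz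
    omega
  have hSM' : S ≤ M := (le_norm_self S).trans hSM
  have hi : S ⊓ F ≠ ⊥ := by
    intro hi
    have hodd : PiGrp {2}ᶜ F := by
      have := (hS.of_le hSM' le_top).inf_normal ⟨hF, nF⟩
      rw [hi] at this
      exact this.pi'_of_eq_bot
    obtain ⟨x, y, x1, y1, xy, hx, hy, c⟩ := r
    have hV : PiGrp {2} (zpowers x ⊔ zpowers y) :=
      (piElt_of_sq hx).zpowers.sup (piElt_of_sq hy).zpowers (Or.inl (zpowers_le.2
        (cent_le_norm _ (by rw [cent_zpowers]; exact mem_cent1.2 c))))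
    have hVa : Abel (zpowers x ⊔ zpowers y) := (abel_zpowers x).sup (abel_zpowers y)
      (zpowers_le.2 (by rw [cent_zpowers]; exact mem_cent1.2 c))
    have hVc : ¬ Cyc (zpowers x ⊔ zpowers y) := by
      classical
      intro hc
      have ex := hc.eq_Om (elem_zpowers' Nat.prime_two (mem_sup_left (mem_zpowers x))
        (by rw [pow_two, hx]) x1)
      have ey := hc.eq_Om (elem_zpowers' Nat.prime_two (mem_sup_right (mem_zpowers y))
        (by rw [pow_two, hy]) y1)
      have : x ∈ zpowers y := by rw [ey, ← ex]; exact mem_zpowers x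
      have hoy : orderOf y = 2 := orderOf_eq_prime (by rw [pow_two, hy]) y1
      rw [mem_zpowers_iff_mem_range_orderOf, hoy] at this
      simp only [Finset.mem_image, Finset.mem_range] at this
      obtain ⟨k, hk, e⟩ := this
      interval_cases k
      · exact x1 (by simpa using e.symm)
      · exact xy (by simpa using e.symm)
    obtain ⟨g, -, hg⟩ := hS.syl_cj_le le_top hV
    have hVc' : ¬ Cyc (cj g (zpowers x ⊔ zpowers y)) := by
      rw [cj_def, cyc_map_iff (conj_inj g)]; exact hVc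
    obtain ⟨v, hv, v1, hC⟩ := (abel_cj.mpr hVa).exists_cent1_ne_bot hVc'
      (hg.trans (hSM'.trans nF)) ((hV.cj g).coprime hodd) h1
    apply hC
    refine eq_bot_of_forall fun w hw => fpf v (hSM' (hg hv)) (fun hvF => v1 ?_) w hw.1
      (mem_cent1.mp hw.2)
    exact eq_one_of_mem_bot hi ⟨hg hv, hvF⟩
  have hSF : S ≤ F := by
    intro s hs
    by_contra hsF
    obtain ⟨x, hx, x1⟩ := exists_mem_ne_one (hS.pi.inf_cent_ne_bot (hS.pi.inf_left (K := F))
      (norm_inf (le_norm_self S) (hSM'.trans nF)) hi)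
    exact x1 (fpf s (hSM' hs) hsF x hx.1.2 (hx.2 s hs).symm)
  have hC : ∀ c ∈ F, c ≠ 1 → 𝐂₁ c ≤ M := by
    intro c hc c1 g hg
    by_contra hgM
    refine c1 (eq_one_of_mem_bot (ti g hgM) ⟨hc, mem_cj_iff.mpr ⟨c, hc, ?_⟩⟩)
    rw [mem_cent1.mp hg, mul_inv_cancel_right]
  have hFM : F ≠ M := by
    rintro rfl
    obtain ⟨K, -, hK, -, hK1, -, hKn⟩ := CF.Coprime.frob_exists_nilpotent_kernel (H := F)
      ⟨h1, hMt, fun g hg => by rw [← cj_eq_smul]; exact ti g hg⟩
    exact hK1 (noab K (normalIn_top.mpr hK) (Nil.sol hKn))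
  have hnil : Nil F := by
    have h2 : qt F M ≠ ⊥ := by
      rw [Ne, qt_eq_bot nF]; exact fun e => hFM (le_antisymm hF e)
    obtain ⟨p, hp, hd⟩ := exists_prime_dvd_card h2
    obtain ⟨b, hb, hbo⟩ := exists_mem_orderOf_eq hp hd
    obtain ⟨a, ha, han, rfl⟩ := mem_qt.mp hb
    have haF : a ∉ F := by
      intro h
      rw [qe_of_mem h, orderOf_one] at hbo
      exact hp.one_lt.ne hbo
    have hap : a ^ p = 1 := by
      refine fpf a ha haF _ ?_ (by group)
      rw [← qe_eq_one (pow_mem han p), qe_pow han, ← hbo, pow_orderOf_eq_one]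
    haveI := sM.mono hF
    exact CF.Coprime.isNilpotent_of_fpf_of_isSolvable F hp hap han
      (eq_bot_of_forall fun x hx => fpf a ha haF x hx.1 (mem_cent1.mp hx.2))
  have hSF' : Syl 2 S F := hS.of_le hSF le_top
  have hMS : M ≤ 𝐍 S := nF.trans (hnil.hall_norm hSF')
  refine zt_of_ti hS r (fun e => hMt (top_le_iff.mp (e ▸ hSM))) (fun g hg => hMS ?_)
    (fun z hz oz => ?_) fun c hc c1 => (hC c hc c1).trans hMS
  · by_contra hgM
    exact hg (eq_bot_mono (ti g hgM) (inf_le_inf hSF (cj_mono _ hSF)))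
  · have z1 : z ≠ 1 := fun e => by rw [e, orderOf_one] at oz; omega
    apply le_antisymm
    · intro g hg
      by_contra hgF
      exact z1 (fpf g (hC z (hSF hz.1) z1 hg) hgF z (hSF hz.1) (mem_cent1.mp hg).symm)
    · rw [← (hnil.dprod {2}).sup, ← hnil.hall_eq hSF']
      refine sup_le (le_cent1_iff.mpr hz.2) ?_
      exact (cent_symm (hnil.cent_of_pi hSF (O_le _ _) hS.pi (O_pi _ _))).trans (cent_le_cent1 hz.1)


/-- Let G be a finite group. Call a subgroup maximal solvable if it is solvable and not properly contained in a solvable subgroup. Suppose F assigns to each maximal solvable subgroup M a normal subgroup F(M) of M such that: every element of M outside F(M) centralizes no non-identity element of F(M); F(M) meets each conjugate g F(M) g⁻¹ with g outside M trivially; and F(M) is nontrivial unless M is abelian. Then G is solvable, or G is isomorphic to SL(2, K) for a finite field K of characteristic 2 with at least 4 elements, or G is isomorphic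 to a Suzuki group. -/
theorem result {G : Type*} [Group G] [Finite G] (F : Subgroup G → Subgroup G)
    (h : ∀ M : Subgroup G, (Group.IsSolvable M ∧ ∀ M' : Subgroup G, M < M' → ¬ Group.IsSolvable M') →
      F M ≤ M ∧ M ≤ Subgroup.normalizer (F M : Set G) ∧
      (∀ a ∈ M, a ∉ F M → ∀ x ∈ F M, x * a = a * x → x = 1) ∧
      (∀ g : G, g ∉ M → F M ⊓ (MulAut.conj g • F M) = ⊥) ∧
      (F M ≠ ⊥ ∨ IsMulCommutative M)) :
    Group.IsSolvable G ∨
      (∃ (K : Type) (_ : Field K) (_ : Fintype K), (∃ n : ℕ, 2 ≤ n ∧ Fintype.card K = 2 ^ n) ∧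
        Nonempty (G ≃* Matrix.SpecialLinearGroup (Fin 2) K)) ∨
      Cfsg.Lie.IsoSuzuki G := by
  by_cases ns : Sol (⊤ : Subgroup G)
  · exact Or.inl (solvable_of_surjective (f := (⊤ : Subgroup G).subtype) fun x => ⟨⟨x, trivial⟩, rfl⟩)
  right
  obtain ⟨S, hS⟩ := exists_syl 2 (⊤ : Subgroup G)
  have sN : Sol (𝐍 S) := by
    refine Sol.of_qt hS.pi.sol le_rfl (sol_of_odd (piGrp_odd.mp ?_))
    rw [piGrp_qt_iff le_rfl]
    exact (hS.of_le (le_norm_self S) le_top).idx
  obtain ⟨M, hSM, sM, mx⟩ := exists_maximal (P := fun L => Sol L) sN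
  obtain ⟨h1, h2, h3, h4, h5⟩ := h M ⟨sM, fun L hL sL => hL.ne (mx L sL hL.le).symm⟩
  rcases h5 with h5 | h5
  · rcases ZT_cases (core ns hS hSM sM mx h1 h2 h3 (fun g hg => by rw [cj_eq_smul]; exact h4 g hg) h5)
      with ⟨K, _, _, n, hn, hK, ⟨e⟩⟩ | h6
    · obtain ⟨e'⟩ := psl_equiv_sl (by omega) hK
      exact Or.inl ⟨K, _, _, ⟨n, hn, hK⟩, ⟨e.trans e'⟩⟩
    · exact Or.inr h6
  · exfalso
    have h6 := hS.burnside (inf_le_right.trans ((Abel.of_comm h5).cent hSM
      ((le_norm_self S).trans hSM)))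
    exact ns ((h6.sdprod hS).sol (sol_of_odd (piGrp_odd.mp (O_pi _ _))) hS.pi.sol)

end Cfsg.Agent.S4235
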