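import Cfsg.Statements.S4236
import Cfsg.Agent.S4304

set_option autoImplicit false
open Cfsg

namespace Cfsg.Agent.S4236

open CF.Fgs3 Subgroup MulAction

instance : Fact (Nat.Prime 17) := ⟨by norm_num⟩

theorem main {G : Type*} [Group G] [Finite G]
    (hf : ∀ g : G, (∀ R : Sylow 17 G, g • R = R) → g = 1)
    (hN : ∀ N : Subgroup G, N.Normal → ¬ 17 ∣ N.index → N = ⊤) : Nat.card (Sylow 17 G) ≠ 35 := by
  classical
  intro h15
  have hidx : ∀ P Q : Sylow 17 G, P ≠ Q → (Q : Subgroup G).relIndex P = 17 := by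
    intro P Q h
    obtain ⟨k, hk, hk'⟩ := relIndex_sylow_eq_pow h
    have h1 := relIndex_sylow_lt h
    rw [h15, hk'] at h1
    rw [hk']
    have : k < 2 := by
      by_contra h2
      have := Nat.pow_le_pow_right (n := 17) (by norm_num) (not_lt.1 h2)
      omega
    obtain rfl : k = 1 := by omega
    rfl
  have hcard : ∀ P Q : Sylow 17 G, P ≠ Q →
      Nat.card ((Q : Subgroup G) ⊓ P : Subgroup G) * 17 = Nat.card (P : Subgroup G) := by
    intro P Q h
    have := CF.Fgs2.card_inf_mul_relIndex (Q : Subgroup G) P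
    rwa [hidx P Q h] at this
  have hnt : Nontrivial (Sylow 17 G) := Finite.one_lt_card_iff_nontrivial.1 (by omega)
  -- the Sylow subgroups have order `17`
  have h7 : ∀ P : Sylow 17 G, Nat.card (P : Subgroup G) = 17 := by
    intro P₀
    by_contra hne
    have := Fintype.ofFinite (Sylow 17 G)
    have h8 : ∀ P Q : Sylow 17 G, P ≠ Q →
        {R : Sylow 17 G | (P : Subgroup G) ⊓ Q ≤ R}.ncard = 18 := by
      intro P Q h
      have hX : IsPGroup 17 ((P : Subgroup G) ⊓ Q : Subgroup G) := P.isPGroup'.to_le inf_le_left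
      have h1 := ncard_sylow_ge_modEq hX
      have h2 : 2 ≤ {R : Sylow 17 G | (P : Subgroup G) ⊓ Q ≤ R}.ncard := by
        rw [← Set.ncard_pair h]
        refine Set.ncard_le_ncard ?_ (Set.toFinite _)
        rintro R (rfl | rfl)
        · exact Set.mem_setOf.2 inf_le_left
        · exact Set.mem_setOf.2 inf_le_right
      have h3 := ncard_fixed_le {R : Sylow 17 G | (P : Subgroup G) ⊓ Q ≤ R}
      have h4 : {R : Sylow 17 G | (P : Subgroup G) ⊓ Q ≤ R}.ncard ≠ 35 := by
        intro h5
        have h6 : {R : Sylow 17 G | (P : Subgroup G) ⊓ Q ≤ R} = Set.univ :=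
          Set.eq_of_subset_of_ncard_le (Set.subset_univ _) (by rw [Set.ncard_univ]; omega)
            Set.finite_univ
        have h9 : (P : Subgroup G) ⊓ Q = ⊥ := by
          rw [eq_bot_iff]
          intro x hx
          refine mem_bot.2 (hf x fun R => ?_)
          have : R ∈ {R : Sylow 17 G | (P : Subgroup G) ⊓ Q ≤ R} := h6 ▸ Set.mem_univ R
          exact (sylow_smul_eq_iff_le hX R).2 this x hx
        have h10 := hcard Q P h.symm
        rw [h9, card_bot, CF.Small.card_sylow_eq_card_sylow Q P₀] at h10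
        omega
      unfold Nat.ModEq at h1
      omega
    let s : Finset (Sylow 17 G × Sylow 17 G) := Finset.univ.offDiag
    let f : Sylow 17 G × Sylow 17 G → Subgroup G := fun x => (x.1 : Subgroup G) ⊓ x.2
    have hs : s.card = 1190 := by
      simp only [s, Finset.offDiag_card, Finset.card_univ, ← Nat.card_eq_fintype_card, h15]
    have hsum := Finset.card_eq_sum_card_image f s
    have hdvd : 306 ∣ ∑ X ∈ s.image f, (s.filter fun a => f a = X).card := by
      refine Finset.dvd_sum fun X hX => ?_
      obtain ⟨⟨P, Q⟩, hPQ, rfl⟩ := Finset.mem_image.1 hX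
      have hPQ' : P ≠ Q := (Finset.mem_offDiag.1 hPQ).2.2
      let t := (Set.toFinite {R : Sylow 17 G | (P : Subgroup G) ⊓ Q ≤ R}).toFinset
      have ht : t.card = 18 := by
        rw [← h8 P Q hPQ', Set.ncard_eq_toFinset_card _ (Set.toFinite _)]
      have : (s.filter fun a => f a = f (P, Q)) = t.offDiag := by
        ext ⟨R, R'⟩
        simp only [s, t, f, Finset.mem_filter, Finset.mem_offDiag, Finset.mem_univ, true_and,
          Set.Finite.mem_toFinset, Set.mem_ofPred_eq]
        constructor
        · rintro ⟨h1, h2⟩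
          exact ⟨h2 ▸ inf_le_left, h2 ▸ inf_le_right, h1⟩
        · rintro ⟨h1, h2, h3⟩
          refine ⟨h3, (eq_of_le_of_card_ge (le_inf h1 h2) ?_).symm⟩
          have h4 := hcard R' R h3.symm
          have h5 := hcard Q P hPQ'.symm
          rw [CF.Small.card_sylow_eq_card_sylow Q R'] at h5
          omega
      rw [this, Finset.offDiag_card, ht]
    rw [← hsum, hs] at hdvd
    omega
  have h2 : ∀ N : Subgroup G, N.Normal → N.index ≠ 2 := by
    intro N hn h
    have := hN N hn (by rw [h]; norm_num)
    rw [this, index_top] at h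
    omega
  obtain ⟨T⟩ : Nonempty (Sylow 2 G) := inferInstance
  obtain ⟨P, hTP⟩ : ∃ P : Sylow 17 G, ∀ h ∈ (T : Subgroup G), h • P = P := by
    have h := ncard_modEq_fixed (Ω := Sylow 17 G) T.isPGroup' Set.univ Set.finite_univ
      (fun _ _ _ _ => Set.mem_univ _)
    rw [Set.ncard_univ, h15] at h
    obtain ⟨P, hP⟩ := Set.nonempty_of_ncard_ne_zero (s := {x : Sylow 17 G | x ∈ Set.univ ∧
      ∀ h ∈ (T : Subgroup G), h • x = x}) (by unfold Nat.ModEq at h; omega)
    exact ⟨P, hP.2⟩
  set C := centralizer ((P : Subgroup G) : Set G) with hC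
  have hC2 : ¬ 2 ∣ Nat.card C := by
    intro h
    obtain ⟨⟨t, htC⟩, ht⟩ := exists_prime_orderOf_dvd_card' 2 h
    replace ht : orderOf t = _ := (orderOf_coe (⟨t, htC⟩ : C)).trans ht
    have h1 := ncard_fixed_modEq_one_of_cent P htC
    have h3 := fixed_mod_four (Ω := Sylow 17 G) h2 (t := t) (ht ▸ pow_orderOf_eq_one t)
    have h4 := ncard_fixed_le {R : Sylow 17 G | t • R = R}
    have h5 : t = 1 := eq_one_of_ncard_fixed hf (by unfold Nat.ModEq at h1 h3; omega)
    rw [show t = 1 from h5] at ht
    simp at ht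
  have hC5 : ¬ 5 ∣ Nat.card C := by
    intro h
    have : Fact (Nat.Prime 5) := ⟨by norm_num⟩
    obtain ⟨⟨t, htC⟩, ht⟩ := exists_prime_orderOf_dvd_card' 5 h
    replace ht : orderOf t = _ := (orderOf_coe (⟨t, htC⟩ : C)).trans ht
    have h1 := ncard_fixed_modEq_one_of_cent P htC
    have h3 := ncard_fixed_modEq (p := 17) (q := 5) (g := t) (k := 1)
      (by rw [pow_one]; exact ht ▸ pow_orderOf_eq_one t)
    have h4 := ncard_fixed_le {R : Sylow 17 G | t • R = R}
    have h5 : t = 1 := eq_one_of_ncard_fixed hf (by unfold Nat.ModEq at h1 h3; omega)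
    rw [show t = 1 from h5] at ht
    simp at ht
  have hPc := isCyclic_of_prime_card (h7 P)
  have hTN : (T : Subgroup G) ≤ normalizer ((P : Subgroup G) : Set G) := fun h hh =>
    Sylow.smul_eq_iff_mem_normalizer.1 (hTP h hh)
  have hTc : IsCyclic (T : Subgroup G) := by
    have hA : IsCyclic (MulAut (P : Subgroup G)) := by
      have e := hPc.mulAutMulEquiv (P : Subgroup G)
      rw [h7 P] at e
      exact isCyclic_of_surjective e.symm e.symm.surjective
    refine isCyclic_of_injective ((P : Subgroup G).normalizerMonoidHom.comp (inclusion hTN)) ?_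
    rw [injective_iff_map_eq_one]
    intro x hx
    have h1 : inclusion hTN x ∈ (P : Subgroup G).normalizerMonoidHom.ker := hx
    rw [normalizerMonoidHom_ker, mem_subgroupOf] at h1
    obtain ⟨k, hk⟩ := T.isPGroup' x
    have h3 : orderOf (x : G) ∣ Nat.card C := C.orderOf_dvd_natCard h1
    have h4 : orderOf (x : G) ∣ 2 ^ k := by
      rw [orderOf_coe]; exact orderOf_dvd_of_pow_eq_one hk
    exact Subtype.ext (CF.Fgs2.eq_one_of_orderOf_dvd_coprime h4 h3
      (Nat.Coprime.pow_left k ((Nat.Prime.coprime_iff_not_dvd Nat.prime_two).2 hC2)))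
  by_cases hev : 2 ∣ Nat.card G
  · have hm : (Nat.card G).minFac = 2 := (Nat.minFac_eq_two_iff _).2 hev
    have h1 := (hTc.isComplement' hm).symm.index_eq_card
    obtain ⟨k, hk⟩ := T.isPGroup'.exists_card_eq
    have h3 := hN (MonoidHom.transferSylow T (hTc.normalizer_le_centralizer hm)).ker inferInstance
      (by
        rw [h1, hk]
        intro h
        have := (Nat.Prime.dvd_of_dvd_pow (by norm_num : Nat.Prime 17) h)
        omega)
    rw [h3, index_top] at h1
    exact T.ne_bot_of_dvd_card hev (card_eq_one.1 h1.symm)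
  · have : Fact (Nat.Prime 5) := ⟨by norm_num⟩
    have he := relIndex_cent_norm_dvd (P : Subgroup G)
    rw [hPc.card_mulAut, h7 P, Nat.totient_prime (by norm_num)] at he
    have hG := CF.Small.card_sylow_mul_card_normalizer P
    rw [← CF.Fgs2.card_mul_relIndex_of_le (centralizer_le_normalizer _), h15, ← hC] at hG
    generalize C.relIndex (normalizer ((P : Subgroup G) : Set G)) = e at he hG
    obtain ⟨Q⟩ : Nonempty (Sylow 5 G) := inferInstance
    have hQ := CF.Small.card_sylow_eq Q (a := 1) (m := 7 * (Nat.card C * e))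
      (by rw [← hG]; ring) (by
        intro h
        rcases (Nat.Prime.dvd_mul (by norm_num)).1 h with h | h
        · omega
        rcases (Nat.Prime.dvd_mul (by norm_num)).1 h with h | h
        · exact hC5 h
        · have := h.trans he
          omega)
    obtain ⟨N, hn, hN5⟩ := Cfsg.Agent.S4304.exists_normal_index Q (by simpa using hQ) (Or.inl
      (Nat.Coprime.pow_right 2 ((Nat.Prime.coprime_iff_not_dvd Nat.prime_two).2 hev).symm))
    have := hN N hn (by rw [hN5]; norm_num)
    rw [this, index_top] at hN5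
    omega

/-- No finite group has exactly 35 Sylow 17-subgroups. -/
theorem result {G : Type*} [Group G] [Finite G] : Nat.card (Sylow 17 G) ≠ 35 := by
  exact sylow_count_induction (p := 17) (fun G _ _ hf hN _ => main hf hN) G

end Cfsg.Agent.S4236
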