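import Cfsg.Statements.S4238
import Cfsg.Agent.Pgp.C

set_option autoImplicit false
open Cfsg

namespace Cfsg.Agent.S4238


/-- Let G be a finite group and p a prime. Then G has a normal p-complement if and only if every section K = H/N of G (N a normal subgroup of a subgroup H) whose largest normal subgroup of order prime to p is trivial contains an element whose order equals the exponent of K. -/
theorem result {G : Type*} [Group G] [Finite G] (p : ℕ) [Fact p.Prime] :
    Cfsg.HasNormalPComplement p G ↔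
      ∀ (H : Subgroup G) (N : Subgroup H) [N.Normal], Cfsg.pPrimeCore p (H ⧸ N) = ⊥ →
        ∃ k : H ⧸ N, orderOf k = Monoid.exponent (H ⧸ N) := by
  have hp : p.Prime := Fact.out
  refine ⟨fun h H N _ e => ?_, fun h => ?_⟩
  · open CF.BG CF.BG2 CF.Pgp in
    have h1 := (npc_top hp).2 (CF.Transfer.HasNPC.quotient (CF.Transfer.HasNPC.subgroup h H) N)
    open CF.BG CF.BG2 CF.Pgp in
    rw [NPC, ← pPrimeCore_eq hp, e] at h1
    obtain ⟨k, hk⟩ := CF.BG.PiNat.exists_pow (CF.BG.PiNat.dvd h1.pi'_of_eq_bot.of_compl_compl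
      ((Group.exponent_dvd_nat_card (G := H ⧸ N)).trans Subgroup.card_top.symm.dvd)) Monoid.exponent_ne_zero_of_finite
    obtain ⟨g, hg⟩ := hp.exists_orderOf_eq_pow_factorization_exponent (H ⧸ N)
    exact ⟨g, by rw [hg, hk, hp.factorization_pow]; simp⟩
  open CF.BG CF.BG2 CF.Pgp in
  refine (npc_top hp).1 (npc_of_exp hp fun K N n e => ?_)
  have := n.normal
  obtain ⟨f⟩ := CF.BG.qt_iso_quotient n.norm
  obtain ⟨k, hk⟩ := h K (N.subgroupOf K) (by
    have inj : Function.Injective ((CF.BG.qt N K).subtype.comp f.symm.toMonoidHom) :=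
      (Subgroup.subtype_injective _).comp f.symm.injective
    rw [CF.BG.pPrimeCore_eq hp, ← Subgroup.map_eq_bot_iff_of_injective _ inj, CF.BG.map_O _ _ inj,
      ← Subgroup.map_map, Subgroup.map_top_of_surjective _ f.symm.surjective, CF.BG.map_top_subtype, e])
  refine ⟨f.symm k, (f.symm k).2, fun y hy => ?_⟩
  rw [Subgroup.orderOf_coe, f.symm.orderOf_eq, hk, ← Subgroup.orderOf_mk y hy, ← f.orderOf_eq]
  exact Monoid.order_dvd_exponent _

end Cfsg.Agent.S4238
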