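import Cfsg.Statements.S4240
import Cfsg.Agent.SolvStr.InvMax
import Cfsg.Agent.Hyp.FTProof
import Cfsg.Agent.Coprime.Action

set_option autoImplicit false
open Cfsg

namespace Cfsg.Agent.S4240

/-- Let a finite group A act by automorphisms on a finite group G of order coprime to that of A. Suppose every maximal A-invariant proper subgroup of G is nilpotent while G is not. Then G is solvable, the order of G has the form p^a·q^b for two distinct primes p and q, and G has a normal A-invariant Sylow subgroup for some prime dividing its order. -/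
theorem result {A G : Type*} [Group A] [Group G] [Finite A] [Finite G] [MulDistribMulAction A G]
    (hcop : (Nat.card A).Coprime (Nat.card G))
    (hmax : ∀ H : Subgroup G, H ≠ ⊤ → (∀ a : A, ∀ x ∈ H, a • x ∈ H) →
      (∀ K : Subgroup G, H < K → (∀ a : A, ∀ x ∈ K, a • x ∈ K) → K = ⊤) → Group.IsNilpotent H)
    (hG : ¬ Group.IsNilpotent G) :
    Group.IsSolvable G ∧
      (∃ p q a b : ℕ, p.Prime ∧ q.Prime ∧ p ≠ q ∧ Nat.card G = p ^ a * q ^ b) ∧
      ∃ (p : ℕ) (P : Sylow p G), p.Prime ∧ p ∣ Nat.card G ∧ (P : Subgroup G).Normal ∧ (∀ a : A, ∀ x ∈ (P : Subgroup G), a • x ∈ (P : Subgroup G)) := by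
  open CF.BG CF.Coprime in
  set φ := MulDistribMulAction.toMulAut A G with hφ
  obtain ⟨s, p, q, hp, hq, pq, pi, d, syl⟩ := CF.SolvStr.struct_of_inv_nil (A := sdR φ ⊤)
    (K := sdL φ ⊤) (inv_top φ ⊤).le_normalizer (sd_coprime φ (coprime_sub hcop ⊤ ⊤))
    (fun X a c => by
      obtain ⟨Y, -, rfl⟩ := exists_sdL_eq φ a.le
      rw [Nil, isNilpotent_sdL_iff]
      obtain ⟨H, l, ⟨h1, h2⟩, m⟩ := exists_maximal
        (P := fun H : Subgroup G => H ≠ ⊤ ∧ ∀ a : A, ∀ x ∈ H, a • x ∈ H) (H := Y)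
        ⟨fun e => a.ne (e ▸ rfl), fun x => (sdR_le_normalizer_iff φ).1 c x trivial⟩
      exact Nil.mono (hmax H h1 h2 fun K lt k => by_contra fun e => lt.ne' (m K ⟨e, k⟩ lt.le)) l)
    (fun h => hG (by
      have := (isNilpotent_sdL_iff φ).1 h
      exact Group.nilpotent_of_mulEquiv Subgroup.topEquiv))
  have := Fact.mk hp
  rw [← map_O _ _ SemidirectProduct.inl_injective] at syl
  replace syl := (hall_map_iff SemidirectProduct.inl_injective).1 syl
  rw [piGrp_map_iff SemidirectProduct.inl_injective] at pi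
  rw [card_sdL, card_top'] at d
  refine ⟨isSolvable_top_iff.1 ((isSolvable_sdL_iff φ).1 s), ?_, ?_⟩
  · obtain ⟨a, b, e, ha, hb⟩ := exists_pi_factor {p} (Nat.card_pos (α := G)).ne'
    have n0 : a * b ≠ 0 := e ▸ (Nat.card_pos (α := G)).ne'
    obtain ⟨i, rfl⟩ := ha.exists_pow (left_ne_zero_of_mul n0)
    have hb' : PiNat {q} b := fun r hr hd => by
      have := pi r hr (by rw [card_top', e]; exact hd.mul_left _)
      exact this.resolve_left (hb r hr hd)
    obtain ⟨j, rfl⟩ := hb'.exists_pow (right_ne_zero_of_mul n0)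
    exact ⟨p, q, i, j, hp, hq, pq, e⟩
  · obtain ⟨P, hP⟩ := syl.exists_sylow_top
    have nP : (P : Subgroup G).Normal := hP ▸ normalIn_top.1 (O_normal _ _)
    have cP := Sylow.characteristic_of_normal P nP
    exact ⟨p, P, hp, d, nP, fun a x hx => inv_of_characteristic φ ⊤ P a trivial x hx⟩

end Cfsg.Agent.S4240
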