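import Cfsg.Statements.S4242
import Cfsg.Agent.SolvStr.MinClosed
import Cfsg.Agent.SolvStr.Kegel

set_option autoImplicit false
open Cfsg

namespace Cfsg.Agent.S4242

/-- Let G be a finite group and p a prime dividing its order. Every maximal subgroup of G of order divisible by p is nilpotent if and only if G is nilpotent, or G is a minimal non-nilpotent group, or G is the internal direct product of a normal subgroup of order p and a normal minimal non-nilpotent subgroup of order prime to p. -/
theorem result {G : Type*} [Group G] [Finite G] (p : ℕ) (hp : p.Prime) (hpG : p ∣ Nat.card G) :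
    (∀ M : Subgroup G, IsCoatom M → p ∣ Nat.card M → Group.IsNilpotent M) ↔
      (Group.IsNilpotent G ∨ Cfsg.IsMinimalNonNilpotent G ∨
        ∃ Z K : Subgroup G, Z.Normal ∧ K.Normal ∧ Z ⊓ K = ⊥ ∧ Z ⊔ K = ⊤ ∧ Nat.card Z = p ∧
          Cfsg.IsMinimalNonNilpotent K ∧ ¬ p ∣ Nat.card K) := by
  open Subgroup CF.Solv CF.SolvStr CF.Transfer in
  have := Fact.mk hp
  constructor
  · intro h
    by_contra hc
    push Not at hc
    obtain ⟨hn, hm, hz⟩ := hc
    have h1 : ∀ H : Subgroup G, H ≠ ⊤ → p ∣ Nat.card H → Group.IsNilpotent H := by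
      intro H hH hd
      obtain ⟨M, hM, hle⟩ := exists_isCoatom_ge hH
      have := h M hM (hd.trans (card_dvd_of_le hle))
      exact isNilpotent_of_le hle
    obtain ⟨M, hM, hMn⟩ : ∃ M : Subgroup G, IsCoatom M ∧ ¬ Group.IsNilpotent M := by
      by_contra h2
      push Not at h2
      refine hm ⟨hn, fun H hH => ?_⟩
      obtain ⟨M, hM, hle⟩ := exists_isCoatom_ge hH
      have := h2 M hM
      exact isNilpotent_of_le hle
    have hMc : (Nat.card M).Coprime p := (hp.coprime_iff_not_dvd.2 fun hd => hMn (h M hM hd)).symm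
    have hcen : ∀ P L : Subgroup G, IsPGroup p P → P ≠ ⊥ → (Nat.card L).Coprime p → P ⊔ L ≠ ⊤ →
        Group.IsNilpotent L ∧ L ≤ centralizer (P : Set G) := by
      intro P L hP h0 hL hne
      have : Nontrivial P := (nontrivial_iff_ne_bot P).2 h0
      have := h1 _ hne ((hP.card_eq_or_dvd.resolve_left Finite.one_lt_card.ne').trans
        (card_dvd_of_le le_sup_left))
      exact ⟨isNilpotent_of_le (le_sup_right : L ≤ P ⊔ L), le_centralizer_of_coprime_of_isNilpotent
        (le_sup_right : L ≤ P ⊔ L) le_sup_left (coprime_card_of_isPGroup hP hL).symm⟩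
    have h0 : pCore p G ≠ ⊥ := by
      intro h0
      have h2 : HasNormalPComplement p G := frobenius_local fun Q hQ hQ0 => by
        have : Nontrivial Q := (nontrivial_iff_ne_bot Q).2 hQ0
        have := h1 (normalizer (Q : Set G)) (fun e => hQ0 (by
          have := normalizer_eq_top_iff.1 e
          exact le_bot_iff.1 (h0 ▸ le_pCore hQ)))
          ((hQ.card_eq_or_dvd.resolve_left Finite.one_lt_card.ne').trans
            (card_dvd_of_le le_normalizer))
        exact hasNPC_of_isNilpotent p
      have hK := hasNPC_iff_coprime.1 h2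
      set K := pResidual p G
      have hMK : M ≤ K := (le_pRes_of_coprime hMc le_top).trans (pRes_le_pResidual ⊤)
      have hKn : ¬ Group.IsNilpotent K := fun _ => hMn (isNilpotent_of_le hMK)
      obtain ⟨P⟩ : Nonempty (Sylow p G) := inferInstance
      have hP0 : (P : Subgroup G) ≠ ⊥ := fun e =>
        (isSylowIn_top P).eq_bot_iff.1 e (by rwa [card_top])
      have h3 : K ≤ centralizer ((P : Subgroup G) : Set G) := by
        refine CF.Coprime.le_of_forall_isSylowOf fun q hq _ => ?_
        have := Fact.mk hq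
        have := P.isPGroup'.isNilpotent
        obtain ⟨Q, hQ, hn⟩ := CF.Coprime.exists_invariant_isSylowOf P K le_normalizer_of_normal
          (coprime_card_of_isPGroup P.isPGroup' hK) (Or.inl inferInstance) (p := q)
        refine ⟨Q, hQ, (hcen P Q P.isPGroup' hP0 (hK.coprime_dvd_left (card_dvd_of_le hQ.le))
          fun e => hKn ?_).2⟩
        have : Q = K := by
          rw [← top_inf_eq K, ← e, sup_inf_assoc_of_le_normalizer' hQ.le hn,
            inf_eq_bot_of_isPGroup_of_coprime P.isPGroup' hK, bot_sup_eq]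
        exact this ▸ hQ.isPGroup.isNilpotent
      have := normal_of_sup_eq_top (sylow_sup_pResidual P) le_normalizer
        (h3.trans (centralizer_le_normalizer _))
      exact hP0 (by rw [← pCore_eq_of_normal_sylow P, h0])
    set V := pCore p G
    have hV : IsPGroup p V := pCore_isPGroup
    have hVM : V ⊓ M = ⊥ := inf_eq_bot_of_isPGroup_of_coprime hV hMc
    have h2 : ∀ L ≤ M, L ≠ M → Group.IsNilpotent L ∧ L ≤ centralizer (V : Set G) := by
      intro L hL hne
      refine hcen V L hV h0 (hMc.coprime_dvd_left (card_dvd_of_le hL)) fun e => hne ?_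
      rw [← top_inf_eq M, ← e, sup_comm, sup_inf_assoc V hL, hVM, sup_bot_eq]
    have h3 : M ≤ centralizer (V : Set G) := le_of_forall_isPGroup_le fun q hq Q hQM hQ =>
      (h2 Q hQM fun e => hMn (e ▸ hQ.isNilpotent)).2
    have : Nontrivial V := (nontrivial_iff_ne_bot V).2 h0
    obtain ⟨x, hx⟩ := exists_prime_orderOf_dvd_card' p
      (hV.card_eq_or_dvd.resolve_left Finite.one_lt_card.ne')
    rw [← Subgroup.orderOf_coe] at hx
    have hZ : zpowers (x : G) ≤ V := zpowers_le.2 x.2
    have hZ0 : zpowers (x : G) ≠ ⊥ := by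
      rw [Ne, zpowers_eq_bot]
      intro e
      rw [e, orderOf_one] at hx
      exact hp.one_lt.ne hx
    have h4 : zpowers (x : G) ⊔ M = ⊤ := by
      by_contra e
      exact hMn (hcen _ M (hV.to_le hZ) hZ0 hMc e).1
    have h5 : M ≤ centralizer (zpowers (x : G) : Set G) := h3.trans (centralizer_le hZ)
    refine hp.coprime_iff_not_dvd.1 hMc.symm (hz (zpowers (x : G)) M
      (normal_of_sup_eq_top h4 le_normalizer (h5.trans (centralizer_le_normalizer _)))
      (normal_of_sup_eq_top h4 ((le_centralizer_iff.1 h5).trans (centralizer_le_normalizer _))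
        le_normalizer)
      (inf_eq_bot_of_isPGroup_of_coprime (hV.to_le hZ) hMc) h4 (by rw [Nat.card_zpowers, hx])
      ⟨hMn, fun H hH => ?_⟩)
    have := (h2 (H.map M.subtype) (map_subtype_le _) fun e => hH (by
      rw [← comap_map_eq_self_of_injective M.subtype_injective H, e]
      exact subgroupOf_self M)).1
    exact Group.nilpotent_of_mulEquiv (H.equivMapOfInjective _ M.subtype_injective).symm
  · rintro (h | h | ⟨Z, K, hZ, hK, h1, h2, h3, h4, h5⟩) M hM hd
    · infer_instance
    · exact h.2 M hM.1
    · have hZM : Z ≤ M := by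
        by_contra h
        have h6 := (CF.Solv.le_or_inf_eq_bot_of_card_prime (h3 ▸ hp) M).resolve_left h
        have h7 := CF.SolvStr.index_eq_card_of_inf_sup (inf_comm Z M ▸ h6)
          (CF.Solv.sup_eq_top_of_isCoatom hM h)
        rw [CF.SolvStr.index_eq_card_of_inf_sup (inf_comm Z K ▸ h1) (sup_comm Z K ▸ h2)] at h7
        exact h5 (h7 ▸ hd)
      have h6 : M = Z ⊔ K ⊓ M := by rw [← CF.Solv.sup_inf_assoc K hZM, h2, top_inf_eq]
      have h7 := h4.2 (M.subgroupOf K) fun e => hM.1 (by
        rw [eq_top_iff, ← h2]; exact sup_le hZM (Subgroup.subgroupOf_eq_top.1 e))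
      have h8 := CF.Solv.isNilpotent_map K.subtype (M.subgroupOf K)
      rw [Subgroup.subgroupOf_map_subtype, inf_comm] at h8
      have := (IsPGroup.of_card (p := p) (n := 1) (h3.trans (pow_one p).symm)).isNilpotent
      rw [h6]
      exact CF.Solv.isNilpotent_sup_of_le_centralizer
        ((CF.Solv.le_centralizer_of_inf_eq_bot h1).trans (Subgroup.centralizer_le inf_le_left))

end Cfsg.Agent.S4242
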