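import Mathlib
import Cfsg.Statements.S4245
import Cfsg.Agent.Fgs1.ClassSize2
import Cfsg.Agent.Hyp.FTProof
import Cfsg.Agent.Transfer.Frobenius
import Cfsg.Prelude.Def_OddOrderLocal

set_option autoImplicit false
open Cfsg

namespace Cfsg.Agent.S4245

open Cfsg Subgroup CF.Fgs1

theorem meta_of_injective {H K : Type*} [Group H] [Group K] (f : H →* K)
    (hf : Function.Injective f) (h : IsMetacyclic K) : IsMetacyclic H := by
  obtain ⟨N, hN, h1, h2⟩ := h
  refine ⟨N.comap f, inferInstance, ?_, ?_⟩
  · exact isCyclic_of_injective ((f.comp (N.comap f).subtype).codRestrict N fun x => x.2)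
      fun x y e => Subtype.ext (hf (congrArg Subtype.val e))
  · refine isCyclic_of_injective (QuotientGroup.map (N.comap f) N f le_rfl) ?_
    rw [injective_iff_map_eq_one]
    intro x hx
    obtain ⟨x, rfl⟩ := QuotientGroup.mk_surjective x
    rw [QuotientGroup.map_mk, QuotientGroup.eq_one_iff] at hx
    exact (QuotientGroup.eq_one_iff _).mpr hx

theorem meta_of_surjective {H K : Type*} [Group H] [Group K] (f : H →* K)
    (hf : Function.Surjective f) (h : IsMetacyclic H) : IsMetacyclic K := by
  obtain ⟨N, hN, h1, h2⟩ := h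
  haveI := hN.map f hf
  refine ⟨N.map f, inferInstance, ?_, ?_⟩
  · exact isCyclic_of_surjective (f.subgroupMap N) (f.subgroupMap_surjective N)
  · refine isCyclic_of_surjective (QuotientGroup.map N (N.map f) f (le_comap_map f N)) ?_
    intro x
    obtain ⟨x, rfl⟩ := QuotientGroup.mk_surjective x
    obtain ⟨y, rfl⟩ := hf x
    exact ⟨QuotientGroup.mk y, rfl⟩

universe u

theorem odd_case {p : ℕ} (hp : p.Prime) (hp2 : p ≠ 2) (G : Type u) [Group G] [Finite G] :
    (∃ (A : Subgroup G) (s : ℕ), A.index = p ^ s ∧ IsMetacyclic A) → Group.IsSolvable G := by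
  refine isSolvable_of_simple_sections
    (Q := fun G _ _ => ∃ (A : Subgroup G) (s : ℕ), A.index = p ^ s ∧ IsMetacyclic A) ?_ ?_ ?_ G
  · rintro G _ _ N _ ⟨A, s, hA, hm⟩
    obtain ⟨j, hj⟩ := exists_pow_of_dvd_pow hp (hA ▸ relIndex_dvd_index_of_normal_right A N)
    exact ⟨A.subgroupOf N, j, hj, meta_of_injective
      ((N.subtype.comp (A.subgroupOf N).subtype).codRestrict A fun x => x.2)
      (fun x y e => Subtype.ext (Subtype.ext (congrArg (fun t : A => (t : G)) e))) hm⟩
  · rintro G _ _ N _ ⟨A, s, hA, hm⟩
    obtain ⟨j, hj⟩ := exists_pow_of_dvd_pow hp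
      (hA ▸ index_map_dvd A (QuotientGroup.mk'_surjective N))
    exact ⟨A.map (QuotientGroup.mk' N), j, hj, meta_of_surjective _
      ((QuotientGroup.mk' N).subgroupMap_surjective A) hm⟩
  · rintro G _ _ _ ⟨A, s, hA, B, hB, h1, h2⟩
    by_cases hev : 2 ∣ Nat.card B
    · obtain ⟨z, hz⟩ := exists_prime_orderOf_dvd_card' (hp := ⟨Nat.prime_two⟩) 2 hev
      have hz' : orderOf ((z : A) : G) = 2 := by
        rw [Subgroup.orderOf_coe, Subgroup.orderOf_coe, hz]
      have hle : A ≤ centralizer ({((z : A) : G)} : Set G) := by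
        intro a ha
        let w : B := ⟨⟨a, ha⟩ * z * (⟨a, ha⟩ : A)⁻¹, hB.conj_mem _ z.2 _⟩
        have hw : orderOf w = 2 := by
          rw [← Subgroup.orderOf_coe, ← hz, ← Subgroup.orderOf_coe z]
          exact CF.Transfer.orderOf_conj' _ _
        haveI := Fintype.ofFinite B
        classical
        have hc := IsCyclic.card_orderOf_eq_totient (α := B) (d := 2)
          (by rwa [← Nat.card_eq_fintype_card])
        rw [Nat.totient_two, Finset.card_eq_one] at hc
        obtain ⟨c, hc⟩ := hc
        have e1 : w ∈ ({c} : Finset B) := hc ▸ Finset.mem_filter.mpr ⟨Finset.mem_univ _, hw⟩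
        have e2 : z ∈ ({c} : Finset B) := hc ▸ Finset.mem_filter.mpr ⟨Finset.mem_univ _, hz⟩
        rw [Finset.mem_singleton] at e1 e2
        have e3 : a * ((z : A) : G) * a⁻¹ = ((z : A) : G) :=
          congrArg (fun x : B => ((x : A) : G)) (e1.trans e2.symm)
        rw [mem_cent_iff]
        calc _ = a * ((z : A) : G) * a⁻¹ * a := by rw [e3]
          _ = _ := by group
      obtain ⟨j, hj⟩ := exists_pow_of_dvd_pow hp (hA ▸ index_dvd_of_le hle)
      exact isSolvable_of_prime_card (CF.Char.prime_card_of_simple_of_index_eq_pow hp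
        (fun e => by rw [e, orderOf_one] at hz'; omega) hj)
    · haveI : Fact (Nat.Prime 2) := ⟨Nat.prime_two⟩
      have hAi : ¬ 2 ∣ A.index := by
        rw [hA]
        intro h
        exact hp2 ((Nat.prime_dvd_prime_iff_eq Nat.prime_two hp).mp
          (Nat.prime_two.dvd_of_dvd_pow h)).symm
      obtain ⟨S, hS⟩ := CF.Solv.exists_sylow_le_of_not_dvd_index hAi
      have hSc : IsCyclic S := by
        refine isCyclic_of_injective ((QuotientGroup.mk' B).comp (inclusion hS)) ?_
        rw [injective_iff_map_eq_one]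
        intro x hx
        rw [MonoidHom.comp_apply, QuotientGroup.mk'_apply, QuotientGroup.eq_one_iff] at hx
        have h3 := orderOf_dvd_natCard (⟨_, hx⟩ : B)
        rw [← Subgroup.orderOf_coe, orderOf_injective _ (inclusion_injective hS)] at h3
        obtain ⟨k, hk⟩ := (IsPGroup.iff_orderOf.mp S.isPGroup') x
        rw [hk] at h3
        rcases k with _ | k
        · exact orderOf_eq_one_iff.mp hk
        · exact absurd ((dvd_pow_self 2 (Nat.succ_ne_zero k)).trans h3) hev
      by_cases hG : 2 ∣ Nat.card G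
      · have hmin : (Nat.card G).minFac = 2 := (Nat.minFac_eq_two_iff _).mpr hG
        have hn : HasNormalPComplement 2 G :=
          CF.Transfer.burnside_hasNPC S (hSc.normalizer_le_centralizer hmin)
        obtain ⟨N, hN, hN1, k, hk⟩ := CF.Transfer.hasNPC_iff_exists_normal.mp hn
        rcases hN.eq_bot_or_eq_top with rfl | rfl
        · rw [index_bot] at hk
          haveI := (IsPGroup.of_card hk).isNilpotent
          infer_instance
        · rw [card_top] at hN1
          exact CF.Hyp.isSolvable_of_odd (Nat.coprime_two_right.mp hN1)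
      · exact CF.Hyp.isSolvable_of_odd (Nat.odd_iff.mpr (by omega))


/-- Let G be a finite group with a subgroup A of prime-power index. Suppose A has a normal cyclic subgroup B such that A/B is cyclic of order a power of 2. Then G is solvable. -/
theorem result {G : Type*} [Group G] [Finite G] (A : Subgroup G) (p s : ℕ) (hp : p.Prime) (hA : A.index = p ^ s)
    (B : Subgroup A) [B.Normal] (hB : IsCyclic B) (hAB : IsCyclic (A ⧸ B)) (r : ℕ) (hr : Nat.card (A ⧸ B) = 2 ^ r) :
    Group.IsSolvable G := by
  by_cases hp2 : p = 2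
  · subst hp2
    haveI : IsCyclic (B.map A.subtype) :=
      isCyclic_of_surjective (A.subtype.subgroupMap B) (A.subtype.subgroupMap_surjective B)
    refine isSolvable_of_abelian_index_pow hp (B.map A.subtype) (k := r + s) ?_
    rw [index_map_of_injective _ (subtype_injective _), range_subtype, hA, pow_add, ← hr]
    rfl
  · exact odd_case hp hp2 G ⟨A, s, hA, B, inferInstance, hB, hAB⟩

end Cfsg.Agent.S4245
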