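import Mathlib
import Cfsg.Statements.S4248
import Cfsg.Agent.Fgs1.Part3

set_option autoImplicit false
open Cfsg

namespace Cfsg.Agent.S4248

open Subgroup CF.BG CF.Fgs1

/-- Let G be a finite group admitting a nontrivial partition: a family of at least two nontrivial subgroups such that every non-identity element of G lies in exactly one member. Then G is isomorphic to the symmetric group of degree 4; or, for some prime p, the Hughes subgroup generated by the elements g with g^p ≠ 1 is proper (G a p-group or a group of Hughes–Thompson type); or G is a Frobenius group; or G is isomorphic to PSL(2, q) with q ≥ 4, to PGL(2, q) with q ≥ 5 odd, or to a Suzuki group. -/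
theorem result {G : Type*} [Group G] [Finite G] (S : Set (Subgroup G)) (hS2 : ∃ H ∈ S, ∃ K ∈ S, H ≠ K)
    (hS1 : ∀ H ∈ S, H ≠ ⊥) (hpart : ∀ g : G, g ≠ 1 → ∃! H : Subgroup G, H ∈ S ∧ g ∈ H) :
    Nonempty (G ≃* Equiv.Perm (Fin 4)) ∨
    (∃ p : ℕ, p.Prime ∧ Subgroup.closure {g : G | g ^ p ≠ 1} ≠ ⊤) ∨
    (∃ H : Subgroup G, Cfsg.IsFrobeniusComplement H) ∨
    (∃ (F : Type) (_ : Field F) (_ : Fintype F), 4 ≤ Fintype.card F ∧
        Nonempty (G ≃* Matrix.ProjectiveSpecialLinearGroup (Fin 2) F)) ∨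
    (∃ (F : Type) (_ : Field F) (_ : Fintype F), 5 ≤ Fintype.card F ∧ Odd (Fintype.card F) ∧
        Nonempty (G ≃* (GL (Fin 2) F ⧸ Subgroup.center (GL (Fin 2) F)))) ∨
    Cfsg.Lie.IsoSuzuki G := by
  classical
  choose! c hc using hpart
  let d : G → Subgroup G := fun x => ⨅ g : G, cj g⁻¹ (c (g * x * g⁻¹))
  have md : ∀ x y, y ∈ d x ↔ ∀ g, g * y * g⁻¹ ∈ c (g * x * g⁻¹) := fun x y => by
    simp only [d, mem_iInf, mem_cj_inv]
  have n1 : ∀ {x : G} (g : G), x ≠ 1 → g * x * g⁻¹ ≠ 1 := fun g h => by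
    simpa [mul_inv_eq_one] using h
  have self : ∀ x, x ≠ 1 → x ∈ d x := fun x h => (md x x).2 fun g => (hc _ (n1 g h)).1.2
  have de : ∀ x y, x ≠ 1 → y ≠ 1 → y ∈ d x → d y = d x := fun x y hx hy e => by
    ext z
    rw [md, md]
    refine forall_congr' fun g => ?_
    rw [(hc _ (n1 g hy)).2 _ ⟨(hc _ (n1 g hx)).1.1, (md x y).1 e g⟩]
  let C : Subgroup G → Prop := fun X => ∃ x, x ≠ 1 ∧ X = d x
  have h : Pt Set.univ C := by
    refine ⟨fun x _ h => ⟨_, ⟨x, h, rfl⟩, self x h⟩, fun _ _ => piNat_univ _, ?_, ?_⟩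
    · rintro _ _ ⟨x, hx, rfl⟩ ⟨y, hy, rfl⟩ e
      obtain ⟨z, hz, z1⟩ := exists_mem_ne_one e
      rw [← de x z hx z1 hz.1, de y z hy z1 hz.2]
    · rintro g _ ⟨x, hx, rfl⟩
      refine ⟨_, n1 g hx, ?_⟩
      ext z
      rw [mem_cj, md, md]
      refine ⟨fun k a => ?_, fun k a => ?_⟩
      · simpa [mul_assoc] using k (a * g)
      · simpa [mul_assoc] using k (a * g⁻¹)
  obtain ⟨H, hH, K, hK, ne⟩ := hS2
  have u : ∀ H ∈ S, ∀ x ∈ H, x ≠ 1 → H = c x := fun H hH x hx h => (hc x h).2 _ ⟨hH, hx⟩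
  have pr : ∀ X, C X → X ≠ ⊤ := by
    rintro _ ⟨x, hx, rfl⟩ e
    have k : ∀ y, y ∈ c x := fun y => by simpa using (md x y).1 (e ▸ mem_top y) 1
    have k2 : ∀ H ∈ S, H = c x := fun H hH => by
      obtain ⟨y, hy, y1⟩ := exists_mem_ne_one (hS1 H hH)
      rw [u H hH y hy y1, ← u _ (hc x hx).1.1 y (k y) y1]
    exact ne ((k2 H hH).trans (k2 K hK).symm)
  have fr : ∀ K : Subgroup G, CCN K → ∃ H : Subgroup G, Cfsg.IsFrobeniusComplement H := fun K k => by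
    obtain ⟨H, f⟩ := k.frob
    refine ⟨H, f.compl_ne, fun e => f.ker_ne (by simpa [e] using f.sd.inf), fun g hg => ?_⟩
    by_contra e
    obtain ⟨x, hx, x1⟩ := exists_mem_ne_one e
    obtain ⟨a, ha, b, hb, rfl⟩ := f.sd.exists_mul' (mem_top g)
    rw [← cj_eq_smul, ← cj_cj] at hx
    have h1 : a⁻¹ * x * a ∈ H := mul_mem (mul_mem (inv_mem ha) hx.1) ha
    obtain ⟨y, hy, ey⟩ := mem_cj_iff.1 (mem_cj.1 hx.2)
    have h2 : b * y * b⁻¹ * y⁻¹ = 1 := eq_one_of_mem_bot f.sd.inf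
      ⟨by simpa [mul_assoc] using mul_mem hb (conj_mem_of_norm (f.norm hy) (inv_mem hb)),
        H.mul_mem (ey ▸ h1) (H.inv_mem hy)⟩
    rcases f.reg.eq_one hy hb (by rw [mul_inv_eq_one, mul_inv_eq_iff_eq_mul] at h2; exact h2.symm)
      with e | e
    · rw [e] at ey
      exact n1 a⁻¹ x1 (by simpa using ey.symm)
    · exact hg (by simpa [e] using ha)
  by_cases sn : ∃ X, C X ∧ 𝐍 X ≤ X
  · obtain ⟨X, hX, k⟩ := sn
    refine Or.inr (Or.inr (Or.inl ⟨X, ?_, pr X hX, fun g hg => ?_⟩))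
    · obtain ⟨x, hx, rfl⟩ := hX
      exact ne_bot_of_mem (self x hx) hx
    · by_contra e
      exact hg (k (cj_eq_self.1 (h.ti _ _ hX (h.cj g X hX) e).symm))
  have nil : ∀ X, C X → Nil X := fun X hX => by
    obtain ⟨y, hy, ny⟩ := SetLike.not_le_iff_exists.1 fun k => sn ⟨X, hX, k⟩
    exact h.nil hX (pu y) hy ny
  by_cases hF : 𝐅 (⊤ : Subgroup G) = ⊥
  · rcases h.suzuki nil hF (ne_bot_mono (hS1 H hH) le_top) with
      ⟨F, _, _, n, h2, h3, e⟩ | k | ⟨F, _, _, o, h3, e | e⟩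
    · exact Or.inr (Or.inr (Or.inr (Or.inl ⟨F, _, _, h3 ▸ Nat.pow_le_pow_right two_pos h2, e⟩)))
    · exact Or.inr (Or.inr (Or.inr (Or.inr (Or.inr k))))
    · exact Or.inr (Or.inr (Or.inr (Or.inl ⟨F, _, _, h3, e⟩)))
    · exact Or.inr (Or.inr (Or.inr (Or.inr (Or.inl ⟨F, _, _, by
        rw [Nat.odd_iff] at o; omega, o, e⟩))))
  rcases h.baer nil pr hF with k | ⟨p, X, hp, hX, -, k⟩ | ⟨X, -, k⟩ | ⟨p, -, k⟩
  · exact Or.inl k
  · refine Or.inr (Or.inl ⟨p, hp, fun e => pr X hX (top_le_iff.1 (e ▸ (closure_le _).2 ?_))⟩)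
    exact fun g hg => by_contra fun ng => hg (k g ng)
  · exact Or.inr (Or.inr (Or.inl (fr _ k)))
  · exact Or.inr (Or.inr (Or.inl (fr _ k)))

end Cfsg.Agent.S4248
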