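import Cfsg.Statements.S4250
import Cfsg.Agent.Transfer.Ctrl

set_option autoImplicit false
open Cfsg

namespace Cfsg.Agent.S4250

/-- Let P be a Sylow p-subgroup of a finite group G. Call an intersection H = P ∩ Q with a Sylow p-subgroup Q tame when N_P(H) and N_Q(H) are Sylow p-subgroups of N_G(H). Then P ∩ G′ is generated by [P, N_G(P)] together with the commutator subgroups [P ∩ Q, ⟨x⟩] for all tame intersections P ∩ Q and all p-elements x of N_G(P ∩ Q). -/
theorem result {G : Type*} [Group G] [Finite G] (p : ℕ) [Fact p.Prime] (P : Sylow p G) :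
    (P : Subgroup G) ⊓ commutator G =
      ⁅(P : Subgroup G), Subgroup.normalizer ((P : Subgroup G) : Set G)⁆ ⊔
        ⨆ (Q : Sylow p G) (_ : (¬ p ∣ ((P : Subgroup G) ⊓ Subgroup.normalizer (((P : Subgroup G) ⊓ (Q : Subgroup G) : Subgroup G) : Set G)).relIndex (Subgroup.normalizer (((P : Subgroup G) ⊓ (Q : Subgroup G) : Subgroup G) : Set G)) ∧ ¬ p ∣ ((Q : Subgroup G) ⊓ Subgroup.normalizer (((P : Subgroup G) ⊓ (Q : Subgroup G) : Subgroup G) : Set G)).relIndex (Subgroup.normalizer (((P : Subgroup G) ⊓ (Q : Subgroup G) : Subgroup G) : Set G))))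
          (x : G) (_ : x ∈ Subgroup.normalizer (((P : Subgroup G) ⊓ (Q : Subgroup G) : Subgroup G) : Set G) ∧ ∃ k : ℕ, orderOf x = p ^ k),
          ⁅(P : Subgroup G) ⊓ (Q : Subgroup G), Subgroup.zpowers x⁆ := by
  open CF.Transfer Subgroup in
  refine le_antisymm (sylow_inf_commutator_le P fun a ha g hg => ?_) (sup_le (le_inf
    (le_normalizer_iff_commutator_le_left.1 le_rfl) (commutator_mono le_top le_top))
    (iSup_le fun Q => iSup_le fun _ => iSup_le fun x => iSup_le fun hx => le_inf
      ((le_normalizer_iff_commutator_le_left.1 (zpowers_le.2 hx.1)).trans inf_le_left)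
      (commutator_mono le_top le_top)))
  have h := alperin_tame P (A := {a}) (g := g⁻¹) (by simpa using ha) (by simpa using hg)
  generalize hK : (⁅(P : Subgroup G), normalizer ((P : Subgroup G) : Set G)⁆ ⊔ _ : Subgroup G) = K
  have := h.induction_on (fun A g => ∀ a ∈ A, a⁻¹ * (g⁻¹ * a * g) ∈ K) (by simp)
    fun A Q x y hx hA ih a ha => by
      have h1 : a⁻¹ * (x⁻¹ * a * x⁻¹⁻¹) ∈ K := by
        rw [← hK]
        rcases hx.2.2 with e | e
        · have h2 := hx.1
          rw [e, inf_idem] at h2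
          exact mem_sup_left (inv_mul_conj_mem_commutator (hA ha).1 (inv_mem h2))
        · exact mem_sup_right (mem_iSup_of_mem Q (mem_iSup_of_mem hx.2.1 (mem_iSup_of_mem x
            (mem_iSup_of_mem ⟨hx.1, e⟩
              (inv_mul_conj_mem_commutator (hA ha) (inv_mem (mem_zpowers x)))))))
      have := mul_mem h1 (ih _ ⟨a, ha, rfl⟩)
      simpa [mul_assoc] using this
  simpa using this a rfl

end Cfsg.Agent.S4250
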