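import Cfsg.Statements.S4251
import Cfsg.Agent.Transfer.Ctrl

set_option autoImplicit false
open Cfsg

namespace Cfsg.Agent.S4251

/-- Let P be a Sylow p-subgroup of a finite group G. Call an intersection H = P ∩ Q with a Sylow p-subgroup Q tame when N_P(H) and N_Q(H) are Sylow p-subgroups of N_G(H). If N_G(H)/C_G(H) is a p-group for every nontrivial tame intersection H = P ∩ Q, then G has a normal p-complement. -/
theorem result {G : Type*} [Group G] [Finite G] (p : ℕ) [Fact p.Prime] (P : Sylow p G)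
    (h : ∀ Q : Sylow p G, (P : Subgroup G) ⊓ (Q : Subgroup G) ≠ ⊥ → (¬ p ∣ ((P : Subgroup G) ⊓ Subgroup.normalizer (((P : Subgroup G) ⊓ (Q : Subgroup G) : Subgroup G) : Set G)).relIndex (Subgroup.normalizer (((P : Subgroup G) ⊓ (Q : Subgroup G) : Subgroup G) : Set G)) ∧ ¬ p ∣ ((Q : Subgroup G) ⊓ Subgroup.normalizer (((P : Subgroup G) ⊓ (Q : Subgroup G) : Subgroup G) : Set G)).relIndex (Subgroup.normalizer (((P : Subgroup G) ⊓ (Q : Subgroup G) : Subgroup G) : Set G))) →
      IsPGroup p (Subgroup.normalizer (((P : Subgroup G) ⊓ (Q : Subgroup G) : Subgroup G) : Set G) ⧸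
        (Subgroup.centralizer (((P : Subgroup G) ⊓ (Q : Subgroup G) : Subgroup G) : Set G)).subgroupOf
          (Subgroup.normalizer (((P : Subgroup G) ⊓ (Q : Subgroup G) : Subgroup G) : Set G)))) :
    Cfsg.HasNormalPComplement p G := by
  open CF.Transfer Subgroup in
  refine hasNPC_of_controls_fusion P fun a ha g hg => ?_
  have h0 := alperin_tame P (A := {a}) (g := g⁻¹) (by simpa using ha) (by simpa using hg)
  obtain ⟨s, hs, e⟩ := h0.induction_on (fun A g => ∃ s ∈ P, ∀ a ∈ A, s⁻¹ * a * s = g⁻¹ * a * g)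
    (fun _ => ⟨1, one_mem _, fun _ _ => rfl⟩) fun A Q x y hx hA ⟨s, hs, e⟩ => by
      have hE := isExtremalIn_top_iff.2 ⟨inf_le_left, hx.2.1.1⟩
      obtain ⟨c, hc, t, ht, rfl⟩ := hE.2.exists_mul_of_coprime_mem
        (C := centralizer (((P : Subgroup G) ⊓ Q : Subgroup G) : Set G)) (fun z hz hcop => by
          by_cases h1 : (P : Subgroup G) ⊓ Q = ⊥
          · exact le_centralizer_iff.1 (h1.le.trans bot_le) (mem_top z)
          · have := pResidual_le_of_isPGroup_quotient (h Q h1 hx.2.1)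
              (mem_pResidual_of_coprime (x := ⟨z, hz.2⟩) (by rwa [orderOf_mk]))
            exact this) ⟨mem_top x, hx.1⟩
      refine ⟨t * s, mul_mem ht.1 hs, fun a ha => ?_⟩
      have h2 : c⁻¹ * a * c = a := by
        rw [mul_assoc, hc.1 a (hA ha), inv_mul_cancel_left]
      have h3 := e _ ⟨a, ha, rfl⟩
      calc (t * s)⁻¹ * a * (t * s) = s⁻¹ * (t⁻¹ * (c⁻¹ * a * c) * t) * s := by rw [h2]; group
        _ = s⁻¹ * ((c * t)⁻¹ * a * (c * t)) * s := by group
        _ = _ := by rw [h3]; group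
  exact ⟨s⁻¹, inv_mem hs, by simpa using e a rfl⟩

end Cfsg.Agent.S4251
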