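import Mathlib
import Cfsg.Agent.Fgs2.Basic
import Cfsg.Agent.Solv.Fitting
import Cfsg.Statements.S4261

set_option autoImplicit false
open Cfsg

namespace Cfsg.Agent.S4261

universe u

theorem aux : ∀ (G : Type u) [Group G] [Finite G], Group.IsSolvable G → ∀ M : Subgroup G,
    IsCoatom M → (∀ x : G, x ^ M.index ∈ M) → M.Normal := by
  refine CF.Solv.group_induction fun G _ _ ih => ?_
  intro hG M hM hexp
  by_cases hcore : M.normalCore = ⊥
  swap
  · set K := M.normalCore
    have hKM : K ≤ M := M.normalCore_le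
    have hcm : (M.map (QuotientGroup.mk' K)).comap (QuotientGroup.mk' K) = M := by
      rw [CF.Solv.comap_map_mk', sup_eq_left.2 hKM]
    have h1 : IsCoatom (M.map (QuotientGroup.mk' K)) := by
      refine ⟨fun h => hM.1 (by rw [← hcm, h]; rfl), fun L hL => ?_⟩
      have h2 : M < L.comap (QuotientGroup.mk' K) := by
        exact hcm.symm.trans_lt
          ((Subgroup.comap_lt_comap_of_surjective (QuotientGroup.mk'_surjective K)).2 hL)
      rw [← CF.Solv.map_comap_mk' K L, hM.2 _ h2]
      exact Subgroup.map_top_of_surjective _ (QuotientGroup.mk'_surjective K)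
    have h3 := ih (G ⧸ K) (CF.Solv.card_quotient_lt hcore) inferInstance _ h1 (by
      intro x
      induction x using QuotientGroup.induction_on with | H x =>
      rw [CF.Solv.index_map_mk', sup_eq_left.2 hKM]
      exact ⟨_, hexp x, by simp⟩)
    exact hcm ▸ h3.comap (QuotientGroup.mk' K)
  have hbot : ∀ L : Subgroup G, L.Normal → L ≤ M → L = ⊥ := fun L _ h =>
    le_bot_iff.1 (hcore ▸ Subgroup.normal_le_normalCore.2 h)
  have htop : (⊤ : Subgroup G) ≠ ⊥ := fun h => hM.1 (top_le_iff.1 (h ▸ bot_le))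
  obtain ⟨N, p, hp, hN, -, hNe, hNp⟩ := CF.Solv.exists_isMinNormal_pGroup_le (⊤ : Subgroup G) htop
  have := Fact.mk hp
  have hNn : N.Normal := hN.1
  have hNM : N ⊔ M = ⊤ := by
    refine hM.2 _ (lt_of_le_of_ne le_sup_right fun h => ?_)
    exact hN.2.1 (hbot N hNn (h ▸ le_sup_left))
  have hidx : ∃ k, M.index = p ^ k := by
    have h1 : M.relIndex N = M.index := (CF.Fgs2.forall_exists_mul_iff_relIndex_eq M N).1 fun g => by
      obtain ⟨n, hn, m, hm, h⟩ := CF.Fgs2.mem_normal_sup_iff.1 (hNM ▸ Subgroup.mem_top g : g ∈ N ⊔ M)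
      exact ⟨n, hn, m, hm, h.symm⟩
    rw [← h1]
    exact hNp.index _
  obtain ⟨k, hk⟩ := hidx
  have hpG : IsPGroup p G := by
    intro x
    obtain ⟨a, -, b, -, h1, -, ⟨j, h3⟩, h4⟩ := CF.Fgs2.exists_p_decomp p x
    have hb : Subgroup.normalClosure {b} ≤ M := by
      rw [Subgroup.normalClosure, Subgroup.closure_le]
      intro y hy
      obtain ⟨c, hc, hy⟩ := Group.mem_conjugatesOfSet_iff.1 hy
      rw [Set.mem_singleton_iff.1 hc] at hy
      have h5 : (orderOf y).Coprime M.index := by
        rw [← CF.Fgs2.IsConj_orderOf_eq hy, hk]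
        exact (Nat.Coprime.pow_left k ((Nat.Prime.coprime_iff_not_dvd hp).2 h4)).symm
      exact (Subgroup.zpowers_le.2 (hexp _)) (mem_zpowers_pow_iff.2 h5.symm)
    have hb1 : b = 1 := by
      have := hbot _ inferInstance hb
      exact Subgroup.mem_bot.1 (this ▸ Subgroup.subset_normalClosure (Set.mem_singleton b))
    exact ⟨j, by rw [h1, hb1, mul_one, ← h3, pow_orderOf_eq_one]⟩
  have := hpG.isNilpotent
  exact CF.Solv.isNilpotent_iff_coatom_normal.1 this M hM

/-- Let M be a maximal subgroup of a finite solvable group G such that x^[G : M] lies in M for every x in G. Then M is normal in G. -/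
theorem result {G : Type*} [Group G] [Finite G] (hG : Group.IsSolvable G) (M : Subgroup G) (hM : IsCoatom M)
    (hexp : ∀ x : G, x ^ M.index ∈ M) : M.Normal := by
  exact aux G hG M hM hexp

end Cfsg.Agent.S4261
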