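import Cfsg.Statements.S4262
import Cfsg.Agent.Fgs3.Misc
import Cfsg.Agent.SolvStr.Centric

set_option autoImplicit false
open Cfsg

namespace Cfsg.Agent.S4262

open CF.BG CF.Fgs3 Subgroup

/-- Let G be a finite group in which the centralizer of every non-central element is a maximal subgroup of G. Then G is solvable. -/
theorem result {G : Type*} [Group G] [Finite G]
    (h : ∀ g : G, g ∉ Subgroup.center G → IsCoatom (Subgroup.centralizer ({g} : Set G))) :
    Group.IsSolvable G := by
  have key : ∀ a b : G, a ∉ center G → b ∉ center G → a * b = b * a →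
      (orderOf a).Coprime (orderOf b) → 𝐂₁ a = 𝐂₁ b := by
    intro a b ha hb hc hcop
    have hab : a * b ∉ center G := fun e =>
      ha ((zpowers_le.2 e) (mem_zpowers_mul_left hc hcop))
    have h1 := h _ hab
    rw [cent1_mul hc hcop] at h1
    have e1 : 𝐂₁ a ⊓ 𝐂₁ b = 𝐂₁ a := by
      by_contra e
      exact (h a ha).1 (h1.2 _ (lt_of_le_of_ne inf_le_left e))
    have e2 : 𝐂₁ a ⊓ 𝐂₁ b = 𝐂₁ b := by
      by_contra e
      exact (h b hb).1 (h1.2 _ (lt_of_le_of_ne inf_le_right e))
    rw [← e1, e2]
  have solZ : Group.IsSolvable (G ⧸ center G) → Group.IsSolvable G := fun _ =>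
    haveI : Group.IsSolvable (center G) := (Abel.of_comm inferInstance).sol
    CF.Solv.isSolvable_of_normal_of_quotient (center G)
  by_cases h2 : PiNat {2} (center G).index
  · apply solZ
    have : PiGrp {2} (⊤ : Subgroup (G ⧸ center G)) := by
      unfold PiGrp; rw [card_top']; exact h2
    have := this.sol
    exact Group.isSolvable_of_surjective (f := (⊤ : Subgroup (G ⧸ center G)).subtype)
      fun g => ⟨⟨g, trivial⟩, rfl⟩
  unfold PiNat at h2
  push Not at h2
  obtain ⟨p, hp, hd, hp2⟩ := h2
  obtain ⟨P, hP⟩ := exists_syl p (⊤ : Subgroup G)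
  have hPZ : ¬ P ≤ center G := fun e => by
    have := hP.idx_of_le e
    rw [Subgroup.relIndex_top_right] at this
    exact this.not_dvd' hp rfl hd
  obtain ⟨x, hxP, hx⟩ := SetLike.not_le_iff_exists.1 hPZ
  have hxp := hP.pi.elt hxP
  by_cases hc : ∀ y ∈ 𝐂₁ x, PiElt {p}ᶜ y → y ∈ center G
  · apply solZ
    set f := QuotientGroup.mk' (center G)
    have hZ : center G ≤ 𝐂₁ x := fun z hz => mem_cent1.2 (mem_center_iff.1 hz x).symm
    have hM : IsCoatom ((𝐂₁ x).map f) :=
      CF.Solv.isCoatom_map_of_ker_le (QuotientGroup.mk'_surjective _) (h x hx)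
        (by rw [QuotientGroup.ker_mk']; exact hZ)
    have hpi : PiGrp {p} ((𝐂₁ x).map f) := by
      refine piGrp_of_forall_elt ?_
      rintro _ ⟨g, hg, rfl⟩
      have e := constt_mul_constt {p} g
      have h1 : f (constt {p}ᶜ g) = 1 :=
        (QuotientGroup.eq_one_iff _).2 (hc _ (constt_mem_of_mem _ hg) (constt_pi _ _))
      rw [← e, map_mul, h1, mul_one]
      exact (constt_pi _ _).map f
    refine CF.SolvStr.isSolvable_of_coatom_nilpotent_odd hM hpi.nil ?_
    rw [Nat.odd_iff]
    have := hpi.not_dvd Nat.prime_two (fun e => hp2 (by simpa using e.symm))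
    omega
  push Not at hc
  obtain ⟨y, hy, hyp, hyZ⟩ := hc
  have e := key x y hx hyZ (mem_cent1.1 hy).symm (hxp.coprime hyp)
  have hab : Abel (𝐂₁ x) := by
    intro g hg
    rw [← constt_mul_constt {p} g]
    refine Subgroup.mul_mem _ ?_ ?_
    · by_cases hz : constt {p} g ∈ center G
      · exact mem_cent.2 fun k _ => mem_center_iff.1 hz k
      · have := key _ y hz hyZ (mem_cent1.1 (constt_mem_of_mem _ (e ▸ hg)))
          ((constt_pi _ _).coprime hyp)
        rw [← le_cent1_iff, this, e]
    · by_cases hz : constt {p}ᶜ g ∈ center G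
      · exact mem_cent.2 fun k _ => mem_center_iff.1 hz k
      · have := key x _ hx hz (mem_cent1.1 (constt_mem_of_mem _ hg)).symm
          (hxp.coprime (constt_pi _ _))
        rw [← le_cent1_iff, this]
  refine CF.SolvStr.isSolvable_of_coatom_class_two (h x hx) hab.nil ?_
  haveI := hab.comm
  exact fun a _ => mem_center_iff.2 fun b => mul_comm' b a

end Cfsg.Agent.S4262
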