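import Cfsg.Statements.S4263
import Cfsg.Agent.Fgs3.Misc

set_option autoImplicit false
open Cfsg

namespace Cfsg.Agent.S4263

open CF.BG CF.Fgs3 Subgroup

/-- Let G be a finite group. An element x lies in the Fitting subgroup F(G) if and only if, for every subgroup H of G, the power x^[G : H] lies in H. -/
theorem result {G : Type*} [Group G] [Finite G] (x : G) :
    x ∈ Cfsg.fittingSubgroup G ↔ ∀ H : Subgroup G, x ^ H.index ∈ H := by
  rw [← F_top]
  constructor
  · intro hx H
    have h1 := Nil.pow_relIndex_mem (F_nil (⊤ : Subgroup G)) hx _ (H ⊓ 𝐅 ⊤) inf_le_right rfl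
    rw [Subgroup.inf_relIndex_right] at h1
    have hn : H ≤ 𝐍 (𝐅 (⊤ : Subgroup G)) := le_top.trans (F_normal ⊤).norm
    have h2 : H.relIndex (𝐅 ⊤) ∣ H.index := by
      rw [← relIndex_sup_norm (Or.inr hn)]
      exact Subgroup.relIndex_dvd_index_of_le le_sup_right
    obtain ⟨c, hc⟩ := h2
    rw [hc, pow_mul]
    exact H.pow_mem h1.1 c
  · intro h
    have : zpowers x ≤ 𝐅 ⊤ := by
      refine le_of_forall_syl' fun p hp _ P hP => ?_
      intro y hy
      refine O_le_F p ⊤ (mem_O_of_forall_syl fun Q hQ => ?_)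
      obtain ⟨k, rfl⟩ := Subgroup.mem_zpowers_iff.1 (hP.le hy)
      have h1 : (x ^ k) ^ Q.index ∈ Q := by
        have := Q.zpow_mem (h Q) k
        rwa [← zpow_natCast, ← zpow_mul, mul_comm, zpow_mul, zpow_natCast] at this
      refine mem_of_pow_coprime h1 ?_
      have h2 := hQ.idx
      rw [Subgroup.relIndex_top_right] at h2
      exact (hP.pi.elt hy).coprime h2
    exact this (mem_zpowers x)

end Cfsg.Agent.S4263
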