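import Cfsg.Statements.S4265
import Cfsg.Agent.Crit.Kr3
-- import your own Cfsg.Agent.* helpers here

set_option autoImplicit false
open Cfsg

namespace Cfsg.Agent.S4265

/-- Let G be a finite solvable subgroup of GL_r(ℂ), r ≥ 1, with Fitting subgroup F(G) normal in G. Then for every subgroup H of G the quotient H/(H ∩ F(G)) has at most 3^{r−1} conjugacy classes. -/
theorem result (r : ℕ) (hr : 1 ≤ r) (G : Subgroup (GL (Fin r) ℂ)) [Finite ↥G] (hsolv : Group.IsSolvable ↥G) [hF : (Cfsg.fittingSubgroup ↥G).Normal] (H : Subgroup ↥G) : Nat.card (ConjClasses (↥H ⧸ (Cfsg.fittingSubgroup ↥G).subgroupOf H)) ≤ 3 ^ (r - 1) := by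
  let ρ : Representation ℂ G (Fin r → ℂ) :=
    (Matrix.toLinAlgEquiv' (R := ℂ) (n := Fin r)).toMonoidHom.comp ((Units.coeHom _).comp G.subtype)
  have hρ : Function.Injective ρ := (Matrix.toLinAlgEquiv' (R := ℂ) (n := Fin r)).injective.comp
    (Units.val_injective.comp G.subtype_injective)
  have h := CF.Crit.Kr.kb_fit (CF.Char.isCharacter_character ρ) (r := r) (fun g hg => by
    rw [ρ.char_one, CF.Char.character_eq_finrank_iff] at hg
    exact hρ (hg.trans (map_one ρ).symm)) (by simp [Cfsg.charDegree])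
  let f := (QuotientGroup.mk' (Cfsg.fittingSubgroup G)).comp H.subtype
  exact (h.of_inj (QuotientGroup.lift _ f fun x hx => (QuotientGroup.eq_one_iff _).2 hx)
    ((injective_iff_map_eq_one _).2 fun x => by
      obtain ⟨x, rfl⟩ := QuotientGroup.mk_surjective x
      exact fun hx => (QuotientGroup.eq_one_iff _).2 ((QuotientGroup.eq_one_iff x.1).1 hx :))).top

end Cfsg.Agent.S4265
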