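import Cfsg.Statements.S4269
import Cfsg.Agent.SolvStr.Misc1

set_option autoImplicit false
open Cfsg

namespace Cfsg.Agent.S4269

/-- Let G be a finite group, V an abelian normal subgroup and H a subgroup with HV = G. Then H is pronormal in G (H and gHg⁻¹ are conjugate inside the subgroup they generate, for every g) if and only if every H-invariant subgroup U of V satisfies U = N_U(H)·[H, U], that is, U is the join of U ∩ N_G(H) and the commutator subgroup [H, U]. -/
theorem result {G : Type*} [Group G] [Finite G]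
    (V : Subgroup G) [V.Normal] (hV : IsMulCommutative ↥V) (H : Subgroup G) (hHV : H ⊔ V = ⊤) :
    Cfsg.IsPronormal H ↔
      ∀ U : Subgroup G, U ≤ V → (∀ h ∈ H, U.map (MulAut.conj h).toMonoidHom = U) →
        U = (U ⊓ Subgroup.normalizer (H : Set G)) ⊔ ⁅H, U⁆ := by
  open Subgroup CF.Solv CF.SolvStr CF.Transfer in
  simp only [IsPronormal, map_conj_eq_cj]
  constructor
  · intro h U hUV hU
    have hHU : H ≤ normalizer (U : Set G) := fun x hx => mem_normalizer_iff_cj.2 (hU x hx)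
    have h1 : ⁅H, U⁆ ≤ U := by
      rw [commutator_comm]; exact CF.Coprime.commutator_le_of_le_normalizer hHU
    refine le_antisymm (fun u hu => ?_) (sup_le inf_le_left h1)
    obtain ⟨x, hx, hxe⟩ := h u
    have h2 : H ⊔ cj u H ≤ ⁅H, U⁆ ⊔ H := by
      refine sup_le le_sup_right (cj_le_iff_forall.2 fun y hy => ?_)
      have : u * y * u⁻¹ = (y * u * y⁻¹ * u⁻¹)⁻¹ * y := by group
      rw [this]
      exact mul_mem_sup (Subgroup.inv_mem _ (commutator_mem_commutator hy hu)) hy
    obtain ⟨c, hc, y, hy, rfl⟩ := (CF.Solv.mem_sup_of_le_normalizer'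
      ((le_inf le_normalizer hHU).trans (normalizer_inf_le_normalizer_commutator H U))).1 (h2 hx)
    rw [cj_mul, cj_eq_of_mem hy] at hxe
    have h3 : c⁻¹ * u ∈ U ⊓ normalizer (H : Set G) := by
      refine ⟨U.mul_mem (U.inv_mem (h1 hc)) hu, mem_normalizer_iff_cj.2 ?_⟩
      rw [cj_mul, hxe, cj_inv_cj]
    have : u = c * (c⁻¹ * u) := by group
    rw [this, sup_comm]
    exact mul_mem_sup hc h3
  · intro h g
    obtain ⟨v, hv, y, hy, rfl⟩ := (CF.Solv.mem_sup_of_le_normalizer'
      (H := H) (N := V) le_normalizer_of_normal).1 (by rw [sup_comm, hHV]; exact mem_top g)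
    rw [cj_mul, cj_eq_of_mem hy]
    set L := H ⊔ cj v H with hL
    have hVn : V.Normal := inferInstance
    let W : Subgroup G :=
      { carrier := {u | u ∈ V ∧ ∀ k ∈ H, k * u * k⁻¹ * u⁻¹ ∈ L}
        one_mem' := ⟨V.one_mem, fun k _ => by simp⟩
        mul_mem' := by
          rintro a b ⟨ha, ha'⟩ ⟨hb, hb'⟩
          refine ⟨V.mul_mem ha hb, fun k hk => ?_⟩
          have e := mul_comm_of_mem (V.mul_mem (hVn.conj_mem b hb k) (V.inv_mem hb)) (V.inv_mem ha)
          have : k * (a * b) * k⁻¹ * (a * b)⁻¹ =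
              (k * a * k⁻¹ * a⁻¹) * (k * b * k⁻¹ * b⁻¹) := by
            calc _ = k * a * k⁻¹ * ((k * b * k⁻¹ * b⁻¹) * a⁻¹) := by group
              _ = _ := by rw [e]; group
          rw [this]
          exact L.mul_mem (ha' k hk) (hb' k hk)
        inv_mem' := by
          rintro a ⟨ha, ha'⟩
          refine ⟨V.inv_mem ha, fun k hk => ?_⟩
          have e := mul_comm_of_mem (hVn.conj_mem _ (V.inv_mem ha) k) ha
          have : k * a⁻¹ * k⁻¹ * a⁻¹⁻¹ = (k * a * k⁻¹ * a⁻¹)⁻¹ := by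
            rw [inv_inv, e]; group
          rw [this]
          exact L.inv_mem (ha' k hk) }
    have hWV : W ≤ V := fun u hu => hu.1
    have hW : ∀ k ∈ H, cj k W = W := by
      intro k hk
      refine mem_normalizer_iff_cj.1 (mem_normalizer_of_cj_le (cj_le_iff_forall.2 ?_))
      rintro u ⟨hu, hu'⟩
      refine ⟨hVn.conj_mem u hu k, fun l hl => ?_⟩
      have : l * (k * u * k⁻¹) * l⁻¹ * (k * u * k⁻¹)⁻¹ =
          k * ((k⁻¹ * l * k) * u * (k⁻¹ * l * k)⁻¹ * u⁻¹) * k⁻¹ := by group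
      rw [this]
      exact L.mul_mem (L.mul_mem (mem_sup_left hk)
        (hu' _ (H.mul_mem (H.mul_mem (H.inv_mem hk) hl) hk))) (L.inv_mem (mem_sup_left hk))
    have hvW : v ∈ W := ⟨hv, fun k hk => by
      have : k * v * k⁻¹ * v⁻¹ = k * (v * k⁻¹ * v⁻¹) := by group
      rw [this]
      exact mul_mem_sup hk (conj_mem_cj (H.inv_mem hk))⟩
    have h1 : ⁅H, W⁆ ≤ L := commutator_le.2 fun k hk u hu => hu.2 k hk
    have h2 : ⁅H, W⁆ ≤ V := (commutator_mono le_rfl hWV).trans (commutator_le_right _ _)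
    rw [h W hWV hW, sup_comm] at hvW
    obtain ⟨c, hc, n, hn, rfl⟩ := (CF.Solv.mem_sup_of_le_normalizer'
      (H := W ⊓ normalizer (H : Set G)) (fun a ha =>
      centralizer_le_normalizer _ fun b hb => mul_comm_of_mem (h2 hb) (hWV ha.1))).1 hvW
    exact ⟨c, h1 hc, by rw [cj_mul, cj_eq_of_mem_normalizer hn.2]⟩

end Cfsg.Agent.S4269
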