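import Cfsg.Statements.S4271
import Cfsg.Agent.SolvStr.Pron

set_option autoImplicit false
open Cfsg

namespace Cfsg.Agent.S4271

/-- Let p be a prime and G a finite group with a normal subgroup A such that every subgroup of A containing a Sylow p-subgroup of A is pronormal in A, and the Sylow p-subgroups of G/A are self-normalizing. Let T be a Sylow p-subgroup of A. Then every subgroup of G containing a Sylow p-subgroup of G is pronormal in G if and only if every subgroup of N_G(T)/T containing a Sylow p-subgroup of N_G(T)/T is pronormal in N_G(T)/T. (Pronormal: H and gHg⁻¹ are conjugate inside the subgroup they generate, for every g.) -/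
theorem result {G : Type*} [Group G] [Finite G] {p : ℕ} [Fact p.Prime]
    (A : Subgroup G) [A.Normal] (hA : (∀ K : Subgroup ↥A, (∃ P : Sylow p ↥A, (P : Subgroup ↥A) ≤ K) → Cfsg.IsPronormal K))
    (hQ : ∀ P : Sylow p (G ⧸ A), Subgroup.normalizer ((P : Subgroup (G ⧸ A)) : Set (G ⧸ A)) = P)
    (T : Subgroup G) (hT : ∃ P : Sylow p ↥A, (P : Subgroup ↥A).map A.subtype = T) [(T.subgroupOf (Subgroup.normalizer (T : Set G))).Normal] :
    (∀ K : Subgroup G, (∃ P : Sylow p G, (P : Subgroup G) ≤ K) → Cfsg.IsPronormal K) ↔ (∀ K : Subgroup (↥(Subgroup.normalizer (T : Set G)) ⧸ T.subgroupOf (Subgroup.normalizer (T : Set G))), (∃ P : Sylow p (↥(Subgroup.normalizer (T : Set G)) ⧸ T.subgroupOf (Subgroup.normalizer (T : Set G))), (P : Subgroup (↥(Subgroup.normalizer (T : Set G)) ⧸ T.subgroupOf (Subgroup.normalizer (T : Set G)))) ≤ K) → Cfsg.IsPronormal K) := by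
  open CF.BG CF.SolvStr in
  obtain ⟨P, rfl⟩ := hT
  have t := syl_sylow P
  rw [← prnS_top] at hA
  rw [← prnS_top, ← prnS_top, prnS_quot (hall_subgroupOf (Hall.refl t.pi) (le_norm_self _)).pi,
    prnS_subtype]
  have k : ∀ K S : Subgroup (G ⧸ A), Syl p S ⊤ → S ≤ K → ∀ g, g ∈ K ⊔ cj g K := fun K S s l g => by
    obtain ⟨x, hx, e⟩ := (s.of_le (l.trans le_sup_left) le_top).syl_conj
      ((s.cj_top g).of_le ((cj_mono g l).trans le_sup_right) le_top)
    obtain ⟨S, rfl⟩ := s.exists_sylow_top
    simpa using mul_mem hx (Subgroup.mem_sup_left (l ((hQ S).le (x := x⁻¹ * g)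
      (cj_eq_self.1 (by rw [← cj_cj, e, cj_inv_cj])))))
  refine ⟨fun h => h.norm t, fun h => prnS_of (prnS_subtype.1 hA) t h
    (fun K S s l _ g _ => ⟨g, k K S s l g, rfl⟩) fun K S s l g hg => ?_⟩
  have := k _ _ (Subgroup.map_top_of_surjective _ (QuotientGroup.mk'_surjective A) ▸
    s.map (QuotientGroup.mk' A)) (Subgroup.map_mono l) g
  rw [cj_of_norm hg, sup_idem] at this
  exact Subgroup.map_mono (le_norm_self K) this

end Cfsg.Agent.S4271
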