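import Mathlib
import Cfsg.Agent.Char.Integral
import Cfsg.Agent.Solv.Nilpotent
import Cfsg.Agent.Solv.Cores
import Cfsg.Agent.BG.B1
import Cfsg.Statements.S4331

set_option autoImplicit false
open Cfsg

namespace Cfsg.Agent.S4331

open Subgroup

/-- the semilinear affine group of the field with nine elements -/
def Γ : Type := {x : ZMod 3 × ZMod 3 × ZMod 3 × ZMod 3 × ZMod 3 //
  x.2.2.1 * x.2.2.1 = 1 ∧ x.1 * x.1 + x.2.1 * x.2.1 ≠ 0}

instance : DecidableEq Γ := inferInstanceAs (DecidableEq (Subtype _))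
instance : Fintype Γ := inferInstanceAs (Fintype (Subtype _))

theorem mul_ok : ∀ u v s u' v' s' : ZMod 3, s * s = 1 → u * u + v * v ≠ 0 → s' * s' = 1 →
    u' * u' + v' * v' ≠ 0 → (s * s') * (s * s') = 1 ∧
      (u * u' - v * s * v') * (u * u' - v * s * v') +
        (v * u' + u * s * v') * (v * u' + u * s * v') ≠ 0 := by decide

theorem inv_ok : ∀ u v s : ZMod 3, s * s = 1 → u * u + v * v ≠ 0 → s * s = 1 ∧
      (u * (u * u + v * v)) * (u * (u * u + v * v)) +
        (-s * v * (u * u + v * v)) * (-s * v * (u * u + v * v)) ≠ 0 := by decide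

instance : Mul Γ := ⟨fun x y => ⟨(x.1.1 * y.1.1 - x.1.2.1 * x.1.2.2.1 * y.1.2.1,
  x.1.2.1 * y.1.1 + x.1.1 * x.1.2.2.1 * y.1.2.1, x.1.2.2.1 * y.1.2.2.1,
  x.1.1 * y.1.2.2.2.1 - x.1.2.1 * x.1.2.2.1 * y.1.2.2.2.2 + x.1.2.2.2.1,
  x.1.2.1 * y.1.2.2.2.1 + x.1.1 * x.1.2.2.1 * y.1.2.2.2.2 + x.1.2.2.2.2),
  mul_ok _ _ _ _ _ _ x.2.1 x.2.2 y.2.1 y.2.2⟩⟩

instance : One Γ := ⟨⟨(1, 0, 1, 0, 0), by decide⟩⟩

instance : Inv Γ := ⟨fun x => ⟨(x.1.1 * (x.1.1 * x.1.1 + x.1.2.1 * x.1.2.1),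
  -x.1.2.2.1 * x.1.2.1 * (x.1.1 * x.1.1 + x.1.2.1 * x.1.2.1), x.1.2.2.1,
  -(x.1.1 * x.1.2.2.2.1 + x.1.2.1 * x.1.2.2.2.2) * (x.1.1 * x.1.1 + x.1.2.1 * x.1.2.1),
  -x.1.2.2.1 * (x.1.1 * x.1.2.2.2.2 - x.1.2.1 * x.1.2.2.2.1) *
    (x.1.1 * x.1.1 + x.1.2.1 * x.1.2.1)), inv_ok _ _ _ x.2.1 x.2.2⟩⟩

instance : Group Γ := Group.ofLeftAxioms
  (by
    rintro ⟨⟨u, v, s, b, c⟩, h, -⟩ ⟨⟨u', v', s', b', c'⟩, h', -⟩ ⟨⟨u'', v'', s'', b'', c''⟩, h'', -⟩
    refine Subtype.ext (Prod.ext ?_ (Prod.ext ?_ (Prod.ext ?_ (Prod.ext ?_ ?_))))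
    · change (u * u' - v * s * v') * u'' - (v * u' + u * s * v') * (s * s') * v'' =
        u * (u' * u'' - v' * s' * v'') - v * s * (v' * u'' + u' * s' * v'')
      linear_combination (-u * v' * s' * v'') * h
    · change (v * u' + u * s * v') * u'' + (u * u' - v * s * v') * (s * s') * v'' =
        v * (u' * u'' - v' * s' * v'') + u * s * (v' * u'' + u' * s' * v'')
      linear_combination (-v * v' * s' * v'') * h
    · exact mul_assoc s s' s''
    · change (u * u' - v * s * v') * b'' - (v * u' + u * s * v') * (s * s') * c'' +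
        (u * b' - v * s * c' + b) =
        u * (u' * b'' - v' * s' * c'' + b') - v * s * (v' * b'' + u' * s' * c'' + c') + b
      linear_combination (-u * v' * s' * c'') * h
    · change (v * u' + u * s * v') * b'' + (u * u' - v * s * v') * (s * s') * c'' +
        (v * b' + u * s * c' + c) =
        v * (u' * b'' - v' * s' * c'' + b') + u * s * (v' * b'' + u' * s' * c'' + c') + c
      linear_combination (-v * v' * s' * c'') * h)
  (by decide +kernel) (by decide +kernel)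

/-- the reflection -/
def a : Γ := ⟨(1, 0, -1, 0, 0), by decide⟩
/-- a translation -/
def t : Γ := ⟨(1, 0, 1, 0, 1), by decide⟩

theorem card : Fintype.card Γ = 144 := by decide +kernel

theorem conj : ∀ c : Γ, ∃ h : Γ, ((h * c * h⁻¹).1.2.2.2.1 = 0 ∧ (h * c * h⁻¹).1.2.2.2.2 = 0) ∨
    a * (h * c * h⁻¹) = (h * c * h⁻¹) * a := by decide +kernel

/-- the linear part -/
def P : Subgroup Γ where
  carrier := {x | x.1.2.2.2.1 = 0 ∧ x.1.2.2.2.2 = 0}
  one_mem' := ⟨rfl, rfl⟩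
  mul_mem' := fun {x y} hx hy => by
    constructor
    · change x.1.1 * y.1.2.2.2.1 - x.1.2.1 * x.1.2.2.1 * y.1.2.2.2.2 + x.1.2.2.2.1 = 0
      rw [hx.1, hy.1, hy.2]; ring
    · change x.1.2.1 * y.1.2.2.2.1 + x.1.1 * x.1.2.2.1 * y.1.2.2.2.2 + x.1.2.2.2.2 = 0
      rw [hx.2, hy.1, hy.2]; ring
  inv_mem' := fun {x} hx => by
    constructor
    · change -(x.1.1 * x.1.2.2.2.1 + x.1.2.1 * x.1.2.2.2.2) * (x.1.1 * x.1.1 + x.1.2.1 * x.1.2.1) = 0
      rw [hx.1, hx.2]; ring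
    · change -x.1.2.2.1 * (x.1.1 * x.1.2.2.2.2 - x.1.2.1 * x.1.2.2.2.1) *
        (x.1.1 * x.1.1 + x.1.2.1 * x.1.2.1) = 0
      rw [hx.1, hx.2]; ring

theorem pow8 : ∀ x : Γ, x.1.2.2.2.1 = 0 → x.1.2.2.2.2 = 0 →
    x * x * (x * x) * (x * x * (x * x)) = 1 := by decide +kernel

theorem isP : IsPGroup 2 P := fun x => ⟨3, Subtype.ext (by
  have := pow8 x.1 x.2.1 x.2.2
  rw [coe_pow, coe_one, ← this]
  norm_num [pow_succ, mul_assoc])⟩

/-- There is a finite solvable group G with a subgroup A of order 2 such that every conjugacy class of G contains an element g for which A is subnormal in the subgroup generated by A and g, and yet A is not contained in O_2(G). (So the corresponding criteria for odd primes fail at the prime 2, even for solvable groups.) -/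
theorem result :
    ∃ (G : Type) (_ : Group G) (_ : Finite G) (A : Subgroup G), Group.IsSolvable G ∧ Nat.card A = 2 ∧
      (∀ c : G, ∃ g : G, IsConj c g ∧ (A.subgroupOf (A ⊔ Subgroup.zpowers g)).IsSubnormal) ∧
      ¬ A ≤ Cfsg.pCore 2 G := by
  haveI : Fact (Nat.Prime 2) := ⟨Nat.prime_two⟩
  refine ⟨Γ, inferInstance, inferInstance, zpowers a, ?_, ?_, fun c => ?_, fun h => ?_⟩
  · refine CF.Char.burnside_paqb (a := 4) (b := 2) Nat.prime_two Nat.prime_three ?_
    rw [Nat.card_eq_fintype_card, card]; norm_num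
  · rw [Nat.card_zpowers]
    exact orderOf_eq_prime (by rw [sq]; decide +kernel) (by decide +kernel)
  · obtain ⟨h, hh⟩ := conj c
    refine ⟨h * c * h⁻¹, isConj_iff.2 ⟨h, rfl⟩, ?_⟩
    haveI : Group.IsNilpotent (zpowers a ⊔ zpowers (h * c * h⁻¹) : Subgroup Γ) := by
      rcases hh with hh | hh
      · refine (isP.to_le (sup_le (zpowers_le.2 ⟨rfl, rfl⟩) (zpowers_le.2 hh))).isNilpotent
      · haveI : IsMulCommutative (zpowers a ⊔ zpowers (h * c * h⁻¹) : Subgroup Γ) := by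
          rw [zpowers_eq_closure, zpowers_eq_closure, ← Subgroup.closure_union]
          refine isMulCommutative_closure ?_
          rintro x (rfl | rfl) y (rfl | rfl)
          · rfl
          · exact hh
          · exact hh.symm
          · rfl
        exact (CF.BG.Abel.of_comm this).nil
    exact CF.Solv.isSubnormal_of_isNilpotent _
  · have h1 : a ∈ pCore 2 Γ := h (mem_zpowers a)
    have h2 : a * (t * a * t⁻¹) ∈ pCore 2 Γ :=
      mul_mem h1 ((inferInstance : (pCore 2 Γ).Normal).conj_mem a h1 t)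
    obtain ⟨k, hk⟩ := CF.Solv.pCore_isPGroup ⟨_, h2⟩
    have h3 : orderOf (a * (t * a * t⁻¹)) = 3 := by
      haveI : Fact (Nat.Prime 3) := ⟨Nat.prime_three⟩
      exact orderOf_eq_prime (by rw [pow_three]; decide +kernel) (by decide +kernel)
    have h4 := orderOf_dvd_of_pow_eq_one (congrArg Subtype.val hk : (a * (t * a * t⁻¹)) ^ 2 ^ k = 1)
    rw [h3] at h4
    exact absurd (Nat.prime_three.dvd_of_dvd_pow h4) (by norm_num)

end Cfsg.Agent.S4331
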