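import Mathlib
import Cfsg.Agent.Solv.Nilpotent
import Cfsg.Agent.Solv.Cores
import Cfsg.Agent.BG.B1
import Cfsg.Statements.S4332

set_option autoImplicit false
open Pointwise
open Cfsg

namespace Cfsg.Agent.S4332

open Subgroup Equiv

theorem avoid (F : Finset (Fin 8)) (hF : F.card ≤ 2) (l : List (Fin 8)) (hl : l.length ≤ 5) :
    ∃ z, z ∉ F ∧ z ∉ l := by
  by_contra h
  push Not at h
  have : (Finset.univ : Finset (Fin 8)) ⊆ F ∪ l.toFinset := fun z _ => by
    by_cases hz : z ∈ F
    · exact Finset.mem_union_left _ hz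
    · exact Finset.mem_union_right _ (List.mem_toFinset.2 (h z hz))
  have h1 := (Finset.card_le_card this).trans (Finset.card_union_le _ _)
  have h2 := l.toFinset_card_le
  simp only [Finset.card_univ, Fintype.card_fin] at h1
  omega

theorem comm_of_disj (c : Perm (Fin 8)) {x y z : Fin 8} (h : ∀ u ∈ [x, y, z], c u ∉ [x, y, z]) :
    Commute (swap x y * swap x z) (c * (swap x y * swap x z) * c⁻¹) := by
  refine Perm.Disjoint.commute fun w => ?_
  by_cases hw : w ∈ [x, y, z]
  · right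
    have : c⁻¹ w ∉ [x, y, z] := fun h' => h _ h' (by simpa using hw)
    simp only [List.mem_cons, List.not_mem_nil, or_false, not_or] at this
    rw [Perm.mul_apply, Perm.mul_apply, Perm.mul_apply, swap_apply_of_ne_of_ne this.1 this.2.2,
      swap_apply_of_ne_of_ne this.1 this.2.1]
    simp
  · left
    simp only [List.mem_cons, List.not_mem_nil, or_false, not_or] at hw
    rw [Perm.mul_apply, swap_apply_of_ne_of_ne hw.1 hw.2.2, swap_apply_of_ne_of_ne hw.1 hw.2.1]

theorem exists_tau (c : Perm (Fin 8)) :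
    ∃ τ : Perm (Fin 8), τ.IsThreeCycle ∧ Commute τ (c * τ * c⁻¹) := by
  have hconj : ∀ x y z : Fin 8, c * (swap x y * swap x z) * c⁻¹ =
      swap (c x) (c y) * swap (c x) (c z) := fun x y z => by
    rw [swap_apply_apply, swap_apply_apply]; group
  let F := Finset.univ.filter fun w => c w = w
  have hF : ∀ w, w ∈ F ↔ c w = w := fun w => by simp [F]
  by_cases h3 : 2 < F.card
  · obtain ⟨x, y, z, hx, hy, hz, h1, h2, h3⟩ := Finset.two_lt_card_iff.1 h3
    refine ⟨_, Perm.isThreeCycle_swap_mul_swap_same h1 h2 h3, ?_⟩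
    rw [hconj, (hF _).1 hx, (hF _).1 hy, (hF _).1 hz]
  push Not at h3
  obtain ⟨x, hx, -⟩ := avoid F h3 [] (by simp)
  rw [hF] at hx
  by_cases h2 : c (c x) = x
  · obtain ⟨y, hy, hy'⟩ := avoid F h3 [x, c x] (by simp)
    obtain ⟨z, hz, hz'⟩ := avoid F h3 [x, c x, y, c y, c⁻¹ y] (by simp)
    rw [hF] at hy hz
    simp only [List.mem_cons, List.not_mem_nil, or_false, not_or] at hy' hz'
    refine ⟨_, Perm.isThreeCycle_swap_mul_swap_same (Ne.symm hy'.1) (Ne.symm hz'.1)
      (Ne.symm hz'.2.2.1), comm_of_disj c ?_⟩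
    simp only [List.mem_cons, List.not_mem_nil, or_false, not_or, forall_eq_or_imp, forall_eq]
    refine ⟨⟨hx, Ne.symm hy'.2, Ne.symm hz'.2.1⟩, ⟨fun e => hy'.2 ?_, hy, Ne.symm hz'.2.2.2.1⟩,
      fun e => hz'.2.1 ?_, fun e => hz'.2.2.2.2 ?_, hz⟩
    · exact c.injective (e.trans h2.symm)
    · exact c.injective (e.trans h2.symm)
    · rw [← e]; simp
  have hx2 : c (c x) ≠ c x := fun e => hx (c.injective e)
  by_cases h4 : c (c (c x)) = x
  · refine ⟨_, Perm.isThreeCycle_swap_mul_swap_same (Ne.symm hx) (Ne.symm h2) (Ne.symm hx2), ?_⟩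
    rw [hconj, h4, swap_comm (c x) x]
    have : swap (c x) (c (c x)) * swap x (c x) = swap x (c x) * swap x (c (c x)) := by
      rw [mul_swap_eq_swap_mul (swap x (c x)), swap_apply_left, swap_apply_of_ne_of_ne h2 hx2]
    rw [this]
  · obtain ⟨z, hz, hz'⟩ := avoid F h3 [x, c x, c⁻¹ x, c (c x), c (c (c x))] (by simp)
    rw [hF] at hz
    simp only [List.mem_cons, List.not_mem_nil, or_false, not_or] at hz'
    refine ⟨_, Perm.isThreeCycle_swap_mul_swap_same (Ne.symm h2) (Ne.symm hz'.1)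
      (Ne.symm hz'.2.2.2.1), comm_of_disj c ?_⟩
    simp only [List.mem_cons, List.not_mem_nil, or_false, not_or, forall_eq_or_imp, forall_eq]
    refine ⟨⟨hx, Ne.symm hx2, Ne.symm hz'.2.1⟩,
      ⟨h4, fun e => hx2 (c.injective e), Ne.symm hz'.2.2.2.2⟩,
      fun e => hz'.2.2.1 ?_, fun e => hz'.2.1 (c.injective e), hz⟩
    rw [← e]; simp

/-- In the symmetric group of degree 8, let A be the subgroup generated by a 3-cycle. Then every conjugacy class contains an element g for which A is subnormal in the subgroup generated by A and its conjugate by g, although O_3 of the symmetric group of degree 8 is trivial. -/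
theorem result
    (σ : Equiv.Perm (Fin 8)) (hσ : σ.IsThreeCycle) :
    (∀ c : Equiv.Perm (Fin 8), ∃ g : Equiv.Perm (Fin 8), IsConj c g ∧
      ((Subgroup.zpowers σ).subgroupOf (Subgroup.zpowers σ ⊔ MulAut.conj g • Subgroup.zpowers σ)).IsSubnormal) ∧
    Cfsg.pCore 3 (Equiv.Perm (Fin 8)) = ⊥ := by
  haveI : Fact (Nat.Prime 3) := ⟨Nat.prime_three⟩
  constructor
  · intro c
    obtain ⟨τ, hτ, hc⟩ := exists_tau c
    obtain ⟨h, rfl⟩ := isConj_iff.1 (Perm.isConj_iff_cycleType_eq.2 (hτ.cycleType.trans hσ.cycleType.symm))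
    refine ⟨h * c * h⁻¹, isConj_iff.2 ⟨h, rfl⟩, ?_⟩
    haveI : Group.IsNilpotent (zpowers (h * τ * h⁻¹) ⊔
        MulAut.conj (h * c * h⁻¹) • zpowers (h * τ * h⁻¹) : Subgroup (Perm (Fin 8))) := by
      rw [← CF.BG.cj_eq_smul, CF.BG.cj_zpowers]
      refine ((CF.BG.abel_zpowers _).sup (CF.BG.abel_zpowers _) ?_).nil
      rw [CF.BG.cent_zpowers, zpowers_le, CF.BG.mem_cent1]
      have := congrArg (fun x => h * x * h⁻¹) hc.eq
      simp only [mul_assoc, mul_inv_rev, inv_inv, inv_mul_cancel_left] at this ⊢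
      exact this
    exact CF.Solv.isSubnormal_of_isNilpotent _
  · by_contra hne
    set N := pCore 3 (Perm (Fin 8))
    have htr : MulAction.IsPretransitive N (Fin 8) := by
      apply MulAction.IsQuasiPreprimitive.isPretransitive_of_normal
      intro h
      apply hne
      rw [eq_bot_iff]
      intro g hg
      refine Subgroup.mem_bot.2 (Equiv.ext fun x => ?_)
      have : x ∈ MulAction.fixedPoints N (Fin 8) := h ▸ Set.mem_univ x
      exact this ⟨g, hg⟩
    have := MulAction.index_stabilizer_of_transitive N (0 : Fin 8)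
    obtain ⟨k, hk⟩ := (CF.Solv.pCore_isPGroup (p := 3) (G := Perm (Fin 8))).index
      (MulAction.stabilizer N (0 : Fin 8))
    rw [hk, Nat.card_fin] at this
    have h2 : 2 ∣ 3 ^ k := by rw [this]; norm_num
    exact absurd (Nat.prime_two.dvd_of_dvd_pow h2) (by norm_num)

end Cfsg.Agent.S4332
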