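import Cfsg.Statements.S4333
import Cfsg.Agent.Solv.Crit
import Cfsg.Agent.SolvStr.Subnormal

set_option autoImplicit false
open Pointwise
open Cfsg

namespace Cfsg.Agent.S4333

open Subgroup CF.Solv CF.SolvStr in
theorem aux {G : Type*} [Group G] [Finite G] {S X : Subgroup G} (hSX : S ≤ X)
    (h : ∀ a ∈ S, ∀ g ∈ X, SN S (S ⊔ MulAut.conj (g⁻¹ * a * g) • S)) : SN S X := by
  induction X using WellFoundedLT.induction with
  | ind X ih =>
  by_contra hn
  have h1 : ∀ H, S ≤ H → H < X → SN S H := fun H h1 h2 =>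
    ih H h2 h1 fun a ha g hg => h a ha g (h2.le hg)
  obtain ⟨M, hM, h2⟩ := zipper hSX hn h1
  have hSM : S ≤ M := h2 S le_rfl (lt_of_le_of_ne hSX fun e => hn (e ▸ SN.refl S))
  have hN : X ⊓ normalizer (M : Set G) ≤ M := by
    refine h2 _ (le_inf hSX (hSM.trans le_normalizer)) (lt_of_le_of_ne inf_le_left fun e => ?_)
    exact hn ((h1 M hSM hM).trans (SN.of_le_normalizer hM.le (inf_eq_left.1 e)))
  have h3 : ∀ a ∈ S, ∀ g ∈ X, g⁻¹ * a * g ∈ M := by
    intro a ha g hg
    have hb : g⁻¹ * a * g ∈ X := X.mul_mem (X.mul_mem (X.inv_mem hg) (hSX ha)) hg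
    have h4 : MulAut.conj (g⁻¹ * a * g) • S ≤ M := le_sup_right.trans (h2 _ le_sup_left
      (lt_of_le_of_ne (sup_le hSX (conj_smul_le_of_mem hSX hb)) fun e => hn (e ▸ h a ha g hg)))
    generalize g⁻¹ * a * g = b at hb h4
    refine hN ⟨hb, ?_⟩
    rw [← inv_inv b]
    refine Subgroup.inv_mem _ (mem_normalizer_of_conj_smul_le (h2 _ (fun s hs => ?_) ?_))
    · rw [mem_conj_smul_iff, inv_inv]
      exact h4 (conj_mem_conj_smul hs b)
    · rw [← conj_smul_eq_iff.mpr (le_normalizer (X.inv_mem hb))]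
      exact lt_of_le_of_ne (pointwise_smul_le_pointwise_smul_iff.mpr hM.le)
        fun e => hM.ne (MulAction.injective _ e)
  let T := sSup {V | ∃ g ∈ X, V = MulAut.conj g • S}
  have hTM : T ≤ M := sSup_le (by
    rintro _ ⟨g, hg, rfl⟩ y hy
    have := h3 _ (mem_conj_smul_iff.1 hy) g⁻¹ (X.inv_mem hg)
    simpa [mul_assoc] using this)
  have hST : S ≤ T := le_sSup ⟨1, X.one_mem, by rw [map_one, one_smul]⟩
  refine hn ((h1 T hST (hTM.trans_lt hM)).trans (SN.of_le_normalizer (hTM.trans hM.le)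
    fun x hx => mem_normalizer_sSup ?_))
  rintro _ ⟨g, hg, rfl⟩
  exact ⟨x * g, X.mul_mem hx hg, conj_smul_conj_smul _ _ _⟩


/-- Let A be a subgroup of a finite group G. If A is subnormal in the subgroup generated by A and its conjugate by g⁻¹ a g, for every a ∈ A and every g ∈ G, then A is subnormal in G. (A sharpening of Wielandt's subnormality criterion: only conjugates of A by conjugates of elements of A are needed.) -/
theorem result {G : Type*} [Group G] [Finite G]
    (A : Subgroup G)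
    (h : ∀ a ∈ A, ∀ g : G, (A.subgroupOf (A ⊔ MulAut.conj (g⁻¹ * a * g) • A)).IsSubnormal) :
    A.IsSubnormal := by
  exact CF.SolvStr.sn_top_iff.mp (aux le_top fun a ha g _ =>
    CF.SolvStr.sn_iff.mpr ⟨le_sup_left, h a ha g⟩)

end Cfsg.Agent.S4333
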