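import Cfsg.Statements.S4334
import Cfsg.Agent.SolvStr.Homog

set_option autoImplicit false
open Cfsg

namespace Cfsg.Agent.S4334

open Subgroup CF.Solv CF.SolvStr CF.Transfer in
theorem relIndex_dvd {G : Type*} [Group G] [Finite G] {A B : Subgroup G}
    (h : A ≤ centralizer (B : Set G)) : A.relIndex (A ⊔ B) ∣ Nat.card B := by
  rw [relIndex_sup_eq_relIndex_of_le_normalizer (h.trans (centralizer_le_normalizer _))]
  exact relIndex_dvd_card _ _

open Subgroup CF.Solv CF.SolvStr CF.Transfer in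
theorem hall_of {G : Type*} [Group G] [Finite G] {σ τ : Set ℕ} (hd : Disjoint σ τ)
    {A B : Subgroup G} (hH : IsPiHall (σ ∪ τ) (A ⊔ B)) (hA : PiNum σ (Nat.card A))
    (hB : PiNum τ (Nat.card B)) (h : A ≤ centralizer (B : Set G)) : IsPiHall σ A := by
  refine isPiHall_iff.2 ⟨hA, ?_⟩
  rw [← relIndex_mul_index (le_sup_left : A ≤ A ⊔ B)]
  exact ((hB.of_dvd (relIndex_dvd h)).mono hd.subset_compl_left).mul
    ((isPiHall_piNum_index hH).mono (Set.compl_subset_compl.2 Set.subset_union_left))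

open Subgroup CF.Solv CF.SolvStr CF.Transfer in
theorem syl_of {G : Type*} [Group G] [Finite G] {σ : Set ℕ} {A : Subgroup G} (hA : IsPiHall σ A)
    {p : ℕ} [hp : Fact p.Prime] (h : p ∈ σ) : ∃ P, P ≤ A ∧ IsPGroup p P ∧ ¬ p ∣ P.index := by
  obtain ⟨P, hP⟩ := exists_isSylowIn p A
  refine ⟨P, hP.le, hP.isPGroup, ?_⟩
  have := (hP.trans_of_not_dvd le_top (by
    rw [relIndex_top_right]; exact fun hd => isPiHall_piNum_index hA p hp.out hd h)).not_dvd
  rwa [relIndex_top_right] at this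

open Subgroup CF.Solv CF.SolvStr CF.Transfer in
theorem key {G : Type*} [Group G] [Finite G] {p q : ℕ} [hp : Fact p.Prime] [hq : Fact q.Prime]
    (hpq : p ≠ q) {P S : Subgroup G} (hP : IsPGroup p P) (hS : IsPGroup q S) (h1 : ¬ p ∣ P.index)
    (h2 : ¬ q ∣ S.index) (h : P ≤ centralizer (S : Set G)) {X Y : Subgroup G} (hX : IsPGroup p X)
    (hY : IsPGroup q Y) (hn : X ≤ normalizer (Y : Set G) ∨ Y ≤ normalizer (X : Set G)) :
    X ≤ centralizer (Y : Set G) := by
  have := isNilpotent_sup_of_isPGroup hP hS h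
  have e1 : ∀ {Z : Subgroup G}, IsPGroup p Z → PiNum {p, q} (Nat.card Z) := fun h =>
    (isPGroup_iff_piNum_singleton.1 h).mono (by simp)
  have e2 : ∀ {Z : Subgroup G}, IsPGroup q Z → PiNum {p, q} (Nat.card Z) := fun h =>
    (isPGroup_iff_piNum_singleton.1 h).mono (by simp)
  have hH : IsPiHall {p, q} (P ⊔ S) := by
    refine isPiHall_iff.2 ⟨piNum_card_sup_of_le_normalizer
      (h.trans (centralizer_le_normalizer _)) (e1 hP) (e2 hS), ?_⟩
    rintro r - hr (rfl | rfl)
    · exact h1 (hr.trans (index_dvd_of_le le_sup_left))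
    · exact h2 (hr.trans (index_dvd_of_le le_sup_right))
  have : Group.IsNilpotent (X ⊔ Y : Subgroup G) := isNilpotent_of_wielandt hH (by
    rcases hn with hn | hn
    · exact piNum_card_sup_of_le_normalizer hn (e1 hX) (e2 hY)
    · rw [sup_comm]; exact piNum_card_sup_of_le_normalizer hn (e2 hY) (e1 hX))
  exact le_centralizer_of_coprime_of_isNilpotent (le_sup_left : X ≤ X ⊔ Y) le_sup_right
    (coprime_card_of_ne hpq hX hY)


/-- Let σ and τ be disjoint sets of primes with union π. Suppose a finite group G has a Hall π-subgroup H which is the direct product of a nilpotent σ-subgroup and a τ-subgroup (two elementwise-commuting subgroups generating H), and that the maximal τ-subgroups of G are pairwise conjugate. Then the maximal π-subgroups of G are pairwise conjugate. -/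
theorem result {G : Type*} [Group G] [Finite G]
    (σ τ π : Set ℕ) (hπ : π = σ ∪ τ) (hd : Disjoint σ τ) (H Hs Ht : Subgroup G) (hH : Cfsg.IsPiHall π H)
    (hs : Cfsg.IsPiSubgroup σ Hs) (ht : Cfsg.IsPiSubgroup τ Ht) (hsn : Group.IsNilpotent Hs)
    (hjoin : Hs ⊔ Ht = H) (hcomm : ∀ a ∈ Hs, ∀ b ∈ Ht, a * b = b * a) (hD : Cfsg.IsDPiGroup τ G) :
    Cfsg.IsDPiGroup π G := by
  open Subgroup CF.Solv CF.SolvStr CF.Transfer in
  subst hπ hjoin
  have hc : Hs ≤ Subgroup.centralizer (Ht : Set G) := fun a ha b hb => (hcomm a ha b hb).symm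
  have h1 := hall_of hd hH hs ht hc
  have h2 := hall_of hd.symm (by rwa [sup_comm, Set.union_comm]) ht hs
    (Subgroup.le_centralizer_iff.1 hc)
  open Subgroup CF.Solv CF.SolvStr CF.Transfer in
  have h3 : ∀ (p q : ℕ) [Fact p.Prime] [Fact q.Prime], p ∈ σ → q ∈ σ ∪ τ → p ≠ q →
      ∀ X Y : Subgroup G, IsPGroup p X → IsPGroup q Y →
      X ≤ normalizer (Y : Set G) ∨ Y ≤ normalizer (X : Set G) → X ≤ centralizer (Y : Set G) := by
    intro p q _ _ hp hq hpq X Y hX hY hn
    obtain ⟨P, a1, a2, a3⟩ := syl_of h1 hp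
    rcases hq with hq | hq
    · obtain ⟨S, b1, b2, b3⟩ := syl_of h1 hq
      exact key hpq a2 b2 a3 b3 (le_centralizer_of_coprime_of_isNilpotent a1 b1
        (coprime_card_of_ne hpq a2 b2)) hX hY hn
    · obtain ⟨S, b1, b2, b3⟩ := syl_of h2 hq
      exact key hpq a2 b2 a3 b3 ((a1.trans hc).trans (centralizer_le b1)) hX hY hn
  open Subgroup CF.Solv CF.SolvStr CF.Transfer in
  have h4 : ∀ K : Subgroup G, PiNum (σ ∪ τ) (Nat.card K) → ∃ g, cj g K ≤ Hs ⊔ Ht := by
    intro K hK
    have hnpc : ∀ (p : ℕ) [Fact p.Prime], p ∈ σ → HasNormalPComplement p K := by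
      intro p _ hp
      by_contra h
      obtain ⟨P⟩ : Nonempty (Sylow p K) := inferInstance
      obtain ⟨Q, hQ, q, g, hq, hqp, ⟨k, hk⟩, hg1, hg2⟩ := exists_qElt_not_centralize h P
      have := Fact.mk hq
      have hk0 : k ≠ 0 := by
        rintro rfl
        rw [pow_zero, orderOf_eq_one_iff] at hk
        exact hg2 (hk ▸ one_mem _)
      have := h3 p q hp (hK q hq ((hk ▸ dvd_pow_self q hk0).trans (orderOf_dvd_natCard g))) hqp.symm
        (Q.map K.subtype) ((zpowers g).map K.subtype) ((P.isPGroup'.to_le hQ).map _)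
        ((isPGroup_zpowers hk).map _)
        (Or.inr ((map_mono (zpowers_le.2 hg1)).trans (le_normalizer_map _)))
      exact hg2 fun x hx => Subtype.ext (this ⟨x, hx, rfl⟩ g ⟨g, mem_zpowers g, rfl⟩).symm
    have hcl : PiClosed τ K := by
      refine ⟨⨅ (p : ℕ) (_ : p.Prime ∧ p ∈ σ), pResidual p K, fun x => ?_⟩
      simp only [mem_iInf]
      refine ⟨fun h r hr hrd => ?_, fun h p hp => mem_pResidual_of_coprime ?_⟩
      · refine (hK r hr (hrd.trans (orderOf_dvd_natCard x))).resolve_left fun hrσ => ?_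
        have := Fact.mk hr
        exact hr.coprime_iff_not_dvd.1
          (hasNPC_iff_forall_mem.1 (hnpc r hrσ) x (h r ⟨hr, hrσ⟩)).symm hrd
      · exact (hp.1.coprime_iff_not_dvd.2 fun hd' =>
          Set.disjoint_left.1 hd hp.2 (h p hp.1 hd')).symm
    obtain ⟨T, hTn, hT, -⟩ := hcl.exists_normal
    have hT' := isPiHallOf_map_subtype_iff.2 hT
    have hn := (normal_map_subtype_iff T).1 hTn
    generalize T.map K.subtype = T at hT' hn
    obtain ⟨R, hR, -, hTR⟩ := exists_complement_of_isPiHallOf hT' hn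
    rw [isPiHallOf_iff] at hT' hR
    have hRσ : PiNum σ (Nat.card R) := fun r hr hrd =>
      (hK r hr (hrd.trans (card_dvd_of_le hR.1))).resolve_right (hR.2.1 r hr hrd)
    have hRT : R ≤ centralizer (T : Set G) := by
      refine le_of_forall_isPGroup_le fun p hp X hXR hX => ?_
      by_cases hX0 : X = ⊥
      · rw [hX0]; exact bot_le
      have : Nontrivial X := (nontrivial_iff_ne_bot X).2 hX0
      have hpσ := hRσ p hp.out ((hX.card_eq_or_dvd.resolve_left Finite.one_lt_card.ne').trans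
        (card_dvd_of_le hXR))
      refine le_centralizer_iff.1 (CF.Coprime.le_of_forall_isSylowOf fun q hq hqd => ?_)
      have := Fact.mk hq
      have := hX.isNilpotent
      have hqτ := hT'.2.1 q hq hqd
      obtain ⟨Q, hQ, hn'⟩ := CF.Coprime.exists_invariant_isSylowOf X T ((hXR.trans hR.1).trans hn)
        (hT'.2.1.coprime (piNum_card_of_le hR.2.1 hXR)).symm (Or.inl inferInstance) (p := q)
      exact ⟨Q, hQ, le_centralizer_iff.1 (h3 p q hpσ (Or.inr hqτ)
        (fun e => Set.disjoint_left.1 hd hpσ (e ▸ hqτ)) X Q hX hQ.isPGroup (Or.inl hn'))⟩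
    obtain ⟨T₁, hT₁, hmax⟩ := exists_maximal_ge_of_wellFoundedGT (IsPiSubgroup τ) T hT'.2.1
    obtain ⟨g, hg⟩ := hD T₁ Ht hmax ⟨ht, fun L hL hle => (eq_of_isPiHall_of_le h2 hL hle).ge⟩
    have hg' : cj g T ≤ Ht := hg ▸ cj_mono g hT₁
    set C := centralizer (cj g T : Set G) with hC
    have a1 : Hs ≤ C := hc.trans (centralizer_le hg')
    have a2 : cj g R ≤ C := by rw [hC, centralizer_cj]; exact cj_mono g hRT
    have := isNilpotent_subgroupOf Hs C
    obtain ⟨x, hx⟩ := wielandt_hall (isPiHallOf_iff_subgroupOf.1 (isPiHallOf_of_isPiHall h1 a1)).2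
      (piNum_card_subgroupOf (H := cj g R) (by rwa [card_cj]) C)
    refine ⟨x * g, ?_⟩
    rw [← hTR, cj_mul, cj_sup, cj_sup, cj_eq_of_mem_centralizer x.2, sup_comm]
    refine sup_le_sup (cj_le_iff_forall.2 fun y hy => ?_) hg'
    exact hx (conj_mem_conj_smul (x := (⟨y, a2 hy⟩ : C)) hy x)
  open Subgroup CF.Solv CF.SolvStr CF.Transfer in
  have h5 : ∀ K : Subgroup G, Maximal (IsPiSubgroup (σ ∪ τ)) K → ∃ g, K = cj g (Hs ⊔ Ht) := by
    intro K hK
    obtain ⟨g, hg⟩ := h4 K hK.1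
    rw [cj_le_iff] at hg
    exact ⟨g⁻¹, le_antisymm hg (hK.2 (by
      change PiNum _ _
      rw [card_cj]; exact isPiHall_piNum_card hH) hg)⟩
  intro K L hK hL
  obtain ⟨a, rfl⟩ := h5 K hK
  obtain ⟨b, rfl⟩ := h5 L hL
  exact ⟨b * a⁻¹, by rw [CF.Transfer.map_conj_eq_cj, CF.Transfer.cj_cj, inv_mul_cancel_right]⟩

end Cfsg.Agent.S4334
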