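import Mathlib
import Cfsg.Agent.Fgs2.Swaps
import Cfsg.Agent.Char.Integral
import Cfsg.Statements.S4337

set_option autoImplicit false
open Cfsg

namespace Cfsg.Agent.S4337

/-- In a finite symmetric group, any three transpositions generate a solvable subgroup. -/
theorem result (n : ℕ) (a b c : Equiv.Perm (Fin n))
    (ha : a.IsSwap) (hb : b.IsSwap) (hc : c.IsSwap) :
    Group.IsSolvable (Subgroup.closure ({a, b, c} : Set (Equiv.Perm (Fin n)))) := by
  have e : ({a, b, c} : Set (Equiv.Perm (Fin n))) = Set.range ![a, b, c] := by
    ext x; simp [or_comm, or_left_comm, eq_comm]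
  rw [e]
  set H := Subgroup.closure (Set.range ![a, b, c])
  have h : ∀ q : ℕ, q.Prime → q ∣ Nat.card H → q = 2 ∨ q = 3 := by
    intro q hq hd
    have := CF.Fgs2.prime_le_of_swaps ![a, b, c] (fun i => by fin_cases i <;> assumption) hq hd
    simp only [Fintype.card_fin] at this
    have h2 := hq.two_le
    interval_cases q
    · simp
    · simp
    · exact absurd hq (by norm_num)
  have h0 : Nat.card H ≠ 0 := Nat.card_pos.ne'
  refine CF.Char.isSolvable_of_card_dvd Nat.prime_two Nat.prime_three H
    (a := (Nat.card H).factorization 2) (b := (Nat.card H).factorization 3) ?_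
  refine (Nat.factorization_prime_le_iff_dvd h0 (by positivity)).1 fun q hq => ?_
  by_cases hd : q ∣ Nat.card H
  · rw [Nat.factorization_mul (by positivity) (by positivity), Nat.Prime.factorization_pow Nat.prime_two,
      Nat.Prime.factorization_pow Nat.prime_three]
    rcases h q hq hd with rfl | rfl <;> simp
  · rw [Nat.factorization_eq_zero_of_not_dvd hd]; exact Nat.zero_le _

end Cfsg.Agent.S4337
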