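import Cfsg.Statements.S4341
import Cfsg.Agent.SolvStr.Misc1
import Cfsg.Agent.Fgs2.Basic2

set_option autoImplicit false
open Cfsg

namespace Cfsg.Agent.S4341

open Subgroup CF.Solv CF.SolvStr CF.Transfer in
theorem relIndex_sup {G : Type*} [Group G] [Finite G] {A R X : Subgroup G} (h1 : A ≤ R)
    (h2 : A ≤ normalizer (X : Set G)) : R.relIndex (A ⊔ X) = R.relIndex X := by
  rw [← relIndex_subgroupOf (le_sup_right : X ≤ A ⊔ X)]
  refine ((CF.Fgs2.forall_exists_mul_iff_relIndex_eq _ _).1 fun g => ?_).symm
  obtain ⟨x, hx, a, ha, e⟩ := (CF.Solv.mem_sup_of_le_normalizer' h2).1 ((sup_comm A X).le g.2)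
  exact ⟨⟨x, mem_sup_right hx⟩, hx, ⟨a, mem_sup_left ha⟩, h1 ha, Subtype.ext e.symm⟩


/-- Let K be a normal subgroup of a finite group G, p a prime and P a Sylow p-subgroup of G; let N be the normalizer of P ∩ K inside the subgroup PK. Then the number of Sylow p-subgroups of G equals the product of the numbers of Sylow p-subgroups of G/K, of K, and of N/(P ∩ K). (The normality of P ∩ K in N, which always holds, is assumed as a hypothesis so that the quotient can be formed.) -/
theorem result {G : Type*} [Group G] [Finite G]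
    (p : ℕ) [Fact p.Prime] (K : Subgroup G) [K.Normal] (P : Sylow p G) (N : Subgroup G)
    (hN : N = ((P : Subgroup G) ⊔ K) ⊓ Subgroup.normalizer (((P : Subgroup G) ⊓ K : Subgroup G) : Set G))
    [hn : (((P : Subgroup G) ⊓ K).subgroupOf N).Normal] :
    Nat.card (Sylow p G) =
      Nat.card (Sylow p (G ⧸ K)) * Nat.card (Sylow p K) * Nat.card (Sylow p (N ⧸ ((P : Subgroup G) ⊓ K).subgroupOf N)) := by
  open Subgroup CF.Solv CF.SolvStr CF.Transfer in
  set R := normalizer ((P : Subgroup G) : Set G) with hR
  set T := (P : Subgroup G) ⊓ K with hT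
  set NT := normalizer (T : Set G) with hNT
  have hs := QuotientGroup.mk'_surjective K
  have hRT : R ≤ NT := (le_inf le_rfl le_normalizer_of_normal).trans inf_normalizer_le_normalizer_inf
  have hPR : (P : Subgroup G) ≤ R := le_normalizer
  have h1 : Nat.card (Sylow p (G ⧸ K)) = (R ⊔ K).index := by
    rw [(P.mapSurjective hs).card_eq_index_normalizer, ← index_comap_mk']
    congr 1
    refine le_antisymm (fun g hg => ?_) (sup_le (fun g hg => ?_) (le_comap_mk' _ _))
    · have hg' : g ∈ normalizer (((P : Subgroup G) ⊔ K : Subgroup G) : Set G) := by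
        rw [← comap_map_mk']
        exact le_normalizer_comap _ hg
      obtain ⟨n, hn, y, hy, rfl⟩ := (isSylowIn_of_le P (le_sup_left (b := K))).frattini hg'
      exact mul_mem (sup_le_sup_right hPR K hn) (mem_sup_left hy)
    · exact le_normalizer_map _ ⟨g, hg, rfl⟩
  have h2 : Nat.card (Sylow p K) = NT.relIndex K := by
    rw [(sylowInfNormal P K).card_eq_index_normalizer]
    change (normalizer (((sylowInfNormal P K : Sylow p K) : Subgroup K) : Set K)).index = _
    rw [coe_sylowInfNormal, ← inf_subgroupOf_right, ← subgroupOf_normalizer_eq inf_le_right]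
    rfl
  have hN' : N = (P : Subgroup G) ⊔ (K ⊓ NT) := by rw [hN, sup_inf_assoc K (hPR.trans hRT)]
  have hPN : (P : Subgroup G) ≤ N := hN' ▸ le_sup_left
  have h3 : Nat.card (Sylow p (N ⧸ T.subgroupOf N)) = R.relIndex (K ⊓ NT) := by
    rw [CF.Fgs2.card_sylow_quotient _ fun Q => ?_, (P.subtype hPN).card_eq_index_normalizer,
      ← relIndex_sup hPR ((le_inf le_normalizer_of_normal
        ((hPR.trans hRT).trans le_normalizer)).trans inf_normalizer_le_normalizer_inf), ← hN']
    · change (normalizer (((P : Subgroup G).subgroupOf N : Subgroup N) : Set N)).index = _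
      rw [← subgroupOf_normalizer_eq hPN]
      rfl
    · exact ((le_pCore (isPGroup_subgroupOf (P.isPGroup'.to_le inf_le_left) N)).trans
        (pCore_le_sylow Q)).trans le_normalizer
  rw [h1, h2, h3, P.card_eq_index_normalizer]
  change R.index = _
  rw [← relIndex_mul_index (le_sup_left : R ≤ R ⊔ K),
    relIndex_sup_eq_relIndex_of_le_normalizer le_normalizer_of_normal, ← inf_relIndex_left K NT,
    ← inf_relIndex_left K R, ← relIndex_mul_relIndex (K ⊓ R) (K ⊓ NT) K (inf_le_inf_left K hRT)
      inf_le_left, ← inf_relIndex_left (K ⊓ NT) R, inf_assoc, inf_eq_right.2 hRT]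
  ring

end Cfsg.Agent.S4341
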