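import Mathlib
import Cfsg.Agent.Solv.Crit
import Cfsg.Agent.BG.B7
import Cfsg.Statements.S4343

set_option autoImplicit false
open Cfsg

namespace Cfsg.Agent.S4343

open Subgroup CF.Solv Cfsg MulAction
open scoped Pointwise

theorem index_lt {S : Type*} [Group S] [Finite S] (p : ℕ) [Fact p.Prime] (P Q : Sylow p S) :
    (stabilizer (P : Subgroup S) Q).index ≤ Nat.card (Sylow p S) := by
  rw [index_stabilizer, ← Set.ncard_univ]
  exact Set.ncard_le_ncard (Set.subset_univ _)

/-- Let S be a finite non-abelian simple group and p a prime dividing its order. If S has fewer than p² Sylow p-subgroups, then its Sylow p-subgroups have order p. -/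
theorem result {S : Type*} [Group S] [Finite S]
    [IsSimpleGroup S] (hS : ¬ IsMulCommutative S) (p : ℕ) [Fact p.Prime] (hp : p ∣ Nat.card S)
    (hn : Nat.card (Sylow p S) < p ^ 2) (P : Sylow p S) : Nat.card P = p := by
  classical
  have hpp : p.Prime := Fact.out
  have hO : pCore p S = ⊥ := by
    refine (IsSimpleGroup.eq_bot_or_eq_top_of_normal _ inferInstance).resolve_right fun h => ?_
    have := (pCore_eq_top_iff.1 h).isNilpotent
    exact hS ⟨⟨IsSimpleGroup.comm_iff_isSolvable.2 inferInstance⟩⟩
  have hidx : ∀ Q : Sylow p S, (stabilizer (P : Subgroup S) Q).index ∣ p := by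
    intro Q
    obtain ⟨k, hk⟩ := P.isPGroup'.index (stabilizer (P : Subgroup S) Q)
    have := (index_lt p P Q).trans_lt hn
    rw [hk] at this ⊢
    have := (Nat.pow_lt_pow_iff_right hpp.one_lt).1 this
    interval_cases k <;> simp
  have hker : ∀ x : (P : Subgroup S), (∀ Q : Sylow p S, x ∈ stabilizer (P : Subgroup S) Q) →
      x = 1 := by
    intro x hx
    apply Subtype.ext
    have : (x : S) ∈ pCore p S := by
      rw [pCore_eq_iInf_sylow, mem_iInf]
      intro Q
      have h1 : (x : S) ∈ normalizer ((Q : Subgroup S) : Set S) :=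
        Sylow.smul_eq_iff_mem_normalizer.1 (hx Q)
      have h2 : IsPGroup p (zpowers (x : S)) :=
        P.isPGroup'.to_le (zpowers_le.2 x.2)
      have := Q.is_maximal' (IsPGroup.to_sup_of_normal_left' Q.isPGroup' h2 (zpowers_le.2 h1))
        le_sup_left
      rw [← this]
      exact mem_sup_right (mem_zpowers _)
    rw [hO] at this
    exact mem_bot.1 this
  haveI : IsMulCommutative (P : Subgroup S) := by
    refine ⟨⟨fun a b => ?_⟩⟩
    rw [← commutatorElement_eq_one_iff_mul_comm]
    refine hker _ fun Q => ?_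
    rcases (Nat.dvd_prime hpp).1 (hidx Q) with h | h
    · rw [index_eq_one.1 h]; exact mem_top _
    · have := commutator_le_frattini_of_isPGroup P.isPGroup'
        (commutator_mem_commutator (mem_top a) (mem_top b))
      exact mem_frattini_iff.1 this _ (isCoatom_of_index_prime' (by rw [h]; exact hpp))
  obtain ⟨Q, hQ⟩ := brodkey P
  rw [hO] at hQ
  have hst : stabilizer (P : Subgroup S) Q = ⊥ := by
    rw [eq_bot_iff]
    intro x hx
    have h1 : (x : S) ∈ normalizer ((Q : Subgroup S) : Set S) :=
      Sylow.smul_eq_iff_mem_normalizer.1 hx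
    have h2 : IsPGroup p (zpowers (x : S)) :=
      P.isPGroup'.to_le (zpowers_le.2 x.2)
    have := Q.is_maximal' (IsPGroup.to_sup_of_normal_left' Q.isPGroup' h2 (zpowers_le.2 h1))
      le_sup_left
    have h3 : (x : S) ∈ (Q : Subgroup S) ⊓ P :=
      ⟨by rw [← this]; exact mem_sup_right (mem_zpowers _), x.2⟩
    rw [hQ] at h3
    exact mem_bot.2 (Subtype.ext (mem_bot.1 h3))
  have := hidx Q
  rw [hst, index_bot] at this
  exact Nat.dvd_antisymm this (P.dvd_card_of_dvd_card hp)

end Cfsg.Agent.S4343
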