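import Mathlib
import Cfsg.Agent.Fgs2.Basic
import Cfsg.Statements.S4344

set_option autoImplicit false
open Cfsg

namespace Cfsg.Agent.S4344

/-- Let S be a finite non-abelian simple group, M a maximal subgroup of S and C a cyclic normal subgroup of M. If a Sylow p-subgroup P of S (for a prime p dividing the order of S) is contained in C, then the number of Sylow p-subgroups of S equals the index of M. -/
theorem result {S : Type*} [Group S] [Finite S]
    [IsSimpleGroup S] (hS : ¬ IsMulCommutative S) (p : ℕ) [Fact p.Prime] (hp : p ∣ Nat.card S)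
    (M : Subgroup S) (hM : IsCoatom M) (C : Subgroup S) (hCM : C ≤ M) (hCn : (C.subgroupOf M).Normal)
    (hC : IsCyclic C) (P : Sylow p S) (hP : (P : Subgroup S) ≤ C) :
    Nat.card (Sylow p S) = M.index := by
  rw [P.card_eq_index_normalizer]
  congr 1
  have h1 : M ≤ Subgroup.normalizer ((P : Subgroup S) : Set S) := by
    intro m hm
    refine Subgroup.mem_normalizer_fintype fun y hy => ?_
    have h2 : m * y * m⁻¹ ∈ C := hCn.conj_mem ⟨y, hCM (hP hy)⟩ (hP hy) ⟨m, hm⟩
    exact (Subgroup.zpowers_le.2 hy) (CF.Fgs2.mem_zpowers_of_orderOf_dvd' h2 (hP hy)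
      (CF.Fgs2.orderOf_conj m y).dvd)
  by_contra hne
  have h2 := hM.2 _ (lt_of_le_of_ne h1 (Ne.symm hne))
  have h3 : (P : Subgroup S).Normal := Subgroup.normalizer_eq_top_iff.1 h2
  rcases h3.eq_bot_or_eq_top with h | h
  · exact P.ne_bot_of_dvd_card hp h
  · exact hM.1 (top_le_iff.1 (h ▸ hP.trans hCM))

end Cfsg.Agent.S4344
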