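import Cfsg.Statements.S4345
import Cfsg.Agent.SolvStr.HallCount

set_option autoImplicit false
open Cfsg

namespace Cfsg.Agent.S4345

theorem aux {p ℓ : ℕ} (hℓ : ℓ.Prime) (l : List ℕ)
    (h : ∀ f ∈ l, (∃ q e : ℕ, q.Prime ∧ f = q ^ e) ∧ f ≡ 1 [MOD p]) :
    l.prod ≠ 0 ∧ ℓ ^ l.prod.factorization ℓ ≡ 1 [MOD p] := by
  induction l with
  | nil => simp [Nat.ModEq]
  | cons f l ih =>
    obtain ⟨h1, h2⟩ := ih fun g hg => h g (List.mem_cons_of_mem _ hg)
    obtain ⟨⟨q, e, hq, rfl⟩, h3⟩ := h f List.mem_cons_self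
    have h0 : q ^ e ≠ 0 := pow_ne_zero _ hq.ne_zero
    rw [List.prod_cons]
    refine ⟨mul_ne_zero h0 h1, ?_⟩
    rw [Nat.factorization_mul h0 h1, Finsupp.add_apply, pow_add, hq.factorization_pow]
    by_cases hql : q = ℓ
    · subst hql
      rw [Finsupp.single_eq_same]
      exact h3.mul h2
    · rw [Finsupp.single_eq_of_ne (Ne.symm hql), pow_zero, one_mul]
      exact h2


/-- Let G be a finite solvable group and p, ℓ primes. Then the largest power of ℓ dividing the number of Sylow p-subgroups of G is congruent to 1 modulo p. -/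
theorem result {G : Type*} [Group G] [Finite G]
    (hG : Group.IsSolvable G) (p ℓ : ℕ) [Fact p.Prime] (hℓ : ℓ.Prime) :
    ℓ ^ (Nat.card (Sylow p G)).factorization ℓ ≡ 1 [MOD p] := by
  obtain ⟨P⟩ : Nonempty (Sylow p G) := inferInstance
  obtain ⟨l, h1, h2⟩ := CF.SolvStr.index_normalizer_hall_eq_prod _ G hG _
    (CF.Solv.sylow_isPiHall P)
  rw [P.card_eq_index_normalizer, show (Subgroup.normalizer (P : Set G)).index = l.prod from h1]
  refine (aux hℓ l fun f hf => ?_).2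
  obtain ⟨a, -, q, hq, hd, c⟩ := h2 f hf
  have : q = p := CF.Solv.isPGroup_iff_piNum_singleton.1 P.isPGroup' q hq hd
  exact ⟨a, this ▸ c⟩

end Cfsg.Agent.S4345
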