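import Cfsg.Statements.S4346
import Cfsg.Agent.Fgs3.SylProd
import Cfsg.Agent.Perm.SharpK
import Cfsg.Agent.Char.Integral
import Cfsg.Agent.S0720

set_option autoImplicit false
open Cfsg

namespace Cfsg.Agent.S4346

open CF.BG CF.Fgs3 Subgroup MulAction

instance : Fact (Nat.Prime 3) := ⟨by norm_num⟩

section
variable {G : Type*} [Group G] [Finite G]

/-- the Sylow subgroups normalized by `F` -/
def Fx (F : Subgroup G) : Set (Sylow 3 G) := {R | ∀ f ∈ F, f • R = R}

theorem Fx_mod {r : ℕ} (hr : r.Prime) {F : Subgroup G} (hF : PiGrp {r} F) :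
    Nat.card (Sylow 3 G) ≡ (Fx F).ncard [MOD r] := by
  have := Fact.mk hr
  have h := ncard_modEq_fixed (Ω := Sylow 3 G) hF.isPGroup Set.univ Set.finite_univ
    (fun _ _ _ _ => Set.mem_univ _)
  simpa [Set.ncard_univ, Fx] using h

omit [Finite G] in
theorem Fx_inv {F D : Subgroup G} (h : D ≤ 𝐍 F) : ∀ d ∈ D, ∀ R ∈ Fx F, d • R ∈ Fx F := by
  intro d hd R hR f hf
  have := hR _ (conj_mem_of_norm' (h hd) hf)
  rw [mul_smul, mul_smul, inv_smul_eq_iff] at this
  exact this

theorem Fx_mod_three {F : Subgroup G} (P : Sylow 3 G) (h : F ≤ 𝐂 (P : Subgroup G)) :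
    (Fx F).ncard ≡ 1 [MOD 3] :=
  ncard_modEq_one_of_inv P _
    (fun _ hf => Sylow.smul_eq_iff_mem_normalizer.2 (cent_le_norm _ (h hf)))
    (Fx_inv (norm_of_cent' h))

theorem eq_bot_of_Fx (hf : ∀ g : G, (∀ R : Sylow 3 G, g • R = R) → g = 1) {F : Subgroup G}
    (h : Nat.card (Sylow 3 G) ≤ (Fx F).ncard) : F = ⊥ := by
  have : Fx F = Set.univ :=
    Set.eq_of_subset_of_ncard_le (Set.subset_univ _) (by rwa [Set.ncard_univ]) Set.finite_univ
  exact eq_bot_of_forall fun x hx => hf x fun R => (this ▸ Set.mem_univ R : R ∈ Fx F) x hx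

theorem card_le_of_Fx (hf : ∀ g : G, (∀ R : Sylow 3 G, g • R = R) → g = 1) {F : Subgroup G}
    {t : ℕ} (h : ∀ F' ≤ F, F' ≠ ⊥ → (Fx F').ncard = t) : ♯F ≤ Nat.card (Sylow 3 G) := by
  by_cases h0 : F = ⊥
  · rw [h0, card_bot]; exact Nat.card_pos
  obtain ⟨R, hR⟩ : ∃ R, R ∉ Fx F := by
    by_contra k
    push Not at k
    exact h0 (eq_bot_of_forall fun x hx => hf x fun R => k R x hx)
  have h1 : stabilizer G R ⊓ F = ⊥ := by
    by_contra k
    have h2 : Fx F ⊂ Fx (stabilizer G R ⊓ F) :=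
      ⟨fun Q hQ f hf => hQ f hf.2, fun l => hR (l fun f hf => hf.1)⟩
    have h3 := Set.ncard_lt_ncard h2 (Set.toFinite _)
    rw [h F le_rfl h0, h _ inf_le_right k] at h3
    omega
  rw [← relIndex_of_inf_bot h1, ← CF.Perm.card_orbit_subgroup]
  exact Nat.card_le_card_of_injective _ Subtype.val_injective

theorem card_three (hf : ∀ g : G, (∀ R : Sylow 3 G, g • R = R) → g = 1)
    (h22 : Nat.card (Sylow 3 G) = 22)
    (h2 : ∀ a b c d : Sylow 3 G, a ≠ b → c ≠ d → ∃ g : G, g • a = c ∧ g • b = d)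
    (P₀ : Sylow 3 G) : ♯(P₀ : Subgroup G) = 3 := by
  classical
  have hcj : ∀ (g : G) (P : Sylow 3 G), ((g • P : Sylow 3 G) : Subgroup G) = cj g P :=
    fun g P => rfl
  have hidx : ∀ P Q : Sylow 3 G, P ≠ Q → (Q : Subgroup G).relIndex P = 3 := by
    intro P Q h
    obtain ⟨k, hk, hk'⟩ := relIndex_sylow_eq_pow h
    by_contra hne
    have h9 : 3 ^ 2 ∣ 3 ^ k := pow_dvd_pow 3 (by
      by_contra l
      obtain rfl : k = 1 := by omega
      exact hne hk')
    have := CF.Small.card_sylow_modEq_of_index P 9 fun R hR => by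
      obtain ⟨g, e1, e2⟩ := h2 P Q P R h hR
      show 9 ∣ (R : Subgroup G).relIndex P
      conv_rhs => rw [← e1, ← e2, hcj, hcj, relIndex_cj, hk']
      exact h9
    rw [h22] at this
    exact absurd this (by decide)
  have hcard : ∀ P Q : Sylow 3 G, P ≠ Q →
      Nat.card ((Q : Subgroup G) ⊓ P : Subgroup G) * 3 = Nat.card (P : Subgroup G) := by
    intro P Q h
    have := CF.Fgs2.card_inf_mul_relIndex (Q : Subgroup G) P
    rwa [hidx P Q h] at this
  have heq : ∀ {P Q R R' : Sylow 3 G}, P ≠ Q → R ≠ R' → (P : Subgroup G) ⊓ Q ≤ R →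
      (P : Subgroup G) ⊓ Q ≤ R' → (R : Subgroup G) ⊓ R' = (P : Subgroup G) ⊓ Q := by
    intro P Q R R' h h' h1 h2
    refine (eq_of_le_of_card_ge (le_inf h1 h2) ?_).symm
    have h4 := hcard R' R h'.symm
    have h5 := hcard Q P h.symm
    rw [CF.Small.card_sylow_eq_card_sylow Q R'] at h5
    omega
  have hnt : Nontrivial (Sylow 3 G) := Finite.one_lt_card_iff_nontrivial.1 (by omega)
  obtain ⟨Q₀, hQ₀⟩ := exists_ne P₀
  have := Fintype.ofFinite (Sylow 3 G)
  let L : Sylow 3 G → Sylow 3 G → Finset (Sylow 3 G) := fun P Q =>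
    Finset.univ.filter fun R => (P : Subgroup G) ⊓ Q ≤ R
  have hL : ∀ P Q, P ≠ Q → (L P Q).card = (L P₀ Q₀).card := by
    intro P Q h
    obtain ⟨g, rfl, rfl⟩ := h2 P₀ Q₀ P Q hQ₀.symm h
    symm
    refine Finset.card_bijective (g • ·) (MulAction.bijective g) fun R => ?_
    simp only [L, Finset.mem_filter, Finset.mem_univ, true_and, hcj, ← cj_inf, cj_le_cj]
  have h1 : (L P₀ Q₀).card ≡ 1 [MOD 3] := by
    have := ncard_sylow_ge_modEq (p := 3) (P₀.isPGroup'.to_le (inf_le_left (b := (Q₀ : Subgroup G))))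
    rwa [← Set.ncard_coe_finset, Finset.coe_filter, Set.ofPred_and, show {a | a ∈ Finset.univ} =
      (Set.univ : Set (Sylow 3 G)) by simp, Set.univ_inter]
  have h3 : (L P₀ Q₀).card - 1 ∣ 21 := by
    have hs : (Finset.univ.erase P₀).card = 21 := by
      rw [Finset.card_erase_of_mem (Finset.mem_univ _), Finset.card_univ,
        ← Nat.card_eq_fintype_card, h22]
    rw [← hs, Finset.card_eq_sum_card_image (fun Q : Sylow 3 G => (P₀ : Subgroup G) ⊓ Q)
      (Finset.univ.erase P₀)]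
    refine Finset.dvd_sum fun X hX => ?_
    obtain ⟨Q, hQ, rfl⟩ := Finset.mem_image.1 hX
    have hQ' := (Finset.ne_of_mem_erase hQ).symm
    rw [← hL P₀ Q hQ', ← Finset.card_erase_of_mem (a := P₀) (by simp [L])]
    refine dvd_of_eq (congrArg _ ?_)
    ext R
    simp only [L, Finset.mem_filter, Finset.mem_erase, Finset.mem_univ, true_and, and_true]
    exact and_congr_right fun hR => ⟨fun h => heq hQ' hR.symm inf_le_left h,
      fun h => h ▸ inf_le_right⟩
  have h4 : (L P₀ Q₀).card * (L P₀ Q₀).card - (L P₀ Q₀).card ∣ 462 := by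
    have hs : (Finset.univ : Finset (Sylow 3 G)).offDiag.card = 462 := by
      simp only [Finset.offDiag_card, Finset.card_univ, ← Nat.card_eq_fintype_card, h22]
    rw [← hs, Finset.card_eq_sum_card_image
      (fun x : Sylow 3 G × Sylow 3 G => (x.1 : Subgroup G) ⊓ x.2)]
    refine Finset.dvd_sum fun X hX => ?_
    obtain ⟨⟨P, Q⟩, hPQ, rfl⟩ := Finset.mem_image.1 hX
    have hPQ' : P ≠ Q := (Finset.mem_offDiag.1 hPQ).2.2
    rw [← hL P Q hPQ', ← Finset.offDiag_card]
    refine dvd_of_eq (congrArg _ ?_)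
    ext ⟨R, R'⟩
    simp only [L, Finset.mem_filter, Finset.mem_offDiag, Finset.mem_univ, true_and]
    exact ⟨fun ⟨h1, h2, h3⟩ => ⟨h3, heq hPQ' h3 h1 h2⟩,
      fun ⟨h1, h2⟩ => ⟨h2 ▸ inf_le_left, h2 ▸ inf_le_right, h1⟩⟩
  have h5 : (L P₀ Q₀).card = 22 := by
    have h6 := Nat.le_of_dvd (by norm_num) h3
    unfold Nat.ModEq at h1
    generalize (L P₀ Q₀).card = t at h1 h3 h4 h6
    have : t ≤ 22 := by omega
    interval_cases t <;> omega
  have h6 : L P₀ Q₀ = Finset.univ :=
    Finset.eq_univ_of_card _ (by rw [h5, ← Nat.card_eq_fintype_card, h22])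
  have h7 : (P₀ : Subgroup G) ⊓ Q₀ = ⊥ := eq_bot_of_forall fun x hx => hf x fun R =>
    (sylow_smul_eq_iff_le (P₀.isPGroup'.to_le inf_le_left) R).2
      (Finset.mem_filter.1 (h6 ▸ Finset.mem_univ R : R ∈ L P₀ Q₀)).2 x hx
  have h8 := hcard P₀ Q₀ hQ₀.symm
  rw [inf_comm, h7, card_bot] at h8
  omega

theorem main (hf : ∀ g : G, (∀ R : Sylow 3 G, g • R = R) → g = 1)
    (h22 : Nat.card (Sylow 3 G) = 22)
    (h2 : ∀ a b c d : Sylow 3 G, a ≠ b → c ≠ d → ∃ g : G, g • a = c ∧ g • b = d) : False := by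
  obtain ⟨P⟩ : Nonempty (Sylow 3 G) := inferInstance
  have hP3 := card_three hf h22 h2 P
  have hP3' : (♯(P : Subgroup G)).Prime := by rw [hP3]; norm_num
  have hP := syl_sylow_top P
  have hnt : Nontrivial (Sylow 3 G) := Finite.one_lt_card_iff_nontrivial.1 (by omega)
  set N := 𝐍 (P : Subgroup G) with hN
  set C := 𝐂 (P : Subgroup G) with hC
  have hCN : C ⊴ N := ⟨cent_le_norm _, norm_le_norm_cent _⟩
  have hPC : (P : Subgroup G) ≤ C := (cyc_of_prime hP3').abel
  have hfix : ∀ g, g ∈ N ↔ g • P = P := fun g => Sylow.smul_eq_iff_mem_normalizer.symm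
  have hG : 22 * ♯N = Nat.card G := h22 ▸ CF.Small.card_sylow_mul_card_normalizer P
  have he : C.relIndex N ∣ 2 := by
    have := relIndex_cent_dvd_pred hP3' (le_refl N)
    rwa [hP3] at this
  have hNC := card_mul_relIndex hCN.le
  -- counting fixed points
  have key : ∀ {r : ℕ} {F : Subgroup G}, r.Prime → PiGrp {r} F → F ≤ C → F ≠ ⊥ →
      (Fx F).ncard % r = 22 % r ∧ (Fx F).ncard % 3 = 1 ∧ (Fx F).ncard < 22 := by
    intro r F hr hF hFC h0
    refine ⟨(h22 ▸ Fx_mod hr hF).symm, Fx_mod_three P hFC, ?_⟩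
    by_contra k
    exact h0 (eq_bot_of_Fx hf (by omega))
  have h7N : 7 ∣ ♯N := by
    obtain ⟨Q, hQ⟩ := exists_ne P
    have h1 : orbit N Q = {P}ᶜ := by
      ext R
      rw [CF.Perm.mem_orbit_subgroup_iff]
      constructor
      · rintro ⟨g, hg, rfl⟩ e
        exact hQ (smul_left_cancel g (e.trans ((hfix g).1 hg).symm))
      · intro hR
        obtain ⟨g, e1, e2⟩ := h2 P Q P R hQ.symm (Ne.symm hR)
        exact ⟨g, (hfix g).2 e1, e2⟩
    have h3 := CF.Perm.card_orbit_dvd (G := N) Q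
    rw [h1, Nat.card_coe_set_eq, Set.ncard_compl, Set.ncard_singleton, h22] at h3
    exact Dvd.dvd.trans (by norm_num) h3
  have h7C : 7 ∣ ♯C := by
    rw [← hNC] at h7N
    refine ((Nat.Prime.dvd_mul (by norm_num)).1 h7N).resolve_right fun k => ?_
    have := k.trans he
    omega
  obtain ⟨D, hD⟩ := exists_syl 7 C
  have hD0 : D ≠ ⊥ := hD.syl_ne_bot (by norm_num) h7C
  have hD1 : ∀ F ≤ D, F ≠ ⊥ → (Fx F).ncard = 1 := fun F h h0 => by
    have := key (by norm_num) (hD.pi.le h) (h.trans hD.le) h0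
    omega
  have hD7 : ♯D = 7 := by
    have h1 := card_le_of_Fx hf hD1
    obtain ⟨k, hk⟩ := hD.pi.card_pow
    have h3 := one_lt_card.2 hD0
    rw [hk] at h1 h3 ⊢
    have h4 : k < 2 := by
      by_contra l
      have := Nat.pow_le_pow_right (n := 7) (by norm_num) (not_lt.1 l)
      omega
    interval_cases k <;> omega
  have hFxD : Fx D = {P} := by
    obtain ⟨R, hR⟩ := Set.ncard_eq_one.1 (hD1 D le_rfl hD0)
    have : P ∈ Fx D := fun f hf => (hfix f).1 (hCN.le (hD.le hf))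
    rw [hR] at this ⊢
    rw [this]
  have key7 : ∀ {F : Subgroup G}, F ≤ C → F ≤ 𝐂 D → (Fx F).ncard % 7 = 1 := by
    intro F hFC hFD
    have : Fact (Nat.Prime 7) := ⟨by norm_num⟩
    have h1 := ncard_modEq_fixed hD.pi.isPGroup (Fx F) (Set.toFinite _) (Fx_inv (norm_of_cent' hFD))
    have h3 : {x | x ∈ Fx F ∧ ∀ h ∈ D, h • x = x} = {P} := by
      ext R
      refine ⟨fun h => hFxD ▸ h.2, fun h => ?_⟩
      rw [Set.mem_singleton_iff.1 h]
      exact ⟨fun f hf => (hfix f).1 (hCN.le (hFC hf)), fun f hf => (hfix f).1 (hCN.le (hD.le hf))⟩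
    rw [h3, Set.ncard_singleton] at h1
    exact h1
  -- primes dividing the centralizer
  have hpr : ∀ r : ℕ, r.Prime → r ∣ ♯C → r = 2 ∨ r = 3 ∨ r = 5 ∨ r = 7 := by
    intro r hr hd
    obtain ⟨X, hX⟩ := exists_elem_one hr hd
    obtain ⟨h1, h3, h4⟩ := key hr hX.pi hX.le hX.ne_bot
    have h5 : r ≤ 22 := by
      by_contra l
      rw [Nat.mod_eq_of_lt (by omega), Nat.mod_eq_of_lt (by omega)] at h1
      omega
    interval_cases r <;> first | omega | exact absurd hr (by norm_num)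
  have hA : ∀ r : ℕ, r.Prime → r ∣ ♯(C ⊓ 𝐂 D) → r = 3 ∨ r = 7 := by
    intro r hr hd
    obtain ⟨X, hX⟩ := exists_elem_one hr hd
    obtain ⟨h1, h3, h4⟩ := key hr hX.pi (hX.le.trans inf_le_left) hX.ne_bot
    have h5 := key7 (hX.le.trans inf_le_left) (hX.le.trans inf_le_right)
    rcases hpr r hr (hd.trans (card_dvd inf_le_left)) with rfl | rfl | rfl | rfl <;> omega
  have hND : ∀ X : Subgroup G, X ≤ 𝐍 D → (𝐂 D).relIndex X ∣ 6 := fun X hX => by
    have := relIndex_cent_dvd_pred (hD7 ▸ (by norm_num : Nat.Prime 7)) hX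
    rwa [hD7] at this
  have hPD : (P : Subgroup G) ≤ 𝐂 D := cent_symm hD.le
  have hP' : Syl 3 (P : Subgroup G) C := hP.of_le hPC le_top
  have h5C : ¬ 5 ∣ ♯C := by
    intro h5
    have : Fact (Nat.Prime 7) := ⟨by norm_num⟩
    obtain ⟨F, hF⟩ := exists_syl 5 C
    have h1 := card_le_of_Fx hf (F := F) (t := 7) fun F' h h0 => by
      have := key (by norm_num) (hF.pi.le h) (h.trans hF.le) h0
      omega
    have h3 : logn 5 (♯C) ≤ 1 := by
      rw [← hF.logn_eq rfl]
      by_contra l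
      have := Nat.pow_le_pow_right (n := 5) (by norm_num) (not_le.1 l)
      rw [← hF.pi.card_eq] at this
      omega
    have h4 : ¬ 5 ∣ ♯(𝐍 D ⊓ C) := by
      intro k
      rw [← card_inf_mul_relIndex (𝐂 D)] at k
      rcases (Nat.Prime.dvd_mul (by norm_num)).1 k with k | k
      · have := hA 5 (by norm_num) (k.trans (card_dvd (le_inf
          (inf_le_right.trans inf_le_right) inf_le_left)))
        omega
      · have := k.trans (hND _ inf_le_left)
        omega
    have h6 := card_inf_mul_relIndex (𝐍 D) C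
    obtain ⟨m, hm⟩ := ((Nat.Prime.dvd_mul (by norm_num)).1 (h6 ▸ h5)).resolve_left h4
    have h8 : PiNat {2} m := by
      intro r hr hd
      have h9 : r ∣ (𝐍 D).relIndex C := hm ▸ hd.mul_left 5
      rcases hpr r hr (h6 ▸ h9.mul_left _) with rfl | rfl | rfl | rfl
      · rfl
      · exact absurd h9 ((hP'.idx_of_le (hPD.trans (cent_le_norm _))).not_dvd' hr rfl)
      · have h10 : 5 ^ 2 ∣ ♯C := by
          rw [← h6, hm, pow_two]
          exact (Nat.mul_dvd_mul_left 5 hd).mul_left _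
        have := (pow_dvd_iff_le_logn hr (card_ne_zero' C)).1 h10
        omega
      · exact absurd h9 ((hD.idx_of_le (le_norm_self _)).not_dvd' hr rfl)
    obtain ⟨j, rfl⟩ := h8.exists_pow (fun e => relIndex_ne_zero' (𝐍 D) C (by rw [hm, e]))
    have h9 := card_sylow_modEq_one 7 C
    rw [card_sylow_sub hD, hm] at h9
    have h10 : ∀ j : ℕ, 2 ^ j % 7 = 1 ∨ 2 ^ j % 7 = 2 ∨ 2 ^ j % 7 = 4 := by
      intro j
      induction j with
      | zero => simp
      | succ j ih => rw [pow_succ]; omega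
    have := h10 j
    unfold Nat.ModEq at h9
    omega
  have hsol : Sol C := by
    have n : C ≤ 𝐍 (P : Subgroup G) := hCN.le
    refine Sol.of_qt hP.pi.sol n (CF.Char.isSolvable_of_card_primeFactors_le_two ?_)
    refine (Finset.card_le_card (t := {2, 7}) fun r hr => ?_).trans (by simp)
    have hr' := Nat.prime_of_mem_primeFactors hr
    have hd := Nat.dvd_of_mem_primeFactors hr
    rcases hpr r hr' (hd.trans (card_qt_dvd _ _)) with rfl | rfl | rfl | rfl
    · simp
    · rw [card_qt n] at hd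
      exact absurd hd (hP'.not_dvd hr')
    · exact absurd (hd.trans (card_qt_dvd _ _)) h5C
    · simp
  have hO2 : 𝐎 {2} C = ⊥ := by
    by_contra h0
    obtain ⟨h1, -, -⟩ := key Nat.prime_two (O_pi _ _) (O_le _ _) h0
    have h3 : P ∈ Fx (𝐎 {2} C) := fun f hf => (hfix f).1 (hCN.le (O_le _ _ hf))
    obtain ⟨Q, hQ, hQP⟩ : ∃ Q ∈ Fx (𝐎 {2} C), Q ≠ P := by
      by_contra k
      push Not at k
      have : Fx (𝐎 {2} C) = {P} := Set.eq_singleton_iff_unique_mem.2 ⟨h3, k⟩
      rw [this, Set.ncard_singleton] at h1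
      omega
    refine h0 (eq_bot_of_forall fun x hx => hf x fun R => ?_)
    by_cases hR : R = P
    · rw [hR]; exact h3 x hx
    obtain ⟨g, e1, rfl⟩ := h2 P Q P R hQP.symm (Ne.symm hR)
    exact Fx_inv (hCN.O {2}).norm g ((hfix g).2 e1) Q hQ x hx
  have hO7 : C ≤ 𝐍 D := by
    by_contra k
    have h0 : 𝐎 {7} C = ⊥ := by
      refine (eq_bot_or_eq_of_prime (hD7 ▸ (by norm_num : Nat.Prime 7)) hD.O_le).resolve_right
        fun e => k ?_
      rw [← e]; exact (O_normal _ _).norm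
    have h1 : 𝐅 C ≤ P := F_le_of_forall fun r hr hd => by
      rcases hpr r hr (hd.trans (card_dvd (F_le C))) with rfl | rfl | rfl | rfl
      · rw [hO2]; exact bot_le
      · exact hP'.O_le
      · exact absurd (hd.trans (card_dvd (F_le C))) h5C
      · rw [h0]; exact bot_le
    have h3 := card_dvd ((le_inf le_rfl (cent_anti h1)).trans (hsol.cent_F_le.trans h1))
    rw [hP3] at h3
    have := h7C.trans h3
    omega
  have hA21 : ♯(𝐂 D ⊓ C) ∣ 21 := by
    rw [inf_comm]
    refine (Nat.factorization_prime_le_iff_dvd (card_ne_zero' _) (by norm_num)).1 fun r hr => ?_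
    by_cases hd : r ∣ ♯(C ⊓ 𝐂 D)
    swap
    · rw [Nat.factorization_eq_zero_of_not_dvd hd]; exact Nat.zero_le _
    have h1 := logn_card_le (p := r) (inf_le_left : C ⊓ 𝐂 D ≤ C)
    rcases hA r hr hd with rfl | rfl
    · rw [← hP'.logn_eq rfl, hP3] at h1
      exact h1.trans (logn_le_of_dvd (by norm_num) (by norm_num))
    · rw [← hD.logn_eq rfl, hD7] at h1
      exact h1.trans (logn_le_of_dvd (by norm_num) (by norm_num))
  have hGd : Nat.card G ∣ 11 * (21 * 24) := by
    rw [← hG, ← hNC, ← card_inf_mul_relIndex (𝐂 D) C]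
    exact (Nat.mul_dvd_mul_left 22 (Nat.mul_dvd_mul (Nat.mul_dvd_mul hA21 (hND C hO7)) he)).trans
      (by norm_num)
  have h11N : ¬ 11 ∣ ♯N := by
    intro k
    rw [← hNC] at k
    rcases (Nat.Prime.dvd_mul (by norm_num)).1 k with k | k
    · have := hpr 11 (by norm_num) k
      omega
    · have := k.trans he
      omega
  have : Fact (Nat.Prime 11) := ⟨by norm_num⟩
  obtain ⟨E⟩ : Nonempty (Sylow 11 G) := inferInstance
  have hE : ♯(E : Subgroup G) = 11 := CF.Small.card_sylow_eq E (a := 1) (m := 2 * ♯N)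
    (by rw [← hG]; ring) (by omega)
  have hEG := CF.Small.card_sylow_mul_card_normalizer E
  have hno : ∀ {r : ℕ} {X : Subgroup G}, r.Prime → ¬ r ∣ 10 → Syl r X ⊤ → ♯X = r → 𝐂 X ≤ N →
      r ∣ Nat.card (Sylow 11 G) := by
    intro r X hr h10 hX hXr hXN
    have h1 : r ∣ Nat.card G := hXr ▸ card_subgroup_dvd_card X
    refine ((Nat.Prime.dvd_mul hr).1 (hEG ▸ h1)).resolve_right fun k => h11N ?_
    rw [← card_inf_mul_relIndex (𝐂 (E : Subgroup G))] at k
    have h3 := relIndex_cent_dvd_pred (X := (E : Subgroup G)) (by rw [hE]; norm_num)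
      (le_refl (𝐍 (E : Subgroup G)))
    rw [hE] at h3
    obtain ⟨Y, hY⟩ := exists_elem_one hr
      (((Nat.Prime.dvd_mul hr).1 k).resolve_right fun l => h10 (l.trans h3))
    obtain ⟨g, -, hg⟩ := hX.syl_conj (hX.of_card le_top (hY.card_one.trans hXr.symm))
    have h4 : (E : Subgroup G) ≤ cj g N := by
      refine (cent_symm (hY.le.trans inf_le_left)).trans ?_
      rw [hg, ← cj_cent]
      exact cj_mono g hXN
    have h5 := card_dvd h4
    rwa [hE, card_cj] at h5
  have h3n := hno Nat.prime_three (by norm_num) hP hP3 hCN.le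
  have h7n := hno (r := 7) (X := D) (by norm_num) (by norm_num)
    ((hD.trans_idx hCN.le ((piNat_compl_single (by norm_num)).2 fun k => by
      have := k.trans he; omega)).trans_idx le_top ((piNat_compl_single (by norm_num)).2 (by
        rw [relIndex_top_right, ← card_sylow_top P, h22]; norm_num))) hD7 fun g hg => by
      have := Fx_inv (F := D) (norm_of_cent (le_refl (𝐂 D))) g hg P (hFxD ▸ rfl)
      rw [hFxD] at this
      exact (hfix g).2 this
  have h1 := card_sylow_modEq_one 11 G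
  have h4 : Nat.card (Sylow 11 G) ∣ 21 * 24 := by
    refine Nat.Coprime.dvd_of_dvd_mul_left ?_ ((Dvd.intro _ hEG).trans hGd)
    exact ((Nat.Prime.coprime_iff_not_dvd (by norm_num)).2 (not_dvd_card_sylow 11 G)).symm
  obtain ⟨k, hk⟩ := Nat.Coprime.mul_dvd_of_dvd_of_dvd (by norm_num) h3n h7n
  rw [hk] at h1 h4
  have h5 := Nat.dvd_of_mul_dvd_mul_left (by norm_num) h4
  have h6 := Nat.le_of_dvd (by norm_num) h5
  unfold Nat.ModEq at h1
  interval_cases k <;> omega

theorem prim (h22 : Nat.card (Sylow 3 G) = 22) : IsPreprimitive G (Sylow 3 G) := by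
  obtain ⟨P⟩ : Nonempty (Sylow 3 G) := inferInstance
  have hnt : Nontrivial (Sylow 3 G) := Finite.one_lt_card_iff_nontrivial.1 (by omega)
  rw [← isCoatom_stabilizer_iff_preprimitive G P, P.stabilizer_eq_normalizer]
  have h1 := card_sylow_top P
  refine ⟨fun e => ?_, fun H hH => ?_⟩
  · rw [show 𝐍 (P : Subgroup G) = ⊤ from e, index_top] at h1
    omega
  have h2 := card_sylow_modEq_one 3 H
  rw [card_sylow_sub ((syl_sylow_top P).of_le ((le_norm_self _).trans hH.le) le_top)] at h2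
  have h3 := relIndex_mul_index hH.le
  have h4 : (𝐍 (P : Subgroup G)).relIndex H ≠ 1 := fun e => hH.not_ge (relIndex_eq_one.1 e)
  rw [← index_eq_one]
  change (𝐍 (P : Subgroup G)).relIndex H * H.index = (𝐍 (P : Subgroup G)).index at h3
  rw [← h1, h22] at h3
  have h5 := Nat.le_of_dvd (by norm_num) (Dvd.intro _ h3)
  unfold Nat.ModEq at h2
  generalize (𝐍 (P : Subgroup G)).relIndex H = m at *
  interval_cases m <;> omega

end


/-- No finite group has exactly 22 Sylow 3-subgroups. -/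
theorem result {G : Type*} [Group G] [Finite G] : Nat.card (Sylow 3 G) ≠ 22 := by
  refine sylow_count_induction (p := 3) (fun G _ _ hf _ _ h22 => ?_) G
  classical
  have := Fintype.ofFinite (Sylow 3 G)
  have h0 := prim h22
  have h1 : IsPreprimitive (toPermHom G (Sylow 3 G)).range (Sylow 3 G) :=
    IsPreprimitive.of_surjective (φ := (toPermHom G (Sylow 3 G)).rangeRestrict)
      (f := ⟨id, fun _ _ => rfl⟩) Function.surjective_id
  rcases Cfsg.Agent.S0720.result (p := 11) (by norm_num) (by rw [← Nat.card_eq_fintype_card, h22]) _ h1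
    default with h | ⟨-, a, -, ha, -⟩
  · exact main hf h22 (CF.Perm.twoTrans_iff.1 (CF.Perm.multTrans_range.1 h))
  · have : a ≤ 2 := by nlinarith
    interval_cases a <;> omega

end Cfsg.Agent.S4346
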