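import Cfsg.Statements.S4351
import Cfsg.Agent.HM.Mod

set_option autoImplicit false
open Cfsg

namespace Cfsg.Agent.S4351

/-- Let G be a finite non-solvable group in which the centralizer of every non-identity element is nilpotent. Then G is a non-abelian simple group; or G has a normal subgroup of index 2 isomorphic to PSL(2, 9); or G has a nontrivial normal elementary abelian 2-subgroup N such that G/N is isomorphic to PSL(2, q) for some q = 2ⁿ ≥ 4 or is a simple group of Suzuki type (simple, of the order of a Suzuki group). -/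
theorem result {G : Type*} [Group G] [Finite G] (hG : ¬ Group.IsSolvable G)
    (hCN : ∀ x : G, x ≠ 1 → Group.IsNilpotent (Subgroup.centralizer ({x} : Set G))) :
    (IsSimpleGroup G ∧ ¬ IsMulCommutative G) ∨
    (∃ (N : Subgroup G), N.Normal ∧ N.index = 2 ∧ ∃ (F : Type) (_ : Field F) (_ : Fintype F), Fintype.card F = 9 ∧
        Nonempty (N ≃* Matrix.ProjectiveSpecialLinearGroup (Fin 2) F)) ∨
    (∃ (N : Subgroup G) (_ : N.Normal), N ≠ ⊥ ∧ IsPGroup 2 N ∧ IsMulCommutative N ∧ (∀ x ∈ N, x * x = 1) ∧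
        ((∃ (F : Type) (_ : Field F) (_ : Fintype F), CharP F 2 ∧ 4 ≤ Fintype.card F ∧
            Nonempty (G ⧸ N ≃* Matrix.ProjectiveSpecialLinearGroup (Fin 2) F)) ∨ Cfsg.IsSuzuki (G ⧸ N))) := by
  have ns : ¬ CF.BG.Sol (⊤ : Subgroup G) := fun s => hG (CF.Fgs3.sol_top_iff.1 s)
  have h := CF.CIT.isCIT_of_cn ns hCN
  have nc : ¬ IsMulCommutative G := fun c => hG (Group.isSolvable_of_comm c.is_comm.comm)
  obtain ⟨N, e⟩ : ∃ N, Cfsg.piCoreOf {2} (⊤ : Subgroup G) = N := ⟨_, rfl⟩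
  haveI : N.Normal := e ▸ CF.BG.normalIn_top.1 (CF.BG.O_normal _ _)
  have k : CF.BG.PiGrp {2} N := e ▸ CF.BG.O_pi _ _
  have fr : CF.HM.Fr N := fun g o g1 a ha c => by_contra fun a1 => g1 (h.eq_one (k.elt ha) a1 o c)
  have fin : ∀ {F : Type} [Field F] [Fintype F] {d : ℕ}, IsSimpleGroup (G ⧸ N) →
      Nonempty (CF.HM.Dat (G ⧸ N) F d) → IsSimpleGroup G ∧ ¬ IsMulCommutative G ∨
      N ≠ ⊥ ∧ IsPGroup 2 N ∧ IsMulCommutative N ∧ ∀ x ∈ N, x * x = 1 := fun s ⟨D⟩ => by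
    by_cases h1 : N = ⊥
    · subst h1
      exact .inl ⟨(QuotientGroup.quotientBot (G := G)).symm.isSimpleGroup, nc⟩
    · exact .inr ⟨h1, k.isPGroup, Subgroup.le_centralizer_iff_isMulCommutative.1
        (Subgroup.commutator_eq_bot_iff_le_centralizer.1 (CF.HM.comm D k.isPGroup fr)),
        CF.HM.sq_eq_one D k.isPGroup fr⟩
  rcases h.main' ns e with (⟨F, _, _, n, h1, h2, ⟨f⟩⟩ | ⟨F, _, _, m, h1, h2, ⟨f⟩⟩) |
    ⟨-, ⟨F, _, _, h1, ⟨f⟩⟩ | ⟨F, _, _, h1, ⟨f⟩⟩ | h1⟩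
  · have h4 : 4 ≤ Fintype.card F := h2 ▸ Nat.pow_le_pow_right two_pos h1
    haveI := CF.Classical.isSimpleGroup_PSL2 (F := F) (by rwa [Nat.card_eq_fintype_card])
    haveI : CharP F 2 := CF.BN.Suz.charP_of_card h2
    rcases fin f.isSimpleGroup (CF.HM.dat_sl h1 h2
      (f.trans (CF.Classical.slEquivPSL CharTwo.two_eq_zero).symm)) with a | ⟨a, b, c, d⟩
    · exact .inl a
    · exact .inr (.inr ⟨N, _, a, b, c, d, .inl ⟨F, _, _, ‹_›, h4, ⟨f⟩⟩⟩)
  · have D := (CF.BN.Suz.lieD F m h2).ofEquiv f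
    haveI := D.isSimpleGroup (by have := CF.BN.Suz.eight_le_card h1 h2; rw [Nat.card_eq_fintype_card]; omega)
    rcases fin ‹_› (CF.HM.dat_sz h1 h2 D) with a | ⟨a, b, c, d⟩
    · exact .inl a
    · exact .inr (.inr ⟨N, _, a, b, c, d, .inr (CF.Bender.isSuzuki_of_iso ⟨F, _, _, m, h1, h2, ⟨f⟩⟩)⟩)
  · haveI := CF.Classical.isSimpleGroup_PSL_of_three_le (F := F) (ι := Fin 3) (by simp)
    exact .inl ⟨f.isSimpleGroup, nc⟩
  · haveI := CF.Classical.isSimpleGroup_PSL2 (F := F) (by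
      have := h1.seven_le; rw [Nat.card_eq_fintype_card]; omega)
    exact .inl ⟨f.isSimpleGroup, nc⟩
  · exact .inr (.inl h1)

end Cfsg.Agent.S4351
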