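import Cfsg.Statements.S4359
import Cfsg.Agent.Perm.Sims

set_option autoImplicit false
open Pointwise
open Cfsg

namespace Cfsg.Agent.S4359

open CF.Perm Subgroup

/-- Let P be a subgroup of a finite group G and g an element such that P ∩ g⁻¹Pg is a normal subgroup of prime index p in g⁻¹Pg. Let n ≥ 1 and let K be the subgroup generated by P and its conjugates g⁻ⁱPgⁱ for i ≤ n. Suppose that g normalizes no non-identity normal subgroup of P and that P meets the center of K trivially. Then the order of P is pᵗ for some t with 1 ≤ t ≤ 3n and t ≠ 3n - 1. -/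
theorem result {G : Type*} [Group G] [Finite G]
    (P : Subgroup G) (g : G) (p : ℕ) (hp : p.Prime)
    (hN : ((P ⊓ MulAut.conj g⁻¹ • P).subgroupOf (MulAut.conj g⁻¹ • P)).Normal)
    (hidx : (P ⊓ MulAut.conj g⁻¹ • P).relIndex (MulAut.conj g⁻¹ • P) = p)
    (n : ℕ) (hn : 1 ≤ n) (K : Subgroup G) (hK : K = ⨆ i ∈ Finset.range (n + 1), MulAut.conj (g ^ i)⁻¹ • P)
    (h1 : ∀ Q : Subgroup G, Q ≤ P → (Q.subgroupOf P).Normal → MulAut.conj g • Q = Q → Q = ⊥)
    (h2 : P ⊓ (Subgroup.center K).map K.subtype = ⊥) :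
    ∃ t : ℕ, Nat.card P = p ^ t ∧ 1 ≤ t ∧ t ≤ 3 * n ∧ t ≠ 3 * n - 1 := by
  have := Fact.mk hp
  obtain ⟨t, x, ht, h, rfl⟩ := exists_sq hidx (fun y hy hc => by
    have h3 := pow_index_mem (H := (P ⊓ MulAut.conj g⁻¹ • P).subgroupOf (MulAut.conj g⁻¹ • P)) ⟨y, hy⟩
    rw [show index _ = p from hidx] at h3
    obtain ⟨m, hm⟩ := exists_pow_eq_self_of_coprime hc.symm
    exact hm ▸ P.pow_mem h3.1 m) fun R r1 r2 r3 => h1 R r1
      ((normal_subgroupOf_iff_le_normalizer r1).2 r2) (by rw [map_inv, inv_smul_eq_iff] at r3; exact r3.symm)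
  have h3 : ∀ i : ℕ, MulAut.conj (g ^ i)⁻¹ • seg x 1 t = seg x (1 + i) (t + i) := fun i => by
    induction i with
    | zero => simp
    | succ i ih => rw [pow_succ, mul_inv_rev, map_mul, mul_smul, ih, smul_seg h.shift]; push_cast; ring_nf
  obtain ⟨k, h4, -, h5⟩ := h.bound (n := n) ht fun i h4 h5 => by
    by_contra! e
    have h6 : x i ∈ K := hK ▸ mem_iSup_of_mem 0 (mem_iSup_of_mem (by simp) (by simpa using mem_seg h4 h5))
    refine hp.one_lt.ne' ((h.orderOf_eq ht i).symm.trans (orderOf_eq_one_iff.2 (h2.le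
      ⟨mem_seg h4 h5, ⟨_, h6⟩, mem_center_iff.2 fun y => Subtype.ext (mem_centralizer_singleton_iff.1
        ((show K ≤ centralizer {x i} from hK ▸ iSup₂_le fun j hj => h3 j ▸ seg_le.2 fun l _ _ =>
          mem_centralizer_singleton_iff.2 (e l (by omega) (by
            have := Finset.mem_range.1 hj; omega)).symm) y.2)), rfl⟩)))
  exact ⟨t, h.card t le_rfl, ht, by omega, by omega⟩

end Cfsg.Agent.S4359
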