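import Mathlib
import Cfsg.Agent.BG.B8
import Cfsg.Agent.Solv.CyclicMax
import Cfsg.Agent.Perm.CharSimple
import Cfsg.Statements.S4370

set_option autoImplicit false
open Cfsg

namespace Cfsg.Agent.S4370

open Subgroup CF.BG QuaternionGroup

theorem two_tors {n : ℕ} [NeZero n] {j : ZMod (2 * n)} (h : -j = j) : j = 0 ∨ j = (n : ZMod (2 * n)) := by
  have : NeZero (2 * n) := ⟨by have := NeZero.ne n; omega⟩
  rcases (ZMod.neg_eq_self_iff j).1 h with h | h
  · exact Or.inl h
  · right
    have : j.val = n := by omega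
    rw [← ZMod.natCast_zmod_val j, this]

theorem quat_cent {n : ℕ} [NeZero n] (q : QuaternionGroup n) (hq : q ∉ center (QuaternionGroup n)) :
    ∃ g : QuaternionGroup n, ∀ r, r * q = q * r → r ∈ zpowers g := by
  have : NeZero (2 * n) := ⟨by have := NeZero.ne n; omega⟩
  rcases q with i | i
  · refine ⟨a 1, fun r hr => ?_⟩
    rcases r with j | j
    · refine ⟨j.val, ?_⟩
      simp only [zpow_natCast, a_one_pow, ZMod.natCast_zmod_val]
    · exfalso
      apply hq
      simp only [xa_mul_a, a_mul_xa, xa.injEq] at hr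
      have h2 : -i = i := by linear_combination -hr
      rw [mem_center_iff]
      rintro (k | k)
      · simp [add_comm]
      · simp only [xa_mul_a, a_mul_xa, xa.injEq]; linear_combination -h2
  · refine ⟨xa i, fun r hr => ?_⟩
    have h2 : (a (n : ZMod (2 * n)) : QuaternionGroup n) ∈ zpowers (xa i) := by
      rw [← xa_sq i]; exact pow_mem (mem_zpowers _) _
    rcases r with j | j
    · simp only [xa_mul_a, a_mul_xa, xa.injEq] at hr
      rcases two_tors (j := j) (by linear_combination hr) with rfl | rfl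
      · exact one_mem _
      · exact h2
    · simp only [xa_mul_xa, a.injEq] at hr
      rcases two_tors (j := j - i) (by linear_combination hr) with h | h
      · have : j = i := by linear_combination h
        rw [this]; exact mem_zpowers _
      · have : xa j = xa i * a n := by simp only [xa_mul_a, xa.injEq]; linear_combination h
        rw [this]; exact mul_mem (mem_zpowers _) h2

theorem back {k m : ℕ} (hm : Odd m) (x : QuaternionGroup (2 ^ k) × Multiplicative (ZMod m))
    (hx : x ∉ center _) : IsCyclic (centralizer ({x} : Set _)) := by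
  have : NeZero m := ⟨by rintro rfl; simp at hm⟩
  have hq : x.1 ∉ center (QuaternionGroup (2 ^ k)) := by
    intro h; apply hx
    rw [mem_center_iff] at h ⊢
    intro g; exact Prod.ext (h g.1) (mul_comm _ _)
  obtain ⟨g, hg⟩ := quat_cent x.1 hq
  let A : Subgroup (QuaternionGroup (2 ^ k) × Multiplicative (ZMod m)) := zpowers (g, 1)
  let B : Subgroup (QuaternionGroup (2 ^ k) × Multiplicative (ZMod m)) := zpowers (1, Multiplicative.ofAdd 1)
  have hc : Cyc (A ⊔ B) := by
    refine Cyc.sup inferInstance inferInstance ?_ ?_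
    · rw [zpowers_le, mem_centralizer_iff]
      rintro _ ⟨i, rfl⟩
      ext <;> simp
    · simp only [A, B, Nat.card_zpowers, Prod.orderOf_mk, orderOf_one, Nat.lcm_one_right,
        Nat.lcm_one_left, orderOf_ofAdd_eq_addOrderOf, ZMod.addOrderOf_one]
      have h1 : orderOf g ∣ 2 ^ (k + 2) := by
        have := orderOf_dvd_card (x := g)
        rw [QuaternionGroup.card] at this
        convert this using 1; ring
      exact Nat.Coprime.coprime_dvd_left h1 (Nat.Coprime.pow_left _ ((Nat.coprime_two_left).2 hm))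
  refine hc.mono fun y hy => ?_
  rw [mem_centralizer_iff] at hy
  have h1 := congrArg Prod.fst (hy x rfl)
  obtain ⟨i, hi⟩ := hg y.1 h1.symm
  have e : y = ((g, 1) : QuaternionGroup (2 ^ k) × Multiplicative (ZMod m)) ^ i *
      ((1, Multiplicative.ofAdd 1) : QuaternionGroup (2 ^ k) × Multiplicative (ZMod m)) ^ (y.2.toAdd.val) := by
    ext
    · simpa using hi.symm
    · simp [← ofAdd_nsmul]
  rw [e]
  exact mul_mem (mem_sup_left (zpow_mem (mem_zpowers _) _)) (mem_sup_right (pow_mem (mem_zpowers _) _))

theorem pcase {G : Type*} [Group G] [Finite G] (hna : ¬ IsMulCommutative G)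
    (hc : ∀ x : G, x ∉ center G → IsCyclic (centralizer ({x} : Set G))) {p : ℕ} (hp : p.Prime)
    (P : Subgroup G) (hP : IsPGroup p P) :
    IsCyclic P ∨ (p = 2 ∧ ∃ n : ℕ, 1 ≤ n ∧ Nonempty (P ≃* QuaternionGroup (2 ^ n))) := by
  have := Fact.mk hp
  have key : ∀ x y : G, x * y = y * x → x ^ p = 1 → y ^ p = 1 → x ≠ 1 → y ∈ zpowers x := by
    intro x y hxy hx hy h1
    obtain ⟨C, hC, h2, h3⟩ : ∃ C : Subgroup G, Cyc C ∧ x ∈ C ∧ y ∈ C := by
      by_cases a : x ∈ center G
      · by_cases b : y ∈ center G
        · obtain ⟨w, hw⟩ : ∃ w : G, w ∉ center G := by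
            by_contra! h
            exact hna ⟨⟨fun a b => (mem_center_iff.1 (h b) a)⟩⟩
          exact ⟨_, hc w hw, center_le_centralizer _ a, center_le_centralizer _ b⟩
        · exact ⟨_, hc y b, center_le_centralizer _ a, mem_centralizer_singleton_iff.2 rfl⟩
      · exact ⟨_, hc x a, mem_centralizer_singleton_iff.2 rfl, mem_centralizer_singleton_iff.2 hxy.symm⟩
    refine hC.le_of_dvd (zpowers_le.2 h3) (zpowers_le.2 h2) ?_ (mem_zpowers y)
    simp only [Nat.card_zpowers]
    rw [orderOf_eq_prime hx h1]; exact orderOf_dvd_of_pow_eq_one hy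
  refine CF.Solv.isCyclic_or_quaternion hP fun x y hx hy h1 => ?_
  have : Nontrivial P := ⟨⟨x, 1, h1⟩⟩
  have := hP.center_nontrivial
  obtain ⟨z, hz⟩ := exists_prime_orderOf_dvd_card' (G := center P) p (by
    rcases (hP.to_subgroup (center P)).card_eq_or_dvd with h | h
    · exact absurd h (Finite.one_lt_card).ne'
    · exact h)
  have hz1 : ((z : P) : G) ^ p = 1 := by
    have := pow_orderOf_eq_one z
    rw [hz] at this
    simpa using congrArg (fun t : center P => ((t : P) : G)) this
  have hz2 : ((z : P) : G) ≠ 1 := by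
    intro h
    have : z = 1 := Subtype.ext (Subtype.ext h)
    rw [this, orderOf_one] at hz; exact hp.one_lt.ne hz
  have hx' : (x : G) ^ p = 1 := by simpa using congrArg Subtype.val hx
  have hy' : (y : G) ^ p = 1 := by simpa using congrArg Subtype.val hy
  have c1 := key x z (congrArg Subtype.val (mem_center_iff.1 z.2 x)) hx' hz1 (fun h => h1 (Subtype.ext h))
  have c2 := key z y (congrArg Subtype.val (mem_center_iff.1 z.2 y)).symm hz1 hy' hz2
  obtain ⟨i, hi⟩ := zpowers_le.2 c1 c2
  exact ⟨i, Subtype.ext (by simpa using hi)⟩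

/-- Let G be a finite non-abelian nilpotent group. Then the centralizer of every non-central element of G is cyclic if and only if G is isomorphic to the direct product of a generalized quaternion group and a cyclic group of odd order. -/
theorem result {G : Type*} [Group G] [Finite G] (hG : Group.IsNilpotent G)
    (hna : ¬ IsMulCommutative G) :
    (∀ x : G, x ∉ Subgroup.center G → IsCyclic (Subgroup.centralizer ({x} : Set G))) ↔
      ∃ (k m : ℕ), 1 ≤ k ∧ Odd m ∧ Nonempty (G ≃* QuaternionGroup (2 ^ k) × Multiplicative (ZMod m)) := by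
  constructor
  · intro hc
    have hT : Nil (⊤ : Subgroup G) := inferInstance
    have d := hT.dprod {2}
    have n1 : (𝐎 {2} (⊤ : Subgroup G)).Normal := by rw [O_top]; infer_instance
    have n2 : (𝐎 {2}ᶜ (⊤ : Subgroup G)).Normal := by rw [O_top]; infer_instance
    have hO : Cyc (𝐎 {2}ᶜ (⊤ : Subgroup G)) := by
      refine ZGrp.cyc_of_nil (zGrp_of_forall fun p hp hd => ?_) inferInstance
      obtain ⟨P, hP⟩ := exists_syl p (𝐎 {2}ᶜ (⊤ : Subgroup G))
      refine ⟨P, hP, ?_⟩
      rcases pcase hna hc hp P ((piGrp_iff_isPGroup hp).1 hP.pi) with h | ⟨h, -⟩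
      · exact h
      · exact absurd h (O_pi _ _ p hp hd)
    have hodd : Odd (♯(𝐎 {2}ᶜ (⊤ : Subgroup G))) := by
      by_contra h
      exact O_pi _ _ 2 Nat.prime_two (Nat.not_odd_iff_even.1 h).two_dvd rfl
    rcases pcase hna hc Nat.prime_two _ ((piGrp_iff_isPGroup Nat.prime_two).1 (O_pi {2} ⊤)) with h | ⟨-, n, hn, ⟨e⟩⟩
    · exfalso
      have := Cyc.sup hO h d.cent ((O_pi _ _).coprime (O_pi _ _)).symm
      rw [sup_comm, d.sup] at this
      have : IsCyclic G := isCyclic_of_surjective (⊤ : Subgroup G).subtype fun x => ⟨⟨x, trivial⟩, rfl⟩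
      exact hna ⟨⟨fun a b => (IsCyclic.commGroup (α := G)).mul_comm a b⟩⟩
    · obtain ⟨f⟩ := CF.Perm.nonempty_sup_equiv_prod _ _ d.inf
      rw [d.sup] at f
      exact ⟨n, _, hn, hodd, ⟨(topEquiv.symm.trans f).trans (e.prodCongr (zmodCyclicMulEquiv hO).symm)⟩⟩
  · rintro ⟨k, m, -, hm, ⟨e⟩⟩ x hx
    have := back hm (e x) (fun h => hx (by
      rw [mem_center_iff] at h ⊢
      intro g; apply e.injective; simp [h]))
    refine isCyclic_of_injective ((e.toMonoidHom.comp (centralizer {x}).subtype).codRestrict (centralizer {e x}) ?_) ?_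
    · rintro ⟨y, hy⟩
      rw [mem_centralizer_singleton_iff] at hy ⊢
      simp [← map_mul, hy]
    · intro a b h
      exact Subtype.ext (e.injective (congrArg Subtype.val h))

end Cfsg.Agent.S4370
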