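import Mathlib
import Cfsg.Agent.Fgs2.Base18
import Cfsg.Agent.Solv.PiSep
import Cfsg.Agent.Solv.Hall
import Cfsg.Statements.S4373

set_option autoImplicit false
open Pointwise
open Cfsg

namespace Cfsg.Agent.S4373

/-- Let π be a set of primes and G a finite π-solvable group: G has a chain of normal subgroups from 1 to G in which each successive index is a power of a prime in π or is divisible by no prime in π. Let H be a Hall π-subgroup of G. Then there are x, y ∈ G with H ∩ xHx⁻¹ ∩ yHy⁻¹ = O_π(G), the largest normal π-subgroup. -/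
theorem result {G : Type*} [Group G] [Finite G] (π : Set ℕ)
    (hsolv : (∃ (n : ℕ) (N : Fin (n + 1) → Subgroup G), N 0 = ⊥ ∧ N (Fin.last n) = ⊤ ∧ Monotone N ∧ (∀ i, (N i).Normal) ∧
      ∀ i : Fin n, (∃ p ∈ π, p.Prime ∧ ∃ k : ℕ, (N i.castSucc).relIndex (N i.succ) = p ^ k) ∨
        (∀ q : ℕ, q.Prime → q ∣ (N i.castSucc).relIndex (N i.succ) → q ∉ π))) (H : Subgroup G) (hH : Cfsg.IsPiHall π H) :
    ∃ x y : G, H ⊓ MulAut.conj x • H ⊓ MulAut.conj y • H = Cfsg.piCore π G := by
  open Subgroup CF.Solv in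
  obtain ⟨n, N, h0, h1, h2, h3, h4⟩ := hsolv
  have hs : IsPiSep π G := isPiSep_iff_exists_chain.2 ⟨n, N, h0, h1, h2, h3, fun i =>
    (h4 i).imp (fun ⟨p, h5, h6, k, h7⟩ q hq h8 => by
      rwa [(Nat.prime_dvd_prime_iff_eq hq h6).1 (hq.dvd_of_dvd_pow (h7 ▸ h8))]) id⟩
  have hH' : ∀ i, Group.IsSolvable ((N i).subgroupOf H) := fun i => by
    induction i using Fin.induction with
    | zero => rw [h0, bot_subgroupOf]; infer_instance
    | succ i ih =>
      have := h3 i.castSucc
      let f := (QuotientGroup.mk' (N i.castSucc)).comp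
        (H.subtype.comp ((N i.succ).subgroupOf H).subtype)
      have h5 : Nat.card f.range ∣ (N i.castSucc).relIndex (N i.succ) := by
        rw [← index_ker, ← MonoidHom.comap_ker, QuotientGroup.ker_mk', ← comap_comap]
        exact relIndex_comap_dvd H.subtype _ _
      obtain ⟨p, hp, k, h6⟩ : ∃ p : ℕ, p.Prime ∧ ∃ k, Nat.card f.range ∣ p ^ k := by
        rcases h4 i with ⟨p, -, hp, k, h6⟩ | h6
        · exact ⟨p, hp, k, h6 ▸ h5⟩
        · exact ⟨2, Nat.prime_two, 0, (PiNum.eq_one (PiNum.of_dvd hH.1 ((card_range_dvd f).trans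
            (card_subgroup_dvd_card _))) (PiNum.of_dvd h6 h5)).dvd⟩
      have := Fact.mk hp
      obtain ⟨j, -, hj⟩ := (Nat.dvd_prime_pow hp).1 h6
      have := CF.Coprime.isSolvable_of_isPGroup (IsPGroup.of_card hj)
      exact Group.isSolvable_of_ker_le_range (G' := (N i.castSucc).subgroupOf H)
        (inclusion (comap_mono (h2 i.castSucc_le_succ)))
        f.rangeRestrict fun x hx => ⟨⟨x.1, (QuotientGroup.eq_one_iff x.1.1).1
          (congrArg Subtype.val hx :)⟩, rfl⟩
  have h5 := hH' (Fin.last n)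
  rw [h1, top_subgroupOf] at h5
  let f := QuotientGroup.mk' (piCore π G)
  have : Group.IsSolvable (H.map f) := Group.isSolvable_of_surjective
    (f := (f.subgroupMap H).comp (⊤ : Subgroup H).subtype)
    ((f.subgroupMap_surjective H).comp fun x => ⟨⟨x, trivial⟩, rfl⟩)
  have h6 := (piNum_card_map hH.1 f).coprime (piCore_piNum (G := G ⧸ piCore π G))
  obtain ⟨t, ht⟩ := CF.Fgs2.Base.dolfi (H.map f) (piCore πᶜ _) le_normalizer_of_normal h6
  choose x hx using fun i => QuotientGroup.mk'_surjective _ (t i).1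
  have h7 := piCore_le_of_isPiHall hH
  have h8 : ∀ y : G, piCore π G ≤ MulAut.conj y • H := fun y g hg =>
    (mem_pointwise_smul_iff_inv_smul_mem).2 (h7 (by
      simpa using (inferInstance : (piCore π G).Normal).conj_mem' g hg y))
  refine ⟨x 0, x 1, le_antisymm (fun g hg => (QuotientGroup.eq_one_iff g).1 ?_)
    (le_inf (le_inf h7 (h8 _)) (h8 _))⟩
  refine CF.Coprime.eq_one_of_mem_of_coprime h6 ⟨g, hg.1.1, rfl⟩
    ((hs.quotient _).compl.centralizer_piCore_le (by rw [compl_compl, piCore_quotient_piCore])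
      (ht _ ⟨g, hg.1.1, rfl⟩ fun i => ?_))
  have h9 : (x i)⁻¹ * g * x i ∈ H := by
    have : g ∈ MulAut.conj (x i) • H := by
      fin_cases i
      exacts [hg.1.2, hg.2]
    simpa using mem_pointwise_smul_iff_inv_smul_mem.1 this
  have := CF.Coprime.eq_one_of_mem_of_coprime h6 ⟨_, mul_mem h9 (inv_mem hg.1.1), rfl⟩ (by
    simp only [map_mul, map_inv, hx, mul_assoc, f]
    refine mul_mem (inv_mem (t i).2) ?_
    rw [← mul_assoc]
    exact (inferInstance : (piCore πᶜ _).Normal).conj_mem _ (t i).2 _)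
  simp only [map_mul, map_inv, hx, f] at this
  rw [mul_inv_eq_one, mul_assoc, inv_mul_eq_iff_eq_mul] at this
  exact this

end Cfsg.Agent.S4373
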