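import Mathlib
import Cfsg.Agent.Fgs2.Base5
import Cfsg.Agent.Hyp.FTProof
import Cfsg.Statements.S4375

set_option autoImplicit false
open Cfsg

namespace Cfsg.Agent.S4375

/-- Let the finite group A of odd order act faithfully on the finite additive group V by group automorphisms, completely reducibly (every A-invariant subgroup has an A-invariant complement). Then there are v, w ∈ V such that only the identity of A fixes both. -/
theorem result {A V : Type*} [Group A] [Finite A]
    [AddCommGroup V] [Finite V] [DistribMulAction A V] [FaithfulSMul A V] (hA : Odd (Nat.card A))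
    (hcr : (∀ U : AddSubgroup V, (∀ a : A, ∀ v ∈ U, a • v ∈ U) → ∃ W : AddSubgroup V, (∀ a : A, ∀ w ∈ W, a • w ∈ W) ∧ U ⊓ W = ⊥ ∧ U ⊔ W = ⊤)) :
    ∃ v w : V, ∀ a : A, a • v = v → a • w = w → a = 1 := by
  open CF.Fgs2.Base in
  letI := rangeAct A V
  have hodd : Odd (Nat.card (MulAction.toPermHom A V).range) :=
    hA.of_dvd_nat (Subgroup.card_range_dvd _)
  obtain ⟨t, -, ht⟩ := p_odd (Nat.card V + 1) (MulAction.toPermHom A V).range V
    ⟨hodd, CF.Hyp.isSolvable_of_odd hodd⟩ (fun X _ hX => by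
      obtain ⟨W, h1, h2, h3⟩ := hcr X fun a v hv => hX ⟨_, a, rfl⟩ trivial v hv
      exact ⟨W, le_top, by rintro ⟨_, a, rfl⟩ _ v hv; exact h1 a v hv, h2, h3⟩) (Nat.lt_succ_self _)
  refine ⟨t 0, t 1, fun a h1 h2 => eq_of_smul_eq_smul (α := V) fun v => ?_⟩
  rw [one_smul]
  refine ht ⟨_, a, rfl⟩ trivial (fun i => ?_) v trivial
  fin_cases i
  exacts [h1, h2]

end Cfsg.Agent.S4375
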