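import Mathlib
import Cfsg.Statements.S4377

set_option autoImplicit false
open Cfsg

namespace Cfsg.Agent.S4377

theorem aux {G : Type*} [Group G] [Finite G] {n : ℕ} (hn : n ≠ 0) :
    ∑ m ∈ n.divisors, Nat.card {g : G // orderOf g = m} = Nat.card {g : G // g ^ n = 1} := by
  classical
  have := Fintype.ofFinite G
  simp only [Nat.card_eq_fintype_card, Fintype.card_subtype]
  exact sum_card_orderOf_eq_card_pow_eq_one hn

theorem aux0 {G : Type*} [Group G] [Finite G] :
    Nat.card {g : G // g ^ 0 = 1} = ∑ᶠ n : ℕ, Nat.card {g : G // orderOf g = n} := by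
  rw [finsum_eq_sum_of_support_subset (s := (Nat.card G).divisors), aux Nat.card_pos.ne']
  · simp
  · intro n hn
    obtain ⟨⟨g, rfl⟩⟩ := (Nat.card_ne_zero.1 hn).1
    exact Nat.mem_divisors.2 ⟨orderOf_dvd_natCard g, Nat.card_pos.ne'⟩

/-- Two finite groups have the same number of elements of each order if and only if, for every n, they have the same number of elements g with gⁿ = 1. -/
theorem result {G H : Type*} [Group G] [Finite G] [Group H] [Finite H] :
    (∀ n : ℕ, Nat.card {g : G // orderOf g = n} = Nat.card {h : H // orderOf h = n}) ↔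
      ∀ n : ℕ, Nat.card {g : G // g ^ n = 1} = Nat.card {h : H // h ^ n = 1} := by
  constructor
  · intro h n
    rcases eq_or_ne n 0 with rfl | hn
    · simp only [aux0, h]
    · simp only [← aux hn, h]
  · intro h n
    induction n using Nat.strong_induction_on with | h n ih =>
    rcases eq_or_ne n 0 with rfl | hn
    · have : IsEmpty {g : G // orderOf g = 0} := ⟨fun g => (orderOf_pos g.1).ne' g.2⟩
      have : IsEmpty {g : H // orderOf g = 0} := ⟨fun g => (orderOf_pos g.1).ne' g.2⟩
      rw [Nat.card_of_isEmpty, Nat.card_of_isEmpty]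
    · have := h n
      rw [← aux hn, ← aux hn, ← Nat.insert_self_properDivisors hn,
        Finset.sum_insert Nat.self_notMem_properDivisors,
        Finset.sum_insert Nat.self_notMem_properDivisors,
        Finset.sum_congr rfl fun m hm => ih m (Nat.mem_properDivisors.1 hm).2] at this
      omega

end Cfsg.Agent.S4377
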