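import Cfsg.Statements.S4381
import Cfsg.Agent.Coprime.Misc

set_option autoImplicit false
open Pointwise
open Cfsg

namespace Cfsg.Agent.S4381

open Subgroup CF.Coprime in
theorem exists_max {A G : Type*} [Group A] [Group G] [Finite G] [MulDistribMulAction A G]
    (U : Subgroup G) (hU : U ≠ ⊤) (hA : ∀ a : A, ∀ x ∈ U, a • x ∈ U) :
    ∃ M : Subgroup G, U ≤ M ∧ (M ≠ ⊤ ∧ (∀ a : A, ∀ x ∈ M, a • x ∈ M) ∧
      ∀ L : Subgroup G, M < L → (∀ a : A, ∀ x ∈ L, a • x ∈ L) → L = ⊤) := by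
  obtain ⟨M, hUM, hM⟩ := (Set.toFinite {M : Subgroup G | M ≠ ⊤ ∧ ∀ a : A, ∀ x ∈ M, a • x ∈ M}
    ).exists_le_maximal (a := U) ⟨hU, hA⟩
  refine ⟨M, hUM, hM.prop.1, hM.prop.2, fun L hL hAL => ?_⟩
  by_contra h
  exact hL.not_ge (hM.le_of_ge ⟨h, hAL⟩ hL.le)


/-- Let the finite group A act by automorphisms on the finite group G with the orders of A and G coprime, and assume that A or G is solvable. Call a proper A-invariant subgroup of G maximal A-invariant when no A-invariant subgroup lies strictly between it and G. Then all maximal A-invariant subgroups of G are conjugate under elements of the fixed-point subgroup C_G(A) if and only if G is a p-group for some prime p and A leaves invariant no subgroup strictly between the Frattini subgroup of G and G. In that case, if G is nontrivial, the Frattini subgroup is the only maximal A-invariant subgroup (a trivial G has none). -/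
theorem result {A G : Type*} [Group A] [Finite A]
    [Group G] [Finite G] [MulDistribMulAction A G] (hcop : (Nat.card A).Coprime (Nat.card G)) (hsol : Group.IsSolvable A ∨ Group.IsSolvable G) :
    ((∀ M N : Subgroup G, (M ≠ ⊤ ∧ (∀ a : A, ∀ x ∈ M, a • x ∈ M) ∧ ∀ L : Subgroup G, M < L → (∀ a : A, ∀ x ∈ L, a • x ∈ L) → L = ⊤) → (N ≠ ⊤ ∧ (∀ a : A, ∀ x ∈ N, a • x ∈ N) ∧ ∀ L : Subgroup G, N < L → (∀ a : A, ∀ x ∈ L, a • x ∈ L) → L = ⊤) →
        ∃ c : G, (∀ a : A, a • c = c) ∧ N = MulAut.conj c • M) ↔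
      ((∃ p : ℕ, p.Prime ∧ IsPGroup p G) ∧ ∀ L : Subgroup G, frattini G < L → (∀ a : A, ∀ x ∈ L, a • x ∈ L) → L = ⊤)) ∧
    (((∃ p : ℕ, p.Prime ∧ IsPGroup p G) ∧ ∀ L : Subgroup G, frattini G < L → (∀ a : A, ∀ x ∈ L, a • x ∈ L) → L = ⊤) →
      ∀ M : Subgroup G, (M ≠ ⊤ ∧ (∀ a : A, ∀ x ∈ M, a • x ∈ M) ∧ ∀ L : Subgroup G, M < L → (∀ a : A, ∀ x ∈ L, a • x ∈ L) → L = ⊤) ↔ (M = frattini G ∧ M ≠ ⊤)) := by
  let φ := MulDistribMulAction.toMulAut A G
  have hinv : ∀ H : Subgroup G, CF.Coprime.Inv φ ⊤ H ↔ ∀ a : A, ∀ x ∈ H, a • x ∈ H := fun H =>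
    CF.Coprime.inv_top_iff φ
  have hΦ : ∀ a : A, ∀ x ∈ frattini G, a • x ∈ frattini G :=
    (hinv _).mp (CF.Coprime.inv_of_characteristic φ ⊤ _)
  have h2 : ((∃ p : ℕ, p.Prime ∧ IsPGroup p G) ∧ ∀ L : Subgroup G, frattini G < L →
      (∀ a : A, ∀ x ∈ L, a • x ∈ L) → L = ⊤) →
      ∀ M : Subgroup G, (M ≠ ⊤ ∧ (∀ a : A, ∀ x ∈ M, a • x ∈ M) ∧ ∀ L : Subgroup G, M < L →
        (∀ a : A, ∀ x ∈ L, a • x ∈ L) → L = ⊤) ↔ (M = frattini G ∧ M ≠ ⊤) := by
    rintro ⟨-, h⟩ M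
    refine ⟨fun ⟨h1, h2, h3⟩ => ⟨?_, h1⟩, ?_⟩
    · have h4 : frattini G ≤ M := by
        by_contra h4
        refine h1 (CF.Solv.eq_top_of_sup_eq_top_of_le_frattini le_rfl (h3 _ (left_lt_sup.mpr h4) ?_))
        rw [← hinv, ← CF.Coprime.sdR_le_normalizer_iff, CF.Coprime.sdL_sup]
        exact CF.Coprime.le_normalizer_sup ((hinv _).mpr h2).le_normalizer
          ((hinv _).mpr hΦ).le_normalizer
      by_contra h5
      exact h1 (h M (lt_of_le_of_ne h4 (Ne.symm h5)) h2)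
    · rintro ⟨rfl, h1⟩
      exact ⟨h1, hΦ, h⟩
  refine ⟨⟨fun h => ?_, fun h M N hM hN => ⟨1, fun a => smul_one a, ?_⟩⟩, h2⟩
  · have hp : ∃ p : ℕ, p.Prime ∧ IsPGroup p G := by
      by_contra hp
      push Not at hp
      have hnt : (⊥ : Subgroup G) ≠ ⊤ := fun h0 => hp 2 Nat.prime_two fun g => ⟨0, by
        have : g ∈ (⊥ : Subgroup G) := h0 ▸ Subgroup.mem_top g
        simpa using this⟩
      obtain ⟨M, -, hM⟩ := exists_max (A := A) ⊥ hnt (by simp)
      refine hM.1 (top_le_iff.mp (CF.Coprime.le_of_forall_isSylowOf fun q hq _ => ?_))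
      have := Fact.mk hq
      obtain ⟨Q, hQ, hAQ⟩ := CF.Coprime.act_exists_inv_isSylowOf φ (CF.Coprime.inv_top φ ⊤)
        (CF.Coprime.coprime_sub hcop ⊤ ⊤) (CF.Coprime.solv_sub hsol ⊤ ⊤) q
      obtain ⟨N, hQN, hN⟩ := exists_max (A := A) Q (fun h0 => hp q hq (by
        have := hQ.isPGroup
        rw [h0] at this
        exact this.of_equiv Subgroup.topEquiv)) ((hinv _).mp hAQ)
      obtain ⟨c, -, rfl⟩ := h N M hN hM
      exact ⟨_, hQ.conj_smul (g := c) (Subgroup.le_normalizer (Subgroup.mem_top c)),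
        Subgroup.pointwise_smul_le_pointwise_smul_iff.mpr hQN⟩
    refine ⟨hp, fun L hL hAL => ?_⟩
    obtain ⟨p, hp, hG⟩ := hp
    have := Fact.mk hp
    by_contra hL'
    have hcp : (Nat.card A).Coprime p := by
      have hnt : Nontrivial G := by
        by_contra h0
        rw [not_nontrivial_iff_subsingleton] at h0
        exact hL' (Subsingleton.elim _ _)
      obtain ⟨k, hk, hk'⟩ := hG.nontrivial_iff_card.mp hnt
      exact hcop.coprime_dvd_right (hk' ▸ dvd_pow_self p hk.ne')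
    obtain ⟨W, h1, h3, h4, h5, h6⟩ := CF.Coprime.exists_invariant_complement_mod (p := p)
      (CF.Coprime.sdR φ ⊤) (CF.Coprime.sdL φ ⊤) (CF.Coprime.sdL φ (frattini G))
      (CF.Coprime.sdL φ L) (CF.Coprime.inv_top φ ⊤).le_normalizer ((hinv _).mpr hΦ).le_normalizer
      ((hinv _).mpr hAL).le_normalizer ((CF.Coprime.sdL_le_iff φ).mpr hL.le)
      ((CF.Coprime.sdL_le_iff φ).mpr le_top) (by
        rw [CF.Coprime.commutator_sdL_sdL, CF.Coprime.sdL_le_iff]
        exact CF.Solv.commutator_le_frattini_of_isPGroup hG) (by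
        rintro _ ⟨v, -, rfl⟩
        exact ⟨v ^ p, CF.Solv.pow_mem_frattini hG v, map_pow _ _ _⟩) (by
        rw [CF.Coprime.card_sdR, Subgroup.card_top]; exact hcp)
    obtain ⟨W, -, rfl⟩ := CF.Coprime.exists_sdL_eq φ h3
    rw [← CF.Coprime.sdL_inf] at h5
    rw [← CF.Coprime.sdL_sup] at h6
    have h5 := CF.Coprime.sdL_injective φ h5
    have h6 := CF.Coprime.sdL_injective φ h6
    rw [CF.Coprime.sdR_le_normalizer_iff, hinv] at h4
    obtain ⟨M, hLM, hM⟩ := exists_max (A := A) L hL' hAL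
    obtain ⟨N, hWN, hN⟩ := exists_max (A := A) W (by
      rintro rfl
      rw [inf_top_eq] at h5
      exact hL.ne' h5) h4
    obtain ⟨c, -, rfl⟩ := h M N hM hN
    have : M.Normal := Subgroup.Normal.of_commutator_le G
      ((CF.Solv.commutator_le_frattini_of_isPGroup hG).trans (hL.le.trans hLM))
    rw [Subgroup.Normal.conj_smul_eq_self] at hWN
    exact hM.1 (top_le_iff.mp (h6.ge.trans (sup_le hLM hWN)))
  · rw [((h2 h M).mp hM).1, ((h2 h N).mp hN).1, map_one, one_smul]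

end Cfsg.Agent.S4381
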