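import Cfsg.Statements.S4383
import Cfsg.Agent.Adn.A
import Cfsg.Agent.Solv.Hall

set_option autoImplicit false
open Pointwise
open Cfsg

namespace Cfsg.Agent.S4383

/-- A finite group with exactly two conjugacy classes of maximal subgroups is solvable and its order has exactly two prime divisors. -/
theorem result {G : Type*} [Group G] [Finite G]
    (M₁ M₂ : Subgroup G) (h1 : IsCoatom M₁) (h2 : IsCoatom M₂) (hne : ∀ g : G, M₂ ≠ MulAut.conj g • M₁)
    (hall : ∀ M : Subgroup G, IsCoatom M → ∃ g : G, M = MulAut.conj g • M₁ ∨ M = MulAut.conj g • M₂) :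
    Group.IsSolvable G ∧ (Nat.card G).primeFactors.card = 2 := by
  have hc : ∀ K : Subgroup G, K ≠ ⊤ →
      ∃ g : G, K ≤ MulAut.conj g • M₁ ∨ K ≤ MulAut.conj g • M₂ := by
    intro K hK
    obtain ⟨M, hM, hKM⟩ := (eq_top_or_exists_le_coatom K).resolve_left hK
    obtain ⟨g, rfl | rfl⟩ := hall M hM
    · exact ⟨g, Or.inl hKM⟩
    · exact ⟨g, Or.inr hKM⟩
  have hs : Group.IsSolvable G := CF.Adn.solv ⟨M₁, M₂, h1.1, h2.1, hc⟩
  refine ⟨hs, le_antisymm ?_ ?_⟩
  · obtain ⟨q₁, hq₁, d₁⟩ := Nat.exists_prime_and_dvd (mt Subgroup.index_eq_one.mp h1.1)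
    obtain ⟨q₂, hq₂, d₂⟩ := Nat.exists_prime_and_dvd (mt Subgroup.index_eq_one.mp h2.1)
    have hsub : (Nat.card G).primeFactors ⊆ {q₁, q₂} := by
      intro p hp
      have hp1 := Nat.prime_of_mem_primeFactors hp
      obtain ⟨H, hH1, hH2⟩ := CF.Solv.exists_isPiHall (G := G) {p}ᶜ
      have hH : H ≠ ⊤ := by
        rintro rfl
        refine hH1 p hp1 ?_ rfl
        rw [Subgroup.card_top]
        exact Nat.dvd_of_mem_primeFactors hp
      have key : ∀ (M : Subgroup G) (g : G) (q : ℕ), q.Prime → q ∣ M.index →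
          H ≤ MulAut.conj g • M → p = q := by
        intro M g q hq d h
        by_contra hne
        refine hH2 q hq (fun h => hne (Set.mem_singleton_iff.mp h).symm) ?_
        refine dvd_trans ?_ (Subgroup.index_dvd_of_le h)
        have e1 := (MulAut.conj g • M : Subgroup G).card_mul_index
        rw [CF.Adn.card_cj, ← M.card_mul_index] at e1
        rw [Nat.eq_of_mul_eq_mul_left Nat.card_pos e1]
        exact d
      obtain ⟨g, h | h⟩ := hc H hH
      · simp [key _ g _ hq₁ d₁ h]
      · simp [key _ g _ hq₂ d₂ h]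
    exact (Finset.card_le_card hsub).trans Finset.card_le_two
  · by_contra hlt
    have hpp : ∃ p k : ℕ, p.Prime ∧ Nat.card G = p ^ k := by
      rcases Nat.lt_succ_iff_lt_or_eq.mp (not_le.mp hlt) with h | h
      · have h0 : (Nat.card G).primeFactors = ∅ := Finset.card_eq_zero.mp (by omega)
        rcases Nat.primeFactors_eq_empty.mp h0 with h | h
        · exact absurd h Nat.card_pos.ne'
        · exact ⟨2, 0, Nat.prime_two, by simp [h]⟩
      · obtain ⟨p, k, hp, -, e⟩ := isPrimePow_nat_iff _ |>.mp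
          (isPrimePow_iff_card_primeFactors_eq_one.mpr h)
        exact ⟨p, k, hp, e.symm⟩
    obtain ⟨p, k, hp, e⟩ := hpp
    have : Fact p.Prime := ⟨hp⟩
    have hG : IsPGroup p G := IsPGroup.of_card e
    have hnil : Group.IsNilpotent G := hG.isNilpotent
    have nrm : ∀ M : Subgroup G, IsCoatom M → M.Normal :=
      ((Group.isNilpotent_of_finite_tfae (G := G)).out 0 2).mp hnil
    have n1 := nrm _ h1
    have n2 := nrm _ h2
    have hc' : ∀ K : Subgroup G, K ≠ ⊤ → K ≤ M₁ ∨ K ≤ M₂ := by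
      intro K hK
      obtain ⟨g, h⟩ := hc K hK
      rwa [Subgroup.Normal.conj_smul_eq_self, Subgroup.Normal.conj_smul_eq_self] at h
    have hne' : M₂ ≠ M₁ := by simpa using hne 1
    have a1 : ¬ M₁ ≤ M₂ := fun h => hne' (h1.le_iff_eq h2.1 |>.mp h)
    have a2 : ¬ M₂ ≤ M₁ := fun h => hne' (h2.le_iff_eq h1.1 |>.mp h).symm
    obtain ⟨x, x1, x2⟩ := SetLike.not_le_iff_exists.mp a1
    obtain ⟨y, y2, y1⟩ := SetLike.not_le_iff_exists.mp a2
    have hz : Subgroup.zpowers (x * y) = ⊤ := by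
      by_contra h
      rcases hc' _ h with h | h
      · exact y1 ((M₁.mul_mem_cancel_left x1).mp (h (Subgroup.mem_zpowers _)))
      · exact x2 ((M₂.mul_mem_cancel_right y2).mp (h (Subgroup.mem_zpowers _)))
    set z := x * y with hzd
    have ho : orderOf z = p ^ k := by
      rw [← e, ← Nat.card_zpowers, hz, Subgroup.card_top]
    have key : ∀ (M : Subgroup G) (u : G), M ≠ ⊤ → u ∈ M → u ∈ Subgroup.zpowers (z ^ p) := by
      intro M u hM hu
      have h0 : u ∈ Subgroup.zpowers z := hz ▸ Subgroup.mem_top u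
      obtain ⟨i, rfl⟩ := (mem_powers_iff_mem_zpowers.mpr h0)
      by_cases hi : p ∣ i
      · obtain ⟨j, rfl⟩ := hi
        exact ⟨j, by simp [pow_mul]⟩
      · exfalso
        apply hM
        have h3 : z ∈ Subgroup.zpowers (z ^ i) := by
          rw [mem_zpowers_pow_iff, ho]
          exact ((hp.coprime_iff_not_dvd.mpr hi).symm.pow_right k)
        rw [eq_top_iff, ← hz, Subgroup.zpowers_le]
        exact (Subgroup.zpowers_le.mpr hu) h3
    have h4 : z ∈ Subgroup.zpowers (z ^ p) :=
      Subgroup.mul_mem _ (key _ _ h1.1 x1) (key _ _ h2.1 y2)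
    rw [mem_zpowers_pow_iff, ho] at h4
    rcases Nat.eq_zero_or_pos k with rfl | hk
    · have : Subsingleton G := (Nat.card_eq_one_iff_unique.mp (by simpa using e)).1
      exact h1.1 (Subsingleton.elim _ _)
    · exact hp.ne_one ((Nat.gcd_eq_left (dvd_pow_self p hk.ne')).symm.trans h4)

end Cfsg.Agent.S4383
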