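import Cfsg.Statements.S4385
import Cfsg.Agent.Perm.Sims2
import Cfsg.Agent.Solv.Cores

set_option autoImplicit false
open Pointwise
open Cfsg

namespace Cfsg.Agent.S4385

open CF.Perm Subgroup DihedralGroup

theorem dih {H : Type*} [Group H] [Finite H] {n : ℕ} (hn : 2 ≤ n)
    (f : H ⧸ pCore 2 H ≃* DihedralGroup n) {P : Subgroup H} (hP : IsPGroup 2 P) (hs : ¬ 2 ∣ P.index) :
    pCore 2 H ≤ P ∧ (pCore 2 H).relIndex P = 2 ∧ ∃ h : H, P ⊔ MulAut.conj h • P = ⊤ ∧
      (P ⊓ MulAut.conj h • P).relIndex (MulAut.conj h • P) = 2 := by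
  have : NeZero n := ⟨by omega⟩
  have ho : Odd n := Nat.not_even_iff_odd.1 fun ⟨m, hm⟩ => by
    have h1 : ((m : ZMod n) + m) = 0 := by rw [← Nat.cast_add, ← hm, ZMod.natCast_self]
    have h2 : (r (m : ZMod n)) ∈ center (DihedralGroup n) := mem_center_iff.2 fun g => by
      cases g <;> simp [add_comm, sub_eq_add_neg, neg_eq_of_add_eq_zero_left h1]
    have := CF.Fgs1.normal_of_le_center (zpowers_le.2 h2)
    have h3 := CF.Solv.le_pCore (p := 2) (N := zpowers (r (m : ZMod n))) (IsPGroup.of_card (n := 1) (by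
      rw [Nat.card_zpowers, pow_one]
      refine orderOf_eq_prime (by rw [sq, r_mul_r, h1, one_def]) fun e => ?_
      have := Nat.le_of_dvd (by omega) ((ZMod.natCast_eq_zero_iff m n).1 (r.inj e))
      omega))
    rw [← CF.Solv.pCore_map_equiv f, CF.Solv.pCore_quotient_pCore, Subgroup.map_bot] at h3
    have := Nat.le_of_dvd (by omega) ((ZMod.natCast_eq_zero_iff m n).1 (r.inj (h3 (mem_zpowers _))))
    omega
  have h1 : pCore 2 H ≤ P := CF.Solv.pCore_le_sylow (hP.toSylow hs)
  set φ := f.toMonoidHom.comp (QuotientGroup.mk' (pCore 2 H))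
  have hφ : Function.Surjective φ := f.surjective.comp (QuotientGroup.mk'_surjective _)
  have hk : φ.ker = pCore 2 H := by
    rw [MonoidHom.ker_comp_of_injective _ _ f.injective, QuotientGroup.ker_mk']
  have h2 : Nat.card (P.map φ) = 2 := by
    have h2 := card_mul_index (P.map φ)
    obtain ⟨k, hk'⟩ := (hP.map φ).exists_card_eq
    rw [index_map_eq _ hφ (hk ▸ h1), nat_card, hk'] at h2
    rcases k with _ | _ | k
    · omega
    · exact hk'
    · have := Nat.odd_iff.1 ho
      rw [pow_succ, pow_succ, mul_assoc, mul_assoc, mul_comm, mul_assoc, mul_assoc] at h2; omega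
  have h3 : (pCore 2 H).relIndex P = 2 := by rw [← hk, relIndex_ker, h2]
  obtain ⟨⟨u, hu⟩, h4⟩ := exists_prime_orderOf_dvd_card' 2 h2.symm.dvd
  rw [orderOf_mk] at h4
  obtain ⟨u, hu, rfl⟩ := hu
  obtain ⟨i, hi⟩ : ∃ i, φ u = sr i := by
    rcases e : φ u with i | i
    · rw [e] at h4
      have := orderOf_dvd_of_pow_eq_one (show r i ^ n = 1 by
        rw [r_pow, ZMod.natCast_self, mul_zero, one_def])
      rw [h4] at this
      exact absurd ho (Nat.not_odd_iff_even.2 (even_iff_two_dvd.2 this))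
    · exact ⟨i, rfl⟩
  obtain ⟨m, hm⟩ := ho
  obtain ⟨h, hh⟩ := hφ (r m)
  have h5 : P ⊔ MulAut.conj h • P = ⊤ := by
    have h5 : u * MulAut.conj h u ∈ P ⊔ MulAut.conj h • P :=
      mul_mem (mem_sup_left hu) (mem_sup_right (smul_mem_pointwise_smul _ _ _ hu))
    have h6 : φ (u * MulAut.conj h u) = r 1 := by
      have : ((2 * m + 1 : ℕ) : ZMod n) = 0 := hm ▸ ZMod.natCast_self n
      simp only [MulAut.conj_apply, map_mul, map_inv, hi, hh, inv_r, r_mul_sr, sr_mul_r, sr_mul_sr]
      congr 1; push_cast at this; linear_combination -this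
    have h7 : ∀ j, r j ∈ (P ⊔ MulAut.conj h • P).map φ := fun j => by
      have := pow_mem (h6 ▸ mem_map_of_mem φ h5) j.val
      rwa [r_one_pow, ZMod.natCast_zmod_val] at this
    rw [← comap_map_eq_self (H := P ⊔ _) (f := φ) (hk.le.trans (h1.trans le_sup_left)), eq_top_iff]
    intro g _
    rw [mem_comap]
    rcases φ g with j | j
    · exact h7 j
    · have := mul_mem (hi ▸ mem_map_of_mem φ (mem_sup_left hu)) (h7 (j - i))
      rwa [sr_mul_r, add_sub_cancel] at this
  refine ⟨h1, h3, h, h5, ?_⟩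
  have h6 := relIndex_dvd_of_le_left (H := pCore 2 H) P (le_inf h1 (Normal.conj_smul_eq_self h (pCore 2 H) ▸
    pointwise_smul_le_pointwise_smul_iff.2 h1))
  rw [relIndex_inf_smul]
  refine ((Nat.dvd_prime Nat.prime_two).1 (h3 ▸ h6)).resolve_left fun e => ?_
  rw [smul_eq_of_le ((relIndex_eq_one.1 e).trans inf_le_right), sup_idem] at h5
  rw [h5, map_top_of_surjective _ hφ, card_top, nat_card] at h2
  omega

/-- Let H be a subgroup of a finite group G whose largest normal 2-subgroup O_2(H) is nontrivial and such that H/O_2(H) is a dihedral group of order at least 4. Let P be a Sylow 2-subgroup of H and S a Sylow 2-subgroup of G containing P. Suppose y ∈ S lies outside P, normalizes P, has y² in the product of P with the centralizer of P in G, and normalizes no non-identity normal subgroup of H contained in P. Then P has order 4, 8 or 16, and H modulo its largest normal subgroup of odd order is isomorphic to the four-group, to the symmetric group of degree 4, or to the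 direct product of the symmetric group of degree 4 with a group of order 2. -/
theorem result {G : Type*} [Group G] [Finite G]
    (H : Subgroup G) (hO : Cfsg.pCore 2 ↥H ≠ ⊥) (n : ℕ) (hn : 2 ≤ n) (hdih : Nonempty (↥H ⧸ Cfsg.pCore 2 ↥H ≃* DihedralGroup n))
    (P : Subgroup G) (hPH : P ≤ H) (hP : IsPGroup 2 P) (hPsyl : ¬ 2 ∣ P.relIndex H)
    (S : Sylow 2 G) (hPS : P ≤ (S : Subgroup G)) (y : G) (hyS : y ∈ (S : Subgroup G)) (hyP : y ∉ P)
    (hy2 : y ^ 2 ∈ P ⊔ Subgroup.centralizer (P : Set G)) (hyN : MulAut.conj y • P = P)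
    (hyQ : ∀ Q : Subgroup G, Q ≤ P → (Q.subgroupOf H).Normal → MulAut.conj y • Q = Q → Q = ⊥) :
    (Nat.card P = 4 ∨ Nat.card P = 8 ∨ Nat.card P = 16) ∧
    (Nonempty (↥H ⧸ Cfsg.oddCore ↥H ≃* Multiplicative (ZMod 2) × Multiplicative (ZMod 2)) ∨
     Nonempty (↥H ⧸ Cfsg.oddCore ↥H ≃* Equiv.Perm (Fin 4)) ∨
     Nonempty (↥H ⧸ Cfsg.oddCore ↥H ≃* Equiv.Perm (Fin 4) × Multiplicative (ZMod 2))) := by
  obtain ⟨f⟩ := hdih
  obtain ⟨h1, h2, ⟨h, hh⟩, h3, h4⟩ := dih hn f (P := P.subgroupOf H) hP.comap_subtype hPsyl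
  have h5 : ∀ Q : Subgroup H, (MulAut.conj (⟨h, hh⟩ : H) • Q).map H.subtype =
      MulAut.conj h • Q.map H.subtype := fun Q =>
    (Subgroup.map_map _ _ _).trans (Subgroup.map_map Q (MulAut.conj h).toMonoidHom H.subtype).symm
  have h6 : MulAut.conj (h * y) • P = MulAut.conj h • P := by rw [map_mul, mul_smul, hyN]
  replace h3 : P ⊔ MulAut.conj (h * y) • P = H := by
    simpa only [Subgroup.map_sup, h5, h6, map_subgroupOf_eq_of_le hPH, ← MonoidHom.range_eq_map,
      range_subtype] using congrArg (map H.subtype) h3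
  rw [← relIndex_map_map_of_injective _ _ H.subtype_injective, map_inf _ _ _ H.subtype_injective, h5,
    map_subgroupOf_eq_of_le hPH, ← h6] at h4
  have n1 : ∀ {g : G} {R : Subgroup G}, g ∈ normalizer (R : Set G) → MulAut.conj g • R = R :=
    CF.Sig.map_conj_eq_iff_mem_normalizer.2
  have h7 : ∀ R ≤ P, H ≤ normalizer (R : Set G) → MulAut.conj y • R = R → R = ⊥ := fun R r1 r2 =>
    hyQ R r1 ((normal_subgroupOf_iff_le_normalizer (r1.trans hPH)).2 r2)
  obtain ⟨t, x, ht, s, hx⟩ := exists_sq h4 (by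
      rintro _ ⟨z, hz, rfl⟩ e
      obtain ⟨k, hk⟩ := IsPGroup.iff_orderOf.1 hP ⟨z, hz⟩
      rw [orderOf_mk, ← (MulAut.conj (h * y)).orderOf_eq] at hk
      exact orderOf_eq_one_iff.1 (Nat.eq_one_of_dvd_coprimes (e.pow_right k) dvd_rfl hk.dvd) ▸ one_mem P)
    fun R r1 r2 r3 => by
      have r4 : H ≤ normalizer (R : Set G) := h3 ▸ sup_le r2 (r3 ▸ smul_le_normalizer r2)
      refine h7 R r1 r4 ((smul_left_cancel_iff (MulAut.conj h)).1 ?_)
      rw [← mul_smul, ← map_mul, r3, n1 (r4 hh)]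
  rw [hx, smul_seg s.shift] at h3
  replace h3 : seg x 1 (t + 1) = H := le_antisymm (seg_le.2 fun i _ _ => h3 ▸ by
    by_cases e : i = 1
    exacts [mem_sup_left (mem_seg (by omega) (by omega)), mem_sup_right (mem_seg (by omega) (by omega))])
    (h3 ▸ sup_le (seg_mono le_rfl (by omega)) (seg_mono (by omega) le_rfl))
  have hc := hx ▸ s.card t le_rfl
  have h8 := s.two ht (fun R r1 r2 => by
    rw [← hx] at r1
    have r3 : H ≤ normalizer (R : Set G) := h3.ge.trans ((seg_mono (by omega) le_rfl).trans r2)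
    have r4 : H ≤ normalizer ((MulAut.conj y • R :) : Set G) := by
      have := smul_le_normalizer (σ := MulAut.conj (h * y)) ((seg_mono le_rfl (by omega) :
        seg x 0 t ≤ _).trans r2)
      rw [smul_seg s.shift, zero_add, h3] at this
      have := smul_le_normalizer (σ := MulAut.conj h⁻¹) this
      rwa [n1 (le_normalizer (inv_mem hh)), ← mul_smul, ← map_mul, inv_mul_cancel_left] at this
    refine eq_bot_iff.2 (le_sup_left.trans (h7 (R ⊔ MulAut.conj y • R) (sup_le r1
      (hyN ▸ pointwise_smul_le_pointwise_smul_iff.2 r1))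
      ((le_inf r3 r4).trans (normalizer_inf_normalizer_le_normalizer_sup _ _)) ?_).le)
    rw [smul_sup, ← mul_smul, ← map_mul, ← sq, n1 (sup_le (hPH.trans r3) ((centralizer_le r1).trans
      (centralizer_le_normalizer _)) hy2), sup_comm]) (by
    rw [h3, ← hx]; exact Nat.not_even_iff_odd.1 (mt even_iff_two_dvd.1 hPsyl))
  have m : ∀ i : ℤ, 1 ≤ i → i ≤ t + 1 → x i ∈ H := fun i h h' => h3.le (mem_seg h h')
  have o : ∀ z : H, z * z = 1 → QuotientGroup.mk' (oddCore H) z = 1 → z = 1 := fun z z1 z2 =>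
    orderOf_eq_one_iff.1 (Nat.eq_one_of_dvd_coprimes CF.Solv.pPrimeCore_coprime
      (orderOf_dvd_natCard _ ((QuotientGroup.eq_one_iff _).1 z2)) (orderOf_dvd_of_pow_eq_one
        ((sq z).trans z1)))
  have sh : ∀ c, (hc : c ∈ H) → Sh (seg x 1 (t + 1)) (x 1) (x 2) c (x t) (x (t + 1)) →
      (c = 1 → Nonempty (H ⧸ oddCore H ≃* Equiv.Perm (Fin 4))) ∧
      (c ≠ 1 → Nonempty (H ⧸ oddCore H ≃* Equiv.Perm (Fin 4) × Multiplicative (ZMod 2))) := fun c hc s' => by
    have s1 := Sh.of_map H.subtype H.subtype_injective (H := ⊤) (a := ⟨_, m 1 le_rfl (by omega)⟩)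
      (b := ⟨_, m 2 (by omega) (by omega)⟩) (c := ⟨c, hc⟩) (d := ⟨_, m t (by omega) (by omega)⟩)
      (e := ⟨_, m (t + 1) (by omega) le_rfl⟩) (by simpa [← MonoidHom.range_eq_map, h3] using s')
    have s2 := s1.map (QuotientGroup.mk' (oddCore H)) fun e => s1.ne (o _ (s1.sq1 (mul_mem
      (Subgroup.subset_closure (by simp)) (Subgroup.subset_closure (by simp)))) e)
    rw [map_top_of_surjective _ (QuotientGroup.mk'_surjective _)] at s2
    have := normalizer_eq_top_iff.1 (eq_top_iff.2 s1.le_normalizer_six)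
    have s3 := s2.equiv (by
      rw [← map_mul, ← map_pow]
      exact (QuotientGroup.eq_one_iff _).2 (CF.Solv.le_pPrimeCore (by
        rw [Nat.card_zpowers]; exact Nat.coprime_two_right.2 s1.odd_six) (mem_zpowers _)))
    exact ⟨fun e => s3.1 (by subst e; exact map_one _), fun e => s3.2 fun e' => e (congrArg Subtype.val (o _ s1.cc e'))⟩
  rcases h8 with rfl | ⟨rfl, h8⟩ | ⟨rfl, h8⟩ | ⟨rfl, h8⟩
  · have := CF.Fgs1.card_mul_relIndex h1
    rw [h2, Nat.card_congr (subgroupOfEquivOfLe hPH).toEquiv, hc] at this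
    exact (hO (card_eq_one.1 (by omega))).elim
  · refine ⟨.inl hc, .inl ?_⟩
    have h9 : Commute (x 2) (x ((2 : ℕ) + 1)) := s.commute_iff _ _ 1 h8
    have h10 := s.pow_mem_seg ht
    rw [h3, ← hx] at h10
    set a : H := ⟨_, m 1 le_rfl (by omega)⟩
    set b : H := ⟨_, m 2 (by omega) (by omega)⟩
    set e : H := ⟨_, m ((2 : ℕ) + 1) (by omega) le_rfl⟩
    have g : Subgroup.closure {a, b, e} = ⊤ := map_injective H.subtype_injective (by
      rw [← MonoidHom.range_eq_map, range_subtype, MonoidHom.map_closure]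
      refine le_antisymm ((closure_le _).2 (by rintro _ ⟨z, -, rfl⟩; exact z.2))
        (h3.ge.trans (seg_le.2 fun i _ hi => Subgroup.subset_closure ?_))
      norm_num at hi; interval_cases i <;> simp [a, b, e, Set.image_insert_eq])
    have aa : a * a = 1 := Subtype.ext (s.mul_self ht _)
    have ee : e * e = 1 := Subtype.ext (s.mul_self ht _)
    have h11 : ∀ g : H, g * (a * e) * g⁻¹ = (a * e)⁻¹ → g ∈ normalizer (zpowers ((a * e) ^ 2) : Set H) :=
      fun g hg => by
        rw [← CF.Sig.map_conj_eq_iff_mem_normalizer, MonoidHom.map_zpowers]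
        simp only [MulEquiv.coe_toMonoidHom, MulAut.conj_apply, ← conj_pow, hg, inv_pow, zpowers_inv]
    have : (zpowers ((a * e) ^ 2)).Normal := normalizer_eq_top_iff.1 (eq_top_iff.2 (g.ge.trans
      ((closure_le _).2 (by
        rintro _ (rfl | rfl | rfl)
        · exact h11 _ (by rw [← mul_assoc, aa, one_mul, mul_inv_rev, inv_eq_of_mul_eq_one_right ee])
        · refine centralizer_le_normalizer _ ?_
          rintro _ ⟨k, rfl⟩
          exact (((show Commute (a * e) b from Subtype.ext (h8.mul_left h9.symm)).pow_left 2).zpow_left k).eq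
        · exact h11 _ (by rw [← mul_assoc, mul_inv_cancel_right, mul_inv_rev,
            inv_eq_of_mul_eq_one_right ee, inv_eq_of_mul_eq_one_right aa])))))
    have h12 : QuotientGroup.mk' (oddCore H) ((a * e) ^ 2) = 1 :=
      (QuotientGroup.eq_one_iff _).2 (CF.Solv.le_pPrimeCore (by
        rw [Nat.card_zpowers]
        refine ((Nat.prime_two.coprime_iff_not_dvd.2 hPsyl).symm).coprime_dvd_left
          (orderOf_dvd_of_pow_eq_one (Subtype.ext ?_))
        rw [← pow_mul, mul_comm, pow_mul, sq, coe_mul, coe_pow]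
        exact sq_eq_one_of_mem (s := {x 2}) (by simpa using s.mul_self ht 2) (by simp)
          (by simpa [seg, a, e] using h10)) (mem_zpowers _))
    have h13 : ∀ z : H ⧸ oddCore H, z * z = 1 := fun z => sq_eq_one_of_mem
      (s := QuotientGroup.mk' _ '' {a, b, e}) (by
        rintro _ ⟨_, rfl | rfl | rfl, rfl⟩ <;> rw [← map_mul, show _ * _ = (1 : H) from
          Subtype.ext (s.mul_self ht _), map_one]) (by
        have c1 := (show Commute a b from Subtype.ext h8).map (QuotientGroup.mk' (oddCore H))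
        have c2 := (show Commute b e from Subtype.ext h9).map (QuotientGroup.mk' (oddCore H))
        have c3 : Commute (QuotientGroup.mk' (oddCore H) a) (QuotientGroup.mk' (oddCore H) e) := by
          rw [commute_iff_eq, ← mul_inv_eq_one, ← map_mul, ← map_mul, ← map_inv, ← map_mul, mul_inv_rev,
            inv_eq_of_mul_eq_one_right ee, inv_eq_of_mul_eq_one_right aa, ← sq, h12]
        rintro _ ⟨_, rfl | rfl | rfl, rfl⟩ _ ⟨_, rfl | rfl | rfl, rfl⟩
        exacts [rfl, c1, c3, c1.symm, rfl, c2, c3.symm, c2.symm, rfl])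
      (by rw [← MonoidHom.map_closure, g, map_top_of_surjective _ (QuotientGroup.mk'_surjective _)]; trivial)
    obtain ⟨k, hk⟩ := (show IsPGroup 2 (H ⧸ oddCore H) from fun z => ⟨1, (sq z).trans (h13 z)⟩).exists_card_eq
    have h14 := card_eq_card_quotient_mul_card_subgroup (oddCore H)
    rw [← CF.Fgs1.card_mul_relIndex hPH, hc, hk] at h14
    have h15 := congrArg (padicValNat 2) h14
    rw [padicValNat.mul (by simp) (by rintro e; simp [e] at hPsyl), padicValNat.mul (by simp)
      Nat.card_pos.ne', padicValNat.eq_zero_of_not_dvd hPsyl, padicValNat.eq_zero_of_not_dvd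
      CF.Solv.not_dvd_card_pPrimeCore, padicValNat.prime_pow, padicValNat.prime_pow] at h15
    obtain rfl : k = 2 := by omega
    have := Finite.one_lt_card_iff_nontrivial.1 (hk.ge.trans_lt' (by norm_num))
    have : IsKleinFour (H ⧸ oddCore H) := ⟨hk, (Monoid.exponent_eq_prime_iff Nat.prime_two).2
      fun z hz => orderOf_eq_prime ((sq z).trans (h13 z)) hz⟩
    have : IsKleinFour (Multiplicative (ZMod 2) × Multiplicative (ZMod 2)) :=
      ⟨by simp, by simp [Monoid.exponent_prod]⟩
    exact IsKleinFour.nonempty_mulEquiv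
  · exact ⟨.inr (.inl hc), .inr (.inl ((sh 1 (one_mem _) h8).1 rfl))⟩
  · exact ⟨.inr (.inr hc), .inr (.inr ((sh _ (m 3 (by omega) (by omega)) h8).2 (s.ne_one ht 3)))⟩

end Cfsg.Agent.S4385
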