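import Mathlib
import Cfsg.Agent.Fgs1.PGroup
import Cfsg.Agent.Fgs2.Basic2
import Cfsg.Statements.S4387

set_option autoImplicit false
open Pointwise
open Cfsg

namespace Cfsg.Agent.S4387

/-- Let G be a non-trivial finite group in which any two maximal subgroups are conjugate. Then G is cyclic of prime-power order. -/
theorem result {G : Type*} [Group G] [Finite G] [Nontrivial G]
    (h : ∀ M N : Subgroup G, IsCoatom M → IsCoatom N → ∃ g : G, N = MulAut.conj g • M) :
    IsCyclic G ∧ IsPrimePow (Nat.card G) := by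
  obtain ⟨M, hM, -⟩ := (eq_top_or_exists_le_coatom (⊥ : Subgroup G)).resolve_left bot_ne_top
  obtain ⟨x, hx⟩ := CF.Fgs2.exists_forall_conj_notMem hM.1
  have hc : IsCyclic G := by
    rw [isCyclic_iff_exists_zpowers_eq_top]
    refine ⟨x, ?_⟩
    by_contra hne
    obtain ⟨N, hN, hle⟩ := (eq_top_or_exists_le_coatom _).resolve_left hne
    obtain ⟨g, rfl⟩ := h M N hM hN
    exact hx g (CF.Fgs2.mem_conj_smul_iff.1 (hle (Subgroup.mem_zpowers x)))
  refine ⟨hc, ?_⟩
  have key : ∀ q : ℕ, q.Prime → q ∣ Nat.card G → M.index = q := by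
    intro q hq hd
    obtain ⟨y, hy⟩ := hc.exists_ofOrder_eq_natCard
    have h1 : (Subgroup.zpowers (y ^ q)).index = q := by
      have := (Subgroup.zpowers (y ^ q)).card_mul_index
      rw [Nat.card_zpowers, orderOf_pow_of_dvd hq.ne_zero (hy ▸ hd), hy] at this
      refine Nat.eq_of_mul_eq_mul_left (Nat.div_pos (Nat.le_of_dvd Nat.card_pos hd) hq.pos) ?_
      rw [this, Nat.div_mul_cancel hd]
    have h2 : IsCoatom (Subgroup.zpowers (y ^ q)) := CF.Fgs1.isCoatom_of_index_prime (h1.symm ▸ hq)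
    obtain ⟨g, hg⟩ := h M _ hM h2
    rw [← h1, hg, CF.Solv.index_smul]
  rw [isPrimePow_iff_unique_prime_dvd]
  obtain ⟨p, hp, hd⟩ := Nat.exists_prime_and_dvd (Finite.one_lt_card (α := G)).ne'
  exact ⟨p, ⟨hp, hd⟩, fun q hq => (key q hq.1 hq.2).symm.trans (key p hp hd)⟩

end Cfsg.Agent.S4387
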