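import Cfsg.Statements.S4396
import Cfsg.Agent.FrobAut.Free

set_option autoImplicit false
open Cfsg

namespace Cfsg.Agent.S4396


/-- Let the finite group A act faithfully and linearly on a finite-dimensional vector space V over a field k, and suppose A is a Frobenius group with nilpotent kernel F (every Frobenius kernel is nilpotent) and complement H such that F fixes no nonzero vector. Then V is free as a module for H: there is a subspace W with V the direct sum of the translates hW, h ∈ H. (No assumption on the characteristic of k.) -/
theorem result {k V A : Type*} [Field k] [AddCommGroup V] [Module k V] [FiniteDimensional k V] [Group A] [Finite A] [DecidableEq A]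
    (ρ : Representation k A V) (hρ : Function.Injective ρ)
    (Fk Hc : Subgroup A) [Fk.Normal] (hHc : Cfsg.IsFrobeniusComplement Hc) (hker : Cfsg.frobeniusKernel Hc = (Fk : Set A)) (hnil : Group.IsNilpotent ↥Fk)
    (hCF : ∀ v : V, (∀ f ∈ Fk, ρ f v = v) → v = 0) :
    ∃ W : Submodule k V, DirectSum.IsInternal (fun h : ↥Hc => W.map (ρ (h : A))) := by
    have := Fintype.ofFinite Hc
    have hs : CF.Coprime.SemiReg Hc Fk := CF.Coprime.frob_semiReg hHc (by
      rw [eq_bot_iff]
      intro x hx
      have h1 : x ∈ Cfsg.frobeniusKernel Hc := hker ▸ hx.1
      rcases CF.Coprime.mem_frobeniusKernel_iff.1 h1 with h | h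
      · exact h
      · exact (h 1 (by simpa using hx.2)).elim)
    exact (CF.FrobAut.fr_of_semiReg Fk Hc hs _ V ρ hCF rfl).isInternal (ρ := fun h : Hc => ρ h)
      fun h => (ρ.apply_bijective _).1

end Cfsg.Agent.S4396
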