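import Mathlib
import Cfsg.Agent.Fgs2.MaxClass
import Cfsg.Statements.S4399

set_option autoImplicit false
open Cfsg

namespace Cfsg.Agent.S4399

/-- Let S be a finite 2-group whose commutator quotient S/[S,S] is a Klein four-group (order 4 and exponent 2). Then S itself has order 4, or S is dihedral of order at least 8, semidihedral of order at least 16 (order 2^(k+4) with an element a of order 2^(k+3) and an involution b with b a b⁻¹ = a^(2^(k+2)−1)), or generalized quaternion of order at least 8. -/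
theorem result {S : Type*} [Group S] [Finite S] (h2 : IsPGroup 2 S) (hab : Nat.card (Abelianization S) = 4)
    (hexp : ∀ x : Abelianization S, x ^ 2 = 1) :
    Nat.card S = 4 ∨
    ((∃ k : ℕ, Nonempty (S ≃* DihedralGroup (2 ^ (k + 2)))) ∨
      (∃ k : ℕ, Nat.card S = 2 ^ (k + 4) ∧ ∃ a b : S, orderOf a = 2 ^ (k + 3) ∧ orderOf b = 2 ∧ b * a * b⁻¹ = a ^ (2 ^ (k + 2) - 1)) ∨
      (∃ k : ℕ, Nonempty (S ≃* QuaternionGroup (2 ^ (k + 1))))) := by
  by_cases hna : IsMulCommutative S
  · left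
    rw [← hab]
    change _ = (commutator S).index
    rw [(commutator_eq_bot_iff S).2 hna, Subgroup.index_bot]
  right
  obtain ⟨n, a, c, hn, hc, ha, hi, hca, h⟩ := CF.Fgs2.taussky h2 hab hna
  rcases h.nonempty_equiv (by omega) ha hi hca with h1 | h1 | ⟨-, m, hm, h1, x, y, h3⟩
  · exact Or.inl ⟨n - 2, by rw [Nat.sub_add_cancel hn]; exact h1.2.2⟩
  · exact Or.inr (Or.inr ⟨n - 2, by rw [show n - 2 + 1 = n - 1 by omega]; exact h1⟩)
  · obtain ⟨k, rfl⟩ : ∃ k, m = k + 3 := ⟨m - 3, by omega⟩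
    exact Or.inr (Or.inl ⟨k, h1, x, y, h3⟩)

end Cfsg.Agent.S4399
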