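import Cfsg.Statements.S4402
import Cfsg.Agent.Th5.W2

set_option autoImplicit false
open Cfsg

namespace Cfsg.Agent.S4402
open CF.BG Subgroup
open scoped commutatorElement Pointwise

/-- Let S be a finite 2-group of sectional 2-rank at most 4 and P a proper subgroup isomorphic to the wreath product of the dihedral group of order 8 by a group of order 2 (equivalently, to a Sylow 2-subgroup of the symmetric group of degree 8; order 128). Then Z(S) = Z(P) has order 2, P has index 2 in its normalizer N_S(P), N_S(P)/Z(S) is again isomorphic to that wreath product, and every elementary abelian subgroup V of order 16 that is normal in P satisfies N_S(V) = P. -/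
theorem result {S : Type*} [Group S] [Finite S] (h2 : IsPGroup 2 S) (hr : Cfsg.SectionalPRankLE 2 4 S)
    (P : Subgroup S) (hPlt : P ≠ ⊤) (hP : ∃ T : Sylow 2 (Equiv.Perm (Fin 8)), Nonempty (↥P ≃* ↥(T : Subgroup (Equiv.Perm (Fin 8))))) :
    Subgroup.center S = (Subgroup.center ↥P).map P.subtype ∧ Nat.card ↥(Subgroup.center S) = 2 ∧
    P.relIndex (Subgroup.normalizer (P : Set S)) = 2 ∧
    (∃ (_ : ((Subgroup.center S).subgroupOf (Subgroup.normalizer (P : Set S))).Normal) (T : Sylow 2 (Equiv.Perm (Fin 8))),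
      Nonempty (↥(Subgroup.normalizer (P : Set S)) ⧸ (Subgroup.center S).subgroupOf (Subgroup.normalizer (P : Set S)) ≃*
        ↥(T : Subgroup (Equiv.Perm (Fin 8))))) ∧
    ∀ V : Subgroup S, V ≤ P → (∀ g ∈ P, ∀ v ∈ V, g * v * g⁻¹ ∈ V) → Cfsg.IsElementaryAbelian 2 V → Nat.card ↥V = 16 →
      Subgroup.normalizer (V : Set S) = P := by
  have := Fact.mk Nat.prime_two
  obtain ⟨T, ⟨e⟩⟩ := hP
  obtain ⟨e0⟩ := CF.Th5.Wr.sylow T
  let φ : CF.Th5.Wr →* S := P.subtype.comp (e0.trans e.symm).toMonoidHom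
  have hφ : Function.Injective φ := P.subtype_injective.comp (e0.trans e.symm).injective
  have hr' : φ.range = P := by
    rw [MonoidHom.range_comp, MonoidHom.range_eq_top_of_surjective _ (e0.trans e.symm).surjective,
      map_top_subtype]
  clear_value φ
  subst hr'
  have sr := CF.GH2.SR.of_sec hr
  have lt := Nil.lt_inf_norm (h2.to_subgroup ⊤).isNilpotent (lt_top_iff_ne_top.2 hPlt)
  rw [top_inf_eq] at lt
  obtain ⟨x, hx, x1⟩ := Set.not_subset.1 lt.not_ge
  have ce := CF.Th5.Wr.center_eq hφ sr h2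
  refine ⟨by rw [center_map_subtype, ce, CF.Th5.Wr.center_range hφ],
    by rw [ce, CF.Th5.Wr.card_z hφ], ?_, ⟨inferInstance, T, ?_⟩, fun V hV hn hE hc => ?_⟩
  · refine index_eq_two_iff.2 ⟨⟨x, hx⟩, fun b => ?_⟩
    by_cases c : (b : S) ∈ φ.range
    · exact Or.inr ⟨c, fun h => x1 ((φ.range.mul_mem_cancel_left c).1 h)⟩
    · exact Or.inl ⟨CF.Th5.Wr.mul_mem_range hφ sr h2 b.2 hx c x1, c⟩
  · exact ⟨(CF.Th5.Wr.quot_iso hφ sr h2 hx x1).some.trans e0⟩
  · have e1 : (V.comap φ).map φ = V := map_comap_eq_self hV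
    rw [← e1]
    refine CF.Th5.Wr.norm_eq hφ sr h2 ⟨fun g v hv => ?_, fun u hu v hv => hφ ?_, fun v hv => hφ ?_,
      by rw [← card_map hφ, e1, hc]⟩
    · simpa using hn _ ⟨g, rfl⟩ _ hv
    · rw [map_mul, map_mul]; exact (Abel.of_comm hE.1).mul_comm hu hv
    · rw [map_mul, map_one, ← sq]; exact hE.2 _ hv

end Cfsg.Agent.S4402
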