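import Cfsg.Statements.S4403
import Cfsg.Agent.Pgp.C

set_option autoImplicit false
open Cfsg

namespace Cfsg.Agent.S4403


/-- Let K be a finite group, p a prime dividing its order with O_{p'}(K) = 1 (no nontrivial normal subgroup of order prime to p), and P a cyclic Sylow p-subgroup of K. Then either P is normal and self-centralizing in K with K/P cyclic of order dividing p − 1 (so K is the semidirect product of P by a group of automorphisms of P of order dividing p − 1), or the generalized Fitting subgroup F*(K) is a non-abelian simple group and p does not divide the index of F*(K) in K. -/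
theorem result {K : Type*} [Group K] [Finite K] (p : ℕ) [Fact p.Prime] (hp : p ∣ Nat.card K) (hO : Cfsg.pPrimeCore p K = ⊥)
    (P : Sylow p K) (hP : IsCyclic ↥(P : Subgroup K)) :
    ((P : Subgroup K).Normal ∧ Subgroup.centralizer ((P : Subgroup K) : Set K) = (P : Subgroup K) ∧
      (∀ (_ : (P : Subgroup K).Normal), IsCyclic (K ⧸ (P : Subgroup K))) ∧ (P : Subgroup K).index ∣ p - 1) ∨
    (IsSimpleGroup ↥(Cfsg.generalizedFittingSubgroup K) ∧ ¬ IsMulCommutative ↥(Cfsg.generalizedFittingSubgroup K) ∧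
      ¬ p ∣ (Cfsg.generalizedFittingSubgroup K).index) := by
  have hq : p.Prime := Fact.out
  have s := CF.BG.syl_sylow_top P
  rw [CF.BG.pPrimeCore_eq hq] at hO
  open CF.BG CF.BG2 CF.Pgp in
  by_cases h1 : 𝐎 {p} (⊤ : Subgroup K) = ⊥
  · open CF.BG CF.BG2 CF.Pgp in
    obtain ⟨a, b, c⟩ := fst_of_cyc hq s hP hO h1 fun e => hq.one_lt.ne' (Nat.dvd_one.1 (by
      rwa [← Subgroup.card_top, e, Subgroup.card_bot] at hp))
    rw [CF.Sig.Fst_top] at a b c
    exact .inr ⟨a, fun d => b (.of_comm d), Subgroup.relIndex_top_right (H := generalizedFittingSubgroup K) ▸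
      (s.idx_of_le c).not_dvd' hq rfl⟩
  open CF.BG CF.BG2 CF.Pgp in
  have z := (Cyc.mono hP s.O_le).elem_Om' (O_pi _ _) h1
  open CF.BG CF.BG2 CF.Pgp in
  have n := (O_normal {p} (⊤ : Subgroup K)).Om p
  open CF.BG CF.BG2 CF.Pgp in
  have e := cent_eq_of_cyc s hP hO (z.mono s.O_le) n.norm
  have d := z.relIndex_cent_dvd n.norm
  generalize Cfsg.omegaOne p (Cfsg.piCoreOf {p} (⊤ : Subgroup K)) = Z at *
  rw [top_inf_eq] at e
  have := CF.BG.normalIn_top.1 n
  rw [e, Subgroup.relIndex_top_right] at d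
  refine .inl ⟨e ▸ inferInstance, le_antisymm ((CF.BG.cent_anti (z.le.trans s.O_le)).trans e.le)
    (CF.BG.Cyc.abel hP), fun _ => ?_, d⟩
  have := z.cyc
  have : Fact (Nat.card Z).Prime := ⟨z.card_prime⟩
  have : IsCyclic (MulAut Z) := (IsCyclic.mulAutMulEquiv Z).isCyclic.2 inferInstance
  have k : (P : Subgroup K) = (MulAut.conjNormal (H := Z)).ker := by
    rw [← e]
    ext g
    simp only [MonoidHom.mem_ker, MulEquiv.ext_iff, Subtype.ext_iff, MulAut.conjNormal_apply,
      MulAut.one_apply, Subtype.forall, CF.BG.mem_cent, mul_inv_eq_iff_eq_mul]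
    exact forall₂_congr fun _ _ => eq_comm
  exact isCyclic_of_injective (QuotientGroup.lift _ _ k.le) ((QuotientGroup.injective_lift_iff _ _ k.le).2 k)

end Cfsg.Agent.S4403
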