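import Cfsg.Statements.S4404
import Cfsg.Agent.Th5.B

set_option autoImplicit false
open Cfsg

namespace Cfsg.Agent.S4404
open CF.BG Subgroup
open scoped commutatorElement Pointwise

/-- Let S be a finite solvable group and M a normal elementary abelian 2-subgroup of S. Suppose S contains an elementary abelian subgroup of order p³ for some odd prime p, and a cyclic 3-subgroup Q such that the cubes of the elements of Q centralize M and the commutator subgroup [Q, M] has order 4 (a four-group inside M). Then S contains an elementary abelian subgroup F of order r³, for some odd prime r, whose centralizer of [Q, M] in F — the subgroup C_F([Q, M]) — is not cyclic. -/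
theorem result {S : Type*} [Group S] [Finite S]
    [Group.IsSolvable S] (M : Subgroup S) [M.Normal] (hM : Cfsg.IsElementaryAbelian 2 M)
    (p : ℕ) (hp : p.Prime) (hp2 : p ≠ 2) (E : Subgroup S) (hE : Cfsg.IsElementaryAbelian p E) (hE3 : Nat.card ↥E = p ^ 3)
    (Q : Subgroup S) (hQc : IsCyclic ↥Q) (hQ3 : IsPGroup 3 ↥Q)
    (hQ1 : ∀ x ∈ Q, x ^ 3 ∈ Subgroup.centralizer (M : Set S)) (hQM : Nat.card ↥⁅Q, M⁆ = 4) :
    ∃ (r : ℕ) (F : Subgroup S), r.Prime ∧ r ≠ 2 ∧ Cfsg.IsElementaryAbelian r F ∧ Nat.card ↥F = r ^ 3 ∧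
      ¬ IsCyclic ↥(F ⊓ Subgroup.centralizer ((⁅Q, M⁆ : Subgroup S) : Set S)) := by
  have s : Sol (⊤ : Subgroup S) := inferInstance
  have qp : PiGrp {3} Q := piGrp_of_isPGroup (by norm_num) hQ3
  obtain ⟨H, hH, QH⟩ := s.exists_hall_le (π := {2}ᶜ) le_top (qp.of_single_ne (by norm_num))
  have e : Elem p 3 E ⊤ := Elem.of_isEA hp le_top hE hE3
  obtain ⟨g, -, hg⟩ := hH.cj_le s le_top (e.pi.of_single_ne hp2)
  obtain ⟨x, rfl⟩ := Cyc.exists_gen hQc
  have k : CF.Th5.Ctx H M := ⟨s.mono le_top, Nat.odd_iff.2 (by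
    have := (piNat_compl_single Nat.prime_two).1 hH.pi
    omega), Abelem.of_isEA Nat.prime_two hM, le_top.trans (normalIn_top.2 inferInstance).norm⟩
  rw [commutator_comm] at hQM ⊢
  obtain ⟨r, F, f, c⟩ := k.main ⟨QH (mem_zpowers x), piGrp_zpowers.1 qp, hQM⟩ ((e.cj g).of_le hg)
  exact ⟨r, F, f.prime, ne_two_of_odd k.odd f.dvd', f.ab.isEA, f.card, c⟩

end Cfsg.Agent.S4404
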