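import Cfsg.Statements.S4405
import Cfsg.Agent.LX.Basic
import Cfsg.Agent.Loc.CD
import Cfsg.Agent.Invol.BaerSuzuki
import Cfsg.Agent.Invol.Dihedral
import Cfsg.Agent.Solv.Fitting
import Cfsg.Agent.Char.Integral
import Cfsg.Agent.Transfer.SylowIn

set_option autoImplicit false
open Cfsg

namespace Cfsg.Agent.S4405

open Subgroup CF.Loc CF.LX CF.Even


/-- Let G be a finite group of order 320 = 64·5 whose largest normal 2-subgroup H = O₂(G) equals the Fitting subgroup F(G) and is extraspecial of order 32 containing no elementary abelian subgroup of order 8 (so H is the central product of a quaternion group and a dihedral group of order 8). If T is an involution of G outside H whose centralizer in H contains an elementary abelian subgroup of order 4, then C_H(T) itself is elementary abelian of order 4. -/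
theorem result {G : Type*} [Group G] [Finite G]
    (hG : Nat.card G = 320) (hHF : Cfsg.pCore 2 G = Cfsg.fittingSubgroup G)
    (hex : Cfsg.IsExtraspecial 2 ↥(Cfsg.pCore 2 G)) (h32 : Nat.card ↥(Cfsg.pCore 2 G) = 32)
    (hminus : ∀ A : Subgroup G, A ≤ Cfsg.pCore 2 G → Cfsg.IsElementaryAbelian 2 A → Nat.card ↥A ≤ 4)
    (T : G) (hT : orderOf T = 2) (hTH : T ∉ Cfsg.pCore 2 G)
    (V : Subgroup G) (hV : V ≤ Cfsg.pCore 2 G ⊓ Subgroup.centralizer ({T} : Set G)) (hV4 : Nat.card ↥V = 4) (hVe : Cfsg.IsElementaryAbelian 2 V) :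
    Nat.card ↥(Cfsg.pCore 2 G ⊓ Subgroup.centralizer ({T} : Set G)) = 4 ∧
      Cfsg.IsElementaryAbelian 2 (Cfsg.pCore 2 G ⊓ Subgroup.centralizer ({T} : Set G)) := by
  have : Fact (Nat.Prime 5) := ⟨by norm_num⟩
  obtain ⟨z, h⟩ := exists_ex hex
  have hn : ∀ g : G, g ∈ 𝐍(pCore 2 G) := fun g => le_normalizer_of_normal (mem_top g)
  have sol : Group.IsSolvable G := CF.Char.isSolvable_of_card_primeFactors_le_two (by
    rw [hG]; decide +kernel)
  have cH : 𝐂(pCore 2 G) ≤ pCore 2 G := hHF ▸ CF.Solv.centralizer_fitting_le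
  have TT := CF.Invol.mul_self_of_orderOf hT
  have Ti := CF.Invol.inv_eq_of_orderOf hT
  obtain ⟨d, d5, Td⟩ : ∃ d : G, orderOf d = 5 ∧ T * d * T⁻¹ = d⁻¹ := by
    by_contra hd
    refine hTH (le_pCore (CF.Invol.baer_suzuki_elem (p := 2) (x := T) fun g => ?_)
      (subset_normalClosure rfl))
    have h2 := (CF.Invol.orderOf_conj g T).trans hT
    have c := CF.Invol.card_closure_pair hT h2
    have d1 := card_subgroup_dvd_card (closure {T, g * T * g⁻¹})
    have n5 : ¬ 5 ∣ orderOf (T * (g * T * g⁻¹)) := fun k => hd ⟨_, orderOf_pow_orderOf_div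
      (orderOf_pos _).ne' k, CF.Invol.conj_pow_of_inverts (CF.Invol.left_inverts_mul TT
        (CF.Invol.mul_self_of_orderOf h2)) _⟩
    have : Nat.card (closure {T, g * T * g⁻¹}) ∣ 2 ^ 6 :=
      (Nat.Coprime.dvd_mul_right (k := Nat.card (closure {T, g * T * g⁻¹})) (m := 2 ^ 6) (n := 5) (by
        rw [c, Nat.coprime_comm, Nat.Prime.coprime_iff_not_dvd (by norm_num)]; omega)).1
        (d1.trans (by rw [hG]; norm_num))
    obtain ⟨k, -, e⟩ := (Nat.dvd_prime_pow Nat.prime_two).1 this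
    exact IsPGroup.of_card e
  generalize pCore 2 G = H at *
  have cz : ∀ g : G, g * z * g⁻¹ = z := fun g => h.conj_z (hn g)
  have cz' : ∀ g : G, ∀ y ∈ zpowers z, g * y * g⁻¹ = y := fun g y hy => by
    rcases h.mem_z.1 hy with rfl | rfl
    exacts [by group, cz g]
  have c2 : Nat.card ↥(H ⊓ 𝐂₁(d)) ≤ 2 := by
    have h1 := CF.Transfer.card_modEq_card_inf_centralizer (q := 5) (R := zpowers d) (Q := H)
      (isPGroup_zpowers_of_orderOf (k := 1) d5) (zpowers_le.2 (hn d))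
    rw [centralizer_zpowers, Nat.ModEq, h32] at h1
    have h3 : Nat.card ↥(H ⊓ 𝐂₁(d)) ∣ 2 ^ 5 := (card_dvd_of_le inf_le_left).trans (h32 ▸ dvd_rfl)
    obtain ⟨k, hk, e⟩ := (Nat.dvd_prime_pow Nat.prime_two).1 h3
    interval_cases k <;> rw [e] at h1 <;> norm_num at h1
    · exact e.le
    · have k := eq_of_le_of_card_ge (inf_le_left : H ⊓ 𝐂₁(d) ≤ H) (by omega)
      have := orderOf_dvd_natCard _ (cH fun y hy => mem_c1.1 (k.ge hy).2)
      rw [d5, h32] at this
      omega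
  let K : G → Subgroup G := fun t =>
    { carrier := {y | y ∈ H ∧ t * y * t⁻¹ * y⁻¹ ∈ zpowers z}
      one_mem' := ⟨one_mem _, by simp⟩
      mul_mem' := fun {a b} ha hb => ⟨mul_mem ha.1 hb.1, by
        have := mul_mem ha.2 ((cz' a _ hb.2).symm ▸ hb.2 : a * (t * b * t⁻¹ * b⁻¹) * a⁻¹ ∈ zpowers z)
        convert this using 1; group⟩
      inv_mem' := fun {a} ha => ⟨inv_mem ha.1, by
        have := (cz' a⁻¹ _ (inv_mem ha.2)).symm ▸ inv_mem ha.2
        convert this using 1; group⟩ }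
  have cK : Nat.card (K T) ≤ 8 := by
    have e1 : Nat.card (K T) ≤ Nat.card (K (d * T * d⁻¹)) :=
      Nat.card_le_card_of_injective (fun y => ⟨d * y * d⁻¹, conj_mem_of_mem_normalizer (hn d) y.2.1, by
        have := (cz' d _ y.2.2).symm ▸ y.2.2
        convert this using 1; group⟩) fun a b e => Subtype.ext (by simpa using e)
    have e2 := card_mul_le_of_le (A := K T) (B := K (d * T * d⁻¹)) (L := H) (fun _ k => k.1) fun _ k => k.1
    have e3 : K T ⊓ K (d * T * d⁻¹) ≤ H ⊓ 𝐂₁(d) := fun y hy => by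
      refine ⟨hy.1.1, ?_⟩
      have f : d * T * d⁻¹ * T = d * d := by
        calc _ = d * (T * d * T⁻¹)⁻¹ * (T * T) := by group
          _ = _ := by rw [Td, TT]; group
      have k : d * d * y * (d * d)⁻¹ * y⁻¹ ∈ zpowers z := by
        have := mul_mem ((cz' (d * T * d⁻¹) _ hy.1.2).symm ▸ hy.1.2) hy.2.2
        rw [← f]
        convert this using 1; group
      have k2 : d * d * (d * d) * y * (d * d * (d * d))⁻¹ = y := by
        rcases h.mem_z.1 k with e | e
        · have e := mul_inv_eq_one.1 e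
          calc _ = d * d * (d * d * y * (d * d)⁻¹) * (d * d)⁻¹ := by group
            _ = y := by rw [e, e]
        · have e := mul_inv_eq_iff_eq_mul.1 e
          calc _ = d * d * (d * d * y * (d * d)⁻¹) * (d * d)⁻¹ := by group
            _ = y := by rw [e, conj_mul_conj, cz, e, ← mul_assoc, h.zz, one_mul]
      have d4 : d * d * (d * d) = d⁻¹ := eq_inv_of_mul_eq_one_left (by
        rw [← pow_orderOf_eq_one d, d5]; simp only [pow_succ, pow_zero, one_mul, mul_assoc])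
      rw [d4] at k2
      exact mem_c1.2 (Commute.inv_left_iff.1 (conj_eq_iff.1 k2)).symm
    have e4 := (card_le_of_le e3).trans c2
    rw [h32] at e2
    nlinarith
  have CK : H ⊓ 𝐂₁(T) ≤ K T := fun y hy => ⟨hy.1, by
    rw [← mem_c1.1 hy.2]; simp⟩
  have c4 : Nat.card ↥(H ⊓ 𝐂₁(T)) ≤ 4 := by
    by_contra hc
    have c8 : Nat.card ↥(H ⊓ 𝐂₁(T)) = 8 := by
      have h3 : Nat.card ↥(H ⊓ 𝐂₁(T)) ∣ 2 ^ 5 := (card_dvd_of_le inf_le_left).trans (h32 ▸ dvd_rfl)
      have := (card_le_of_le CK).trans cK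
      obtain ⟨k, hk, e⟩ := (Nat.dvd_prime_pow Nat.prime_two).1 h3
      interval_cases k <;> omega
    have e := eq_of_le_of_card_ge CK (by omega)
    have i4 : Nat.card (H ⧸ (H ⊓ 𝐂₁(T)).subgroupOf H) = 4 := by
      have := card_eq_card_quotient_mul_card_subgroup ((H ⊓ 𝐂₁(T)).subgroupOf H)
      rw [h32, Nat.card_congr (subgroupOfEquivOfLe inf_le_left).toEquiv, c8] at this
      omega
    have mem : ∀ y ∈ H, ∀ u ∈ zpowers z, u * (y * T * y⁻¹ * T) ∈ H ⊓ 𝐂₁(T) ∧
        u * (y * T * y⁻¹ * T) * (u * (y * T * y⁻¹ * T)) = 1 := fun y hy u hu => by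
      have m : y * T * y⁻¹ * T ∈ H := by
        have := mul_mem hy (conj_mem_of_mem_normalizer (hn T) (inv_mem hy))
        rwa [Ti, ← mul_assoc, ← mul_assoc] at this
      have i : T * (y * T * y⁻¹ * T) * T⁻¹ = (y * T * y⁻¹ * T)⁻¹ := by
        simp only [mul_inv_rev, Ti, inv_inv, mul_assoc, TT, mul_one]
      generalize y * T * y⁻¹ * T = c at m i
      have mc : c ∈ H ⊓ 𝐂₁(T) := e.ge ⟨m, by rw [i, ← mul_inv_rev]; exact inv_mem (h.sq_mem m)⟩
      have cc : c * c = 1 := by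
        rw [← mem_c1.1 mc.2, mul_inv_cancel_right] at i
        exact mul_eq_one_iff_eq_inv.2 i
      refine ⟨mul_mem ⟨h.z_le hu, mem_c1.2 (conj_eq_iff.1 (cz' T u hu)).symm⟩ mc, ?_⟩
      calc _ = u * (c * u * c⁻¹) * (c * c) := by group
        _ = 1 := by rw [cz' c u hu, cc]; rcases h.mem_z.1 hu with rfl | rfl <;> simp [h.zz]
    let F : (H ⧸ (H ⊓ 𝐂₁(T)).subgroupOf H) × zpowers z → {c : ↥(H ⊓ 𝐂₁(T)) // (c : G) * c = 1} :=
      fun p => ⟨⟨_, (mem _ p.1.out.2 _ p.2.2).1⟩, (mem _ p.1.out.2 _ p.2.2).2⟩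
    have inj : Function.Injective F := fun ⟨p, u⟩ ⟨q, v⟩ k => by
      have k : (u : G) * (p.out * T * (p.out : G)⁻¹ * T) = v * (q.out * T * (q.out : G)⁻¹ * T) :=
        congrArg (fun c => (c.1 : G)) k
      have k1 : ((p.out : G)⁻¹ * q.out) * T * ((p.out : G)⁻¹ * q.out)⁻¹ = (v : G)⁻¹ * u * T := by
        calc _ = (p.out : G)⁻¹ * ((v : G)⁻¹ * (v * (q.out * T * (q.out : G)⁻¹ * T))) * T⁻¹ * p.out := by
              group
          _ = (p.out : G)⁻¹ * ((v : G)⁻¹ * u) * (p.out : G)⁻¹⁻¹ * T := by rw [← k]; group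
          _ = _ := by rw [cz' _ _ (mul_mem (inv_mem v.2) u.2)]
      have k2 : (p.out : G)⁻¹ * q.out ∈ H ⊓ 𝐂₁(T) := e.ge ⟨mul_mem (inv_mem p.out.2) q.out.2, by
        have := (cz' T _ (mul_mem (inv_mem v.2) u.2)).symm ▸ mul_mem (inv_mem v.2) u.2
        convert this using 1
        calc _ = T * ((p.out : G)⁻¹ * q.out * T * ((p.out : G)⁻¹ * q.out)⁻¹) := by rw [Ti]; group
          _ = _ := by rw [k1, Ti]; group⟩
      rw [conj_eq_iff.2 (mem_c1.1 k2.2)] at k1
      exact Prod.ext (by rw [← p.out_eq, ← q.out_eq]; exact QuotientGroup.eq.2 k2)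
        (Subtype.ext (inv_mul_eq_one.1 (by simpa using k1.symm)).symm)
    have c := Nat.card_le_card_of_injective F inj
    rw [Nat.card_prod, i4, h.card_z, show 4 * 2 = 8 from rfl, ← c8] at c
    have sq : ∀ y ∈ H ⊓ 𝐂₁(T), y * y = 1 := fun y hy => by
      obtain ⟨k, hk⟩ := ((Nat.bijective_iff_injective_and_card
        (Subtype.val : {c : ↥(H ⊓ 𝐂₁(T)) // (c : G) * c = 1} → _)).2 ⟨Subtype.val_injective,
          le_antisymm (Nat.card_le_card_of_injective _ Subtype.val_injective) c⟩).2 ⟨y, hy⟩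
      have := k.2
      rwa [hk] at this
    exact hc (hminus _ inf_le_left ⟨⟨⟨fun a b => Subtype.ext (by
      have := inv_eq_of_mul_eq_one_right (sq _ (mul_mem a.2 b.2))
      rwa [mul_inv_rev, inv_eq_of_mul_eq_one_right (sq _ a.2), inv_eq_of_mul_eq_one_right (sq _ b.2),
        eq_comm] at this)⟩⟩,
      fun a ha => (pow_two a).trans (sq a ha)⟩)
  rw [← eq_of_le_of_card_ge hV (c4.trans hV4.ge)]
  exact ⟨hV4, hVe⟩

end Cfsg.Agent.S4405
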