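import Mathlib
import Cfsg.Agent.Small.Basic
import Cfsg.Statements.S4406

set_option autoImplicit false
open Cfsg

namespace Cfsg.Agent.S4406

theorem t1 : ∀ s : alternatingGroup (Fin 4), s ^ 16 = 1 → s * s = 1 := by decide +kernel

theorem t2 : ∀ s : alternatingGroup (Fin 4), s * s = 1 → s ≠ 1 →
    ∀ t : alternatingGroup (Fin 4), t * t = 1 → t ≠ 1 → s ≠ t →
    ∀ a : alternatingGroup (Fin 4), a ^ 3 = 1 → a ≠ 1 →
    (a * s * a⁻¹ = t ∧ a * t * a⁻¹ = s * t) ∨ (a⁻¹ * s * a⁻¹⁻¹ = t ∧ a⁻¹ * t * a⁻¹⁻¹ = s * t) := by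
  decide +kernel

theorem t3 : Nat.card (alternatingGroup (Fin 4)) = 12 := by
  rw [Nat.card_eq_fintype_card]; decide +kernel

/-- In the direct product P = A₄ × A₄, let X be the Sylow 2-subgroup, X₁ and X₂ its intersections with the two direct factors, Q a Sylow 3-subgroup and Q₁, Q₂ its intersections with the two factors. Then every subgroup B of X of order 4 either meets X₁ or X₂ nontrivially, or is normalized by one of the two subgroups of Q of order 3 other than Q₁ and Q₂. -/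
theorem result
    (X : Sylow 2 (↥(alternatingGroup (Fin 4)) × ↥(alternatingGroup (Fin 4))))
    (Q : Sylow 3 (↥(alternatingGroup (Fin 4)) × ↥(alternatingGroup (Fin 4))))
    (B : Subgroup (↥(alternatingGroup (Fin 4)) × ↥(alternatingGroup (Fin 4)))) (hBX : B ≤ (X : Subgroup _)) (hB4 : Nat.card ↥B = 4) :
    B ⊓ ((X : Subgroup _) ⊓ Subgroup.prod ⊤ ⊥) ≠ ⊥ ∨ B ⊓ ((X : Subgroup _) ⊓ Subgroup.prod ⊥ ⊤) ≠ ⊥ ∨
      ∃ R : Subgroup (↥(alternatingGroup (Fin 4)) × ↥(alternatingGroup (Fin 4))), R ≤ (Q : Subgroup _) ∧ Nat.card ↥R = 3 ∧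
        R ≠ (Q : Subgroup _) ⊓ Subgroup.prod ⊤ ⊥ ∧ R ≠ (Q : Subgroup _) ⊓ Subgroup.prod ⊥ ⊤ ∧ R ≤ Subgroup.normalizer (B : Set _) := by
  have : Fact (Nat.Prime 3) := ⟨by norm_num⟩
  by_contra hcon
  push Not at hcon
  obtain ⟨h1, h2, h3⟩ := hcon
  have hcard : Nat.card (alternatingGroup (Fin 4) × alternatingGroup (Fin 4)) = 144 := by
    rw [Nat.card_prod, t3]
  have hX : Nat.card X = 16 := CF.Small.card_sylow_eq X (a := 4) (m := 9) hcard (by norm_num)
  have hQ : Nat.card Q = 9 := CF.Small.card_sylow_eq Q (a := 2) (m := 16) hcard (by norm_num)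
  have hsq : ∀ x ∈ B, x * x = 1 := by
    intro x hx
    have : x ^ 16 = 1 := by
      have := pow_card_eq_one' (x := (⟨x, hBX hx⟩ : (X : Subgroup _)))
      rw [hX] at this
      exact congrArg Subtype.val this
    exact Prod.ext (t1 _ (congrArg Prod.fst this)) (t1 _ (congrArg Prod.snd this))
  have hf : ∀ x ∈ B, x.1 = 1 → x = 1 := by
    intro x hx h
    rw [← Subgroup.mem_bot, ← h2]
    exact ⟨hx, hBX hx, h, trivial⟩
  have hs : ∀ x ∈ B, x.2 = 1 → x = 1 := by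
    intro x hx h
    rw [← Subgroup.mem_bot, ← h1]
    exact ⟨hx, hBX hx, trivial, h⟩
  -- the factors of `Q`
  set Q1 := (Q : Subgroup _).map (MonoidHom.fst (alternatingGroup (Fin 4)) (alternatingGroup (Fin 4))) with hQ1
  set Q2 := (Q : Subgroup _).map (MonoidHom.snd (alternatingGroup (Fin 4)) (alternatingGroup (Fin 4))) with hQ2
  have hp1 : IsPGroup 3 Q1 := Q.isPGroup'.map _
  have hp2 : IsPGroup 3 Q2 := Q.isPGroup'.map _
  have hle : (Q : Subgroup _) ≤ Q1.prod Q2 := fun x hx => ⟨⟨x, hx, rfl⟩, ⟨x, hx, rfl⟩⟩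
  have hpp : IsPGroup 3 (Q1.prod Q2) :=
    (IsPGroup.of_equiv (G := Q1 × Q2) (by
      rintro ⟨a, b⟩
      obtain ⟨k, hk⟩ := hp1 a
      obtain ⟨l, hl⟩ := hp2 b
      refine ⟨k + l, Prod.ext ?_ ?_⟩
      · simp [pow_add, pow_mul, hk]
      · simp [add_comm k l, pow_add, pow_mul, hl]) (Subgroup.prodEquiv Q1 Q2).symm)
  have heq : Q1.prod Q2 = Q := Q.is_maximal' hpp hle
  have hc3 : ∀ R : Subgroup (alternatingGroup (Fin 4)), IsPGroup 3 R → Nat.card R ∣ 3 := by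
    intro R hR
    obtain ⟨k, hk⟩ := IsPGroup.iff_card.1 hR
    have := Subgroup.card_subgroup_dvd_card R
    rw [t3, hk, show 12 = 3 * 4 by norm_num] at this
    rw [hk]
    exact Nat.Coprime.dvd_of_dvd_mul_right (Nat.Coprime.pow_left _ (by norm_num)) this
  have hc : Nat.card Q1 * Nat.card Q2 = 9 := by
    rw [← Nat.card_prod, ← Nat.card_congr (Subgroup.prodEquiv Q1 Q2).toEquiv, heq, hQ]
  have hex : ∀ R : Subgroup (alternatingGroup (Fin 4)), Nat.card R = 3 →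
      ∃ a ∈ R, a ^ 3 = 1 ∧ a ≠ 1 := by
    intro R hR
    obtain ⟨a, ha⟩ := exists_prime_orderOf_dvd_card' (G := R) 3 hR.symm.dvd
    refine ⟨a, a.2, ?_, ?_⟩
    · rw [← ha, ← Subgroup.orderOf_coe, pow_orderOf_eq_one]
    · intro h
      rw [← Subgroup.orderOf_coe, h, orderOf_one] at ha
      omega
  have k1 := Nat.le_of_dvd (by norm_num) (hc3 _ hp1)
  have k2 := Nat.le_of_dvd (by norm_num) (hc3 _ hp2)
  obtain ⟨a, ha, ha3, ha1⟩ := hex Q1 (by nlinarith)
  obtain ⟨b, hb, hb3, hb1⟩ := hex Q2 (by nlinarith)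
  -- generators of `B`
  obtain ⟨s, hs2⟩ := exists_prime_orderOf_dvd_card' (G := B) 2 (by rw [hB4]; norm_num)
  obtain ⟨s, hsB⟩ := s
  rw [Subgroup.orderOf_mk] at hs2
  have hs1 : s ≠ 1 := by rintro rfl; simp at hs2
  obtain ⟨t, htB, ht⟩ : ∃ t ∈ B, t ∉ Subgroup.zpowers s := by
    by_contra h
    push Not at h
    have := Subgroup.card_le_of_le (show B ≤ Subgroup.zpowers s from h)
    rw [hB4, Nat.card_zpowers, hs2] at this
    omega
  have ht1 : t ≠ 1 := by rintro rfl; exact ht (one_mem _)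
  have hst : s * t ≠ 1 := by
    intro h
    rw [eq_inv_of_mul_eq_one_right h] at ht
    exact ht (inv_mem (Subgroup.mem_zpowers s))
  have hgen : B ≤ Subgroup.closure {s, t} := by
    apply Eq.ge
    apply Subgroup.eq_of_le_of_card_ge
    · rw [Subgroup.closure_le]; rintro _ (rfl | rfl) <;> assumption
    · have hlt : Subgroup.zpowers s < Subgroup.closure {s, t} := by
        refine lt_of_le_of_ne (Subgroup.zpowers_le_of_mem (Subgroup.subset_closure (by simp)))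
          fun h => ht (h ▸ Subgroup.subset_closure (by simp))
      have h4 := Subgroup.card_dvd_of_le hlt.le
      have h5 : Nat.card (Subgroup.zpowers s) ≠ Nat.card (Subgroup.closure {s, t}) := fun h =>
        hlt.ne (Subgroup.eq_of_le_of_card_ge hlt.le h.ge)
      have h6 : 0 < Nat.card (Subgroup.closure {s, t}) := Nat.card_pos
      rw [Nat.card_zpowers, hs2] at h4 h5
      omega
  have e1 : ∃ a' ∈ Q1, a' ^ 3 = 1 ∧ a' ≠ 1 ∧ a' * s.1 * a'⁻¹ = t.1 ∧ a' * t.1 * a'⁻¹ = s.1 * t.1 := by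
    rcases t2 s.1 (congrArg Prod.fst (hsq s hsB)) (mt (hf s hsB) hs1) t.1
      (congrArg Prod.fst (hsq t htB)) (mt (hf t htB) ht1) (fun h => hst (hf _ (B.mul_mem hsB htB) (by
        rw [Prod.fst_mul, h]; exact congrArg Prod.fst (hsq t htB)))) a ha3 ha1 with h | h
    · exact ⟨a, ha, ha3, ha1, h⟩
    · exact ⟨a⁻¹, inv_mem ha, by rw [inv_pow, ha3, inv_one], inv_ne_one.2 ha1, h⟩
  have e2 : ∃ a' ∈ Q2, a' ^ 3 = 1 ∧ a' ≠ 1 ∧ a' * s.2 * a'⁻¹ = t.2 ∧ a' * t.2 * a'⁻¹ = s.2 * t.2 := by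
    rcases t2 s.2 (congrArg Prod.snd (hsq s hsB)) (mt (hs s hsB) hs1) t.2
      (congrArg Prod.snd (hsq t htB)) (mt (hs t htB) ht1) (fun h => hst (hs _ (B.mul_mem hsB htB) (by
        rw [Prod.snd_mul, h]; exact congrArg Prod.snd (hsq t htB)))) b hb3 hb1 with h | h
    · exact ⟨b, hb, hb3, hb1, h⟩
    · exact ⟨b⁻¹, inv_mem hb, by rw [inv_pow, hb3, inv_one], inv_ne_one.2 hb1, h⟩
  obtain ⟨a, ha, ha3, ha1, ha4, ha5⟩ := e1
  obtain ⟨b, hb, hb3, hb1, hb4, hb5⟩ := e2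
  refine h3 (Subgroup.zpowers (a, b)) ?_ ?_ ?_ ?_ ?_
  · rw [Subgroup.zpowers_le, ← heq]; exact ⟨ha, hb⟩
  · rw [Nat.card_zpowers]
    exact orderOf_eq_prime (Prod.ext ha3 hb3) (fun h => ha1 (congrArg Prod.fst h))
  · intro h
    exact hb1 (h.le (Subgroup.mem_zpowers _)).2.2
  · intro h
    exact ha1 (h.le (Subgroup.mem_zpowers _)).2.1
  · rw [Subgroup.zpowers_le]
    apply Subgroup.mem_normalizer_fintype
    intro x hx
    have : Subgroup.closure {s, t} ≤ B.comap (MulAut.conj (a, b)).toMonoidHom := by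
      rw [Subgroup.closure_le]
      rintro _ (rfl | rfl)
      · change (a, b) * _ * (a, b)⁻¹ ∈ B
        convert htB using 1
        exact Prod.ext ha4 hb4
      · change (a, b) * _ * (a, b)⁻¹ ∈ B
        convert B.mul_mem hsB htB using 1
        exact Prod.ext ha5 hb5
    exact this (hgen hx)

end Cfsg.Agent.S4406
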