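import Cfsg.Statements.S4407
import Cfsg.Agent.BG.B11

set_option autoImplicit false
open Cfsg

namespace Cfsg.Agent.S4407
open CF.BG Subgroup
open scoped commutatorElement Pointwise
section
variable {S : Type*} [Group S] [Finite S] {M : Type*} [AddCommGroup M] [Module (ZMod 2) M]
  (ρ : Representation (ZMod 2) S M)

/-- the stabilizer of a submodule -/
def stb (W : Submodule (ZMod 2) M) : Subgroup S where
  carrier := {g | ∀ m ∈ W, ρ g m ∈ W}
  one_mem' := fun m hm => by simpa using hm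
  mul_mem' := fun {g h} hg hh m hm => by rw [map_mul]; exact hg _ (hh _ hm)
  inv_mem' := fun {g} hg => by
    have h : ∀ n : ℕ, ∀ m ∈ W, ρ (g ^ n) m ∈ W := fun n => by
      induction n with
      | zero => intro m hm; simpa using hm
      | succ n ih => intro m hm; rw [pow_succ', map_mul]; exact hg _ (ih _ hm)
    have e : g⁻¹ = g ^ (orderOf g - 1) := by
      rw [inv_eq_iff_mul_eq_one, ← pow_succ', Nat.sub_add_cancel (orderOf_pos g), pow_orderOf_eq_one]
    rw [e]; exact h _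

omit [Finite S] in
theorem ap (g h : S) (m : M) : ρ (g * h) m = ρ g (ρ h m) := by rw [map_mul]; rfl

/-- the stabilizer of a vector -/
def fx (m : M) : Subgroup S where
  carrier := {g | ρ g m = m}
  one_mem' := by simp
  mul_mem' := fun {g h} (hg : _ = _) (hh : _ = _) => show _ = _ by rw [ap, hh, hg]
  inv_mem' := fun {g} (hg : _ = _) => show _ = _ by
    nth_rw 1 [← hg]; rw [← ap]; simp

theorem two (u : M) : u + u = 0 := by
  rw [← two_smul (ZMod 2) u]; exact (by decide : (2 : ZMod 2) = 0) ▸ zero_smul _ _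

theorem eq_of_add {u v : M} (h : u + v = 0) : u = v := by
  rw [← add_zero u, ← two v, ← add_assoc, h, zero_add]

omit [Finite S] in
theorem norm_fix {a : S} (ha : a ^ 3 = 1) (u : M) :
    ρ a (u + ρ a u + ρ a (ρ a u)) = u + ρ a u + ρ a (ρ a u) := by
  have : ρ a (ρ a (ρ a u)) = u := by
    rw [← ap, ← ap, ← pow_three', ha]; simp
  rw [map_add, map_add, this]; abel

omit [Finite S] in
theorem exists_fix [Nontrivial M] {a b : S} (ha : a ^ 3 = 1) (hb : b ^ 3 = 1) (c : a * b = b * a) :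
    ∃ u : M, u ≠ 0 ∧ (ρ a u = u ∨ ρ b u = u ∨ ρ (a * b⁻¹) u = u ∨ ρ (b * a) u = u) := by
  by_contra h
  push Not at h
  obtain ⟨u, hu⟩ := exists_ne (0 : M)
  have h1 : ∀ u, u + ρ a u + ρ a (ρ a u) = 0 := fun u =>
    by_contra fun h' => (h _ h').1 (norm_fix ρ ha u)
  have h2 : ∀ u, u + ρ b u + ρ b (ρ b u) = 0 := fun u =>
    by_contra fun h' => (h _ h').2.1 (norm_fix ρ hb u)
  have c' : ∀ u, ρ a (ρ b u) = ρ b (ρ a u) := fun u => by rw [← ap, c, ap]
  have h3 : u + ρ a u + ρ b u = 0 := by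
    by_contra h'
    refine (h _ h').2.2.1 ?_
    have : ρ a (u + ρ a u + ρ b u) = ρ b (u + ρ a u + ρ b u) := by
      refine eq_of_add ?_
      rw [map_add, map_add, map_add, map_add, c']
      linear_combination (norm := abel) h1 u + h2 u + two (ρ b (ρ a u)) - two u
    have c2 : a * b⁻¹ = b⁻¹ * a := by rw [mul_inv_eq_iff_eq_mul, mul_assoc, c]; simp
    rw [c2, ap, this, ← ap]; simp
  refine (h u hu).2.2.2 ?_
  have e : ρ b u = ρ a (ρ a u) := by
    have := h1 u
    rw [← h3] at this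
    exact (add_left_cancel this).symm
  rw [← c, ap, e, ← ap, ← ap, ← pow_three', ha]; simp

theorem core [Finite M] {r s a : S} (hs : s * s = 1) (hsr : s * r = r * (r * r) * s)
    (hz : r * r * (r * r) = 1) (ha : a ^ 3 = 1) (c : a * (r * a * r⁻¹) = r * a * r⁻¹ * a)
    (za : r * r * a = a * a * (r * r)) (sa : s * a = a * s)
    (gen : ∀ T : Subgroup S, a ∈ T → r ∈ T → s ∈ T → T = ⊤)
    (hirr : ∀ N : Submodule (ZMod 2) M, (∀ s : S, ∀ m ∈ N, ρ s m ∈ N) → N = ⊥ ∨ N = ⊤)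
    (h0 : ∀ m, ρ a m = m → ρ (r * a * r⁻¹) m = m → m = 0) {u₀ : M} (hu₀ : u₀ ≠ 0)
    (au₀ : ρ a u₀ = u₀) :
    Nat.card M = 16 ∧ Nat.card {m : M // ρ s m = m ∧ ρ (r * r) m = m} = 4 ∧
      Nat.card {m : M // ρ (s * r) m = m ∧ ρ (r * r) m = m} = 2 := by
  set b := r * a * r⁻¹ with hb
  set z := r * r with hzz
  clear_value b z
  have ri : r⁻¹ = r * z := by rw [inv_eq_iff_mul_eq_one, ← mul_assoc, ← hzz, hz]
  have rz : z * r = r * z := by rw [hzz, mul_assoc]
  have b3 : b ^ 3 = 1 := by rw [hb, conj_pow, ha]; simp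
  have zb : z * b = b * b * z := by
    calc z * b = r * (z * a) * r⁻¹ := by rw [hb, hzz]; group
      _ = _ := by rw [za, hb, hzz]; group
  have sz : s * z = z * s := by
    calc s * z = r * z * (s * r) := by
          conv_lhs => rw [hzz, ← mul_assoc s, hsr, mul_assoc]
      _ = r * (z * r) * z * s := by rw [hsr]; group
      _ = _ := by rw [rz, ← mul_assoc r r, ← hzz, hz, one_mul]
  have ra : a * r = r * (b * b) := by
    have : r * (b * b) * r⁻¹ * a⁻¹ = z * a * a * z⁻¹ * a⁻¹ := by rw [hb, hzz]; group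
    rw [za, mul_assoc _ z a, za] at this
    have e : a * a * (a * a * z) * z⁻¹ * a⁻¹ = a ^ 3 := by rw [pow_three']; group
    rw [e, ha, mul_inv_eq_one, mul_inv_eq_iff_eq_mul] at this
    exact this.symm
  have br : b * r = r * a := by rw [hb]; group
  have sb : s * b = b * b * s := by
    have e1 : s * r⁻¹ = r * s := by
      rw [mul_inv_eq_iff_eq_mul, mul_assoc, hsr, ← mul_assoc, ← mul_assoc, ← hzz, hz, one_mul]
    calc s * b = s * r * a * r⁻¹ := by rw [hb]; group
      _ = r⁻¹ * (a * r) * s := by rw [hsr, ← ri, mul_assoc r⁻¹, sa, mul_assoc, mul_assoc, e1]; group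
      _ = _ := by rw [ra]; group
  -- a vector fixed by `a`, `s`, `z`
  have step : ∀ t : S, t * t = 1 → ∀ P : M → Prop, (∀ m, P m → P (m + ρ t m)) → ∀ m ≠ 0, P m →
      ∃ m ≠ 0, P m ∧ ρ t m = m := fun t ht P hP m hm h => by
    by_cases e : m + ρ t m = 0
    · exact ⟨m, hm, h, (eq_of_add e).symm⟩
    · exact ⟨_, e, hP m h, by rw [map_add, ← ap, ht, add_comm]; simp⟩
  have az : ∀ m, ρ a m = m → ρ a (ρ z m) = ρ z m := fun m h => by
    have e : a * z = z * a * a := by
      rw [za, mul_assoc _ z, za]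
      calc a * z = a ^ 3 * a * z := by rw [ha, one_mul]
        _ = _ := by rw [pow_three']; group
    rw [← ap, e, ap, ap, h, h]
  obtain ⟨u₁, hu₁, au₁, zu₁⟩ := step z hz (fun m => ρ a m = m)
    (fun m h => by rw [map_add, h, az m h]) u₀ hu₀ au₀
  obtain ⟨u, hu, ⟨au, zu⟩, su⟩ := step s hs (fun m => ρ a m = m ∧ ρ z m = m)
    (fun m h => ⟨by rw [map_add, ← ap, ← sa, ap, h.1], by rw [map_add, ← ap, ← sz, ap, h.2]⟩)
    u₁ hu₁ ⟨au₁, zu₁⟩
  set v := ρ b u with hv
  have av : ρ a v = v := by rw [hv, ← ap, c, ap, au]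
  have bv : ρ b v = u + v := by
    have := h0 (u + v + ρ b v) (by rw [map_add, map_add, au, av, ← ap, c, ap, av]) (norm_fix ρ b3 u)
    exact (eq_of_add this).symm
  have sv : ρ s v = u + v := by rw [hv, ← ap, sb, ap, ap, su, bv]
  have zv : ρ z v = u + v := by rw [hv, ← ap, zb, ap, ap, zu, bv]
  let g : ZMod 2 × ZMod 2 →ₗ[ZMod 2] M :=
    (LinearMap.toSpanSingleton _ _ u).coprod (LinearMap.toSpanSingleton _ _ v)
  have hg : ∀ x, g x = x.1 • u + x.2 • v := fun x => rfl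
  have ag : ∀ x, ρ a (g x) = g x := fun x => by rw [hg, map_add, map_smul, map_smul, au, av]
  have bg : ∀ x, ρ b (g x) = g (x.2, x.1 + x.2) := fun x => by
    rw [hg, hg, map_add, map_smul, map_smul, bv]; module
  have sg : ∀ x, ρ s (g x) = g (x.1 + x.2, x.2) := fun x => by
    rw [hg, hg, map_add, map_smul, map_smul, su, sv]; module
  have zg : ∀ x, ρ z (g x) = g (x.1 + x.2, x.2) := fun x => by
    rw [hg, hg, map_add, map_smul, map_smul, zu, zv]; module
  have rinj : ∀ (t : S) m, ρ t m = 0 → m = 0 := fun t m h => by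
    have := congrArg (ρ t⁻¹) h
    rwa [← ap, inv_mul_cancel, map_one, map_zero] at this
  have ginj : ∀ x, g x = 0 → x = 0 := fun x h => by
    rw [hg] at h
    rcases (by decide : ∀ x : ZMod 2 × ZMod 2, x = 0 ∨ x = (1, 0) ∨ x = (0, 1) ∨ x = (1, 1)) x
      with rfl | rfl | rfl | rfl
    · rfl
    · exact absurd (by simpa using h) hu
    · exact absurd (rinj b u (by simpa using h)) hu
    · exact absurd (h0 u au (eq_of_add (by simpa using h)).symm) hu
  let φ : (ZMod 2 × ZMod 2) × (ZMod 2 × ZMod 2) →ₗ[ZMod 2] M := g.coprod (ρ r ∘ₗ g)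
  have hφ : ∀ x, φ x = g x.1 + ρ r (g x.2) := fun x => rfl
  have inj : Function.Injective φ := by
    rw [injective_iff_map_eq_zero]
    intro x h
    have e := eq_of_add ((hφ x).symm.trans h)
    have e1 : g x.1 = 0 := h0 _ (ag _) (by rw [e, ← ap, br, ap, ag])
    exact Prod.ext (ginj _ e1) (ginj _ (rinj r _ (e ▸ e1)))
  have aφ : ∀ x, ρ a (φ x) = φ (x.1, (x.2.1 + x.2.2, x.2.2 + (x.2.1 + x.2.2))) := fun x => by
    rw [hφ, hφ, map_add, ag, ← ap, ra, ap, ap, bg, bg]
  have rφ : ∀ x, ρ r (φ x) = φ ((x.2.1 + x.2.2, x.2.2), x.1) := fun x => by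
    rw [hφ, hφ, map_add, ← ap ρ r r, ← hzz, zg, add_comm]
  have sφ : ∀ x, ρ s (φ x) = φ ((x.1.1 + x.1.2, x.1.2), (x.2.1 + x.2.2 + x.2.2, x.2.2)) :=
    fun x => by rw [hφ, hφ, map_add, sg, ← ap, hsr, ap, ap, sg, zg]
  have surj : Function.Surjective φ := by
    have : stb ρ (LinearMap.range φ) = ⊤ :=
      gen _ (by rintro _ ⟨x, rfl⟩; exact ⟨_, (aφ x).symm⟩)
        (by rintro _ ⟨x, rfl⟩; exact ⟨_, (rφ x).symm⟩) (by rintro _ ⟨x, rfl⟩; exact ⟨_, (sφ x).symm⟩)
    rcases hirr (LinearMap.range φ) (fun t => (this ▸ mem_top t : t ∈ stb ρ _)) with h | h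
    · have : φ ((1, 0), 0) = φ 0 := by
        rw [map_zero]; exact (Submodule.mem_bot _).1 (h ▸ LinearMap.mem_range_self φ _)
      exact absurd (inj this) (by decide)
    · exact LinearMap.range_eq_top.1 h
  let e := Equiv.ofBijective φ ⟨inj, surj⟩
  have he : ∀ x, e x = φ x := fun _ => rfl
  refine ⟨by rw [← Nat.card_congr e]; simp, ?_, ?_⟩
  · rw [← Nat.card_congr (e.subtypeEquiv (p := fun x =>
      ((x.1.1 + x.1.2, x.1.2), (x.2.1 + x.2.2 + x.2.2, x.2.2)) = x ∧
      ((x.1.1 + x.1.2, x.1.2), (x.2.1 + x.2.2, x.2.2)) = x) fun x => by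
        rw [he, hzz, ap, rφ, rφ, sφ, inj.eq_iff, inj.eq_iff]), Nat.card_eq_fintype_card]
    decide
  · rw [← Nat.card_congr (e.subtypeEquiv (p := fun x =>
      ((x.2.1 + x.2.2 + x.2.2, x.2.2), (x.1.1 + x.1.2 + x.1.2, x.1.2)) = x ∧
      ((x.1.1 + x.1.2, x.1.2), (x.2.1 + x.2.2, x.2.2)) = x) fun x => by
        rw [he, hzz, ap, ap, rφ, rφ, sφ, inj.eq_iff, inj.eq_iff]), Nat.card_eq_fintype_card]
    decide

end

open DihedralGroup in
/-- the two four-groups of `D₈` -/
def KK (i : ZMod 4) : Subgroup (DihedralGroup 4) where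
  carrier := {g | g = 1 ∨ g = r 2 ∨ g = sr i ∨ g = sr (i + 2)}
  one_mem' := Or.inl rfl
  mul_mem' := fun {a b} => by simp only [Set.mem_ofPred_eq]; revert i a b; decide
  inv_mem' := fun {a} => by simp only [Set.mem_ofPred_eq]; revert i a; decide

instance (i : ZMod 4) : DecidablePred (· ∈ KK i) := fun g =>
  inferInstanceAs (Decidable (g = 1 ∨ g = .r 2 ∨ g = .sr i ∨ g = .sr (i + 2)))

theorem KK_of (B : Subgroup (DihedralGroup 4)) (h : Nat.card B = 4) (e : ∀ b ∈ B, b ^ 2 = 1) :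
    B = KK 0 ∨ B = KK 1 := by
  classical
  have := (by decide +kernel : ∀ F : Finset (DihedralGroup 4), F.card = 4 →
    (∀ a ∈ F, ∀ b ∈ F, a * b ∈ F) → (∀ b ∈ F, b ^ 2 = 1) →
    (∀ g, g ∈ F ↔ g ∈ KK 0) ∨ (∀ g, g ∈ F ↔ g ∈ KK 1)) (Finset.univ.filter (· ∈ B))
    (by rw [Nat.card_eq_fintype_card, Fintype.card_subtype] at h; exact h)
    (fun a ha b hb => by simp only [Finset.mem_filter, Finset.mem_univ, true_and] at *
                         exact mul_mem ha hb) (fun b hb => e b (by simpa using hb))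
  exact this.imp (fun h => Subgroup.ext fun g => by simpa using h g)
    (fun h => Subgroup.ext fun g => by simpa using h g)

/-- Let S be a finite group with a normal elementary abelian subgroup A of order 9 that is self-centralizing (C_S(A) = A), and a dihedral subgroup X of order 8 with S = AX. Let M be a finite-dimensional module for S over the field with two elements that is faithful and irreducible. Then M has 16 elements, and X contains exactly one subgroup B of order 4 and exponent 2 whose fixed points on M form a subspace with exactly 2 elements (equivalently, M is free of rank one over the group algebra of B). -/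
theorem result {S : Type*} [Group S] [Finite S]
    (A : Subgroup S) [A.Normal] (hA : Cfsg.IsElementaryAbelian 3 A) (hA9 : Nat.card ↥A = 9)
    (hAC : Subgroup.centralizer (A : Set S) = A) (X : Subgroup S) (hX : Nonempty (↥X ≃* DihedralGroup 4)) (hAX : A ⊔ X = ⊤)
    {M : Type*} [AddCommGroup M] [Module (ZMod 2) M] [Finite M] (ρ : Representation (ZMod 2) S M)
    (hfaith : Function.Injective ρ)
    (hirr : ∀ N : Submodule (ZMod 2) M, (∀ s : S, ∀ m ∈ N, ρ s m ∈ N) → N = ⊥ ∨ N = ⊤) (hM : Nontrivial M) :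
    Nat.card M = 16 ∧
      ∃! B : Subgroup S, B ≤ X ∧ Nat.card ↥B = 4 ∧ (∀ b ∈ B, b ^ 2 = 1) ∧
        Nat.card {m : M // ∀ b ∈ B, ρ b m = m} = 2 := by
  classical
  have h3 := Nat.prime_three
  have ab : Abelem 3 A := Abelem.of_isEA h3 hA
  have el : Elem 3 2 A A := elem_of_card h3 le_rfl ab hA9
  have hn : ∀ g, ∀ a ∈ A, g * a * g⁻¹ ∈ A := fun g a ha => Normal.conj_mem ‹_› a ha g
  obtain ⟨e⟩ := hX
  let ι : DihedralGroup 4 →* S := X.subtype.comp e.symm.toMonoidHom
  have inj : Function.Injective ι := X.subtype_injective.comp e.symm.injective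
  have rng : ∀ x ∈ X, ∃ g, ι g = x := fun x hx => ⟨e ⟨x, hx⟩, by simp [ι]⟩
  have rng' : ∀ g, ι g ∈ X := fun g => (e.symm g).2
  have fa : ∀ g, (∀ a ∈ A, ι g * a = a * ι g) → g = 1 := fun g h => by
    have h1 : ι g ∈ A := hAC ▸ mem_cent.2 fun a ha => (h a ha).symm
    have h2 := ab.pow _ h1
    rw [← map_pow, ← ι.map_one, inj.eq_iff] at h2
    exact (by decide : ∀ g : DihedralGroup 4, g ^ 3 = 1 → g = 1) g h2
  set r := ι (.r 1) with hr
  have hz : r * r * (r * r) = 1 := by rw [hr, ← map_mul, ← map_mul, ← ι.map_one]; rfl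
  have cube : ∀ a ∈ A, a⁻¹ = a * a := fun a ha => by
    rw [inv_eq_iff_mul_eq_one, ← pow_three, ab.pow a ha]
  have gen : ∀ d ∈ A, d ≠ 1 → r * r * d = d * d * (r * r) →
      zpowers d ⊔ zpowers (r * d * r⁻¹) = A := fun d hd d1 h => by
    have e1 := ab.elem_zpowers hd d1
    have e2 := ab.elem_zpowers (hn r d hd) (by simpa using d1)
    refine (el.dprod_two e1 e2 fun h' => d1 ?_).sup
    have h4 : r * d * r⁻¹ ∈ zpowers d := h' ▸ mem_zpowers _
    rw [mem_zpowers_iff_mem_range_orderOf, ab.orderOf hd d1] at h4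
    obtain ⟨k, hk, h4⟩ := Finset.mem_image.1 h4
    have h5 : d * d = d ^ (k * k) := by
      calc d * d = r * (r * d * r⁻¹) * r⁻¹ := by
            rw [← mul_left_inj (r * r), ← h]; group
        _ = _ := by rw [pow_mul, h4, conj_pow, h4]
    have h6 := ab.pow d hd
    rw [Finset.mem_range] at hk
    interval_cases k
    · simpa using h4.symm
    · simpa using h5
    · rw [show 2 * 2 = 3 + 1 from rfl, pow_succ, h6, one_mul] at h5; simpa using h5
  have split : ∀ t : S, t * t = 1 → ∀ b ∈ A, t * (b⁻¹ * (t * b * t⁻¹)) =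
      (b⁻¹ * (t * b * t⁻¹)) * (b⁻¹ * (t * b * t⁻¹)) * t := fun t ht b hb => by
    rw [← cube _ (mul_mem (inv_mem hb) (hn t b hb))]
    calc t * (b⁻¹ * (t * b * t⁻¹)) = t * b⁻¹ * t⁻¹ * (t * t) * b * t⁻¹ * (t * t)⁻¹ * (t * t) := by group
      _ = _ := by rw [ht]; nth_rw 3 [← ht]; group
  have zi : ∀ a ∈ A, r * r * a = a * a * (r * r) := by
    obtain ⟨b, hb, h⟩ : ∃ b ∈ A, ¬ r * r * b = b * (r * r) := by
      by_contra h
      push Not at h
      exact absurd (fa (.r 1 * .r 1) (by rw [map_mul]; exact h)) (by decide)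
    have h1 := split _ hz b hb
    set d := b⁻¹ * (r * r * b * (r * r)⁻¹) with hd
    have dA : d ∈ A := mul_mem (inv_mem hb) (hn _ b hb)
    have g1 := gen d dA (fun h' => h (by
      rw [hd, inv_mul_eq_one, eq_mul_inv_iff_mul_eq] at h'; exact h'.symm)) h1
    have key : ∀ a ∈ A, r * r * a = a * a * (r * r) → ∀ x ∈ zpowers a,
        r * r * x = x * x * (r * r) := fun a ha h x hx => by
      obtain ⟨k, rfl⟩ := (mem_powers_iff_mem_zpowers).2 hx
      rw [← mul_inv_eq_iff_eq_mul] at h ⊢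
      rw [← conj_pow, h, (Commute.refl a).mul_pow]
    intro a ha
    rw [← g1] at ha
    obtain ⟨x, hx, y, hy, rfl⟩ := (mem_sup_norm (norm_of_cent
      (ab.abel.cent (zpowers_le.2 dA) (zpowers_le.2 (hn r d dA))))).1 ha
    have hx' := key d dA h1 x hx
    have hy' := key _ (hn r d dA) (by
      calc r * r * (r * d * r⁻¹) = r * (r * r * d) * r⁻¹ := by group
        _ = _ := by rw [h1]; group) y hy
    have c := ab.abel.mul_comm (zpowers_le.2 dA hx) (zpowers_le.2 (hn r d dA) hy)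
    rw [← mul_assoc, hx', mul_assoc, hy']
    calc x * x * (y * y * (r * r)) = x * (x * y) * y * (r * r) := by group
      _ = x * (y * x) * y * (r * r) := by rw [c]
      _ = _ := by group
  have h0 : ∀ a ∈ A, a ≠ 1 → ∀ m, ρ a m = m → ρ (r * a * r⁻¹) m = m → m = 0 := by
    intro a ha a1 m h1 h2
    let N : Submodule (ZMod 2) M := ⨅ x : A, LinearMap.eqLocus (ρ x) LinearMap.id
    have hN : ∀ m, m ∈ N ↔ ∀ x ∈ A, ρ x m = m := fun m => by simp [N, Submodule.mem_iInf]
    rcases hirr N (fun s m hm => (hN _).2 fun x hx => by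
      have := (hN m).1 hm _ (hn s⁻¹ x hx)
      rw [← ap, show x * s = s * (s⁻¹ * x * s⁻¹⁻¹) by group, ap, this]) with h | h
    · have : A ≤ fx ρ m := gen a ha a1 (zi a ha) ▸ sup_le (zpowers_le.2 h1) (zpowers_le.2 h2)
      exact (Submodule.mem_bot _).1 (h ▸ (hN m).2 this)
    · exact absurd (hfaith (LinearMap.ext fun m => by
        rw [(hN m).1 (h ▸ Submodule.mem_top) a ha]; simp : ρ a = ρ 1)) a1
  have main : ∀ i : ZMod 4, ∀ a ∈ A, a ≠ 1 → ι (.sr i) * a = a * ι (.sr i) →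
      ∀ u : M, u ≠ 0 → (ρ a u = u ∨ ρ (r * a * r⁻¹) u = u) → Nat.card M = 16 ∧
        Nat.card {m : M // ∀ b ∈ (KK i).map ι, ρ b m = m} = 4 ∧
        Nat.card {m : M // ∀ b ∈ (KK (i + 1)).map ι, ρ b m = m} = 2 := by
    intro i a ha a1 sa u hu h
    obtain ⟨u, hu, h⟩ : ∃ u : M, u ≠ 0 ∧ ρ a u = u := by
      rcases h with h | h
      · exact ⟨u, hu, h⟩
      · refine ⟨ρ r⁻¹ u, fun h' => hu ?_, ?_⟩
        · have := congrArg (ρ r) h'
          rwa [← ap, mul_inv_cancel, map_one, map_zero] at this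
        · rw [← ap, show a * r⁻¹ = r⁻¹ * (r * a * r⁻¹) by group, ap, h]
    have fe : ∀ (j : ZMod 4) (m : M), (∀ b ∈ (KK j).map ι, ρ b m = m) ↔
        ρ (ι (.sr j)) m = m ∧ ρ (r * r) m = m := fun j m => by
      have e : r * r = ι (.r 2) := by rw [hr, ← map_mul]; rfl
      rw [e]
      refine ⟨fun h => ⟨h _ ⟨_, Or.inr (Or.inr (Or.inl rfl)), rfl⟩, h _ ⟨_, Or.inr (Or.inl rfl), rfl⟩⟩,
        ?_⟩
      rintro ⟨h1, h2⟩ _ ⟨g, rfl | rfl | rfl | rfl, rfl⟩
      · simp
      · exact h2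
      · exact h1
      · rw [← DihedralGroup.sr_mul_r, map_mul, ap, h2, h1]
    simp only [fe]
    have := core ρ (r := r) (s := ι (.sr i)) (a := a) (by rw [← map_mul]; simp)
      (by rw [hr, ← map_mul, ← map_mul, ← map_mul, ← map_mul]; congr 1; clear * -; revert i; decide)
      hz (ab.pow a ha) (ab.abel.mul_comm ha (hn r a ha)) (zi a ha) sa (fun T h1 h2 h4 => by
        rw [eq_top_iff, ← hAX, ← gen a ha a1 (zi a ha)]
        refine sup_le (sup_le (zpowers_le.2 h1)
          (zpowers_le.2 (mul_mem (mul_mem h2 h1) (inv_mem h2)))) fun x hx => ?_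
        obtain ⟨g, rfl⟩ := rng x hx
        obtain ⟨k, rfl | rfl⟩ := (by decide : ∀ (i : ZMod 4) (g : DihedralGroup 4), ∃ k : Fin 4,
          g = .r 1 ^ (k : ℕ) ∨ g = .sr i * .r 1 ^ (k : ℕ)) i g
        · rw [map_pow]; exact pow_mem h2 _
        · rw [map_mul, map_pow]; exact mul_mem h4 (pow_mem h2 _)) hirr (h0 a ha a1) hu h
    rwa [show ι (.sr i) * r = ι (.sr (i + 1)) by rw [hr, ← map_mul, DihedralGroup.sr_mul_r]] at this
  set s := ι (.sr 0) with hs
  have ss : s * s = 1 := by rw [hs, ← map_mul]; simp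
  obtain ⟨a, ha, a1, sa⟩ : ∃ a ∈ A, a ≠ 1 ∧ s * a = a * s := by
    by_contra h
    push Not at h
    refine absurd (fa (.sr 0 * (.r 1 * .r 1)) fun b hb => ?_) (by decide)
    rw [map_mul, map_mul, ← hs, ← hr, mul_assoc, zi b hb]
    have c := ab.abel.mul_comm hb (hn s b hb)
    have e : b * (s * b * s⁻¹) = 1 := by
      by_contra h'
      refine h _ (mul_mem hb (hn s b hb)) h' ?_
      calc s * (b * (s * b * s⁻¹)) = s * b * s⁻¹ * ((s * s) * b * (s * s)⁻¹) * s := by group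
        _ = _ := by rw [ss, c]; group
    rw [mul_eq_one_iff_inv_eq, eq_mul_inv_iff_mul_eq] at e
    calc s * (b * b * (r * r)) = s * b * b * (r * r) := by group
      _ = b⁻¹ * s * b * (r * r) := by rw [e]
      _ = b⁻¹ * (s * b) * (r * r) := by rw [mul_assoc b⁻¹]
      _ = b⁻¹ * b⁻¹ * (s * (r * r)) := by rw [← e]; group
      _ = _ := by rw [← cube _ (inv_mem hb), inv_inv]
  have bA := hn r a ha
  set b := r * a * r⁻¹ with hb
  have c := ab.abel.mul_comm ha bA
  have rb : r * b * r⁻¹ = a⁻¹ := by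
    calc r * b * r⁻¹ = r * r * a * (r * r)⁻¹ := by rw [hb]; group
      _ = _ := by rw [zi a ha, cube a ha]; group
  have hcase : Nat.card M = 16 ∧ ∃ i : ZMod 4, (i = 0 ∨ i = 1) ∧
      Nat.card {m : M // ∀ b ∈ (KK i).map ι, ρ b m = m} = 4 ∧
        Nat.card {m : M // ∀ b ∈ (KK (i + 1)).map ι, ρ b m = m} = 2 := by
    obtain ⟨u, hu, h⟩ := exists_fix ρ (ab.pow a ha) (ab.pow b bA) c
    rw [← or_assoc] at h
    rcases h with h | h
    · have := main 0 a ha a1 sa u hu h
      exact ⟨this.1, 0, Or.inl rfl, this.2⟩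
    · have e1 : ι (.sr 1) = s * r := by rw [hs, hr, ← map_mul]; rfl
      have e2 : r * (a * b⁻¹) * r⁻¹ = b * a := by
        calc r * (a * b⁻¹) * r⁻¹ = b * (r * b * r⁻¹)⁻¹ := by rw [hb]; group
          _ = _ := by rw [rb, inv_inv]
      have e3 : s * r * s⁻¹ = r⁻¹ := by rw [hs, hr, ← map_inv, ← map_mul, ← map_mul, ← map_inv]; rfl
      have e4 : s * b * s⁻¹ = b⁻¹ := by
        calc s * b * s⁻¹ = (s * r * s⁻¹) * (s * a) * s⁻¹ * (s * r * s⁻¹)⁻¹ := by rw [hb]; group
          _ = r⁻¹ * (r * b * r⁻¹)⁻¹ * r := by rw [e3, sa, rb]; group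
          _ = _ := by group
      have := main 1 (a * b⁻¹) (mul_mem ha (inv_mem bA)) (fun h' => by
        rw [mul_inv_eq_one] at h'
        rw [← h', ← hb, ← h', cube a ha] at rb
        exact a1 (by simpa using rb)) (by
        rw [e1, ← mul_inv_eq_iff_eq_mul]
        calc s * r * (a * b⁻¹) * (s * r)⁻¹ = s * (r * (a * b⁻¹) * r⁻¹) * s⁻¹ := by group
          _ = (s * b * s⁻¹) * (s * a) * s⁻¹ := by rw [e2]; group
          _ = b⁻¹ * a := by rw [e4, sa]; group
          _ = _ := ab.abel.mul_comm (inv_mem bA) ha) u hu (e2 ▸ h)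
      exact ⟨this.1, 1, Or.inr rfl, this.2⟩
  obtain ⟨h16, i, hi, h4, h2⟩ := hcase
  refine ⟨h16, (KK (i + 1)).map ι, ⟨by rintro _ ⟨g, -, rfl⟩; exact rng' g, ?_, ?_, h2⟩, ?_⟩
  · rw [card_map inj, Nat.card_eq_fintype_card]; clear * -; revert i; decide
  · rintro _ ⟨g, hg, rfl⟩
    rw [← map_pow, (by decide : ∀ (i : ZMod 4), ∀ g ∈ KK i, g ^ 2 = 1) _ g hg, map_one]
  · rintro B ⟨a1, a2, a3, a4⟩
    have e1 : (B.comap ι).map ι = B := map_comap_eq_self fun x hx => rng x (a1 hx)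
    have e2 := KK_of (B.comap ι) (by rw [← card_map inj, e1, a2]) fun g hg => inj (by
      rw [map_pow, map_one]; exact a3 _ hg)
    have e3 : KK (1 + 1) = KK 0 := Subgroup.ext (by decide)
    rcases hi with rfl | rfl <;> rcases e2 with e2 | e2
    · rw [← e1, e2, h4] at a4; omega
    · rw [← e1, e2]; rfl
    · rw [← e1, e2, e3]
    · rw [← e1, e2, h4] at a4; omega



end Cfsg.Agent.S4407
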