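import Cfsg.Statements.S4409
import Cfsg.Agent.Th5.D

set_option autoImplicit false
open Cfsg

namespace Cfsg.Agent.S4409
open CF.BG Subgroup
open scoped commutatorElement Pointwise

/-- Let S be a finite solvable group with O_{2'}(S) = 1 that contains a non-cyclic abelian subgroup of order 8, while no proper subgroup of S of 2-power index contains one. Then a Sylow 2-subgroup X of S is normal in S, and one of the following holds: X is abelian; X is extraspecial of order at least 32; X has a generalized quaternion subgroup X₀ of index 2 with X = X₀·C_X(X₀); or X is special with centre of order 4. -/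
theorem result {S : Type*} [Group S] [Finite S]
    [Group.IsSolvable S] (hO : Cfsg.pPrimeCore 2 S = ⊥)
    (h8 : ∃ A : Subgroup S, IsMulCommutative ↥A ∧ ¬ IsCyclic ↥A ∧ Nat.card ↥A = 8)
    (hmin : ∀ R : Subgroup S, R ≠ ⊤ → (∃ k : ℕ, R.index = 2 ^ k) →
      ¬ ∃ A : Subgroup S, A ≤ R ∧ IsMulCommutative ↥A ∧ ¬ IsCyclic ↥A ∧ Nat.card ↥A = 8)
    (X : Sylow 2 S) :
    (X : Subgroup S).Normal ∧
      (IsMulCommutative ↥X ∨
        (Cfsg.IsExtraspecial 2 ↥X ∧ 32 ≤ Nat.card ↥X) ∨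
        (∃ (X₀ : Subgroup S) (k : ℕ), X₀ ≤ (X : Subgroup S) ∧ X₀.relIndex (X : Subgroup S) = 2 ∧
          Nonempty (↥X₀ ≃* QuaternionGroup (2 ^ (k + 1))) ∧ X₀ ⊔ ((X : Subgroup S) ⊓ Subgroup.centralizer (X₀ : Set S)) = (X : Subgroup S)) ∨
        (Cfsg.IsSpecial 2 ↥X ∧ Nat.card ↥(Subgroup.center ↥X) = 4)) := by
  have := Fact.mk Nat.prime_two
  have s : Sol (⊤ : Subgroup S) := inferInstance
  rw [pPrimeCore_eq Nat.prime_two] at hO
  have cH := s.cent_O_le hO
  rw [top_inf_eq] at cH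
  set H := 𝐎 {2} (⊤ : Subgroup S) with hH
  have nH : ⊤ ≤ 𝐍 H := (O_normal _ _).norm
  have kH : PiGrp {2} H := O_pi _ _
  obtain ⟨L, hL⟩ := s.exists_hall ({2}ᶜ : Set ℕ)
  have oL : Odd (♯L) := Nat.odd_iff.2 (by
    have := (piNat_compl_single Nat.prime_two).1 hL.pi
    omega)
  have hX := syl_sylow_top X
  have sm : ∀ K : Subgroup S, K ⊔ L ≠ ⊤ → CF.Th5.Sm K := fun K h A hA a c e => by
    refine hmin _ h ?_ ⟨A, hA.trans le_sup_left, a.comm, c, e⟩
    have := (hL.idx_of_le (le_sup_right : L ≤ K ⊔ L)).of_compl_compl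
    rw [relIndex_top_right] at this
    exact this.exists_pow index_ne_zero_of_finite
  obtain ⟨A, a, c, c8⟩ := h8
  have a := Abel.of_comm a
  have ns : ¬ CF.Th5.Sm H := fun h => by
    by_cases cL : L ≤ 𝐂 H
    · have e : L = ⊥ := eq_bot_mono (kH.inf_eq_bot hL.pi) (le_inf (cL.trans cH) le_rfl)
      have : PiGrp {2} (⊤ : Subgroup S) := (Hall.pi'_of_eq_bot (e ▸ hL)).of_compl_compl
      exact h A (le_top.trans (O_of_pi this).ge) a c c8
    · exact CF.Th5.not_sm_O (le_top.trans nH) kH cH a c c8 (h.key kH (le_top.trans nH) oL cL)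
  have top : H ⊔ L = ⊤ := by
    by_contra h
    exact ns (sm H h)
  have sd : SDProd H L ⊤ := ⟨le_top.trans nH, top, kH.inf_eq_bot hL.pi⟩
  have e : (X : Subgroup S) = H := (sd.hall_left kH hL.pi).eq_of_normal nH hX
  have m : CF.Th5.Mn H L := ⟨kH, oL, le_top.trans nH, ns, fun K lt n => sm K fun h => by
    have h1 := card_sup_of_inf_bot (Or.inr n) ((kH.le lt.le).inf_eq_bot hL.pi)
    have h2 := card_lt lt
    rw [h, ← sd.card] at h1
    have := Nat.eq_of_mul_eq_mul_right (card_pos' L) h1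
    omega⟩
  rw [← e] at m
  refine ⟨e ▸ normalIn_top.1 (O_normal _ _), ?_⟩
  have cz : Nat.card (center X) = ♯(𝐙 (X : Subgroup S)) := by
    rw [← center_map_subtype, card_map (X : Subgroup S).subtype_injective]
  by_cases ab : Abel (X : Subgroup S)
  · exact Or.inl ab.comm
  by_cases h : ⁅(X : Subgroup S), L⁆ = X
  · obtain ⟨sp, ⟨h1, h2⟩ | h1⟩ := m.caseB h ab
    · exact Or.inr (Or.inl ⟨⟨sp, cz.trans h1⟩, h2⟩)
    · exact Or.inr (Or.inr (Or.inr ⟨sp, cz.trans h1⟩))
  · obtain ⟨Y, i, j, q, h1, h2, h3⟩ := (m.caseA h).resolve_left ab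
    exact Or.inr (Or.inr (Or.inl ⟨Y, 0, h1, h2, q.nonempty_equiv, h3⟩))

end Cfsg.Agent.S4409
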