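import Cfsg.Statements.S4410
import Cfsg.Agent.BG.B11

set_option autoImplicit false
open Cfsg

namespace Cfsg.Agent.S4410
open CF.BG Subgroup
open scoped commutatorElement Pointwise
/-- the maps acting trivially on `V / W` -/
def triv {V : Type*} [AddCommGroup V] [Module (ZMod 2) V] (W : Submodule (ZMod 2) V) :
    Subgroup (V ≃ₗ[ZMod 2] V) where
  carrier := {g | ∀ v, g v - v ∈ W}
  one_mem' := fun v => by simp
  mul_mem' := by
    intro g h hg hh v
    have := W.add_mem (hg (h v)) (hh v)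
    simpa using this
  inv_mem' := by
    intro g hg v
    have := W.neg_mem (hg (g⁻¹ v))
    simpa using this

theorem card_dvd {V : Type*} [AddCommGroup V] [Module (ZMod 2) V] [Finite V]
    (W : Submodule (ZMod 2) V) (hW : Module.finrank (ZMod 2) W ≤ 3)
    (H : Subgroup (V ≃ₗ[ZMod 2] V)) (hH : H ≤ triv W) (ho : ∀ g ∈ H, g ^ 2 = 1 → g = 1) :
    Nat.card H ∣ 168 := by
  have hm : ∀ g : H, ∀ w ∈ W, ((g : V ≃ₗ[ZMod 2] V) : V →ₗ[ZMod 2] V) w ∈ W := fun g w hw => by
    have := W.add_mem (hH g.2 w) hw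
    simpa using this
  let φ : H →* Module.End (ZMod 2) W :=
    { toFun := fun g => ((g : V ≃ₗ[ZMod 2] V) : V →ₗ[ZMod 2] V).restrict (hm g)
      map_one' := by ext w; simp
      map_mul' := fun g h => by ext w; simp }
  have inj : Function.Injective φ.toHomUnits := by
    rw [injective_iff_map_eq_one]
    intro g hg
    have h1 : ∀ w ∈ W, (g : V ≃ₗ[ZMod 2] V) w = w := fun w hw => by
      have := congrArg (fun u : (Module.End (ZMod 2) W)ˣ => ((u : Module.End (ZMod 2) W) ⟨w, hw⟩ : V)) hg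
      simpa [φ] using this
    refine Subtype.ext (ho _ g.2 ?_)
    ext v
    have h2 := h1 _ (hH g.2 v)
    rw [map_sub, sub_eq_iff_eq_add] at h2
    have h3 : ∀ u : V, u + u = 0 := fun u => by
      rw [← two_smul (ZMod 2) u]; exact (by decide : (2 : ZMod 2) = 0) ▸ zero_smul _ _
    rw [pow_two, LinearEquiv.mul_apply, h2, LinearEquiv.coe_one, id]
    have h4 := h3 ((g : V ≃ₗ[ZMod 2] V) v)
    have h5 := h3 v
    calc _ = ((g : V ≃ₗ[ZMod 2] V) v + (g : V ≃ₗ[ZMod 2] V) v) - (v + v) + v := by abel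
      _ = v := by rw [h4, h5]; simp
  have h1 := card_dvd_of_injective _ inj
  let b := Module.finBasis (ZMod 2) W
  have h2 : Nat.card (Module.End (ZMod 2) W)ˣ =
      Nat.card (GL (Fin (Module.finrank (ZMod 2) W)) (ZMod 2)) :=
    Nat.card_congr (Units.mapEquiv (LinearMap.toMatrixAlgEquiv b).toMulEquiv).toEquiv
  rw [h2, Matrix.card_GL_field, ZMod.card] at h1
  refine h1.trans ?_
  generalize Module.finrank (ZMod 2) W = n at hW
  interval_cases n <;> decide

/-- Let V be a finite-dimensional vector space over the field with two elements and S a solvable group of linear automorphisms of V with O₂(S) = 1. If P ∈ S has order 4 and (P − 1)³ = 0 on V, then the image of (P − 1)² has at least 4 elements; equivalently, in the decomposition of V into indecomposable modules for the cyclic group generated by P, at least two summands have dimension 3. -/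
theorem result
    {V : Type*} [AddCommGroup V] [Module (ZMod 2) V] [Finite V]
    (S : Subgroup (V ≃ₗ[ZMod 2] V)) (hS : Group.IsSolvable ↥S) (hO2 : Cfsg.pCore 2 ↥S = ⊥)
    (P : V ≃ₗ[ZMod 2] V) (hPS : P ∈ S) (hP4 : orderOf P = 4)
    (hcub : ((P : V →ₗ[ZMod 2] V) - LinearMap.id) ^ 3 = 0) :
    4 ≤ Nat.card ↥(LinearMap.range (((P : V →ₗ[ZMod 2] V) - LinearMap.id) ^ 2)) := by
  classical
  by_contra hlt
  have : Finite (V ≃ₗ[ZMod 2] V) :=
    Finite.of_injective (fun g : V ≃ₗ[ZMod 2] V => (g : V → V)) DFunLike.coe_injective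
  have h2 : ∀ u : V, u + u = 0 := fun u => by
    rw [← two_smul (ZMod 2) u]; exact (by decide : (2 : ZMod 2) = 0) ▸ zero_smul _ _
  set t := P ^ 2 with ht
  have hsq : ∀ v, (((P : V →ₗ[ZMod 2] V) - LinearMap.id) ^ 2 : V →ₗ[ZMod 2] V) v = t v - v := fun v => by
    have := h2 (P v)
    have h' := h2 v
    simp only [ht, pow_two, Module.End.mul_apply, LinearMap.sub_apply, LinearEquiv.coe_coe,
      LinearMap.id_apply, map_sub, LinearEquiv.mul_apply]
    calc _ = P (P v) - (P v + P v) + (v + v) - v := by abel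
      _ = _ := by rw [this, h']; simp
  have ht2 : t ^ 2 = 1 := by
    rw [ht, ← pow_mul]; have := pow_orderOf_eq_one P; rwa [hP4] at this
  have ht1 : t ≠ 1 := fun h => by
    have := orderOf_dvd_of_pow_eq_one h
    rw [hP4] at this; omega
  set U := LinearMap.range (((P : V →ₗ[ZMod 2] V) - LinearMap.id) ^ 2) with hU
  obtain ⟨v0, hv0⟩ : ∃ v0 ∈ U, ∀ u ∈ U, u ∈ Submodule.span (ZMod 2) {v0} := by
    have hc := Module.natCard_eq_pow_finrank (K := ZMod 2) (V := U)
    rw [Nat.card_zmod] at hc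
    have hr : Module.finrank (ZMod 2) U ≤ 1 := by
      by_contra h
      exact hlt (hc ▸ (Nat.pow_le_pow_right (by norm_num) (by omega) : 2 ^ 2 ≤ _))
    obtain ⟨v, hv⟩ := finrank_le_one_iff.1 hr
    refine ⟨v, v.2, fun u hu => ?_⟩
    obtain ⟨c, hc⟩ := hv ⟨u, hu⟩
    exact Submodule.mem_span_singleton.2 ⟨c, congrArg Subtype.val hc⟩
  obtain ⟨hv0U, hv0⟩ := hv0
  have htv : ∀ v, ∃ c : ZMod 2, t v - v = c • v0 := fun v => by
    obtain ⟨c, hc⟩ := Submodule.mem_span_singleton.1 (hv0 (t v - v) ⟨v, hsq v⟩)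
    exact ⟨c, hc.symm⟩
  have hPv : P v0 = v0 := by
    obtain ⟨w, hw⟩ := hv0U
    have := congrArg (fun f : V →ₗ[ZMod 2] V => f w) hcub
    simp only [pow_succ' _ 2, Module.End.mul_apply, hw, LinearMap.sub_apply, LinearEquiv.coe_coe,
      LinearMap.id_apply, LinearMap.zero_apply] at this
    exact sub_eq_zero.1 this
  have hO : 𝐎 {2} S = ⊥ := by rw [← map_pCore Nat.prime_two, hO2, Subgroup.map_bot]
  have htS : t ∈ S := pow_mem hPS 2
  obtain ⟨r, hr, hrt⟩ : ∃ r : ℕ, r.Prime ∧ ¬ 𝐎 {r} S ≤ 𝐂₁ t := by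
    by_contra h
    push Not at h
    have h1 : 𝐅 S ≤ 𝐂₁ t := F_le_of_forall fun p hp _ => h p hp
    have h3 : t ∈ 𝐅 S := Sol.cent_F_le hS ⟨htS, le_cent1_iff.1 h1⟩
    have h4 := (F_nil S).mem_O h3 (piElt_of_pow_eq_one Nat.prime_two ht2)
    rw [O_F, hO] at h4
    exact ht1 h4
  have hr2 : r ≠ 2 := by rintro rfl; exact hrt (hO ▸ bot_le)
  obtain ⟨f, hf, hft⟩ := SetLike.not_le_iff_exists.1 hrt
  have hn := O_normal {r} S
  have hti : t⁻¹ = t := by rw [inv_eq_iff_mul_eq_one, ← pow_two, ht2]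
  set x := f * t * f⁻¹ * t with hx
  have hxR : x ∈ 𝐎 {r} S := by
    have := mul_mem hf (hn.conj_mem htS (inv_mem hf))
    rw [hti] at this
    simpa [hx, mul_assoc] using this
  have hx1 : x ≠ 1 := fun h => hft (mem_cent1.2 (by
    rw [hx, mul_eq_one_iff_eq_inv, hti, mul_inv_eq_iff_eq_mul] at h; exact h))
  set W : Submodule (ZMod 2) V := Submodule.span (ZMod 2) ({v0, f v0, P (f v0)} : Finset V)
    with hW
  have hWr : Module.finrank (ZMod 2) W ≤ 3 :=
    (finrank_span_finset_le_card _).trans Finset.card_le_three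
  have hc : ∀ g : V ≃ₗ[ZMod 2] V, g v0 ∈ W → g * t * g⁻¹ ∈ triv W := fun g hg v => by
    obtain ⟨c, hc⟩ := htv (g⁻¹ v)
    have : (g * t * g⁻¹) v - v = c • g v0 := by
      rw [← map_smul, ← hc, map_sub]; simp
    rw [this]; exact W.smul_mem c hg
  have a1 : t ∈ triv W := by
    simpa using hc 1 (Submodule.subset_span (by simp))
  have a2 : x ∈ triv W := mul_mem (hc f (Submodule.subset_span (by simp))) a1
  have a3 : P * x * P⁻¹ ∈ triv W := by
    have := mul_mem (hc (P * f) (Submodule.subset_span (by simp))) a1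
    have e : P * x * P⁻¹ = P * f * t * (P * f)⁻¹ * t := by rw [hx, ht]; group
    rwa [e]
  set H := triv W ⊓ 𝐎 {r} S with hH
  have hpi : PiGrp {r} H := (O_pi _ _).inf_right
  have hd : ♯H ∣ 168 := card_dvd W hWr H inf_le_left fun g hg h =>
    (hpi.elt hg).eq_one ((piElt_of_pow_eq_one Nat.prime_two h).of_single' (by simpa using hr2.symm))
  obtain ⟨k, hk⟩ := hpi.card_pow
  have hxH : x ∈ H := ⟨a2, hxR⟩
  have hk0 : k ≠ 0 := by
    rintro rfl
    exact ne_bot_of_mem hxH hx1 (card_eq_one'.1 (by simpa using hk))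
  have hr168 : r ∣ 168 := (dvd_pow_self r hk0).trans (hk ▸ hd)
  have hr37 : r = 3 ∨ r = 7 := by
    have := Nat.le_of_dvd (by norm_num) hr168
    have h3 : r ∣ 2 ^ 3 * (3 * 7) := hr168
    rcases (Nat.Prime.dvd_mul hr).1 h3 with h | h
    · exact absurd ((Nat.prime_dvd_prime_iff_eq hr Nat.prime_two).1 (hr.dvd_of_dvd_pow h)) hr2
    · rcases (Nat.Prime.dvd_mul hr).1 h with h | h
      · exact Or.inl ((Nat.prime_dvd_prime_iff_eq hr Nat.prime_three).1 h)
      · exact Or.inr ((Nat.prime_dvd_prime_iff_eq hr (by norm_num)).1 h)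
  have hk1 : k = 1 := by
    by_contra h
    have : r ^ 2 ∣ 168 := (pow_dvd_pow r (by omega)).trans (hk ▸ hd)
    rcases hr37 with rfl | rfl <;> norm_num at this
  have hcard : ♯H = r := by rw [hk, hk1, pow_one]
  have hz := zpowers_eq_of_prime (hcard ▸ hr) hxH hx1
  have hy : P * x * P⁻¹ ∈ zpowers x := hz ▸ ⟨a3, hn.conj_mem hPS hxR⟩
  rw [mem_zpowers_iff_mem_range_orderOf] at hy
  obtain ⟨m, -, hm⟩ := Finset.mem_image.1 hy
  have ho : orderOf x = r := by rw [← hcard, ← hz, Nat.card_zpowers]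
  have e1 : t * x * t⁻¹ = x ^ (m * m) := by
    calc t * x * t⁻¹ = P * (P * x * P⁻¹) * P⁻¹ := by rw [ht, pow_two]; group
      _ = (P * x * P⁻¹) ^ m := by rw [conj_pow, hm]
      _ = _ := by rw [← hm, pow_mul]
  have e2 : t * x * t⁻¹ * x = 1 := by
    have : t * t = 1 := by rw [← pow_two, ht2]
    calc t * x * t⁻¹ * x = t * (f * (t * t) * f⁻¹) * t := by rw [hx]; group
      _ = 1 := by rw [this]; simp [this]
  rw [e1, ← pow_succ, ← orderOf_dvd_iff_pow_eq_one, ho] at e2
  rcases hr37 with rfl | rfl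
  · have : m % 3 = 0 ∨ m % 3 = 1 ∨ m % 3 = 2 := by omega
    rcases this with h | h | h <;> simp [Nat.dvd_iff_mod_eq_zero, Nat.add_mod, Nat.mul_mod, h] at e2
  · have : m % 7 = 0 ∨ m % 7 = 1 ∨ m % 7 = 2 ∨ m % 7 = 3 ∨ m % 7 = 4 ∨ m % 7 = 5 ∨ m % 7 = 6 := by
      omega
    rcases this with h | h | h | h | h | h | h <;>
      simp [Nat.dvd_iff_mod_eq_zero, Nat.add_mod, Nat.mul_mod, h] at e2

end Cfsg.Agent.S4410
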