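import Cfsg.Statements.S4411
import Cfsg.Agent.BG.B11
import Cfsg.Agent.S2800
import Cfsg.Agent.PLocal.Thompson
import Cfsg.Agent.Solv.PiSep

set_option autoImplicit false
open Cfsg

namespace Cfsg.Agent.S4411
open CF.BG Subgroup
open scoped commutatorElement Pointwise
universe u

theorem ps_of_ker {A B C : Type*} [Group A] [Group B] [Group C] [Finite B] {p : ℕ} [Fact p.Prime]
    {f : A →* B} {g : A →* C} (hf : Function.Surjective f) (hg : Function.Surjective g)
    (h : f.ker ≤ g.ker) (s : IsPSolvable p B) : IsPSolvable p C := by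
  refine CF.Solv.isPSolvable_of_surjective s (f := f.liftOfSurjective hf ⟨g, h⟩) fun c => ?_
  obtain ⟨a, rfl⟩ := hg c
  exact ⟨f a, f.liftOfRightInverse_comp_apply _ _ _ a⟩

theorem hall_pq {p q : ℕ} [Fact p.Prime] (hq : q.Prime) (n : ℕ) :
    ∀ {G : Type u} [Group G] [Finite G] {L T : Subgroup G}, ♯L < n → IsPSolvable p L →
      Syl p T L → q ∣ ♯L → ∃ X, T ≤ X ∧ X ≤ L ∧ PiGrp {p, q} X ∧ q ∣ ♯X := by
  induction n with
  | zero => intro G _ _ L T h; omega
  | succ n ih =>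
    intro G _ _ L T hn s hT hd
    have tpi : PiGrp {p, q} T := hT.pi.of_single (by simp)
    have red : ∀ N, N ⊴ L → N ≠ ⊥ → ¬ q ∣ ♯N →
        ∃ X, T ≤ X ∧ N ≤ X ∧ X ≤ L ∧ PiNat {p, q} (N.relIndex X) ∧ q ∣ N.relIndex X := by
      intro N hN h1 h2
      obtain ⟨X, a, b, c, d⟩ := ih (L := qt N L) (T := qt N T)
        (by have := card_qt_lt hN h1; omega)
        (CF.Solv.isPSolvable_of_surjective s (qtHom_surj hN.norm)) (hT.qt hN.norm)
        (by rw [card_qt hN.norm]; rw [← card_mul_relIndex hN.le] at hd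
            exact (hq.dvd_mul.1 hd).resolve_left h2)
      exact ⟨qp N X, (qt_le_iff (hT.le.trans hN.norm)).1 a, le_qp X, qp_le_of_le_qt hN b,
        by rw [relIndex_qp]; exact c, by rw [relIndex_qp]; exact d⟩
    by_cases hpq : q = p
    · subst hpq
      exact ⟨T, le_rfl, hT.le, tpi, hT.prime_dvd hq rfl hd⟩
    have : Nontrivial L := (nontrivial_iff_ne_bot L).2 fun h => by
      rw [h, card_bot] at hd; exact hq.one_lt.ne' (Nat.dvd_one.1 hd)
    by_cases h1 : 𝐎 {p} L = ⊥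
    · have h2 : 𝐎 {p}ᶜ L ≠ ⊥ := by
        rcases (CF.Solv.isPSolvable_iff_isPiSep.1 s).piCore_ne_bot with h | h
        · exact absurd ((map_eq_bot_iff_of_injective _ L.subtype_injective).1 h1) h
        · exact fun h' => h ((map_eq_bot_iff_of_injective _ L.subtype_injective).1 h')
      have nN := O_normal {p}ᶜ L
      have cop : (♯T).Coprime (♯(𝐎 {p}ᶜ L)) := PiNat.coprime hT.pi (O_pi _ _)
      by_cases h3 : q ∣ ♯(𝐎 {p}ᶜ L)
      · obtain ⟨Q, hQ, n⟩ := exists_syl_inv (hT.le.trans nN.norm) cop (Or.inl hT.pi.sol) q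
        exact ⟨T ⊔ Q, le_sup_left, sup_le hT.le (hQ.le.trans nN.le),
          tpi.sup (hQ.pi.of_single (by simp)) (Or.inl n),
          (hQ.prime_dvd hq rfl h3).trans (card_dvd le_sup_right)⟩
      obtain ⟨X, a, b, c, d, e⟩ := red _ nN h2 h3
      have hp' : PiGrp ({p, q} : Set ℕ)ᶜ (𝐎 {p}ᶜ L) := fun r hr h hm => by
        rcases hm with rfl | rfl
        · exact O_pi _ _ r hr h rfl
        · exact h3 h
      obtain ⟨Y, hY⟩ := exists_compl (nN.of_le b c) (PiNat.coprime' hp' d)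
      obtain ⟨k, hk, l⟩ := exists_cj_le_of_le_sup hY.norm (a.trans hY.sup.ge) cop (Or.inl hT.pi.sol)
      rw [hY.relIndex_left] at d e
      exact ⟨cj k⁻¹ Y, cj_le_iff.1 l, cj_le_of_mem (inv_mem (nN.le hk)) (hY.right_le.trans c),
        PiGrp.cj d _, by rwa [card_cj]⟩
    · obtain ⟨X, a, b, c, d, e⟩ := red _ (O_normal {p} L) h1 ((O_pi _ _).not_dvd hq hpq)
      exact ⟨X, a, c, ((O_pi {p} L).of_single (by simp)).of_relIndex d,
        e.trans (relIndex_dvd_card _ _)⟩

section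
variable {G : Type*} [Group G] [Finite G] {p q : ℕ}

theorem exists_iff_dvd (hq : q.Prime) {A C : Subgroup G} (n : A ≤ 𝐍 C) :
    (∃ Q, Q ≤ A ∧ PiGrp {q} Q ∧ ¬ Q ≤ C) ↔ q ∣ C.relIndex A := by
  constructor
  · rintro ⟨Q, a, b, c⟩
    by_contra h
    exact c (b.le_of_relIndex a n ((piNat_compl_single hq).2 h))
  · intro h
    obtain ⟨Q, hQ⟩ := exists_syl q A
    exact ⟨Q, hQ.le, hQ.pi, fun l => (hQ.idx_of_le l).not_dvd' hq rfl h⟩

theorem npc_map {X : Subgroup G} {Y : Subgroup X} : NPC p (Y.map X.subtype) ↔ NPC p Y := by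
  unfold NPC
  rw [← map_O _ _ X.subtype_injective, hall_map_iff X.subtype_injective]

theorem thompson [hp : Fact p.Prime] {X T : Subgroup G} (hT : Syl p T X)
    (h : p ≠ 2 ∨ ¬ Involves (Equiv.Perm (Fin 4)) X) (a : NPC p (X ⊓ 𝐂 (𝐙 T)))
    (b : NPC p (X ⊓ 𝐍 (thompsonSubgroupOf 0 T))) : NPC p X := by
  obtain ⟨S, rfl⟩ := hT.exists_sylow
  have i := X.subtype_injective
  refine (npc_iff hp.out).2 (S2800.result S h ((npc_iff hp.out).1 (npc_map.1 ?_))
    ((npc_iff hp.out).1 (npc_map.1 ?_)))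
  · rwa [← top_inf_eq (centralizer _), map_inf_cent i, map_inf_cent i, map_top_subtype]
  · rwa [← top_inf_eq (normalizer _), map_inf_norm i, map_top_subtype,
      CF.PLocal.thompsonSubgroupAOf_eq, ← CF.PLocal.thompson_map i.injOn]

omit [Finite G] in
theorem not_inv {X D : Subgroup G} (hD : D ⊴ X) (o : PiGrp {2}ᶜ D) (h3 : ¬ 3 ∣ D.relIndex X) :
    ¬ Involves (Equiv.Perm (Fin 4)) X := by
  rintro ⟨K, R, hR, ⟨e⟩⟩
  let f : K →* Equiv.Perm (Fin 4) := e.toMonoidHom.comp (QuotientGroup.mk' _)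
  have hf : Function.Surjective f := e.surjective.comp (QuotientGroup.mk'_surjective _)
  have hn := hD.normal
  have l : (D.subgroupOf X).subgroupOf K ≤ f.ker := by
    intro x hx
    by_contra h1
    obtain ⟨h, h2, h4⟩ := (by decide +kernel : ∀ g : Equiv.Perm (Fin 4), g ≠ 1 →
      ∃ h, g * (h * g⁻¹ * h⁻¹) ≠ 1 ∧ (g * (h * g⁻¹ * h⁻¹)) ^ 2 = 1) (f x) h1
    obtain ⟨y, rfl⟩ := hf h
    have hm : ((x * (y * x⁻¹ * y⁻¹) : K) : X) ∈ D.subgroupOf X :=
      mul_mem hx (hn.conj_mem _ (inv_mem hx) _)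
    have h5 : PiElt {2}ᶜ (x * (y * x⁻¹ * y⁻¹)) := by
      have : PiNat {2}ᶜ (orderOf (((x * (y * x⁻¹ * y⁻¹) : K) : X) : G)) := o.elt hm
      rwa [orderOf_coe, orderOf_coe] at this
    have h6 := h5.map f
    simp only [map_mul, map_inv] at h6
    exact h2 ((piElt_of_pow_eq_one Nat.prime_two h4).eq_one h6)
  have d1 := index_dvd_of_le l
  rw [index_ker, f.range_eq_top_of_surjective hf, card_top] at d1
  have d2 : (D.subgroupOf X).relIndex K ∣ D.relIndex X := relIndex_dvd_index_of_normal _ _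
  refine h3 (Dvd.dvd.trans ?_ (d1.trans d2))
  rw [Nat.card_eq_fintype_card, Fintype.card_perm]; decide

end

/-- `K` is a `p`-subgroup of `L` with a nontrivial `q`-automorphism induced in `L` -/
def Bad {G : Type*} [Group G] (p q : ℕ) (L K : Subgroup G) : Prop :=
  K ≤ L ∧ PiGrp {p} K ∧ ∃ Q, Q ≤ L ⊓ 𝐍 K ∧ PiGrp {q} Q ∧ ¬ Q ≤ 𝐂 K

theorem main {p q : ℕ} [hp : Fact p.Prime] (hq : q.Prime) (hpq : p ≠ q) (h23 : p = 2 → q ≠ 3)
    (n : ℕ) : ∀ {G : Type u} [Group G] [Finite G] {L K : Subgroup G}, ♯L < n →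
      (∀ H ≤ L, PiGrp {p} H → IsPSolvable p (qt (𝐂 H) (L ⊓ 𝐍 H))) → Bad p q L K →
      ∃ K P, Syl p P L ∧ K ⊴ P ∧ Bad p q L K := by
  induction n with
  | zero => intro G _ _ L T h; omega
  | succ n ih =>
    intro G _ _ L K0 hn hs h0
    obtain ⟨K1, h1, hmax⟩ := Set.exists_max_image {K | Bad p q L K}
      (fun K => logn p (♯(L ⊓ 𝐍 K))) (Set.toFinite _) ⟨K0, h0⟩
    obtain ⟨K, ⟨hK, hm⟩, hmax2⟩ := exists_max_card
      (P := fun K => Bad p q L K ∧ logn p (♯(L ⊓ 𝐍 K)) = logn p (♯(L ⊓ 𝐍 K1))) ⟨h1, rfl⟩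
    rw [← hm] at hmax hmax2
    set N := L ⊓ 𝐍 K with hN
    have kN : K ⊴ N := ⟨le_inf hK.1 (le_norm_self K), inf_le_right⟩
    obtain ⟨T, hT⟩ := exists_syl p N
    have kT : K ≤ T := hT.le_of_normal kN hK.2.1
    have tL : T ≤ L := hT.le.trans inf_le_left
    rw [← hT.logn_eq rfl] at hmax hmax2
    obtain ⟨P, hP, tP⟩ := exists_syl_le tL hT.pi
    by_cases e : T = P
    · exact ⟨K, P, hP, e ▸ kN.of_le kT hT.le, hK⟩
    have lt := hP.pi.nil.lt_inf_norm (lt_of_le_of_ne tP e)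
    set T1 := P ⊓ 𝐍 T with hT1
    have lt1 := hP.pi.inf_left.logn_lt lt
    have t1L : T1 ≤ L := inf_le_left.trans hP.le
    have M : ∀ K', Bad p q L K' → ∀ U, U ≤ L ⊓ 𝐍 K' → logn p (♯T) < logn p (♯U) → False :=
      fun K' h U l lt => by
        have := hmax K' h
        have := logn_card_le (p := p) l
        omega
    set C := L ⊓ 𝐂 K with hC
    have cN : C ⊴ N := ⟨inf_le_inf_left _ (cent_le_norm K),
      norm_inf_cent (norm_of_le inf_le_left) inf_le_right⟩
    have nC : N ≤ 𝐍 (𝐂 K) := norm_cent inf_le_right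
    have qp' : ∀ {m : ℕ}, PiNat {p} m → PiNat {q}ᶜ m := fun h => h.of_single hpq
    have rN := kN.sup cN
    have hS := hT.inf_normal rN
    have sK : T ⊓ (K ⊔ C) = K := by
      have kS : K ≤ T ⊓ (K ⊔ C) := le_inf kT le_sup_left
      obtain ⟨Q, a, b, c⟩ := hK.2.2
      have d1 : q ∣ (K ⊔ C).relIndex N := by
        refine (exists_iff_dvd hq rN.norm).1 ⟨Q, a, b, fun l => c (le_trans ?_ (inf_le_right : C ≤ _))⟩
        refine b.le_of_relIndex l (rN.le.trans cN.norm) (qp' ?_)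
        rw [relIndex_sup_norm (Or.inl (kN.le.trans cN.norm))]
        exact hK.2.1.relIndex _
      rw [← hS.syl_frattini_sup rN, relIndex_sup_norm' (Or.inl (inf_le_left.trans rN.norm))] at d1
      obtain ⟨Q', a', b', c'⟩ := (exists_iff_dvd hq (inf_le_left.trans rN.norm)).2 d1
      have bad : Bad p q L (T ⊓ (K ⊔ C)) := ⟨inf_le_left.trans tL, hS.pi, Q',
        a'.trans (inf_le_inf_right _ inf_le_left), b', fun l => c' (le_sup_of_le_right
          (le_inf (a'.trans (inf_le_left.trans inf_le_left)) (l.trans (cent_anti kS))))⟩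
      have l1 : T ≤ L ⊓ 𝐍 (T ⊓ (K ⊔ C)) :=
        le_inf tL (norm_inf (le_norm_self _) (hT.le.trans rN.norm))
      exact (eq_of_card_le kS (hmax2 _ ⟨bad, le_antisymm (hmax _ bad) (logn_card_le l1)⟩)).symm
    rw [sK] at hS
    have hZ := hS.inf_normal (cN.of_le le_sup_right rN.le)
    have dp := hZ.dprod_of_cent (inf_le_right.trans (cent_anti inf_le_left))
    set D := 𝐎 {p}ᶜ C with hD
    have dN : D ⊴ N := cN.O _
    have dC : PiNat {p} (D.relIndex C) := by rw [dp.sdprod.relIndex_right]; exact hZ.pi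
    obtain ⟨X', a, b, c, d⟩ := hall_pq hq _ (Nat.lt_succ_self _) (hs K hK.1 hK.2.1) (hT.qt nC)
      (by rw [card_qt nC]; exact (exists_iff_dvd hq nC).1 hK.2.2)
    set X := N ⊓ qp (𝐂 K) X' with hX
    have xN : X ≤ N := inf_le_left
    have tX : T ≤ X := le_inf hT.le ((qt_le_iff (hT.le.trans nC)).1 a)
    have cX : C ≤ X := le_inf cN.le (inf_le_right.trans (le_qp _))
    have iX : (𝐂 K).relIndex X = ♯X' := by
      rw [← card_qt (xN.trans nC), qt_inf_qp, inf_eq_right.2 b]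
    have iX' : C.relIndex X = ♯X' := by
      rw [← iX, ← inf_relIndex_right, ← inf_relIndex_right (𝐂 K)]
      congr 1
      exact le_antisymm (inf_le_inf_right _ inf_le_right)
        (le_inf (le_inf (inf_le_right.trans (xN.trans inf_le_left)) inf_le_left) inf_le_right)
    have dX : PiNat {p, q} (D.relIndex X) := by
      rw [← relIndex_mul_relIndex D C X (O_le _ _) cX, iX']
      exact (dC.of_single (by simp)).mul c
    have dnX : D ⊴ X := dN.of_le ((O_le _ _).trans cX) xN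
    have kX : K ⊴ X := kN.of_le (kT.trans tX) xN
    have nX : ¬ NPC p X := fun h => by
      have l := O_compl_cent_normal kX hK.2.1
      have := (h.idx_of_le l).of_compl_compl
      rw [iX] at this
      exact hpq (this q hq d).symm
    have lemY : ∀ Y, Y ≤ X → ¬ NPC p Y → ∃ Q, Q ≤ Y ∧ PiGrp {q} Q ∧ ¬ Q ≤ 𝐂 K := by
      intro Y hY h
      obtain ⟨Q, hQ⟩ := exists_syl q Y
      refine ⟨Q, hQ.le, hQ.pi, fun l => h ?_⟩
      have l1 : Q ≤ C := le_inf (hQ.le.trans (hY.trans (xN.trans inf_le_left))) l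
      have l2 : Q ≤ D := hQ.pi.le_of_relIndex l1 (O_normal _ _).norm (qp' dC)
      have i1 := hQ.idx_of_le l2
      have i2 := dX.dvd (relIndex_dvd_of_norm hY dnX.norm)
      refine npc_of_normal (dnX.inf_right hY) (O_pi _ _).inf_left ?_
      rw [inf_relIndex_right]
      exact fun r hr h => (i2 r hr h).resolve_right (i1 r hr h)
    have hS4 : p ≠ 2 ∨ ¬ Involves (Equiv.Perm (Fin 4)) X := by
      by_cases h2 : p = 2
      · subst h2
        refine Or.inr (not_inv dnX (O_pi _ _) fun h => ?_)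
        rcases dX 3 Nat.prime_three h with h | h
        · omega
        · exact h23 rfl (Eq.symm h)
      · exact Or.inl h2
    have hTX : Syl p T X := hT.of_le tX xN
    have q' : ∀ {Q : Subgroup G}, PiGrp {q} Q → PiGrp {p}ᶜ Q := fun h => h.of_single_ne hpq.symm
    by_cases hJ : NPC p (X ⊓ 𝐍 (thompsonSubgroupOf 0 T))
    swap
    · exfalso
      obtain ⟨Q, a, b, c⟩ := lemY _ inf_le_left hJ
      have jT := CF.PLocal.thompson_le 0 T
      have qN := a.trans (inf_le_left.trans xN)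
      have cJ : Q ≤ 𝐂 (thompsonSubgroupOf 0 T) := by
        by_contra h
        exact M _ ⟨jT.trans tL, hT.pi.le jT, Q, le_inf (qN.trans inf_le_left) (a.trans inf_le_right),
          b, h⟩ T1 (le_inf t1L (inf_le_right.trans
            (CF.PLocal.normalizer_le_normalizer_thompson 0 T))) lt1
      refine c (cent_of_pxq (hT.pi.le jT) hK.2.1 (q' b) (cent_symm cJ)
        (jT.trans (hT.le.trans kN.norm)) (qN.trans kN.norm) fun x hx => cent_symm cJ ?_)
      exact CF.PLocal.mem_thompson_of_centralizer (kT hx.1) hx.2 (pow_zero x)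
    obtain ⟨Q, a, b, c⟩ := lemY _ inf_le_left fun h => nX (thompson hTX hS4 h hJ)
    have qN := a.trans (inf_le_left.trans xN)
    have qZ : Q ≤ 𝐂 (𝐙 T) := a.trans inf_le_right
    have zK : 𝐙 T ≤ K := sK.le.trans' (le_inf inf_le_left (le_sup_of_le_right
      (le_inf (inf_le_left.trans tL) (inf_le_right.trans (cent_anti kT)))))
    have zpi : PiGrp {p} (𝐙 T) := hT.pi.inf_left
    have z1 : 𝐙 T ≠ ⊥ := hT.pi.center_ne_bot fun h => c (by
      rw [eq_bot_mono h kT, cent_bot]; exact le_top)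
    by_cases hz : L ≤ 𝐍 (𝐙 T)
    · have zL : 𝐙 T ⊴ L := ⟨inf_le_left.trans tL, hz⟩
      have nz : ∀ {Y : Subgroup G}, Y ≤ L → Y ≤ 𝐍 (𝐙 T) := fun h => h.trans hz
      obtain ⟨K', P', a', b', c', d', Q', e', f', g'⟩ := ih (L := qt (𝐙 T) L) (K := qt (𝐙 T) K)
        (by have := card_qt_lt zL z1; omega) (fun H h1 h2 => by
          have l := qp_le_of_le_qt zL h1
          have e := qt_inf_norm_eq (normal_qp H) L
          rw [qt_qp] at e
          rw [← e]
          have n1 : L ⊓ 𝐍 (qp (𝐙 T) H) ≤ 𝐍 (𝐂 (qp (𝐙 T) H)) := norm_cent inf_le_right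
          have n2 : qt (𝐙 T) (L ⊓ 𝐍 (qp (𝐙 T) H)) ≤ 𝐍 (𝐂 H) := e ▸ norm_cent inf_le_right
          refine ps_of_ker (qtHom_surj n1) (g := (qtHom n2).comp (qtHom (nz inf_le_left)))
            ((qtHom_surj n2).comp (qtHom_surj _)) (fun x hx => ?_) (hs _ l (zpi.qp h2))
          rw [qtHom_ker] at hx
          rw [← MonoidHom.comap_ker, qtHom_ker]
          have := qt_cent (𝐙 T) (le_refl (𝐂 (qp (𝐙 T) H))) (qe_mem_qt hx (hz x.2.1))
          rw [qt_qp] at this
          rw [mem_comap, mem_subgroupOf, qtHom_apply]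
          exact this)
        ⟨qt_mono _ hK.1, hK.2.1.qt _, qt _ Q, le_inf (qt_mono _ (qN.trans inf_le_left))
          (qt_norm _ (qN.trans inf_le_right)), b.qt _, fun h => c (by
            rw [qt_cent_iff (nz (qN.trans inf_le_left)) (nz hK.1), commutator_comm] at h
            exact cent_of_stable (PiNat.coprime' (q' b) zpi) h qZ)⟩
      obtain ⟨R, hR⟩ := exists_syl q (qp (𝐙 T) Q')
      have e1 := (hR.qt (qp_le_norm _)).eq_of_pi (by rw [qt_qp]; exact f')
      rw [qt_qp] at e1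
      refine ⟨qp _ K', qp _ P', a'.qp zpi zL, b'.qp, qp_le_of_le_qt zL c', zpi.qp d', R,
        hR.le.trans (le_inf (qp_le_of_le_qt zL (e'.trans inf_le_left))
          (qp_norm (e'.trans inf_le_right))), hR.pi, fun h => g' ?_⟩
      have := qt_cent (𝐙 T) h
      rwa [qt_qp, e1] at this
    · exfalso
      have l1 : L ⊓ 𝐍 (𝐙 T) < L := lt_of_le_of_ne inf_le_left fun h => hz (h ▸ inf_le_right)
      obtain ⟨K', P', a', b', c', d', Q', e', f', g'⟩ := ih (L := L ⊓ 𝐍 (𝐙 T)) (K := K)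
        (by have := card_lt l1; omega) (fun H h1 h2 => CF.Solv.isPSolvable_of_injective
          (hs H (h1.trans inf_le_left) h2)
          (inclusion_injective (qt_mono _ (inf_le_inf_right _ inf_le_left))))
        ⟨le_inf hK.1 (kT.trans (center_normal T).norm), hK.2.1, Q,
          le_inf (le_inf (qN.trans inf_le_left) (norm_of_cent qZ)) (qN.trans inf_le_right), b, c⟩
      refine M K' ⟨c'.trans inf_le_left, d', Q', e'.trans (inf_le_inf_right _ inf_le_left), f', g'⟩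
        P' (le_inf (a'.le.trans inf_le_left) b'.norm) (lt1.trans_le ?_)
      rw [a'.logn_eq rfl]
      exact logn_card_le (le_inf t1L (inf_le_right.trans (norm_center T)))

/-- Let p and q be distinct primes with {p, q} ≠ {2, 3}, and let G be a finite group such that for every p-subgroup H of G the automizer N_G(H)/C_G(H) is p-solvable. If q divides the order of N_G(H)/C_G(H) for some p-subgroup H, then a Sylow p-subgroup of G has a normal subgroup K (normal in the Sylow subgroup) such that q divides the order of N_G(K)/C_G(K). -/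
theorem result {G : Type*} [Group G] [Finite G]
    (p q : ℕ) [Fact p.Prime] [Fact q.Prime] (hpq : p ≠ q) (h23 : ¬ ((p = 2 ∧ q = 3) ∨ (p = 3 ∧ q = 2)))
    (hsol : ∀ H : Subgroup G, IsPGroup p ↥H →
      Cfsg.IsPSolvable p (↥(Subgroup.normalizer (H : Set G)) ⧸ (Subgroup.centralizer (H : Set G)).subgroupOf (Subgroup.normalizer (H : Set G))))
    (H : Subgroup G) (hH : IsPGroup p ↥H)
    (hq : q ∣ ((Subgroup.centralizer (H : Set G)).subgroupOf (Subgroup.normalizer (H : Set G))).index)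
    (Gp : Sylow p G) :
    ∃ K : Subgroup G, K ≤ (Gp : Subgroup G) ∧ (Gp : Subgroup G) ≤ Subgroup.normalizer (K : Set G) ∧
      q ∣ ((Subgroup.centralizer (K : Set G)).subgroupOf (Subgroup.normalizer (K : Set G))).index := by
  have hp : p.Prime := Fact.out
  have hq' : q.Prime := Fact.out
  have n : ∀ H : Subgroup G, ⊤ ⊓ 𝐍 H ≤ 𝐍 (𝐂 H) := fun H => norm_cent inf_le_right
  obtain ⟨K, P, a, b, -, d, Q, e, f, g⟩ := main hq' hpq (fun h h' => h23 (Or.inl ⟨h, h'⟩)) _
    (L := ⊤) (K := H) (Nat.lt_succ_self _) (fun H _ h => by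
      rw [top_inf_eq]
      exact ps_of_ker (QuotientGroup.mk'_surjective _) (qtHom_surj (norm_le_norm_cent H))
        (by rw [QuotientGroup.ker_mk', qtHom_ker]) (hsol H h.isPGroup))
    ⟨le_top, piGrp_of_isPGroup hp hH, (exists_iff_dvd hq' (n H)).2 (by rwa [top_inf_eq])⟩
  obtain ⟨x, -, hx⟩ := a.syl_conj (syl_sylow_top Gp)
  refine ⟨cj x K, hx ▸ cj_mono x b.le, hx ▸ (b.cj x).norm, ?_⟩
  exact (exists_iff_dvd hq' (norm_le_norm_cent _)).1 ⟨cj x Q, cj_norm_iff.2 (e.trans inf_le_right),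
    f.cj x, fun h => g (cj_cent_iff.1 h)⟩

end Cfsg.Agent.S4411
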