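import Cfsg.Statements.S4412
import Cfsg.Agent.Crit.E8
-- import your own Cfsg.Agent.* helpers here

set_option autoImplicit false
open Cfsg

namespace Cfsg.Agent.S4412

/-- Let p be an odd prime, P a finite p-group and I an elementary abelian subgroup of order 8 of Aut(P). Call T ∈ I, T ≠ 1, broad when its fixed-point subgroup C_P(T) is not cyclic. Suppose I has a proper subgroup I₀ containing no broad element such that the product of any two broad elements lies in I₀. Then P is abelian of rank exactly 3 (generated by three elements but not by two), there are exactly three broad elements and they generate I, and I₀ is exactly the set of products of two broad elements. -/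
theorem result
    {P : Type*} [Group P] [Finite P] (p : ℕ) (hp : p.Prime) (hp2 : p ≠ 2) (hP : IsPGroup p P)
    (I : Subgroup (MulAut P)) (hI : Cfsg.IsElementaryAbelian 2 I) (hI8 : Nat.card ↥I = 8)
    (I₀ : Subgroup (MulAut P)) (hI₀ : I₀ < I)
    (hdisj : ∀ T ∈ I₀, T ≠ 1 → ∃ g : P, ∀ x : P, (T x = x ↔ x ∈ Subgroup.zpowers g))
    (hprod : ∀ T ∈ I, ∀ T' ∈ I, T ≠ 1 → T' ≠ 1 → (¬ ∃ g : P, ∀ x : P, (T x = x ↔ x ∈ Subgroup.zpowers g)) →
      (¬ ∃ g : P, ∀ x : P, (T' x = x ↔ x ∈ Subgroup.zpowers g)) → T * T' ∈ I₀) :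
    IsMulCommutative P ∧ (∃ a b c : P, Subgroup.closure {a, b, c} = ⊤) ∧ (¬ ∃ a b : P, Subgroup.closure {a, b} = ⊤) ∧
      Nat.card {T : MulAut P // T ∈ I ∧ T ≠ 1 ∧ ¬ ∃ g : P, ∀ x : P, (T x = x ↔ x ∈ Subgroup.zpowers g)} = 3 ∧
      Subgroup.closure {T : MulAut P | T ∈ I ∧ T ≠ 1 ∧ ¬ ∃ g : P, ∀ x : P, (T x = x ↔ x ∈ Subgroup.zpowers g)} = I ∧
      (I₀ : Set (MulAut P)) = {S : MulAut P | ∃ T T' : MulAut P, T ∈ I ∧ T' ∈ I ∧ T ≠ 1 ∧ T' ≠ 1 ∧
        (¬ ∃ g : P, ∀ x : P, (T x = x ↔ x ∈ Subgroup.zpowers g)) ∧ (¬ ∃ g : P, ∀ x : P, (T' x = x ↔ x ∈ Subgroup.zpowers g)) ∧ S = T * T'} := by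
  classical
  have := Fact.mk hp
  have sq : ∀ T ∈ I, T * T = 1 := fun T h => by rw [← pow_two, hI.2 T h]
  have cm : ∀ S ∈ I, ∀ T ∈ I, S * T = T * S := fun S a T b =>
    congrArg Subtype.val (hI.1.is_comm.comm (⟨S, a⟩ : I) ⟨T, b⟩)
  obtain ⟨J, jI, k4, hJ⟩ := CF.Crit.E8.exists_four sq cm hI8 hI₀ hdisj hprod
  have := Fintype.ofFinite J
  have : Nontrivial J := Finite.one_lt_card_iff_nontrivial.1 (by simp)
  obtain ⟨⟨j1, m1⟩, n1⟩ := exists_ne (1 : J)
  obtain ⟨⟨j2, m2⟩, n2, n12⟩ : ∃ y : J, y ≠ 1 ∧ ⟨j1, m1⟩ ≠ y := by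
    obtain ⟨y, hy⟩ := Finset.exists_mem_notMem_of_card_lt_card (s := {1, (⟨j1, m1⟩ : J)})
      (t := Finset.univ) (Finset.card_le_two.trans_lt (by simp [← Nat.card_eq_fintype_card]))
    exact ⟨y, by simpa [eq_comm] using hy.2⟩
  obtain ⟨x1, h1⟩ := hJ j1 m1 (by simpa using n1)
  obtain ⟨x2, h2⟩ := hJ j2 m2 (by simpa using n2)
  obtain ⟨x3, h3⟩ := hJ _ (mul_mem m1 m2) (by
    rw [Ne, ← eq_inv_iff_mul_eq_one, inv_eq_of_mul_eq_one_right (sq _ (jI m2))]; simpa using n12)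
  have i1 := jI m1
  have i2 := jI m2
  have i3 := mul_mem i1 i2
  have gen : Subgroup.closure {x1, x2, x3} = ⊤ := by
    have := k4.1
    have _ : IsMulCommutative J := ⟨⟨fun a b => Subtype.ext (cm _ (jI a.2) _ (jI b.2))⟩⟩
    refine top_le_iff.1 (CF.Coprime.act_le_of_forall_fixSub_le (MonoidHom.id _) (B := J)
      IsKleinFour.not_isCyclic (CF.Coprime.inv_top _ _) ?_ _ fun a ha a1 y hy => ?_)
    · obtain ⟨n, hn⟩ := hP.exists_card_eq
      rw [this, Subgroup.card_top, hn]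
      exact Nat.Coprime.pow 2 n ((Nat.coprime_primes Nat.prime_two hp).2 hp2.symm)
    have hy : a y = y := (CF.Coprime.mem_fixSub_zpowers _).1 hy.2
    by_cases e1 : a = j1
    · exact Subgroup.zpowers_le.2 (Subgroup.subset_closure (by simp)) ((h1 y).1 (e1 ▸ hy))
    by_cases e2 : a = j2
    · exact Subgroup.zpowers_le.2 (Subgroup.subset_closure (by simp)) ((h2 y).1 (e2 ▸ hy))
    have e3 : a = j1 * j2 := congrArg Subtype.val (IsKleinFour.eq_mul_of_ne_all (z := (⟨a, ha⟩ : J))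
      n1 n2 n12 (by simpa) (by simpa) (by simpa))
    exact Subgroup.zpowers_le.2 (Subgroup.subset_closure (by simp)) ((h3 y).1 (e3 ▸ hy))
  generalize j1 * j2 = j3 at h3 i3
  have s1 := fun T hT => CF.Crit.E8.sign hp hp2 hP (sq T hT) (cm _ i1 T hT) h1
  have s2 := fun T hT => CF.Crit.E8.sign hp hp2 hP (sq T hT) (cm _ i2 T hT) h2
  have s3 := fun T hT => CF.Crit.E8.sign hp hp2 hP (sq T hT) (cm _ i3 T hT) h3
  have inj : ∀ S T : MulAut P, S x1 = T x1 → S x2 = T x2 → S x3 = T x3 → S = T := fun S T a b c =>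
    MulEquiv.toMonoidHom_injective (MonoidHom.eq_of_eqOn_dense gen (by
      rintro _ (rfl | rfl | rfl) <;> assumption))
  have sj := (Function.Injective.bijective_of_nat_card_le (f := fun T : I =>
      (decide (T.1 x1 = x1), decide (T.1 x2 = x2), decide (T.1 x3 = x3))) (fun S T e => by
    simp only [Prod.mk.injEq, decide_eq_decide] at e
    have := s1 _ S.2; have := s1 _ T.2; have := s2 _ S.2; have := s2 _ T.2
    have := s3 _ S.2; have := s3 _ T.2
    exact Subtype.ext (inj _ _ (by grind) (by grind) (by grind))) (by simp [hI8])).2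
  obtain ⟨⟨T1, t1⟩, e1⟩ := sj (false, true, true)
  obtain ⟨⟨T2, t2⟩, e2⟩ := sj (true, false, true)
  obtain ⟨⟨T3, t3⟩, e3⟩ := sj (true, true, false)
  simp only [Prod.mk.injEq, decide_eq_true_eq, decide_eq_false_iff_not] at e1 e2 e3
  obtain ⟨a1, a2, a3⟩ := e1
  obtain ⟨b1, b2, b3⟩ := e2
  obtain ⟨c1, c2, c3⟩ := e3
  have a0 := (s1 _ t1).resolve_left a1
  have b0 := (s2 _ t2).resolve_left b2
  have c0 := (s3 _ t3).resolve_left c3
  rw [a0] at a1
  rw [b0] at b2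
  rw [c0] at c3
  have nc := fun S T a b hS hT => CF.Crit.E8.not_cy (a := a) (b := b) hp hp2 hP (sq T hT) (cm S hS T hT)
  have y1 := nc _ _ _ _ t1 t2 a2 a3 b0 b3 b2 c3
  have y2 := nc _ _ _ _ t2 t1 b1 b3 a0 a3 a1 c3
  have y3 := nc _ _ _ _ t3 t1 c1 c2 a0 a2 a1 b2
  have f1 := (h1 _).2 (Subgroup.mem_zpowers _)
  have f2 := (h2 _).2 (Subgroup.mem_zpowers _)
  have f3 := (h3 _).2 (Subgroup.mem_zpowers _)
  have f12 := (s2 _ i1).resolve_left fun e => nc _ _ _ _ i1 t1 f1 e a0 a2 a1 b2 ⟨_, h1⟩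
  have f13 := (s3 _ i1).resolve_left fun e => nc _ _ _ _ i1 t1 f1 e a0 a3 a1 c3 ⟨_, h1⟩
  have f21 := (s1 _ i2).resolve_left fun e => nc _ _ _ _ i2 t1 e f2 a0 a2 a1 b2 ⟨_, h2⟩
  have f23 := (s3 _ i2).resolve_left fun e => nc _ _ _ _ i2 t2 f2 e b0 b3 b2 c3 ⟨_, h2⟩
  have f31 := (s1 _ i3).resolve_left fun e => nc _ _ _ _ i3 t1 e f3 a0 a3 a1 c3 ⟨_, h3⟩
  have f32 := (s2 _ i3).resolve_left fun e => nc _ _ _ _ i3 t2 e f3 b0 b3 b2 c3 ⟨_, h3⟩
  have m12 := CF.Crit.E8.comm hp hp2 hP h3 f31 f32 c1 c2 c0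
  have m13 := CF.Crit.E8.comm hp hp2 hP h2 f21 f23 b1 b3 b0
  have m23 := CF.Crit.E8.comm hp hp2 hP h1 f12 f13 a2 a3 a0
  have ab : IsMulCommutative (⊤ : Subgroup P) := gen ▸ Subgroup.isMulCommutative_closure (by
      rintro _ (rfl | rfl | rfl) _ (rfl | rfl | rfl) <;> first | rfl | assumption | (symm; assumption))
  have ab : IsMulCommutative P := ⟨⟨fun a b =>
    congrArg Subtype.val (ab.is_comm.comm ⟨a, trivial⟩ ⟨b, trivial⟩)⟩⟩
  have o1 : T1 ≠ 1 := fun e => a1 (by rw [← a0, e]; rfl)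
  have o2 : T2 ≠ 1 := fun e => b2 (by rw [← b0, e]; rfl)
  have o3 : T3 ≠ 1 := fun e => c3 (by rw [← c0, e]; rfl)
  obtain rfl : j1 = T2 * T3 := inj _ _ (by simp [*]) (by simp [*]) (by simp [*])
  obtain rfl : j2 = T1 * T3 := inj _ _ (by simp [*]) (by simp [*]) (by simp [*])
  obtain rfl : j3 = T1 * T2 := inj _ _ (by simp [*]) (by simp [*]) (by simp [*])
  have all : ∀ T ∈ I, T = 1 ∨ T = T1 ∨ T = T2 ∨ T = T3 ∨ T = T2 * T3 ∨ T = T1 * T3 ∨ T = T1 * T2 ∨
      T = T1 * (T2 * T3) := fun T hT => by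
    rcases s1 T hT with u | u <;> rcases s2 T hT with v | v <;> rcases s3 T hT with w | w <;>
      [left; (iterate 3 right); (iterate 2 right); (iterate 4 right); right; (iterate 5 right);
        (iterate 6 right); iterate 7 right] <;> (try left) <;>
      exact inj _ _ (by simp [u, a0, b1, c1]) (by simp [v, a2, b0, c2]) (by simp [w, a3, b3, c0])
  have y0 : CF.Crit.E8.Cy (T1 * (T2 * T3)) := ⟨1, fun y => by
    have : (T1 * (T2 * T3)) y = y⁻¹ := by
      have hy : y ∈ Subgroup.closure {x1, x2, x3} := gen ▸ Subgroup.mem_top y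
      induction hy using Subgroup.closure_induction with
      | mem x hx => rcases hx with rfl | rfl | rfl <;> simp [*]
      | one => simp
      | mul x y _ _ a b => rw [map_mul, a, b, mul_inv_rev, ab.is_comm.comm]
      | inv x _ a => rw [map_inv, a]
    rw [this, Subgroup.zpowers_one_eq_bot, Subgroup.mem_bot]
    exact ⟨CF.Crit.E8.eq_one hp hp2 hP, fun e => by simp [e]⟩⟩
  have hat : {T : MulAut P | T ∈ I ∧ T ≠ 1 ∧ ¬ ∃ g : P, ∀ x : P, (T x = x ↔ x ∈ Subgroup.zpowers g)} =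
      {T1, T2, T3} := by
    ext T
    refine ⟨fun ⟨a, b, c⟩ => ?_, ?_⟩
    · rcases all T a with e | e | e | e | e | e | e | e
      exacts [(b e).elim, .inl e, .inr (.inl e), .inr (.inr e), (c (e ▸ ⟨_, h1⟩)).elim,
        (c (e ▸ ⟨_, h2⟩)).elim, (c (e ▸ ⟨_, h3⟩)).elim, (c (e ▸ y0)).elim]
    · rintro (rfl | rfl | rfl)
      exacts [⟨t1, o1, y1⟩, ⟨t2, o2, y2⟩, ⟨t3, o3, y3⟩]
  refine ⟨ab, ⟨_, _, _, gen⟩, fun ⟨a, b, e⟩ => ?_, ?_, ?_, ?_⟩
  · let _ : CommGroup P := { (inferInstance : Group P) with mul_comm := ab.is_comm.comm }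
    refine CF.Crit.E8.not_two hp hp2 hP (x := ![x1, x2, x3]) (j := ![T2 * T3, T1 * T3, T1 * T2])
      (fun i => ?_) (fun i => ?_) (fun i => ?_) (fun i k => ?_) e
    · fin_cases i
      exacts [fun e => a1 (by simp [show x1 = 1 from e]), fun e => b2 (by simp [show x2 = 1 from e]),
        fun e => c3 (by simp [show x3 = 1 from e])]
    · fin_cases i
      exacts [sq _ i1, sq _ i2, sq _ i3]
    · fin_cases i
      exacts [h1, h2, h3]
    · fin_cases i <;> fin_cases k <;> first | exact fun e => (e rfl).elim | exact fun _ => ‹_›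
  · refine (Nat.card_coe_set_eq _).trans (Set.ncard_eq_three.2 ⟨_, _, _, ?_, ?_, ?_, hat⟩)
    exacts [fun e => a1 (by rw [← a0, e, b1]), fun e => a1 (by rw [← a0, e, c1]),
      fun e => b2 (by rw [← b0, e, c2])]
  · rw [hat]
    refine le_antisymm ((Subgroup.closure_le _).2 (by rintro _ (rfl | rfl | rfl) <;> assumption))
      fun T hT => ?_
    have u1 : T1 ∈ Subgroup.closure {T1, T2, T3} := Subgroup.subset_closure (by simp)
    have u2 : T2 ∈ Subgroup.closure {T1, T2, T3} := Subgroup.subset_closure (by simp)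
    have u3 : T3 ∈ Subgroup.closure {T1, T2, T3} := Subgroup.subset_closure (by simp)
    rcases all T hT with e | e | e | e | e | e | e | e <;> rw [e]
    exacts [one_mem _, u1, u2, u3, mul_mem u2 u3, mul_mem u1 u3, mul_mem u1 u2,
      mul_mem u1 (mul_mem u2 u3)]
  · ext T
    refine ⟨fun hT => ?_, fun ⟨S, U, a, b, c, d, e, f, g⟩ => g ▸ hprod S a U b c d e f⟩
    rcases all T (hI₀.le hT) with e | e | e | e | e | e | e | e
    exacts [⟨_, _, t1, t1, o1, o1, y1, y1, e.trans (sq _ t1).symm⟩, (y1 (hdisj _ (e ▸ hT) o1)).elim,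
      (y2 (hdisj _ (e ▸ hT) o2)).elim, (y3 (hdisj _ (e ▸ hT) o3)).elim,
      ⟨_, _, t2, t3, o2, o3, y2, y3, e⟩, ⟨_, _, t1, t3, o1, o3, y1, y3, e⟩,
      ⟨_, _, t1, t2, o1, o2, y1, y2, e⟩, (y1 (hdisj _ ((mul_mem_cancel_right
        (hprod _ t2 _ t3 o2 o3 y2 y3)).1 (e ▸ hT)) o1)).elim]

end Cfsg.Agent.S4412
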