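import Cfsg.Statements.S5432
import Cfsg.Agent.LX.QM

set_option autoImplicit false
open Cfsg

namespace Cfsg.Agent.S5432

open CF.Loc CF.LX CF.Even CF.Geom Subgroup

/-- Let E be an extraspecial 2-group of order 2^(2n+1), n ≥ 1. If E contains an elementary abelian subgroup of order 2^(n+1) (plus type), then its outer automorphism group is isomorphic to the full isometry group of the hyperbolic quadratic form in dimension 2n over the field with two elements; otherwise (minus type) it is isomorphic to the full isometry group of the elliptic quadratic form in dimension 2n over that field. -/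
theorem result {E : Type*} [Group E] [Finite E] (hE : Cfsg.IsExtraspecial 2 E) (n : ℕ) (hn : 1 ≤ n) (hcard : Nat.card E = 2 ^ (2 * n + 1)) : ((∃ A : Subgroup E, Cfsg.IsElementaryAbelian 2 A ∧ Nat.card ↥A = 2 ^ (n + 1)) → Nonempty (Cfsg.Out E ≃* Cfsg.isometryGroup (ZMod 2) (Cfsg.quadFormPlus n (ZMod 2)))) ∧ ((¬ ∃ A : Subgroup E, Cfsg.IsElementaryAbelian 2 A ∧ Nat.card ↥A = 2 ^ (n + 1)) → Nonempty (Cfsg.Out E ≃* Cfsg.isometryGroup (ZMod 2) (Cfsg.quadFormMinus (n - 1) (ZMod 2) 1 1))) := by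
  obtain ⟨z, e⟩ := exists_ex (CF.Solv.isExtraspecial_top_iff.2 hE)
  obtain ⟨p, q, h⟩ := e.exists_qm hcard
  obtain ⟨f⟩ := h.out e
  have hr : Module.finrank (ZMod 2) (Fin (2 * n) → ZMod 2) = 2 * n := by simp
  rw [← h.isPlus_iff e hr]
  refine ⟨fun a => ?_, fun a => ?_⟩
  · obtain ⟨g, hg⟩ := a.exists_equiv_qPlus (h.nondeg e) hr
    exact ⟨f.trans ((ogCongr g hg).trans (oEquiv _).symm)⟩
  · obtain ⟨g, hg⟩ := exists_equiv_qMinus (h.nondeg e) a (m := n - 1) (by omega) (a := 1) (b := 1)
      (by decide)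
    exact ⟨f.trans ((ogCongr g hg).trans (oEquiv _).symm)⟩

end Cfsg.Agent.S5432
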