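import Cfsg.Statements.S4413
import Cfsg.Agent.S5432
import Cfsg.Agent.S0824

set_option autoImplicit false
open Cfsg

namespace Cfsg.Agent.S4413

open Subgroup

/-- Let P be an extraspecial 2-group of order 32 with no elementary abelian subgroup of order 8 (the central product of a dihedral and a quaternion group of order 8). Then the inner automorphism group of P has order 16 and the outer automorphism group Aut(P)/Inn(P) is isomorphic to the symmetric group of degree 5; in particular Aut(P) has order 1920. -/
theorem result {P : Type*} [Group P] [Finite P]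
    (hex : Cfsg.IsExtraspecial 2 P) (h32 : Nat.card P = 32)
    (hminus : ∀ A : Subgroup P, Cfsg.IsElementaryAbelian 2 A → Nat.card ↥A ≤ 4)
    [(MulAut.conj : P →* MulAut P).range.Normal] :
    Nat.card ↥(MulAut.conj : P →* MulAut P).range = 16 ∧ Nat.card (MulAut P) = 1920 ∧
      Nonempty ((MulAut P ⧸ (MulAut.conj : P →* MulAut P).range) ≃* Equiv.Perm (Fin 5)) := by
  obtain ⟨f⟩ := (Cfsg.Agent.S5432.result hex 2 (by omega) h32).2 (by
    rintro ⟨A, a, b⟩
    have := hminus A a
    omega)
  obtain ⟨g⟩ := Cfsg.Agent.S0824.result (F := ZMod 2) (by simp)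
  have a : Nat.card ↥(MulAut.conj : P →* MulAut P).range = 16 := by
    have := (MulAut.conj : P →* MulAut P).ker.card_mul_index
    rw [index_ker, show (MulAut.conj : P →* MulAut P).ker = center P from Subgroup.ext fun x => by
      simp [mem_center_iff, MulEquiv.ext_iff, mul_inv_eq_iff_eq_mul, eq_comm (a := x * _)],
      hex.2, h32] at this
    omega
  refine ⟨a, ?_, ⟨f.trans g⟩⟩
  rw [← (MulAut.conj : P →* MulAut P).range.card_mul_index, a, index_eq_card,
    Nat.card_congr (f.trans g).toEquiv]
  simp [Fintype.card_perm, Nat.factorial]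

end Cfsg.Agent.S4413
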