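import Cfsg.Statements.S4414
import Cfsg.Agent.RepX.A
import Cfsg.Agent.BG2.P4a

set_option autoImplicit false
open Cfsg

namespace Cfsg.Agent.S4414
open CF.BG Subgroup
open scoped commutatorElement Pointwise
open CF.BG2 CF.RepX Module MulAction

section
variable {G : Type*} [Group G] [Finite G] {k V : Type*} [Field k] [AddCommGroup V] [Module k V]
  {ρ : G →* End k V} {A T Q : Subgroup G} [A.Normal] {q : ℕ}

theorem not_sub (h2 : q ≠ 2) (hT : PiGrp {2} T) (hQ : Syl q Q ⊤)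
    (c : ⁅A, Q⁆ = A) (h0 : fixSub ρ A = ⊥) {χ : Wt A k} (hχ : wtSp ρ χ ≠ ⊥) :
    ¬ orbit ↥(T ⊔ Q) χ ⊆ orbit T χ := by
  intro h
  have e : orbit ↥(T ⊔ Q) χ = orbit T χ := h.antisymm fun ψ hψ => by
    obtain ⟨g, hg, rfl⟩ := mem_orbit_sub.1 hψ
    exact mem_orbit_sub.2 ⟨g, mem_sup_left hg, rfl⟩
  have d := ncard_orbit_dvd T χ
  rw [← e, ncard_orbit_eq, ← inf_relIndex_right] at d
  obtain ⟨R, hR⟩ := exists_syl q (stabilizer G χ ⊓ (T ⊔ Q))
  obtain ⟨g, -, rfl⟩ := (hQ.of_le le_sup_right le_top).syl_conj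
    (hR.trans_idx inf_le_right ((PiNat.dvd hT d).of_single h2.symm))
  have l : Q ≤ stabilizer G (g⁻¹ • χ) := fun x hx => by
    have : (g * x * g⁻¹) • χ = χ := (hR.le (conj_mem_cj.2 hx)).1
    rw [mem_stabilizer_iff, smul_smul, eq_inv_smul_iff, smul_smul, ← mul_assoc, this]
  have h1 := wtSp_smul_ne_bot g⁻¹ hχ
  rw [eq_wtOne_of_stab h1 l (le_sup_of_le_left c.ge), wtSp_one] at h1
  exact h1 h0

end

/-- Let S be a finite solvable group whose order is divisible only by the primes 2, p, q (p, q distinct odd primes), with a Sylow system S₂, S_p, S_q (pairwise permutable Sylow subgroups) such that: S_p is a minimal normal subgroup of S of order p or p²; S_q has order q and [S_p, S_q] = S_p; and O₂(S) = 1. Let E be an irreducible module for S over the field with two elements on which S_p acts faithfully, and E₀ the subspace of fixed points of S₂. Then either E₀ has at least 8 elements, or E₀ has exactly 4 elements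 and S_q does not leave E₀ invariant. -/
theorem result {S : Type*} [Group S] [Finite S]
    [Group.IsSolvable S] (p q : ℕ) (hp : p.Prime) (hq : q.Prime) (hp2 : p ≠ 2) (hq2 : q ≠ 2) (hpq : p ≠ q)
    (hπ : ∀ r : ℕ, r.Prime → r ∣ Nat.card S → r = 2 ∨ r = p ∨ r = q)
    (S₂ : Sylow 2 S) (Sp : Sylow p S) (Sq : Sylow q S)
    (h2q : Nat.card ↥((S₂ : Subgroup S) ⊔ (Sq : Subgroup S)) = Nat.card ↥S₂ * Nat.card ↥Sq)
    (h2p : Nat.card ↥((S₂ : Subgroup S) ⊔ (Sp : Subgroup S)) = Nat.card ↥S₂ * Nat.card ↥Sp)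
    (hpq' : Nat.card ↥((Sp : Subgroup S) ⊔ (Sq : Subgroup S)) = Nat.card ↥Sp * Nat.card ↥Sq)
    (hSpN : (Sp : Subgroup S).Normal) (hSpmin : ∀ N : Subgroup S, N.Normal → N ≤ (Sp : Subgroup S) → N = ⊥ ∨ N = (Sp : Subgroup S))
    (hSpcard : Nat.card ↥Sp = p ∨ Nat.card ↥Sp = p ^ 2)
    (hSq : Nat.card ↥Sq = q) (hcomm : ⁅(Sp : Subgroup S), (Sq : Subgroup S)⁆ = (Sp : Subgroup S))
    (hO2 : Cfsg.pCore 2 S = ⊥)
    {E : Type*} [AddCommGroup E] [Module (ZMod 2) E] [Finite E] (ρ : Representation (ZMod 2) S E) (hE : Nontrivial E)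
    (hirr : ∀ N : Submodule (ZMod 2) E, (∀ s : S, ∀ m ∈ N, ρ s m ∈ N) → N = ⊥ ∨ N = ⊤)
    (hfaith : ∀ x ∈ (Sp : Subgroup S), ρ x = 1 → x = 1) :
    8 ≤ Nat.card {v : E // ∀ s ∈ (S₂ : Subgroup S), ρ s v = v} ∨
      (Nat.card {v : E // ∀ s ∈ (S₂ : Subgroup S), ρ s v = v} = 4 ∧
        ∃ x ∈ (Sq : Subgroup S), ∃ v : E, (∀ s ∈ (S₂ : Subgroup S), ρ s v = v) ∧ ¬ ∀ s ∈ (S₂ : Subgroup S), ρ s (ρ x v) = ρ x v) := by
  have := Fact.mk hq
  have := Fact.mk hp
  set A := (Sp : Subgroup S) with hA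
  set T := (S₂ : Subgroup S) with hT
  set Q := (Sq : Subgroup S) with hQ
  change ♯A = p ∨ ♯A = p ^ 2 at hSpcard
  change ♯Q = q at hSq
  change _ = ♯T * ♯Q at h2q
  have sT : Syl 2 T ⊤ := syl_sylow_top S₂
  have sQ : Syl q Q ⊤ := syl_sylow_top Sq
  have sA : Syl p A ⊤ := syl_sylow_top Sp
  have ab : Abel A := abel_of_logn_le_two sA.pi (by
    rcases hSpcard with h | h
    · rw [h, logn_self hp]; omega
    · rw [h, logn_pow hp])
  have a1 : A ≠ ⊥ := one_lt_card.1 (by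
    rcases hSpcard with h | h
    · rw [h]; exact hp.one_lt
    · rw [h]; exact Nat.one_lt_pow two_ne_zero hp.one_lt)
  have h0 : fixSub ρ A = ⊥ := by
    refine (hirr _ fun s m hm => apply_mem_fixSub_normal ρ A s m hm).resolve_right fun h => a1 ?_
    exact eq_bot_of_forall fun x hx => hfaith x hx (fixSub_eq_top_iff.1 h x hx)
  obtain ⟨σ, hσ⟩ := exists_baseChange (AlgebraicClosure (ZMod 2)) ρ
  have h0' : fixSub σ A = ⊥ := Submodule.finrank_eq_zero.1 (by rw [hσ, h0, finrank_bot])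
  have hW : ∀ (g : S) (χ : Wt A _), ∀ v ∈ wtSp σ χ, σ g v ∈ wtSp σ (g • χ) :=
    fun g χ v hv => apply_mem_wtSp g hv
  have ind := wtSp_indep σ A
  obtain ⟨χ, hχ⟩ : ∃ χ : Wt A _, wtSp σ χ ≠ ⊥ := by
    by_contra h
    push Not at h
    have := iSup_wtSp (ρ := σ) (N := A) (by
      rw [Ne, CharP.cast_eq_zero_iff _ 2]
      exact sA.pi.not_dvd Nat.prime_two hp2.symm) (by rw [der_eq_bot.2 ab]; exact bot_le)
    simp only [h, iSup_bot] at this
    have e := congrArg (fun U : Submodule _ _ => finrank (AlgebraicClosure (ZMod 2)) U) this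
    simp only [finrank_bot, finrank_top, finrank_fintype_fun_eq_card, Fintype.card_fin] at e
    exact finrank_pos.ne e
  have ns : ∀ ψ : Wt A _, wtSp σ ψ ≠ ⊥ → ¬ orbit ↥(T ⊔ Q) ψ ⊆ orbit T ψ :=
    fun ψ h => not_sub hq2 sT.pi sQ hcomm h0' h
  have lb : ∀ n (g : Fin n → S), (∀ a b, a ≠ b → g a • χ ∉ orbit T (g b • χ)) →
      n ≤ finrank (ZMod 2) (fixSub ρ T) := fun n g h => by
    rw [← hσ, ← Fintype.card_fin n]
    refine card_le_finrank ind (T := fun a => orbit T (g a • χ)) (fun a b hab => ?_)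
      fun a => exists_fix_orbit hW sT.pi.isPGroup (wtSp_smul_ne_bot _ hχ)
    refine Set.eq_empty_iff_forall_notMem.2 fun ψ ⟨h1, h2⟩ => h a b hab ?_
    rw [← orbit_eq_iff] at h1 h2 ⊢
    exact h1.symm.trans h2
  have hc : Nat.card {v : E // ∀ s ∈ T, ρ s v = v} = 2 ^ finrank (ZMod 2) (fixSub ρ T) := by
    have := Module.natCard_eq_pow_finrank (K := ZMod 2) (V := fixSub ρ T)
    rw [Nat.card_zmod] at this
    exact this
  rw [hc]
  have h2 : 2 ≤ finrank (ZMod 2) (fixSub ρ T) := by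
    obtain ⟨ψ, h1, h2⟩ := Set.not_subset.1 (ns χ hχ)
    obtain ⟨g, -, rfl⟩ := mem_orbit_sub.1 h1
    refine lb 2 ![1, g] fun a b hab => ?_
    fin_cases a <;> fin_cases b
    · exact absurd rfl hab
    · simpa using fun h => h2 (mem_orbit_symm.1 h)
    · simpa using h2
    · exact absurd rfl hab
  rcases h2.lt_or_eq with h3 | h3
  · exact Or.inl (Nat.pow_le_pow_right two_pos h3)
  refine Or.inr ⟨by rw [← h3]; rfl, ?_⟩
  by_contra hs
  push Not at hs
  have qp : (♯Q).Prime := hSq ▸ hq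
  by_cases hc : Q ≤ ptStab ρ (fixSub ρ T)
  · have e1 : fixSub ρ (T ⊔ Q : Subgroup S) = fixSub ρ T := by
      rw [fixSub_sup, inf_eq_left.2 (le_fixSub_iff.2 hc)]
    have e2 : fixSub σ (T ⊔ Q : Subgroup S) = fixSub σ T :=
      Submodule.eq_of_le_of_finrank_eq (fixSub_mono le_sup_left) (by rw [hσ, hσ, e1])
    obtain ⟨v, a, b, c⟩ := exists_fix_orbit hW sT.pi.isPGroup hχ
    rw [← e2] at a
    have d := sp_biInter ind (Set.toFinite ((T ⊔ Q : Subgroup S) : Set S))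
      (T := fun g => {ψ | g • ψ ∈ orbit T χ}) c fun g hg => by
        rw [← a _ (inv_mem hg)]
        exact apply_mem_sp hW g⁻¹ (fun ψ hψ => by simpa using hψ) c
    refine b ((Submodule.mem_bot _).1 (sp_induction (f := LinearMap.id) (fun ψ hψ w hw => ?_) d))
    by_cases h : wtSp σ ψ = ⊥
    · exact h ▸ hw
    refine absurd (fun φ hφ => ?_) (ns ψ h)
    obtain ⟨g, hg, rfl⟩ := mem_orbit_sub.1 hφ
    rw [orbit_eq_iff.2 hψ.1]
    exact Set.mem_iInter₂.1 hψ.2 g hg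
  · have st : T ⊔ Q ≤ stabSub ρ (fixSub ρ T) :=
      sup_le (fun g hg w hw => by rw [hw g hg]; exact hw) fun g hg w hw => hs g hg w hw
    have tC : T ≤ (T ⊔ Q) ⊓ ptStab ρ (fixSub ρ T) := le_inf le_sup_left (le_fixSub_iff.1 le_rfl)
    have i1 : T.relIndex (T ⊔ Q) = q := by
      have := card_mul_relIndex (le_sup_left : T ≤ T ⊔ Q)
      rw [h2q, hSq] at this
      exact Nat.eq_of_mul_eq_mul_left (card_pos' _) this
    have e : (T ⊔ Q) ⊓ ptStab ρ (fixSub ρ T) = T := by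
      have := relIndex_mul_relIndex _ _ _ tC inf_le_left
      rw [i1] at this
      rcases (Nat.dvd_prime hq).1 (Dvd.intro_left _ this) with h | h
      · exact absurd (le_sup_right.trans ((relIndex_eq_one.1 h).trans inf_le_right)) hc
      · rw [h, Nat.mul_eq_right hq.ne_zero] at this
        exact le_antisymm (relIndex_eq_one.1 this) tC
    have n : T ⊔ Q ≤ 𝐍 T := le_norm_iff.2 fun g hg t ht => e.le ⟨(T ⊔ Q).mul_mem
      ((T ⊔ Q).mul_mem hg (mem_sup_left ht)) ((T ⊔ Q).inv_mem hg), fun w hw => by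
        rw [rep_mul_apply, rep_mul_apply, st (inv_mem hg) w hw t ht, rep_apply_inv]⟩
    have N : ∀ y ∈ Q, y ≠ 1 → ∀ ψ : Wt A _, wtSp σ ψ ≠ ⊥ → y • ψ ∉ orbit T ψ := by
      intro y hy y1 ψ hψ h
      obtain ⟨t, ht, h⟩ := mem_orbit_sub.1 h
      have l : T ⊔ Q ≤ T ⊔ ((T ⊔ Q) ⊓ stabilizer S ψ) := by
        refine sup_le le_sup_left ((zpowers_eq_of_prime qp hy y1).ge.trans (zpowers_le.2 ?_))
        rw [← mul_inv_cancel_left t y]
        refine mul_mem (mem_sup_left ht) (mem_sup_right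
          ⟨mul_mem (mem_sup_left (inv_mem ht)) (mem_sup_right hy), ?_⟩)
        exact mem_stabilizer_iff.2 (by rw [mul_smul, ← h, inv_smul_smul])
      refine ns ψ hψ fun φ hφ => ?_
      obtain ⟨g, hg, rfl⟩ := mem_orbit_sub.1 hφ
      obtain ⟨a, ha, b, hb, rfl⟩ := (mem_sup_norm' (inf_le_left.trans n)).1 (l hg)
      exact mem_orbit_sub.2 ⟨a, ha, by rw [mul_smul, mem_stabilizer_iff.1 hb.2]⟩
    obtain ⟨x, hx, ox⟩ := exists_mem_orderOf_eq (H := Q) hq (hSq ▸ dvd_rfl)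
    have q3 : 3 ≤ q := by have := hq.two_le; omega
    have := lb 3 (fun i => x ^ (i : ℕ)) fun a b hab h =>
      N (x ^ (a : ℕ) * (x ^ (b : ℕ))⁻¹) (mul_mem (pow_mem hx _) (inv_mem (pow_mem hx _))) (fun h => by
        rw [mul_inv_eq_one] at h
        exact hab (Fin.ext (pow_injOn_Iio_orderOf (by simp [ox]; omega) (by simp [ox]; omega) h)))
        _ (wtSp_smul_ne_bot (x ^ (b : ℕ)) hχ) (by rwa [smul_smul, inv_mul_cancel_right])
    omega

end Cfsg.Agent.S4414
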