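import Mathlib
import Cfsg.Agent.Fgs2.Basic2
import Cfsg.Agent.Fgs1.PGroup
import Cfsg.Statements.S4420

set_option autoImplicit false
open Cfsg

namespace Cfsg.Agent.S4420

theorem comm_of_inv {H : Type*} [Group H] {A : Subgroup H} {x : H}
    (h : ∀ a ∈ A, x * a * x⁻¹ = a⁻¹) : IsMulCommutative A := by
  refine IsMulCommutative.of_setLike_mul_comm fun a ha b hb => ?_
  have h1 := h _ (A.mul_mem ha hb)
  rw [show x * (a * b) * x⁻¹ = (x * a * x⁻¹) * (x * b * x⁻¹) by group, h a ha, h b hb] at h1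
  rw [← inv_inj, ← h1, mul_inv_rev]

theorem inv_eq {H : Type*} [Group H] {x : H} (h : x ^ 2 = 1) : x⁻¹ = x :=
  inv_eq_of_mul_eq_one_right (by rwa [pow_two] at h)

/-- Structure of groups in which every element outside some proper subgroup has square 1. Let H be a finite group with a proper subgroup A such that every element outside A has square 1. Then H has an abelian normal subgroup B of index 2 such that every element outside B is an involution inverting every element of B; and if H is not an elementary abelian 2-group, B is the only abelian normal subgroup of index 2 with this property. -/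
theorem result {H : Type*} [Group H] [Finite H] (A : Subgroup H) (hA : A ≠ ⊤) (hD : ∀ x : H, x ∉ A → x ^ 2 = 1) :
    ∃ B : Subgroup H, B.Normal ∧ IsMulCommutative ↥B ∧ B.index = 2 ∧
      (∀ x : H, x ∉ B → x ^ 2 = 1 ∧ ∀ b ∈ B, x * b * x⁻¹ = b⁻¹) ∧
      (¬ (IsMulCommutative H ∧ ∀ x : H, x ^ 2 = 1) →
        ∀ B' : Subgroup H, B'.Normal → IsMulCommutative ↥B' → B'.index = 2 →
          (∀ x : H, x ∉ B' → x ^ 2 = 1 ∧ ∀ b ∈ B', x * b * x⁻¹ = b⁻¹) → B' = B) := by
  have hinv : ∀ x, x ∉ A → ∀ a ∈ A, x * a * x⁻¹ = a⁻¹ := by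
    intro x hx a ha
    have h1 := hD (x * a) (fun h => hx (by simpa using A.mul_mem h (A.inv_mem ha)))
    rw [inv_eq (hD x hx)]
    calc x * a * x = (x * a) ^ 2 * a⁻¹ := by rw [pow_two]; group
      _ = _ := by rw [h1, one_mul]
  by_cases hel : IsMulCommutative H ∧ ∀ x : H, x ^ 2 = 1
  · obtain ⟨M, hM, -⟩ := (eq_top_or_exists_le_coatom A).resolve_left hA
    have := hel.1
    have h2 : IsPGroup 2 H := fun x => ⟨1, by simpa using hel.2 x⟩
    refine ⟨M, inferInstance, inferInstance, CF.Fgs1.index_eq_of_isCoatom h2 hM,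
      fun x _ => ⟨hel.2 x, fun b _ => ?_⟩, fun h => absurd hel h⟩
    rw [mul_comm' x b, inv_eq (hel.2 b)]; simp
  obtain ⟨x0, hx0⟩ : ∃ x, x ∉ A := by
    by_contra h
    push Not at h
    exact hA (eq_top_iff.2 fun x _ => h x)
  have hAc := comm_of_inv (hinv x0 hx0)
  have hidx : A.index = 2 := by
    rw [Subgroup.index_eq_two_iff_exists_notMem_and]
    refine ⟨x0, hx0, fun y => ?_⟩
    by_contra h
    push Not at h
    apply hel
    have hall : ∀ z : H, z ^ 2 = 1 := by
      intro z
      by_cases hz : z ∈ A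
      · have h1 := hinv _ h.1 z hz
        rw [show y * x0 * z * (y * x0)⁻¹ = y * (x0 * z * x0⁻¹) * y⁻¹ by group, hinv x0 hx0 z hz,
          hinv y h.2 _ (A.inv_mem hz), inv_inv] at h1
        rw [pow_two]; nth_rw 1 [h1]; simp
      · exact hD z hz
    refine ⟨IsMulCommutative.of_comm fun a b => ?_, hall⟩
    rw [← inv_eq (hall (a * b)), mul_inv_rev, inv_eq (hall a), inv_eq (hall b)]
  refine ⟨A, Subgroup.normal_of_index_eq_two hidx, hAc, hidx, fun x hx => ⟨hD x hx, hinv x hx⟩, ?_⟩
  intro _ B _ hBc hB hBi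
  by_contra hne
  have hex : ∀ {A B : Subgroup H}, A.index = 2 → B.index = 2 → B ≠ A → ∃ b ∈ B, b ∉ A := by
    intro A B hA hB hne
    by_contra h
    push Not at h
    refine hne (Subgroup.eq_of_le_of_card_ge h ?_)
    have := A.card_mul_index
    rw [← B.card_mul_index, hA, hB] at this
    omega
  obtain ⟨b, hbB, hbA⟩ := hex hidx hB hne
  obtain ⟨a, haA, haB⟩ := hex hB hidx (Ne.symm hne)
  have hall : ∀ z : H, z ^ 2 = 1 := by
    intro z
    by_cases hz : z ∈ A
    · by_cases hz' : z ∈ B
      · have h1 := hinv b hbA z hz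
        rw [setLike_mul_comm hbB hz', mul_inv_cancel_right] at h1
        rw [pow_two]; nth_rw 1 [h1]; simp
      · exact (hBi z hz').1
    · exact hD z hz
  refine hel ⟨IsMulCommutative.of_comm fun a b => ?_, hall⟩
  rw [← inv_eq (hall (a * b)), mul_inv_rev, inv_eq (hall a), inv_eq (hall b)]

end Cfsg.Agent.S4420
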