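import Cfsg.Statements.S4487
import Cfsg.Agent.BlockB.Misc1
-- import your own Cfsg.Agent.* helpers here

set_option autoImplicit false
open Cfsg

namespace Cfsg.Agent.S4487

/-- Let G be a finite group and p a prime such that G has no non-trivial normal subgroup of order prime to p and C_G(O_p(G)) ≤ O_p(G). Then G has a single p-block: any two irreducible characters lie in the same block relative to every maximal ideal M of the algebraic integers containing p. -/
theorem result {G : Type*} [Group G] [Finite G] (p : ℕ) [Fact p.Prime] (M : Ideal Cfsg.AlgInt) (hM : Cfsg.IsPModular p M) (hcore : Cfsg.pPrimeCore p G = ⊥) (hconstr : Subgroup.centralizer ((Cfsg.pCore p G) : Set G) ≤ Cfsg.pCore p G) (χ ψ : Cfsg.IrrCharacter G) : Cfsg.SameBlock M (χ : G → ℂ) (ψ : G → ℂ) := by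
  have := CF.BlockB.charP_k hM
  have hB := CF.BlockB.isPBlock_blockOf (M := M) χ
  set B := Cfsg.blockOf M (χ : G → ℂ) with hBdef
  have he := CF.BlockB.nrm_eSet_le_one hM hB
  have h1 := (CF.Block.isBlk_eb hM hB).mem_sub_centralizer (CF.Solv.pCore_isPGroup (p := p) (G := G))
    le_top (by rw [Subgroup.normalizer_eq_top])
  have h2 : CF.BlockB.nrm M (CF.BlockB.eSet B - algebraMap ℂ _ (Cfsg.blockCoeff B 1)) < 1 := by
    rw [CF.BlockB.nrm_lt_one_iff]
    intro g
    rw [CF.BlockB.coeff_sub_apply, CF.BlockB.coeff_eSet, MonoidAlgebra.coe_algebraMap]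
    by_cases hg : g = 1
    · simp [hg]
    · simp only [Function.comp_apply, MonoidAlgebra.coeff_single, Finsupp.single_eq_of_ne hg,
        sub_zero]
      by_cases hg' : g ∈ Cfsg.pCore p G
      · obtain ⟨k, hk⟩ := CF.BlockB.exists_orderOf_of_mem hM.1 CF.Solv.pCore_isPGroup hg'
        rw [CF.BlockB.blockCoeff_eq_zero hM hB, map_zero]
        · exact zero_lt_one
        · rcases k with _ | k
          · exact absurd (orderOf_eq_one_iff.1 hk) hg
          · rw [hk]; exact dvd_pow_self p k.succ_ne_zero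
      · rw [← CF.BlockB.resC_eq_zero_iff (CF.BlockB.v_blockCoeff_le_one hM hB g), ← CF.Block.coeff_eb]
        exact CF.Block.mem_sub.1 h1 g fun h => hg' (hconstr h)
  have h3 : ∀ ξ : Cfsg.IrrCharacter G, CF.BlockB.v M (CF.BlockB.omega (ξ : G → ℂ) (CF.BlockB.eSet B) -
      Cfsg.blockCoeff B 1) < 1 := fun ξ => by
    have := (CF.BlockB.v_omega_le (M := M) ξ.2 (sub_mem (CF.BlockB.eSet_mem_Z B)
      (Subalgebra.algebraMap_mem _ (Cfsg.blockCoeff B 1)))).trans_lt h2
    rwa [map_sub, CF.BlockB.omega_algebraMap (CF.Char.irr_one_ne_zero ξ.2)] at this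
  by_contra h
  have h4 := CF.BlockB.v_sub_lt_one_trans (h3 χ) (CF.BlockB.v_sub_lt_one_symm (h3 ψ))
  rw [CF.BlockB.omega_eSet_of_mem (CF.BlockB.mem_blockOf_self hM χ),
    CF.BlockB.omega_eSet_of_notMem h] at h4
  simp at h4

end Cfsg.Agent.S4487
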