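import Cfsg.Statements.S4504
import Cfsg.Agent.Small.Fb9

set_option autoImplicit false
open Cfsg

namespace Cfsg.Agent.S4504

open CF.Small CF.PF

/-- Let G be a finite group whose order is divisible by the prime p exactly once and which has no normal subgroup of order p. If G has a faithful character of degree exactly (p − 1)/2, then G modulo its centre is isomorphic to PSL(2, p). -/
theorem result {G : Type*} [Group G] [Finite G] (p : ℕ) (hp : p.Prime) (hdiv : p ∣ Nat.card G) (hsq : ¬ p ^ 2 ∣ Nat.card G) (hnn : ∀ H : Subgroup G, H.Normal → Nat.card H ≠ p) (χ : G → ℂ) (hχ : Cfsg.IsCharacter G χ) (hfaith : ∀ g : G, χ g = χ 1 → g = 1) (hdeg : 2 * Cfsg.charDegree χ + 1 = p) : Nonempty ((G ⧸ Subgroup.center G) ≃* Matrix.ProjectiveSpecialLinearGroup (Fin 2) (ZMod p)) := by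
  have := Fact.mk hp
  obtain ⟨S⟩ := nonempty_pset hdiv hsq
  have hc := isCh_top.2 hχ
  have hf : CF.Char.charKer χ = ⊥ := eq_bot_iff.2 fun g hg => hfaith g (apply_of_mem_ker hg)
  have hn : ¬ S.P.Normal := fun h => hnn _ h S.card_P
  obtain ⟨θ, hθ, h1, h2, h3⟩ := PSet.exists_constituent hc hf hn
  have h4 := hc.mem_irr_of_res le_top (PSet.res_eq_of_le hc hθ h1 (by omega))
  have h5 := deg_pos h4
  obtain ⟨h6, h7, h8, -⟩ := PSet.feit_low h4 hf (by omega) hn
  have h9 : Cfsg.charDegree χ = S.fi := by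
    rcases h7 with h7 | ⟨m, h7, h9⟩
    · omega
    · have := Nat.mul_le_mul_right S.fi h7; omega
  exact h8 (by omega) (.inl h9) _ (ZMod.card p)

end Cfsg.Agent.S4504
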