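import Cfsg.Statements.S4521
import Cfsg.Agent.Char.PB
import Cfsg.Agent.BlockB.Slice
import Cfsg.Agent.Clifford.Basic
import Cfsg.Agent.Block.GA

set_option autoImplicit false
open Cfsg

namespace Cfsg.Agent.S4521

open CF MonoidAlgebra
open CF.BlockB (v Cen pPart pReg incl omega)

theorem key {G : Type*} [Group G] [Fintype G] {U : Subgroup G} [Fintype U]
    (h : U ⊔ Subgroup.centralizer (U : Set G) = ⊤) {z : ℂ[U]} (hz : z ∈ BlockB.Z ℂ U)
    (χ : IrrCharacter G) (ψ : IrrCharacter U)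
    (h1 : classInner (fun u : U => (χ : G → ℂ) u) (ψ : U → ℂ) ≠ 0) :
    incl U z ∈ BlockB.Z ℂ G ∧ omega (χ : G → ℂ) (incl U z) = omega (ψ : U → ℂ) z := by
  have := BlockB.normal_of_sup_centralizer h
  have h2 : ∀ g : G, ∃ u : U, ∀ n : U, (Clifford.NormalEmb.sub U).c g n = u * n * u⁻¹ := fun g => by
    obtain ⟨u, hu, c, hc, rfl⟩ := BlockB.exists_mul_of_sup_centralizer h g
    refine ⟨⟨u, hu⟩, fun n => Subtype.ext ?_⟩
    change u * c * n * (u * c)⁻¹ = u * n * u⁻¹
    rw [mul_assoc u c, ← hc n n.2]; group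
  refine ⟨BlockB.mem_Z_iff.2 fun g c => ?_, ?_⟩
  · by_cases hg : g ∈ U
    · obtain ⟨u, hu⟩ := h2 c
      have h3 : c * g * c⁻¹ = (u * ⟨g, hg⟩ * u⁻¹ : U) := congrArg Subtype.val (hu ⟨g, hg⟩)
      rw [h3, BlockB.coeff_incl_coe, BlockB.mem_Z_iff.1 hz, ← BlockB.coeff_incl_coe]
    · rw [BlockB.coeff_incl_of_notMem _ _ hg, BlockB.coeff_incl_of_notMem]
      exact fun h => hg (by simpa [mul_assoc] using this.conj_mem _ h c⁻¹)
  · have h3 := (Clifford.NormalEmb.sub U).res_eq_smul_of_invariant χ.2 ψ.2 (fun g n => by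
      obtain ⟨u, hu⟩ := h2 g
      rw [hu, Char.classFun_conj (Char.irr_isClassFunction ψ.2)]) h1
    have h4 : (fun u : U => (χ : G → ℂ) u) = _ := h3
    rw [BlockB.omega_incl, h4, BlockB.omega_apply, BlockB.omega_apply, BlockB.ev_smul_fun,
      Pi.smul_apply, smul_eq_mul]
    exact mul_div_mul_left _ _ h1

theorem not_dvd_mul {G : Type*} [Group G] {p : ℕ} (hp : p.Prime) {a b : G} (h : Commute a b)
    (ha : ¬ p ∣ orderOf a) (hb : ¬ p ∣ orderOf b) : ¬ p ∣ orderOf (a * b) := fun h1 =>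
  (hp.dvd_mul.1 (h1.trans h.orderOf_mul_dvd_mul_orderOf)).elim ha hb

/-- Let the finite group G be generated by subgroups U₁ and U₂ that commute elementwise and whose intersection is a p-group, and let M be a maximal ideal of the algebraic integers containing the prime p. If the irreducible character χ of G has the irreducible constituents ψ₁ on U₁ and ψ₂ on U₂, then χ lies in the principal block of G if and only if ψ₁ and ψ₂ lie in the principal blocks of U₁ and U₂. -/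
theorem result {G : Type*} [Group G] [Fintype G] (p : ℕ) [Fact p.Prime] (M : Ideal Cfsg.AlgInt) (hM : Cfsg.IsPModular p M) (U₁ U₂ : Subgroup G) [Fintype U₁] [Fintype U₂] (hcomm : ∀ u ∈ U₁, ∀ v ∈ U₂, u * v = v * u) (hgen : U₁ ⊔ U₂ = ⊤) (hZ : IsPGroup p ↥(U₁ ⊓ U₂)) (χ : Cfsg.IrrCharacter G) (ψ₁ : Cfsg.IrrCharacter U₁) (ψ₂ : Cfsg.IrrCharacter U₂) (h₁ : Cfsg.classInner (fun u : U₁ => (χ : G → ℂ) u) (ψ₁ : U₁ → ℂ) ≠ 0) (h₂ : Cfsg.classInner (fun u : U₂ => (χ : G → ℂ) u) (ψ₂ : U₂ → ℂ) ≠ 0) : χ ∈ Cfsg.principalBlock M G ↔ (ψ₁ ∈ Cfsg.principalBlock M U₁ ∧ ψ₂ ∈ Cfsg.principalBlock M U₂) := by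
  classical
  have hp : p.Prime := Fact.out
  have hc1 : U₂ ≤ Subgroup.centralizer (U₁ : Set G) := fun y hy x hx => hcomm x hx y hy
  have hc2 : U₁ ≤ Subgroup.centralizer (U₂ : Set G) := fun x hx y hy => (hcomm x hx y hy).symm
  have h1 := top_le_iff.1 (hgen.ge.trans (sup_le_sup_left hc1 U₁))
  obtain ⟨h3, h4⟩ := key h1 (Char.regSum_mem_Z (p := p)) χ ψ₁ h₁
  obtain ⟨-, h5⟩ := key (top_le_iff.1 (((sup_comm _ _).trans hgen).ge.trans (sup_le_sup_left hc2 U₂)))
    (Char.regSum_mem_Z (p := p)) χ ψ₂ h₂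
  have hco : ∀ (U : Subgroup G) (g : G), (incl U (Char.regSum p U)).coeff g =
      if g ∈ U ∧ ¬ p ∣ orderOf g then 1 else 0 := fun U g => by
    by_cases hg : g ∈ U
    · lift g to U using hg
      simp [Char.regSum, BlockB.reg_apply]
    · simp [BlockB.coeff_incl_of_notMem _ _ hg, hg]
  have h6 : Char.regSum p G = incl U₁ (Char.regSum p U₁) * incl U₂ (Char.regSum p U₂) := by
    refine Block.ga_ext fun g => ?_
    simp only [Block.coeff_mul_sum, hco]
    rw [Char.regSum, BlockB.coeff_ofFun, BlockB.reg_apply]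
    split_ifs with hg
    · refine (Finset.sum_eq_zero fun x _ => ?_).symm
      split_ifs with h7 h8
      · exact absurd hg (by simpa using not_dvd_mul hp (hcomm _ h7.1 _ h8.1) h7.2 h8.2)
      all_goals simp
    have := BlockB.normal_of_sup_centralizer h1
    obtain ⟨a, ha, b, hb, rfl⟩ := Subgroup.mem_sup_of_normal_left.1 (hgen.ge (Subgroup.mem_top g))
    have hab : Commute a b := hcomm a ha b hb
    have h7 : pReg p a * pReg p b = a * b := by
      have h8 : Commute (pPart p a) (pPart p b) := hcomm _ (BlockB.pPart_mem ha) _ (BlockB.pPart_mem hb)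
      have h9 : a * b = pPart p a * pPart p b * (pReg p a * pReg p b) := by
        rw [mul_assoc, ← mul_assoc (pPart p b), ← hcomm _ (BlockB.pReg_mem ha) _ (BlockB.pPart_mem hb),
          mul_assoc, BlockB.pPart_mul_pReg, ← mul_assoc, BlockB.pPart_mul_pReg]
      obtain ⟨m, hm⟩ := BlockB.pPart_pElement hp a
      obtain ⟨n, hn⟩ := BlockB.pPart_pElement hp b
      rw [← BlockB.pReg_of_pRegular hp hg, h9, BlockB.pReg_mul_of_commute hp
        (((BlockB.commute_pPart_pReg a).mul_right (hcomm _ (BlockB.pPart_mem ha) _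
          (BlockB.pReg_mem hb))).mul_left (Commute.mul_right (hcomm _ (BlockB.pReg_mem ha) _
            (BlockB.pPart_mem hb)).symm (BlockB.commute_pPart_pReg b)))
        (((Nat.dvd_prime_pow hp).1 (h8.orderOf_mul_dvd_mul_orderOf.trans
          (by rw [hm, hn, ← pow_add]))).imp fun _ h => h.2)
        (not_dvd_mul hp (hcomm _ (BlockB.pReg_mem ha) _ (BlockB.pReg_mem hb))
          (BlockB.pReg_pRegular hp a) (BlockB.pReg_pRegular hp b))]
    rw [Finset.sum_eq_single (pReg p a) (fun x _ hx => ?_) (by simp), ← h7, inv_mul_cancel_left,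
      if_pos ⟨BlockB.pReg_mem ha, BlockB.pReg_pRegular hp a⟩,
      if_pos ⟨BlockB.pReg_mem hb, BlockB.pReg_pRegular hp b⟩, mul_one]
    split_ifs with h8 h9
    · refine absurd ?_ hx
      have h10 : x⁻¹ * pReg p a ∈ U₁ ⊓ U₂ := ⟨U₁.mul_mem (U₁.inv_mem h8.1) (BlockB.pReg_mem ha), by
        rw [← h7, ← mul_assoc] at h9
        exact (mul_mem_cancel_right (BlockB.pReg_mem hb)).1 h9.1⟩
      have h11 := BlockB.pReg_mul_of_commute hp (hcomm _ h8.1 _ h10.2).symm
        (BlockB.exists_orderOf_of_mem hp hZ h10) h8.2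
      rw [← hcomm _ h8.1 _ h10.2, mul_inv_cancel_left, BlockB.pReg_pReg hp] at h11
      exact h11.symm
    all_goals simp
  rw [Char.mem_pb_iff_omega hM, Char.mem_pb_iff_omega hM, Char.mem_pb_iff_omega hM, h6,
    BlockB.omega_central_mul χ.2 h3, h4, h5, mul_ne_zero_iff]

end Cfsg.Agent.S4521
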