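import Cfsg.Statements.S4531
import Cfsg.Agent.BlockB.Tame11
-- import your own Cfsg.Agent.* helpers here

set_option autoImplicit false
open Cfsg

namespace Cfsg.Agent.S4531

/-- Let the finite group G have a 2-block B (relative to a maximal ideal M of the algebraic integers containing 2) of 2-regular rank three (three irreducible Brauer characters) whose defect group D is dihedral of order 2 ^ n with n ≥ 3 or semidihedral. Then the centre of G has odd order and G is not solvable. -/
theorem result {G : Type*} [Group G] [Finite G] (M : Ideal Cfsg.AlgInt) (hM : Cfsg.IsPModular 2 M) (B : Set (Cfsg.IrrCharacter G)) (hB : Cfsg.IsPBlock M B) (D : Subgroup G) (hD : Cfsg.IsDefectGroup 2 M B D) (hD' : (∃ n : ℕ, 3 ≤ n ∧ Nonempty (D ≃* DihedralGroup (2 ^ (n - 1)))) ∨ Cfsg.IsQuasiDihedral D) (hl : Cfsg.blockRank 2 B = 3) : Odd (Nat.card (Subgroup.center G)) ∧ ¬ Group.IsSolvable G := by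
  have hP := (CF.Block.isDefectGroup_iff hM hB D).1 hD
  have h : CF.BlockB.DQ D := by
    rcases hD' with ⟨n, hn, ⟨φ⟩⟩ | h
    · obtain ⟨m, a, b, h1, h⟩ := CF.Invol.exists_dh hP.isP
        ((Nat.pow_le_pow_right two_pos (by omega) : 2 ^ 1 ≤ 2 ^ (n - 1))) φ
      obtain rfl : m = n - 1 := Nat.pow_right_injective le_rfl h1.symm
      exact ⟨_, a, b, Or.inl ⟨by omega, h⟩⟩
    · obtain ⟨m, a, b, h⟩ := CF.Invol.exists_qd h
      exact ⟨m, a, b, Or.inr h⟩
  exact ⟨h.odd_center hM hB hP hl.ge,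
    fun _ => h.not_isPSolvable hM hB hP hl.ge (CF.Solv.isPSolvable_of_isSolvable 2)⟩

end Cfsg.Agent.S4531
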