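import Cfsg.Statements.S4541
import Cfsg.Agent.BlockB.Avg
-- import your own Cfsg.Agent.* helpers here

set_option autoImplicit false
open Cfsg

namespace Cfsg.Agent.S4541

/-- Let B be a 2-block of the finite group G (relative to a maximal ideal M of the algebraic integers containing 2), u a 2-element, and b a block of the centralizer of u inducing B (a subsection (u, b)), of defect q and 2-regular rank l; write s for the integer square root of l and k₀(B) for the number of members of B of height zero. If s is odd then k₀(B) ≤ s·2 ^ q, and otherwise (s + 1)·k₀(B) ≤ l·2 ^ q; in particular k₀(B) ≤ 2 ^ q when l ≤ 3. -/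
theorem result {G : Type*} [Group G] [Finite G] (M : Ideal Cfsg.AlgInt) (hM : Cfsg.IsPModular 2 M) (B : Set (Cfsg.IrrCharacter G)) (hB : Cfsg.IsPBlock M B) (u : G) (hu : ∃ j : ℕ, orderOf u = 2 ^ j) (b : Set (Cfsg.IrrCharacter ↥(Subgroup.centralizer ({u} : Set G)))) (hb : Cfsg.IsInducedBlock M (Subgroup.centralizer ({u} : Set G)) b B) : (Odd (Nat.sqrt (Cfsg.blockRank 2 b)) → Nat.card {χ : Cfsg.IrrCharacter G // χ ∈ B ∧ Cfsg.blockHeight 2 B (χ : G → ℂ) = 0} ≤ Nat.sqrt (Cfsg.blockRank 2 b) * 2 ^ Cfsg.blockDefect 2 b) ∧ (¬ Odd (Nat.sqrt (Cfsg.blockRank 2 b)) → (Nat.sqrt (Cfsg.blockRank 2 b) + 1) * Nat.card {χ : Cfsg.IrrCharacter G // χ ∈ B ∧ Cfsg.blockHeight 2 B (χ : G → ℂ) = 0} ≤ Cfsg.blockRank 2 b * 2 ^ Cfsg.blockDefect 2 b) ∧ (Cfsg.blockRank 2 b ≤ 3 → Nat.card {χ : Cfsg.IrrCharacter G // χ ∈ B ∧ Cfsg.blockHeight 2 B (χ : G → ℂ) = 0} ≤ 2 ^ Cfsg.blockDefect 2 b) := by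
  classical
  open CF.BlockB in
  rw [Nat.card_eq_fintype_card, Fintype.card_subtype]
  obtain ⟨χ₀, h₀⟩ := exists_height_zero (p := 2) (block_nonempty hM hB)
  obtain ⟨χ, hχ, hmin⟩ := Finset.exists_min_image (Finset.univ.filter fun χ : Cfsg.IrrCharacter G =>
    χ ∈ B ∧ Cfsg.blockHeight 2 B (χ : G → ℂ) = 0) (fun χ => cavg 2 b u χ) ⟨χ₀, by simpa using h₀⟩
  obtain ⟨h1, h2⟩ := (Finset.mem_filter.1 hχ).2
  obtain ⟨m, hm, h3⟩ := exists_odd_cavg hM hu rfl hb h1 h2
  have h4 := card_height_zero_le_cavg hM hu rfl hb h1 h2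
  have h5 := (Finset.card_nsmul_le_sum _ _ _ hmin).trans ((Finset.sum_le_sum_of_subset_of_nonneg
    (t := Finset.univ.filter (· ∈ B)) (fun ψ hψ => by simpa using (Finset.mem_filter.1 hψ).2.1)
    fun ψ _ _ => cavg_nonneg b u ψ).trans_eq (sum_cavg hM hu rfl hb))
  rw [h3] at h4 h5
  rw [nsmul_eq_mul] at h5
  norm_cast at h4 h5
  have hl := blockRank_pos hM.1 (block_nonempty hM hb.1)
  generalize Cfsg.blockRank 2 b = l at *
  generalize 2 ^ Cfsg.blockDefect 2 b = q at *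
  generalize Finset.card _ = k at *
  have h6 := Nat.sqrt_le l
  have h7 := Nat.lt_succ_sqrt l
  have key : Odd l.sqrt → k ≤ l.sqrt * q := fun ⟨s, hs⟩ => by
    obtain ⟨c, rfl⟩ := hm
    rw [hs] at h6 h7 ⊢
    rcases le_or_gt c s with h | h
    · nlinarith
    · refine le_of_mul_le_mul_right (a := 2 * s + 3) ?_ (by omega)
      have : l ≤ (2 * s + 1) * (2 * s + 3) := by nlinarith
      nlinarith [Nat.mul_le_mul_left k (show 2 * s + 3 ≤ 2 * c + 1 by omega),
        Nat.mul_le_mul_right q this]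
  refine ⟨key, fun h => ?_, fun h => ?_⟩
  · obtain ⟨s, hs⟩ := Nat.not_odd_iff_even.1 h
    obtain ⟨c, rfl⟩ := hm
    rw [hs] at h6 h7 ⊢
    rcases le_or_gt s c with h | h
    · nlinarith [Nat.mul_le_mul_left k (show s + s + 1 ≤ 2 * c + 1 by omega)]
    · have : (s + s + 1) * (2 * c + 1) ≤ l := by nlinarith
      nlinarith [Nat.mul_le_mul_right q this, Nat.mul_le_mul_left (s + s + 1) h4]
  · have : l.sqrt = 1 := (Nat.eq_sqrt.2 ⟨by omega, by omega⟩).symm
    simpa [this] using key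

end Cfsg.Agent.S4541
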