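import Cfsg.Statements.S4549
import Cfsg.Agent.BlockB.Gal3
-- import your own Cfsg.Agent.* helpers here

set_option autoImplicit false
open Cfsg

namespace Cfsg.Agent.S4549

/-- Let G be a finite group and M a maximal ideal of the algebraic integers containing 2. Let k be a natural number with g ^ k = g ^ 3 for every 2-element g and g ^ k = g for every element g of odd order (such k exist); an irreducible character χ is unchanged by g ↦ g ^ k exactly when it is fixed by the field automorphism that cubes the 2-power roots of unity and fixes the roots of unity of odd order. Then G has a normal 2-complement if and only if every member χ of the principal 2-block of odd degree with χ (g ^ k) = χ g for all g has degree one. -/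
theorem result {G : Type*} [Group G] [Finite G] (M : Ideal Cfsg.AlgInt) (hM : Cfsg.IsPModular 2 M) (k : ℕ) (hk₁ : ∀ g : G, (∃ j : ℕ, orderOf g = 2 ^ j) → g ^ k = g ^ 3) (hk₂ : ∀ g : G, Odd (orderOf g) → g ^ k = g) : Cfsg.HasNormalPComplement 2 G ↔ ∀ χ ∈ Cfsg.principalBlock M G, Odd (Cfsg.charDegree (χ : G → ℂ)) → (∀ g : G, (χ : G → ℂ) (g ^ k) = (χ : G → ℂ) g) → Cfsg.charDegree (χ : G → ℂ) = 1 := by
  have := Fact.mk Nat.prime_two
  have hk₂' : ∀ g : G, ¬ 2 ∣ orderOf g → g ^ k = g := fun g hg =>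
    hk₂ g (Nat.odd_iff.2 (Nat.two_dvd_ne_zero.1 hg))
  obtain ⟨hk, e, he⟩ := CF.BlockB.pow_setup Nat.prime_two hk₁ hk₂'
  refine ⟨fun h χ h1 h2 _ => ?_, fun h => CF.BlockB.hasNPC_of_pb_fixed_linear hM hk he hk₂'
    fun χ h1 h2 h3 => h χ h1 (Nat.odd_iff.2 (Nat.two_dvd_ne_zero.1 h2))
      ((CF.BlockB.gal_eq_iff hk).1 h3)⟩
  obtain ⟨N, hN, h3, j, h4⟩ := CF.Transfer.hasNPC_iff_exists_normal.1 h
  have h5 := CF.Clifford.irr_one_dvd_index_of_le_charCenter χ.2 (CF.BlockB.irr_charDegree_eq χ).symm
    ((CF.Char.le_charKer_of_mem_pb hM h1 N ((Nat.Prime.coprime_iff_not_dvd Nat.prime_two).1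
      h3.symm)).trans (CF.Char.charKer_le_charCenter _))
  rw [h4] at h5
  exact Nat.eq_one_of_dvd_coprimes ((Nat.coprime_two_right.2 h2).pow_right j) dvd_rfl h5

end Cfsg.Agent.S4549
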