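import Cfsg.Statements.S4548
import Cfsg.Agent.Bz.A
import Cfsg.Agent.S4549

set_option autoImplicit false
open Cfsg

namespace Cfsg.Agent.S4548

/-- Let G be a finite group of even order with Sylow 2-subgroup P and M a maximal ideal of the algebraic integers containing 2. Let k be a natural number with g ^ k = g ^ 3 for every 2-element g and g ^ k = g for every element g of odd order (such k exist); an irreducible character χ is unchanged by g ↦ g ^ k exactly when it is fixed by the field automorphism that cubes the 2-power roots of unity and fixes the roots of unity of odd order. Then P is cyclic if and only if exactly two members χ of the principal 2-block of odd degree satisfy χ (g ^ k) = χ g for all g. -/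
theorem result {G : Type*} [Group G] [Finite G] (M : Ideal Cfsg.AlgInt) (hM : Cfsg.IsPModular 2 M) (hev : Even (Nat.card G)) (P : Sylow 2 G) (k : ℕ) (hk₁ : ∀ g : G, (∃ j : ℕ, orderOf g = 2 ^ j) → g ^ k = g ^ 3) (hk₂ : ∀ g : G, Odd (orderOf g) → g ^ k = g) : IsCyclic P ↔ Nat.card {χ : Cfsg.IrrCharacter G // χ ∈ Cfsg.principalBlock M G ∧ Odd (Cfsg.charDegree (χ : G → ℂ)) ∧ ∀ g : G, (χ : G → ℂ) (g ^ k) = (χ : G → ℂ) g} = 2 := by
  have := Fact.mk Nat.prime_two
  have hodd : ∀ n : ℕ, Odd n ↔ ¬ 2 ∣ n := fun n => by rw [Nat.odd_iff, Nat.two_dvd_ne_zero]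
  have hk₂' : ∀ g : G, ¬ 2 ∣ orderOf g → g ^ k = g := fun g hg => hk₂ g ((hodd _).2 hg)
  obtain ⟨hk, e, he⟩ := CF.BlockB.pow_setup Nat.prime_two hk₁ hk₂'
  have h2 : 2 ∣ Nat.card G := even_iff_two_dvd.1 hev
  have h49 := Cfsg.Agent.S4549.result M hM k hk₁ hk₂
  have main : HasNormalPComplement 2 G → (IsCyclic P ↔ Nat.card {χ : Cfsg.IrrCharacter G //
      χ ∈ Cfsg.principalBlock M G ∧ Odd (Cfsg.charDegree (χ : G → ℂ)) ∧
        ∀ g : G, (χ : G → ℂ) (g ^ k) = (χ : G → ℂ) g} = 2) := fun h => by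
    have hN := CF.Transfer.hasNPC_iff_not_dvd.1 h
    rw [CF.Bz.card_fixed_eq hM hk₁ hk₂' hN _ fun χ => ⟨fun h1 => ⟨h1.1,
      h49.1 h χ h1.1 h1.2.1 h1.2.2, h1.2.2⟩, fun h1 => ⟨h1.1, h1.2.1 ▸ odd_one, h1.2.2⟩⟩]
    obtain ⟨j, hj⟩ := CF.Transfer.index_pResidual (p := 2) (G := G)
    have hc := CF.Transfer.isComplement'_sylow_of_coprime_of_index
      ((Nat.Prime.coprime_iff_not_dvd Nat.prime_two).2 hN).symm hj P
    have e1 := hc.symm.QuotientMulEquiv
    refine ⟨fun hP => ?_, fun h1 => ?_⟩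
    · have := isCyclic_of_surjective _ e1.symm.surjective
      refine CF.BlockB.card_linear_pow_eq_one Nat.prime_two _ ?_
      rw [← (pResidual 2 G).index_mul_card] at h2
      exact (Nat.prime_two.dvd_mul.1 h2).resolve_right hN
    · have := CF.Bz.isCyclic_quot_of_card _ CF.Transfer.isPGroup_quotient_pResidual h1
      exact isCyclic_of_surjective _ e1.surjective
  refine ⟨fun hP => (main ⟨P, _, inferInstance,
    IsCyclic.isComplement' ((Nat.minFac_eq_two_iff _).2 h2) hP⟩).1 hP, fun h => (main ?_).2 h⟩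
  refine h49.2 fun ψ h1 h3 h4 => ?_
  by_cases hψ : ψ = CF.Char.oneIrr G
  · rw [hψ]; exact CF.BlockB.charDegree_of_eq (n := 1) Nat.cast_one.symm
  have hone : CF.Char.oneIrr G ∈ principalBlock M G ∧ Odd (charDegree (CF.Char.oneIrr G : G → ℂ)) ∧
      ∀ g : G, (CF.Char.oneIrr G : G → ℂ) (g ^ k) = (CF.Char.oneIrr G : G → ℂ) g :=
    ⟨CF.BlockB.oneIrr_mem_principalBlock hM, by
      rw [CF.BlockB.charDegree_of_eq (n := 1) Nat.cast_one.symm]; exact odd_one, fun _ => rfl⟩
  obtain ⟨y, -, hy⟩ := (Nat.card_eq_two_iff' ⟨_, hone⟩).1 h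
  have h5 := hy ⟨ψ, h1, h3, h4⟩ fun h => hψ (congrArg Subtype.val h)
  refine (CF.BlockB.Ord.deg_eq_one_iff (CF.Char.irr_isCharacter ψ.2)).2
    (CF.Bz.linear_of_pair hM h2 hk he hk₂' ψ hψ fun χ => ?_)
  rw [← hodd, CF.BlockB.gal_eq_iff]
  refine ⟨?_, fun h6 => or_iff_not_imp_left.2 fun h7 => ?_⟩
  · rintro (rfl | rfl)
    · exact hone
    · exact ⟨h1, h3, h4⟩
  · exact congrArg Subtype.val ((hy ⟨χ, h6⟩ fun h => h7 (congrArg Subtype.val h)).trans h5.symm)

end Cfsg.Agent.S4548
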