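import Cfsg.Statements.S4550
import Cfsg.Agent.BlockB.Gal3
-- import your own Cfsg.Agent.* helpers here

set_option autoImplicit false
open Cfsg

namespace Cfsg.Agent.S4550

/-- Let G be a finite group of even order and M a maximal ideal of the algebraic integers containing 2. Let k be a natural number with g ^ k = g ^ 3 for every 2-element g and g ^ k = g for every element g of odd order (such k exist); an irreducible character χ is unchanged by g ↦ g ^ k exactly when it is fixed by the field automorphism that cubes the 2-power roots of unity and fixes the roots of unity of odd order. Then the number of members χ of the principal 2-block of odd degree with χ (g ^ k) = χ g for all g is even. -/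
theorem result {G : Type*} [Group G] [Finite G] (M : Ideal Cfsg.AlgInt) (hM : Cfsg.IsPModular 2 M) (hev : Even (Nat.card G)) (k : ℕ) (hk₁ : ∀ g : G, (∃ j : ℕ, orderOf g = 2 ^ j) → g ^ k = g ^ 3) (hk₂ : ∀ g : G, Odd (orderOf g) → g ^ k = g) : Even (Nat.card {χ : Cfsg.IrrCharacter G // χ ∈ Cfsg.principalBlock M G ∧ Odd (Cfsg.charDegree (χ : G → ℂ)) ∧ ∀ g : G, (χ : G → ℂ) (g ^ k) = (χ : G → ℂ) g}) := by
  classical
  obtain ⟨hk, e, he⟩ := CF.BlockB.pow_setup Nat.prime_two hk₁ fun g hg =>
    hk₂ g (Nat.odd_iff.2 (Nat.two_dvd_ne_zero.1 hg))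
  have h1 := CF.BlockB.dvd_card_fixed hM hk he _ (fun χ hχ => by
    simpa using CF.BlockB.gal_mem_pb hM hk (Finset.mem_filter.1 hχ).2)
    (CF.Block.dvd_sum_sq hM (CF.Char.nrm_eSet_pb hM) hev.two_dvd)
  rw [← ZMod.natCast_eq_zero_iff, Nat.cast_sum, Finset.sum_congr rfl (g := fun _ => 1)
    fun χ hχ => by
      rw [Nat.cast_pow, ZMod.natCast_eq_one_iff_odd.2
        (Nat.odd_iff.2 (Nat.two_dvd_ne_zero.1 (Finset.mem_filter.1 hχ).2.2)), one_pow],
    Finset.sum_const, nsmul_one, ZMod.natCast_eq_zero_iff_even, Finset.filter_filter] at h1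
  rw [Nat.card_eq_fintype_card, Fintype.card_subtype]
  convert h1 using 3 with χ
  rw [CF.BlockB.gal_eq_iff, Nat.two_dvd_ne_zero, Nat.odd_iff, and_comm (b := _ % 2 = 1)]

end Cfsg.Agent.S4550
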