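import Cfsg.Statements.S4552
import Cfsg.Agent.Block.FSX

set_option autoImplicit false
open Cfsg

namespace Cfsg.Agent.S4552

open CF.Block CF Subgroup

/-- Let B be a 2-block of the finite group G (relative to a maximal ideal M of the algebraic integers containing 2) whose defect group D is the direct product of two cyclic groups of the same order 2 ^ m, m ≥ 2. Then either B has 2-regular rank one and exactly 4 ^ m irreducible characters, or B has 2-regular rank three and exactly (4 ^ m + 8) / 3 irreducible characters. -/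
theorem result {G : Type*} [Group G] [Finite G] (M : Ideal Cfsg.AlgInt) (hM : Cfsg.IsPModular 2 M) (B : Set (Cfsg.IrrCharacter G)) (hB : Cfsg.IsPBlock M B) (D : Subgroup G) (hD : Cfsg.IsDefectGroup 2 M B D) (m : ℕ) (hm : 2 ≤ m) (hiso : Nonempty (D ≃* Multiplicative (ZMod (2 ^ m) × ZMod (2 ^ m)))) : (Cfsg.blockRank 2 B = 1 ∧ Nat.card B = 4 ^ m) ∨ (Cfsg.blockRank 2 B = 3 ∧ 3 * Nat.card B = 4 ^ m + 8) := by
  have := Fintype.ofFinite G
  have : Fact (Nat.Prime 2) := ⟨Nat.prime_two⟩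
  have := BlockB.charP_k hM
  obtain ⟨φ⟩ := hiso
  obtain ⟨e, hm'⟩ := ((isDefectGroup_iff hM hB D).1 hD).exists_maxPair (isBlk_eb hM hB)
  have hab : D ≤ centralizer (D : Set G) := fun a ha b hb =>
    congrArg Subtype.val (φ.injective (by rw [map_mul, map_mul, mul_comm]) :
      (⟨b, hb⟩ * ⟨a, ha⟩ : D) = ⟨a, ha⟩ * ⟨b, hb⟩)
  have h4 : Nat.card D = 4 ^ m := by
    rw [Nat.card_congr φ.toEquiv, Nat.card_congr Multiplicative.toAdd, Nat.card_prod, Nat.card_zmod,
      ← mul_pow]
    rfl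
  have h0 : Nat.card (powMonoidHom 2 : Multiplicative (ZMod (2 ^ m)) →* _).ker = 2 := by
    rw [IsCyclic.card_powMonoidHom_ker, Nat.card_congr Multiplicative.toAdd, Nat.card_zmod]
    exact Nat.gcd_eq_right (dvd_pow_self 2 (by omega))
  obtain ⟨hfs, h3⟩ := fS_two hM hB hm' hab (by
    let ψ := φ.trans (MulEquiv.prodMultiplicative (ZMod (2 ^ m)) (ZMod (2 ^ m)))
    refine Eq.trans ?_ ((Nat.card_prod _ _).trans (congrArg₂ (· * ·) h0 h0))
    refine Nat.card_congr
      { toFun := fun x => (⟨(ψ ⟨x.1, x.2.1⟩).1, ?_⟩, ⟨(ψ ⟨x.1, x.2.1⟩).2, ?_⟩)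
        invFun := fun y => ⟨ψ.symm (y.1, y.2), (ψ.symm (y.1, y.2)).2, ?_⟩
        left_inv := fun x => by simp
        right_inv := fun y => by simp }
    · exact congrArg Prod.fst ((map_pow ψ _ 2).symm.trans
        ((congrArg ψ (Subtype.ext x.2.2)).trans (map_one ψ)))
    · exact congrArg Prod.snd ((map_pow ψ _ 2).symm.trans
        ((congrArg ψ (Subtype.ext x.2.2)).trans (map_one ψ)))
    · exact congrArg Subtype.val ((map_pow ψ.symm _ 2).symm.trans
        ((congrArg ψ.symm (a₂ := 1) (Prod.ext (MonoidHom.mem_ker.1 y.1.2)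
          (MonoidHom.mem_ker.1 y.2.2))).trans (map_one ψ.symm))))
  have h16 : 16 ≤ 4 ^ m := Nat.pow_le_pow_right (by norm_num : 0 < 4) hm
  have hP : D ≠ ⊥ := fun h => by rw [h, card_bot] at h4; omega
  have hk := hfs.card_eq
  obtain ⟨w, ζ, a, d, δ, h⟩ := hfs.exists_fD'
  have h1 := h.norm_eq hP
  have h2 := h.one_le_norm hP
  have h5 := h.rank_le_sum hP
  have h6 := BlockB.blockRank_pos hM.1 (BlockB.block_nonempty hM hB)
  have h7 := h.rank_eq_sum hP
  have h8 := hfs.dvd_sub_one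
  have h9 := h.sign
  rw [h4] at *
  generalize ∑ᶠ χ ∈ B \ FY ζ, a χ ^ 2 = s at *
  generalize Nat.card B = n at *
  generalize 4 ^ m = q at *
  rcases (Nat.dvd_prime Nat.prime_three).1 h3 with h3 | h3 <;> rw [h3] at h1 h2 h8 hk
  · omega
  · have hd : d = 0 := by
      by_contra hd
      have := sq_pos_of_ne_zero hd
      have h10 : (4 : ℤ) ≤ ((q - 1) / 3 : ℕ) - 1 := by omega
      have h11 : (1 : ℤ) ≤ s := by omega
      generalize (((q - 1) / 3 : ℕ) : ℤ) = r at *
      norm_num at h1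
      nlinarith [sq_nonneg (d - δ)]
    subst hd
    rcases h9 with rfl | rfl <;> simp at h1 <;> omega

end Cfsg.Agent.S4552
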