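import Cfsg.Statements.S4553
import Cfsg.Agent.BlockB.Gal3
-- import your own Cfsg.Agent.* helpers here

set_option autoImplicit false
open Cfsg

namespace Cfsg.Agent.S4553

/-- Let G be a finite group, p a prime, P a Sylow p-subgroup, N the p-residual of G (the subgroup generated by the elements of order prime to p, the smallest normal subgroup with G/N a p-group), and M a maximal ideal of the algebraic integers containing p; suppose G/N is cyclic and nontrivial. Let k be a natural number with g ^ k = g ^ (1 + p) for every p-element g and g ^ k = g for every element g of order prime to p (so that χ (g ^ k) is the image of χ g under the field automorphism that raises p-power roots of unity to the power 1 + p and fixes the roots of unity of order prime to p). Then the number of members χ of the principal block of G of degree prime to p with χ (g ^ k) = χ g for all g equals p times the number of members θ of the principal block of N of degree prime to p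 that are invariant under conjugation by P and satisfy θ (n ^ k) = θ n for all n. -/
theorem result {G : Type*} [Group G] [Finite G] (p : ℕ) [Fact p.Prime] (M : Ideal Cfsg.AlgInt) (hM : Cfsg.IsPModular p M) (P : Sylow p G) (N : Subgroup G) [hN : N.Normal] (hNres : N = Cfsg.pResidual p G) (hcyc : IsCyclic (G ⧸ N)) (hnt : N ≠ ⊤) (k : ℕ) (hk₁ : ∀ g : G, (∃ j : ℕ, orderOf g = p ^ j) → g ^ k = g ^ (1 + p)) (hk₂ : ∀ g : G, Nat.Coprime (orderOf g) p → g ^ k = g) : Nat.card {χ : Cfsg.IrrCharacter G // χ ∈ Cfsg.principalBlock M G ∧ ¬ p ∣ Cfsg.charDegree (χ : G → ℂ) ∧ ∀ g : G, (χ : G → ℂ) (g ^ k) = (χ : G → ℂ) g} = p * Nat.card {θ : Cfsg.IrrCharacter ↥N // θ ∈ Cfsg.principalBlock M ↥N ∧ ¬ p ∣ Cfsg.charDegree (θ : ↥N → ℂ) ∧ (∀ x ∈ (P : Subgroup G), ∀ n : ↥N, (θ : ↥N → ℂ) ⟨x * n * x⁻¹, hN.conj_mem n n.2 x⟩ = (θ : ↥N → ℂ) n) ∧ ∀ n : ↥N, (θ : ↥N → ℂ) (n ^ k) = (θ : ↥N → ℂ) n} := by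
  subst hNres
  have hp := hM.1
  have hk₂' : ∀ g : G, ¬ p ∣ orderOf g → g ^ k = g := fun g hg =>
    hk₂ g ((Nat.Prime.coprime_iff_not_dvd hp).2 hg).symm
  obtain ⟨hk, -⟩ := CF.BlockB.pow_setup hp hk₁ hk₂'
  have := Fintype.ofFinite G
  have := Fintype.ofFinite (pResidual p G)
  set E := CF.Clifford.NormalEmb.sub (pResidual p G)
  obtain ⟨j, hj⟩ := CF.Transfer.index_pResidual (p := p) (G := G)
  have hl : ∀ lam : G →* ℂˣ, (∀ n : pResidual p G, lam n = 1) → ∀ g, lam (g ^ k) = (lam ^ p) g * lam g :=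
    fun lam h g => by
      have h1 := CF.BlockB.pReg_pRegular hp g
      have h2 : lam (CF.BlockB.pReg p g) = 1 := h ⟨_, CF.Transfer.mem_pResidual_of_coprime
        ((Nat.Prime.coprime_iff_not_dvd hp).2 h1).symm⟩
      rw [← CF.BlockB.pPart_mul_pReg (p := p) g, (CF.BlockB.commute_pPart_pReg g).mul_pow,
        hk₁ _ (CF.BlockB.pPart_pElement hp g), hk₂' _ h1]
      simp [h2, pow_add, mul_comm]
  refine Eq.trans ?_ ((Nat.card_prod _ _).trans (congrArg (· * _)
    (CF.BlockB.card_linear_pow_eq_one hp (pResidual p G) (hj ▸ dvd_pow_self p (by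
      rintro rfl; exact hnt (Subgroup.index_eq_one.1 hj))))))
  have hex := fun θ : {θ : IrrCharacter (pResidual p G) // θ ∈ principalBlock M _ ∧
      ¬ p ∣ charDegree (θ : pResidual p G → ℂ) ∧ (∀ x ∈ (P : Subgroup G), ∀ n : pResidual p G,
        (θ : pResidual p G → ℂ) ⟨x * n * x⁻¹, hN.conj_mem n n.2 x⟩ = (θ : pResidual p G → ℂ) n) ∧
      ∀ n, (θ : pResidual p G → ℂ) (n ^ k) = (θ : pResidual p G → ℂ) n} =>
    CF.BlockB.exists_fixed_ext_pResidual hp hk θ.1.2 (CF.BlockB.invariant_of_sylow P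
      (CF.Char.irr_isClassFunction θ.1.2) fun g hg => E.mem_inertia'.2 (θ.2.2.2.1 g hg))
      θ.2.2.1 θ.2.2.2.2
  choose f hf1 hf2 using hex
  simp only [CF.BlockB.gal_eq_iff] at hf2
  symm
  refine Nat.card_eq_of_bijective (fun x => ⟨⟨_, CF.Clifford.irr_linear_mul x.1.1 (f x.2).2⟩,
    CF.BlockB.mem_pb_of_ext hM x.2.2.1 fun n => by simp [x.1.2.1, hf1],
    by rw [CF.BlockB.charDegree_eq_of_ext (θ := x.2.1.1) fun n => by simp [x.1.2.1, hf1]]
       exact x.2.2.2.1,
    fun g => by simp only [hf2, hl _ x.1.2.1, x.1.2.2, MonoidHom.one_apply, one_mul]⟩)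
    ⟨?_, ?_⟩
  · rintro ⟨a, θ⟩ ⟨b, φ⟩ h
    have h1 := congrArg (fun x => x.1.1) h
    obtain rfl : θ = φ := Subtype.ext (Subtype.ext (funext fun n => by
      simpa [a.2.1, b.2.1, hf1] using congrFun h1 n))
    refine Prod.ext (Subtype.ext (CF.Char.linear_injective ?_)) rfl
    exact E.eq_of_mul_ext θ.1.2 (CF.Char.irr_isCharacter (f θ).2) (hf1 θ) (CF.Char.irr_linear a.1)
      (CF.Char.irr_linear b.1) (fun n => by simpa using! a.2.1 n)
      (fun n => by simpa using! b.2.1 n) h1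
  · rintro ⟨χ, h1, h2, h3⟩
    have h4 := CF.BlockB.Ord.irr_res_of_coprime E χ.2 (CF.BlockB.coprime_index_pResidual hp h2).symm
    let θ : {θ : IrrCharacter (pResidual p G) // θ ∈ principalBlock M _ ∧
        ¬ p ∣ charDegree (θ : pResidual p G → ℂ) ∧ (∀ x ∈ (P : Subgroup G), ∀ n : pResidual p G,
          (θ : pResidual p G → ℂ) ⟨x * n * x⁻¹, hN.conj_mem n n.2 x⟩ = (θ : pResidual p G → ℂ) n) ∧
        ∀ n, (θ : pResidual p G → ℂ) (n ^ k) = (θ : pResidual p G → ℂ) n} :=
      ⟨⟨_, h4⟩, CF.Block.mem_pb_of_under hM h1 ((CF.Char.inner_irr_self h4).trans_ne one_ne_zero),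
        h2, fun x _ n => CF.Char.irr_isClassFunction χ.2 _ _, fun n => h3 n⟩
    obtain ⟨lam, h5, h6⟩ := E.exists_linear_of_ext h4 (CF.Char.irr_isCharacter (f θ).2)
      (CF.Char.irr_isCharacter χ.2) (hf1 θ) fun _ => rfl
    refine ⟨⟨⟨lam, h5, ?_⟩, θ⟩, Subtype.ext (Subtype.ext h6.symm)⟩
    refine CF.Char.linear_injective (E.eq_of_mul_ext h4 (CF.Char.irr_isCharacter χ.2) (fun _ => rfl)
      (CF.Char.irr_linear _) (CF.Char.irr_linear _) (fun n => by simp [h5]) (fun n => rfl)
      (funext fun g => ?_))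
    have := h3 g
    rw [h6] at this ⊢
    simpa [hf2, hl lam h5, mul_assoc] using this

end Cfsg.Agent.S4553
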