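import Cfsg.Statements.S4560
import Cfsg.Agent.Block.Sn11

set_option autoImplicit false
open Cfsg

namespace Cfsg.Agent.S4560

open CF.Block CF Sn Equiv

variable {I : Type} [Fintype I] [DecidableEq I]

theorem sign_rot (k : ℕ) : Perm.sign (rot (k + 1)) = (-1) ^ k := by
  refine Eq.trans ?_ (sign_finRotate (k + 1))
  exact congrArg _ (Equiv.ext fun x => (finRotate_succ_apply x).symm)

theorem exists_cyc (l : List ℕ) (hl : ∀ k ∈ l, 0 < k) : ∀ n, n = l.sum → ∃ t : Perm (Fin n),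
    cyc (X : I → Sn.Poly I) t = (l.map (ps X)).prod ∧ Perm.sign t = (-1) ^ (l.sum + l.length) ∧
      ∀ N, (∀ k ∈ l, k ∣ N) → t ^ N = 1 := by
  induction l with
  | nil =>
    intro n hn
    obtain rfl : n = 0 := hn
    exact ⟨1, cyc_of_isEmpty _ _, by simp, by simp⟩
  | cons k l ih =>
    intro n hn
    obtain ⟨t, h1, h2, h3⟩ := ih (fun k hk => hl k (by simp [hk])) _ rfl
    obtain ⟨k, rfl⟩ : ∃ j, k = j + 1 := ⟨k - 1, by have := hl k (by simp); omega⟩
    obtain ⟨e⟩ : Nonempty (ZMod (k + 1) ⊕ Fin l.sum ≃ Fin n) :=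
      ⟨Fintype.equivOfCardEq (by simp [hn])⟩
    refine ⟨emb e (rot (k + 1), t), by rw [cyc_emb, cyc_rot, h1]; simp, ?_, fun N hN => ?_⟩
    · rw [sign_emb, sign_rot, h2, ← pow_add, List.sum_cons, List.length_cons,
        show k + 1 + l.sum + (l.length + 1) = k + (l.sum + l.length) + 2 by ring, pow_add _ _ 2]
      simp
    · rw [← map_pow, Prod.pow_mk, h3 N fun k hk => hN k (by simp [hk]),
        orderOf_dvd_iff_pow_eq_one.1 (by rw [orderOf_rot]; exact hN _ (by simp))]
      exact map_one _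

theorem co_eq_zero {δ : I → ℕ} (hδ : IsDel δ) {p m : ℕ} (l : List ℕ) (hl : ∀ k ∈ l, p ∣ k) :
    ∀ b : I → ℕ, (∀ c : I → ℕ, (∀ i, c i % p = b i % p) → ¬ Adm m c) →
      co b (alt δ * ((l.map (ps X)).prod * cyc X (1 : Perm (Fin m)))) = 0 := by
  induction l with
  | nil =>
    intro b h
    simpa [chi] using chi_eq_zero_of_not_adm hδ (by simpa using h b fun _ => rfl) (1 : Perm (Fin m))
  | cons k l ih =>
    intro b h
    rw [List.map_cons, List.prod_cons, mul_assoc, co_alt_ps_mul]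
    refine Finset.sum_eq_zero fun i _ => ?_
    split_ifs with hi
    · exact ih (fun k hk => hl k (by simp [hk])) _ fun c hc => h c fun j => by
        rw [hc, dn_mod (hl k (by simp)) hi]
    · rfl

/-- The target property. -/
def Good (n N : ℕ) : Prop := ∃ χ : IrrCharacter (alternatingGroup (Fin n)),
  (∃ x : alternatingGroup (Fin n), x ≠ 1 ∧ x ^ N = 1 ∧ (χ : alternatingGroup (Fin n) → ℂ) x = 0) ∧
    ∃ ψ : IrrCharacter (Perm (Fin n)), ∀ x : alternatingGroup (Fin n),
      (ψ : Perm (Fin n) → ℂ) x = (χ : alternatingGroup (Fin n) → ℂ) x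

/-- Non-vanishing at an odd permutation. -/
def NV (n : ℕ) (δ b : I → ℕ) : Prop := ∃ l : List ℕ, (∀ k ∈ l, 0 < k) ∧ n = l.sum ∧
  Odd (l.sum + l.length) ∧ co b ((l.map (ps X)).prod * alt δ) = 1

theorem good {δ b : I → ℕ} (hδ : IsDel δ) {n : ℕ} (hb : Adm n b) (h : NV n δ b) {p m N : ℕ}
    (l : List ℕ) (hl : ∀ k ∈ l, 0 < k ∧ p ∣ k ∧ k ∣ N) (hn : n = l.sum + m)
    (he : Even (l.sum + l.length)) (H : ∀ c : I → ℕ, (∀ i, c i % p = b i % p) → ¬ Adm m c) :
    Good n N := by
  obtain ⟨ψ, hψ⟩ := Adm.exists_lab (α := Fin n) hδ (by simpa using hb)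
  obtain ⟨s, hs, h1⟩ := hψ.exists_sign
  obtain ⟨l', h2, h3, h4, h5⟩ := h
  obtain ⟨t, h6, h7, -⟩ := exists_cyc (I := I) l' h2 n h3
  have h8 := irr_res_of_ne_zero (t := t) (by simp [h7, h4.neg_one_pow]) ψ.2 (by
    rw [h1, Pi.smul_apply, chi, h6, mul_comm, h5]
    rcases hs with rfl | rfl <;> simp)
  obtain ⟨x, h9, h10, h11⟩ := exists_cyc (I := I) (l ++ List.replicate m 1) (by
    simp only [List.mem_append, List.mem_replicate]
    rintro k (hk | ⟨-, rfl⟩)
    exacts [(hl k hk).1, one_pos]) n (by simpa using hn)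
  have h12 : (ψ : Perm (Fin n) → ℂ) x = 0 := by
    have := co_eq_zero hδ l (fun k hk => (hl k hk).2.1) b H
    rw [cyc_one, Fintype.card_fin] at this
    simp [h1, chi, h9, this]
  refine ⟨⟨_, h8⟩, ⟨⟨x, ?_⟩, fun h0 => Char.irr_one_ne_zero ψ.2 ?_, Subtype.ext (h11 N ?_), h12⟩,
    ψ, fun _ => rfl⟩
  · rw [Perm.mem_alternatingGroup, h10, Even.neg_one_pow]
    simp only [List.sum_append, List.sum_replicate, List.length_append, List.length_replicate]
    obtain ⟨r, hr⟩ := he
    exact ⟨r + m, by simp; omega⟩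
  · rw [← h12]; exact congrArg _ (congrArg Subtype.val h0).symm
  · simp only [List.mem_append, List.mem_replicate]
    rintro k (hk | ⟨-, rfl⟩)
    exacts [(hl k hk).2.2, one_dvd _]

theorem step {F : Sn.Poly I} (hF : AntiP F) {b c : I → ℕ} (i : I) {k : ℕ} (hk : 0 < k)
    (h1 : ∀ j, b j = c j + if j = i then k else 0)
    (H : ∀ j, j ≠ i → k ≤ b j → ∃ l, b l + k = b j) : co b (ps X k * F) = co c F := by
  have h2 := h1 i
  rw [if_pos rfl] at h2
  rw [co_ps_mul, Finset.sum_eq_single i, if_pos (by omega)]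
  · congr 2
    funext j
    by_cases h : j = i
    · subst h; rw [dn_self]; omega
    · rw [dn_of_ne _ h, h1, if_neg h, add_zero]
  · intro j _ hj
    split_ifs with h3
    · obtain ⟨l, hl⟩ := H j hj h3
      have h4 : l ≠ j := by rintro rfl; omega
      exact hF.eq_zero fun h => h4 (h (by rw [dn_self, dn_of_ne _ h4]; omega))
    · rfl
  · simp

theorem del2 : IsDel ![0, 1] := ⟨by decide, by decide⟩

theorem del3 : IsDel ![0, 2, 1] := ⟨by decide, by decide⟩

theorem nv1 {δ b : I → ℕ} (hδ : IsDel δ) {n : ℕ} (hn : Even n) (h0 : 0 < n)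
    (h : co b (ps X n * alt δ) = co δ (alt δ)) : NV n δ b :=
  ⟨[n], by simpa using h0, by simp, by simpa using hn.add_one, by
    simpa using h.trans (eps_self hδ.inj)⟩

theorem nv2 {δ b : I → ℕ} (hδ : IsDel δ) {n : ℕ} (hn : Odd n) (r : ℕ) (h0 : 0 < r) (h1 : r < n)
    (h : co b (ps X (n - r) * (ps X r * alt δ)) = co δ (alt δ)) : NV n δ b :=
  ⟨[n - r, r], by simp; omega, by simp; omega, by
    obtain ⟨c, rfl⟩ := hn; exact ⟨c + 1, by simp; omega⟩, by
    simpa [mul_assoc] using h.trans (eps_self hδ.inj)⟩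

theorem nv3 {δ b : I → ℕ} (hδ : IsDel δ) {n : ℕ} (hn : Even n) (r : ℕ) (h0 : 0 < r) (h1 : r + 1 < n)
    (h : co b (ps X (n - (r + 1)) * (ps X r * (ps X 1 * alt δ))) = co δ (alt δ)) : NV n δ b :=
  ⟨[n - (r + 1), r, 1], by simp; omega, by simp; omega, by
    obtain ⟨c, rfl⟩ := hn; exact ⟨c + 1, by simp; omega⟩, by
    simpa [mul_assoc] using h.trans (eps_self hδ.inj)⟩

theorem nvA {n : ℕ} (hn : 7 ≤ n) : NV n ![0, 1] ![n, 1] := by
  rcases Nat.even_or_odd n with h | h
  · exact nv1 del2 h (by omega) (step (antiP_alt _) 0 (by omega) (by simp [Fin.forall_fin_two])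
      (by simp [Fin.forall_fin_two]; omega))
  · exact nv2 del2 h 2 (by omega) (by omega) ((step (c := ![2, 1]) ((antiP_alt _).ps_mul _) 0
      (by omega) (by simp [Fin.forall_fin_two]; omega) (by simp [Fin.forall_fin_two]; omega)).trans
      (step (antiP_alt _) 0 (by omega) (by decide) (by decide)))

theorem nvB {n : ℕ} (hn : 7 ≤ n) : NV n ![0, 1] ![n - 1, 2] := by
  rcases Nat.even_or_odd n with h | h
  · exact nv3 del2 h 1 (by omega) (by omega) ((step (c := ![1, 2])
      (((antiP_alt _).ps_mul _).ps_mul _) 0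
      (by omega) (by simp [Fin.forall_fin_two]; omega) (by simp [Fin.forall_fin_two]; omega)).trans
      ((step (c := ![0, 2]) ((antiP_alt _).ps_mul _) 0 (by omega) (by decide) (by decide)).trans
      (step (antiP_alt _) 1 (by omega) (by decide) (by decide))))
  · exact nv2 del2 h 1 (by omega) (by omega) ((step (c := ![0, 2]) ((antiP_alt _).ps_mul _) 0
      (by omega) (by simp [Fin.forall_fin_two]) (by simp [Fin.forall_fin_two]; omega)).trans
      (step (antiP_alt _) 1 (by omega) (by decide) (by decide)))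

theorem nvC {n : ℕ} (hn : 7 ≤ n) : NV n ![0, 2, 1] ![n, 2, 1] := by
  rcases Nat.even_or_odd n with h | h
  · exact nv1 del3 h (by omega) (step (antiP_alt _) 0 (by omega) (by simp [Fin.forall_fin_succ])
      (by simp [Fin.forall_fin_succ]; omega))
  · exact nv2 del3 h 3 (by omega) (by omega) ((step (c := ![3, 2, 1]) ((antiP_alt _).ps_mul _) 0
      (by omega) (by simp [Fin.forall_fin_succ]; omega) (by simp [Fin.forall_fin_succ]; omega)).trans
      (step (antiP_alt _) 0 (by omega) (by decide) (by decide)))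

theorem nvD {n : ℕ} (hn : 7 ≤ n) (h : Even n) : NV n ![0, 2, 1] ![n - 1, 3, 1] :=
  nv3 del3 h 2 (by omega) (by omega) ((step (c := ![2, 3, 1])
    (((antiP_alt _).ps_mul _).ps_mul _) 0
    (by omega) (by simp [Fin.forall_fin_succ]; omega) (by simp [Fin.forall_fin_succ]; omega)).trans
    ((step (c := ![0, 3, 1]) ((antiP_alt _).ps_mul _) 0 (by omega) (by decide) (by decide)).trans
    (step (antiP_alt _) 1 (by omega) (by decide) (by decide))))

theorem adm2 {m : ℕ} {c : Fin 2 → ℕ} : Adm m c ↔ c 0 ≠ c 1 ∧ c 0 + c 1 = m + 1 :=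
  ⟨fun h => ⟨h.inj.ne (by decide), by simpa using h.sum⟩, fun h => ⟨fun i j hij => by
    fin_cases i <;> fin_cases j <;> simp_all, by simpa using h.2⟩⟩

theorem adm3 {m : ℕ} {c : Fin 3 → ℕ} :
    Adm m c ↔ (c 0 ≠ c 1 ∧ c 0 ≠ c 2 ∧ c 1 ≠ c 2) ∧ c 0 + c 1 + c 2 = m + 3 :=
  ⟨fun h => ⟨⟨h.inj.ne (by decide), h.inj.ne (by decide), h.inj.ne (by decide)⟩,
    by simpa [Fin.sum_univ_three] using h.sum⟩, fun h => ⟨fun i j hij => by
    fin_cases i <;> fin_cases j <;> simp_all, by simpa [Fin.sum_univ_three] using h.2⟩⟩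

theorem good4 {n : ℕ} (hn : 7 ≤ n) : Good n 4 := by
  by_cases h : n % 2 = 0
  · refine good del3 (adm3.2 (by simp; omega)) (nvD hn (Nat.even_iff.2 h)) (p := 2) (m := n % 4)
      (List.replicate (2 * (n / 4)) 2) (by simp) (by simp; omega) (by simp [parity_simps])
      fun c hc => ?_
    simp [Fin.forall_fin_succ, adm3] at hc ⊢
    omega
  have H : ∀ c : Fin 2 → ℕ, (∀ i, c i % 2 = ![n, 1] i % 2) → ¬ Adm 1 c := fun c hc => by
    simp [Fin.forall_fin_succ, adm2] at hc ⊢
    omega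
  by_cases h4 : n % 4 = 1
  · exact good del2 (adm2.2 (by simp; omega)) (nvA hn) (List.replicate (2 * (n / 4)) 2) (by simp)
      (by simp; omega) (by simp [parity_simps]) H
  · exact good del2 (adm2.2 (by simp; omega)) (nvA hn) (4 :: List.replicate ((n - 5) / 2) 2)
      (by simp) (by simp; omega) (by simp [Nat.even_iff]; omega) H

theorem good3 {n : ℕ} (hn : 7 ≤ n) : Good n 3 := by
  have h1 : ∀ k ∈ List.replicate (n / 3) 3, 0 < k ∧ 3 ∣ k ∧ k ∣ 3 := by simp
  have h2 : n = (List.replicate (n / 3) 3).sum + n % 3 := by simp; omega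
  have h3 : Even ((List.replicate (n / 3) 3).sum + (List.replicate (n / 3) 3).length) := by
    simp [Nat.even_iff]; omega
  by_cases h : n % 3 = 0
  · refine good del2 (adm2.2 (by simp; omega)) (nvB hn) _ h1 h2 h3 fun c hc => ?_
    simp [Fin.forall_fin_succ, adm2] at hc ⊢
    omega
  by_cases h' : n % 3 = 1
  · refine good del2 (adm2.2 (by simp; omega)) (nvA hn) _ h1 h2 h3 fun c hc => ?_
    simp [Fin.forall_fin_succ, adm2] at hc ⊢
    omega
  · refine good del3 (adm3.2 (by simp; omega)) (nvC hn) _ h1 h2 h3 fun c hc => ?_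
    simp [Fin.forall_fin_succ, adm3] at hc ⊢
    omega

/-- For n ≥ 7 the alternating group on n letters has an irreducible character that vanishes at some 2-element and is the restriction of an irreducible character of the symmetric group, and an irreducible character that vanishes at some element of order 3 and is the restriction of an irreducible character of the symmetric group. -/
theorem result (n : ℕ) (hn : 7 ≤ n) : (∃ χ : Cfsg.IrrCharacter (alternatingGroup (Fin n)), (∃ x : alternatingGroup (Fin n), (∃ j : ℕ, orderOf x = 2 ^ j) ∧ (χ : alternatingGroup (Fin n) → ℂ) x = 0) ∧ ∃ ψ : Cfsg.IrrCharacter (Equiv.Perm (Fin n)), ∀ x : alternatingGroup (Fin n), (ψ : Equiv.Perm (Fin n) → ℂ) x = (χ : alternatingGroup (Fin n) → ℂ) x) ∧ (∃ χ : Cfsg.IrrCharacter (alternatingGroup (Fin n)), (∃ y : alternatingGroup (Fin n), orderOf y = 3 ∧ (χ : alternatingGroup (Fin n) → ℂ) y = 0) ∧ ∃ ψ : Cfsg.IrrCharacter (Equiv.Perm (Fin n)), ∀ x : alternatingGroup (Fin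 n), (ψ : Equiv.Perm (Fin n) → ℂ) x = (χ : alternatingGroup (Fin n) → ℂ) x) := by
  obtain ⟨χ, ⟨x, -, h1, h2⟩, h3⟩ := good4 hn
  obtain ⟨χ', ⟨y, h4, h5, h6⟩, h7⟩ := good3 hn
  obtain ⟨j, -, hj⟩ := (Nat.dvd_prime_pow Nat.prime_two (m := 2)).1 (orderOf_dvd_of_pow_eq_one h1)
  have := Fact.mk Nat.prime_three
  exact ⟨⟨χ, ⟨x, ⟨j, hj⟩, h2⟩, h3⟩, χ', ⟨y, orderOf_eq_prime h5 h4, h6⟩, h7⟩

end Cfsg.Agent.S4560
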