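import Cfsg.Statements.S4561
import Cfsg.Agent.PLocal.CT

set_option autoImplicit false
universe u
open Cfsg

namespace Cfsg.Agent.S4561

/-- For every finite solvable group G there is a finite group H with a faithful irreducible character χ whose degree squared equals the index of the centre Z(H) (so χ is fully ramified over the centre), such that G is isomorphic to a subgroup of H/Z(H), the primes dividing the orders of H, of Z(H) and of G are the same, and the order of Z(H) is squarefree. -/
theorem result {G : Type u} [Group G] [Finite G] (hsolv : Group.IsSolvable G) : ∃ (H : Type u) (_ : Group H) (_ : Finite H) (χ : Cfsg.IrrCharacter H), (∀ h : H, (χ : H → ℂ) h = (χ : H → ℂ) 1 → h = 1) ∧ (Cfsg.charDegree (χ : H → ℂ)) ^ 2 = (Subgroup.center H).index ∧ (∃ f : G →* H ⧸ Subgroup.center H, Function.Injective f) ∧ (∀ p : ℕ, p.Prime → ((p ∣ Nat.card H ↔ p ∣ Nat.card G) ∧ (p ∣ Nat.card (Subgroup.center H) ↔ p ∣ Nat.card G))) ∧ Squarefree (Nat.card (Subgroup.center H)) := by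
  obtain ⟨H, _, _, χ, g⟩ := CF.CT.main _ G rfl
  obtain ⟨d, -, hd⟩ := CF.Char.irr_one_eq_nat g.irr
  refine ⟨H, _, inferInstance, ⟨χ, g.irr⟩, fun h hh => ?_, ?_, g.emb, fun p hp => ⟨⟨g.pr p hp,
    fun h => (g.pr' p hp h).trans (Subgroup.card_subgroup_dvd_card _)⟩, fun h => g.pr p hp
      (h.trans (Subgroup.card_subgroup_dvd_card _)), g.pr' p hp⟩, g.sq⟩
  · have := (CF.Char.mem_charKer_iff (CF.Char.irr_isCharacter g.irr)).2 hh
    rwa [g.faith, Subgroup.mem_bot] at this
  · have e := g.deg
    have : Cfsg.charDegree χ = d := by simp [Cfsg.charDegree, hd]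
    rw [hd] at e
    change Cfsg.charDegree χ ^ 2 = _
    rw [this]
    exact_mod_cast e

end Cfsg.Agent.S4561
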