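import Cfsg.Statements.S4566
import Cfsg.Agent.BlockB.Ord1
-- import your own Cfsg.Agent.* helpers here

set_option autoImplicit false
open Cfsg

namespace Cfsg.Agent.S4566

/-- Let N be a central subgroup of the finite group G, ψ a faithful irreducible (hence degree-one) character of N, and χ an irreducible character of G whose restriction to N contains ψ. If g ∈ G and some x ∈ G has commutator x⁻¹ g⁻¹ x g in N but different from 1, then χ g = 0. -/
theorem result {G : Type*} [Group G] [Fintype G] (N : Subgroup G) [Fintype N] (hN : N ≤ Subgroup.center G) (ψ : Cfsg.IrrCharacter ↥N) (hfaith : ∀ n : ↥N, (ψ : ↥N → ℂ) n = (ψ : ↥N → ℂ) 1 → n = 1) (χ : Cfsg.IrrCharacter G) (hover : Cfsg.classInner (fun n : ↥N => (χ : G → ℂ) n) (ψ : ↥N → ℂ) ≠ 0) (g x : G) (hcomm : x⁻¹ * g⁻¹ * x * g ∈ N) (hne : x⁻¹ * g⁻¹ * x * g ≠ 1) : (χ : G → ℂ) g = 0 := by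
  have : N.Normal := CF.Clifford.normal_of_le_center hN
  have hχ := χ.2
  have hc := CF.Char.irr_isCharacter hχ
  have hinv : (CF.Clifford.NormalEmb.sub N).Invariant (ψ : N → ℂ) := fun a => by
    intro n
    rw [CF.Clifford.NormalEmb.sub_c]
    exact congrArg _ (Subtype.ext (by simp [Subgroup.mem_center_iff.1 (hN n.2) a]))
  have h1 := (CF.Clifford.NormalEmb.sub N).res_eq_smul_of_invariant hχ ψ.2 hinv hover
  have h2 : (χ : G → ℂ) g⁻¹ = 0 := by
    refine CF.Clifford.irr_eq_zero_of_conj_eq_mul hχ (z := x⁻¹ * g⁻¹ * x * g) (y := x⁻¹)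
      (CF.Char.center_le_charCenter hχ (hN hcomm)) (fun hk => hne ?_) (by group)
    rw [CF.Char.mem_charKer_iff hc] at hk
    have h3 := congrFun h1 ⟨_, hcomm⟩
    have h4 := congrFun h1 1
    simp only [Pi.smul_apply, smul_eq_mul, map_one] at h3 h4
    have h5 := hfaith ⟨_, hcomm⟩ (mul_left_cancel₀ hover (h3.symm.trans (hk.trans h4)))
    simpa using congrArg Subtype.val h5
  simpa [CF.Char.irr_inv hχ] using h2

end Cfsg.Agent.S4566
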