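import Cfsg.Statements.S4567
import Cfsg.Agent.BlockB.Ord2
-- import your own Cfsg.Agent.* helpers here

set_option autoImplicit false
open Cfsg

namespace Cfsg.Agent.S4567

/-- Let N be a central subgroup of the finite group G and ψ a faithful irreducible (hence degree-one) character of N. Call a coset g N special when every x ∈ G whose commutator x⁻¹ g⁻¹ x g lies in N actually commutes with g (this depends only on the coset). Then the number of irreducible characters of G whose restriction to N contains ψ equals the number of conjugacy classes of G/N consisting of special cosets. -/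
theorem result {G : Type*} [Group G] [Fintype G] (N : Subgroup G) [N.Normal] [Fintype N] (hN : N ≤ Subgroup.center G) (ψ : Cfsg.IrrCharacter ↥N) (hfaith : ∀ n : ↥N, (ψ : ↥N → ℂ) n = (ψ : ↥N → ℂ) 1 → n = 1) : Nat.card {χ : Cfsg.IrrCharacter G // Cfsg.classInner (fun n : ↥N => (χ : G → ℂ) n) (ψ : ↥N → ℂ) ≠ 0} = Nat.card {C : ConjClasses (G ⧸ N) // ∃ g : G, ConjClasses.mk (g : G ⧸ N) = C ∧ ∀ x : G, x⁻¹ * g⁻¹ * x * g ∈ N → x * g = g * x} := by
  classical
  set sp : G → Prop := fun g => ∀ x : G, x⁻¹ * g⁻¹ * x * g ∈ N → x * g = g * x with hsp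
  have h1 : ∀ g, sp g ↔ (Subgroup.centralizer {(g : G ⧸ N)}).comap (QuotientGroup.mk' N) ≤
      Subgroup.centralizer {g} := fun g => forall_congr' fun x => by
    simp only [Subgroup.mem_comap, Subgroup.mem_centralizer_singleton_iff, QuotientGroup.mk'_apply,
      ← QuotientGroup.mk_mul, QuotientGroup.eq, mul_inv_rev]
    rw [← N.inv_mem_iff (x := g⁻¹ * x⁻¹ * (g * x))]
    simp [mul_assoc]
  have h2 : ∀ g, sp g ↔ ∃ g' : G, ConjClasses.mk (g' : G ⧸ N) = ConjClasses.mk (g : G ⧸ N) ∧
      sp g' := fun g => by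
    refine ⟨fun h => ⟨g, rfl, h⟩, fun ⟨g', h, h'⟩ x hx => ?_⟩
    obtain ⟨c, hc⟩ := isConj_iff.1 (ConjClasses.mk_eq_mk_iff_isConj.1 h)
    obtain ⟨c, rfl⟩ := QuotientGroup.mk_surjective c
    rw [← QuotientGroup.mk_inv, ← QuotientGroup.mk_mul, ← QuotientGroup.mk_mul,
      QuotientGroup.eq] at hc
    obtain ⟨z, hz, rfl⟩ : ∃ z ∈ N, g = c * g' * c⁻¹ * z := ⟨_, hc, by group⟩
    have hz' := Subgroup.mem_center_iff.1 (hN hz)
    have h3 := h' (c⁻¹ * x * c) (by
      have := ‹N.Normal›.conj_mem _ hx c⁻¹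
      convert this using 1
      rw [mul_inv_rev _ z, ← Subgroup.mem_center_iff.1 (hN (N.inv_mem hz)), mul_assoc _ _ x,
        mul_assoc _ z⁻¹, ← Subgroup.mem_center_iff.1 (hN (N.inv_mem hz)), hz' (c * g' * c⁻¹)]
      group)
    calc x * (c * g' * c⁻¹ * z) = c * (c⁻¹ * x * c * g') * c⁻¹ * z := by group
      _ = c * g' * c⁻¹ * (x * z) := by rw [h3]; group
      _ = _ := by rw [hz']; group
  have h3 : ∀ g, (Nat.card N : ℂ) * ∑ χ ∈ Finset.univ.filter (fun χ : IrrCharacter G =>
      classInner (fun n : N => (χ : G → ℂ) n) ψ ≠ 0),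
      (χ : G → ℂ) g * (starRingEnd ℂ) ((χ : G → ℂ) g) = Nat.card N *
      if ∃ g' : G, ConjClasses.mk (g' : G ⧸ N) = ConjClasses.mk (QuotientGroup.mk' N g) ∧ sp g' then
        (Nat.card (Subgroup.centralizer {QuotientGroup.mk' N g}) : ℂ) else 0 := fun g => by
    simp only [QuotientGroup.mk'_apply, ← h2]
    split_ifs with h
    · rw [CF.BlockB.Ord.sum_over_central hN ψ.2, Finset.sum_eq_single 1]
      · have h4 : Subgroup.centralizer {g} =
            (Subgroup.centralizer {(g : G ⧸ N)}).comap (QuotientGroup.mk' N) :=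
          le_antisymm (fun x hx => by
            simp only [Subgroup.mem_comap, Subgroup.mem_centralizer_singleton_iff,
              QuotientGroup.mk'_apply, ← QuotientGroup.mk_mul] at hx ⊢
            rw [hx]) ((h1 g).1 h)
        rw [if_pos (by simpa using IsConj.refl g), h4, CF.Solv.card_comap_mk', CF.Char.irr_one_eq_one_of_comm (fun a b => Subtype.ext
          (Subgroup.mem_center_iff.1 (hN b.2) a)) ψ.2]
        simp [mul_comm]
      · intro z _ hz
        rw [if_neg]
        intro hc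
        obtain ⟨c, hc⟩ := isConj_iff.1 hc.symm
        have h5 := h c⁻¹ (by
          rw [inv_inv, show c * g⁻¹ * c⁻¹ = (c * g * c⁻¹)⁻¹ by group, hc,
            ← Subgroup.mem_center_iff.1 (hN z.2)]
          simpa using ‹N.Normal›.conj_mem _ (N.inv_mem z.2) g⁻¹)
        rw [mul_assoc, ← h5] at hc
        exact hz (Subtype.ext (by simpa using hc.symm))
      · simp
    · simp only [hsp, not_forall] at h
      obtain ⟨x, hx, hx'⟩ := h
      rw [Finset.sum_eq_zero fun χ hχ => by
        rw [CF.BlockB.Ord.irr_eq_zero_of_commutator_mem hN ψ.2 hfaith χ.2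
          (Finset.mem_filter.1 hχ).2 hx hx', zero_mul]]
  have h4 := Finset.sum_congr rfl fun g (_ : g ∈ Finset.univ) =>
    mul_left_cancel₀ CF.Char.card_ne_zero_complex (h3 g)
  rw [Finset.sum_comm, Finset.sum_congr rfl (g := fun _ => (Nat.card G : ℂ)) fun χ _ => by
    rw [← CF.Char.card_mul_inner, CF.Char.inner_irr_self χ.2, mul_one],
    CF.Char.sum_comp_surjective _ (QuotientGroup.mk'_surjective N) fun q =>
      if ∃ g' : G, ConjClasses.mk (g' : G ⧸ N) = ConjClasses.mk q ∧ sp g' then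
        (Nat.card (Subgroup.centralizer {q}) : ℂ) else 0, ← Finset.sum_filter, ← Nat.cast_sum,
    ← Nat.cast_sum,
    CF.Char.sum_card_centralizer_filter fun C => ∃ g' : G, ConjClasses.mk (g' : G ⧸ N) = C ∧ sp g',
    QuotientGroup.ker_mk', Finset.sum_const, smul_eq_mul, ← Nat.cast_mul,
    Nat.cast_inj, ← mul_assoc, mul_comm (Nat.card N), ← Subgroup.card_eq_card_quotient_mul_card_subgroup,
    mul_comm] at h4
  rw [← Nat.eq_of_mul_eq_mul_left Nat.card_pos h4, Nat.card_eq_fintype_card, Fintype.card_subtype]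

end Cfsg.Agent.S4567
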