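import Cfsg.Statements.S4574
import Cfsg.Agent.BlockB.Ord1
-- import your own Cfsg.Agent.* helpers here

set_option autoImplicit false
open Cfsg

namespace Cfsg.Agent.S4574

/-- Let χ be an irreducible character of the finite group G, of degree d, and let Z(χ) be the set of elements g with |χ g| = d (the centre of χ). Then χ vanishes on at least (d ^ 2 - 1) · |Z(χ)| elements of G, with equality when every value |χ g| is 0, 1 or d. -/
theorem result {G : Type*} [Group G] [Fintype G] [DecidableEq G] (χ : G → ℂ) (hχ : Cfsg.IsIrrCharacter G χ) : (Cfsg.charDegree χ ^ 2 - 1) * (Finset.univ.filter (fun g : G => ‖χ g‖ = (Cfsg.charDegree χ : ℝ))).card ≤ (Finset.univ.filter (fun g : G => χ g = 0)).card ∧ ((∀ g : G, ‖χ g‖ = 0 ∨ ‖χ g‖ = 1 ∨ ‖χ g‖ = (Cfsg.charDegree χ : ℝ)) → (Cfsg.charDegree χ ^ 2 - 1) * (Finset.univ.filter (fun g : G => ‖χ g‖ = (Cfsg.charDegree χ : ℝ))).card = (Finset.univ.filter (fun g : G => χ g = 0)).card) := by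
  classical
  have hc := CF.Char.irr_isCharacter hχ
  have hd := CF.BlockB.Ord.irr_deg_pos hχ
  have hz : ∀ g, ‖χ g‖ = (charDegree χ : ℝ) ↔ g ∈ CF.Char.charCenter χ := fun g => by
    rw [CF.Char.mem_charCenter_iff hc, CF.BlockB.Ord.norm_one_eq hc]
  have h1 := CF.BlockB.Ord.card_le_sum_norm_sq_compl (CF.Char.gen_of_irr hχ) (CF.Char.charCenter χ)
  have h2 := CF.Char.sum_norm_sq_irr hχ
  rw [← Finset.sum_filter_add_sum_filter_not _ (· ∈ CF.Char.charCenter χ),
    Finset.sum_congr rfl (g := fun _ => (charDegree χ : ℝ) ^ 2) (fun g hg => by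
      rw [(hz g).2 (Finset.mem_filter.1 hg).2]), Finset.sum_const, nsmul_eq_mul] at h2
  have h4 : (Finset.univ.filter fun g => χ g = 0) =
      Finset.univ.filter fun g => g ∉ CF.Char.charCenter χ ∧ χ g = 0 := by
    ext g
    simp only [Finset.mem_filter, Finset.mem_univ, true_and, iff_and_self, ← hz]
    intro h
    rw [h, norm_zero]
    exact_mod_cast hd.ne
  have h5 : Nat.card G = (Finset.univ.filter (· ∈ CF.Char.charCenter χ)).card +
      ((Finset.univ.filter fun g => g ∉ CF.Char.charCenter χ ∧ χ g = 0).card +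
      (Finset.univ.filter fun g => g ∉ CF.Char.charCenter χ ∧ χ g ≠ 0).card) := by
    rw [← Finset.filter_filter, ← Finset.filter_filter, Finset.card_filter_add_card_filter_not,
      Nat.card_eq_fintype_card, Finset.card_filter_add_card_filter_not, Finset.card_univ]
  rw [h5] at h2
  push_cast at h2
  simp only [hz, h4]
  have h6 : 1 ≤ charDegree χ ^ 2 := Nat.one_le_pow _ _ hd
  constructor
  · rw [← Nat.cast_le (α := ℝ)]
    push_cast [Nat.cast_sub h6]
    linarith
  · intro h
    have h7 : ∑ g ∈ Finset.univ.filter (· ∉ CF.Char.charCenter χ), ‖χ g‖ ^ 2 =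
        (Finset.univ.filter fun g => g ∉ CF.Char.charCenter χ ∧ χ g ≠ 0).card := by
      rw [← Finset.filter_filter, Finset.card_filter, Nat.cast_sum]
      refine Finset.sum_congr rfl fun g hg => ?_
      rcases h g with e | e | e
      · simp [norm_eq_zero.1 e]
      · rw [if_pos (by rintro h0; simp [h0] at e), e]; simp
      · exact absurd e (Finset.mem_filter.1 hg).2
    rw [← Nat.cast_inj (R := ℝ)]
    push_cast [Nat.cast_sub h6]
    linarith

end Cfsg.Agent.S4574
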