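import Cfsg.Statements.S4575
import Cfsg.Agent.BlockB.Avg
-- import your own Cfsg.Agent.* helpers here

set_option autoImplicit false
open Cfsg

namespace Cfsg.Agent.S4575

/-- Let B be a 2-block of the finite group G (relative to a maximal ideal M of the algebraic integers containing 2) of defect d with defect group D. Let z be an element of D commuting with every element of D, and let b be a block of the centralizer of z with defect group D that induces B (a major subsection (z, b)). If the number of irreducible characters in B exceeds the 2-regular rank of b by at most three, then B contains at most 2 ^ d irreducible characters. -/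
theorem result {G : Type*} [Group G] [Finite G] (M : Ideal Cfsg.AlgInt) (hM : Cfsg.IsPModular 2 M) (B : Set (Cfsg.IrrCharacter G)) (hB : Cfsg.IsPBlock M B) (D : Subgroup G) (hD : Cfsg.IsDefectGroup 2 M B D) (z : G) (hzD : z ∈ D) (hzc : ∀ d ∈ D, d * z = z * d) (b : Set (Cfsg.IrrCharacter ↥(Subgroup.centralizer ({z} : Set G)))) (hb : Cfsg.IsInducedBlock M (Subgroup.centralizer ({z} : Set G)) b B) (hbD : Cfsg.IsDefectGroup 2 M b (D.subgroupOf (Subgroup.centralizer ({z} : Set G)))) (h : Nat.card B ≤ Cfsg.blockRank 2 b + 3) : Nat.card B ≤ 2 ^ Cfsg.blockDefect 2 B := by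
  classical
  open CF.BlockB in
  have hx := exists_orderOf_of_mem hM.1 (IsDefectGroup.isPGroup hD) hzD
  have hd := blockDefect_eq_of_defectGroup hM hb.1 hB hD (fun d hd => mem_Cen.2 (hzc d hd)) hbD
  rcases eq_or_ne (Cfsg.blockDefect 2 B) 0 with hd0 | hd0
  · rw [(card_eq_one_iff hM hB).2 hd0, hd0, pow_zero]
  rw [← Nat.cast_le (α := ℝ)]
  push_cast
  by_cases h1 : ∃ χ ∈ B, Cfsg.blockHeight 2 B (χ : G → ℂ) = 0 ∧
      cavg 2 b z χ + 1 = 2 ^ Cfsg.blockDefect 2 B
  · obtain ⟨χ, h1, h2, h3⟩ := h1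
    have h4 := card_le_compl_cavg hM hx rfl hb hd hd0 h1 h2
    rwa [hd, Nat.cast_ofNat, sub_eq_of_eq_add' h3.symm, mul_one] at h4
  have h2 := Finset.card_nsmul_le_sum (Finset.univ.filter (· ∈ B))
    (fun χ => 2 ^ Cfsg.blockDefect 2 B - cavg 2 b z χ) 3 fun χ hχ => by
      have hχ := (Finset.mem_filter.1 hχ).2
      have h3 := cavg_le hM hx rfl hb χ
      obtain ⟨d, hd'⟩ := Nat.exists_eq_succ_of_ne_zero hd0
      by_cases h0 : Cfsg.blockHeight 2 B (χ : G → ℂ) = 0
      · obtain ⟨a, ⟨c, rfl⟩, h2⟩ := exists_odd_cavg hM hx rfl hb hχ h0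
        have h4 : 2 * c + 1 + 1 ≠ 2 ^ Cfsg.blockDefect 2 B := fun h3 => h1 ⟨χ, hχ, h0, by
          rw [h2]; exact_mod_cast h3⟩
        rw [h2, hd] at h3
        rw [h2, le_sub_iff_add_le]
        norm_cast at h3 ⊢
        rw [hd', pow_succ] at h3 h4 ⊢
        omega
      · obtain ⟨a, -, h4⟩ := exists_cavg_of_height hM hx rfl hb hd hχ h0
        obtain ⟨ψ, hψ, h5⟩ := exists_height_zero (p := 2) (block_nonempty hM hB)
        have h6 := cavg_lt hM hx rfl hb hχ hψ (fun h => h0 (h ▸ h5)) fun h =>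
          cm_ne_zero_of_major hM hx rfl hb hd hψ hχ h5 (by
            rw [← conj_cm hM (nrm_eSet_le_one hM hb.1), h, map_zero])
        obtain ⟨e, he⟩ := Nat.exists_eq_add_of_le (height_add_two_le hM hB hχ h0)
        obtain ⟨t, ht⟩ := Nat.exists_eq_succ_of_ne_zero h0
        rw [h4, hd] at h6
        rw [h4, le_sub_iff_add_le]
        norm_cast at h6 ⊢
        rw [he, ht] at h6 ⊢
        rw [show 2 ^ (t.succ + 1) * a = 4 * (2 ^ t * a) by rw [Nat.succ_eq_add_one]; ring,
          show 2 ^ (t.succ + 2 + e) = 4 * 2 ^ (t + 1 + e) by rw [Nat.succ_eq_add_one]; ring] at h6 ⊢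
        omega
  rw [Finset.sum_sub_distrib, sum_cavg hM hx rfl hb, Finset.sum_const, ← card_eq_card_filter,
    nsmul_eq_mul, nsmul_eq_mul, hd, Nat.cast_ofNat] at h2
  have h3 : (Nat.card B : ℝ) ≤ Cfsg.blockRank 2 b + 3 := by exact_mod_cast h
  nlinarith [mul_le_mul_of_nonneg_right h3 (by positivity : (0 : ℝ) ≤ 2 ^ Cfsg.blockDefect 2 B)]

end Cfsg.Agent.S4575
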