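import Cfsg.Statements.S4578
import Cfsg.Agent.S0892
import Cfsg.Agent.Nf.O
import Cfsg.Agent.Nf.A2
import Cfsg.Agent.Nf.S

set_option autoImplicit false
open Cfsg

namespace Cfsg.Agent.S4578

/-- Let H be a finite quasisimple group whose central quotient H/Z(H) is isomorphic to the alternating group on n ≥ 5 letters, p any prime, M a maximal ideal of the algebraic integers containing p, and B a p-block of H with defect group D. For every irreducible character χ in B, p raised to the height of χ is at most the index of Z(D) in D, with equality exactly when D is abelian. -/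
theorem result {H : Type*} [Group H] [Finite H] (hq : Cfsg.IsQuasisimple H) (n : ℕ) (hn : 5 ≤ n) (e : H ⧸ Subgroup.center H ≃* alternatingGroup (Fin n)) (p : ℕ) [Fact p.Prime] (M : Ideal Cfsg.AlgInt) (hM : Cfsg.IsPModular p M) (B : Set (Cfsg.IrrCharacter H)) (hB : Cfsg.IsPBlock M B) (D : Subgroup H) (hD : Cfsg.IsDefectGroup p M B D) (χ : Cfsg.IrrCharacter H) (hχ : χ ∈ B) :
    Cfsg.blockHeight p B (χ : H → ℂ) ≤ ((Subgroup.center D).index).factorization p ∧
      (Cfsg.blockHeight p B (χ : H → ℂ) = ((Subgroup.center D).index).factorization p ↔ IsMulCommutative D) := by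
  have hc : commutator H = ⊤ := hq.1.1
  suffices h : CF.Nf.Rob p M H from h B hB D hD χ hχ
  by_cases h6 : n = 6 ∨ n = 7
  · exact CF.Nf.small hM hc h6 e
  have h2 := S0892.result n (by omega) (by omega) (by omega) (Subgroup.center H) le_rfl
    (hc ▸ le_top) e
  have h0 := Nat.card_pos (α := Subgroup.center H)
  rcases (by omega : Nat.card (Subgroup.center H) = 1 ∨ Nat.card (Subgroup.center H) = 2) with
    h1 | h1
  · refine CF.Nf.Rob.congr hM ((QuotientGroup.quotientBot.symm.trans
      (QuotientGroup.quotientMulEquivOfEq (Subgroup.card_eq_one.1 h1).symm)).trans e) ?_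
    by_cases hp : p = 2
    · subst hp; exact CF.Nf.alt_two hM
    · exact CF.Nf.alt_odd hM hp
  obtain ⟨π, t, hd, -⟩ := CF.Recog.exists_dc (H := H) (n := n) ⟨h1, ⟨e⟩, fun L hL => by
    have : L.Normal := L.normal_of_index_eq_two (hL.index_eq_card.trans h1)
    have h3 := Subgroup.Normal.commutator_le_of_self_sup_commutative_eq_top
      hL.symm.sup_eq_top inferInstance
    have h4 := hL.index_eq_card
    rw [hc, top_le_iff] at h3
    rw [h3, h1, Subgroup.index_top] at h4
    omega⟩
  by_cases hp : p = 2
  · subst hp; exact CF.Nf.dc_two hM hd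
  · obtain ⟨m, rfl⟩ : ∃ m, n = m + 3 := ⟨n - 3, by omega⟩
    exact CF.Nf.dc_odd hM hp hd

end Cfsg.Agent.S4578
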