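import Cfsg.Statements.S4580
import Cfsg.Agent.BlockB.Misc1
import Cfsg.Agent.Clifford.Gallagher

set_option autoImplicit false
open Cfsg

namespace Cfsg.Agent.S4580

open CF
open scoped ComplexConjugate

/-- Let N be a normal subgroup of the finite group G, M a maximal ideal of the algebraic integers containing 2, and θ a real-valued irreducible character of N of odd degree that extends to G (some irreducible character of G restricts to θ). Then θ has an extension to G lying in the principal 2-block of G. -/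
theorem result {G : Type*} [Group G] [Finite G] (N : Subgroup G) [N.Normal] (M : Ideal Cfsg.AlgInt) (hM : Cfsg.IsPModular 2 M) (θ : Cfsg.IrrCharacter N) (hreal : ∀ n : N, ((θ : N → ℂ) n).im = 0) (hodd : Odd (Cfsg.charDegree (θ : N → ℂ))) (hext : ∃ η : Cfsg.IrrCharacter G, ∀ n : N, (η : G → ℂ) n = (θ : N → ℂ) n) :
    ∃ η : Cfsg.IrrCharacter G, (∀ n : N, (η : G → ℂ) n = (θ : N → ℂ) n) ∧ η ∈ Cfsg.principalBlock M G := by
  obtain ⟨η, hη⟩ := hext
  have hc := Char.irr_isCharacter η.2
  obtain ⟨lam, h1, h2⟩ := (Clifford.NormalEmb.sub N).exists_linear_of_ext θ.2 hc (Char.char_conj hc)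
    hη (fun n => (congrArg conj (hη n)).trans (Complex.conj_eq_iff_im.2 (hreal n)))
  obtain ⟨a, m, hm, hG⟩ := Nat.exists_eq_two_pow_mul_odd (Nat.card_pos (α := G)).ne'
  obtain ⟨e, he⟩ := hm.add_one
  have hi : IsIrrCharacter G ((fun g => ((lam ^ e) g : ℂ)) * (η : G → ℂ)) :=
    (Clifford.NormalEmb.sub N).irr_mul_ext θ.2 hc hη (Char.irr_linear _) fun n => by
      rw [MonoidHom.pow_apply, h1, map_one, one_pow]
  have h3 : ∀ n : N, ((fun g => ((lam ^ e) g : ℂ)) * (η : G → ℂ)) n = (θ : N → ℂ) n := fun n => by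
    have : lam n = 1 := h1 n
    simp [this, hη]
  refine ⟨⟨_, hi⟩, h3, BlockB.mem_pb_of_inv_stable hM ?_ fun g hg => ?_⟩
  · have h4 : ((fun g => ((lam ^ e) g : ℂ)) * (η : G → ℂ)) 1 = (θ : N → ℂ) 1 := h3 1
    rw [charDegree, Subtype.coe_mk, h4]
    exact hodd.not_two_dvd_nat
  · have h4 : lam g ^ m = 1 := by
      rw [← map_pow, orderOf_dvd_iff_pow_eq_one.1 ((((Nat.Prime.coprime_iff_not_dvd
        Nat.prime_two).2 hg).symm.pow_right a).dvd_of_dvd_mul_left (hG ▸ orderOf_dvd_natCard g)),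
        map_one]
    have h5 : (lam g ^ e)⁻¹ * lam g = lam g ^ e := by
      rw [inv_mul_eq_iff_eq_mul, ← pow_add, ← he, pow_succ, h4, one_mul]
    have h6 : ((fun g => ((lam ^ e) g : ℂ)) * (η : G → ℂ)) g⁻¹ =
        ((fun g => ((lam ^ e) g : ℂ)) * (η : G → ℂ)) g := by
      simp only [Pi.mul_apply, map_inv, MonoidHom.pow_apply]
      rw [Char.char_inv hc, congrFun h2 g, ← mul_assoc, ← Units.val_mul, inv_pow, h5]
    simp only [centralChar, BlockB.centralizer_inv, h6, sub_self, map_zero, zero_lt_one]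

end Cfsg.Agent.S4580
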