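import Mathlib
import Cfsg.Statements.S4582
import Cfsg.Agent.Solv.Cores

set_option autoImplicit false
open Cfsg
open scoped commutatorElement

namespace Cfsg.Agent.S4582


/-- Let N be a normal subgroup of the finite group G, P a Sylow 2-subgroup of G and Q = P ∩ N. Suppose that P/QP' and Q/Q' are elementary abelian (every square of an element of P lies in the subgroup generated by Q and the derived subgroup of P, and every square of an element of Q lies in the derived subgroup of Q), and that the commutator factor group N/N' has odd order. Then P/P' is elementary abelian. -/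
theorem result {G : Type*} [Group G] [Finite G] (N : Subgroup G) [N.Normal] (P : Sylow 2 G)
    (hP : ∀ x ∈ (P : Subgroup G), x ^ 2 ∈ ((P : Subgroup G) ⊓ N) ⊔ ⁅(P : Subgroup G), (P : Subgroup G)⁆)
    (hQ : ∀ x ∈ (P : Subgroup G) ⊓ N, x ^ 2 ∈ ⁅(P : Subgroup G) ⊓ N, (P : Subgroup G) ⊓ N⁆)
    (hodd : Odd (Nat.card (Abelianization N))) :
    ∀ x ∈ (P : Subgroup G), x ^ 2 ∈ ⁅(P : Subgroup G), (P : Subgroup G)⁆ := by
  intro x hx
  let X : Subgroup G := N ⊔ P
  let H : Subgroup X := (P : Subgroup G).subgroupOf X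
  let A := Abelianization (P : Subgroup G)
  let ϕ : H →* A := Abelianization.of.comp
    (Subgroup.subgroupOfEquivOfLe (le_sup_right : (P : Subgroup G) ≤ X)).toMonoidHom
  let V : X →* A := MonoidHom.transfer ϕ
  have hA : IsPGroup 2 A := P.isPGroup'.of_surjective Abelianization.of QuotientGroup.mk_surjective
  have hker : ∀ (y : G) (hy : y ∈ (P : Subgroup G)),
      (Abelianization.of ⟨y, hy⟩ : A) = 1 ↔ y ∈ ⁅(P : Subgroup G), (P : Subgroup G)⁆ := by
    intro y hy
    rw [← MonoidHom.mem_ker, Abelianization.ker_of, ← Subgroup.map_subtype_commutator]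
    exact ⟨fun h => ⟨_, h, rfl⟩, fun ⟨z, hz, h⟩ => (show z = ⟨y, hy⟩ from Subtype.ext h) ▸ hz⟩
  have hVN : ∀ (n : G) (hn : n ∈ N), V ⟨n, Subgroup.mem_sup_left hn⟩ = 1 := by
    intro n hn
    let W : Abelianization N →* A := Abelianization.lift (V.comp (Subgroup.inclusion le_sup_left))
    have h1 : orderOf (W (Abelianization.of ⟨n, hn⟩)) ∣ Nat.card (Abelianization N) :=
      (orderOf_map_dvd _ _).trans (orderOf_dvd_natCard _)
    obtain ⟨k, hk⟩ := IsPGroup.iff_orderOf.mp hA (W (Abelianization.of ⟨n, hn⟩))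
    have h2 := Odd.of_dvd_nat hodd h1
    rw [hk] at h2
    rcases k with _ | k
    · exact orderOf_eq_one_iff.mp hk
    · rw [pow_succ] at h2
      exact absurd h2 (by simp)
  have hV2 : V ⟨x, Subgroup.mem_sup_right hx⟩ ^ 2 = 1 := by
    rw [← map_pow]
    have : (((P : Subgroup G) ⊓ N) ⊔ ⁅(P : Subgroup G), (P : Subgroup G)⁆) ≤ V.ker.map X.subtype := by
      refine sup_le (fun n hn => ⟨_, hVN n hn.2, rfl⟩) (Subgroup.commutator_le.mpr fun a ha b hb =>
        ⟨⁅(⟨a, Subgroup.mem_sup_right ha⟩ : X), ⟨b, Subgroup.mem_sup_right hb⟩⁆, ?_, rfl⟩)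
      rw [SetLike.mem_coe, MonoidHom.mem_ker, map_commutatorElement,
        commutatorElement_eq_one_iff_mul_comm, mul_comm]
    obtain ⟨y, hy, h⟩ := this (hP x hx)
    rw [show (⟨x, Subgroup.mem_sup_right hx⟩ : X) ^ 2 = y from Subtype.ext h.symm]
    exact hy
  have hmain : V ⟨x, Subgroup.mem_sup_right hx⟩ ^ 2 = ((Abelianization.of ⟨x, hx⟩ : A) ^ 2) ^ H.index := by
    set g : X := ⟨x, Subgroup.mem_sup_right hx⟩
    have : Fintype (Quotient (MulAction.orbitRel (Subgroup.zpowers g) (X ⧸ H))) := Fintype.ofFinite _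
    rw [Subgroup.index_eq_sum_minimalPeriod H g, ← Finset.prod_pow_eq_pow_sum,
      MonoidHom.transfer_eq_prod_quotient_orbitRel_zpowers_quot, ← Finset.prod_pow]
    refine Finset.prod_congr rfl fun q _ => ?_
    have key : ∀ (k : ℕ) (a : X) (h : a⁻¹ * g ^ k * a ∈ H),
        ϕ ⟨_, h⟩ ^ 2 = ((Abelianization.of ⟨x, hx⟩ : A) ^ 2) ^ k := by
      rintro k ⟨a, ha⟩ h
      obtain ⟨u, hu, n, hn, rfl⟩ := (CF.Solv.mem_sup_of_le_normalizer
        (Subgroup.le_normalizer_of_normal (H := N))).mp (show a ∈ (P : Subgroup G) ⊔ N from sup_comm N (P : Subgroup G) ▸ ha)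
      have h' : (u * n)⁻¹ * x ^ k * (u * n) ∈ (P : Subgroup G) := h
      have h1 : u⁻¹ * x ^ k * u ∈ (P : Subgroup G) :=
        Subgroup.mul_mem _ (Subgroup.mul_mem _ (Subgroup.inv_mem _ hu) (Subgroup.pow_mem _ hx k)) hu
      have h2 : (u⁻¹ * x ^ k * u)⁻¹ * ((u * n)⁻¹ * x ^ k * (u * n)) ∈ (P : Subgroup G) ⊓ N := by
        refine ⟨Subgroup.mul_mem _ (Subgroup.inv_mem _ h1) h', ?_⟩
        have : (u⁻¹ * x ^ k * u)⁻¹ * ((u * n)⁻¹ * x ^ k * (u * n)) =
          (u⁻¹ * x ^ k * u)⁻¹ * n⁻¹ * (u⁻¹ * x ^ k * u)⁻¹⁻¹ * n := by group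
        rw [this]
        exact N.mul_mem (‹N.Normal›.conj_mem _ (N.inv_mem hn) _) hn
      have h3 : (Abelianization.of ⟨_, h2.1⟩ : A) ^ 2 = 1 := by
        rw [← map_pow]
        exact (hker _ _).mpr (Subgroup.commutator_mono inf_le_left inf_le_left (hQ _ h2))
      have h4 : (⟨_, h'⟩ : (P : Subgroup G)) = (⟨u, hu⟩⁻¹ * ⟨x, hx⟩ ^ k * ⟨u, hu⟩) * ⟨_, h2.1⟩ :=
        Subtype.ext (by simp [mul_assoc])
      change (Abelianization.of ⟨_, h'⟩ : A) ^ 2 = _
      rw [h4, map_mul, mul_pow, h3, map_mul, map_mul, map_inv, map_pow, mul_one, inv_mul_cancel_comm,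
        ← pow_mul, ← pow_mul, mul_comm]
    exact key _ _ _
  rw [hV2, eq_comm, ← orderOf_dvd_iff_pow_eq_one] at hmain
  obtain ⟨k, hk⟩ := IsPGroup.iff_orderOf.mp hA ((Abelianization.of ⟨x, hx⟩ : A) ^ 2)
  rw [← hker _ (Subgroup.pow_mem _ hx 2)]
  change (Abelianization.of (⟨x, hx⟩ ^ 2) : A) = 1
  rw [map_pow]
  rcases k with _ | k
  · exact orderOf_eq_one_iff.mp hk
  · exact absurd (((dvd_pow_self 2 k.succ_ne_zero).trans (hk ▸ hmain)).trans
      (Subgroup.relIndex_dvd_index_of_le le_sup_right)) P.not_dvd_index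

end Cfsg.Agent.S4582
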