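import Cfsg.Statements.S4583
import Cfsg.Agent.Block.Prin
import Cfsg.Agent.Clifford.Ind
import Cfsg.Agent.BlockB.Misc1

set_option autoImplicit false
open Cfsg

namespace Cfsg.Agent.S4583

open CF.Block CF Subgroup

/-- Let N be a normal subgroup of the finite group G, p a prime, M a maximal ideal of the algebraic integers containing p, and P a Sylow p-subgroup of G. Let θ be an irreducible character of N of degree prime to p lying in the principal p-block of N, and suppose θ extends to the subgroup NP (some irreducible character of NP restricts to θ). Then some irreducible character χ of G of degree prime to p in the principal p-block of G lies over θ (θ is a constituent of the restriction of χ to N). -/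
theorem result {G : Type*} [Group G] [Finite G] (N : Subgroup G) [N.Normal] (p : ℕ) [Fact p.Prime] (M : Ideal Cfsg.AlgInt) (hM : Cfsg.IsPModular p M) (P : Sylow p G)
    (θ : Cfsg.IrrCharacter N) (hθ : θ ∈ Cfsg.principalBlock M N) (hdeg : ¬ p ∣ Cfsg.charDegree (θ : N → ℂ))
    (hext : ∃ η : Cfsg.IrrCharacter ↥(N ⊔ (P : Subgroup G)), ∀ n : N, (η : ↥(N ⊔ (P : Subgroup G)) → ℂ) (Subgroup.inclusion le_sup_left n) = (θ : N → ℂ) n) :
    ∃ χ : Cfsg.IrrCharacter G, χ ∈ Cfsg.principalBlock M G ∧ ¬ p ∣ Cfsg.charDegree (χ : G → ℂ) ∧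
      haveI := Fintype.ofFinite N; Cfsg.classInner (fun n : N => (χ : G → ℂ) n) (θ : N → ℂ) ≠ 0 := by
  classical
  have := Fintype.ofFinite G
  letI := Fintype.ofFinite N
  set T := N ⊔ (P : Subgroup G) with hT
  obtain ⟨η, hη⟩ := hext
  have := Fintype.ofFinite T
  have hres : (fun n : N => (η : T → ℂ) ⟨n, (le_sup_left : N ≤ T) n.2⟩) = θ := funext hη
  have hη0 : η ∈ Cfsg.principalBlock M T := by
    refine mem_pb_of_over_sub hM le_sup_left (le_normalizer_of_normal' _ _) ?_ hθ ?_
    · intro x hx hxp
      exact mem_of_mem_sup_of_reg P.isPGroup' (le_normalizer_of_normal' _ _)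
        (by rwa [sup_comm]) hxp
    · rw [hres, Char.inner_irr_self θ.2]; exact one_ne_zero
  have hη1 : (η : T → ℂ) 1 = (θ : N → ℂ) 1 := by rw [← hres]; rfl
  have hdη : ¬ p ∣ Cfsg.charDegree (η : T → ℂ) := by
    have : Cfsg.charDegree (η : T → ℂ) = Cfsg.charDegree (θ : N → ℂ) := by
      unfold Cfsg.charDegree; rw [hη1]
    rwa [this]
  have hv : BlockB.v M (Cfsg.classInner (BlockB.tilde p (η : T → ℂ)) (Char.oneIrr T : T → ℂ)) =
      1 := by
    rw [BlockB.v_inner_tilde_of_height_zero_left hM BlockB.isPBlock_principalBlock hη0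
      (BlockB.oneIrr_mem_principalBlock hM) (BlockB.blockHeight_of_not_dvd _ hdη)]
    simp
  have hfac : (Nat.card T).factorization p = (Nat.card G).factorization p := by
    have h1 := (isSyl_sylow P).card_eq
    have h2 := ((isSyl_sylow P).of_le (le_sup_right : (P : Subgroup G) ≤ T) le_top).card_eq
    rw [h1, card_top] at h2
    exact (Nat.pow_right_injective (Fact.out : p.Prime).two_le h2).symm
  have hgen := Char.gen_indFun T (Char.gen_of_irr η.2)
  have key : Cfsg.classInner (BlockB.tilde p (Cfsg.indFun T (η : T → ℂ)))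
      (Char.oneIrr G : G → ℂ) =
      Cfsg.classInner (BlockB.tilde p (η : T → ℂ)) (Char.oneIrr T : T → ℂ) := by
    rw [BlockB.inner_tilde_comm hgen (Char.gen_of_irr (Char.oneIrr G).2),
      BlockB.inner_tilde_comm (Char.gen_of_irr η.2) (Char.gen_of_irr (Char.oneIrr T).2),
      Char.inner_indFun_right _ _ (BlockB.tilde_classFun (Char.irr_isClassFunction (Char.oneIrr G).2))]
    congr 1
    funext x
    simp only [BlockB.tilde_eq, ← hfac, Char.coe_oneIrr, orderOf_coe]
    rfl
  obtain ⟨χ, hχ, h0, h1⟩ := BlockB.exists_height_zero_of_unit hM BlockB.isPBlock_principalBlock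
    (θ := Cfsg.indFun T (η : T → ℂ)) (Char.indFun_isClassFunction _ _)
    (fun ξ => BlockB.v_inner_gen_le_one hgen (Char.gen_of_irr ξ.2))
    (BlockB.oneIrr_mem_principalBlock hM) (by
      rw [BlockB.omega_dual_eq_div, key]; simpa using hv)
  refine ⟨χ, hχ, ?_, ?_⟩
  · rw [BlockB.height_zero_iff hχ, BlockB.minExp_principal hM] at h0
    intro hd
    exact ((Fact.out : p.Prime).factorization_pos_of_dvd (BlockB.irr_charDegree_ne_zero χ) hd).ne' h0
  · have h2 : Cfsg.classInner (fun x : T => (χ : G → ℂ) x) (η : T → ℂ) ≠ 0 := by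
      rw [← Char.inner_indFun_right _ _ (Char.irr_isClassFunction χ.2), Ne,
        Char.inner_eq_zero_comm]
      intro h; rw [h] at h1; simp at h1
    exact Clifford.inner_comp_ne_zero_of_constituent (inclusion (le_sup_left : N ≤ T))
      (Char.char_restrict (Char.irr_isCharacter χ.2) T) η.2 (Char.irr_isCharacter θ.2) h2
      (by rw [show (fun x => (η : T → ℂ) (inclusion le_sup_left x)) = θ from hres,
        Char.inner_irr_self θ.2]; exact one_ne_zero)

end Cfsg.Agent.S4583
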