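import Cfsg.Statements.S4584
import Cfsg.Agent.Fgs1.Extra
-- import your own Cfsg.Agent.* helpers here

set_option autoImplicit false
open Cfsg

namespace Cfsg.Agent.S4584

/-- Let p be a prime and P a group of order p^4. Then the derived subgroup P' has order p if and only if the centre Z(P) has index p^2 in P. -/
theorem result {P : Type*} [Group P] [Finite P] (p : ℕ) [Fact p.Prime] (hP : Nat.card P = p ^ 4) :
    Nat.card (commutator P) = p ↔ (Subgroup.center P).index = p ^ 2 := by
  have hp := (Fact.out : p.Prime)
  by_cases h : IsMulCommutative P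
  · have h1 : Subgroup.center P = ⊤ := by
      rw [eq_top_iff]
      exact fun x _ => Subgroup.mem_center_iff.2 fun y => h.is_comm.comm y x
    rw [(commutator_eq_bot_iff_center_eq_top P).2 h1, h1, Subgroup.card_bot, Subgroup.index_top]
    exact iff_of_false hp.one_lt.ne (one_lt_pow₀ hp.one_lt two_ne_zero).ne
  · obtain ⟨A, hA, hi⟩ := CF.Fgs1.exists_abelian_of_card_pow_four hP
    rw [CF.Fgs1.index_center_eq (IsPGroup.of_card hP) h hA hi, sq, Nat.mul_right_inj hp.ne_zero]

end Cfsg.Agent.S4584
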