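import Mathlib
import Cfsg.Agent.Fgs2.MaxClass
import Cfsg.Statements.S4585

set_option autoImplicit false
open Cfsg

namespace Cfsg.Agent.S4585

/-- Let p be a prime and P a group of order p^4. Then P' has index p^2 in P if and only if P has maximal nilpotency class, that is, nilpotency class exactly 3. -/
theorem result {P : Type*} [Group P] [Finite P] (p : ℕ) [Fact p.Prime] (hP : Nat.card P = p ^ 4) :
    (commutator P).index = p ^ 2 ↔ Group.nilpotencyClass P = 3 := by
  have hp' := IsPGroup.of_card hP
  have hp : p.Prime := Fact.out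
  rw [show 3 = 4 - 1 by rfl, CF.Fgs2.nilpotencyClass_eq_iff hP (by norm_num)]
  refine ⟨fun h h1 => ?_, fun h => CF.Fgs2.index_lcs_of_maxClass hP (by norm_num) h (r := 1) le_rfl
    (by norm_num)⟩
  have h2 : Nat.card (commutator P) = p ^ 2 := by
    have := (commutator P).index_mul_card
    rw [h, hP, show 4 = 2 + 2 by rfl, pow_add] at this
    exact Nat.eq_of_mul_eq_mul_left (pow_pos hp.pos 2) this
  have hna : ¬ IsMulCommutative P := by
    intro hc
    rw [(commutator_eq_bot_iff P).2 hc, Subgroup.card_bot] at h2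
    exact (Nat.one_lt_pow two_ne_zero hp.one_lt).ne h2
  obtain ⟨A, hA, hAi⟩ := CF.Fgs1.exists_abelian_of_card_pow_four hP
  have h3 := CF.Fgs1.index_center_eq hp' hna hA hAi
  have h4 : commutator P ≤ Subgroup.center P := by
    have : ⁅commutator P, ⊤⁆ = ⊥ := h1
    rw [Subgroup.commutator_eq_bot_iff_le_centralizer] at this
    simpa [Subgroup.centralizer_univ] using this
  have h5 := Subgroup.index_dvd_of_le h4
  rw [h3, h2, h, ← pow_succ', Nat.pow_dvd_pow_iff_le_right hp.one_lt] at h5
  omega

end Cfsg.Agent.S4585
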