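import Cfsg.Statements.S4586
import Cfsg.Agent.Fgs1.Extra
-- import your own Cfsg.Agent.* helpers here

set_option autoImplicit false
open Cfsg
open scoped commutatorElement

namespace Cfsg.Agent.S4586

/-- Let p be a prime, P a finite p-group and N a normal subgroup of P of index p. For x ∈ P write c(x) for the number of elements n of N whose commutator x n x⁻¹ n⁻¹ lies in the derived subgroup N' (so c(x)/#N' is the order of the centralizer of x acting on N/N'). Then [P : P'] = p² if and only if c(x) = p·#N' for every x ∈ P outside N, and also if and only if c(x) = p·#N' for some x ∈ P outside N. -/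
theorem result {P : Type*} [Group P] [Finite P] (p : ℕ) [Fact p.Prime] (hP : IsPGroup p P) (N : Subgroup P) [N.Normal] (hN : N.index = p) :
    ((commutator P).index = p ^ 2 ↔ ∀ x : P, x ∉ N →
        Nat.card {n : N // x * n * x⁻¹ * (n : P)⁻¹ ∈ (commutator N).map N.subtype} = p * Nat.card (commutator N)) ∧
    ((commutator P).index = p ^ 2 ↔ ∃ x : P, x ∉ N ∧
        Nat.card {n : N // x * n * x⁻¹ * (n : P)⁻¹ ∈ (commutator N).map N.subtype} = p * Nat.card (commutator N)) := by
  have hp := (Fact.out : p.Prime)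
  have key : ∀ x : P, x ∉ N → p * Nat.card {n : N // x * n * x⁻¹ * (n : P)⁻¹ ∈
      (commutator N).map N.subtype} = (commutator P).index * Nat.card (commutator N) := by
    intro x hx
    let φ : N →* N := (MulAut.conjNormal x : MulAut N).toMonoidHom
    have hφ : ∀ n : N, (φ n : P) = x * n * x⁻¹ := fun _ => rfl
    let f : N →* Abelianization N := Abelianization.of.comp φ / Abelianization.of
    have hf : ∀ n, f n = Abelianization.of (φ n * n⁻¹) := fun n => by
      simp [f, div_eq_mul_inv]
    have h1 : Nat.card {n : N // x * n * x⁻¹ * (n : P)⁻¹ ∈ (commutator N).map N.subtype} =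
        Nat.card f.ker := Nat.card_congr (Equiv.subtypeEquivRight fun n => by
      rw [MonoidHom.mem_ker, hf, ← MonoidHom.mem_ker, Abelianization.ker_of,
        ← Subgroup.mem_map_iff_mem N.subtype_injective]
      rfl)
    let K := f.range.comap Abelianization.of
    have h2 : Nat.card K = Nat.card (commutator N) * Nat.card f.range :=
      CF.Fgs1.card_comap_mk' (commutator N) f.range
    have hK : commutator N ≤ K := fun c hc => by
      rw [← Abelianization.ker_of, MonoidHom.mem_ker] at hc
      exact ⟨1, by rw [map_one, hc]⟩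
    have htop := CF.Fgs1.sup_zpowers_eq_top (hN ▸ hp) hx
    have hn : (K.map N.subtype).Normal := by
      rw [← Subgroup.normalizer_eq_top_iff, eq_top_iff, ← htop, sup_le_iff, Subgroup.zpowers_le]
      refine ⟨fun n hn => Subgroup.mem_normalizer_fintype ?_, Subgroup.mem_normalizer_fintype ?_⟩
      · rintro _ ⟨k, ⟨m, hk⟩, rfl⟩
        exact ⟨⟨n, hn⟩ * k * ⟨n, hn⟩⁻¹, ⟨m, by simp [hk]⟩, rfl⟩
      · rintro _ ⟨k, ⟨m, hk⟩, rfl⟩
        refine ⟨φ k, ⟨φ m, ?_⟩, rfl⟩
        rw [← Abelianization.map_of, ← hk, hf, hf, Abelianization.map_of, map_mul φ, map_inv φ]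
    have h3 : K.map N.subtype = commutator P := by
      refine le_antisymm ?_ ?_
      · rintro _ ⟨k, ⟨m, hk⟩, rfl⟩
        rw [hf, ← inv_mul_eq_one, ← map_inv, ← map_mul, ← MonoidHom.mem_ker,
          Abelianization.ker_of] at hk
        have h4 : N.subtype ((φ m * m⁻¹)⁻¹ * k) ∈ commutator P :=
          Subgroup.commutator_mono le_top le_top
            (Subgroup.map_commutator ⊤ ⊤ N.subtype ▸ Subgroup.mem_map_of_mem N.subtype hk)
        rw [map_mul, map_inv] at h4
        exact (Subgroup.mul_mem_cancel_left _ (inv_mem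
          (Subgroup.commutator_mem_commutator (Subgroup.mem_top x) (Subgroup.mem_top m)))).1 h4
      · let q := QuotientGroup.mk' (K.map N.subtype)
        have hq : ∀ a b : P, ⁅a, b⁆ ∈ K.map N.subtype ↔ Commute (q a) (q b) := fun a b => by
          rw [← commutatorElement_eq_one_iff_commute, ← map_commutatorElement]
          exact (QuotientGroup.eq_one_iff _).symm
        have hc : ∀ a, (∀ n ∈ N, Commute (q a) (q n)) → Commute (q a) (q x) →
            ∀ b, Commute (q a) (q b) := fun a h1 h2 b => by
          have : (⊤ : Subgroup P) ≤ (Subgroup.centralizer {q a}).comap q := by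
            rw [← htop, sup_le_iff, Subgroup.zpowers_le]
            exact ⟨fun n hn => Subgroup.mem_centralizer_singleton_iff.2 (h1 n hn).symm,
              Subgroup.mem_centralizer_singleton_iff.2 h2.symm⟩
          exact (Subgroup.mem_centralizer_singleton_iff.1 (this (Subgroup.mem_top b))).symm
        have hxn : ∀ n ∈ N, Commute (q x) (q n) := fun n hn =>
          (hq _ _).1 ⟨φ ⟨n, hn⟩ * ⟨n, hn⟩⁻¹, ⟨_, hf _⟩, rfl⟩
        rw [commutator, Subgroup.commutator_le]
        refine fun a _ b _ => (hq a b).2 (hc a (fun n hn => (hc n (fun m hm => (hq _ _).1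
          ⟨⁅(⟨n, hn⟩ : N), ⟨m, hm⟩⁆, hK (Subgroup.commutator_mem_commutator (Subgroup.mem_top _)
            (Subgroup.mem_top _)), rfl⟩) (hxn n hn).symm a).symm) (hc x hxn (.refl _) a).symm b)
    have h4 := (commutator P).card_mul_index
    have h5 := f.ker.card_mul_index
    rw [← h3, Subgroup.card_map_of_injective N.subtype_injective, h2, h3, ← N.card_mul_index, hN,
      ← h5, Subgroup.index_ker] at h4
    rw [h1]
    refine Nat.eq_of_mul_eq_mul_right (Nat.card_pos (α := f.range)) ?_
    linear_combination -h4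
  have key2 : ∀ x : P, x ∉ N → ((commutator P).index = p ^ 2 ↔ Nat.card {n : N //
      x * n * x⁻¹ * (n : P)⁻¹ ∈ (commutator N).map N.subtype} = p * Nat.card (commutator N)) := by
    intro x hx
    rw [← Nat.mul_right_inj hp.ne_zero (a := p) (b := Nat.card _), key x hx, ← mul_assoc, ← sq,
      Nat.mul_left_inj Nat.card_pos.ne']
  obtain ⟨x, hx⟩ : ∃ x, x ∉ N := by
    by_contra! h
    rw [(Subgroup.eq_top_iff' N).2 h, Subgroup.index_top] at hN
    exact hp.one_lt.ne hN
  exact ⟨⟨fun h y hy => (key2 y hy).1 h, fun h => (key2 x hx).2 (h x hx)⟩,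
    ⟨fun h => ⟨x, hx, (key2 x hx).1 h⟩, fun ⟨y, hy, h⟩ => (key2 y hy).2 h⟩⟩

end Cfsg.Agent.S4586
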