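import Mathlib
import Cfsg.Statements.S4591
import Cfsg.Agent.Char.Deg
import Cfsg.Agent.Char.Triple
import Cfsg.Agent.Clifford.GlaubApp
import Cfsg.Agent.Clifford.Extend
import Cfsg.Agent.Transfer.Residual
import Cfsg.Agent.BG.B9

set_option autoImplicit false
open Cfsg

namespace Cfsg.Agent.S4591

open Cfsg Subgroup CF.Char CF.Clifford
open scoped commutatorElement

variable {p : ℕ}

theorem exists_constituent {G : Type*} [Group G] [Fintype G] {χ : G → ℂ} (h : IsCharacter G χ) :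
    ∀ n : ℕ, χ 1 = n → ¬ p ∣ n →
      ∃ ψ, IsIrrCharacter G ψ ∧ classInner χ ψ ≠ 0 ∧ ∃ m : ℕ, ψ 1 = m ∧ ¬ p ∣ m := by
  refine char_induction (P := fun χ => ∀ n : ℕ, χ 1 = n → ¬ p ∣ n →
      ∃ ψ, IsIrrCharacter G ψ ∧ classInner χ ψ ≠ 0 ∧ ∃ m : ℕ, ψ 1 = m ∧ ¬ p ∣ m) ?_ ?_ ?_ h
  · intro n h1 h2
    have : n = 0 := by simpa using h1.symm
    exact absurd (this ▸ dvd_zero p) h2
  · intro ψ hψ n h1 h2
    exact ⟨ψ, hψ, by rw [inner_irr_self hψ]; exact one_ne_zero, n, h1, h2⟩
  · intro φ ψ hφ hψ i1 i2 n h1 h2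
    obtain ⟨a, ha⟩ := char_one_eq_nat hφ
    obtain ⟨b, hb⟩ := char_one_eq_nat hψ
    have hn : n = a + b := by
      rw [Pi.add_apply, ha, hb] at h1; exact_mod_cast h1.symm
    have key : ∀ θ, IsIrrCharacter G θ → (classInner φ θ ≠ 0 ∨ classInner ψ θ ≠ 0) →
        classInner (φ + ψ) θ ≠ 0 := by
      intro θ hθ h
      obtain ⟨c, hc⟩ := inner_char_eq_nat hφ (irr_isCharacter hθ)
      obtain ⟨d, hd⟩ := inner_char_eq_nat hψ (irr_isCharacter hθ)
      rw [CF.Char.inner_add_left, hc, hd]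
      rw [hc, hd] at h
      have : c + d ≠ 0 := by
        rcases h with h | h
        · have : c ≠ 0 := by exact_mod_cast h
          omega
        · have : d ≠ 0 := by exact_mod_cast h
          omega
      exact_mod_cast this
    by_cases hp : p ∣ a
    · obtain ⟨θ, h3, h4, h5⟩ := i2 b hb fun h => h2 (hn ▸ dvd_add hp h)
      exact ⟨θ, h3, key θ h3 (Or.inr h4), h5⟩
    · obtain ⟨θ, h3, h4, h5⟩ := i1 a ha hp
      exact ⟨θ, h3, key θ h3 (Or.inl h4), h5⟩

/-- invariant characters of `N` versus `C_N(P)` -/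
theorem inv_iff {G : Type*} [Group G] [Finite G] (hp : p.Prime) {N P : Subgroup G} [hN : N.Normal]
    (hP : IsPGroup p P) (hcop : (Nat.card N).Coprime p) :
    N ⊓ centralizer (P : Set G) = ⊥ ↔ ∀ θ : N → ℂ, IsIrrCharacter N θ →
      (∀ s ∈ P, ∀ g g' : N, (g' : G) = s * g * s⁻¹ → θ g' = θ g) → θ = fun _ => 1 := by
  haveI := Fact.mk hp
  have hn : ∀ s ∈ P, ∀ g ∈ N, s * g * s⁻¹ ∈ N := fun s _ g hg => hN.conj_mem g hg s
  obtain ⟨k, hk⟩ := hP.exists_card_eq
  have B := bij_pgroup hp hP N (ambAut N P hn) (inclusion (inf_le_left :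
    N ⊓ centralizer (P : Set G) ≤ N)) (hk ▸ (hcop.symm.pow_left k)) (inclusion_injective _)
    (fix_amb hn rfl _)
  constructor
  · intro h θ hθ hi
    obtain ⟨β, hβ, -, r⟩ := B.ex θ hθ ((invA_amb hn).mpr hi)
    obtain ⟨β', hβ', -, r'⟩ := B.ex _ irr_one ((invA_amb hn).mpr fun _ _ _ _ _ => rfl)
    have e : ∀ γ : ↥(N ⊓ centralizer (P : Set G)) → ℂ, IsIrrCharacter _ γ → γ = fun _ => 1 :=
      fun γ hγ => irr_eq_one_of_charKer_eq_top hγ (by
        haveI : Subsingleton ↥(N ⊓ centralizer (P : Set G)) := by rw [h]; infer_instance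
        exact Subsingleton.elim _ _)
    rw [e β hβ, ← e β' hβ'] at r
    exact B.inj _ _ β' hθ irr_one hβ' ((invA_amb hn).mpr hi) ((invA_amb hn).mpr fun _ _ _ _ _ => rfl)
      trivial r r'
  · intro h
    rw [eq_bot_iff]
    intro g hg
    by_contra hg1
    obtain ⟨β, hβ, hgβ⟩ := exists_irr_not_mem_charKer
      (g := (⟨g, hg⟩ : ↥(N ⊓ centralizer (P : Set G)))) fun e => hg1 (congrArg Subtype.val e)
    obtain ⟨θ, hθ, i, r⟩ := B.surj β hβ trivial
    obtain ⟨θ', hθ', i', r'⟩ := B.surj _ irr_one trivial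
    rw [h θ hθ ((invA_amb hn).mp i), ← h θ' hθ' ((invA_amb hn).mp i')] at r
    rw [B.uniq _ _ _ hθ' hβ irr_one i' trivial trivial r r', charKer_one] at hgβ
    exact hgβ trivial

theorem commutator_le {G : Type*} [Group G] {N P W : Subgroup G} [N.Normal] (hW : W ≤ N ⊔ P) :
    _root_.commutator W ≤ (N ⊔ ⁅P, P⁆).subgroupOf W := by
  have h1 : ⁅N ⊔ P, N ⊔ P⁆ ≤ N ⊔ ⁅P, P⁆ := by
    have e : (N ⊔ P).map (QuotientGroup.mk' N) = P.map (QuotientGroup.mk' N) := by
      rw [Subgroup.map_sup, (map_eq_bot_iff N).mpr (by rw [QuotientGroup.ker_mk']), bot_sup_eq]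
    have h2 : ⁅N ⊔ P, N ⊔ P⁆ ≤ (⁅P, P⁆.map (QuotientGroup.mk' N)).comap (QuotientGroup.mk' N) := by
      rw [← map_le_iff_le_comap, map_commutator, map_commutator, e]
    rwa [comap_map_eq, QuotientGroup.ker_mk', sup_comm _ N] at h2
  intro x hx
  rw [mem_subgroupOf]
  apply h1
  apply commutator_mono hW hW
  rw [← map_subtype_commutator]
  exact mem_map_of_mem _ hx


/-- Let G be a finite group, p a prime and P a Sylow p-subgroup, and let N be the largest normal subgroup of G in which P has trivial centralizer (N is normal with C_N(P) = 1 and contains every normal subgroup with that property). Then the intersection of the kernels of the irreducible characters of G of degree prime to p is the normal core in G of the subgroup N·P' (P' the derived subgroup of P). In particular, when G has no nontrivial normal subgroup of order prime to p, that intersection is the normal core of P'. -/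
theorem result {G : Type*} [Group G] [Finite G] (p : ℕ) [Fact p.Prime] (P : Sylow p G) (N : Subgroup G) [N.Normal]
    (hN : N ⊓ Subgroup.centralizer ((P : Subgroup G) : Set G) = ⊥)
    (hmax : ∀ L : Subgroup G, L.Normal → L ⊓ Subgroup.centralizer ((P : Subgroup G) : Set G) = ⊥ → L ≤ N) :
    {g : G | ∀ χ : Cfsg.IrrCharacter G, ¬ p ∣ Cfsg.charDegree (χ : G → ℂ) → (χ : G → ℂ) g = (χ : G → ℂ) 1} =
      ((N ⊔ ⁅(P : Subgroup G), (P : Subgroup G)⁆).normalCore : Set G) := by
  classical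
  have hp : p.Prime := Fact.out
  haveI := Fintype.ofFinite G
  set K : Subgroup G := ⨅ (χ : IrrCharacter G) (_ : ¬ p ∣ charDegree (χ : G → ℂ)),
    charKer (χ : G → ℂ) with hK
  have memK : ∀ g, g ∈ K ↔ ∀ χ : G → ℂ, IsIrrCharacter G χ → ¬ p ∣ charDegree χ → g ∈ charKer χ := by
    intro g
    simp only [hK, mem_iInf]
    exact ⟨fun h χ hχ => h ⟨χ, hχ⟩, fun h χ => h χ.1 χ.2⟩
  have hKn : K.Normal := ⟨fun n hn g => (memK _).mpr fun χ hχ hd =>
    (charKer_normal (irr_isClassFunction hχ)).conj_mem n ((memK n).mp hn χ hχ hd) g⟩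
  have hset : {g : G | ∀ χ : IrrCharacter G, ¬ p ∣ charDegree (χ : G → ℂ) →
      (χ : G → ℂ) g = (χ : G → ℂ) 1} = (K : Set G) := by
    ext g
    rw [SetLike.mem_coe, memK]
    exact ⟨fun h χ hχ hd => (mem_charKer_iff (irr_isCharacter hχ)).mpr (h ⟨χ, hχ⟩ hd),
      fun h χ hd => (mem_charKer_iff (irr_isCharacter χ.2)).mp (h χ.1 χ.2 hd)⟩
  rw [hset, SetLike.coe_set_eq]
  have hidx : ∀ {M W : Subgroup G} [M.Normal], W ≤ M ⊔ P → ∃ k, (M.subgroupOf W).index = p ^ k := by
    intro M W _ hW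
    obtain ⟨k, hk⟩ := P.isPGroup'.exists_card_eq
    have h1 : M.relIndex W ∣ M.relIndex (M ⊔ P) := CF.BG.relIndex_dvd_of_norm hW
      (by rw [normalizer_eq_top]; exact le_top)
    rw [relIndex_sup_left] at h1
    obtain ⟨j, -, hj⟩ := (Nat.dvd_prime_pow hp).mp (hk ▸ h1.trans (relIndex_dvd_card _ _))
    exact ⟨j, hj⟩
  apply le_antisymm
  · rw [normal_le_normalCore]
    set W := K ⊔ (P : Subgroup G) with hW
    haveI := Fintype.ofFinite W
    have hWi : ¬ p ∣ W.index := fun h => P.not_dvd_index (h.trans (index_dvd_of_le le_sup_right))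
    have h1 : ∀ ψ : W → ℂ, IsIrrCharacter W ψ → ∀ m : ℕ, ψ 1 = m → ¬ p ∣ m →
        K.subgroupOf W ≤ charKer ψ := by
      intro ψ hψ m hm hd
      obtain ⟨χ, hχ, hi, n, hn, hnd⟩ := exists_constituent (p := p)
        (char_indFun W (irr_isCharacter hψ)) (W.index * m) (by rw [indFun_one, hm]; push_cast; rfl)
        (fun h => ((Nat.Prime.dvd_mul hp).mp h).elim hWi hd)
      rw [inner_indFun_left _ _ (irr_isClassFunction hχ), Ne, inner_eq_zero_comm] at hi
      refine le_trans ?_ (charKer_le_of_inner_ne_zero (char_restrict (irr_isCharacter hχ) W) hψ hi)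
      rw [charKer_restrict (irr_isCharacter hχ)]
      exact fun g hg => (memK g).mp hg χ hχ (by rwa [charDegree_of_eq hn])
    obtain ⟨k, hk⟩ := hidx (M := K) (W := W) le_rfl
    obtain ⟨N0, hN0, hN1, j, hj⟩ := npc_of_cd (G := W) hp (by
      intro d hd hd1
      obtain ⟨ψ, hψ, e⟩ := mem_cd.mp hd
      by_contra hpd
      obtain ⟨φ, hφ, e'⟩ := exists_irr_quotient hψ _ (h1 ψ hψ d e hpd)
      have h2 := cd_dvd_card (cd_of_irr hφ (by rw [← e, e']; rfl))
      rw [← index_eq_card, hk] at h2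
      obtain ⟨i, -, hi⟩ := (Nat.dvd_prime_pow hp).mp h2
      rcases i with _ | i
      · exact hd1 hi
      · exact hpd (hi ▸ dvd_pow_self p (Nat.succ_ne_zero i)))
    have hnpc : HasNormalPComplement p W := CF.Transfer.hasNPC_iff_exists_normal.mpr
      ⟨N0, hN0, ((Nat.Prime.coprime_iff_not_dvd hp).mpr hN1).symm, j, hj⟩
    have hcop := CF.Transfer.hasNPC_subgroup_iff_coprime.mp hnpc
    have hK0 : CF.Transfer.pRes p W ≤ K := CF.Transfer.pRes_le_of_relIndex
      (by rw [normalizer_eq_top]; exact le_top) hk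
    have e0 : CF.Transfer.pRes p K = CF.Transfer.pRes p W := CF.Transfer.pRes_eq_of_le hK0 le_sup_left
    set K0 := CF.Transfer.pRes p W with hK0d
    haveI hK0n : K0.Normal := e0 ▸ inferInstance
    have hK0W : K0 ≤ W := CF.Transfer.pRes_le W
    have hWK0 : W ≤ K0 ⊔ P := by
      refine sup_le ?_ le_sup_right
      have h2 := (CF.BG.syl_sylow_top P).normal_inf (CF.BG.normalIn_top.mpr hKn)
      have h3 : CF.BG.NPC p K := ((CF.BG.npc_iff hp).mpr hnpc).mono le_sup_left
      rw [← (h3.sdprod h2).sup]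
      refine sup_le_sup ?_ inf_le_right
      exact CF.Transfer.le_pRes_of_coprime ((CF.BG.piNat_compl_single_iff_coprime hp).mp
        (CF.BG.O_pi _ _)) ((CF.BG.O_le _ _).trans le_sup_left)
    have hC : K0 ⊓ centralizer ((P : Subgroup G) : Set G) = ⊥ := by
      rw [inv_iff hp P.isPGroup' hcop]
      intro θ hθ hi
      let E : NormalEmb K0 W := NormalEmb.ofLe hK0W fun t _ n hn => hK0n.conj_mem n hn t
      obtain ⟨i, hi'⟩ := hidx hWK0
      obtain ⟨ψ, hψ, e⟩ := E.exists_ext_of_coprime_card hθ (by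
        intro g n
        obtain ⟨a, ha, b, hb, e⟩ := mem_sup_of_normal_left.mp (hWK0 g.2)
        rw [← hi b hb n ⟨_, hK0n.conj_mem n n.2 b⟩ rfl,
          ← classFun_conj (irr_isClassFunction hθ) ⟨_, hK0n.conj_mem n n.2 b⟩ ⟨a, ha⟩]
        congr 1
        ext
        have := congrArg Subtype.val (E.ι_c g n)
        change ((E.c g n : K0) : G) = g * n * (g : G)⁻¹ at this
        rw [this, ← e]
        simp [mul_assoc]) (by
        change ((inclusion hK0W).range.index).Coprime _
        rw [inclusion_range, hi']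
        exact (hcop.symm.pow_left i))
      obtain ⟨d, hd, hd'⟩ := exists_cd hθ
      have h3 := h1 ψ hψ d (by rw [← hd', ← e, map_one]) fun h =>
        (Nat.Prime.coprime_iff_not_dvd hp).mp hcop.symm (h.trans (cd_dvd_card hd))
      refine irr_eq_one_of_charKer_eq_top hθ (eq_top_iff.mpr fun n _ => ?_)
      rw [mem_charKer_iff (irr_isCharacter hθ), ← e, ← e, map_one]
      exact (mem_charKer_iff (irr_isCharacter hψ)).mp (h3 (hK0 n.2))
    refine le_trans ?_ (sup_le_sup_right (hmax K0 hK0n hC) _)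
    intro g hg
    by_contra hgM
    have hc := commutator_le hWK0
    haveI : ((K0 ⊔ ⁅(P : Subgroup G), (P : Subgroup G)⁆).subgroupOf W).Normal :=
      Normal.of_commutator_le _ hc
    obtain ⟨ψ, hψ, h2, h3⟩ := exists_irr_le_charKer_not_mem
      ((K0 ⊔ ⁅(P : Subgroup G), (P : Subgroup G)⁆).subgroupOf W) (g := ⟨g, mem_sup_left hg⟩) hgM
    exact h3 (h1 ψ hψ 1 (by rw [(irr_one_eq_one_iff hψ).mpr (hc.trans h2), Nat.cast_one])
      hp.not_dvd_one hg)
  · intro g hg
    rw [memK]
    intro χ hχ hd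
    set W := N ⊔ (P : Subgroup G) with hW
    haveI := Fintype.ofFinite W
    set L := (N ⊔ ⁅(P : Subgroup G), (P : Subgroup G)⁆).normalCore with hL
    haveI := Fintype.ofFinite L
    have hLW : L ≤ W := (normalCore_le _).trans (sup_le_sup_left (CF.BG.der_le _) _)
    obtain ⟨n, -, hn⟩ := irr_one_eq_nat hχ
    obtain ⟨ψ, hψ, hi, m, hm, hmd⟩ := exists_constituent (p := p)
      (char_restrict (irr_isCharacter hχ) W) n hn (by rwa [charDegree_of_eq hn] at hd)
    have hcop : (Nat.card N).Coprime p := by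
      have h2 := (CF.BG.syl_sylow_top P).normal_inf (CF.BG.normalIn_top.mpr ‹N.Normal›)
      rw [← CF.BG.piNat_compl_single_iff_coprime hp, CF.BG.piNat_compl_single hp,
        ← h2.syl_eq_bot_iff hp]
      by_contra h3
      exact (CF.BG.syl_sylow_top P).pi.inf_cent_ne_bot h2.pi (CF.BG.norm_inf
        (by rw [normalizer_eq_top]; exact le_top) (CF.BG.le_norm_self _)) h3
        (CF.BG.eq_bot_mono hN (inf_le_inf_right _ inf_le_left))
    obtain ⟨k, hk⟩ := hidx (M := N) (W := W) le_rfl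
    have h1 := irr_res_of_coprime (N := N.subgroupOf W) hψ hm
      (hk ▸ ((Nat.Prime.coprime_iff_not_dvd hp).mpr hmd).symm.pow_right k)
    have h2 := irr_comp_equiv h1 (subgroupOfEquivOfLe (le_sup_left : N ≤ W)).symm
    have h3 := (inv_iff hp P.isPGroup' hcop).mp hN _ h2 (by
      intro s hs a b e
      refine Eq.trans ?_ (classFun_conj (irr_isClassFunction hψ) _ ⟨s, mem_sup_right hs⟩)
      congr 1
      exact Subtype.ext e)
    have h4 : ψ 1 = 1 := by simpa using congrFun h3 1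
    have h5 : (N ⊔ ⁅(P : Subgroup G), (P : Subgroup G)⁆).subgroupOf W ≤ charKer ψ := by
      rw [subgroupOf_sup le_sup_left ((CF.BG.der_le _).trans le_sup_right)]
      refine sup_le (fun a ha => ?_) (le_trans ?_ ((irr_one_eq_one_iff hψ).mp h4))
      · rw [mem_charKer_iff (irr_isCharacter hψ), h4]
        exact congrFun h3 ⟨a, ha⟩
      · rw [CF.BG.subgroupOf_comm le_sup_right le_sup_right]
        exact commutator_mono le_top le_top
    refine le_charKer_of_inner_ne_zero hχ L ?_ hg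
    refine inner_comp_comp_ne_zero W.subtype (inclusion hLW) (irr_isCharacter hχ) hψ char_const_one
      hi ?_
    have : (fun x : L => ψ (inclusion hLW x)) = fun _ => 1 := by
      ext x
      rw [← h4]
      exact (mem_charKer_iff (irr_isCharacter hψ)).mp (h5 (show (x : G) ∈ _ from normalCore_le _ x.2))
    rw [this, inner_one_one]
    exact one_ne_zero

end Cfsg.Agent.S4591
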