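import Mathlib
import Cfsg.Statements.S4602
import Cfsg.Agent.Solv.PiSep
import Cfsg.Agent.Solv.Nilpotent
import Cfsg.Agent.Solv.Hall

set_option autoImplicit false
open Cfsg

namespace Cfsg.Agent.S4602


/-- Let G be a finite p-solvable group and q a prime different from p. Some Sylow p-subgroup of G normalizes some Sylow q-subgroup of G if and only if q does not divide the order of G/O_{p'}(G), the quotient by the largest normal subgroup of order prime to p. -/
theorem result {G : Type*} [Group G] [Finite G] (p q : ℕ) [Fact p.Prime] [Fact q.Prime] (hpq : p ≠ q) (hsolv : Cfsg.IsPSolvable p G) :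
    (∃ (P : Sylow p G) (Q : Sylow q G), (P : Subgroup G) ≤ Subgroup.normalizer ((Q : Subgroup G) : Set G)) ↔ ¬ q ∣ (Cfsg.pPrimeCore p G).index := by
  have hp : p.Prime := Fact.out
  have hq : q.Prime := Fact.out
  set K := Cfsg.pPrimeCore p G
  constructor
  · rintro ⟨P, Q, h⟩
    have hs := QuotientGroup.mk'_surjective K
    let P' := P.mapSurjective hs
    let Q' := Q.mapSurjective hs
    have h1 : (P' : Subgroup (G ⧸ K)) ≤ Subgroup.normalizer ((Q' : Subgroup (G ⧸ K)) : Set (G ⧸ K)) :=
      (Subgroup.map_mono h).trans (Subgroup.le_normalizer_map _)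
    have h2 : pCore p (G ⧸ K) ⊓ Q' = ⊥ := disjoint_iff.mp
      (IsPGroup.disjoint_of_ne p q hpq _ _ CF.Solv.pCore_isPGroup Q'.isPGroup')
    have h3 : (Q' : Subgroup (G ⧸ K)) ≤ Subgroup.centralizer (pCore p (G ⧸ K) : Set (G ⧸ K)) := by
      rw [← Subgroup.commutator_eq_bot_iff_le_centralizer, eq_bot_iff, ← h2]
      refine le_inf (Subgroup.commutator_le_right _ _) ?_
      rw [Subgroup.commutator_le]
      intro a ha b hb
      have := (Subgroup.mem_normalizer_iff.mp (h1 (CF.Solv.pCore_le_sylow P' hb)) a⁻¹).mp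
        ((Q' : Subgroup (G ⧸ K)).inv_mem ha)
      rw [commutatorElement_def, mul_assoc, mul_assoc, ← mul_assoc b]
      exact Subgroup.mul_mem _ ha this
    have h4 := h3.trans (CF.Solv.centralizer_pCore_le_of_isPSolvable
      (CF.Solv.isPSolvable_quotient hsolv K) CF.Solv.pPrimeCore_quotient_pPrimeCore)
    rw [inf_eq_right.mpr h4] at h2
    have := Q'.not_dvd_index
    rwa [h2, Subgroup.index_bot] at this
  · intro h
    obtain ⟨Q⟩ : Nonempty (Sylow q G) := inferInstance
    have hQK : (Q : Subgroup G) ≤ K := CF.Solv.le_of_coprime_index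
      (CF.Solv.coprime_card_of_isPGroup Q.isPGroup' ((Nat.Prime.coprime_iff_not_dvd hq).mpr h).symm)
    have h1 := CF.Solv.normalizer_inf_sup_eq_top Q K
    rw [inf_eq_left.mpr hQK] at h1
    obtain ⟨P, hP⟩ := CF.Solv.exists_sylow_le_of_not_dvd_index (p := p)
      (H := Subgroup.normalizer ((Q : Subgroup G) : Set G)) (by
        rw [← Subgroup.relIndex_top_right, ← h1,
          CF.Solv.relIndex_sup_eq_relIndex_of_le_normalizer Subgroup.le_normalizer_of_normal]
        exact fun h => CF.Solv.not_dvd_card_pPrimeCore (h.trans (Subgroup.relIndex_dvd_card _ _)))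
    exact ⟨P, Q, hP⟩

end Cfsg.Agent.S4602
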