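import Mathlib
import Cfsg.Statements.S4601
import Cfsg.Agent.S4602
import Cfsg.Agent.SolvStr.Kegel
import Cfsg.Agent.Coprime.Basic
import Cfsg.Agent.Fgs1.ClassSize
import Cfsg.Agent.Solv.CyclicMax

set_option autoImplicit false
open Cfsg

namespace Cfsg.Agent.S4601

universe u in
open Subgroup CF.Solv CF.Coprime in
theorem key (p q : ℕ) [hp : Fact p.Prime] [hq : Fact q.Prime] (G : Type u) [Group G] [Finite G] :
    IsPSolvable q G → ∀ Q : Sylow q G,
      (∀ y ∈ (Q : Subgroup G), ¬ p ∣ (centralizer ({y} : Set G)).index) →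
      ¬ p ∣ (normalizer ((Q : Subgroup G) : Set G)).index := by
  refine group_induction (P := fun G _ _ => IsPSolvable q G → ∀ Q : Sylow q G,
      (∀ y ∈ (Q : Subgroup G), ¬ p ∣ (centralizer ({y} : Set G)).index) →
      ¬ p ∣ (normalizer ((Q : Subgroup G) : Set G)).index) ?_ G
  intro G _ _ ih hs Q h
  rcases subsingleton_or_nontrivial G with hG | hG
  · rw [Subsingleton.elim (normalizer _) ⊤, index_top, Nat.dvd_one]
    exact hp.out.ne_one
  have step : ∀ (N : Subgroup G) [N.Normal], N ≠ ⊥ → ¬ p ∣ (normalizer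
      (((Q : Subgroup G).map (QuotientGroup.mk' N) : Subgroup (G ⧸ N)) : Set (G ⧸ N))).index := by
    intro N _ hN
    refine ih (G ⧸ N) (card_quotient_lt hN) (isPSolvable_quotient hs N)
      (Q.mapSurjective (QuotientGroup.mk'_surjective N)) ?_
    rintro _ ⟨y, hy, rfl⟩ hd
    exact h y hy (hd.trans (CF.Fgs1.index_centralizer_map_dvd (QuotientGroup.mk'_surjective N) y))
  rcases (isPSolvable_iff_isPiSep.mp hs).piCore_ne_bot with h0 | h0
  · rw [← pCore_eq_piCore] at h0
    have := step _ h0
    rwa [← index_comap_mk', comap_normalizer_eq_of_surjective _ (QuotientGroup.mk'_surjective _),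
      comap_map_mk', sup_eq_left.mpr (pCore_le_sylow Q)] at this
  rw [← pPrimeCore_eq_piCore hq.out] at h0
  set N := pPrimeCore q G
  have hcop : ∀ A : Subgroup G, A ≤ Q → (Nat.card A).Coprime (Nat.card N) := fun A hA =>
    coprime_card_of_isPGroup (Q.isPGroup'.to_le hA) pPrimeCore_coprime
  have hsol : ∀ A : Subgroup G, A ≤ Q → Group.IsSolvable A := fun A hA => by
    haveI := (Q.isPGroup'.to_le hA).isNilpotent
    infer_instance
  have h1 := step _ h0
  rw [← map_mk'_normalizer N Q (hcop _ le_rfl) (Or.inl (hsol _ le_rfl)), index_map_mk'] at h1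
  rw [← relIndex_mul_index (le_sup_left : _ ≤ normalizer ((Q : Subgroup G) : Set G) ⊔ N),
    relIndex_sup_eq_relIndex_of_le_normalizer le_normalizer_of_normal, hp.out.dvd_mul, not_or]
  refine ⟨?_, h1⟩
  obtain ⟨P, hP, hQP⟩ := exists_invariant_isSylowOf Q N le_normalizer_of_normal (hcop _ le_rfl)
    (Or.inl (hsol _ le_rfl)) p
  have h2 : P ≤ centralizer ((Q : Subgroup G) : Set G) := by
    rw [le_centralizer_iff]
    intro y hy
    have hy' : zpowers y ≤ Q := zpowers_le.mpr hy
    have h3 := IsSylowOf.inf_centralizer (zpowers y) N le_normalizer_of_normal (hcop _ hy')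
      (Or.inl (hsol _ hy')) p hP (hy'.trans hQP)
    have h4 : centralizer (zpowers y : Set G) = centralizer {y} := by
      ext x; rw [mem_centralizer_zpowers_iff, mem_centralizer_singleton_iff]
    rw [h4] at h3
    have h5 : IsSylowOf p (P ⊓ centralizer {y}) N := by
      refine ⟨inf_le_left.trans hP.le, h3.isPGroup, ?_⟩
      rw [← relIndex_mul_relIndex _ _ _ h3.le inf_le_left, hp.out.dvd_mul, not_or, inf_relIndex_left]
      exact ⟨h3.not_dvd, fun hd => h y hy
        (hd.trans (CF.Fgs1.relIndex_dvd_index_of_normal_right _ _))⟩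
    have h6 := h5.eq_of_le inf_le_left hP.le hP.isPGroup
    intro x hx
    rw [h6] at hx
    exact mem_centralizer_singleton_iff.mp hx.2
  exact fun hd => hP.not_dvd (hd.trans (relIndex_dvd_of_le_left _
    (h2.trans (centralizer_le_normalizer _))))

/-- Let p and q be primes and G a finite group that is p-solvable or q-solvable, in which no q-element has conjugacy class size divisible by p. Then some Sylow p-subgroup of G normalizes some Sylow q-subgroup of G. -/
theorem result {G : Type*} [Group G] [Finite G] (p q : ℕ) [Fact p.Prime] [Fact q.Prime] (hsolv : Cfsg.IsPSolvable p G ∨ Cfsg.IsPSolvable q G)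
    (h : ∀ y : G, (∃ k : ℕ, orderOf y = q ^ k) → ¬ p ∣ (Subgroup.centralizer ({y} : Set G)).index) :
    ∃ (P : Sylow p G) (Q : Sylow q G), (P : Subgroup G) ≤ Subgroup.normalizer ((Q : Subgroup G) : Set G) := by
  have hp : p.Prime := Fact.out
  have hq : q.Prime := Fact.out
  obtain ⟨Q⟩ : Nonempty (Sylow q G) := inferInstance
  have hQ : ∀ y ∈ (Q : Subgroup G), ∃ k, orderOf y = q ^ k := fun y hy => by
    obtain ⟨k, hk⟩ := IsPGroup.iff_orderOf.mp Q.isPGroup' ⟨y, hy⟩
    exact ⟨k, by rw [← hk, Subgroup.orderOf_mk]⟩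
  by_cases hpq : p = q
  · subst hpq
    exact ⟨Q, Q, Subgroup.le_normalizer⟩
  rcases hsolv with hs | hs
  · refine (Cfsg.Agent.S4602.result p q hpq hs).mpr ?_
    have : (Q : Subgroup G) ≤ pPrimeCore p G := by
      intro y hy
      obtain ⟨P, hP⟩ := CF.Solv.exists_sylow_le_of_not_dvd_index (h y (hQ y hy))
      obtain ⟨k, hk⟩ := hQ y hy
      refine CF.SolvStr.mem_pPrimeCore_of_centralizes_sylow hs P
        (fun x hx => Subgroup.mem_centralizer_singleton_iff.mp (hP hx)) ?_
      rw [hk]
      exact Nat.Coprime.pow_left _ ((Nat.coprime_primes hq hp).mpr (Ne.symm hpq))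
    exact CF.Solv.not_dvd_index_of_sylow_le Q this
  · obtain ⟨P, hP⟩ := CF.Solv.exists_sylow_le_of_not_dvd_index
      (key p q G hs Q fun y hy => h y (hQ y hy))
    exact ⟨P, Q, hP⟩

end Cfsg.Agent.S4601
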