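import Cfsg.Statements.S4604
import Cfsg.Agent.Block.Count
import Cfsg.Agent.Char.More
import Cfsg.Agent.Fgs2.Basic

set_option autoImplicit false
open Cfsg

namespace Cfsg.Agent.S4604

open CF CF.Block Cfsg
open CF.BlockB (v Cen)
open scoped ComplexConjugate

theorem isConj_of_congr {G : Type*} [Group G] [Finite G] {p : ℕ} (hp : p.Prime) {a b : G}
    (ha : ¬ p ∣ orderOf a) (hb : ¬ p ∣ orderOf b) (h : ∀ χ : IrrCharacter G, ∃ c : ℂ,
      IsIntegral ℤ c ∧ (χ : G → ℂ) a - (χ : G → ℂ) b = p * c) : IsConj a b := by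
  classical
  by_contra hab
  obtain ⟨M, hM⟩ := BlockB.exists_isPModular hp
  obtain ⟨P, hP, hPC, hc⟩ := BlockB.exists_sylow_centralizer hp a
  have := Fintype.ofFinite P
  have key : ∀ c : G, ¬ p ∣ orderOf c → ∑ χ : IrrCharacter G,
      ((Nat.card P : ℂ)⁻¹ * ∑ u : P, (χ : G → ℂ) (a * u)) * conj ((χ : G → ℂ) c) =
      (Nat.card P : ℂ)⁻¹ * ∑ χ : IrrCharacter G, (χ : G → ℂ) a * conj ((χ : G → ℂ) c) := by
    intro c hc
    rw [← BlockB.avg_eq_of_vanish hp (Ψ := fun g => ∑ χ : IrrCharacter G,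
      (χ : G → ℂ) g * conj ((χ : G → ℂ) c)) (fun g hg => Char.sum_irr_mul_conj_of_not_isConj
        fun h => hc (Fgs2.IsConj_orderOf_eq h ▸ hg)) ha P hP hPC, Finset.sum_comm, Finset.mul_sum]
    simp only [mul_assoc, Finset.sum_mul]
  have h1 := key a ha
  have h2 := key b hb
  rw [Char.sum_irr_mul_conj_of_isConj (IsConj.refl a)] at h1
  rw [Char.sum_irr_mul_conj_of_not_isConj hab, mul_zero] at h2
  have h3 : v M ((Nat.card P : ℂ)⁻¹ * Nat.card (Cen a)) = 1 := by
    rw [map_mul, map_inv₀, BlockB.v_natCast hM (Nat.card_pos (α := Cen a)).ne', hc, Nat.cast_pow,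
      map_pow, inv_mul_cancel₀ (BlockB.vp_pow_ne_zero hM _)]
  refine h3.not_lt ?_
  rw [← h1, ← sub_zero (∑ _, _), ← h2, ← Finset.sum_sub_distrib]
  refine BlockB.v_sum_lt_one fun χ _ => ?_
  obtain ⟨c, h4, h5⟩ := h χ
  rw [← mul_sub, ← map_sub, h5, map_mul conj, map_natCast]
  exact BlockB.v_mul_lt_one_right (BlockB.v_le_one_of_isIntegral M
    (BlockB.isIntegral_avg (Char.irr_isCharacter χ.2) a P hPC)) (BlockB.v_mul_lt_one_left
      (BlockB.v_p_lt_one hM) (BlockB.v_le_one_of_isIntegral M (h4.map (starRingEnd ℂ).toIntAlgHom)))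

theorem pow_eq {G : Type*} [Group G] [Finite G] {p : ℕ} (hp : p.Prime) {x x' : G}
    (h1 : ∃ k : ℕ, orderOf (x * x'⁻¹) = p ^ k) (h2 : Commute (x * x'⁻¹) x') :
    x ^ p ^ (Nat.card G).factorization p = x' ^ p ^ (Nat.card G).factorization p := by
  obtain ⟨k, hk⟩ := h1
  have h3 := orderOf_dvd_natCard (x * x'⁻¹)
  rw [hk, hp.pow_dvd_iff_le_factorization Nat.card_pos.ne'] at h3
  conv_lhs => rw [← inv_mul_cancel_right x x', h2.mul_pow,
    orderOf_dvd_iff_pow_eq_one.1 (hk ▸ pow_dvd_pow p h3), one_mul]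

/-- Let G be a finite group, p a prime and p^a the p-part of the order of G. Let x, y ∈ G and let x′, y′ be their p-regular parts: x′ has order prime to p, commutes with x·x′⁻¹, and x·x′⁻¹ has p-power order (likewise for y). Then x′ and y′ are conjugate in G if and only if for every irreducible character χ of G the algebraic integer χ(x)^(p^a) − χ(y)^(p^a) is p times an algebraic integer. -/
theorem result {G : Type*} [Group G] [Finite G] (p : ℕ) [Fact p.Prime] (x y x' y' : G)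
    (hx : (∃ k : ℕ, orderOf (x * x'⁻¹) = p ^ k) ∧ Commute (x * x'⁻¹) x' ∧ ¬ p ∣ orderOf x')
    (hy : (∃ k : ℕ, orderOf (y * y'⁻¹) = p ^ k) ∧ Commute (y * y'⁻¹) y' ∧ ¬ p ∣ orderOf y') :
    IsConj x' y' ↔ ∀ χ : Cfsg.IrrCharacter G, ∃ γ : Cfsg.AlgInt,
      (χ : G → ℂ) x ^ (p ^ (Nat.card G).factorization p) - (χ : G → ℂ) y ^ (p ^ (Nat.card G).factorization p) = (p : ℂ) * (γ : ℂ) := by
  have hp : p.Prime := Fact.out
  have h1 := pow_eq hp hx.1 hx.2.1
  have h2 := pow_eq hp hy.1 hy.2.1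
  set q := p ^ (Nat.card G).factorization p with hq
  have h3 := fun (χ : IrrCharacter G) g =>
    Char.char_pow_prime_pow (Char.irr_isCharacter χ.2) hp ((Nat.card G).factorization p) g
  refine ⟨fun h χ => ?_, fun h => ?_⟩
  · obtain ⟨c, hc, h4⟩ := h3 χ x
    obtain ⟨d, hd, h5⟩ := h3 χ y
    refine ⟨⟨c - d, hc.sub hd⟩, ?_⟩
    rw [h4, h5, ← hq, h1, h2, Char.classFun_of_isConj (Char.irr_isClassFunction χ.2) (h.pow q)]
    ring
  · have h4 := isConj_of_congr hp (a := x' ^ q) (b := y' ^ q)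
      (fun h => hx.2.2 (h.trans (orderOf_pow_dvd q))) (fun h => hy.2.2 (h.trans (orderOf_pow_dvd q)))
      fun χ => by
        obtain ⟨c, hc, h4⟩ := h3 χ x
        obtain ⟨d, hd, h5⟩ := h3 χ y
        obtain ⟨γ, hγ⟩ := h χ
        refine ⟨γ - c + d, (IsIntegral.sub γ.2 hc).add hd, ?_⟩
        rw [h4, h5, ← hq, h1, h2] at hγ
        linear_combination hγ
    have h5 : q.Coprime (orderOf (x', y')) := by
      rw [Prod.orderOf_mk]
      refine ((Nat.Prime.coprime_iff_not_dvd hp).2 fun h => ?_).pow_left _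
      exact (hp.dvd_lcm.1 h).elim hx.2.2 hy.2.2
    obtain ⟨r, hr⟩ := exists_pow_eq_self_of_coprime h5
    have h6 := h4.pow r
    rwa [show (x' ^ q) ^ r = x' from congrArg Prod.fst hr,
      show (y' ^ q) ^ r = y' from congrArg Prod.snd hr] at h6

end Cfsg.Agent.S4604
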