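import Cfsg.Statements.S4607
import Cfsg.Agent.S4648

set_option autoImplicit false
open Cfsg

namespace Cfsg.Agent.S4607

open CF.Block CF Subgroup

/-- Let G be a finite group, p a prime, M a maximal ideal of the algebraic integers containing p, and B a p-block of G with defect group D. Then B contains exactly two irreducible characters if and only if D has order 2. -/
theorem result {G : Type*} [Group G] [Finite G] (p : ℕ) [Fact p.Prime] (M : Ideal Cfsg.AlgInt) (hM : Cfsg.IsPModular p M) (B : Set (Cfsg.IrrCharacter G)) (hB : Cfsg.IsPBlock M B) (D : Subgroup G) (hD : Cfsg.IsDefectGroup p M B D) : Nat.card B = 2 ↔ Nat.card D = 2 := by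
  have := BlockB.charP_k hM
  have h2 := BlockB.card_defectGroup hM hB hD
  have h0 := BlockB.blockRank_pos (p := p) hM.1 (BlockB.block_nonempty hM hB)
  obtain ⟨e, he⟩ := ((isDefectGroup_iff hM hB D).1 hD).exists_maxPair (isBlk_eb hM hB)
  refine ⟨fun h => ?_, fun h => ?_⟩
  · have hd : blockDefect p B ≠ 0 := fun h1 => by
      rw [h1, pow_zero] at h2
      have h3 := (fS_of_cyc hM hB he (isCyclic_of_card_dvd_prime (p := p)
        (h2 ▸ one_dvd p))).card_eq
      rw [h2, BlockB.blockRank_eq_one_of_defect_zero hM hB h1, h] at h3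
      simp at h3
    have h3 := BlockB.blockRank_lt_card hM hB hd
    rw [← h]
    exact (Agent.S4648.result p M hM B hB D hD (by
      rintro rfl
      exact (Nat.one_lt_pow hd hM.1.one_lt).ne (by rw [← h2, card_bot])) (by omega) (by omega)).2.1
  · have : Fact (Nat.Prime 2) := ⟨Nat.prime_two⟩
    have hc : IsCyclic D := isCyclic_of_prime_card h
    have hfs := fS_of_cyc hM hB he hc
    have h3 := hfs.dvd_sub_one
    rw [h, Nat.dvd_one] at h3
    rw [card_of_nil_comm hM hB he hfs.comm (hfs.nil_of_card_eq_one h3), h]

end Cfsg.Agent.S4607
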