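import Cfsg.Statements.S4609
import Cfsg.Agent.Crit.K3d
import Cfsg.Agent.S4607
-- import your own Cfsg.Agent.* helpers here

set_option autoImplicit false
open Cfsg

namespace Cfsg.Agent.S4609

/-- Let G be a finite group, p a prime, M a maximal ideal of the algebraic integers containing p, and B a p-block of G with defect group D containing exactly three irreducible characters. Suppose the number of height-zero characters of B equals the number of height-zero characters of its Brauer correspondent b, the block of N_G(D) with defect group D inducing B (as the Alperin–McKay conjecture predicts). Then D has order 3. -/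
theorem result {G : Type*} [Group G] [Finite G] (p : ℕ) [Fact p.Prime] (M : Ideal Cfsg.AlgInt) (hM : Cfsg.IsPModular p M) (B : Set (Cfsg.IrrCharacter G)) (hB : Cfsg.IsPBlock M B) (D : Subgroup G) (hD : Cfsg.IsDefectGroup p M B D) (hk : Nat.card B = 3)
    (b : Set (Cfsg.IrrCharacter (Subgroup.normalizer (D : Set G)))) (hbB : Cfsg.IsInducedBlock M (Subgroup.normalizer (D : Set G)) b B)
    (hbD : Cfsg.IsDefectGroup p M b (D.subgroupOf (Subgroup.normalizer (D : Set G))))
    (hAM : Nat.card {χ : Cfsg.IrrCharacter G // χ ∈ B ∧ Cfsg.blockHeight p B (χ : G → ℂ) = 0} =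
           Nat.card {ψ : Cfsg.IrrCharacter (Subgroup.normalizer (D : Set G)) // ψ ∈ b ∧ Cfsg.blockHeight p b (ψ : Subgroup.normalizer (D : Set G) → ℂ) = 0}) :
    Nat.card D = 3 := by
  have h1 : D ≤ Subgroup.normalizer (D : Set G) := Subgroup.le_normalizer
  have h2 := CF.Crit.Good.key' hM hbB.1 hbD (by
    rw [← hAM, ← hk]
    exact Nat.card_le_card_of_injective (fun χ => ⟨χ.1, χ.2.1⟩)
      fun a b e => Subtype.ext (congrArg Subtype.val e :))
  rw [Nat.card_congr (Subgroup.subgroupOfEquivOfLe h1).toEquiv] at h2
  have h3 := Nat.card_pos (α := D)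
  have h4 := (Cfsg.Agent.S4607.result p M hM B hB D hD).2
  have h5 : Nat.card D ≠ 1 := fun e => by
    rw [CF.BlockB.card_defectGroup hM hB hD, Nat.pow_eq_one, or_iff_right hM.1.ne_one] at e
    obtain ⟨χ, rfl⟩ := id hB
    rw [(CF.BlockB.defect_eq_zero_iff hM hB (CF.BlockB.mem_blockOf_self hM χ)).1 e] at hk
    simp at hk
  omega

end Cfsg.Agent.S4609
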