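import Cfsg.Statements.S4611
import Cfsg.Agent.Block.Ito

set_option autoImplicit false
open Cfsg

namespace Cfsg.Agent.S4611

open CF.Block CF Subgroup

/-- Let G be a finite solvable group and π a nonempty set of primes, each dividing the order of G; fix for each p in π a maximal ideal M p of the algebraic integers containing p. Then the only irreducible character lying in the principal p-block for every p in π is the principal character if and only if G is generated by the subgroups O_{p'}(G), p in π (the largest normal subgroups of order prime to p). -/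
theorem result {G : Type*} [Group G] [Finite G] [Group.IsSolvable G] (π : Set ℕ) (hπ : ∀ p ∈ π, p.Prime ∧ p ∣ Nat.card G) (hne : π.Nonempty) (M : ℕ → Ideal Cfsg.AlgInt) (hM : ∀ p ∈ π, Cfsg.IsPModular p (M p)) :
    (∀ χ : Cfsg.IrrCharacter G, (∀ p ∈ π, χ ∈ Cfsg.principalBlock (M p) G) → (χ : G → ℂ) = fun _ => 1) ↔
      ⨆ p ∈ π, Cfsg.pPrimeCore p G = ⊤ := by
  have key : ∀ χ : Cfsg.IrrCharacter G, (∀ p ∈ π, χ ∈ Cfsg.principalBlock (M p) G) ↔
      ⨆ p ∈ π, Cfsg.pPrimeCore p G ≤ Char.charKer (χ : G → ℂ) := by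
    intro χ
    rw [iSup₂_le_iff]
    refine forall₂_congr fun p hp => ?_
    have : Fact p.Prime := ⟨(hπ p hp).1⟩
    exact mem_pb_iff_of_isPSolvable (hM p hp) (Solv.isPSolvable_of_isSolvable p) χ
  have hn : (⨆ p ∈ π, Cfsg.pPrimeCore p G).Normal := inferInstance
  constructor
  · intro h
    rw [eq_top_iff]
    intro g _
    by_contra hg
    obtain ⟨χ, hχ, h1, h2⟩ := Char.exists_irr_le_charKer_not_mem _ hg
    have h3 : χ = fun _ => 1 := h ⟨χ, hχ⟩ ((key _).2 h1)
    rw [h3, Char.charKer_one] at h2
    exact h2 trivial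
  · intro h χ hχ
    rw [key, h, top_le_iff] at hχ
    exact Char.irr_eq_one_of_charKer_eq_top χ.2 hχ

end Cfsg.Agent.S4611
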