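import Mathlib
import Cfsg.Statements.S4620
import Cfsg.Agent.Sig.PComp
import Cfsg.Agent.Sig.FStar
import Cfsg.Agent.Loc.SPE

set_option autoImplicit false
open scoped Pointwise
open Cfsg

namespace Cfsg.Agent.S4620


/-- Let H be a finite group with no nontrivial normal p-subgroup and no nontrivial normal subgroup of order prime to p, whose Sylow p-subgroup P is nontrivial and a trivial-intersection set (P meets its conjugates by elements outside N_H(P) trivially). Then H has a unique minimal normal subgroup N; N is non-abelian simple with trivial centralizer in H (so H embeds in Aut(N)), and a Sylow p-subgroup of N is again a nontrivial trivial-intersection set in N. -/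
theorem result {H : Type*} [Group H] [Finite H] (p : ℕ) [Fact p.Prime] (hOp : Cfsg.pCore p H = ⊥) (hOp' : Cfsg.pPrimeCore p H = ⊥) (P : Sylow p H) (hP1 : (P : Subgroup H) ≠ ⊥)
    (hTI : ∀ g : H, g ∉ Subgroup.normalizer ((P : Subgroup H) : Set H) → (P : Subgroup H) ⊓ (MulAut.conj g • (P : Subgroup H)) = ⊥) :
    ∃ N : Subgroup H, N.Normal ∧ N ≠ ⊥ ∧ (∀ K : Subgroup H, K.Normal → K ≠ ⊥ → N ≤ K) ∧
      IsSimpleGroup N ∧ ¬ IsMulCommutative N ∧ Subgroup.centralizer (N : Set H) = ⊥ ∧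
      ∀ Q : Sylow p N, (Q : Subgroup N) ≠ ⊥ ∧
        ∀ n : N, n ∉ Subgroup.normalizer ((Q : Subgroup N) : Set N) → (Q : Subgroup N) ⊓ (MulAut.conj n • (Q : Subgroup N)) = ⊥ := by
  have hp : p.Prime := Fact.out
  have ti : ∀ (R : Sylow p H) (g x : H), x ≠ 1 → x ∈ (R : Subgroup H) → g * x * g⁻¹ ∈ (R : Subgroup H) →
      g ∈ Subgroup.normalizer ((R : Subgroup H) : Set H) := by
    intro R g x hx h1 h2
    obtain ⟨a, rfl⟩ := MulAction.exists_smul_eq H P R
    rw [Sylow.coe_subgroup_smul, CF.Solv.mem_conj_smul_iff] at h1 h2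
    rw [Sylow.coe_subgroup_smul, CF.Solv.normalizer_conj_smul, CF.Solv.mem_conj_smul_iff]
    by_contra hne
    have := hTI _ hne
    have h3 : a⁻¹ * (g * x * g⁻¹) * a ∈ (P : Subgroup H) ⊓ (MulAut.conj (a⁻¹ * g * a) • (P : Subgroup H)) := by
      refine ⟨h2, CF.Solv.mem_conj_smul_iff.mpr ?_⟩
      convert h1 using 1; group
    rw [this, Subgroup.mem_bot] at h3
    apply hx
    calc x = g⁻¹ * a * (a⁻¹ * (g * x * g⁻¹) * a) * a⁻¹ * g := by group
      _ = 1 := by rw [h3]; group
  have hF : Cfsg.fittingSubgroup H = ⊥ := by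
    refine CF.Solv.fitting_eq_bot_iff.mpr fun q hq => ?_
    by_cases hqp : q = p
    · subst hqp; exact hOp
    · exact le_bot_iff.mp (hOp' ▸ CF.Solv.pCore_le_pPrimeCore_of_ne hqp)
  have hex : ∀ K : Subgroup H, IsComponent K → ∃ x ∈ K, x ≠ 1 ∧ x ^ p = 1 := by
    intro K hK
    obtain ⟨x, hx⟩ := exists_prime_orderOf_dvd_card' p
      (CF.Sig.comp_prime_dvd_card_of_pPrimeCore_eq_bot hOp' hK)
    refine ⟨x, x.2, fun h => hp.ne_one ?_, ?_⟩
    · rw [← hx, ← Subgroup.orderOf_coe, h, orderOf_one]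
    · rw [← hx, ← Subgroup.orderOf_coe, pow_orderOf_eq_one]
  have huniq : ∀ K L : Subgroup H, IsComponent K → IsComponent L → K = L := by
    intro K L hK hL
    by_contra hne
    obtain ⟨x, hxK, hx1, hxp⟩ := hex K hK
    obtain ⟨R, hR⟩ := (CF.Solv.isPGroup_of_forall_pow_eq_one (p := p) (N := Subgroup.zpowers x)
      (by rintro _ ⟨k, rfl⟩; rw [← zpow_natCast, ← zpow_mul, mul_comm, zpow_mul, zpow_natCast, hxp,
        one_zpow])).exists_le_sylow
    have hxR := hR (Subgroup.mem_zpowers x)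
    have hc := Subgroup.commutator_eq_bot_iff_le_centralizer.mp
      (CF.Sig.comp_commutator_eq_bot_of_ne hK hL hne)
    have h1 : L ≤ Subgroup.normalizer ((R : Subgroup H) : Set H) := fun g hg =>
      ti R g x hx1 hxR (by rw [hc hxK g hg, mul_inv_cancel_right]; exact hxR)
    obtain ⟨y, hyL, hy1, hyp⟩ := hex L hL
    have h2 : y ∈ (R : Subgroup H) := by
      have := IsPGroup.inf_normalizer_sylow (CF.Solv.isPGroup_of_forall_pow_eq_one (p := p)
        (N := Subgroup.zpowers y) (by rintro _ ⟨k, rfl⟩; rw [← zpow_natCast, ← zpow_mul, mul_comm,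
          zpow_mul, zpow_natCast, hyp, one_zpow])) R
      exact (this.le ⟨Subgroup.mem_zpowers y, h1 hyL⟩).2
    have h3 : (R : Subgroup H) ⊓ L ≤ pCore p H := CF.Solv.le_pCore_of_isSubnormal
      (CF.Sig.subnormal_of_le_normalizer inf_le_right hL.1 ((le_inf h1 Subgroup.le_normalizer).trans
        Subgroup.inf_normalizer_le_normalizer_inf)) R.isPGroup'.to_inf_left
    rw [hOp] at h3
    exact hy1 (h3 ⟨h2, hyL⟩)
  haveI : Nontrivial H := by
    obtain ⟨x, hx⟩ := Subgroup.ne_bot_iff_exists_ne_one.mp hP1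
    exact ⟨x, 1, fun h => hx (Subtype.ext h)⟩
  have hE : generalizedFittingSubgroup H = layer H := by
    rw [generalizedFittingSubgroup, hF, sup_bot_eq]
  obtain ⟨K, hK⟩ : ∃ K : Subgroup H, IsComponent K := by
    by_contra h
    push Not at h
    exact CF.Sig.fstar_ne_bot (hE.trans (CF.Sig.layer_eq_bot_iff.mpr h))
  have hKE : generalizedFittingSubgroup H = K := hE.trans (le_antisymm
    (CF.Sig.layer_le fun L hL => (huniq L K hL hK).le) (CF.Sig.comp_le_layer hK))
  haveI hKn : K.Normal := hKE ▸ inferInstance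
  have hC : Subgroup.centralizer (K : Set H) = ⊥ := by
    rw [eq_bot_iff, ← hF, ← hKE]; exact CF.Sig.centralizer_fstar_le_fitting
  refine ⟨K, hKn, CF.Sig.comp_ne_bot hK, fun L hL h0 => ?_,
    CF.Loc.isSimpleGroup_of_qs hK.2 (by rw [hC, inf_bot_eq]),
    CF.Sig.qs_not_isMulCommutative hK.2, hC, fun Q => ⟨?_, fun n hn => ?_⟩⟩
  · refine (CF.Sig.comp_le_or_commutator_eq_bot hK hL.isSubnormal).resolve_right fun h => h0 ?_
    rw [Subgroup.commutator_comm, Subgroup.commutator_eq_bot_iff_le_centralizer, hC] at h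
    exact le_bot_iff.mp h
  · exact Q.ne_bot_of_dvd_card (CF.Sig.comp_prime_dvd_card_of_pPrimeCore_eq_bot hOp' hK)
  · obtain ⟨R, hR⟩ := Q.exists_comap_subtype_eq
    by_contra hne
    obtain ⟨⟨y, hy1, hy2⟩, hy⟩ := Subgroup.ne_bot_iff_exists_ne_one.mp hne
    replace hy2 := CF.Solv.mem_conj_smul_iff.mp hy2
    replace hy1 : y ∈ (Q : Subgroup K) := hy1
    rw [← hR] at hy1 hy2
    have h1 := ti R (n : H)⁻¹ y (fun h => hy (Subtype.ext (Subtype.ext h))) hy1 (by
      rw [inv_inv]; exact hy2)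
    apply hn
    rw [← hR]
    exact Subgroup.le_normalizer_comap _ ((Subgroup.inv_mem_iff _).mp h1)

end Cfsg.Agent.S4620
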