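import Cfsg.Statements.S4623
import Cfsg.Agent.Perm.SylP

set_option autoImplicit false
open Cfsg

namespace Cfsg.Agent.S4623

/-- For every prime p and every n, a Sylow p-subgroup P of the symmetric group on n letters has P/P' elementary abelian (the p-th power of every element of P lies in the derived subgroup of P), and the same holds for a Sylow p-subgroup of the alternating group on n letters. -/
theorem result (p : ℕ) [Fact p.Prime] (n : ℕ) (P : Sylow p (Equiv.Perm (Fin n))) (Q : Sylow p (alternatingGroup (Fin n))) :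
    (∀ x : (P : Subgroup (Equiv.Perm (Fin n))), x ^ p ∈ commutator (P : Subgroup (Equiv.Perm (Fin n)))) ∧
    (∀ x : (Q : Subgroup (alternatingGroup (Fin n))), x ^ p ∈ commutator (Q : Subgroup (alternatingGroup (Fin n)))) := by
  refine ⟨CF.Perm.pow_mem_commutator_of_le_closure (CF.Perm.sylow_le_closure P),
    CF.Perm.pow_mem_commutator_of_le_closure ?_⟩
  obtain ⟨R, h⟩ := CF.Perm.exists_sylow_map_eq Q
  rw [← Subgroup.map_subtype_le_map_subtype, MonoidHom.map_closure]
  refine h.le.trans ((CF.Perm.sylow_inf_alt_le_closure R).trans (Subgroup.closure_mono ?_))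
  rw [← h]
  rintro _ ⟨⟨s, hs, rfl⟩, h1⟩
  exact ⟨s, ⟨hs, Subtype.ext h1⟩, rfl⟩

end Cfsg.Agent.S4623
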