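import Cfsg.Statements.S4625
import Cfsg.Agent.Chev.LTA

set_option autoImplicit false
open Cfsg

namespace Cfsg.Agent.S4625

/-- Let G be a finite simple group of Lie type in characteristic 2, not counting the Tits group ²F₄(2)′. Then a Sylow 2-subgroup P of G has P/P' elementary abelian: the square of every element of P lies in the derived subgroup of P. -/
theorem result {G : Type*} [Group G] [Finite G] [IsSimpleGroup G] (hG : Cfsg.IsLieTypeChar 2 G) (P : Sylow 2 G) :
    ∀ x : (P : Subgroup G), x ^ 2 ∈ commutator (P : Subgroup G) := by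
  obtain ⟨M, ⟨e⟩, h⟩ := CF.Chev.hasMdl hG
  obtain ⟨e, he⟩ := M.lt.exists_equiv e P
  have h1 := CF.Chev.sq_mem_commutator M.lt.form (h rfl) M.T.S.stab_univ.lg_mem_Wf
  rw [CF.BN.Tw.Form.Uw_lg_univ, ← M.lt.form.Up_inf] at h1
  let f : (P : Subgroup G) →* M.G := M.G1.subtype.comp (e.toMonoidHom.comp (Subgroup.subtype _))
  have hf : Function.Injective f := Subtype.val_injective.comp (e.injective.comp Subtype.val_injective)
  have h2 : (⊤ : Subgroup (P : Subgroup G)).map f = M.ρ.Up ⊓ M.G1 := by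
    ext y
    refine ⟨?_, fun hy => ⟨⟨e.symm ⟨y, hy.2⟩, (he _).1 (by simpa using hy.1)⟩, trivial, by simp [f]⟩⟩
    rintro ⟨x, -, rfl⟩
    exact ⟨(he x).2 x.2, (e x).2⟩
  intro x
  have := h1 (f x) (h2 ▸ ⟨x, trivial, rfl⟩)
  rwa [← h2, ← Subgroup.map_commutator, ← map_pow, Subgroup.mem_map_iff_mem hf] at this

end Cfsg.Agent.S4625
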