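import Cfsg.Statements.S4741
import Cfsg.Agent.Block.Count

set_option autoImplicit false
open Cfsg

namespace Cfsg.Agent.S4741

open CF.Block CF

/-- Let p be a prime, M a maximal ideal of the algebraic integers containing p, and D a subgroup of the finite group G. Let x₁, …, x_r be pairwise non-conjugate elements of G such that D is a Sylow p-subgroup of the centralizer of each xᵢ, and such that for any conjugates g of some xᵢ and h of some xⱼ the element g h⁻¹ is never a non-identity p-element. Then there are r distinct p-blocks B₁, …, B_r of G, each having D as a defect group, such that for every choice of characters χᵢ ∈ Bᵢ of height zero the determinant of the r × r matrix (χᵢ(xⱼ)) does not lie in the local ideal at M. -/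
theorem result {G : Type*} [Group G] [Finite G] (p : ℕ) [Fact p.Prime] (M : Ideal Cfsg.AlgInt) (hM : Cfsg.IsPModular p M) (D : Subgroup G) {r : ℕ} (x : Fin r → G) (hx : ∀ i j : Fin r, IsConj (x i) (x j) → i = j) (hD : ∀ i : Fin r, ∃ S : Sylow p ↥(Subgroup.centralizer ({x i} : Set G)), (S : Subgroup ↥(Subgroup.centralizer ({x i} : Set G))).map (Subgroup.centralizer ({x i} : Set G)).subtype = D) (hsep : ∀ i j : Fin r, ∀ g h : G, IsConj (x i) g → IsConj (x j) h → ∀ k : ℕ, 0 < k → orderOf (g * h⁻¹) ≠ p ^ k) : ∃ B : Fin r → Set (Cfsg.IrrCharacter G), Function.Injective B ∧ (∀ i : Fin r, Cfsg.IsPBlock M (B i) ∧ Cfsg.IsDefectGroup p M (B i) D) ∧ ∀ χ : Fin r → Cfsg.IrrCharacter G, (∀ i : Fin r, χ i ∈ B i ∧ Cfsg.blockHeight p (B i) (χ i : G → ℂ) = 0) → ¬ Cfsg.MemLocalIdeal M (Matrix.det (Matrix.of fun i j : Fin r => (χ i : G → ℂ) (x j))) := by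
  classical
  have hS : ∀ i, IsSyl p D (BlockB.Cen (x i)) := fun i =>
    isSyl_iff.2 (by obtain ⟨S, hS⟩ := hD i; exact ⟨S, hS.symm⟩)
  have hd : ∀ i, cdef p (x i) = (Nat.card D).factorization p := fun i => by
    rw [(hS i).card_eq, Nat.factorization_pow_self hM.1]
  obtain ⟨B, hB1, hB2, hB3⟩ := exists_blocks_of_sep hM x hx hd fun i j g c h1 h2 ⟨n, hn⟩ => by
    rcases Nat.eq_zero_or_pos n with rfl | h0
    · simpa [mul_inv_eq_one] using hn
    · exact absurd hn (hsep j i c g h2 h1 n h0)
  refine ⟨B, hB1, fun i => ⟨(hB2 i).1, ?_⟩, fun χ hχ h => ?_⟩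
  · obtain ⟨j, hj⟩ := exists_ne_zero_of_isUnit hB3 i
    exact (isDefectGroup_iff hM (hB2 i).1 D).2
      (isDefGrp_of_lc hM (hB2 i).1 hj ((hd j).trans (hB2 i).2.symm).le (hS j))
  have h1 := BlockB.v_lt_one_of_memLocalIdeal hM.2.1 h
  let A : Matrix (Fin r) (Fin r) (BlockB.O M) :=
    Matrix.of fun i j => ⟨(χ i : G → ℂ) (x j), BlockB.mem_O_iff.2 (BlockB.v_irr_le_one _ _)⟩
  have h2 : (Matrix.of fun i j : Fin r => (χ i : G → ℂ) (x j)).det = (A.det : ℂ) :=
    ((BlockB.O M).subtype.map_det A).symm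
  rw [h2, ← BlockB.res_eq_zero_iff, RingHom.map_det] at h1
  have h3 : (BlockB.res M).mapMatrix A = Matrix.diagonal (fun i => BlockB.resC M
      ((χ i : G → ℂ) 1 / (p : ℂ) ^ ((Nat.card G).factorization p - (Nat.card D).factorization p))) *
      (Matrix.of fun i j => lc M (B i) (x j)) * Matrix.diagonal fun j => BlockB.resC M
      ((p : ℂ) ^ ((Nat.card G).factorization p - (Nat.card D).factorization p) /
        (BlockB.Cen (x j)).index) := by
    ext i j
    have h4 := BlockB.blockDefect_add_minExp (p := p) (BlockB.block_nonempty hM (hB2 i).1)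
    have h5 := (hB2 i).2
    rw [Matrix.mul_diagonal, Matrix.diagonal_mul, ← show BlockB.minExp p (B i) = _ - _ by omega,
      Matrix.of_apply, ← v_irr_eq_lc hM (hB2 i).1 (hχ i).1 ((hd j).trans h5.symm)]
    exact (BlockB.resC_coe (A i j)).symm
  rw [h3, Matrix.det_mul, Matrix.det_mul, Matrix.det_diagonal, Matrix.det_diagonal] at h1
  have hp0 := BlockB.vp_pow_pos hM ((Nat.card G).factorization p - (Nat.card D).factorization p)
  refine mul_ne_zero (mul_ne_zero (Finset.prod_ne_zero_iff.2 fun i _ => ?_)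
    ((Matrix.isUnit_iff_isUnit_det _).1 hB3).ne_zero) (Finset.prod_ne_zero_iff.2 fun j _ => ?_) h1
  · have h4 := BlockB.blockDefect_add_minExp (p := p) (BlockB.block_nonempty hM (hB2 i).1)
    have h5 := (hB2 i).2
    have h6 : BlockB.v M ((χ i : G → ℂ) 1 /
        (p : ℂ) ^ ((Nat.card G).factorization p - (Nat.card D).factorization p)) = 1 := by
      rw [map_div₀, map_pow, (BlockB.height_zero_iff_v hM (hχ i).1).1 (hχ i).2,
        show BlockB.minExp p (B i) = (Nat.card G).factorization p - (Nat.card D).factorization p by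
          omega, div_self hp0.ne']
    exact (BlockB.resC_ne_zero_iff h6.le).2 h6
  · have h6 : BlockB.v M ((p : ℂ) ^ ((Nat.card G).factorization p - (Nat.card D).factorization p) /
        (BlockB.Cen (x j)).index) = 1 := by
      rw [map_div₀, map_pow, v_index_Cen hM, hd, div_self hp0.ne']
    exact (BlockB.resC_ne_zero_iff h6.le).2 h6

end Cfsg.Agent.S4741
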