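import Cfsg.Statements.S4742
import Cfsg.Agent.Block.Count

set_option autoImplicit false
open Cfsg

namespace Cfsg.Agent.S4742

open CF.Block CF

/-- Let p ≠ q be primes dividing the order of the finite group G, and suppose the centralizer of every non-identity p-element of G has order prime to q. Then either G has an irreducible character of p-defect zero, or for every non-identity q-element z of G there are conjugates g, h of z such that g h⁻¹ is a non-identity p-element. -/
theorem result {G : Type*} [Group G] [Finite G] (p q : ℕ) [Fact p.Prime] [Fact q.Prime] (hppq : p ≠ q) (hpG : p ∣ Nat.card G) (hqG : q ∣ Nat.card G) (hC : ∀ g : G, g ≠ 1 → (∃ k : ℕ, orderOf g = p ^ k) → ¬ q ∣ Nat.card ↥(Subgroup.centralizer ({g} : Set G))) : (∃ χ : Cfsg.IrrCharacter G, (Cfsg.charDegree (χ : G → ℂ)).factorization p = (Nat.card G).factorization p) ∨ ∀ z : G, z ≠ 1 → (∃ k : ℕ, orderOf z = q ^ k) → ∃ g h : G, IsConj z g ∧ IsConj z h ∧ g * h⁻¹ ≠ 1 ∧ ∃ k : ℕ, orderOf (g * h⁻¹) = p ^ k := by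
  have hp : p.Prime := Fact.out
  have hq : q.Prime := Fact.out
  rw [or_iff_not_imp_left]
  intro h z hz ⟨k, hk⟩
  by_contra h1
  push Not at h1
  refine h (exists_defect_zero_of_sep hp (x := z) (fun h2 => ?_) fun g c hg hc ⟨n, hn⟩ => ?_)
  · obtain ⟨u, hu⟩ := exists_prime_orderOf_dvd_card' p h2
    refine hC u (fun h3 => hp.ne_one (by rw [← hu, ← Subgroup.orderOf_coe, h3, orderOf_one]))
      ⟨1, by rw [Subgroup.orderOf_coe, hu, pow_one]⟩ ?_
    have h3 : z ∈ Subgroup.centralizer ({(u : G)} : Set G) :=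
      BlockB.mem_Cen.2 (BlockB.mem_Cen.1 u.2).symm
    refine Dvd.dvd.trans ?_ (orderOf_dvd_natCard (⟨z, h3⟩ : Subgroup.centralizer ({(u : G)} : Set G)))
    rw [← Subgroup.orderOf_coe, hk]
    refine dvd_pow_self q ?_
    rintro rfl
    exact hz (by simpa using hk)
  · by_contra h2
    exact h1 c g hc hg (by rwa [Ne, mul_inv_eq_one]) n hn

end Cfsg.Agent.S4742
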