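import Cfsg.Statements.S4743
import Cfsg.Agent.S4742

set_option autoImplicit false
open Cfsg

namespace Cfsg.Agent.S4743

open CF.Block CF

theorem exists_normal {G : Type*} [Group G] [Finite G] {p q : ℕ} (hp : p.Prime) (hq : q.Prime)
    (hppq : p ≠ q) (hpG : p ∣ Nat.card G) (h : IsPSolvable p G) :
    ∃ N : Subgroup G, N.Normal ∧
      ((p ∣ Nat.card N ∧ ¬ q ∣ Nat.card N) ∨ (q ∣ Nat.card N ∧ ¬ p ∣ Nat.card N)) := by
  obtain ⟨n, H, h0, hl, hm, hn, hs⟩ := h
  by_contra hno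
  push Not at hno
  have key : ∀ i : Fin (n + 1), ¬ p ∣ Nat.card (H i) ∧ ¬ q ∣ Nat.card (H i) := by
    intro i
    induction i using Fin.induction with
    | zero => rw [h0, Subgroup.card_bot]; exact ⟨hp.not_dvd_one, hq.not_dvd_one⟩
    | succ i ih =>
      have hle : H i.castSucc ≤ H i.succ := hm (Fin.castSucc_le_succ i)
      have hc : Nat.card (H i.succ) =
          Nat.card (H i.castSucc) * (H i.castSucc).relIndex (H i.succ) := by
        rw [Subgroup.relIndex, ← Subgroup.card_mul_index ((H i.castSucc).subgroupOf (H i.succ)),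
          Nat.card_congr (Subgroup.subgroupOfEquivOfLe hle).toEquiv]
      rcases hs i with ⟨m, hm'⟩ | hco
      · have h1 : ¬ q ∣ Nat.card (H i.succ) := by
          rw [hc, hm']
          intro h2
          rcases (Nat.Prime.dvd_mul hq).1 h2 with h3 | h3
          · exact ih.2 h3
          · exact hppq ((Nat.prime_dvd_prime_iff_eq hq hp).1 (hq.dvd_of_dvd_pow h3)).symm
        exact ⟨fun h2 => h1 ((hno _ (hn _)).1 h2), h1⟩
      · have h1 : ¬ p ∣ Nat.card (H i.succ) := by
          rw [hc]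
          intro h2
          rcases (Nat.Prime.dvd_mul hp).1 h2 with h3 | h3
          · exact ih.1 h3
          · exact (hp.coprime_iff_not_dvd.1 hco.symm) h3
        exact ⟨h1, fun h2 => h1 ((hno _ (hn _)).2 h2)⟩
  have := (key (Fin.last n)).1
  rw [hl, Subgroup.card_top] at this
  exact this hpG

theorem swap {G : Type*} [Group G] [Finite G] {p q : ℕ} [Fact p.Prime] [Fact q.Prime]
    (hC : ∀ g : G, g ≠ 1 → (∃ k : ℕ, orderOf g = p ^ k) →
      ¬ q ∣ Nat.card ↥(Subgroup.centralizer ({g} : Set G))) :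
    ∀ g : G, g ≠ 1 → (∃ k : ℕ, orderOf g = q ^ k) →
      ¬ p ∣ Nat.card ↥(Subgroup.centralizer ({g} : Set G)) := by
  have hp : p.Prime := Fact.out
  rintro z hz ⟨k, hk⟩ h2
  obtain ⟨u, hu⟩ := exists_prime_orderOf_dvd_card' p h2
  refine hC u (fun h3 => hp.ne_one (by rw [← hu, ← Subgroup.orderOf_coe, h3, orderOf_one]))
    ⟨1, by rw [Subgroup.orderOf_coe, hu, pow_one]⟩ ?_
  have h3 : z ∈ Subgroup.centralizer ({(u : G)} : Set G) :=
    BlockB.mem_Cen.2 (BlockB.mem_Cen.1 u.2).symm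
  refine Dvd.dvd.trans ?_ (orderOf_dvd_natCard (⟨z, h3⟩ : Subgroup.centralizer ({(u : G)} : Set G)))
  rw [← Subgroup.orderOf_coe, hk]
  refine dvd_pow_self q ?_
  rintro rfl
  exact hz (by simpa using hk)

theorem of_normal {G : Type*} [Group G] [Finite G] {p q : ℕ} [Fact p.Prime] [Fact q.Prime]
    (hppq : p ≠ q) (hpG : p ∣ Nat.card G) (hqG : q ∣ Nat.card G)
    (hC : ∀ g : G, g ≠ 1 → (∃ k : ℕ, orderOf g = p ^ k) →
      ¬ q ∣ Nat.card ↥(Subgroup.centralizer ({g} : Set G)))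
    {N : Subgroup G} (hN : N.Normal) (h1 : q ∣ Nat.card N) (h2 : ¬ p ∣ Nat.card N) :
    ∃ χ : Cfsg.IrrCharacter G, (Cfsg.charDegree (χ : G → ℂ)).factorization p =
      (Nat.card G).factorization p := by
  have hp : p.Prime := Fact.out
  have hq : q.Prime := Fact.out
  rcases Cfsg.Agent.S4742.result p q hppq hpG hqG hC with h | h
  · exact h
  exfalso
  obtain ⟨u, hu⟩ := exists_prime_orderOf_dvd_card' q h1
  obtain ⟨g, h, hg, hh, hne, k, hk⟩ := h u
    (fun h3 => hq.ne_one (by rw [← hu, ← Subgroup.orderOf_coe, h3, orderOf_one]))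
    ⟨1, by rw [Subgroup.orderOf_coe, hu, pow_one]⟩
  have hgN : g ∈ N := by
    obtain ⟨c, rfl⟩ := isConj_iff.1 hg
    exact hN.conj_mem _ u.2 c
  have hhN : h ∈ N := by
    obtain ⟨c, rfl⟩ := isConj_iff.1 hh
    exact hN.conj_mem _ u.2 c
  have h3 : g * h⁻¹ ∈ N := N.mul_mem hgN (N.inv_mem hhN)
  refine h2 (Dvd.dvd.trans ?_ (orderOf_dvd_natCard (⟨_, h3⟩ : N)))
  rw [← Subgroup.orderOf_coe, hk]
  refine dvd_pow_self p ?_
  rintro rfl
  exact hne (by simpa using hk)

/-- Let p ≠ q be primes dividing the order of the finite group G, suppose the centralizer of every non-identity p-element has order prime to q, and suppose G is p-solvable or q-solvable. Then G has an irreducible character of p-defect zero or an irreducible character of q-defect zero. -/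
theorem result {G : Type*} [Group G] [Finite G] (p q : ℕ) [Fact p.Prime] [Fact q.Prime] (hppq : p ≠ q) (hpG : p ∣ Nat.card G) (hqG : q ∣ Nat.card G) (hC : ∀ g : G, g ≠ 1 → (∃ k : ℕ, orderOf g = p ^ k) → ¬ q ∣ Nat.card ↥(Subgroup.centralizer ({g} : Set G))) (hsolv : Cfsg.IsPSolvable p G ∨ Cfsg.IsPSolvable q G) : (∃ χ : Cfsg.IrrCharacter G, (Cfsg.charDegree (χ : G → ℂ)).factorization p = (Nat.card G).factorization p) ∨ (∃ χ : Cfsg.IrrCharacter G, (Cfsg.charDegree (χ : G → ℂ)).factorization q = (Nat.card G).factorization q) := by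
  have hp : p.Prime := Fact.out
  have hq : q.Prime := Fact.out
  have key : ∃ N : Subgroup G, N.Normal ∧
      ((p ∣ Nat.card N ∧ ¬ q ∣ Nat.card N) ∨ (q ∣ Nat.card N ∧ ¬ p ∣ Nat.card N)) := by
    rcases hsolv with h | h
    · exact exists_normal hp hq hppq hpG h
    · obtain ⟨N, hN, h⟩ := exists_normal hq hp hppq.symm hqG h
      exact ⟨N, hN, h.symm⟩
  obtain ⟨N, hN, ⟨h1, h2⟩ | ⟨h1, h2⟩⟩ := key
  · exact Or.inr (of_normal hppq.symm hqG hpG (swap hC) hN h1 h2)
  · exact Or.inl (of_normal hppq hpG hqG hC hN h1 h2)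

end Cfsg.Agent.S4743
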