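import Cfsg.Statements.S4745
import Cfsg.Agent.S4743
import Cfsg.Agent.Block.Zero
import Cfsg.Agent.Block.TwoTr
import Cfsg.Agent.Bender.Final
import Cfsg.Agent.Hyp.FTProof
import Cfsg.Agent.Solv.PiSep
import Cfsg.Agent.PLocal.NPC
import Cfsg.Agent.Perm.Basic

set_option autoImplicit false
open Cfsg

namespace Cfsg.Agent.S4745

open CF Subgroup MulAction

/-- Let p be an odd prime and G a finite group of even order divisible by p in which the centralizer of every non-identity p-element has odd order, and suppose G acts faithfully and transitively on a set with p ^ r elements, r ≥ 1. Then either G has an irreducible character of p-defect zero, or G is p-solvable and has an irreducible character of 2-defect zero. -/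
theorem result {G Ω : Type*} [Group G] [Finite G] [MulAction G Ω] [FaithfulSMul G Ω] [Fintype Ω] (htr : MulAction.IsPretransitive G Ω) (p : ℕ) [Fact p.Prime] (hp2 : p ≠ 2) (hpG : p ∣ Nat.card G) (h2G : 2 ∣ Nat.card G) (hC : ∀ g : G, g ≠ 1 → (∃ k : ℕ, orderOf g = p ^ k) → Odd (Nat.card ↥(Subgroup.centralizer ({g} : Set G)))) (r : ℕ) (hr : 1 ≤ r) (hΩ : Fintype.card Ω = p ^ r) : (∃ χ : Cfsg.IrrCharacter G, (Cfsg.charDegree (χ : G → ℂ)).factorization p = (Nat.card G).factorization p) ∨ (Cfsg.IsPSolvable p G ∧ ∃ χ : Cfsg.IrrCharacter G, (Cfsg.charDegree (χ : G → ℂ)).factorization 2 = (Nat.card G).factorization 2) := by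
  have hp : p.Prime := Fact.out
  have h22 : Fact (Nat.Prime 2) := ⟨Nat.prime_two⟩
  rw [or_iff_not_imp_left]
  intro h0
  have hC' := Block.hC_of_odd hC
  have hΩ' : Nat.card Ω = p ^ r := by rw [Nat.card_eq_fintype_card, hΩ]
  have hpo : Odd p := hp.odd_of_ne_two hp2
  obtain ⟨t₀, ht₀⟩ := exists_prime_orderOf_dvd_card' 2 h2G
  have hreg : ∀ (P : Sylow p G) (ω : Ω), ∀ x ∈ P, x • ω = ω → x = 1 := by
    intro P ω x hx hω
    obtain ⟨s, -, -, hs⟩ := Block.exists_sylow_inverted_of_no_zero hC' h0 ht₀ P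
    have hc := Block.comm_of_inverts hs
    have := Perm.sylow_isPretransitive hΩ' P
    refine eq_of_smul_eq_smul fun ω' : Ω => ?_
    obtain ⟨y, rfl⟩ := exists_smul_eq (P : Subgroup G) ω ω'
    rw [one_smul, Subgroup.smul_def, ← mul_smul, ← (hc hx) y y.2, mul_smul, hω]
  have huniq : ∀ t : G, orderOf t = 2 → ∀ ω ω' : Ω, t • ω = ω → t • ω' = ω' → ω = ω' := by
    intro t ht ω ω' h1 h2
    obtain ⟨P⟩ := (inferInstance : Nonempty (Sylow p G))
    obtain ⟨s, hts, -, hs⟩ := Block.exists_sylow_inverted_of_no_zero hC' h0 ht P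
    obtain ⟨c, rfl⟩ := isConj_iff.1 hts
    have := Perm.sylow_isPretransitive hΩ' P
    obtain ⟨y, hy⟩ := exists_smul_eq (P : Subgroup G) (c • ω) (c • ω')
    rw [Subgroup.smul_def] at hy
    have e1 : (c * t * c⁻¹) • c • ω = c • ω := by rw [mul_smul, mul_smul, inv_smul_smul, h1]
    have e2 : (c * t * c⁻¹) • c • ω' = c • ω' := by rw [mul_smul, mul_smul, inv_smul_smul, h2]
    have e3 : (y : G)⁻¹ • c • ω = (y : G) • c • ω := by
      rw [← hs y y.2, mul_smul, mul_smul, ← e1, inv_smul_smul, e1, hy, e2]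
    have e4 : ((y : G) * y) • c • ω = c • ω := by
      rw [mul_smul, ← e3, smul_inv_smul]
    have e5 := hreg P _ _ ((P : Subgroup G).mul_mem y.2 y.2) e4
    obtain ⟨k, hk⟩ := Loc.orderOf_eq_pow_of_mem P.isPGroup' y.2
    have e6 : orderOf (y : G) ∣ 2 := orderOf_dvd_of_pow_eq_one (by rw [pow_two, e5])
    have e7 : orderOf (y : G) = 1 :=
      Nat.eq_one_of_dvd_coprimes (by rw [hk]; exact (hpo.pow).coprime_two_right) dvd_rfl e6
    rw [orderOf_eq_one_iff.1 e7, one_smul] at hy
    exact MulAction.injective c hy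
  have hΩ1 : 1 < Nat.card Ω := by rw [hΩ']; exact Nat.one_lt_pow (by omega) hp.one_lt
  have : Nonempty Ω := (Nat.card_pos_iff.1 (by omega)).1
  obtain ⟨ω⟩ := this
  set H := stabilizer G ω with hH
  have hind : H.index = p ^ r := by rw [hH, index_stabilizer_of_transitive, hΩ']
  have hmul : Nat.card H * p ^ r = Nat.card G := by rw [← hind, card_mul_index]
  have hse : IsStronglyEmbedded H := by
    refine Invol.se_iff.2 ⟨fun h => ?_, ?_, fun t ht ho g hg => ?_⟩
    · rw [h, index_top, ← hΩ'] at hind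
      omega
    · rw [← hmul] at h2G
      exact even_iff_two_dvd.2 ((Nat.Coprime.dvd_mul_right (hpo.pow).coprime_two_left).1 h2G)
    · have h1 : t • g⁻¹ • ω = g⁻¹ • ω := by
        have h2 : (g * t * g⁻¹) • ω = ω := hg
        rw [mul_smul, mul_smul, smul_eq_iff_eq_inv_smul] at h2
        exact h2
      have h2 := huniq t ho _ _ ht h1
      rw [eq_inv_smul_iff] at h2
      exact h2
  by_cases r2 : Suz.Rank2 G
  · exfalso
    have hO : oddCore G = ⊥ := by
      rw [eq_bot_iff]
      intro x hx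
      refine eq_of_smul_eq_smul fun ω' : Ω => ?_
      obtain ⟨g, rfl⟩ := exists_smul_eq G ω ω'
      have h1 : (g⁻¹ * x * g⁻¹⁻¹) • ω = ω :=
        Bender.se_oddCore_le hse r2 ((inferInstance : (oddCore G).Normal).conj_mem x hx g⁻¹)
      rw [inv_inv, mul_smul, mul_smul, inv_smul_eq_iff] at h1
      rw [h1, one_smul]
    obtain ⟨u, Q, hS⟩ := Bender.se_setup Bender.part2 hse hO
    have hu : u ∉ H := by
      have := hS.not_mem
      rwa [Bender.stab_pt] at this
    have hu2 : orderOf u = 2 := Bender.iv_iff.1 ⟨hS.ne_one, hS.mul_self⟩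
    obtain ⟨x, y, hx1, hy1, hxy, hx2, hy2, hc⟩ := r2
    obtain ⟨s, hsH, hs⟩ := Invol.se_exists_invol hse
    obtain ⟨c, rfl⟩ := isConj_iff.1 (Invol.se_isConj hse (Bender.iv_iff.1 ⟨hx1, hx2⟩) hs)
    have hy : orderOf (c * y * c⁻¹) = 2 := by
      rw [Loc.orderOf_conj]; exact Bender.iv_iff.1 ⟨hy1, hy2⟩
    have hyH : c * y * c⁻¹ ∈ H := (Invol.sEmb_of_se hse).mem_of_commute hsH hs (by
      change _ = _
      simp only [mul_assoc, inv_mul_cancel_left]
      rw [← mul_assoc y, ← hc, mul_assoc])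
    obtain ⟨d, hd, hd1, hd2⟩ := (Invol.sEmb_of_se hse).exists_inverted_conj hu hu2 hsH hs hyH hy
    have hui : u⁻¹ = u := inv_eq_of_mul_eq_one_right hS.mul_self
    obtain ⟨χ, hχ, n, hn⟩ := Block.exists_irr_of_rankOne hS (s := u * d) (t := u)
      (by rw [hui] at hd1; rw [← mul_assoc, hd1, inv_mul_cancel]) hS.mul_self
      (by rw [mul_smul, Bender.smul_pt.2 hd]) rfl (fun h => by
        rw [mul_eq_left] at h
        rw [h, one_mul, inv_one, mul_one] at hd2
        exact hxy (by simpa using hd2))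
    rw [Bender.stab_pt, hind] at hn
    have hd : charDegree χ = p ^ r * n := by
      have := BlockB.charDegree_eq (Char.irr_isCharacter hχ)
      rw [hn] at this
      exact_mod_cast this
    have hdv : charDegree χ ∣ Nat.card G := BlockB.charDegree_dvd_card ⟨χ, hχ⟩
    have hpH : ¬ p ∣ Nat.card H := by
      intro h
      obtain ⟨z, hz, hzo⟩ := Loc.exists_orderOf_eq_of_dvd_card h
      obtain ⟨P, hP⟩ := (Loc.isPGroup_zpowers_of_orderOf (k := 1)
        (by rw [hzo, pow_one])).exists_le_sylow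
      have := hreg P ω z (hP (mem_zpowers z)) hz
      rw [this, orderOf_one] at hzo
      exact hp.ne_one hzo.symm
    have hG0 : Nat.card G ≠ 0 := Nat.card_pos.ne'
    have hd0 : charDegree χ ≠ 0 := fun h => hG0 (by rw [h] at hdv; exact Nat.eq_zero_of_zero_dvd hdv)
    refine h0 ⟨⟨χ, hχ⟩, le_antisymm ((Nat.factorization_le_iff_dvd hd0 hG0).2 hdv p) ?_⟩
    have e : (Nat.card G).factorization p = r := by
      rw [← hmul, Nat.factorization_mul Nat.card_pos.ne' (pow_ne_zero _ hp.ne_zero),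
        Finsupp.add_apply, Nat.factorization_eq_zero_of_not_dvd hpH, hp.factorization_pow]
      simp
    rw [e]
    exact (hp.pow_dvd_iff_le_factorization hd0).1 ⟨n, hd⟩
  · have h1 := Bender.rank_one_sup r2 (Bender.iv_iff.2 ht₀)
    have hs : IsPSolvable p G := by
      have : Group.IsSolvable (oddCore G) := Hyp.isSolvable_of_odd Bender.oddCore_odd
      refine Solv.isPSolvable_of_normal_of_quotient (oddCore G)
        (Solv.isPSolvable_of_isSolvable p) (PLocal.isPSolvable_of_coprime ?_)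
      have h2 : ¬ p ∣ Nat.card (centralizer ({t₀} : Set G)) := by
        intro h
        obtain ⟨z, hz, hzo⟩ := Loc.exists_orderOf_eq_of_dvd_card h
        have := hC' t₀ z ht₀ ⟨1, by rw [hzo, pow_one]⟩ (mem_centralizer_singleton_iff.1 hz).symm
        rw [this, orderOf_one] at hzo
        exact hp.ne_one hzo.symm
      have h3 : (centralizer ({t₀} : Set G)).map (QuotientGroup.mk' (oddCore G)) = ⊤ := by
        have h4 := congrArg (Subgroup.map (QuotientGroup.mk' (oddCore G))) h1
        rwa [Subgroup.map_sup, map_top_of_surjective _ (QuotientGroup.mk'_surjective _),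
          (Subgroup.map_eq_bot_iff _).2 (QuotientGroup.ker_mk' _).ge, bot_sup_eq] at h4
      have h4 := card_map_dvd (centralizer ({t₀} : Set G)) (QuotientGroup.mk' (oddCore G))
      rw [h3, card_top] at h4
      exact (hp.coprime_iff_not_dvd.2 fun h => h2 (h.trans h4)).symm
    refine ⟨hs, (Cfsg.Agent.S4743.result p 2 hp2 hpG h2G (fun g h1 h2 h3 => ?_)
      (Or.inl hs)).resolve_left h0⟩
    exact Nat.not_even_iff_odd.2 (hC g h1 h2) (even_iff_two_dvd.2 h3)

end Cfsg.Agent.S4745
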