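import Cfsg.Statements.S4746
import Cfsg.Agent.Block.Zero

set_option autoImplicit false
open Cfsg

namespace Cfsg.Agent.S4746

open CF.Block CF

/-- Let p be an odd prime and G a finite group of even order divisible by p in which the centralizer of every non-identity p-element has odd order. Then G has an irreducible character of p-defect zero or an irreducible character of even degree. -/
theorem result {G : Type*} [Group G] [Finite G] (p : ℕ) [Fact p.Prime] (hp2 : p ≠ 2) (hpG : p ∣ Nat.card G) (h2G : 2 ∣ Nat.card G) (hC : ∀ g : G, g ≠ 1 → (∃ k : ℕ, orderOf g = p ^ k) → Odd (Nat.card ↥(Subgroup.centralizer ({g} : Set G)))) : (∃ χ : Cfsg.IrrCharacter G, (Cfsg.charDegree (χ : G → ℂ)).factorization p = (Nat.card G).factorization p) ∨ ∃ χ : Cfsg.IrrCharacter G, Even (Cfsg.charDegree (χ : G → ℂ)) := by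
  refine or_iff_not_imp_left.2 fun h0 => ?_
  obtain ⟨t, ht⟩ := Invol.exists_invol_of_even (G := G) (even_iff_two_dvd.2 h2G)
  obtain ⟨u, hu⟩ := exists_prime_orderOf_dvd_card' p hpG
  have hu' : ∃ n, orderOf u = p ^ n := ⟨1, by rw [hu, pow_one]⟩
  obtain ⟨P, hP⟩ := (BlockB.isPGroup_zpowers hu').exists_le_sylow
  obtain ⟨s, hs, h1, h2⟩ := exists_sylow_inverted_of_no_zero (hC_of_odd hC) h0 ht P
  have hu1 : u ≠ 1 := fun h => (Fact.out : p.Prime).ne_one (by rw [← hu, h, orderOf_one])
  exact exists_even_degree hu1 (isConj_iff.2 ⟨s, h2 u (hP (Subgroup.mem_zpowers u))⟩)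
    (hC u hu1 hu')

end Cfsg.Agent.S4746
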