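import Cfsg.Statements.S4748
import Cfsg.Agent.Char.TIP

set_option autoImplicit false
open scoped Pointwise
open Cfsg

namespace Cfsg.Agent.S4748

open CF CF.Char CF.BG Subgroup in
/-- Let G be a finite p-solvable group whose Sylow p-subgroup P meets each conjugate g P g⁻¹ with g outside N_G(P) trivially, and let χ be a faithful character of G (χ g = χ 1 only for g = 1) whose degree d satisfies d² ≤ |P|. Then P is normal in G. -/
theorem result {G : Type*} [Group G] [Finite G] (p : ℕ) [Fact p.Prime] (hsolv : Cfsg.IsPSolvable p G) (P : Sylow p G) (hTI : ∀ g : G, g ∉ Subgroup.normalizer ((P : Subgroup G) : Set G) → (P : Subgroup G) ⊓ (MulAut.conj g • (P : Subgroup G)) = ⊥) (χ : G → ℂ) (hχ : Cfsg.IsCharacter G χ) (hfaith : ∀ g : G, χ g = χ 1 → g = 1) (hdeg : Cfsg.charDegree χ ^ 2 ≤ Nat.card ↥(P : Subgroup G)) : (P : Subgroup G).Normal := by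
  refine normal_of_ti hsolv (syl_sylow_top P) (fun x hx n g hg => by_contra fun w => n ?_) hχ
    ((BlockB.Ord.charKer_eq_bot_iff hχ).2 hfaith) (BlockB.charDegree_eq hχ).symm hdeg
  have : g * x * g⁻¹ ∈ (⊥ : Subgroup G) :=
    hTI g w ▸ mem_inf.2 ⟨hg, cj_eq_smul g (P : Subgroup G) ▸ conj_mem_cj.2 hx⟩
  simpa using this

end Cfsg.Agent.S4748
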