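import Cfsg.Statements.S4754
import Cfsg.Agent.BlockB.Ord1
-- import your own Cfsg.Agent.* helpers here

set_option autoImplicit false
open Cfsg

namespace Cfsg.Agent.S4754

/-- For elements x, y of a finite group G, the conjugacy class of x y equals the set of all products of a conjugate of x with a conjugate of y if and only if χ(1) χ(a x a⁻¹ b y b⁻¹) = χ(x) χ(y) for all a, b ∈ G and every irreducible character χ. -/
theorem result {G : Type*} [Group G] [Finite G] (x y : G) : (∀ z : G, IsConj (x * y) z ↔ ∃ a b : G, z = a * x * a⁻¹ * (b * y * b⁻¹)) ↔ ∀ (a b : G) (χ : Cfsg.IrrCharacter G), (χ : G → ℂ) 1 * (χ : G → ℂ) (a * x * a⁻¹ * (b * y * b⁻¹)) = (χ : G → ℂ) x * (χ : G → ℂ) y := by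
  have := Fintype.ofFinite G
  constructor
  · intro h a b χ
    have hc := CF.Char.irr_isClassFunction χ.2
    have h1 : ∀ a b : G, (χ : G → ℂ) (a * x * a⁻¹ * (b * y * b⁻¹)) = (χ : G → ℂ) (x * y) :=
      fun a b => (CF.Char.classFun_of_isConj hc ((h _).2 ⟨a, b, rfl⟩)).symm
    have h2 := CF.Char.sum_irr_conj_mul χ.2 x y
    rw [Finset.sum_congr rfl (g := fun _ => (χ : G → ℂ) (x * y)) fun a _ => by simpa using h1 a 1,
      Finset.sum_const, Finset.card_univ, ← Nat.card_eq_fintype_card, nsmul_eq_mul,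
      eq_div_iff (CF.Char.irr_one_ne_zero χ.2), mul_assoc, mul_assoc] at h2
    rw [h1, mul_comm]
    exact mul_left_cancel₀ CF.Char.card_ne_zero_complex h2
  · intro h z
    constructor
    · intro hz
      obtain ⟨c, rfl⟩ := isConj_iff.1 hz
      exact ⟨c, c, by group⟩
    · rintro ⟨a, b, rfl⟩
      refine (CF.Char.isConj_iff_irr_eq _ _).2 fun χ => ?_
      refine mul_left_cancel₀ (CF.Char.irr_one_ne_zero χ.2) ?_
      rw [h a b χ, ← h 1 1 χ]
      simp

end Cfsg.Agent.S4754
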