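import Cfsg.Statements.S4755
import Cfsg.Agent.BlockB.Ord1
import Cfsg.Agent.S4754
-- import your own Cfsg.Agent.* helpers here

set_option autoImplicit false
open Cfsg

namespace Cfsg.Agent.S4755

/-- Let x, y be non-identity elements of the finite group G such that χ(x' y') = χ(x') χ(y') for all conjugates x' of x, y' of y and every irreducible character χ. Then the conjugacy class of x y is the set of all products of a conjugate of x with a conjugate of y; every irreducible character of degree greater than 1 vanishes at x y; and the conjugacy class of x y is the coset of the commutator subgroup containing x y. -/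
theorem result {G : Type*} [Group G] [Finite G] (x y : G) (hx : x ≠ 1) (hy : y ≠ 1) (h : ∀ (a b : G) (χ : Cfsg.IrrCharacter G), (χ : G → ℂ) (a * x * a⁻¹ * (b * y * b⁻¹)) = (χ : G → ℂ) (a * x * a⁻¹) * (χ : G → ℂ) (b * y * b⁻¹)) : (∀ z : G, IsConj (x * y) z ↔ ∃ a b : G, z = a * x * a⁻¹ * (b * y * b⁻¹)) ∧ (∀ χ : Cfsg.IrrCharacter G, (χ : G → ℂ) 1 ≠ 1 → (χ : G → ℂ) (x * y) = 0) ∧ (∀ z : G, IsConj (x * y) z ↔ (x * y)⁻¹ * z ∈ commutator G) := by
  have h0 : ∀ (a b : G) (χ : IrrCharacter G), (χ : G → ℂ) (a * x * a⁻¹ * (b * y * b⁻¹)) =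
      (χ : G → ℂ) x * (χ : G → ℂ) y := fun a b χ => by
    rw [h, CF.Char.irr_isClassFunction χ.2, CF.Char.irr_isClassFunction χ.2]
  have h1 : ∀ z : G, IsConj (x * y) z ↔ ∃ a b : G, z = a * x * a⁻¹ * (b * y * b⁻¹) := by
    intro z
    constructor
    · intro hz
      obtain ⟨c, rfl⟩ := isConj_iff.1 hz
      exact ⟨c, c, by group⟩
    · rintro ⟨a, b, rfl⟩
      refine (CF.Char.isConj_iff_irr_eq _ _).2 fun χ => ?_
      rw [h0 a b χ, ← h0 1 1 χ]
      simp
  have h2 : ∀ χ : IrrCharacter G, (χ : G → ℂ) 1 ≠ 1 → (χ : G → ℂ) (x * y) = 0 := by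
    intro χ hχ
    have h3 := (Cfsg.Agent.S4754.result x y).1 h1 1 1 χ
    rw [← h0 1 1 χ] at h3
    simp only [one_mul, inv_one, mul_one] at h3
    exact (mul_left_eq_self₀.1 h3).resolve_left hχ
  refine ⟨h1, h2, fun z => ⟨fun hz => ?_, fun hz => ?_⟩⟩
  · obtain ⟨c, rfl⟩ := isConj_iff.1 hz
    have := Subgroup.commutator_mem_commutator (Subgroup.mem_top (x * y)⁻¹) (Subgroup.mem_top c)
    rw [commutatorElement_def, inv_inv] at this
    rw [show (x * y)⁻¹ * (c * (x * y) * c⁻¹) = (x * y)⁻¹ * c * (x * y) * c⁻¹ by group]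
    exact this
  · refine CF.BlockB.Ord.isConj_of_eq_or_zero fun χ hχ => ?_
    by_cases h1 : χ 1 = 1
    · right
      have hc := CF.Char.irr_isCharacter hχ
      have := CF.Char.char_mul_of_eq_one' hc ((CF.Char.mem_charKer_iff hc).1
        (CF.Char.commutator_le_charKer_of_one hc h1 hz)) (x * y)
      rwa [mul_inv_cancel_left] at this
    · exact .inl (h2 ⟨χ, hχ⟩ h1)

end Cfsg.Agent.S4755
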