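import Cfsg.Statements.S4757
import Cfsg.Agent.BlockB.Ord4
import Cfsg.Agent.Fgs1.Extra
import Cfsg.Agent.Coprime.SemiReg
-- import your own Cfsg.Agent.* helpers here

set_option autoImplicit false
open Cfsg
open scoped ComplexOrder

namespace Cfsg.Agent.S4757

/-- Let u ≠ 1 be an element of the finite group G and c a complex number such that every non-principal irreducible character χ satisfies χ(1) − χ(u) = c or χ(u) = 0. Then the following are equivalent: (a) u has order 2, G is generated by u together with O(G), the largest normal subgroup of G of odd order, and the centralizer of u is {1, u}; (b) G is not perfect; (c) c = 2. -/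
theorem result {G : Type*} [Group G] [Finite G] (u : G) (hu : u ≠ 1) (c : ℂ) (hyp : ∀ χ : Cfsg.IrrCharacter G, (χ : G → ℂ) ≠ (fun _ => (1 : ℂ)) → ((χ : G → ℂ) 1 - (χ : G → ℂ) u = c ∨ (χ : G → ℂ) u = 0)) : ((orderOf u = 2 ∧ Subgroup.zpowers u ⊔ Cfsg.oddCore G = ⊤ ∧ Subgroup.centralizer ({u} : Set G) = Subgroup.zpowers u) ↔ commutator G ≠ ⊤) ∧ (commutator G ≠ ⊤ ↔ c = 2) := by
  classical
  set o := CF.Char.oneIrr G
  replace hyp : ∀ χ : IrrCharacter G, χ ≠ o →
      (χ : G → ℂ) u = charDegree (χ : G → ℂ) - c ∨ (χ : G → ℂ) u = 0 := fun χ h =>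
    (hyp χ fun e => h (Subtype.ext e)).imp_left fun e => by
      rw [← e, CF.BlockB.Ord.irr_deg_eq χ.2, sub_sub_cancel]
  have hs := CF.Char.sum_irr_one_mul_of_ne hu
  rw [← Finset.add_sum_erase _ _ (Finset.mem_univ o)] at hs
  simp only [CF.BlockB.Ord.irr_deg_eq (Subtype.property _)] at hs
  have ho : charDegree (o : G → ℂ) = 1 := CF.BlockB.Ord.deg_of_eq Nat.cast_one.symm
  rw [ho, show (o : G → ℂ) u = 1 from rfl, Nat.cast_one, one_mul] at hs
  have hlin : ∀ χ : IrrCharacter G, charDegree (χ : G → ℂ) = 1 → ‖(χ : G → ℂ) u‖ = 1 := by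
    intro χ h
    obtain ⟨l, hl⟩ := CF.Char.exists_linear_of_one (CF.Char.irr_isCharacter χ.2)
      ((CF.BlockB.Ord.deg_eq_one_iff (CF.Char.irr_isCharacter χ.2)).1 h)
    rw [hl]
    exact CF.Char.linear_norm l u
  have hlin' : ∀ χ : IrrCharacter G, charDegree (χ : G → ℂ) = 1 → χ ≠ o →
      (χ : G → ℂ) u = 1 - c := fun χ h1 h2 => by
    rcases hyp χ h2 with h | h
    · rw [h, h1, Nat.cast_one]
    · simpa [h] using hlin χ h1
  have hb : commutator G ≠ ⊤ ↔ ∃ χ : IrrCharacter G, χ ≠ o ∧ charDegree (χ : G → ℂ) = 1 := by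
    constructor
    · intro h
      obtain ⟨g, hg⟩ := not_forall.1 (mt (Subgroup.eq_top_iff' _).2 h)
      obtain ⟨χ, h1, h2, h3⟩ := CF.Char.exists_irr_le_charKer_not_mem _ hg
      refine ⟨⟨χ, h1⟩, fun e => h3 ?_, (CF.BlockB.Ord.deg_eq_one_iff
        (CF.Char.irr_isCharacter h1)).2 ((CF.Char.irr_one_eq_one_iff h1).2 h2)⟩
      rw [show χ = fun _ => 1 from congrArg Subtype.val e, CF.Char.charKer_one]
      trivial
    · rintro ⟨χ, h1, h2⟩ h
      exact h1 (Subtype.ext (CF.Char.irr_eq_one_of_charKer_eq_top χ.2 (eq_top_iff.2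
        (h.ge.trans ((CF.Char.irr_one_eq_one_iff χ.2).1 ((CF.BlockB.Ord.deg_eq_one_iff
          (CF.Char.irr_isCharacter χ.2)).1 h2))))))
  have hnn : c = 2 → ∀ χ : IrrCharacter G, χ ≠ o → charDegree (χ : G → ℂ) ≠ 1 →
      0 ≤ (charDegree (χ : G → ℂ) : ℂ) * (χ : G → ℂ) u := by
    rintro rfl χ h1 h2
    have := CF.BlockB.Ord.irr_deg_pos χ.2
    rcases hyp χ h1 with h | h
    · rw [h]
      exact mul_nonneg (Nat.cast_nonneg _) (sub_nonneg.2 (by exact_mod_cast (by omega)))
    · simp [h]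
  have hbc : commutator G ≠ ⊤ ↔ c = 2 := by
    rw [hb]
    constructor
    · rintro ⟨l, h1, h2⟩
      have h3 := hlin l h2
      rw [hlin' l h2 h1] at h3
      let S := (Finset.univ.erase o).filter fun χ : IrrCharacter G => (χ : G → ℂ) u ≠ 0
      have h4 : c * (∑ χ ∈ S, charDegree (χ : G → ℂ) : ℕ) =
          (1 + ∑ χ ∈ S, charDegree (χ : G → ℂ) ^ 2 : ℕ) := by
        rw [← Finset.sum_filter_of_ne (p := fun χ : IrrCharacter G => (χ : G → ℂ) u ≠ 0)
          (fun χ _ h => right_ne_zero_of_mul h), Finset.sum_congr rfl fun χ hχ => congrArg _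
            ((hyp χ (Finset.mem_erase.1 (Finset.mem_filter.1 hχ).1).1).resolve_right
              (Finset.mem_filter.1 hχ).2)] at hs
        simp only [mul_sub, Finset.sum_sub_distrib, ← Finset.sum_mul] at hs
        push_cast
        simp only [sq]
        linear_combination -hs
      have h5 : (1 + ∑ χ ∈ S, charDegree (χ : G → ℂ) ^ 2 : ℕ) ≠ (0 : ℂ) :=
        Nat.cast_ne_zero.2 (by omega)
      rw [← h4] at h5
      obtain ⟨x, rfl⟩ : ∃ x : ℝ, c = x := ⟨_, by
        rw [eq_div_of_mul_eq (right_ne_zero_of_mul h5) h4, ← Complex.ofReal_natCast,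
          ← Complex.ofReal_natCast, ← Complex.ofReal_div]⟩
      have h6 : x ≠ 0 := by simpa using left_ne_zero_of_mul h5
      rw [← Complex.ofReal_one, ← Complex.ofReal_sub, Complex.norm_real, Real.norm_eq_abs,
        abs_eq zero_le_one] at h3
      rcases h3 with h | h
      · exact absurd (by linarith) h6
      · rw [show x = 2 by linarith]
        simp
    · intro hc
      by_contra! h
      exact (add_pos_of_pos_of_nonneg zero_lt_one (Finset.sum_nonneg fun χ hχ =>
        hnn hc χ (Finset.mem_erase.1 hχ).1 (h χ (Finset.mem_erase.1 hχ).1))).ne' hs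
  refine ⟨⟨fun ⟨h1, h2, _⟩ h => ?_, fun h => ?_⟩, hbc⟩
  · have h3 : commutator G ≤ oddCore G := by
      rw [← QuotientGroup.ker_mk' (oddCore G)]
      have : IsCyclic (G ⧸ oddCore G) := by
        refine ⟨(u : G ⧸ oddCore G), fun x => ?_⟩
        have := congrArg (Subgroup.map (QuotientGroup.mk' (oddCore G))) h2
        rw [Subgroup.map_sup, QuotientGroup.map_mk'_self, sup_bot_eq, MonoidHom.map_zpowers,
          Subgroup.map_top_of_surjective _ (QuotientGroup.mk'_surjective _)] at this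
        exact this.ge (Subgroup.mem_top x)
      letI := IsCyclic.commGroup (α := G ⧸ oddCore G)
      exact Abelianization.commutator_subset_ker _
    exact CF.Solv.not_dvd_card_pPrimeCore (h1 ▸ Subgroup.orderOf_dvd_natCard _
      (h3 (h.ge (Subgroup.mem_top u))))
  have hc := hbc.1 h
  obtain ⟨l, h1, h2⟩ := hb.1 h
  have hl := CF.Char.irr_isCharacter l.2
  have hl1 := (CF.BlockB.Ord.deg_eq_one_iff hl).1 h2
  have hlu : (l : G → ℂ) u = -1 := by rw [hlin' l h2 h1, hc]; norm_num
  have huniq : ∀ m : IrrCharacter G, m ≠ o → charDegree (m : G → ℂ) = 1 →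
      (l : G → ℂ) * (m : G → ℂ) = fun _ => 1 := by
    intro m h3 h4
    have hm := CF.Char.irr_isCharacter m.2
    have h5 : ((l : G → ℂ) * (m : G → ℂ)) 1 = 1 := by
      rw [Pi.mul_apply, hl1, (CF.BlockB.Ord.deg_eq_one_iff hm).1 h4, one_mul]
    by_contra h6
    have := hlin' ⟨_, CF.Char.irr_of_one_eq_one (CF.Char.char_mul hl hm) h5⟩
      ((CF.BlockB.Ord.deg_eq_one_iff (CF.Char.char_mul hl hm)).2 h5)
      fun e => h6 (congrArg Subtype.val e)
    simp only [Pi.mul_apply, hlin' m h4 h3, hlu, hc] at this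
    norm_num at this
  have huniq' : ∀ m : IrrCharacter G, m ≠ o → charDegree (m : G → ℂ) = 1 → m = l := by
    intro m h3 h4
    refine Subtype.ext (funext fun g => ?_)
    have h5 := congrFun (huniq l h1 h2) g
    exact mul_left_cancel₀ (left_ne_zero_of_mul_eq_one h5)
      ((congrFun (huniq m h3 h4) g).trans h5.symm)
  have hmem : l ∈ Finset.univ.erase o := Finset.mem_erase.2 ⟨h1, Finset.mem_univ _⟩
  rw [← Finset.add_sum_erase _ _ hmem, h2, hlu, Nat.cast_one, one_mul, add_neg_cancel_left,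
    Finset.sum_eq_zero_iff_of_nonneg fun χ hχ => hnn hc χ (Finset.mem_erase.1
      (Finset.mem_erase.1 hχ).2).1 fun e => (Finset.mem_erase.1 hχ).1 (huniq' χ
        (Finset.mem_erase.1 (Finset.mem_erase.1 hχ).2).1 e)] at hs
  have h3 := CF.Char.sum_irr_norm_sq u
  rw [← Finset.add_sum_erase _ _ (Finset.mem_univ o), ← Finset.add_sum_erase _ _ hmem,
    Finset.sum_eq_zero fun χ hχ => by
      simpa [(CF.BlockB.Ord.irr_deg_pos χ.2).ne'] using hs χ hχ, hlu,
    show (o : G → ℂ) u = 1 from rfl] at h3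
  have h4 : Nat.card (Subgroup.centralizer ({u} : Set G)) = 2 := by
    norm_num at h3
    exact_mod_cast h3.symm
  have h5 : Subgroup.zpowers u ≤ Subgroup.centralizer {u} :=
    Subgroup.zpowers_le.2 (Subgroup.mem_centralizer_singleton_iff.2 rfl)
  have h6 : Subgroup.zpowers u = Subgroup.centralizer {u} :=
    (CF.Fgs1.eq_bot_or_eq_of_card_prime (h4 ▸ Nat.prime_two) h5).resolve_left (by simpa using hu)
  have h7 : orderOf u = 2 := by rw [← Nat.card_zpowers, h6, h4]
  have h8 : u ∉ commutator G := fun e => by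
    rw [(CF.Char.mem_charKer_iff hl).1 ((CF.Char.irr_one_eq_one_iff l.2).1 hl1 e), hl1] at hlu
    norm_num at hlu
  have h9 : (commutator G).index = 2 := by
    rw [← CF.Char.card_irr_one_eq_one, Nat.subtype_card {o, l} fun χ => ?_,
      Finset.card_pair h1.symm]
    rw [Finset.mem_insert, Finset.mem_singleton, ← CF.BlockB.Ord.deg_eq_one_iff
      (CF.Char.irr_isCharacter χ.2)]
    exact ⟨fun e => e.elim (· ▸ ho) (· ▸ h2), fun e => or_iff_not_imp_left.2 (huniq' χ · e)⟩
  have h10 : commutator G ⊓ Subgroup.centralizer {u} = ⊥ :=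
    (CF.Fgs1.eq_bot_or_eq_of_card_prime (h4 ▸ Nat.prime_two) inf_le_right).resolve_right
      fun e => h8 (e.ge (h5 (Subgroup.mem_zpowers u))).1
  have h11 := (CF.Coprime.semiReg_zpowers_of_prime (h7 ▸ Nat.prime_two) h10).coprime
    Subgroup.le_normalizer_of_normal
  rw [Nat.card_zpowers, h7] at h11
  refine ⟨h7, eq_top_iff.2 ?_, h6.symm⟩
  rw [← CF.Fgs1.sup_zpowers_eq_top (h9 ▸ Nat.prime_two) h8, sup_comm]
  exact sup_le_sup_left (CF.Solv.le_pPrimeCore h11.symm) _

end Cfsg.Agent.S4757
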