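import Cfsg.Statements.S4759
import Cfsg.Agent.DG.Xt2
import Cfsg.Agent.Hyp.FTProof

set_option autoImplicit false
open Cfsg Subgroup CF.BG CF.Clifford CF.Char

namespace Cfsg.Agent.S4759

/-- Let G be a finite group that is the semidirect product of a normal extraspecial 2-subgroup E and a complement H acting faithfully on E (no non-identity element of H centralizes E), and suppose H has a normal subgroup K of odd order with [E, K] = E. Then every faithful irreducible character θ of E (there is exactly one) extends to G: some irreducible character of G restricts to θ on E. -/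
theorem result {G : Type*} [Group G] [Finite G] (E H : Subgroup G) [E.Normal] (hE : Cfsg.IsExtraspecial 2 ↥E) (hEH : E ⊓ H = ⊥) (hEHtop : E ⊔ H = ⊤) (hfaith : ∀ h ∈ H, (∀ e ∈ E, h * e = e * h) → h = 1) (K : Subgroup G) (hKH : K ≤ H) (hKn : ∀ h ∈ H, ∀ k ∈ K, h * k * h⁻¹ ∈ K) (hKodd : Odd (Nat.card ↥K)) (hEK : ⁅E, K⁆ = E) (θ : Cfsg.IrrCharacter ↥E) (hθ : ∀ e : ↥E, (θ : ↥E → ℂ) e = (θ : ↥E → ℂ) 1 → e = 1) : ∃ χ : Cfsg.IrrCharacter G, ∀ e : ↥E, (χ : G → ℂ) e = (θ : ↥E → ℂ) e := by
  obtain ⟨⟨p2, -, hc⟩, hz⟩ := hE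
  have k : charKer (θ : E → ℂ) = ⊥ := eq_bot_iff.2 fun e he =>
    mem_bot.2 (hθ e ((mem_charKer_iff (irr_isCharacter θ.2)).1 he))
  have nE : ∀ X : Subgroup G, X ≤ 𝐍 E := fun X => le_normalizer_of_normal
  obtain ⟨j, hj⟩ := IsPGroup.iff_card.1 p2
  have c : (♯K).Coprime (♯E) := hj ▸ (Nat.coprime_two_right.2 hKodd).pow_right j
  obtain ⟨χ, x, y⟩ := CF.DG.ext_sd _ G E H K rfl ⟨nE H, hEHtop, hEH⟩ hKH
    (fun h hh => mem_normalizer_fintype fun k hk => hKn h hh k hk) (CF.Hyp.isSolvable_of_odd hKodd) c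
    (Abel.mono (show Abel ⁅E, E⁆ by
      rw [← map_subtype_commutator, hc]
      exact Abel.map (fun _ u _ v => mem_center_iff.1 u _) _) (inf_cent_le_der (nE K) c hEK.ge)) θ θ.2
    fun g n => by
      have v := fun n => irr_eq_zero_of_not_mem_center θ.2 hc.le (x := n) (by rw [k, inf_bot_eq])
      have m : ∀ (g : G) (n : E), n ∈ center E → (NormalEmb.sub E).c g n ∈ center E := fun g n w =>
        mem_center_iff.2 fun z => by
          obtain ⟨z, rfl⟩ := ((NormalEmb.sub E).c g).surjective z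
          rw [← map_mul, ← map_mul, mem_center_iff.1 w]
      by_cases w : n ∈ center E
      · obtain ⟨z, -, hz⟩ := (Nat.card_eq_two_iff' (1 : center E)).1 hz
        by_cases n1 : n = 1
        · rw [n1, map_one]
        · rw [show (NormalEmb.sub E).c g n = n from congrArg Subtype.val ((hz ⟨_, m g n w⟩ fun e =>
            n1 ((map_eq_one_iff _ (MulEquiv.injective _)).1 (congrArg Subtype.val e))).trans
              (hz ⟨n, w⟩ fun e => n1 (congrArg Subtype.val e)).symm)]
      · rw [v n w, v _ fun u => w (by simpa using m g⁻¹ _ u)]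
  exact ⟨⟨χ, x⟩, y⟩

end Cfsg.Agent.S4759
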