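import Cfsg.Statements.S4762
import Cfsg.Agent.BlockB.Ord4
import Cfsg.Agent.Fgs1.Extra
import Cfsg.Agent.S0894
import Cfsg.Agent.Solv.FrattiniP
-- import your own Cfsg.Agent.* helpers here

set_option autoImplicit false
open Cfsg

namespace Cfsg.Agent.S4762

/-- Let p be a prime and G a finite nilpotent group. Then G has exactly one irreducible complex character of degree divisible by p if and only if p = 2 and G is an extraspecial 2-group. -/
theorem result {G : Type*} [Group G] [Finite G] [Group.IsNilpotent G] (p : ℕ) [Fact p.Prime] : Nat.card {χ : Cfsg.IrrCharacter G // p ∣ Cfsg.charDegree (χ : G → ℂ)} = 1 ↔ (p = 2 ∧ Cfsg.IsExtraspecial 2 G) := by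
  classical
  have hp := (Fact.out : p.Prime)
  have hd : ∀ {H : Type _} [Group H] [Finite H], IsPGroup p H → ∀ χ : H → ℂ, IsIrrCharacter H χ →
      χ 1 ≠ 1 → p ∣ charDegree χ := fun hH χ hχ h => by
    obtain ⟨k, hk⟩ := hH.exists_card_eq
    obtain ⟨j, -, hj⟩ := (Nat.dvd_prime_pow hp).1 (hk ▸ CF.BlockB.Ord.irr_deg_dvd_card hχ)
    refine hj ▸ dvd_pow_self _ ?_
    rintro rfl
    exact h ((CF.BlockB.Ord.deg_eq_one_iff (CF.Char.irr_isCharacter hχ)).1 hj)
  constructor
  · intro h
    obtain ⟨⟨χ, hχ⟩, hu⟩ := Nat.card_eq_one_iff_exists.1 h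
    replace hu : ∀ ψ, IsIrrCharacter G ψ → p ∣ charDegree ψ → ψ = χ := fun ψ h1 h2 =>
      congrArg (fun x => (x.1 : G → ℂ)) (hu ⟨⟨ψ, h1⟩, h2⟩)
    have hPQ := CF.Solv.pCore_sup_pPrimeCore (G := G) p
    have hi : ¬ p ∣ (pCore p G).index := by
      obtain ⟨P⟩ : Nonempty (Sylow p G) := inferInstance
      exact CF.Solv.not_dvd_index_of_sylow_le P (CF.Solv.le_pCore_of_isNilpotent P.isPGroup')
    have hq : IsPGroup p (G ⧸ pPrimeCore p G) := by
      have := (CF.Solv.pCore_isPGroup (p := p) (G := G)).map (QuotientGroup.mk' (pPrimeCore p G))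
      rw [(Subgroup.map_eq_map_iff (K := ⊤)).2 (by simp [hPQ]), Subgroup.map_top_of_surjective _
        (QuotientGroup.mk'_surjective _)] at this
      exact this.of_equiv Subgroup.topEquiv
    have h1 : pPrimeCore p G ≤ CF.Char.charKer (χ : G → ℂ) := by
      by_contra h1
      refine hi (hχ.trans (CF.Clifford.irr_one_dvd_index_of_normal_comm _ (fun a ha b hb => ?_) χ.2
        (CF.BlockB.Ord.irr_deg_eq χ.2)))
      have h2 : ∀ a b : G ⧸ pPrimeCore p G, a * b = b * a := by
        rw [CF.Clifford.comm_iff_irr_one]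
        intro ψ hψ
        by_contra h2
        rw [← hu _ (CF.Char.irr_inflate _ hψ) (hd hq ψ hψ h2)] at h1
        exact h1 (CF.Char.le_charKer_inflate _ _)
      have h3 : a * b * (b * a)⁻¹ ∈ pCore p G ⊓ pPrimeCore p G :=
        Subgroup.mem_inf.2 ⟨mul_mem (mul_mem ha hb) (inv_mem (mul_mem hb ha)), by
          rw [← QuotientGroup.eq_one_iff]
          simp only [QuotientGroup.mk_mul, QuotientGroup.mk_inv]
          rw [h2 a, mul_inv_cancel]⟩
      rwa [CF.Solv.pCore_inf_pPrimeCore, Subgroup.mem_bot, mul_inv_eq_one] at h3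
    have hG : IsPGroup p G := by
      rw [← CF.Solv.pCore_eq_top_iff]
      refine frattini_nongenerating (eq_top_iff.2 (le_trans (fun g _ => ?_)
        (sup_le_sup_left CF.Solv.commutator_le_frattini _)))
      by_contra hg
      obtain ⟨l, hl, h2, h3⟩ := CF.Char.exists_irr_le_charKer_not_mem _ hg
      obtain ⟨lam, rfl⟩ := CF.Char.exists_linear_of_one (CF.Char.irr_isCharacter hl)
        ((CF.Char.irr_one_eq_one_iff hl).2 (le_sup_right.trans h2))
      have h4 := hu _ (CF.Char.irr_mul_linear χ.2 lam) (by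
        rwa [CF.BlockB.Ord.deg_of_eq (n := charDegree (χ : G → ℂ))
          (by simp [CF.BlockB.Ord.irr_deg_eq χ.2])])
      refine h3 ((hPQ.ge.trans (sup_le (le_sup_left.trans h2) fun q hq => ?_)) (Subgroup.mem_top g))
      have h5 := congrFun h4 q
      rw [(CF.Char.mem_charKer_iff (CF.Char.irr_isCharacter χ.2)).1 (h1 hq),
        mul_right_eq_self₀, or_iff_left (CF.Char.irr_one_ne_zero χ.2)] at h5
      rw [CF.Char.mem_charKer_iff (CF.Char.irr_isCharacter hl), h5]
      simp
    have h2 : (commutator G).index + charDegree (χ : G → ℂ) ^ 2 = Nat.card G := by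
      rw [← CF.BlockB.Ord.sum_deg_sq, ← Finset.add_sum_erase _ _ (Finset.mem_univ χ), add_comm,
        ← CF.Char.card_irr_one_eq_one, Nat.subtype_card (Finset.univ.erase χ) fun ψ => ?_,
        Finset.card_eq_sum_ones, Finset.sum_congr rfl fun ψ hψ => ?_]
      · by_contra h2
        refine (Finset.mem_erase.1 hψ).1 (Subtype.ext (hu _ ψ.2 (hd hG _ ψ.2 fun h3 => h2 ?_)))
        rw [(CF.BlockB.Ord.deg_eq_one_iff (CF.Char.irr_isCharacter ψ.2)).2 h3, one_pow]
      · rw [Finset.mem_erase, and_iff_left (Finset.mem_univ _)]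
        refine ⟨fun h2 => by_contra fun h3 => h2 (Subtype.ext (hu _ ψ.2 (hd hG _ ψ.2 h3))), ?_⟩
        rintro h2 rfl
        rw [(CF.BlockB.Ord.deg_eq_one_iff (CF.Char.irr_isCharacter ψ.2)).2 h2] at hχ
        exact hp.not_dvd_one hχ
    obtain ⟨k, hk⟩ := hG.exists_card_eq
    obtain ⟨j, -, hj⟩ := (Nat.dvd_prime_pow hp).1 (hk ▸ CF.BlockB.Ord.irr_deg_dvd_card χ.2)
    obtain ⟨i, hi⟩ := (hG.to_subgroup (commutator G)).exists_card_eq
    have h3 : (p ^ i - 1) * (commutator G).index = p ^ (j * 2) := by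
      rw [← (commutator G).card_mul_index, hi, hj, ← pow_mul] at h2
      rw [Nat.sub_mul]
      omega
    have hi0 : i ≠ 0 := by
      rintro rfl
      exact (pow_pos hp.pos (j * 2)).ne (by simpa using h3)
    have h4 : p ^ i - 1 = 1 := Nat.Coprime.eq_one_of_dvd (Nat.Coprime.pow_right _
      ((Nat.coprime_self_sub_left (Nat.one_le_pow _ _ hp.pos)).2 (Nat.coprime_one_left _)
        |>.coprime_dvd_right (dvd_pow_self p hi0))) (Dvd.intro _ h3)
    have h5 : p ^ i = 2 := by omega
    obtain rfl : p = 2 := (Nat.prime_dvd_prime_iff_eq hp Nat.prime_two).1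
      (h5 ▸ dvd_pow_self p hi0)
    rw [h5] at hi
    have h6 : commutator G ≤ Subgroup.center G := by
      refine inf_eq_left.1 ((CF.Fgs1.eq_bot_or_eq_of_card_prime (hi ▸ hp) inf_le_left).resolve_left
        (CF.Solv.normal_inf_center_ne_bot _ fun h => ?_))
      rw [h, Subgroup.card_bot] at hi
      omega
    have h7 : commutator G = Subgroup.center G := by
      refine Subgroup.eq_of_le_of_card_ge h6 (Nat.le_of_mul_le_mul_right ?_ (Nat.pos_of_ne_zero
        (Subgroup.index_ne_zero_of_finite (H := commutator G))))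
      rw [Subgroup.card_mul_index, ← (Subgroup.center G).card_mul_index]
      refine Nat.mul_le_mul_left _ ?_
      rw [h4, one_mul, pow_mul, ← hj] at h3
      exact h3.le.trans ((CF.Char.irr_one_sq_le_index χ.2 (CF.BlockB.Ord.irr_deg_eq χ.2)).trans
        (Subgroup.index_antitone (CF.Char.center_le_charCenter χ.2)))
    refine ⟨rfl, ⟨hG, le_antisymm ((CF.Solv.frattini_le_iff_of_isPGroup hG).2 ⟨h6, fun x => ?_⟩)
      (h7.ge.trans CF.Solv.commutator_le_frattini), h7⟩, h7 ▸ hi⟩
    refine Subgroup.mem_center_iff.2 fun y => ?_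
    have h8 : x * y * x⁻¹ * y⁻¹ ∈ commutator G :=
      Subgroup.commutator_mem_commutator (Subgroup.mem_top x) (Subgroup.mem_top y)
    have h9 := congrArg Subtype.val (pow_card_eq_one' (x := (⟨_, h8⟩ : commutator G)))
    rw [hi, Subgroup.coe_pow, Subgroup.coe_one, sq] at h9
    have h10 := Subgroup.mem_center_iff.1 (h6 h8) x
    calc y * x ^ 2 = (x * y * x⁻¹ * y⁻¹ * (x * y * x⁻¹ * y⁻¹)) * y * x ^ 2 := by rw [h9, one_mul]
      _ = (x * y * x⁻¹ * y⁻¹) * x * y * x := by group
      _ = x ^ 2 * y := by rw [← h10, sq]; group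
  · rintro ⟨rfl, h⟩
    obtain ⟨n, hn, hc⟩ := CF.Fgs1.card_of_extraspecial h
    obtain ⟨h1, h2⟩ := Cfsg.Agent.S0894.result 2 n h (by rw [hc, add_comm])
    refine (Nat.card_congr (Equiv.subtypeEquivRight fun χ => ⟨fun h3 => (h1 χ).resolve_left
      fun h4 => ?_, fun h3 => ?_⟩)).trans h2
    · rw [(CF.BlockB.Ord.deg_eq_one_iff (CF.Char.irr_isCharacter χ.2)).2 h4] at h3
      omega
    · rw [CF.BlockB.Ord.deg_of_eq (n := 2 ^ n) (by rw [h3, Nat.cast_pow])]
      exact dvd_pow_self _ (by omega)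

end Cfsg.Agent.S4762
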