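import Cfsg.Statements.S4763
import Cfsg.Agent.PLocal.ChB
import Cfsg.Agent.PLocal.NPC
import Cfsg.Agent.Char.RealOdd

set_option autoImplicit false
open Cfsg

namespace Cfsg.Agent.S4763

open Subgroup CF.BG CF.Char CF.Clifford CF.RealP in
theorem abel {G : Type*} [Group G] [Finite G] {p : ℕ} [Fact p.Prime] (hnil : ¬ Group.IsNilpotent G)
    {N P : Subgroup G} [N.Normal] (sd : SDProd N P ⊤) (hN : PiGrp {p}ᶜ N) (hP : PiGrp {p} P)
    (hu : ∀ χ ψ, IsIrrCharacter G χ → IsIrrCharacter G ψ → p ∣ charDegree χ → p ∣ charDegree ψ →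
      χ = ψ) : Abel P := by
  have hp : p.Prime := Fact.out
  by_contra hab
  obtain ⟨f, hf, hk⟩ := exists_retract sd.sup sd.inf
  have hfs : Function.Surjective f := fun x => ⟨x, hf x⟩
  obtain ⟨β, hβ, h1⟩ : ∃ β, IsIrrCharacter P β ∧ β 1 ≠ 1 := by
    by_contra! hc
    exact hab (abel_of_forall fun x hx y hy =>
      congrArg Subtype.val (comm_iff_irr_one.2 hc ⟨x, hx⟩ ⟨y, hy⟩))
  have h2 : p ∣ charDegree β := by
    by_contra hd
    obtain ⟨μ, k1, k2, k3⟩ := exists_linear_under hP.isPGroup (MonoidHom.id P)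
      (irr_isCharacter hβ) hd
    have := Fintype.ofFinite P
    have e0 := (ov_iff (j := MonoidHom.id P) (θ := μ) (χ := β)).1 k2
    simp only [MonoidHom.id_apply] at e0
    have e : β = μ := irr_eq_of_inner_ne_zero hβ k1 e0
    exact h1 (e ▸ k3)
  have h3 := irr_comp_of_surjective hβ f hfs
  have h4 : p ∣ charDegree fun g => β (f g) := by rwa [charDegree, map_one]
  have h5 : ∀ n : N, β (f n) = β 1 := fun n => by
    rw [MonoidHom.mem_ker.1 (hk.ge n.2)]
  have hi : PiNat {p} N.index := by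
    rw [← relIndex_top_right, sd.relIndex_left]; exact hP
  have key : ∀ θ, IsIrrCharacter N θ → θ = fun _ => 1 := fun θ hθ => by
    obtain ⟨χ, hχ, o⟩ := exists_irr_ov N.subtype N.subtype_injective hθ
    by_cases hd : p ∣ charDegree χ
    · rw [hu _ _ hχ h3 hd h4] at o
      exact (o.eq_of_smul irr_one hθ (c := β 1) (funext fun n => by simpa using h5 n)).symm
    have hT : ((NormalEmb.sub N).inertia θ).index = 1 :=
      (hi.dvd (index_dvd_of_le ((range_subtype N).ge.trans
        ((NormalEmb.sub N).range_le_inertia (irr_isClassFunction hθ))))).eq_one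
        ((piNat_compl_single hp).2 fun h => hd (h.trans ((Dvd.intro _ rfl).trans
          (index_inertia_dvd (E := NormalEmb.sub N) o hχ hθ))))
    obtain ⟨η, hη, e⟩ := (NormalEmb.sub N).exists_ext_of_coprime_card hθ
      ((NormalEmb.sub N).invariant_iff_inertia.2 (index_eq_one.1 hT))
      (by rw [NormalEmb.index_sub]; exact hi.coprime hN)
    have h6 := (NormalEmb.sub N).irr_mul_ext hθ (irr_isCharacter hη) e h3
      fun n => (h5 n).trans (by rw [map_one])
    have h7 := hu _ _ h6 h3 (by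
      rw [charDegree_of_mul' (irr_isCharacter h3) (irr_isCharacter hη) rfl]
      exact h4.mul_right _) h4
    funext n
    have := congrFun h7 n
    rw [Pi.mul_apply, h5, show η n = θ n from e n] at this
    exact mul_left_cancel₀ (irr_one_ne_zero hβ) (this.trans (mul_one _).symm)
  have h0 : N = ⊥ := eq_bot_of_forall fun x hx => by_contra fun hx1 => by
    obtain ⟨θ, hθ, h⟩ := exists_irr_not_mem_charKer (g := (⟨x, hx⟩ : N))
      fun e => hx1 (congrArg Subtype.val e)
    rw [key θ hθ, charKer_one] at h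
    exact h (mem_top _)
  have h8 := sd.sup
  rw [h0, bot_sup_eq] at h8
  have : Nil (⊤ : Subgroup G) := (h8 ▸ hP : PiGrp {p} ⊤).nil
  exact hnil (nilpotent_of_mulEquiv topEquiv)

open Subgroup CF.BG CF.Char in
theorem card_cl {G : Type*} [Group G] [Finite G] {p : ℕ} [Fact p.Prime] (P : Sylow p G)
    (h : 𝐍 (P : Subgroup G) ≤ 𝐂 (P : Subgroup G)) :
    Nat.card (ConjClasses (𝐍 (P : Subgroup G))) =
      Nat.card {C : ConjClasses G // ¬ p ∣ Nat.card C.carrier} := by
  have hp : p.Prime := Fact.out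
  have hP := syl_sylow_top P
  refine Nat.card_eq_of_bijective (fun C => ⟨ConjClasses.map (Subgroup.subtype _) C, ?_⟩) ⟨?_, ?_⟩
  · obtain ⟨n, rfl⟩ := ConjClasses.mk_surjective C
    erw [card_carrier_eq_index]
    simpa using (piNat_compl_single hp).1 (hP.idx_of_le (le_cent1_iff.2 (h n.2)))
  · intro C D e
    obtain ⟨a, rfl⟩ := ConjClasses.mk_surjective C
    obtain ⟨b, rfl⟩ := ConjClasses.mk_surjective D
    obtain ⟨g, hg⟩ := isConj_iff.1 (ConjClasses.mk_eq_mk_iff_isConj.1 (congrArg Subtype.val e))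
    obtain ⟨n, hn, e⟩ := CF.Transfer.exists_normalizer_conj_of_centralizer P (A := {(a : G)})
      (g := g) (Set.singleton_subset_iff.2 (h a.2)) (by
        rintro _ rfl
        exact (show g * (a : G) * g⁻¹ = b from hg) ▸ h b.2)
    exact ConjClasses.mk_eq_mk_iff_isConj.2 (isConj_iff.2
      ⟨⟨n, hn⟩, Subtype.ext ((e a rfl).trans hg)⟩)
  · rintro ⟨C, hC⟩
    obtain ⟨x, rfl⟩ := ConjClasses.mk_surjective C
    rw [card_carrier_eq_index] at hC
    obtain ⟨R, hR⟩ := exists_syl p (𝐂₁ x)
    obtain ⟨g, -, e⟩ := (hR.trans_idx le_top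
      (by simpa using (piNat_compl_single hp).2 hC)).syl_conj hP
    have : g * x * g⁻¹ ∈ 𝐂 (P : Subgroup G) := by
      rw [← le_cent1_iff, e, ← cj_cent1]
      exact cj_mono g hR.le
    exact ⟨ConjClasses.mk ⟨_, cent_le_norm _ this⟩, Subtype.ext
      (ConjClasses.mk_eq_mk_iff_isConj.2 (isConj_iff.2 ⟨g, rfl⟩).symm)⟩

/-- Let p be a prime and G a finite group that is not nilpotent and has a normal p-complement (a normal subgroup of order prime to p and index a power of p). If G has exactly one irreducible complex character of degree divisible by p, then G has exactly one conjugacy class whose size is divisible by p. -/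
theorem result {G : Type*} [Group G] [Finite G] (p : ℕ) [Fact p.Prime] (hnil : ¬ Group.IsNilpotent G) (N : Subgroup G) [N.Normal] (hN : (Nat.card N).Coprime p) (hidx : ∃ k : ℕ, N.index = p ^ k) (hone : Nat.card {χ : Cfsg.IrrCharacter G // p ∣ Cfsg.charDegree (χ : G → ℂ)} = 1) : Nat.card {C : ConjClasses G // p ∣ Nat.card C.carrier} = 1 := by
  classical
  have hp : p.Prime := Fact.out
  obtain ⟨P⟩ : Nonempty (Sylow p G) := inferInstance
  have hP := CF.BG.syl_sylow_top P
  obtain ⟨k, hk⟩ := hidx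
  have nN : CF.BG.NormalIn N ⊤ := CF.BG.normalIn_top.2 inferInstance
  have h1 : CF.BG.PiGrp {p}ᶜ N := (CF.BG.piNat_compl_single_iff_coprime hp).2 hN
  have h2 : CF.BG.PiNat {p} (N.relIndex ⊤) := by
    rw [Subgroup.relIndex_top_right, hk]; exact CF.BG.piNat_pow_self hp k
  have sd := (⟨le_top, h1, h2.compl_compl⟩ : CF.BG.Hall {p}ᶜ N ⊤).sdprod nN.norm hP.compl_compl
  have hab := abel hnil sd h1 hP.pi fun χ ψ a b c d => congrArg (fun t => t.1.1)
    ((Nat.card_eq_one_iff_unique.1 hone).1.elim ⟨⟨χ, a⟩, c⟩ ⟨⟨ψ, b⟩, d⟩)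
  have hNC : Subgroup.normalizer ((P : Subgroup G) : Set G) ≤
      Subgroup.centralizer ((P : Subgroup G) : Set G) := by
    have := (sd.inf_of_right_le (CF.BG.le_norm_self _)).sup
    rw [top_inf_eq] at this
    exact this.ge.trans (sup_le (CF.BG.inf_norm_le_cent sd.norm sd.inf') hab)
  have hs : IsPSolvable p G := CF.Solv.isPSolvable_of_normal_of_quotient N
    (CF.PLocal.isPSolvable_of_coprime hN)
    (CF.PLocal.isPSolvable_of_isPGroup (IsPGroup.of_card hk))
  have h3 := CF.Char.card_odd_eq_norm hs hP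
  have h5 : ∀ χ : IrrCharacter (Subgroup.normalizer ((P : Subgroup G) : Set G)),
      ¬ p ∣ charDegree χ.1 := fun χ hd => by
    haveI := (CF.BG.normalIn_norm (P : Subgroup G)).normal
    refine (hP.of_le (CF.BG.le_norm_self _) le_top).not_dvd hp
      (hd.trans (CF.RealP.deg_dvd_index_of_der_le ((P : Subgroup G).subgroupOf _) χ.2 ?_))
    rw [CF.BG.der_eq_bot.2 (hab.subgroupOf _)]
    exact bot_le
  rw [Nat.card_congr (Equiv.subtypeUnivEquiv h5), CF.Char.card_irr, card_cl P hNC] at h3
  have h4 := CF.Char.card_irr (G := G)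
  rw [← Nat.card_congr (Equiv.sumCompl fun χ : IrrCharacter G => p ∣ charDegree (χ : G → ℂ)),
    ← Nat.card_congr (Equiv.sumCompl fun C : ConjClasses G => p ∣ Nat.card C.carrier),
    Nat.card_sum, Nat.card_sum, hone, h3] at h4
  omega

end Cfsg.Agent.S4763
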