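import Cfsg.Statements.S4765
import Cfsg.Agent.Classical.PSL2

set_option autoImplicit false
open Cfsg

namespace Cfsg.Agent.S4765

/-- Let F be a finite field of characteristic p with at least 4 elements. Then PSL(2,F) has exactly one irreducible complex character of degree divisible by p, and its degree is the order of F. -/
theorem result (p : ℕ) [Fact p.Prime] (F : Type*) [Field F] [Fintype F] [CharP F p] (hF : 4 ≤ Fintype.card F) : Nat.card {χ : Cfsg.IrrCharacter (Matrix.ProjectiveSpecialLinearGroup (Fin 2) F) // p ∣ Cfsg.charDegree (χ : Matrix.ProjectiveSpecialLinearGroup (Fin 2) F → ℂ)} = 1 ∧ ∀ χ : Cfsg.IrrCharacter (Matrix.ProjectiveSpecialLinearGroup (Fin 2) F), p ∣ Cfsg.charDegree (χ : Matrix.ProjectiveSpecialLinearGroup (Fin 2) F → ℂ) → Cfsg.charDegree (χ : Matrix.ProjectiveSpecialLinearGroup (Fin 2) F → ℂ) = Fintype.card F := by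
  open CF.Classical CF.Char MatrixGroups in
  rw [← Nat.card_eq_fintype_card] at *
  have hp : p.Prime := Fact.out
  obtain ⟨m, h0, hm⟩ := exists_card_eq_pow F p
  have h1 : p ∣ Nat.card F := hm ▸ dvd_pow_self p h0.ne'
  have h2 : ∀ χ : IrrCharacter PSL(2, F), p ∣ charDegree (χ : PSL(2, F) → ℂ) →
      (fun s => (χ : PSL(2, F) → ℂ) (slToPSL F s)) = stSL F := fun χ h => by
    obtain ⟨g₀, h₀⟩ := exists_noEig F
    obtain ⟨n, hn, e⟩ := h₀.irr_SL2_deg (irr_comp_of_surjective χ.2 _ slToPSL_surjective)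
    rw [charDegree_eq_of_eq (by simpa using hn)] at h
    have h3 : ¬ p ∣ 1 := hp.one_lt.ne' ∘ Nat.dvd_one.1
    rcases e with e | e | e | e | e | e
    · exact absurd (e.1 ▸ h) h3
    · exact e.2
    · exact absurd ((Nat.dvd_add_right h1).1 (e.1 ▸ h)) h3
    · exact absurd ((Nat.dvd_add_right h).1 (e.1 ▸ h1)) h3
    · exact absurd ((Nat.dvd_add_right h1).1 (e.1 ▸ h.mul_left 2)) h3
    · exact absurd ((Nat.dvd_add_right (h.mul_left 2)).1 (e.1 ▸ h1)) h3
  have h3 : ∀ χ : IrrCharacter PSL(2, F), (fun s => (χ : PSL(2, F) → ℂ) (slToPSL F s)) = stSL F →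
      charDegree (χ : PSL(2, F) → ℂ) = Nat.card F := fun χ h =>
    charDegree_eq_of_eq (by simpa [stSL_one] using congrFun h 1)
  refine ⟨?_, fun χ h => h3 χ (h2 χ h)⟩
  obtain ⟨ψ, h4, h5⟩ := exists_irr_PSL2 (irr_stSL (F := F)) (stSL_neg_one.trans stSL_one.symm)
  refine Nat.card_eq_one_iff_exists.2 ⟨⟨⟨ψ, h4⟩, h3 ⟨ψ, h4⟩ h5.symm ▸ h1⟩, fun χ =>
    Subtype.ext (Subtype.ext (funext fun g => ?_))⟩
  obtain ⟨s, rfl⟩ := slToPSL_surjective g
  exact congrFun ((h2 χ.1 χ.2).trans h5) s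

end Cfsg.Agent.S4765
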