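import Cfsg.Statements.S4780
import Cfsg.Agent.Nd.F3
-- import your own Cfsg.Agent.* helpers here

set_option autoImplicit false
open Cfsg

open Cfsg Subgroup CF.BG CF.Clifford CF.Char CF.Fgs2.Isa CF.Degs

namespace Cfsg.Agent.S4780

/-- Let G be a finite solvable group in which no irreducible complex character degree a with 1 < a divides a larger irreducible character degree. Then G has at most four distinct irreducible character degrees and the third derived subgroup of G is trivial. -/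
theorem result {G : Type*} [Group G] [Finite G] [Group.IsSolvable G] (hnd : ∀ a ∈ Cfsg.charDegrees G, ∀ b ∈ Cfsg.charDegrees G, 1 < a → a < b → ¬ a ∣ b) : Nat.card ↥(Cfsg.charDegrees G) ≤ 4 ∧ derivedSeries G 3 = ⊥ := by
  have nd : ∀ a ∈ 𝐜𝐝 G, ∀ b ∈ 𝐜𝐝 G, a ≠ 1 → a ∣ b → a = b := fun a x b y z w => by
    by_contra e
    exact hnd a x b y (lt_of_le_of_ne (cd_pos x) z.symm)
      (lt_of_le_of_ne (Nat.le_of_dvd (cd_pos y) w) e) w
  have three : ∀ a b, 𝐜𝐝 G ⊆ {1, a, b} →
      Nat.card ↥(Cfsg.charDegrees G) ≤ 4 ∧ derivedSeries G 3 = ⊥ := fun a b h =>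
    ⟨(Nat.card_coe_set_eq _).trans_le (ncard_four (a := a) (b := b) (c := b)
      (h.trans (by simp))), der3_of_three h⟩
  obtain ⟨m, h⟩ | ⟨N, _, x, h⟩ := CF.Nd.init inferInstance nd
  · exact three m m (h.trans (by simp))
  by_cases c : CF.Nd.CyD N
  · obtain ⟨w, k⟩ := h.claim2 c
    exact three _ _ k
  · obtain ⟨⟨a, b, k⟩, l⟩ := h.nil_main (CF.Nd.St.claim1 _ G N x rfl h c)
    exact ⟨(Nat.card_coe_set_eq _).trans_le (ncard_four k), l⟩

end Cfsg.Agent.S4780
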