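import Cfsg.Statements.S4781
import Cfsg.Agent.Deg.Nd2

set_option autoImplicit false
open Cfsg Subgroup CF.BG CF.Clifford CF.Char CF.Fgs2.Isa CF.Degs

namespace Cfsg.Agent.S4781

/-- Let G be a finite solvable group in which no irreducible complex character degree a with 1 < a divides a larger irreducible character degree, and suppose the character degree graph of G (primes dividing some degree, distinct primes adjacent when their product divides a degree) has exactly two connected components. Then G has exactly three distinct irreducible character degrees. -/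
theorem result {G : Type*} [Group G] [Finite G] [Group.IsSolvable G] (hnd : ∀ a ∈ Cfsg.charDegrees G, ∀ b ∈ Cfsg.charDegrees G, 1 < a → a < b → ¬ a ∣ b) (htwo : Nat.card ((Cfsg.degreeGraph G).induce (Cfsg.degreePrimes G)).ConnectedComponent = 2) : Nat.card ↥(Cfsg.charDegrees G) = 3 := by
  classical
  have nd : ∀ a ∈ 𝐜𝐝 G, ∀ b ∈ 𝐜𝐝 G, a ≠ 1 → a ∣ b → a = b := fun a x b y z w => by
    by_contra e
    exact hnd a x b y (lt_of_le_of_ne (cd_pos x) z.symm)
      (lt_of_le_of_ne (Nat.le_of_dvd (cd_pos y) w) e) w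
  set Γ := (Cfsg.degreeGraph G).induce (Cfsg.degreePrimes G)
  have adj : ∀ (a b : Cfsg.degreePrimes G) (d : ℕ), d ∈ 𝐜𝐝 G → a.1 ∣ d → b.1 ∣ d →
      Γ.connectedComponentMk a = Γ.connectedComponentMk b := by
    intro a b d hd x y
    by_cases e : a = b
    · rw [e]
    · have e' : a.1 ≠ b.1 := fun w => e (Subtype.ext w)
      exact SimpleGraph.ConnectedComponent.connectedComponentMk_eq_of_adj
        ⟨e', a.2.1, b.2.1, d, hd, Nat.Coprime.mul_dvd_of_dvd_of_dvd
          ((Nat.coprime_primes a.2.1 b.2.1).2 e') x y⟩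
  have hub : ¬ ∀ a b, Γ.connectedComponentMk a = Γ.connectedComponentMk b := fun w => by
    have : Subsingleton Γ.ConnectedComponent := ⟨fun C D =>
      C.out_eq.symm.trans ((w _ _).trans D.out_eq)⟩
    have := Finite.card_le_one_iff_subsingleton.2 this
    omega
  have n1 : ∀ (a : Cfsg.degreePrimes G) (d : ℕ), a.1 ∣ d → d ≠ 1 := fun a d x e =>
    a.2.1.ne_one (Nat.dvd_one.1 (e ▸ x))
  have one : ∀ p : ℕ, p.Prime → ¬ ∀ d ∈ 𝐜𝐝 G, d ≠ 1 → p ∣ d := fun p hp w => hub fun a b => by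
    obtain ⟨d, hd, x⟩ := a.2.2
    obtain ⟨e, he, y⟩ := b.2.2
    exact (adj a ⟨p, hp, d, hd, w d hd (n1 a d x)⟩ d hd x (w d hd (n1 a d x))).trans
      (adj _ b e he (w e he (n1 b e y)) y)
  obtain ⟨K, _, -, k⟩ := exists_minNA (G := G) (L := ⊥) fun e => one 2 Nat.prime_two fun d x y =>
    absurd (der_eq_bot_iff_cd.1 (le_bot_iff.1 e) x) y
  obtain ⟨f, x, y⟩ := k.exists_cd
  obtain ⟨p, hp, a, -⟩ | ⟨a, ⟨q, hq, b, c⟩, e⟩ := k.cases (k.abel inferInstance)
  · refine absurd (fun d hd d1 => dvd_of_pquot hp a x hd fun w => y ?_) (one p hp)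
    exact Nat.eq_of_mul_eq_mul_right (cd_pos hd) ((nd _ hd _ w d1 (Dvd.intro_left _ rfl)).symm.trans
      (one_mul d).symm)
  have s := QuotientGroup.mk'_surjective K
  obtain rfl := e f x y
  have i := index_comap_of_surjective (commutator _) s
  have u := fun d (hd : d ∈ 𝐜𝐝 _) => mul_mem_cd_or_dvd (d := d) s b.abel a hd
  have eN := map_comap_eq_self_of_surjective s (commutator _)
  set N := (commutator (G ⧸ K)).comap (QuotientGroup.mk' K)
  have dK : ⁅N, N⁆ ≤ (QuotientGroup.mk' K).ker := by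
    rw [← Subgroup.map_eq_bot_iff, map_commutator, eN]
    exact der_eq_bot.2 b.abel
  replace x := cd_quot K x
  rw [← i] at x y c u
  have v : ∀ d ∈ 𝐫𝐜 ⁅N, N⁆, q ∣ d := fun d hd => by
    obtain ⟨t, t1, t2, t3⟩ := dvd_of_rc hd
    refine ((u t t1).elim (fun w => absurd ?_ t2) fun w =>
      hq.dvd_of_dvd_pow ((b.pi.dvd_card k.ne).trans w)).trans t3
    exact (Nat.eq_of_mul_eq_mul_left (cd_pos x) ((mul_one _).trans
      (nd _ x _ w y (Dvd.intro _ rfl)))).symm
  have tri : ∀ d ∈ 𝐜𝐝 G, d = 1 ∨ d = N.index ∨ d ∈ 𝐫𝐜 ⁅N, N⁆ := fun d hd => by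
    obtain ⟨χ, x1, x2⟩ := mem_cd.1 hd
    by_cases w : ⁅N, N⁆ ≤ charKer χ
    · refine or_iff_not_imp_left.2 fun d1 => .inl (nd _ hd _ x d1 ?_)
      obtain ⟨ψ, y1, rfl⟩ := exists_irr_quotient x1 _ w
      have sj := QuotientGroup.mk'_surjective ⁅N, N⁆
      have := Normal.map (inferInstance : N.Normal) _ sj
      exact (cd_dvd_index (A := N.map (QuotientGroup.mk' _)) (der_eq_bot.1 (by
        rw [← map_commutator, Subgroup.map_eq_bot_iff, QuotientGroup.ker_mk']))
          (cd_of_irr y1 x2)).trans (N.index_map_dvd sj)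
    · exact .inr (.inr (rc_of x1 w x2))
  have h : Hy N := ⟨inferInstance, inferInstance, fun d hd => Nat.coprime_of_dvd fun r hr r1 r2 => by
    have : ∀ a, Γ.connectedComponentMk a =
        Γ.connectedComponentMk ⟨q, hq, d, rc_sub_cd hd, v d hd⟩ := fun a => by
      obtain ⟨e, he, z⟩ := a.2.2
      obtain rfl | rfl | w := tri e he
      · exact absurd rfl (n1 a _ z)
      · exact (adj a ⟨r, hr, _, x, r2⟩ _ x z r2).trans (adj _ _ d (rc_sub_cd hd) r1 (v d hd))
      · exact adj _ _ e he z (v e w)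
    exact hub fun a b => (this a).trans (this b).symm,
    fun a x b y => nd a (rc_sub_cd x) b (rc_sub_cd y) (rc_ne_one (commutator_mono le_top le_top) x),
    fun w => by
      obtain ⟨g, -, g1⟩ := SetLike.not_le_iff_exists.1 fun z : ⊤ ≤ commutator (G ⧸ K) =>
        y (i.trans (index_eq_one.2 (top_le_iff.1 z)))
      have := (Subgroup.map_eq_bot_iff _).2 (w.trans dK)
      rw [map_commutator, eN, map_top_of_surjective _ s] at this
      exact k.ne (CF.BG.eq_bot_mono (a g g1) (le_inf le_rfl fun z hz =>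
        mem_cent1.2 (comm_eq_bot'.1 this (mem_top g) z hz)))⟩
  obtain ⟨m, hm⟩ := Hy.main _ G N rfl h
  obtain ⟨d, hd⟩ : ∃ d, d ∈ 𝐫𝐜 ⁅N, N⁆ := by
    by_contra! w
    refine one _ (Nat.minFac_prime y) fun d hd d1 => ?_
    obtain rfl | rfl | z := tri d hd
    exacts [absurd rfl d1, Nat.minFac_dvd _, absurd z (w d)]
  rw [Nat.card_coe_set_eq, Set.ncard_eq_three]
  refine ⟨1, N.index, d, y.symm, (rc_ne_one (commutator_mono le_top le_top) hd).symm,
    fun w => c (w ▸ v d hd), Set.Subset.antisymm (fun e he => ?_) ?_⟩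
  · obtain rfl | rfl | z := tri e he
    exacts [.inl rfl, .inr (.inl rfl), .inr (.inr ((hm z).trans (hm hd).symm))]
  · rintro e (rfl | rfl | rfl)
    exacts [one_mem_cd, x, rc_sub_cd hd]

end Cfsg.Agent.S4781
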