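import Cfsg.Statements.S4784
import Cfsg.Agent.BlockB.Ord3
-- import your own Cfsg.Agent.* helpers here

set_option autoImplicit false
open Cfsg

namespace Cfsg.Agent.S4784

/-- Let H be a subgroup of the finite group G and consider the permutation character of G on the cosets of H (the function induced from the principal character of H). Then exactly one irreducible constituent of it is real-valued with Frobenius–Schur indicator +1 (namely the principal character) if and only if the normal core of H has odd index in G. -/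
theorem result {G : Type*} [Group G] [Fintype G] (H : Subgroup G) : Nat.card {χ : Cfsg.IrrCharacter G // Cfsg.classInner (Cfsg.indFun H (fun _ : H => (1 : ℂ))) (χ : G → ℂ) ≠ 0 ∧ (∀ g : G, (starRingEnd ℂ) ((χ : G → ℂ) g) = (χ : G → ℂ) g) ∧ (Nat.card G : ℂ)⁻¹ * ∑ g : G, (χ : G → ℂ) (g * g) = 1} = 1 ↔ Odd H.normalCore.index := by
  classical
  have h1 : classInner (indFun H fun _ : H => (1 : ℂ)) (CF.Char.oneIrr G : G → ℂ) = 1 :=
    CF.Char.inner_indFun_one_one H
  constructor
  · intro h
    by_contra ho
    obtain ⟨q, hq⟩ := exists_prime_orderOf_dvd_card' (G := G ⧸ H.normalCore) 2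
      (Nat.not_odd_iff_even.1 ho).two_dvd
    obtain ⟨t, rfl⟩ := QuotientGroup.mk_surjective q
    have ht : t ∉ H.normalCore := fun h => by
      rw [(QuotientGroup.eq_one_iff t).2 h] at hq; simp at hq
    have ht2 : t * t ∈ H.normalCore := by
      rw [← QuotientGroup.eq_one_iff, QuotientGroup.mk_mul, ← sq, ← hq, pow_orderOf_eq_one]
    have h2 : ∑ g : G, Nat.card (MulAction.fixedBy (G ⧸ H) g) <
        ∑ g : G, Nat.card (MulAction.fixedBy (G ⧸ H) (g * g)) := by
      have h3 : ∀ g : G, MulAction.fixedBy (G ⧸ H) g ⊆ MulAction.fixedBy (G ⧸ H) (g * g) :=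
        fun g x hx => by
          rw [MulAction.mem_fixedBy] at hx ⊢
          rw [mul_smul, hx, hx]
      refine Finset.sum_lt_sum (fun g _ => Set.ncard_le_ncard (h3 g)) ⟨t, Finset.mem_univ _,
        Set.ncard_lt_ncard ⟨h3 t, fun h4 => ht ?_⟩⟩
      rw [H.normalCore_eq_ker] at ht2 ⊢
      exact Equiv.ext fun x => h4 (Equiv.congr_fun ht2 x)
    have h3 := CF.BlockB.Ord.fsInd_classFun (CF.Char.indFun_isClassFunction H fun _ => 1)
    choose a ha using fun χ : IrrCharacter G =>
      CF.Char.inner_char_eq_nat (CF.Char.char_indFun_one H) (CF.Char.irr_isCharacter χ.2)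
    have h4 : (∑ χ : IrrCharacter G, classInner (indFun H fun _ : H => (1 : ℂ)) (χ : G → ℂ) *
        CF.Char.fsInd (χ : G → ℂ)).re ≤ 1 := by
      rw [← Finset.add_sum_erase _ _ (Finset.mem_univ (CF.Char.oneIrr G)), h1, CF.Char.coe_oneIrr,
        CF.Char.fsInd_one, Complex.add_re, Complex.re_sum]
      simp only [mul_one, Complex.one_re, add_le_iff_nonpos_right]
      refine Finset.sum_nonpos fun χ hχ => ?_
      rcases CF.Char.fsInd_cases χ.2 with e | e | e
      · simp [e]
      · by_cases h0 : classInner (indFun H fun _ : H => (1 : ℂ)) (χ : G → ℂ) = 0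
        · simp [h0]
        · refine absurd (congrArg Subtype.val ((Nat.card_eq_one_iff_unique.1 h).1.elim
            ⟨χ, h0, fun g => Complex.conj_eq_iff_im.2
              (CF.BlockB.Ord.real_of_fsInd_eq_one χ.2 e g), e⟩
            ⟨CF.Char.oneIrr G, h1.trans_ne one_ne_zero, fun g => by simp [CF.Char.oneIrr_apply],
              CF.Char.fsInd_one⟩)) (Finset.mem_erase.1 hχ).1
      · simp [e, ha]
    rw [CF.Char.coe_oneIrr, CF.Char.inner_one_right, CF.Char.indFun_one_eq_fixedBy,
      inv_mul_eq_one₀ CF.Char.card_ne_zero_complex] at h1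
    rw [← h3, CF.Char.fsInd_def, CF.Char.indFun_one_eq_fixedBy, ← Nat.cast_sum, ← div_eq_inv_mul,
      Complex.div_natCast_re, Complex.natCast_re, div_le_one (by exact_mod_cast Nat.card_pos),
      Nat.cast_le] at h4
    rw [← Nat.cast_sum, Nat.cast_inj] at h1
    omega
  · intro ho
    refine Nat.card_eq_one_iff_exists.2 ⟨⟨CF.Char.oneIrr G, h1.trans_ne one_ne_zero,
      fun g => by simp [CF.Char.oneIrr_apply], CF.Char.fsInd_one⟩, fun ⟨χ, h2, h3, _⟩ => ?_⟩
    refine Subtype.ext (Subtype.ext (CF.BlockB.Ord.irr_eq_one_of_real_of_odd_index _ ho χ.2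
      ((CF.Clifford.le_charKer_indFun H CF.Char.char_const_one _ H.normalCore_le
        fun _ _ => rfl).trans (CF.Char.charKer_le_of_inner_ne_zero (CF.Char.char_indFun_one H) χ.2 h2))
      fun g => Complex.conj_eq_iff_im.1 (h3 g)))

end Cfsg.Agent.S4784
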