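import Cfsg.Statements.S4796
import Cfsg.Agent.BlockB.Ord1
-- import your own Cfsg.Agent.* helpers here

set_option autoImplicit false
open Cfsg

namespace Cfsg.Agent.S4796

/-- Let G be a finite group with a faithful irreducible complex character χ whose codegree #G / χ(1) is a prime p (for a faithful character the kernel is trivial, so the codegree is #G / χ(1)). Then either G is cyclic of order p, or G is a Frobenius group whose Frobenius kernel has order p: some proper non-trivial subgroup H satisfies H ∩ gHg⁻¹ = 1 for every element g outside H, and the set of elements lying in no conjugate of H, together with the identity, has exactly p elements. -/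
theorem result {G : Type*} [Group G] [Finite G] (χ : Cfsg.IrrCharacter G) (hfaith : ∀ g : G, (χ : G → ℂ) g = (χ : G → ℂ) 1 → g = 1) (p : ℕ) (hp : p.Prime) (hcod : Nat.card G = p * Cfsg.charDegree (χ : G → ℂ)) : (IsCyclic G ∧ Nat.card G = p) ∨ ∃ H : Subgroup G, Cfsg.IsFrobeniusComplement H ∧ Nat.card ↥(Cfsg.frobeniusKernel H) = p := by
  have hk := (CF.BlockB.Ord.charKer_eq_bot_iff (CF.Char.irr_isCharacter χ.2)).2 hfaith
  obtain ⟨P, hN, hP, hC, hd⟩ := CF.BlockB.Ord.exists_of_prime_cod χ.2 hk hp hcod
  have := Fact.mk hp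
  by_cases h1 : charDegree (χ : G → ℂ) = 1
  · rw [h1, mul_one] at hcod
    exact .inl ⟨isCyclic_of_prime_card hcod, hcod⟩
  right
  have hi : P.index = charDegree (χ : G → ℂ) := by
    have := P.card_mul_index
    rw [hP, hcod] at this
    exact Nat.eq_of_mul_eq_mul_left hp.pos this
  obtain ⟨H, hH⟩ := Subgroup.exists_right_complement'_of_coprime (N := P) (by
    rw [hP, hi]
    exact (Nat.Prime.coprime_iff_not_dvd hp).2
      (Nat.not_dvd_of_pos_of_lt (CF.BlockB.Ord.irr_deg_pos χ.2) hd))
  have hs : CF.Coprime.SemiReg H P := by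
    intro r hr hr1
    rcases (Subgroup.eq_bot_or_eq_top_of_prime_card ((Subgroup.centralizer {r}).subgroupOf P)
      (hp := ⟨hP ▸ hp⟩)) with h | h
    · rw [Subgroup.subgroupOf_eq_bot] at h
      exact h.symm.eq_bot
    · rw [Subgroup.subgroupOf_eq_top] at h
      refine absurd (Subgroup.disjoint_def.1 hH.disjoint (hC fun x hx => ?_) hr) hr1
      exact (h hx r rfl).symm
  have hn : H ≤ Subgroup.normalizer (P : Set G) := by
    rw [Subgroup.normalizer_eq_top]; exact le_top
  refine ⟨H, CF.Coprime.isFrobeniusComplement_of_semiReg hs hn hH.sup_eq_top ?_ ?_, ?_⟩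
  · rintro rfl
    exact hp.one_lt.ne (by simpa using hP)
  · rintro rfl
    exact h1 (by rw [← hi, hH.symm.index_eq_card, Subgroup.card_bot])
  · rw [CF.Coprime.frobeniusKernel_eq_of_semiReg hs hn hH.sup_eq_top]
    exact hP

end Cfsg.Agent.S4796
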