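import Cfsg.Statements.S4797
import Cfsg.Agent.BlockB.Ord1
-- import your own Cfsg.Agent.* helpers here

set_option autoImplicit false
open Cfsg

namespace Cfsg.Agent.S4797

/-- The codegree of an irreducible complex character χ of a finite group G is [G : ker χ] / χ(1), where ker χ is the set of elements at which χ takes the value χ(1). A non-trivial finite group is perfect if and only if no irreducible complex character of it has prime codegree. -/
theorem result {G : Type*} [Group G] [Finite G] [Nontrivial G] : commutator G = ⊤ ↔ ∀ χ : Cfsg.IrrCharacter G, ¬ ((Nat.card G / (Nat.card {g : G // (χ : G → ℂ) g = (χ : G → ℂ) 1} * Cfsg.charDegree (χ : G → ℂ)))).Prime := by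
  constructor
  · intro hG χ hp
    change (CF.BlockB.Ord.cod (χ : G → ℂ)).Prime at hp
    have := CF.Char.charKer_normal (CF.Char.irr_isClassFunction χ.2)
    obtain ⟨ψ, hψ, hk, e⟩ := CF.BlockB.Ord.exists_faithful χ.2
    have hd : charDegree ψ = charDegree (χ : G → ℂ) := by
      conv_rhs => rw [e]
      exact (CF.BlockB.Ord.deg_comp ψ (QuotientGroup.mk' _)).symm
    obtain ⟨P, hN, hP, hC, -⟩ := CF.BlockB.Ord.exists_of_prime_cod hψ hk hp (by
      rw [hd, CF.BlockB.Ord.cod_mul_deg χ.2]; rfl)
    have h1 : commutator (G ⧸ CF.Char.charKer (χ : G → ℂ)) = ⊤ := by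
      rw [commutator, ← Subgroup.map_top_of_surjective _ (QuotientGroup.mk'_surjective _),
        ← Subgroup.map_commutator, ← commutator, hG]
    have := Fact.mk hp
    have : IsCyclic P := isCyclic_of_prime_card hP
    have h2 : commutator _ ≤ (MulAut.conjNormal (H := P)).ker := by
      rw [commutator, Subgroup.commutator_le]
      intro a _ b _
      rw [MonoidHom.mem_ker, map_commutatorElement, commutatorElement_eq_one_iff_mul_comm]
      exact (IsCyclic.mulAutMulEquiv P).injective (by simp only [map_mul, mul_comm])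
    have h3 : P = ⊤ := by
      refine top_le_iff.1 (h1 ▸ h2.trans (fun x hx => hC fun y hy => ?_))
      have := congrArg Subtype.val (DFunLike.congr_fun (MonoidHom.mem_ker.1 hx) ⟨y, hy⟩)
      simp only [MulAut.conjNormal_apply, MulAut.one_apply] at this
      exact (mul_inv_eq_iff_eq_mul.1 this).symm
    have h4 : commutator (G ⧸ CF.Char.charKer (χ : G → ℂ)) = ⊥ := by
      rw [commutator, Subgroup.commutator_eq_bot_iff_le_centralizer]
      intro x _ y _
      have := mul_comm' (⟨y, h3 ▸ Subgroup.mem_top y⟩ : P) ⟨x, h3 ▸ Subgroup.mem_top x⟩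
      exact congrArg Subtype.val this
    rw [h3, ← h1, h4] at hP
    exact hp.one_lt.ne (by simpa using hP)
  · intro h
    by_contra hG
    obtain ⟨p, hp, hd⟩ := Nat.exists_prime_and_dvd (mt Subgroup.index_eq_one.1 hG)
    obtain ⟨N, hN, hi⟩ := CF.Clifford.exists_normal_index_prime hp hd
    have := Fact.mk hp
    have : IsCyclic (G ⧸ N) := isCyclic_of_prime_card (p := p) hi
    obtain ⟨lam, hl⟩ := CF.Char.exists_linear_injective_of_isCyclic (G := G ⧸ N)
    have hχ := CF.Char.irr_linear (lam.comp (QuotientGroup.mk' N))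
    refine h ⟨_, hχ⟩ ?_
    have h1 := CF.BlockB.Ord.cod_mul_deg hχ
    rw [CF.Char.charKer_linear, ← MonoidHom.comap_ker, (MonoidHom.ker_eq_bot_iff _).2 hl,
      MonoidHom.comap_bot, QuotientGroup.ker_mk', hi,
      CF.BlockB.Ord.deg_of_eq (n := 1) (by simp), mul_one] at h1
    change (CF.BlockB.Ord.cod _).Prime
    rwa [h1]

end Cfsg.Agent.S4797
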