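import Cfsg.Statements.S4798
import Cfsg.Agent.BlockB.Ord1
-- import your own Cfsg.Agent.* helpers here

set_option autoImplicit false
open Cfsg

namespace Cfsg.Agent.S4798

/-- Let p be a prime and χ a faithful irreducible complex character of the finite group G (χ(g) = χ(1) only for g = 1), so that its codegree is #G / χ(1). Then #G / χ(1) is a power of p if and only if χ is induced from a character of a Sylow p-subgroup of G. -/
theorem result {G : Type*} [Group G] [Fintype G] (p : ℕ) [Fact p.Prime] (χ : Cfsg.IrrCharacter G) (hfaith : ∀ g : G, (χ : G → ℂ) g = (χ : G → ℂ) 1 → g = 1) : (∃ k : ℕ, Nat.card G = p ^ k * Cfsg.charDegree (χ : G → ℂ)) ↔ ∃ (P : Sylow p G) (θ : ↥(P : Subgroup G) → ℂ), Cfsg.IsCharacter ↥(P : Subgroup G) θ ∧ (χ : G → ℂ) = Cfsg.indFun (P : Subgroup G) θ := by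
  classical
  have hp : p.Prime := Fact.out
  have hd := CF.BlockB.Ord.irr_deg_pos χ.2
  constructor
  · rintro ⟨k, hk⟩
    obtain ⟨P⟩ : Nonempty (Sylow p G) := inferInstance
    obtain ⟨a, m, hm, ha⟩ := Nat.exists_eq_pow_mul_and_not_dvd hd.ne' p hp.ne_one
    have hi : (P : Subgroup G).index = m := by
      obtain ⟨n, hn⟩ := P.2.exists_card_eq
      have h1 := (P : Subgroup G).card_mul_index
      rw [hk, ha, hn, ← mul_assoc, ← pow_add] at h1
      have h2 := (Nat.Coprime.pow_right (k + a) ((Nat.Prime.coprime_iff_not_dvd hp).2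
        P.not_dvd_index).symm).dvd_of_dvd_mul_left (Dvd.intro_left _ h1)
      have h3 := (Nat.Coprime.pow_right n ((Nat.Prime.coprime_iff_not_dvd hp).2
        hm).symm).dvd_of_dvd_mul_left (Dvd.intro_left _ h1.symm)
      exact Nat.dvd_antisymm h2 h3
    obtain ⟨θ, hθ, h1, h2⟩ := CF.BlockB.Ord.exists_constituent_not_dvd
      (CF.Char.char_restrict (CF.Char.irr_isCharacter χ.2) (P : Subgroup G)) (m := p ^ (a + 1)) (by
        change ¬ _ ∣ charDegree (χ : G → ℂ)
        rw [ha, pow_succ]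
        exact fun h => hm (Nat.dvd_of_mul_dvd_mul_left (pow_pos hp.pos _) h))
    refine ⟨P, θ, CF.Char.irr_isCharacter hθ, CF.BlockB.Ord.eq_indFun_of_le χ.2 _
      (CF.Char.irr_isCharacter hθ) h1 ?_⟩
    obtain ⟨n, hn⟩ := P.2.exists_card_eq
    obtain ⟨b, -, hb⟩ := (Nat.dvd_prime_pow hp).1 (hn ▸ CF.BlockB.Ord.irr_deg_dvd_card hθ)
    rw [hi, ha, mul_comm, hb]
    rw [hb, Nat.pow_dvd_pow_iff_le_right hp.one_lt] at h2
    exact Nat.mul_le_mul_right _ (Nat.pow_le_pow_right hp.pos (by omega))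
  · rintro ⟨P, θ, hθ, h⟩
    have h1 := CF.Char.irr_of_irr_indFun _ hθ (h ▸ χ.2)
    have h2 : charDegree (χ : G → ℂ) = (P : Subgroup G).index * charDegree θ :=
      CF.BlockB.Ord.deg_of_eq (by rw [h, CF.Char.indFun_one, CF.BlockB.Ord.deg_eq hθ]; push_cast; rfl)
    obtain ⟨n, hn⟩ := P.2.exists_card_eq
    obtain ⟨t, ht⟩ := CF.BlockB.Ord.irr_deg_dvd_card h1
    obtain ⟨b, -, hb⟩ := (Nat.dvd_prime_pow hp).1 (hn ▸ Dvd.intro_left _ ht.symm)
    exact ⟨b, by rw [← (P : Subgroup G).card_mul_index, ht, h2, hb]; ring⟩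

end Cfsg.Agent.S4798
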