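import Cfsg.Statements.S4802
import Cfsg.Agent.BlockB.Ord1
-- import your own Cfsg.Agent.* helpers here

set_option autoImplicit false
open Cfsg

namespace Cfsg.Agent.S4802

/-- Let N < M be normal subgroups of the finite group G and g ∈ M ∖ N. Then the conjugacy class of g is exactly M ∖ N if and only if every irreducible complex character of G whose kernel contains N takes the same value at all elements of M ∖ N, and every irreducible complex character of G whose kernel does not contain N vanishes at g. -/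
theorem result {G : Type*} [Group G] [Finite G] (N M : Subgroup G) [N.Normal] [M.Normal] (hNM : N < M) (g : G) (hgM : g ∈ M) (hgN : g ∉ N) : {h : G | IsConj g h} = (M : Set G) \ (N : Set G) ↔ ((∀ χ : Cfsg.IrrCharacter G, (∀ x ∈ N, (χ : G → ℂ) x = (χ : G → ℂ) 1) → ∀ x ∈ M, x ∉ N → ∀ y ∈ M, y ∉ N → (χ : G → ℂ) x = (χ : G → ℂ) y) ∧ (∀ χ : Cfsg.IrrCharacter G, (∃ x ∈ N, (χ : G → ℂ) x ≠ (χ : G → ℂ) 1) → (χ : G → ℂ) g = 0)) := by
  have := Fintype.ofFinite G
  have := Fintype.ofFinite N
  constructor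
  · intro h
    have h1 : ∀ x ∈ M, x ∉ N → IsConj g x := fun x hx hx' => by
      have : x ∈ (M : Set G) \ (N : Set G) := ⟨hx, hx'⟩
      rwa [← h] at this
    refine ⟨fun χ _ x hx hx' y hy hy' => ?_, fun χ ⟨x, hx, hx'⟩ => ?_⟩
    · exact CF.Char.classFun_of_isConj (CF.Char.irr_isClassFunction χ.2)
        ((h1 x hx hx').symm.trans (h1 y hy hy'))
    · have h2 := CF.Char.sum_coset_eq_zero χ.2 N (fun hk => hx'
        ((CF.Char.mem_charKer_iff (CF.Char.irr_isCharacter χ.2)).1 (hk hx))) g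
      rw [Finset.sum_congr rfl (g := fun _ => (χ : G → ℂ) g) fun n _ =>
        (CF.Char.classFun_of_isConj (CF.Char.irr_isClassFunction χ.2)
          (h1 _ (M.mul_mem (hNM.le n.2) hgM) fun h3 => hgN ((N.mul_mem_cancel_left n.2).1 h3))).symm]
        at h2
      simpa using h2
  · rintro ⟨h1, h2⟩
    ext x
    constructor
    · intro hx
      obtain ⟨c, rfl⟩ := isConj_iff.1 hx
      exact ⟨‹M.Normal›.conj_mem _ hgM c, fun h => hgN (by
        simpa [mul_assoc] using ‹N.Normal›.conj_mem _ h c⁻¹)⟩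
    · rintro ⟨hx, hx'⟩
      refine CF.BlockB.Ord.isConj_of_eq_or_zero fun χ hχ => ?_
      by_cases h : ∀ x ∈ N, χ x = χ 1
      · exact .inr (h1 ⟨χ, hχ⟩ h x hx hx' g hgM hgN)
      · push Not at h
        exact .inl (h2 ⟨χ, hχ⟩ h)

end Cfsg.Agent.S4802
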