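import Cfsg.Statements.S4825
import Cfsg.Agent.Block.Prin
import Cfsg.Agent.Clifford.Basic
import Cfsg.Agent.BlockB.Misc1

set_option autoImplicit false
open Cfsg

namespace Cfsg.Agent.S4825

open CF.Block CF Subgroup

/-- Let p be a prime, G a finite group with Sylow p-subgroup P, M a maximal ideal of the algebraic integers containing p, and B a p-block of G with defect group P. Let N be a normal subgroup of G not containing P and θ an irreducible character of N. Then the number of irreducible characters in B of degree prime to p lying over θ (having θ as a constituent on restriction to N) is either 0 or at least 2, and when p ≤ 3 it is divisible by p. -/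
theorem result {G : Type*} [Group G] [Fintype G] (p : ℕ) [Fact p.Prime] (P : Sylow p G) (M : Ideal Cfsg.AlgInt) (hM : Cfsg.IsPModular p M) (B : Set (Cfsg.IrrCharacter G)) (hB : Cfsg.IsPBlock M B) (hBP : Cfsg.IsDefectGroup p M B P) (N : Subgroup G) [N.Normal] [Fintype N] (hPN : ¬ (P : Subgroup G) ≤ N) (θ : Cfsg.IrrCharacter N) :
    (Nat.card {χ : Cfsg.IrrCharacter G // χ ∈ B ∧ ¬ p ∣ Cfsg.charDegree (χ : G → ℂ) ∧ Cfsg.classInner (fun n : N => (χ : G → ℂ) n) (θ : N → ℂ) ≠ 0} = 0 ∨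
      2 ≤ Nat.card {χ : Cfsg.IrrCharacter G // χ ∈ B ∧ ¬ p ∣ Cfsg.charDegree (χ : G → ℂ) ∧ Cfsg.classInner (fun n : N => (χ : G → ℂ) n) (θ : N → ℂ) ≠ 0}) ∧
    (p ≤ 3 → p ∣ Nat.card {χ : Cfsg.IrrCharacter G // χ ∈ B ∧ ¬ p ∣ Cfsg.charDegree (χ : G → ℂ) ∧ Cfsg.classInner (fun n : N => (χ : G → ℂ) n) (θ : N → ℂ) ≠ 0}) := by
  classical
  have hp : p.Prime := Fact.out
  obtain ⟨u, huP, huN⟩ := SetLike.not_le_iff_exists.1 hPN
  have hu := BlockB.exists_orderOf_of_mem hp P.isPGroup' huP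
  set S : Finset (Cfsg.IrrCharacter G) := Finset.univ.filter fun χ => χ ∈ B ∧
    Cfsg.classInner (fun n : N => (χ : G → ℂ) n) (θ : N → ℂ) ≠ 0 with hS
  have h0 : Cfsg.blockPart B (Cfsg.indFun N (θ : N → ℂ)) u = 0 := by
    refine BlockB.blockPart_eq_zero hM (BlockB.nrm_eSet_le_one hM hB) fun g hg => ?_
    refine Char.indFun_eq_zero_of_normal N _ fun hgN => huN ?_
    rw [BlockB.pPart_of_pElement hp hu] at hg
    obtain ⟨c, hc⟩ := isConj_iff.1 hg.symm
    rw [← hc]
    exact ‹N.Normal›.conj_mem _ (BlockB.pPart_mem hgN) c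
  have h1 : ∑ χ ∈ S, (χ : G → ℂ) 1 * (χ : G → ℂ) u = 0 := by
    rw [BlockB.blockPart_eq] at h0
    have h2 := congrArg (fun z => z * (((Clifford.NormalEmb.sub N).inertia (θ : N → ℂ)).index *
      (θ : N → ℂ) 1)) h0
    simp only [zero_mul, Finset.sum_mul] at h2
    rw [← h2, hS, ← Finset.filter_filter, Finset.sum_filter]
    refine Finset.sum_congr rfl fun χ _ => ?_
    have e : Cfsg.classInner (Cfsg.indFun N (θ : N → ℂ)) (χ : G → ℂ) =
        Cfsg.classInner (fun n : N => (χ : G → ℂ) n) (θ : N → ℂ) := by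
      rw [Char.inner_indFun_left _ _ (Char.irr_isClassFunction χ.2),
        Char.inner_char_comm (Char.irr_isCharacter θ.2)
          (Char.char_restrict (Char.irr_isCharacter χ.2) N)]
    rw [e]
    split_ifs with h
    · rw [(Clifford.NormalEmb.sub N).clifford_one χ.2 θ.2 h]
      change Cfsg.classInner (fun n : N => (χ : G → ℂ) n) (θ : N → ℂ) * _ * _ = _
      ring
    · rw [not_not.1 h]; simp
  have h2 : p ∣ ∑ χ ∈ S, Cfsg.charDegree (χ : G → ℂ) ^ 2 := by
    rw [← BlockB.v_natCast_lt_one_iff hM]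
    have : ((∑ χ ∈ S, Cfsg.charDegree (χ : G → ℂ) ^ 2 : ℕ) : ℂ) =
        - ∑ χ ∈ S, (χ : G → ℂ) 1 * ((χ : G → ℂ) (u * 1) - (χ : G → ℂ) 1) := by
      simp only [mul_sub, Finset.sum_sub_distrib, mul_one, h1]
      push_cast
      simp only [BlockB.irr_charDegree_eq, sq]; ring
    rw [this, Valuation.map_neg]
    exact BlockB.v_sum_lt_one fun χ _ => BlockB.v_mul_lt_one_right (BlockB.v_irr_le_one χ 1)
      (BlockB.v_char_mul_sub_lt_one hM (Char.irr_isCharacter χ.2) (Commute.one_right u) hu)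
  set T := S.filter fun χ : Cfsg.IrrCharacter G => ¬ p ∣ Cfsg.charDegree (χ : G → ℂ) with hT
  have hc : Nat.card {χ : Cfsg.IrrCharacter G // χ ∈ B ∧ ¬ p ∣ Cfsg.charDegree (χ : G → ℂ) ∧
      Cfsg.classInner (fun n : N => (χ : G → ℂ) n) (θ : N → ℂ) ≠ 0} = T.card := by
    rw [Nat.subtype_card T]
    intro χ; simp only [hT, hS, Finset.mem_filter, Finset.mem_univ, true_and]; tauto
  have h3 : p ∣ ∑ χ ∈ T, Cfsg.charDegree (χ : G → ℂ) ^ 2 := by
    rw [← Finset.sum_filter_add_sum_filter_not S (fun χ => p ∣ Cfsg.charDegree (χ : G → ℂ))] at h2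
    refine (Nat.dvd_add_right ?_).1 h2
    exact Finset.dvd_sum fun χ hχ => dvd_pow (Finset.mem_filter.1 hχ).2 two_ne_zero
  rw [hc]
  constructor
  · by_contra h
    have : T.card = 1 := by omega
    obtain ⟨χ, hχ⟩ := Finset.card_eq_one.1 this
    have hχT : χ ∈ T := by rw [hχ]; simp
    rw [hχ, Finset.sum_singleton] at h3
    exact (Finset.mem_filter.1 hχT).2 (hp.dvd_of_dvd_pow h3)
  · intro h3'
    have key : ∀ n : ℕ, ¬ p ∣ n → n ^ 2 ≡ 1 [MOD p] := by
      intro n hn
      have h2 := hp.two_le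
      interval_cases p
      · have : n % 2 = 1 := by omega
        simp [Nat.ModEq, Nat.pow_mod, this]
      · have : n % 3 = 1 ∨ n % 3 = 2 := by omega
        rcases this with h | h <;> simp [Nat.ModEq, Nat.pow_mod, h]
    have : ∑ χ ∈ T, Cfsg.charDegree (χ : G → ℂ) ^ 2 ≡ ∑ χ ∈ T, 1 [MOD p] :=
      Nat.ModEq.sum fun χ hχ => key _ (Finset.mem_filter.1 hχ).2
    simp only [Finset.sum_const, smul_eq_mul, mul_one] at this
    exact (Nat.modEq_zero_iff_dvd).1 (this.symm.trans ((Nat.modEq_zero_iff_dvd).2 h3))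

end Cfsg.Agent.S4825
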