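import Cfsg.Statements.S4828
import Cfsg.Agent.Char.PB
import Cfsg.Agent.BlockB.Central
import Cfsg.Agent.Block.Extra
import Cfsg.Agent.Block.Cover
-- import your own Cfsg.Agent.* helpers here

set_option autoImplicit false
open Cfsg

namespace Cfsg.Agent.S4828

/-- Let p be a prime, M a maximal ideal of the algebraic integers containing p, and (Q, e) a Brauer pair of the finite group G (Q a p-subgroup, e a block of C_G(Q)). Then (Q, e) is a maximal Brauer pair of some block of G if and only if e contains an irreducible character θ such that θ takes the value θ(1) at every element of Z(Q) = Q ∩ C_G(Q), the p-part of θ(1) times the p-part of the order of Z(Q) equals the p-part of the order of C_G(Q) (θ has defect zero as a character of C_G(Q)/Z(Q)), and every element of N_G(Q) of p-power order that stabilizes e lies in Q·C_G(Q) (the stabilizer of e in N_G(Q) has index prime to p over Q·C_G(Q)). -/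
theorem result {G : Type*} [Group G] [Finite G] (p : ℕ) [Fact p.Prime] (M : Ideal Cfsg.AlgInt) (hM : Cfsg.IsPModular p M) (Q : Subgroup G) (e : Set (Cfsg.IrrCharacter (Subgroup.centralizer (Q : Set G)))) (he : Cfsg.IsBrauerPair p M Q e) :
    (∃ B : Set (Cfsg.IrrCharacter G), Cfsg.IsMaximalBrauerPair p M B Q e) ↔
      ∃ θ ∈ e, (∀ z : Subgroup.centralizer (Q : Set G), (z : G) ∈ Q → (θ : Subgroup.centralizer (Q : Set G) → ℂ) z = (θ : Subgroup.centralizer (Q : Set G) → ℂ) 1) ∧
        (Cfsg.charDegree (θ : Subgroup.centralizer (Q : Set G) → ℂ)).factorization p + (Nat.card ↥(Q ⊓ Subgroup.centralizer (Q : Set G))).factorization p = (Nat.card (Subgroup.centralizer (Q : Set G))).factorization p ∧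
        (∀ g : G, g ∈ Subgroup.normalizer (Q : Set G) → Cfsg.StabilizesBlock (Subgroup.centralizer (Q : Set G)) e g → (∃ k : ℕ, orderOf g = p ^ k) → g ∈ Q ⊔ Subgroup.centralizer (Q : Set G)) := by
  have := CF.BlockB.charP_k hM
  have hf := CF.Block.isPair_ebs hM he.1 he.2
  let C := Subgroup.centralizer (Q : Set G)
  have hC : CF.Block.IsBlk C (CF.Block.ebs M C e) := CF.Block.isBlk_ebs hM he.2
  let T := CF.Block.stab (CF.Block.Nz ⊤ Q) (CF.Block.ebs M C e)
  have hCT : C ≤ T := (CF.Block.Cz_top Q).symm.trans_le hf.Cz_le_stab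
  have hTN : T ≤ Subgroup.normalizer (Q : Set G) := fun y hy =>
    ((CF.Block.mem_stab_iff_stabilizes hM he.2 y).1 hy).1
  have hTC := hTN.trans (CF.Block.normalizer_le_normalizer_centralizer Q)
  have hZ : (Q ⊓ C).subgroupOf C ≤ Subgroup.center C := fun z hz =>
    Subgroup.mem_center_iff.2 fun c => Subtype.ext (c.2 z hz.1).symm
  have hc : Nat.card ((Q ⊓ C).subgroupOf C) = Nat.card (Q ⊓ C : Subgroup G) :=
    Nat.card_congr (Subgroup.subgroupOfEquivOfLe inf_le_right).toEquiv
  have hi := CF.BlockB.factorization_index_add_card (p := p) ((Q ⊓ C).subgroupOf C)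
  rw [hc] at hi
  constructor
  · rintro ⟨B, hB⟩
    obtain ⟨-, -, hB⟩ := (CF.Block.isMaximalBrauerPair_iff hM).1 hB
    obtain ⟨θ, h1, h2, h3⟩ := CF.BlockB.exists_canon hM he.2
      ((CF.Block.isDefectGroup_iff_subgroupOf hM he.2 inf_le_right).2
        (hB.isDefGrp_stab.inf_of_isBlk hf.isBlk_stab hC hTC hCT))
      (CF.BlockB.sup_centralizer_of_le_center hZ)
    refine ⟨θ, h1, fun z hz => (CF.Char.mem_charKer_iff (CF.Char.irr_isCharacter θ.2)).1
      (h2 ⟨hz, z.2⟩), h3.deg ▸ hi, fun g hg hs hk => ?_⟩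
    have hgT : g ∈ T := (CF.Block.mem_stab_iff_stabilizes hM he.2 g).2 ⟨hg, hs⟩
    have h4 := hB.not_dvd_relIndex
    rw [CF.Block.Cz_top] at h4
    exact CF.Block.le_of_not_dvd_relIndex (CF.Char.isPGroup_zpowers_of_orderOf hk)
      (Subgroup.zpowers_le.2 hgT) (sup_le hf.le_stab hCT) (Subgroup.zpowers_le.2
        (CF.Block.normalizer_inf_le_normalizer_sup _ _ ⟨hg, hTC hgT⟩)) h4 (Subgroup.mem_zpowers g)
  · rintro ⟨θ, h1, -, h2, h3⟩
    have h4 := (CF.BlockB.canon_of_central hM.1 (he.1.to_inf_left.comap_subtype) hZ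
      (θ := θ) (Nat.add_right_cancel (h2.trans hi.symm))).isDefectGroup hM
    rw [← CF.BlockB.block_eq_blockOf hM he.2 h1] at h4
    replace h4 := (CF.Block.isDefectGroup_iff_subgroupOf hM he.2 inf_le_right).1 h4
    obtain ⟨R, hR⟩ := CF.Block.exists_isSyl (p := p) T
    have h5 : R ≤ Q ⊔ C := fun g hg => by
      obtain ⟨h6, h7⟩ := (CF.Block.mem_stab_iff_stabilizes hM he.2 g).1 (hR.le hg)
      obtain ⟨k, hk⟩ := IsPGroup.iff_orderOf.1 hR.isP ⟨g, hg⟩
      exact h3 g h6 h7 ⟨k, by rw [← hk, Subgroup.orderOf_mk]⟩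
    obtain ⟨B, hB⟩ := hf.exists_bPair
    obtain ⟨B, h6, rfl⟩ := CF.Block.exists_eb_eq hM hB.blk
    exact ⟨B, (CF.Block.isMaximalBrauerPair_iff hM).2 ⟨h6, he.2, hB.maxPair (hB.isDefGrp_of_stab
      (CF.Block.isDefGrp_of_not_dvd hf.isBlk_stab hC hTC hCT he.1 hf.le_stab
        (hf.Br_self.trans_ne hC.ne) h4 fun h => hR.not_dvd_relIndex
          (h.trans (Subgroup.relIndex_dvd_of_le_left T h5))))⟩⟩

end Cfsg.Agent.S4828
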