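import Cfsg.Statements.S4836
import Cfsg.Agent.Char.Gagola

set_option autoImplicit false
open Cfsg

namespace Cfsg.Agent.S4836

/-- Let G be a finite group of order greater than 2 with an irreducible character χ that is nonzero on exactly two conjugacy classes. Then χ is faithful (it takes the value χ(1) only at the identity), it is the only faithful irreducible character of G, and it is the only irreducible character of G that is nonzero on exactly two conjugacy classes. -/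
theorem result {G : Type*} [Group G] [Finite G] (hG : 2 < Nat.card G) (χ : Cfsg.IrrCharacter G) (hχ : Nat.card {C : ConjClasses G // ∃ g ∈ C.carrier, (χ : G → ℂ) g ≠ 0} = 2) :
    (∀ g : G, (χ : G → ℂ) g = (χ : G → ℂ) 1 → g = 1) ∧
      (∀ ψ : Cfsg.IrrCharacter G, (∀ g : G, (ψ : G → ℂ) g = (ψ : G → ℂ) 1 → g = 1) → ψ = χ) ∧
      (∀ ψ : Cfsg.IrrCharacter G, Nat.card {C : ConjClasses G // ∃ g ∈ C.carrier, (ψ : G → ℂ) g ≠ 0} = 2 → ψ = χ) := by
  have a : ∀ ψ : Cfsg.IrrCharacter G, Nat.card {C : ConjClasses G // ∃ g ∈ C.carrier, (ψ : G → ℂ) g ≠ 0} = 2 →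
      ∀ g : G, (ψ : G → ℂ) g = (ψ : G → ℂ) 1 → g = 1 := fun ψ hψ g e => by
    obtain ⟨N, h⟩ := CF.Char.exists_gag hG hψ
    exact Subgroup.mem_bot.1 (h.ker_eq ▸ (CF.Char.mem_charKer_iff (CF.Char.irr_isCharacter ψ.2)).2 e)
  have b : ∀ ψ : Cfsg.IrrCharacter G, (∀ g : G, (ψ : G → ℂ) g = (ψ : G → ℂ) 1 → g = 1) → ψ = χ :=
    fun ψ k => by_contra fun n => by
      obtain ⟨N, h⟩ := CF.Char.exists_gag hG hχ
      exact h.ne (eq_bot_iff.2 fun g hg => k g
        ((CF.Char.mem_charKer_iff (CF.Char.irr_isCharacter ψ.2)).1 (h.ker ψ n hg)))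
  exact ⟨a χ hχ, b, fun ψ h => b ψ (a ψ h)⟩

end Cfsg.Agent.S4836
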