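import Cfsg.Statements.S4839
import Cfsg.Agent.Char.Gagola2

set_option autoImplicit false
open Cfsg

namespace Cfsg.Agent.S4839

/-- Let G be a finite group of order greater than 2 with an irreducible character χ nonzero on exactly two conjugacy classes, and let N be the normal p-subgroup of elements where χ is nonzero. Then N is the whole p-core O_p(G) if and only if G is a doubly transitive Frobenius group with kernel N: G has a Frobenius complement H whose Frobenius kernel is N and whose order is one less than that of N. -/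
theorem result {G : Type*} [Group G] [Finite G] (hG : 2 < Nat.card G) (χ : Cfsg.IrrCharacter G) (hχ : Nat.card {C : ConjClasses G // ∃ g ∈ C.carrier, (χ : G → ℂ) g ≠ 0} = 2) (p : ℕ) [Fact p.Prime] (N : Subgroup G) [N.Normal] (hN : ∀ g : G, g ∈ N ↔ (χ : G → ℂ) g ≠ 0) (hNp : IsPGroup p N) (hN1 : N ≠ ⊥) :
    N = Cfsg.pCore p G ↔ ∃ H : Subgroup G, Cfsg.IsFrobeniusComplement H ∧ Cfsg.frobeniusKernel H = (N : Set G) ∧ Nat.card H + 1 = Nat.card N := by
  have h := CF.Char.gag_of hG hχ hN
  obtain ⟨⟨x, hx⟩, x1⟩ := Subgroup.ne_bot_iff_exists_ne_one.1 hN1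
  replace x1 : x ≠ 1 := by simpa using x1
  have i := h.index_cent hx x1
  rw [← h.centralizer_eq hNp]
  refine ⟨fun e => ?_, fun ⟨H, a, b, _⟩ => le_antisymm (h.comm hNp) fun g hg => ?_⟩
  · obtain ⟨H, d, s⟩ := h.exists_compl hNp e.symm
    have r := h.semiReg hNp d s
    have t : N ⊔ H = ⊤ := eq_top_iff.2 fun g _ => (s g).elim fun n e =>
      mul_inv_cancel_left n g ▸ Subgroup.mul_mem_sup e.1 e.2
    have c : Subgroup.centralizer {x} = N := le_antisymm (fun g hg => (s g).elim fun n k => by
      have := (r.symm x hx x1).le (Subgroup.mem_inf.2 ⟨k.2, mul_mem (inv_mem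
        (Subgroup.mem_centralizer_singleton_iff.2 (e.le k.1 x hx).symm)) hg⟩)
      exact eq_of_inv_mul_eq_one (Subgroup.mem_bot.1 this) ▸ k.1) fun g hg =>
        Subgroup.mem_centralizer_singleton_iff.2 (e.le hg x hx).symm
    rw [c] at i
    have k := (Subgroup.isComplement'_of_disjoint_and_mul_eq_univ (disjoint_iff.2 d) (by
      rw [← Subgroup.normal_mul, t]; rfl)).symm.index_eq_card
    refine ⟨H, CF.Coprime.isFrobeniusComplement_of_semiReg r Subgroup.le_normalizer_of_normal t hN1
      fun b => ?_, CF.Coprime.frobeniusKernel_eq_of_semiReg r Subgroup.le_normalizer_of_normal t,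
        k ▸ i⟩
    rw [b, Subgroup.card_bot] at k
    have := N.card_mul_index
    rw [← i, k] at this
    omega
  · obtain ⟨K, k, -, c, -, r⟩ := CF.Coprime.frob_exists_kernel a
    obtain rfl : K = N := SetLike.coe_injective (k.trans b)
    obtain ⟨⟨n, u⟩, rfl⟩ := c.2 g
    have := (r.symm x hx x1).le (Subgroup.mem_inf.2 ⟨u.2, Subgroup.mem_centralizer_singleton_iff.2
      ((Subgroup.mul_mem_cancel_left _ (h.comm hNp n.2)).1 hg x hx).symm⟩)
    simp [Subgroup.mem_bot.1 this]

end Cfsg.Agent.S4839
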