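import Cfsg.Statements.S4840
import Cfsg.Agent.Char.Gagola3

set_option autoImplicit false
open Cfsg

namespace Cfsg.Agent.S4840

/-- Let G be a finite solvable group of order greater than 2 with an irreducible character nonzero on exactly two conjugacy classes. Then there is exactly one prime p with O_p(G) ≠ 1, and the quotient G/O_p(G) has a normal p-complement and commutative Sylow p-subgroups. -/
theorem result {G : Type*} [Group G] [Finite G] [hs : Group.IsSolvable G] (hG : 2 < Nat.card G) (χ : Cfsg.IrrCharacter G) (hχ : Nat.card {C : ConjClasses G // ∃ g ∈ C.carrier, (χ : G → ℂ) g ≠ 0} = 2) :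
    ∃ p : ℕ, p.Prime ∧ (∀ q : ℕ, q.Prime → (Cfsg.pCore q G ≠ ⊥ ↔ q = p)) ∧
      Cfsg.HasNormalPComplement p (G ⧸ Cfsg.pCore p G) ∧ ∀ Q : Sylow p (G ⧸ Cfsg.pCore p G), IsMulCommutative (Q : Subgroup (G ⧸ Cfsg.pCore p G)) := by
  obtain ⟨N, h⟩ := CF.Char.exists_gag hG hχ
  obtain ⟨p, hp, e⟩ := h.exists_prime
  have := Fact.mk hp
  have := h.normal
  have k : IsPGroup p N := fun x => ⟨1, Subtype.ext (by simpa using e x x.2)⟩
  have kr : IsPGroup p (QuotientGroup.mk' (pCore p G)).ker := by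
    rw [QuotientGroup.ker_mk']; exact CF.Solv.pCore_isPGroup
  have sj := QuotientGroup.mk'_surjective (pCore p G)
  have d := CF.Char.not_dvd_card_der (G := G ⧸ pCore p G) hp inferInstance
    ((CF.BG.pCore_eq hp).symm.trans CF.Solv.pCore_quotient_pCore)
    (fun q hq qp => h.cyc_or_quat k sj kr hq qp) fun S hS => by
      obtain ⟨S, rfl⟩ := hS.exists_sylow_top
      obtain ⟨m, hm⟩ := h.relIndex_norm k (S.comapOfKerIsPGroup _ kr (by simp))
      refine ⟨m, hm ▸ ?_⟩
      rw [Sylow.coe_comapOfKerIsPGroup, ← Subgroup.comap_normalizer_eq_of_surjective _ sj,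
        Subgroup.relIndex_comap, Subgroup.map_comap_eq_self_of_surjective sj]
  have c := ((Nat.Prime.coprime_iff_not_dvd hp).2 d).symm
  have : Group.IsNilpotent ((G ⧸ pCore p G) ⧸ commutator (G ⧸ pCore p G)) :=
    CommGroup.isNilpotent (G := Abelianization _)
  refine ⟨p, hp, fun q hq => ⟨fun n => by_contra fun qp => h.ne (eq_bot_iff.2 ?_), ?_⟩,
    CF.Transfer.hasNPC_of_quotient_coprime c (CF.Coprime.hasNPC_of_isNilpotent p), fun Q => ?_⟩
  · have := Fact.mk hq
    exact (le_inf le_rfl (h.le_of_normal inferInstance n)).trans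
      (IsPGroup.disjoint_of_ne p q (Ne.symm qp) _ _ k CF.Solv.pCore_isPGroup).le_bot
  · rintro rfl b
    exact h.ne (eq_bot_iff.2 (b ▸ CF.Solv.le_pCore k))
  · refine CF.BG.abel_iff.1 (Subgroup.commutator_eq_bot_iff_le_centralizer.1 (eq_bot_iff.2 ?_))
    exact (le_inf (CF.BG.der_le _) (Subgroup.commutator_mono le_top le_top)).trans
      ((CF.BG.piGrp_of_isPGroup hp Q.2).inf_eq_bot ((CF.BG.piNat_compl_single hp).2 d)).le

end Cfsg.Agent.S4840
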