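import Cfsg.Statements.S4843
import Cfsg.Agent.Char.IrrProd
import Cfsg.Agent.BG.B12

set_option autoImplicit false
open Cfsg

namespace Cfsg.Agent.S4843

/-- Let G be a finite group with a faithful irreducible character χ (taking the value χ(1) only at the identity) and let k be prime to the order of G, so that g ↦ χ(g^k) is a Galois conjugate of χ. If the pointwise product g ↦ χ(g)·χ(g^k) is again an irreducible character, then the Fitting subgroup of G equals its centre. -/
theorem result {G : Type*} [Group G] [Finite G] (χ : Cfsg.IrrCharacter G) (hfaith : ∀ g : G, (χ : G → ℂ) g = (χ : G → ℂ) 1 → g = 1) (k : ℕ) (hk : Nat.Coprime k (Nat.card G)) (hirr : Cfsg.IsIrrCharacter G (fun g => (χ : G → ℂ) g * (χ : G → ℂ) (g ^ k))) : Cfsg.fittingSubgroup G = Subgroup.center G := by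
  have hk' := (CF.BlockB.Ord.charKer_eq_bot_iff (CF.Char.irr_isCharacter χ.2)).2 hfaith
  rw [← CF.BG.F_top]
  refine le_antisymm ?_ (by simpa [Subgroup.centralizer_univ] using CF.BG.center_le_F (⊤ : Subgroup G))
  by_contra n
  have a := (CF.BG.F_nil (⊤ : Subgroup G)).map (QuotientGroup.mk' (Subgroup.center G))
  obtain ⟨_, ⟨⟨x, hx, rfl⟩, c⟩, x1⟩ := CF.BG.exists_mem_ne_one (a.inf_cent_ne_bot
    ⟨le_rfl, Subgroup.le_normalizer⟩ fun e => n (by simpa [Subgroup.map_eq_bot_iff] using e))
  refine x1 ((QuotientGroup.eq_one_iff x).2 (CF.Char.mem_center_of_irr_mul_pow χ.2 hk' hk hirr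
    fun g => (QuotientGroup.eq_one_iff _).1 ?_))
  have := c _ ⟨g * x * g⁻¹, (Subgroup.mem_normalizer_iff.1 ((CF.BG.F_normal ⊤).2
    (Subgroup.mem_top g)) x).1 hx, rfl⟩
  rw [QuotientGroup.mk_mul, QuotientGroup.mk_mul, QuotientGroup.mk_mul]
  erw [this]
  simp [mul_assoc]

end Cfsg.Agent.S4843
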