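import Cfsg.Statements.S4845
import Cfsg.Agent.Char.SameKer

set_option autoImplicit false
open Cfsg

namespace Cfsg.Agent.S4845

/-- Let p be a prime and P a finite non-commutative p-group. Then every two irreducible characters of P of the same degree greater than 1 are Galois conjugate (one is obtained from the other by composing with g ↦ g^k for some k prime to the order of P) if and only if the centre of P is cyclic and the derived subgroup of P has order p. -/
theorem result {P : Type*} [Group P] [Finite P] (p : ℕ) [Fact p.Prime] (hP : IsPGroup p P) (hna : ¬ IsMulCommutative P) :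
    (∀ χ ψ : Cfsg.IrrCharacter P, Cfsg.charDegree (χ : P → ℂ) ≠ 1 → Cfsg.charDegree (χ : P → ℂ) = Cfsg.charDegree (ψ : P → ℂ) → ∃ k : ℕ, Nat.Coprime k (Nat.card P) ∧ ∀ g : P, (ψ : P → ℂ) g = (χ : P → ℂ) (g ^ k)) ↔
      (IsCyclic (Subgroup.center P) ∧ Nat.card (commutator P) = p) := by
  have hp : p.Prime := Fact.out
  have n : commutator P ≠ ⊥ := fun e => hna ⟨⟨CF.Char.comm_of_commutator_eq_bot e⟩⟩
  refine ⟨fun h => ?_, fun ⟨c, d⟩ χ ψ χ1 e => ?_⟩
  · have s : CF.Char.SameKer P := fun χ ψ a b c d => by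
      obtain ⟨k, hk, e⟩ := h ⟨χ, a⟩ ⟨ψ, b⟩ (mt (CF.BlockB.Ord.deg_eq_one_iff
        (CF.Char.irr_isCharacter a)).1 c) d
      ext g
      rw [← CF.BlockB.Ord.pow_mem_iff_of_coprime _ hk, CF.Char.mem_charKer_iff
        (CF.Char.irr_isCharacter a), CF.Char.mem_charKer_iff (CF.Char.irr_isCharacter b)]
      rw [show ψ g = _ from e g, show ψ 1 = _ from e 1, one_pow]
    have d := CF.Char.SameKer.card_der _ P rfl s hP n
    exact ⟨s.isCyclic hP d, d⟩
  have z := CF.Fgs1.le_center_of_card_prime hP d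
  obtain ⟨x, hx⟩ := c.exists_generator
  have k : ∀ χ : IrrCharacter P, charDegree χ.1 ≠ 1 → (∀ g ∉ Subgroup.center P, χ.1 g = 0) ∧
      ∃ l : Subgroup.center P →* ℂˣ, IsPrimitiveRoot (l x) (orderOf x) ∧
        ∀ g : Subgroup.center P, χ.1 g = l g * charDegree χ.1 := fun χ h => by
    have a := CF.Char.ker_inf_der d χ.2 (mt (CF.BlockB.Ord.deg_eq_one_iff
      (CF.Char.irr_isCharacter χ.2)).2 h)
    have b := (CF.Char.deg_sq_of_der_le χ.2 z a).1
    obtain ⟨l, hl⟩ := CF.Char.exists_linear_of_le_charCenter (CF.Char.irr_one_ne_zero χ.2) _ b.ge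
    refine ⟨fun g hg => CF.Char.irr_eq_zero_of_der_le χ.2 (b ▸ z) (b ▸ hg), l, ?_, fun g => by
      simpa [CF.BlockB.Ord.irr_deg_eq χ.2] using hl g 1⟩
    rw [← orderOf_injective l ((injective_iff_map_eq_one l).2 fun g hg => by_contra fun g1 => ?_)]
    · exact IsPrimitiveRoot.orderOf _
    refine CF.BG.Cyc.inf_ne_bot c (CF.BG.piGrp_of_isPGroup hp (hP.to_subgroup _))
      (inf_le_right (a := CF.Char.charKer χ.1)) z (fun e => g1 (Subtype.ext (Subgroup.mem_bot.1
        (e ▸ ⟨fun y => by simp [hl, hg], g.2⟩)))) n (eq_bot_iff.2 (a ▸ inf_le_inf_right _ inf_le_left))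
  obtain ⟨a, l, hl, b⟩ := k χ χ1
  obtain ⟨a', l', hl', b'⟩ := k ψ (e ▸ χ1)
  have : NeZero (orderOf x) := ⟨(orderOf_pos x).ne'⟩
  obtain ⟨i, -, hi, f⟩ := hl.isPrimitiveRoot_iff'.1 hl'
  obtain ⟨m, hm⟩ := hP.exists_card_eq
  have j : i.Coprime (Nat.card P) := hm ▸ (hi.coprime_dvd_right (by
    rw [orderOf_eq_card_of_forall_mem_zpowers hx, ← d]
    exact Subgroup.card_dvd_of_le z)).pow_right m
  refine ⟨i, j, fun g => ?_⟩
  by_cases hg : g ∈ Subgroup.center P
  · obtain ⟨t, ht⟩ := hx ⟨g, hg⟩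
    rw [b' ⟨g, hg⟩, show χ.1 (g ^ i) = _ from b (⟨g, hg⟩ ^ i), e, ← ht, map_pow, map_zpow, map_zpow, ← f, ← zpow_natCast,
      ← zpow_natCast, zpow_comm]
  · rw [a' g hg, a _ (mt (CF.BlockB.Ord.pow_mem_iff_of_coprime _ j).1 hg)]

end Cfsg.Agent.S4845
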