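import Cfsg.Statements.S4847
import Cfsg.Agent.Deg.Pal2

set_option autoImplicit false
open Cfsg

namespace Cfsg.Agent.S4847

/-- Let G be a finite solvable group and p, q, r three distinct primes each dividing the degree of some irreducible character of G. Then for some two of them the product divides the degree of some irreducible character of G (the character degree graph of a solvable group has no three pairwise non-adjacent vertices). -/
theorem result {G : Type*} [Group G] [Finite G] [hs : Group.IsSolvable G] (p q r : ℕ) (hp : p.Prime) (hq : q.Prime) (hr : r.Prime) (hpq : p ≠ q) (hqr : q ≠ r) (hpr : p ≠ r)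
    (hpd : ∃ χ : Cfsg.IrrCharacter G, p ∣ Cfsg.charDegree (χ : G → ℂ)) (hqd : ∃ χ : Cfsg.IrrCharacter G, q ∣ Cfsg.charDegree (χ : G → ℂ)) (hrd : ∃ χ : Cfsg.IrrCharacter G, r ∣ Cfsg.charDegree (χ : G → ℂ)) :
    (∃ χ : Cfsg.IrrCharacter G, p * q ∣ Cfsg.charDegree (χ : G → ℂ)) ∨ (∃ χ : Cfsg.IrrCharacter G, q * r ∣ Cfsg.charDegree (χ : G → ℂ)) ∨ (∃ χ : Cfsg.IrrCharacter G, p * r ∣ Cfsg.charDegree (χ : G → ℂ)) := by
  by_contra! w
  have f : ∀ {p q : ℕ}, p.Prime → q.Prime → p ≠ q →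
      (∀ χ : Cfsg.IrrCharacter G, ¬ p * q ∣ Cfsg.charDegree (χ : G → ℂ)) → CF.Degs.NE G p q :=
    fun a b c h d ⟨χ, e⟩ x y => h χ (e ▸ ((Nat.coprime_primes a b).2 c).mul_dvd_of_dvd_of_dvd x y)
  have g : ∀ {p : ℕ}, (∃ χ : Cfsg.IrrCharacter G, p ∣ Cfsg.charDegree (χ : G → ℂ)) →
      CF.Degs.Act G p := fun ⟨χ, h⟩ => ⟨_, ⟨χ, rfl⟩, h⟩
  exact CF.Degs.palfy hp hq hr hpq hqr hpr _ G rfl hs (g hpd) (g hqd) (g hrd) (f hp hq hpq w.1)
    (f hq hr hqr w.2.1) (f hp hr hpr w.2.2)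

end Cfsg.Agent.S4847
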