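import Cfsg.Statements.S4850
import Cfsg.Agent.Crit.Van
-- import your own Cfsg.Agent.* helpers here

set_option autoImplicit false
open Cfsg

namespace Cfsg.Agent.S4850

/-- Let p be a prime and G a finite solvable group whose vanishing elements (elements at which some irreducible character is zero) of order divisible by p all have the same order, with at least one such element. Let P be a Sylow p-subgroup of G. Then the derived subgroup of P is subnormal in G and the image of P in G/O_p(G) is cyclic. -/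
theorem result {G : Type*} [Group G] [Finite G] [hs : Group.IsSolvable G] (p : ℕ) [Fact p.Prime] (b : ℕ) (hvo : {n : ℕ | p ∣ n ∧ ∃ (g : G) (χ : Cfsg.IrrCharacter G), orderOf g = n ∧ (χ : G → ℂ) g = 0} = {b}) (P : Sylow p G) :
    ((commutator ↥(P : Subgroup G)).map (P : Subgroup G).subtype).IsSubnormal ∧ IsCyclic ↥((P : Subgroup G).map (QuotientGroup.mk' (Cfsg.pCore p G))) := by
  have key : ∀ x : G, CF.Crit.Vn.Van x → p ∣ orderOf x → orderOf x = b := by
    rintro x ⟨χ, hχ, h0⟩ hx
    rw [← Set.mem_singleton_iff, ← hvo]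
    exact ⟨hx, x, ⟨χ, hχ⟩, rfl, h0⟩
  have h2 := CF.Crit.Vn.main (p := p) (G := G)
    (fun x y hx hy h1 h2 => (key x hx h1).trans (key y hy h2).symm) P P.isPGroup'
  have hc : IsCyclic ↥((P : Subgroup G).map (QuotientGroup.mk' (Cfsg.pCore p G))) := by
    obtain ⟨k, hk⟩ := (P.isPGroup'.map (QuotientGroup.mk' (Cfsg.pCore p G))).exists_card_eq
    have h3 : p ^ k ≤ p ^ 1 := by rw [← hk, pow_one]; exact h2
    have h4 := (Nat.pow_le_pow_iff_right (Fact.out : p.Prime).one_lt).1 h3
    exact isCyclic_of_card_dvd_prime (p := p) (hk ▸ (pow_dvd_pow p h4).trans (pow_one p).dvd)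
  refine ⟨CF.Solv.isSubnormal_of_le_fitting (le_trans ?_ (CF.Solv.pCore_le_fitting (p := p))), hc⟩
  rw [Subgroup.map_subtype_commutator, Subgroup.commutator_le]
  intro a ha c hc'
  rw [← QuotientGroup.eq_one_iff]
  have := hc.commGroup.mul_comm ⟨_, Subgroup.mem_map_of_mem _ ha⟩ ⟨_, Subgroup.mem_map_of_mem _ hc'⟩
  show QuotientGroup.mk' _ _ = 1
  rw [map_commutatorElement, commutatorElement_eq_one_iff_mul_comm]
  exact congrArg Subtype.val this

end Cfsg.Agent.S4850
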