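import Cfsg.Statements.S4865
import Cfsg.Agent.PLocal.ChC

set_option autoImplicit false
open Cfsg

namespace Cfsg.Agent.S4865

/-- Let p be a prime and G a finite group such that the subgroup generated by the p-elements of G is solvable and every real-valued irreducible complex character of G has degree prime to p. Let N be the normalizer of a Sylow p-subgroup of G. Then there is a bijection from the real-valued irreducible characters of G onto the real-valued irreducible characters of N of degree prime to p under which corresponding degrees are congruent modulo p up to sign. -/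
theorem result {G : Type*} [Group G] [Finite G] (p : ℕ) [Fact p.Prime] (hsolv : Group.IsSolvable ↥(Subgroup.closure {g : G | ∃ k : ℕ, orderOf g = p ^ k})) (hreal : ∀ χ : Cfsg.IrrCharacter G, (∀ g : G, ((χ : G → ℂ) g).im = 0) → ¬ p ∣ Cfsg.charDegree (χ : G → ℂ)) (P : Sylow p G) : ∃ f : {χ : Cfsg.IrrCharacter G // ∀ g : G, ((χ : G → ℂ) g).im = 0} → {ξ : Cfsg.IrrCharacter ↥(Subgroup.normalizer ((P : Subgroup G) : Set G)) // (∀ n, ((ξ : ↥(Subgroup.normalizer ((P : Subgroup G) : Set G)) → ℂ) n).im = 0) ∧ ¬ p ∣ Cfsg.charDegree (ξ : ↥(Subgroup.normalizer ((P : Subgroup G) : Set G)) → ℂ)}, Function.Bijective f ∧ ∀ χ, ((Cfsg.charDegree ((f χ).1 : ↥(Subgroup.normalizer ((P : Subgroup G) : Set G)) → ℂ) : ZMod p) = (Cfsg.charDegree (χ.1 : G → ℂ) : ZMod p) ∨ (Cfsg.charDegree ((f χ).1 : ↥(Subgroup.normalizer ((P : Subgroup G) : Set G)) → ℂ) : ZMod p) = -(Cfsg.charDegree (χ.1 : G → ℂ) : ZMod p)) := by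
  have hr : CF.RealP.Hyp p G := fun χ h1 h2 => hreal ⟨χ, h1⟩ h2
  have hP := CF.BG.syl_sylow_top P
  have := Fintype.ofFinite ((CF.RealP.Gen 2 G).subgroupOf
    (Subgroup.normalizer ((P : Subgroup G) : Set G)))
  obtain ⟨h1, h2⟩ := CF.RealP.bij_rel hP (CF.RealP.normal_inf_gen hsolv hr hP)
    (CF.RealP.odd_gen_idx G) hr
  obtain ⟨f, hf, e⟩ := CF.Char.bij_exists_fun h1
  exact ⟨f, hf, fun χ => h2 _ _ χ.1.2 (f χ).1.2 χ.2 (f χ).2.1 ((e χ _).2 rfl)⟩

end Cfsg.Agent.S4865
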