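import Cfsg.Statements.S4866
import Cfsg.Agent.BlockB.Ord4
-- import your own Cfsg.Agent.* helpers here

set_option autoImplicit false
open Cfsg

namespace Cfsg.Agent.S4866

/-- Let K be a normal subgroup of odd index in the finite group G. Then G has as many orbits on the real-valued irreducible complex characters of K (acting by conjugation) as it has orbits on the conjugacy classes of K that are real in K; equivalently, the number of G-orbits of real-valued irreducible characters of K equals the number of G-conjugacy classes of elements of K that are conjugate in K to their inverses. -/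
theorem result {G : Type*} [Group G] [Finite G] (K : Subgroup G) [K.Normal] (hodd : Odd K.index) : Nat.card (Quot (fun θ η : {θ : Cfsg.IrrCharacter ↥K // (∀ k : ↥K, ((θ : ↥K → ℂ) k).im = 0)} => ∃ g : G, ∀ k k' : ↥K, (k' : G) = g * (k : G) * g⁻¹ → (η.1 : ↥K → ℂ) k' = (θ.1 : ↥K → ℂ) k)) = Nat.card (Quot (fun x y : {x : ↥K // IsConj x x⁻¹} => ∃ g : G, (y.1 : G) = g * x.1 * g⁻¹)) := by
  classical
  have := Fintype.ofFinite G
  set E := CF.Clifford.NormalEmb.sub K
  have hpow : ∀ g : G, ∃ j : ℕ, ∃ k : K, ∀ x, (E.c g ^ (2 * j)) (E.c g x) = k * x * k⁻¹ := by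
    intro g
    obtain ⟨j, hj⟩ := hodd
    refine ⟨j, ⟨g ^ K.index, K.pow_index_mem g⟩, fun x => ?_⟩
    rw [← E.c_ι, ← MulAut.mul_apply, ← pow_succ, ← map_pow, ← hj]
    rfl
  let X := {θ : IrrCharacter K // ∀ k : K, ((θ : K → ℂ) k).im = 0}
  let Y := {C : ConjClasses K // ∀ x, ConjClasses.mk x = C → IsConj x x⁻¹}
  have hmap : ∀ (g : G) {x y : K}, IsConj x y → IsConj (E.c g x) (E.c g y) :=
    fun g _ _ h => (E.c g).toMonoidHom.map_isConj h
  have hinv : ∀ {x y : K}, IsConj x y → IsConj x⁻¹ y⁻¹ := fun h => by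
    obtain ⟨c, rfl⟩ := isConj_iff.1 h
    exact isConj_iff.2 ⟨c, by group⟩
  have hY : ∀ {x : K}, IsConj x x⁻¹ → ∀ y, ConjClasses.mk y = ConjClasses.mk x → IsConj y y⁻¹ :=
    fun h y hy => (ConjClasses.mk_eq_mk_iff_isConj.1 hy).trans
      (h.trans (hinv (ConjClasses.mk_eq_mk_iff_isConj.1 hy)).symm)
  letI : MulAction G X :=
    { smul := fun g θ => ⟨⟨E.cj θ.1 g⁻¹, E.cj_irr θ.1.2 _⟩, fun k => θ.2 _⟩
      one_smul := fun θ => Subtype.ext (Subtype.ext (by
        change E.cj _ 1⁻¹ = _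
        rw [inv_one, E.cj_one]))
      mul_smul := fun g h θ => Subtype.ext (Subtype.ext (by
        change E.cj _ (g * h)⁻¹ = E.cj (E.cj _ h⁻¹) g⁻¹
        rw [mul_inv_rev, E.cj_mul])) }
  letI : MulAction G Y :=
    { smul := fun g C => ⟨ConjClasses.map (E.c g⁻¹⁻¹).toMonoidHom C.1, by
        obtain ⟨C, hC⟩ := C
        obtain ⟨x, rfl⟩ := ConjClasses.mk_surjective C
        exact hY (by simpa using hmap _ (hC x rfl))⟩
      one_smul := fun ⟨C, hC⟩ => Subtype.ext (by
        obtain ⟨x, rfl⟩ := ConjClasses.mk_surjective C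
        change ConjClasses.mk (E.c 1⁻¹⁻¹ x) = ConjClasses.mk x
        simp)
      mul_smul := fun g h ⟨C, hC⟩ => Subtype.ext (by
        obtain ⟨x, rfl⟩ := ConjClasses.mk_surjective C
        change ConjClasses.mk (E.c (g * h)⁻¹⁻¹ x) = ConjClasses.mk (E.c g⁻¹⁻¹ (E.c h⁻¹⁻¹ x))
        simp) }
  have hsm : ∀ (g : G) (x : K) (h), (g • (⟨ConjClasses.mk x, h⟩ : Y)).1 =
      ConjClasses.mk (E.c g x) := fun g x h => by
    change ConjClasses.mk (E.c g⁻¹⁻¹ x) = _
    rw [inv_inv]
  have hfix : ∀ g : G, Nat.card (MulAction.fixedBy X g⁻¹) = Nat.card (MulAction.fixedBy Y g) := by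
    intro g
    obtain ⟨j, k, hk⟩ := hpow g
    have h := CF.Char.card_fixed_irr_eq (fun x : K => E.c g x⁻¹) fun χ hχ =>
      CF.Char.irr_comp_inv (E.cj_irr hχ g)
    refine (Nat.card_congr ((Equiv.subtypeSubtypeEquivSubtypeExists _ _).trans
      (Equiv.subtypeEquivRight fun θ => ?_))).trans (h.trans (Nat.card_congr
        ((Equiv.subtypeEquivRight fun C => ?_).trans
          (Equiv.subtypeSubtypeEquivSubtypeExists _ _).symm)))
    · have e : ∀ h : ∀ k : K, ((θ : K → ℂ) k).im = 0, (⟨θ, h⟩ : X) ∈ MulAction.fixedBy X g⁻¹ ↔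
          ∀ x, (θ : K → ℂ) (E.c g x) = (θ : K → ℂ) x := fun h => by
        rw [MulAction.mem_fixedBy, Subtype.ext_iff, Subtype.ext_iff]
        change E.cj _ g⁻¹⁻¹ = _ ↔ _
        rw [inv_inv, funext_iff]
        rfl
      simp only [e, funext_iff]
      refine ⟨fun ⟨h1, h2⟩ x => ?_, fun h1 => ?_⟩
      · rw [h2, CF.Char.irr_inv θ.2, Complex.conj_eq_iff_im.2 (h1 x)]
      have h2 : ∀ (i : ℕ) x, (θ : K → ℂ) ((E.c g ^ (2 * i)) x) = (θ : K → ℂ) x := by
        intro i
        induction i with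
        | zero => simp
        | succ i ih =>
          intro x
          rw [mul_add, mul_one, pow_add, MulAut.mul_apply, ih, sq, MulAut.mul_apply, ← h1 x,
            ← h1 (E.c g x⁻¹), map_inv (E.c g) x, inv_inv]
      have h3 : ∀ x, (θ : K → ℂ) x⁻¹ = (θ : K → ℂ) x := fun x => by
        rw [← h1 x, ← h2 j (E.c g _), hk, CF.Char.classFun_conj (CF.Char.irr_isClassFunction θ.2)]
      refine ⟨fun x => ?_, fun x => by rw [← h3 x, ← h1 x⁻¹, inv_inv]⟩
      rw [← Complex.conj_eq_iff_im, ← CF.Char.irr_inv θ.2, h3]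
    · obtain ⟨x, rfl⟩ := ConjClasses.mk_surjective C
      have e : ∀ h, (⟨ConjClasses.mk x, h⟩ : Y) ∈ MulAction.fixedBy Y g ↔ IsConj (E.c g x) x :=
        fun h => by
          rw [MulAction.mem_fixedBy, Subtype.ext_iff, hsm, ConjClasses.mk_eq_mk_iff_isConj]
      simp only [e]
      refine ⟨fun h1 => ?_, fun ⟨h1, h2⟩ y hy => ?_⟩
      · have h1 := h1 x rfl
        have h2 : ∀ i : ℕ, IsConj x ((E.c g ^ (2 * i)) x) := by
          intro i
          induction i with
          | zero => exact IsConj.refl x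
          | succ i ih =>
            rw [mul_add, mul_one, pow_add, MulAut.mul_apply, sq, MulAut.mul_apply, ← map_pow]
            rw [← map_pow] at ih
            refine ih.trans (hmap _ (h1.trans (hmap g ?_)))
            simpa using hinv h1
        have h3 : IsConj x x⁻¹ := by
          have h4 := hmap (g ^ (2 * j)) h1
          rw [map_pow, hk] at h4
          exact (h2 j).trans (h4.trans (isConj_iff.2 ⟨k, rfl⟩).symm)
        exact ⟨hY h3, (h1.trans (hmap g h3).symm).symm⟩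
      · rw [ConjClasses.mk_eq_mk_iff_isConj] at hy
        exact hy.trans (h2.symm.trans (hmap g ((h1 x rfl).trans (hinv hy).symm)))
  have := Fintype.ofFinite Y
  have hX := MulAction.sum_card_fixedBy_eq_card_orbits_mul_card_group G X
  have hY' := MulAction.sum_card_fixedBy_eq_card_orbits_mul_card_group G Y
  simp only [← Nat.card_eq_fintype_card, ← hfix] at hX hY'
  rw [← Equiv.sum_comp (Equiv.inv G)] at hX
  have h := Nat.eq_of_mul_eq_mul_right Nat.card_pos (hX.symm.trans hY')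
  refine (Nat.card_congr (Quot.congrRight fun θ η => ?_)).trans (h.trans (Nat.card_eq_of_bijective
    (Quot.map (fun x => (⟨ConjClasses.mk x.1, hY x.2⟩ : Y)) ?_) ⟨?_, ?_⟩).symm)
  · refine ⟨fun ⟨g, hg⟩ => ⟨g⁻¹, Subtype.ext (Subtype.ext (funext fun k => ?_))⟩,
      fun ⟨g, hg⟩ => ⟨g⁻¹, fun k k' h => ?_⟩⟩
    · exact hg k _ (by rw [inv_inv]; rfl)
    · rw [← hg]
      exact congrArg _ (Subtype.ext h)
  · rintro x y ⟨g, hg⟩
    refine ⟨g⁻¹, Subtype.ext ((hsm _ _ _).trans (congrArg _ (Subtype.ext ?_)))⟩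
    change g⁻¹ * (y.1 : G) * g⁻¹⁻¹ = x.1
    rw [hg]
    group
  · rintro ⟨x⟩ ⟨y⟩ h
    obtain ⟨g, hg⟩ := Quotient.exact h
    obtain ⟨c, hc⟩ := isConj_iff.1 (ConjClasses.mk_eq_mk_iff_isConj.1
      ((hsm _ _ _).symm.trans (congrArg Subtype.val hg)))
    refine (Quot.sound ⟨c * g, ?_⟩).symm
    rw [← hc]
    simp [E, CF.Clifford.NormalEmb.sub_c, mul_assoc]
  · rintro ⟨C, hC⟩
    obtain ⟨x, rfl⟩ := ConjClasses.mk_surjective C
    exact ⟨Quot.mk _ ⟨x, hC x rfl⟩, rfl⟩

end Cfsg.Agent.S4866
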