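import Cfsg.Statements.S4871
import Cfsg.Agent.Crit.Acd
-- import your own Cfsg.Agent.* helpers here

set_option autoImplicit false
open Cfsg

namespace Cfsg.Agent.S4871

/-- Let G be a finite group that is the semidirect product of a normal elementary abelian subgroup N of odd order by a non-trivial 2-subgroup P, with N the unique minimal normal subgroup of G. Consider the strongly real irreducible complex characters of G (Frobenius–Schur indicator +1) whose degree is 1 or even. Then their average degree is at least 4/3: four times their number is at most three times the sum of their degrees. -/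
theorem result {G : Type*} [Group G] [Finite G] (N P : Subgroup G) (hN : N.Normal) (q : ℕ) [Fact q.Prime] (hq : q ≠ 2) (hNel : Cfsg.IsElementaryAbelian q N) (hP : IsPGroup 2 ↥P) (hP1 : P ≠ ⊥) (hdisj : N ⊓ P = ⊥) (hprod : N ⊔ P = ⊤) (hmin : N ≠ ⊥ ∧ ∀ M : Subgroup G, M.Normal → M ≠ ⊥ → N ≤ M) : 4 * Nat.card {χ : Cfsg.IrrCharacter G // (Cfsg.charDegree (χ : G → ℂ) = 1 ∨ 2 ∣ Cfsg.charDegree (χ : G → ℂ)) ∧ (Nat.card G : ℂ)⁻¹ * ∑ᶠ g : G, (χ : G → ℂ) (g * g) = 1} ≤ 3 * (∑ᶠ χ : {χ : Cfsg.IrrCharacter G // (Cfsg.charDegree (χ : G → ℂ) = 1 ∨ 2 ∣ Cfsg.charDegree (χ : G → ℂ)) ∧ (Nat.card G : ℂ)⁻¹ * ∑ᶠ g : G, (χ : G → ℂ) (g * g) = 1}, Cfsg.charDegree (χ.1 : G → ℂ)) := by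
  classical
  haveI := Fintype.ofFinite G
  haveI := hN
  have hc : ∀ a ∈ N, ∀ b ∈ N, a * b = b * a := fun a ha b hb =>
    congrArg Subtype.val (hNel.1.is_comm.comm (⟨a, ha⟩ : N) ⟨b, hb⟩)
  have hodd : ∀ n ∈ N, Odd (orderOf n) := fun n hn =>
    ((Fact.out : q.Prime).odd_of_ne_two hq).of_dvd_nat (orderOf_dvd_of_pow_eq_one (hNel.2 n hn))
  obtain ⟨χ0, K, h0, hd, h2, hfs, hK⟩ :=
    CF.Crit.Acd.main N P hP hP1 hdisj hprod hc hodd hmin.1 hmin.2
  haveI : Fintype (Cfsg.IrrCharacter G) := Fintype.ofFinite _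
  have := CF.Crit.Acd.count h0 K hd h2 hfs hK (Finset.univ.filter fun χ : Cfsg.IrrCharacter G =>
    (Cfsg.charDegree (χ : G → ℂ) = 1 ∨ 2 ∣ Cfsg.charDegree (χ : G → ℂ)) ∧
      (Nat.card G : ℂ)⁻¹ * ∑ᶠ g : G, (χ : G → ℂ) (g * g) = 1) (by
    intro χ
    rw [Finset.mem_filter, CF.Char.fsInd_def, finsum_eq_sum_of_fintype]
    simp)
  rw [finsum_eq_sum_of_fintype, Nat.card_eq_fintype_card, Fintype.card_subtype]
  convert this using 2
  symm
  exact Finset.sum_subtype _ (by simp) fun χ : Cfsg.IrrCharacter G => Cfsg.charDegree (χ : G → ℂ)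

end Cfsg.Agent.S4871
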