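import Cfsg.Statements.S4872
import Cfsg.Agent.BlockB.Ord3
-- import your own Cfsg.Agent.* helpers here

set_option autoImplicit false
open Cfsg

namespace Cfsg.Agent.S4872

/-- Let N be a normal subgroup of the finite group G with G/N a 2-group, and let φ be an irreducible complex character of N of 2-defect zero (the 2-part of #N divides φ(1)) whose complex conjugate is G-conjugate to φ. Then some irreducible character of G with Frobenius–Schur indicator +1 contains φ with multiplicity exactly one on restriction to N. -/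
theorem result {G : Type*} [Group G] [Finite G] (N : Subgroup G) [N.Normal] (h2 : IsPGroup 2 (G ⧸ N)) (φ : Cfsg.IrrCharacter ↥N) (hdef : 2 ^ (Nat.card ↥N).factorization 2 ∣ Cfsg.charDegree (φ : ↥N → ℂ)) (hconj : ∃ g : G, ∀ n n' : ↥N, (n' : G) = g * (n : G) * g⁻¹ → (φ : ↥N → ℂ) n' = (starRingEnd ℂ) ((φ : ↥N → ℂ) n)) : ∃ χ : Cfsg.IrrCharacter G, (Nat.card G : ℂ)⁻¹ * ∑ᶠ g : G, (χ : G → ℂ) (g * g) = 1 ∧ (Nat.card ↥N : ℂ)⁻¹ * ∑ᶠ n : ↥N, (χ : G → ℂ) n * (starRingEnd ℂ) ((φ : ↥N → ℂ) n) = 1 := by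
  classical
  have := Fintype.ofFinite G
  have := Fintype.ofFinite N
  simp only [finsum_eq_sum_of_fintype, ← CF.Char.inner_def, ← CF.Char.fsInd_def]
  obtain ⟨P⟩ : Nonempty (Sylow 2 G) := inferInstance
  obtain ⟨k, hk⟩ := h2.exists_card_eq
  have hc := fun χ : IrrCharacter G => CF.Char.irr_isCharacter χ.2
  choose a ha using fun χ : IrrCharacter G => CF.Char.inner_char_eq_nat
    (CF.Char.char_restrict (hc χ) N) (CF.Char.irr_isCharacter φ.2)
  choose b hb using fun χ : IrrCharacter G => CF.Char.inner_char_eq_nat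
    (CF.Char.char_restrict (hc χ) (P : Subgroup G)) CF.Char.char_const_one
  set S := (P : Subgroup G).subgroupOf N
  have hS : Nat.card S = 2 ^ (Nat.card N).factorization 2 := by
    rw [← (CF.Solv.sylowInfNormal P N).card_eq_multiplicity]; rfl
  obtain ⟨m, hm⟩ := hdef
  obtain ⟨t, ht⟩ := CF.BlockB.Ord.irr_deg_dvd_card φ.2
  have hmt : ¬ 2 ∣ m * t := by
    intro h
    have := Nat.pow_succ_factorization_not_dvd (Nat.card_pos (α := N)).ne' Nat.prime_two
    refine this ?_
    conv_rhs => rw [ht, hm, mul_assoc]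
    exact pow_succ 2 _ ▸ Nat.mul_dvd_mul_left _ h
  have h1 : classInner (fun n : N => indFun (P : Subgroup G) (fun _ => (1 : ℂ)) n) φ = m := by
    rw [CF.Char.indFun_restrict_of_mul_eq_top (P : Subgroup G) N (CF.Solv.exists_mul_eq_of_coprime_index
      (by rw [Subgroup.index_eq_card N, hk]
          exact (Nat.prime_two.coprime_iff_not_dvd.2 P.not_dvd_index).symm.pow_right k))
      (CF.Char.classFun_const 1),
      CF.Char.inner_indFun_left _ _ (CF.Char.irr_isClassFunction φ.2), ← CF.Char.inner_conj_symm,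
      CF.Char.inner_one_right, Finset.sum_eq_single 1, hS]
    · simp [CF.BlockB.Ord.irr_deg_eq φ.2, hm]
    · intro x _ hx
      refine CF.Clifford.irr_eq_zero_of_defect_zero φ.2 Nat.prime_two (CF.BlockB.Ord.irr_deg_eq φ.2)
        ht (fun h => hmt (h.mul_left _)) ?_
      obtain ⟨j, -, hj⟩ := (Nat.dvd_prime_pow Nat.prime_two).1 (hS ▸ orderOf_dvd_natCard x)
      rw [Subgroup.orderOf_coe, hj]
      refine dvd_pow_self _ ?_
      rintro rfl
      exact hx (orderOf_eq_one_iff.1 hj)
    · simp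
  have h3 : m = ∑ χ, b χ * a χ := by
    have h4 := CF.Char.classFun_eq_sum (CF.Char.indFun_isClassFunction (P : Subgroup G) fun _ => 1)
    have h5 : (fun n : N => indFun (P : Subgroup G) (fun _ => (1 : ℂ)) n) =
        ∑ χ : IrrCharacter G, (b χ : ℂ) • fun n : N => (χ : G → ℂ) n := by
      ext n
      rw [h4]
      simp only [Finset.sum_apply, Pi.smul_apply]
      refine Finset.sum_congr rfl fun χ _ => ?_
      rw [CF.Char.inner_indFun_left _ _ (CF.Char.irr_isClassFunction χ.2),
        ← CF.Char.inner_conj_symm, hb, map_natCast]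
    rw [h5, CF.Char.inner_sum_left] at h1
    simp only [CF.Char.inner_smul_left, ha] at h1
    exact_mod_cast h1.symm
  obtain ⟨χ, hr, ho⟩ := CF.BlockB.Ord.exists_real_odd (fun χ => b χ * a χ) (fun χ => by
    congr 1
    · have e := CF.Char.inner_conj_conj (fun n : (P : Subgroup G) => (χ : G → ℂ) n) fun _ => 1
      simp only [map_one] at e
      have e2 := (hb ⟨_, CF.Char.irr_conj χ.2⟩).symm.trans e
      rw [← CF.Char.inner_conj_symm, hb, map_natCast] at e2
      exact_mod_cast e2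
    · obtain ⟨g, hg⟩ := hconj
      have h5 := (CF.Clifford.NormalEmb.sub N).inner_res_cj (CF.Char.irr_isClassFunction χ.2) φ g
      have h6 : (CF.Clifford.NormalEmb.sub N).cj φ g = fun n => (starRingEnd ℂ) ((φ : N → ℂ) n) :=
        funext fun n => hg n _ rfl
      have e := CF.Char.inner_conj_conj (fun n : N => (χ : G → ℂ) n)
        fun n => (starRingEnd ℂ) ((φ : N → ℂ) n)
      simp only [Complex.conj_conj] at e
      have e2 := (ha ⟨_, CF.Char.irr_conj χ.2⟩).symm.trans e
      rw [h6] at h5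
      rw [← CF.Char.inner_conj_symm] at e2
      erw [h5, ha] at e2
      rw [map_natCast] at e2
      exact_mod_cast e2)
    (h3 ▸ Nat.odd_iff.2 (Nat.two_dvd_ne_zero.1 fun h => hmt (h.mul_right _)))
  obtain ⟨ho1, ho2⟩ := Nat.odd_mul.1 ho
  refine ⟨χ, (CF.BlockB.Ord.fsInd_eq_of_odd (P : Subgroup G).subtype χ.2 CF.Char.irr_one hr
    (fun _ => rfl) (hb χ) ho1).trans CF.Char.fsInd_one, ?_⟩
  have h4 : classInner (fun n : N => (χ : G → ℂ) n) φ ≠ 0 := by
    rw [ha]; exact_mod_cast ho2.pos.ne'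
  obtain ⟨j, hj, h5⟩ := (CF.Clifford.NormalEmb.sub N).exists_deg_eq_mul φ.2 χ.2 h4
  have h6 := (CF.Clifford.NormalEmb.sub N).clifford_one χ.2 φ.2 h4
  erw [ha] at h6
  rw [h5, ← mul_assoc, mul_left_inj' (CF.Char.irr_one_ne_zero φ.2), ← Nat.cast_mul,
    Nat.cast_inj] at h6
  rw [CF.Clifford.NormalEmb.index_sub, Subgroup.index_eq_card, hk] at hj
  have h7 : a χ = 1 := Nat.Coprime.eq_one_of_dvd ((Nat.coprime_two_right.2 ho2).pow_right k)
    ((Dvd.intro _ h6.symm).trans hj)
  rw [ha, h7, Nat.cast_one]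

end Cfsg.Agent.S4872
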