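import Cfsg.Statements.S4873
import Cfsg.Agent.BlockB.Ord3
-- import your own Cfsg.Agent.* helpers here

set_option autoImplicit false
open Cfsg

namespace Cfsg.Agent.S4873

/-- Let N be a normal subgroup of odd index in the finite group G. Then every irreducible complex character of N with Frobenius–Schur indicator +1 lies under exactly one irreducible character of G with Frobenius–Schur indicator +1. -/
theorem result {G : Type*} [Group G] [Finite G] (N : Subgroup G) [N.Normal] (hodd : Odd N.index) (φ : Cfsg.IrrCharacter ↥N) (hφ : (Nat.card ↥N : ℂ)⁻¹ * ∑ᶠ g : ↥N, (φ : ↥N → ℂ) (g * g) = 1) : ∃! χ : Cfsg.IrrCharacter G, (Nat.card G : ℂ)⁻¹ * ∑ᶠ g : G, (χ : G → ℂ) (g * g) = 1 ∧ (∑ᶠ n : ↥N, (χ : G → ℂ) n * (starRingEnd ℂ) ((φ : ↥N → ℂ) n)) ≠ 0 := by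
  classical
  have := Fintype.ofFinite G
  have := Fintype.ofFinite N
  simp only [finsum_eq_sum_of_fintype, ← CF.Char.card_mul_inner, ← CF.Char.fsInd_def, ne_eq,
    mul_eq_zero, CF.Char.card_ne_zero_complex, false_or] at hφ ⊢
  choose a ha using fun χ : IrrCharacter G => CF.Char.inner_char_eq_nat
    (CF.Char.char_restrict (CF.Char.irr_isCharacter χ.2) N) (CF.Char.irr_isCharacter φ.2)
  have h1 := CF.BlockB.Ord.fsInd_classFun (CF.Char.indFun_isClassFunction N φ)
  have h2 : CF.Char.fsInd (indFun N φ) = 1 := by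
    rw [CF.BlockB.Ord.fsInd_indFun, ← hφ, CF.Char.fsInd_def,
      ← CF.Char.sum_extendByZero N fun n => (φ : N → ℂ) (n * n)]
    congr 1
    refine Finset.sum_congr rfl fun g _ => ?_
    by_cases hg : g ∈ N
    · rw [CF.Char.extendByZero_of_mem _ _ hg, CF.Char.extendByZero_of_mem _ _ (N.mul_mem hg hg)]
      rfl
    · rw [CF.Char.extendByZero_of_not_mem _ _ hg, CF.Char.extendByZero_of_not_mem _ _
        fun h => hg (CF.BlockB.Ord.mem_of_sq_mem_of_odd N hodd h)]
  have h3 : ∀ χ : IrrCharacter G, classInner (indFun N φ) (χ : G → ℂ) * CF.Char.fsInd (χ : G → ℂ) =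
      ((if CF.Char.fsInd (χ : G → ℂ) = 1 then a χ else 0 : ℕ) : ℂ) := by
    intro χ
    rw [CF.Char.inner_indFun_left _ _ (CF.Char.irr_isClassFunction χ.2), ← CF.Char.inner_conj_symm,
      ha, map_natCast]
    split_ifs with h
    · rw [h, mul_one]
    · by_contra h0
      rw [Nat.cast_zero, mul_eq_zero, not_or, CF.Char.fsInd_eq_zero_iff χ.2, not_exists] at h0
      refine h (hφ ▸ CF.BlockB.Ord.fsInd_eq_of_odd N.subtype χ.2 φ.2 (fun g => not_not.1 (h0.2 g))
        (CF.BlockB.Ord.real_of_fsInd_eq_one φ.2 hφ) (ha χ) ?_)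
      have h4 : classInner (fun n : N => (χ : G → ℂ) n) φ ≠ 0 := ha χ ▸ h0.1
      obtain ⟨k, hk, h5⟩ := (CF.Clifford.NormalEmb.sub N).exists_deg_eq_mul φ.2 χ.2 h4
      have h6 := (CF.Clifford.NormalEmb.sub N).clifford_one χ.2 φ.2 h4
      erw [ha] at h6
      rw [h5, ← mul_assoc, mul_left_inj' (CF.Char.irr_one_ne_zero φ.2), ← Nat.cast_mul,
        Nat.cast_inj] at h6
      rw [CF.Clifford.NormalEmb.index_sub] at hk
      exact hodd.of_dvd_nat ((Dvd.intro _ h6.symm).trans hk)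
  rw [h2, Finset.sum_congr rfl fun χ _ => h3 χ, ← Nat.cast_sum, eq_comm, Nat.cast_eq_one] at h1
  simp only [ha, Nat.cast_eq_zero]
  obtain ⟨χ, -, h4⟩ := Finset.exists_ne_zero_of_sum_ne_zero (h1 ▸ one_ne_zero)
  refine ⟨χ, by simpa using h4, fun ψ hψ => ?_⟩
  by_contra hne
  rw [← Finset.add_sum_erase _ _ (Finset.mem_univ χ),
    ← Finset.add_sum_erase _ _ (Finset.mem_erase.2 ⟨hne, Finset.mem_univ ψ⟩), if_pos hψ.1] at h1
  have := hψ.2
  omega

end Cfsg.Agent.S4873
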