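import Cfsg.Statements.S4878
import Cfsg.Agent.Crit.Tr7
-- import your own Cfsg.Agent.* helpers here

set_option autoImplicit false
open Cfsg

namespace Cfsg.Agent.S4878

/-- Let p be a prime and G a finite p-solvable group of order divisible by p in which all non-identity p-elements are conjugate. Then G has at least p conjugacy classes of p-regular elements; or G has exactly p − 1 of them and is isomorphic to the one-dimensional affine group over the field with p elements; or p = 11, G has exactly 9 of them, G has order 121·120 and G is a Frobenius group whose complement is isomorphic to SL(2,5). -/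
theorem result {G : Type*} [Group G] [Finite G] (p : ℕ) [Fact p.Prime] (hsolv : Cfsg.IsPSolvable p G) (hdiv : p ∣ Nat.card G) (hconj : ∀ x y : G, x ≠ 1 → y ≠ 1 → (∃ k : ℕ, orderOf x = p ^ k) → (∃ k : ℕ, orderOf y = p ^ k) → IsConj x y) : p ≤ Nat.card {c : ConjClasses G // ∃ g : G, ConjClasses.mk g = c ∧ ¬ p ∣ orderOf g} ∨ (Nat.card {c : ConjClasses G // ∃ g : G, ConjClasses.mk g = c ∧ ¬ p ∣ orderOf g} = p - 1 ∧ Nonempty (G ≃* ↥(Cfsg.affineGroup (ZMod p)))) ∨ (p = 11 ∧ Nat.card {c : ConjClasses G // ∃ g : G, ConjClasses.mk g = c ∧ ¬ p ∣ orderOf g} = 9 ∧ (Nat.card G = 121 * 120 ∧ ∃ H : Subgroup G, Cfsg.IsFrobeniusComplement H ∧ Nonempty (↥H ≃* Matrix.SpecialLinearGroup (Fin 2) (ZMod 5)))) := by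
  open Subgroup CF CF.Crit.Tr CF.Solv in
  change p ≤ Nat.card (RC p G) ∨ (Nat.card (RC p G) = _ ∧ _) ∨ (_ ∧ Nat.card (RC p G) = _ ∧ _)
  have hp : p.Prime := Fact.out
  by_cases h0 : pPrimeCore p G = ⊥
  · obtain ⟨V, H, h⟩ := exists_core hsolv h0 hdiv hconj
    rw [h.rc_eq hsolv]
    have := h.nm
    refine h.lower.imp_right (.imp (fun k => ⟨k.2.2, h.aff k.1 k.2.1⟩)
      fun ⟨a, b, c, d, _, f, g⟩ => ⟨a, d, by rw [← h.cpl.card_mul_card, b, c], H,
        Coprime.isFrobeniusComplement_of_semiReg f le_normalizer_of_normal h.cpl.sup_eq_top h.ne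
          fun e => by simp [e] at c, g⟩)
  left
  let π := QuotientGroup.mk' (pPrimeCore p G)
  have hπ := QuotientGroup.mk'_surjective (pPrimeCore p G)
  obtain ⟨V, H, h⟩ := exists_core (isPSolvable_quotient hsolv (pPrimeCore p G))
    pPrimeCore_quotient_pPrimeCore ((hp.dvd_mul.1 ((pPrimeCore p G).card_mul_index ▸ hdiv)).resolve_left
      not_dvd_card_pPrimeCore) fun x y x1 y1 ⟨k, hk⟩ ⟨l, hl⟩ => by
    obtain ⟨x, rfl⟩ := hπ x
    obtain ⟨y, rfl⟩ := hπ y
    obtain ⟨a, -, a1, a2⟩ := Transfer.exists_pElt_lift π (isOfFinOrder_of_finite x) hk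
    obtain ⟨b, -, b1, b2⟩ := Transfer.exists_pElt_lift π (isOfFinOrder_of_finite y) hl
    exact a2 ▸ b2 ▸ π.map_isConj (hconj a b (by rintro rfl; exact x1 (a2 ▸ map_one π))
      (by rintro rfl; exact y1 (b2 ▸ map_one π)) a1 b1)
  obtain ⟨f, f1, -⟩ := h.exists_hom
  let c : pPrimeCore p G → RC p G := fun x => ⟨ConjClasses.mk x, x, rfl, fun k =>
    not_dvd_card_pPrimeCore (k.trans ((pPrimeCore p G).orderOf_dvd_natCard x.2))⟩
  have a := classes_add_le (p := p) (f.comp π) (f1.comp hπ) h.cop (c '' {1}ᶜ) (by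
    rintro _ ⟨x, hx, rfl⟩
    exact ⟨x, fun e => hx (Subtype.ext e),
      (congrArg f ((QuotientGroup.eq_one_iff _).2 x.2)).trans (map_one f), rfl⟩)
  obtain ⟨x, x1⟩ := ne_bot_iff_exists_ne_one.1 h0
  have b : 0 < (c '' {1}ᶜ).ncard := (Set.ncard_pos (Set.toFinite _)).2 ⟨_, x, x1, rfl⟩
  rcases h.lower with k | k | ⟨rfl, k1, k2, k3, k4, -⟩
  · omega
  · omega
  by_cases e : (c '' {1}ᶜ).ncard ≤ 1
  · refine eleven h0 not_dvd_card_pPrimeCore (fun y hy z hz y1 z1 => ?_) h k1 k2 k3 k4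
    exact ConjClasses.mk_eq_mk_iff_isConj.1 (congrArg Subtype.val
      ((Set.ncard_le_one (Set.toFinite _)).1 e _ ⟨⟨y, hy⟩, fun k => y1 (congrArg Subtype.val k), rfl⟩
        _ ⟨⟨z, hz⟩, fun k => z1 (congrArg Subtype.val k), rfl⟩))
  · omega

end Cfsg.Agent.S4878
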