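import Cfsg.Statements.S4885
import Cfsg.Agent.PLocal.NW

set_option autoImplicit false
open Cfsg

namespace Cfsg.Agent.S4885

/-- Let p and q be primes dividing the order of the finite group G, and suppose G is p-solvable and q-solvable. Fix maximal ideals of the algebraic integers containing p and q, defining the principal p-block and the principal q-block. If the irreducible characters of degree prime to p in the principal p-block are exactly the irreducible characters of degree prime to q in the principal q-block, then p = q. -/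
theorem result {G : Type*} [Group G] [Finite G] (p q : ℕ) [Fact p.Prime] [Fact q.Prime] (hp : p ∣ Nat.card G) (hq : q ∣ Nat.card G) (hps : Cfsg.IsPSolvable p G) (hqs : Cfsg.IsPSolvable q G) (Mp Mq : Ideal Cfsg.AlgInt) (hMp : Cfsg.IsPModular p Mp) (hMq : Cfsg.IsPModular q Mq) (h : ∀ χ : Cfsg.IrrCharacter G, (χ ∈ Cfsg.principalBlock Mp G ∧ ¬ p ∣ Cfsg.charDegree (χ : G → ℂ)) ↔ (χ ∈ Cfsg.principalBlock Mq G ∧ ¬ q ∣ Cfsg.charDegree (χ : G → ℂ))) : p = q := by
  by_contra hpq
  have h2 := CF.NW.not_dvd_index_core (Ne.symm hpq) hqs hps fun χ hχ hk hd =>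
    ((h ⟨χ, hχ⟩).2 ⟨(CF.Block.mem_pb_iff_of_isPSolvable hMq hqs _).2 hk, hd⟩).2
  obtain ⟨P, hP⟩ := CF.BG.exists_syl p (⊤ : Subgroup G)
  obtain ⟨χ, hχ, hk, hd, hn⟩ := CF.NW.exists_not_le_ker hp hP
  exact hn ((CF.NW.syl_le_of_not_dvd Fact.out hP h2).trans
    ((CF.Block.mem_pb_iff_of_isPSolvable hMq hqs ⟨χ, hχ⟩).1
      ((h ⟨χ, hχ⟩).1 ⟨(CF.Block.mem_pb_iff_of_isPSolvable hMp hps _).2 hk, hd⟩).1))

end Cfsg.Agent.S4885
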