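import Cfsg.Statements.S4888
import Cfsg.Agent.Block.Prin2

set_option autoImplicit false
open Cfsg

namespace Cfsg.Agent.S4888

open CF.Block CF Subgroup

/-- Let G be a finite group, p a prime and M a maximal ideal of the algebraic integers containing p. Then all height-zero irreducible characters of the principal p-block of G (equivalently, all its characters of degree prime to p) have the same degree if and only if G has a normal p-complement. -/
theorem result {G : Type*} [Group G] [Finite G] (p : ℕ) [Fact p.Prime] (M : Ideal Cfsg.AlgInt) (hM : Cfsg.IsPModular p M) : (∃ d : ℕ, ∀ χ : Cfsg.IrrCharacter G, χ ∈ (Cfsg.principalBlock M G) → Cfsg.blockHeight p (Cfsg.principalBlock M G) (χ : G → ℂ) = 0 → Cfsg.charDegree (χ : G → ℂ) = d) ↔ Cfsg.HasNormalPComplement p G := by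
  have hp : p.Prime := Fact.out
  constructor
  · rintro ⟨d, hd⟩
    refine hasNPC_of_pb_linear hM fun χ hχ h => ?_
    have h1 := hd χ hχ (BlockB.blockHeight_of_not_dvd _ h)
    rw [← hd _ (BlockB.oneIrr_mem_principalBlock hM) (BlockB.blockHeight_oneIrr _),
      BlockB.charDegree_oneIrr] at h1
    rw [← BlockB.irr_charDegree_eq, h1, Nat.cast_one]
  · intro h
    obtain ⟨N, hN, hc, j, hj⟩ := Transfer.hasNPC_iff_exists_normal.1 h
    refine ⟨1, fun χ hχ h0 => ?_⟩
    rw [Char.mem_pb_iff_of_npc hM N ((Nat.Prime.coprime_iff_not_dvd hp).1 hc.symm) hj] at hχ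
    obtain ⟨ψ, hψ, e⟩ := Char.exists_irr_quotient χ.2 N hχ
    have h1 : Cfsg.charDegree (χ : G → ℂ) ∣ p ^ j := by
      have := BlockB.charDegree_dvd_card (⟨ψ, hψ⟩ : Cfsg.IrrCharacter (G ⧸ N))
      rw [← index_eq_card, hj] at this
      rw [e]; exact this
    obtain ⟨i, -, hi⟩ := (Nat.dvd_prime_pow hp).1 h1
    rw [BlockB.blockHeight_eq, BlockB.minExp_principal hM, hi, hp.factorization_pow] at h0
    simp only [Finsupp.single_eq_same, tsub_zero] at h0
    rw [hi, h0, pow_zero]

end Cfsg.Agent.S4888
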