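import Mathlib
import Cfsg.Agent.Fgs2.Isa6
import Cfsg.Statements.S4911

set_option autoImplicit false
open Cfsg

namespace Cfsg.Agent.S4911

open CF.Char CF.Clifford CF.Fgs2.Isa Subgroup in

/-- Let P and K be subgroups of a finite group with P a p-group normalizing K and K of order prime to p. Then the number of P-invariant real-valued irreducible complex characters of K equals the number of conjugacy classes of K that are real (closed under inversion) and P-invariant. Moreover, if every real-valued irreducible character of K is P-invariant, then every real element of K (one conjugate in K to its inverse) is conjugate in K to an element centralized by P. -/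
theorem result {G : Type*} [Group G] [Finite G] (p : ℕ) [Fact p.Prime] (P K : Subgroup G) (hP : IsPGroup p ↥P) (hK : ¬ p ∣ Nat.card ↥K) (hPK : P ≤ Subgroup.normalizer (K : Set G)) : Nat.card {θ : Cfsg.IrrCharacter ↥K // (∀ k : ↥K, ((θ : ↥K → ℂ) k).im = 0) ∧ (∀ x ∈ P, ∀ k k' : ↥K, (k' : G) = x * (k : G) * x⁻¹ → (θ : ↥K → ℂ) k' = (θ : ↥K → ℂ) k)} = Nat.card {c : ConjClasses ↥K // (∀ k : ↥K, ConjClasses.mk k = c → IsConj k k⁻¹) ∧ ∀ k : ↥K, ConjClasses.mk k = c → ∀ x ∈ P, ∀ k' : ↥K, (k' : G) = x * (k : G) * x⁻¹ → ConjClasses.mk k' = c} ∧ ((∀ θ : Cfsg.IrrCharacter ↥K, (∀ k : ↥K, ((θ : ↥K → ℂ) k).im = 0) → (∀ x ∈ P, ∀ k k' : ↥K, (k' : G) = x * (k : G) * x⁻¹ → (θ : ↥K → ℂ) k' = (θ : ↥K → ℂ) k)) → ∀ k : ↥K, IsConj k k⁻¹ → ∃ k' : ↥K, IsConj k k' ∧ ∀ x ∈ P, x * (k' : G) * x⁻¹ = (k' : G)) := by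
  classical
  have hp : p.Prime := Fact.out
  have hn : ∀ s ∈ P, ∀ g ∈ K, s * g * s⁻¹ ∈ K := fun s hs g => (mem_normalizer_iff.1 (hPK hs) g).1
  have cop : (Nat.card P).Coprime (Nat.card K) := by
    obtain ⟨n, e⟩ := IsPGroup.iff_card.1 hP
    exact e ▸ (hp.coprime_iff_not_dvd.2 hK).pow_left n
  have hs : Group.IsSolvable P := by have := hP.isNilpotent; infer_instance
  have e := (bij_real (bij_pgroup hp hP K (ambAut K P hn) (inclusion inf_le_left) cop
    (inclusion_injective _) (fix_amb hn rfl inf_le_left))).card_eq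
  simp only [invA_amb] at e
  have mk := @ConjClasses.mk_eq_mk_iff_isConj
  have main : Nat.card {θ : Cfsg.IrrCharacter ↥K // (∀ k : ↥K, ((θ : ↥K → ℂ) k).im = 0) ∧ (∀ x ∈ P, ∀ k k' : ↥K, (k' : G) = x * (k : G) * x⁻¹ → (θ : ↥K → ℂ) k' = (θ : ↥K → ℂ) k)} = Nat.card {c : ConjClasses ↥K // (∀ k : ↥K, ConjClasses.mk k = c → IsConj k k⁻¹) ∧ ∀ k : ↥K, ConjClasses.mk k = c → ∀ x ∈ P, ∀ k' : ↥K, (k' : G) = x * (k : G) * x⁻¹ → ConjClasses.mk k' = c} := by
    rw [e, card_real_irr]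
    refine Nat.card_congr (Equiv.ofBijective
      (fun L => ⟨L.1.map (inclusion inf_le_left), ?_, ?_⟩) ⟨fun L M h => ?_, fun L => ?_⟩)
    · obtain ⟨L, hL⟩ := L
      obtain ⟨c, rfl⟩ := ConjClasses.exists_rep L
      intro k h
      have h := mk.1 h
      have i := (inclusion inf_le_left : _ →* K).map_isConj (hL c rfl)
      rw [map_inv] at i
      refine (h.trans i).trans ?_
      obtain ⟨x, hx⟩ := isConj_iff.1 h.symm
      exact isConj_iff.2 ⟨x, by rw [← hx]; group⟩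
    · obtain ⟨L, hL⟩ := L
      obtain ⟨c, rfl⟩ := ConjClasses.exists_rep L
      intro g h s hs g' e
      obtain ⟨x, hx⟩ := isConj_iff.1 (mk.1 h)
      refine mk.2 (isConj_iff.2 ⟨⟨_, hn s hs x x.2⟩, Subtype.ext ?_⟩)
      have h1 : (x : G) * g * (x : G)⁻¹ = c := congrArg Subtype.val hx
      have h2 : s * c = c * s := c.2.2 s hs
      change s * x * s⁻¹ * g' * (s * x * s⁻¹)⁻¹ = c
      rw [e, ← mul_inv_cancel_right (c : G) s, ← h2, ← h1]; group
    · obtain ⟨L, hL⟩ := L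
      obtain ⟨M, hM⟩ := M
      obtain ⟨c, rfl⟩ := ConjClasses.exists_rep L
      obtain ⟨d, rfl⟩ := ConjClasses.exists_rep M
      exact Subtype.ext (mk.2 (isConj_fix hPK cop hs (mk.1 (congrArg Subtype.val h))))
    · obtain ⟨L, h1, h2⟩ := L
      obtain ⟨g, rfl⟩ := ConjClasses.exists_rep L
      obtain ⟨c, hc⟩ := exists_conj_fix hPK cop hs fun a ha k e => mk.1 (h2 g rfl a ha k e)
      refine ⟨⟨ConjClasses.mk c, fun d hd => isConj_fix hPK cop hs ?_⟩, Subtype.ext (mk.2 hc.symm)⟩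
      rw [map_inv]
      exact h1 _ (mk.2 (((inclusion inf_le_left : _ →* K).map_isConj (mk.1 hd)).trans hc.symm))
  refine ⟨main, fun h k hk => ?_⟩
  rw [Nat.card_congr (Equiv.subtypeEquivRight fun θ => and_iff_left_of_imp (h θ)),
    card_real_irr] at main
  have s := ((Nat.bijective_iff_injective_and_card (Subtype.map id fun _ => And.left)).2
    ⟨Subtype.map_injective _ Function.injective_id, main.symm⟩).2
  obtain ⟨⟨c, h1, h2⟩, e⟩ := s ⟨ConjClasses.mk k, fun g hg => by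
    obtain ⟨x, rfl⟩ := isConj_iff.1 (mk.1 hg).symm
    obtain ⟨y, hy⟩ := isConj_iff.1 hk
    exact isConj_iff.2 ⟨x * y * x⁻¹, by simp [mul_assoc, ← hy]⟩⟩
  obtain rfl : c = ConjClasses.mk k := congrArg Subtype.val e
  obtain ⟨c, hc⟩ := exists_conj_fix hPK cop hs fun a ha g e => mk.1 (h2 k rfl a ha g e)
  exact ⟨_, hc, fun x hx => mul_inv_eq_iff_eq_mul.2 (c.2.2 x hx)⟩

end Cfsg.Agent.S4911
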