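import Cfsg.Statements.S4912
import Cfsg.Agent.BlockB.Ord4
-- import your own Cfsg.Agent.* helpers here

set_option autoImplicit false
open Cfsg

namespace Cfsg.Agent.S4912

/-- Let G be a finite group with a non-abelian minimal normal subgroup N, and let φ be an irreducible complex character of N with stabilizer I in G such that φ extends to an irreducible character of I with Frobenius–Schur indicator +1. Put d = φ(1)·[G : I]. Then the number of linear characters of G with Frobenius–Schur indicator +1 is at most [G : I] times the number of irreducible characters of G of degree d with Frobenius–Schur indicator +1. -/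
theorem result {G : Type*} [Group G] [Finite G] (N : Subgroup G) (hN : N.Normal) (hN1 : N ≠ ⊥) (hmin : ∀ M : Subgroup G, M.Normal → M ≤ N → M = ⊥ ∨ M = N) (hna : ¬ IsMulCommutative ↥N) (φ : Cfsg.IrrCharacter ↥N) (I : Subgroup G) (hI : ∀ g : G, g ∈ I ↔ ∀ n n' : ↥N, (n' : G) = g * (n : G) * g⁻¹ → (φ : ↥N → ℂ) n' = (φ : ↥N → ℂ) n) (hNI : N ≤ I) (hext : ∃ ψ : Cfsg.IrrCharacter ↥I, (Nat.card ↥I : ℂ)⁻¹ * ∑ᶠ g : ↥I, (ψ : ↥I → ℂ) (g * g) = 1 ∧ ∀ n : ↥N, (ψ : ↥I → ℂ) (Subgroup.inclusion hNI n) = (φ : ↥N → ℂ) n) : Nat.card {χ : Cfsg.IrrCharacter G // Cfsg.charDegree (χ : G → ℂ) = 1 ∧ (Nat.card G : ℂ)⁻¹ * ∑ᶠ g : G, (χ : G → ℂ) (g * g) = 1} ≤ I.index * Nat.card {χ : Cfsg.IrrCharacter G // Cfsg.charDegree (χ : G → ℂ) = Cfsg.charDegree (φ : ↥N → ℂ) * I.index ∧ (Nat.card G : ℂ)⁻¹ * ∑ᶠ g : G, (χ : G → ℂ) (g * g) = 1} := by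
  have := Fintype.ofFinite G
  have := Fintype.ofFinite I
  simp only [finsum_eq_sum_of_fintype, ← CF.Char.fsInd_def] at hext ⊢
  obtain ⟨ψ, h1, hψ⟩ := hext
  refine CF.BlockB.Ord.card_linear_le_index_mul N
    (CF.BlockB.Ord.le_commutator_of_minimal N hmin hna) φ I hI hNI ψ hψ _ _
    fun l χ hl h2 h3 h4 => ?_
  have hr := CF.BlockB.Ord.real_of_fsInd_eq_one l.2 h2
  have hr' := CF.BlockB.Ord.real_of_fsInd_eq_one ψ.2 h1
  have hr2 : ∀ x : I, ((l : G → ℂ) x * (ψ : I → ℂ) x).im = 0 := fun x => by simp [hr, hr']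
  have h5 : classInner (fun x => (χ : G → ℂ) (I.subtype x))
      (fun x : I => (l : G → ℂ) x * (ψ : I → ℂ) x) = (1 : ℕ) := by
    erw [← CF.Char.inner_indFun_right I _ (CF.Char.irr_isClassFunction χ.2), ← h4,
      CF.Char.inner_irr_self χ.2, Nat.cast_one]
  rw [CF.BlockB.Ord.fsInd_eq_of_odd I.subtype χ.2 h3 (fun g => ?_) hr2 h5 odd_one, ← h1,
    CF.Char.fsInd_def, CF.Char.fsInd_def]
  · congr 1
    refine Finset.sum_congr rfl fun x _ => ?_
    have h6 := CF.Char.char_map_mul_of_one (CF.Char.irr_isCharacter l.2) hl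
    have h7 := h6 x x⁻¹
    rw [mul_inv_cancel, hl, CF.Char.irr_inv l.2, Complex.conj_eq_iff_im.2 (hr _)] at h7
    rw [Subgroup.coe_mul, h6, ← h7, one_mul]
  · rw [← Complex.conj_eq_iff_im, h4]
    refine (congrFun (CF.Char.indFun_conj I _) g).symm.trans ?_
    simp only [fun x => Complex.conj_eq_iff_im.2 (hr2 x)]

end Cfsg.Agent.S4912
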