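import Cfsg.Statements.S4914
import Cfsg.Agent.Char.RelGlaub
import Cfsg.Agent.BlockB.GA

set_option autoImplicit false
open Cfsg

namespace Cfsg.Agent.S4914

open CF CF.Char CF.Clifford in
/-- Let P and K be subgroups of a finite group G with P a p-group normalizing K, and suppose K has a normal Sylow p-subgroup Q. Let C be the subgroup of those k ∈ K whose commutator with every element of P lies in Q (so that C/Q is the fixed-point subgroup of P on K/Q). Then there is a bijection f from the P-invariant irreducible complex characters of K onto the P-invariant irreducible complex characters of C such that, for every P-invariant irreducible character χ of K, the multiplicity of f(χ) in the restriction of χ to C is a natural number congruent to 1 or to −1 modulo p, every other P-invariant irreducible character of C occurs in that restriction with multiplicity divisible by p, and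 the degrees of χ and f(χ) are congruent modulo p up to sign. -/
theorem result {G : Type*} [Group G] [Finite G] (p : ℕ) [Fact p.Prime] (P K Q C : Subgroup G) (hP : IsPGroup p ↥P) (hPK : P ≤ Subgroup.normalizer (K : Set G)) (hQK : Q ≤ K) (hQn : ∀ k ∈ K, ∀ q ∈ Q, k * q * k⁻¹ ∈ Q) (hQp : ∃ a : ℕ, Nat.card ↥Q = p ^ a) (hQsyl : ¬ p ∣ Q.relIndex K) (hCK : C ≤ K) (hC : ∀ k : G, k ∈ C ↔ (k ∈ K ∧ ∀ x ∈ P, x * k * x⁻¹ * k⁻¹ ∈ Q)) : ∃ f : {χ : Cfsg.IrrCharacter ↥K // (∀ x ∈ P, ∀ k k' : ↥K, (k' : G) = x * (k : G) * x⁻¹ → (χ : ↥K → ℂ) k' = (χ : ↥K → ℂ) k)} → {ξ : Cfsg.IrrCharacter ↥C // (∀ x ∈ P, ∀ k k' : ↥C, (k' : G) = x * (k : G) * x⁻¹ → (ξ : ↥C → ℂ) k' = (ξ : ↥C → ℂ) k)}, Function.Bijective f ∧ ∀ χ, (∀ ξ : {ξ : Cfsg.IrrCharacter ↥C // (∀ x ∈ P, ∀ k k' : ↥C, (k' : G) = x * (k : G) * x⁻¹ → (ξ : ↥C → ℂ) k' = (ξ : ↥C → ℂ) k)}, ∃ m : ℕ, (Nat.card ↥C : ℂ)⁻¹ * ∑ᶠ c : ↥C, (χ.1 : ↥K → ℂ) (Subgroup.inclusion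 hCK c) * (starRingEnd ℂ) ((ξ.1 : ↥C → ℂ) c) = (m : ℂ) ∧ (ξ = f χ → ((m : ZMod p) = 1 ∨ (m : ZMod p) = -1)) ∧ (ξ ≠ f χ → p ∣ m)) ∧ ((Cfsg.charDegree ((f χ).1 : ↥C → ℂ) : ZMod p) = (Cfsg.charDegree (χ.1 : ↥K → ℂ) : ZMod p) ∨ (Cfsg.charDegree ((f χ).1 : ↥C → ℂ) : ZMod p) = -(Cfsg.charDegree (χ.1 : ↥K → ℂ) : ZMod p)) := by
  have := Fintype.ofFinite C
  have hn : ∀ s ∈ P, ∀ k ∈ K, s * k * s⁻¹ ∈ K := fun s hs k hk =>
    (Subgroup.mem_normalizer_iff.1 (hPK hs) k).1 hk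
  obtain ⟨a, ha⟩ := hQp
  have pQ : IsPGroup p Q := IsPGroup.of_card ha
  let E := NormalEmb.ofLe hQK hQn
  have mE : ∀ k : K, k ∈ E.ι.range ↔ (k : G) ∈ Q := fun k =>
    ⟨fun ⟨q, hq⟩ => hq ▸ q.2, fun h => ⟨⟨k, h⟩, rfl⟩⟩
  have hI : ¬ p ∣ E.index := by rwa [NormalEmb.index_ofLe]
  have hnQ : ∀ s ∈ P, ∀ q ∈ Q, s * q * s⁻¹ ∈ Q := fun s hs q hq => by
    obtain ⟨n, h⟩ := pQ ⟨q, hq⟩
    let y : K := ⟨_, hn s hs q (hQK hq)⟩
    have h1 : y ^ p ^ n = 1 := Subtype.ext (by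
      have : q ^ p ^ n = 1 := congrArg Subtype.val h
      simp [y, conj_pow, this])
    have h2 : (y : K ⧸ E.ι.range) ^ p ^ n = 1 := by rw [← QuotientGroup.mk_pow, h1]; rfl
    have h3 : (y : K ⧸ E.ι.range) = 1 := by
      rw [← orderOf_eq_one_iff]
      exact Nat.eq_one_of_dvd_coprimes
        (((Nat.Prime.coprime_iff_not_dvd Fact.out).2 hI).pow_left n) (orderOf_dvd_of_pow_eq_one h2)
        (orderOf_dvd_natCard _)
    exact (mE y).1 ((QuotientGroup.eq_one_iff _).1 h3)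
  have hQC : Q ≤ C := fun q hq => (hC q).2 ⟨hQK hq, fun x hx => Q.mul_mem (hnQ x hx q hq) (Q.inv_mem hq)⟩
  have hnC : ∀ s ∈ P, ∀ c ∈ C, s * c * s⁻¹ ∈ C := fun s hs c hc => by
    simpa using C.mul_mem (hQC (((hC c).1 hc).2 s hs)) hc
  have R : RSet p E (NormalEmb.ofLe hQC fun c hc => hQn c (hCK hc)) (Subgroup.inclusion hCK)
      (ambAut K P hn) (ambAut Q P hnQ) (ambAut C P hnC) :=
    { hS := hP, hQ := pQ, hI := hI, inj := Subgroup.inclusion_injective _, jι := fun _ => rfl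
      eQ := fun _ _ => rfl, eC := fun _ _ => rfl
      fix := fun k => by
        simp only [mE]
        refine Iff.trans ⟨fun ⟨c, h⟩ => h ▸ c.2, fun h => ⟨⟨k, h⟩, rfl⟩⟩ ((hC k).trans ?_)
        refine ⟨fun h s => ?_, fun h => ⟨k.2, fun s hs => ?_⟩⟩
        · simpa [mul_assoc] using hQn _ (K.inv_mem (hn s s.2 k k.2)) _ (Q.inv_mem (h.2 s s.2))
        · simpa [mul_assoc] using hQn _ (hn s hs k k.2) _ (Q.inv_mem (h ⟨s, hs⟩)) }
  have g := R.good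
  obtain ⟨f, f1, f2⟩ := bij_exists_fun (bij_congr g.bij (fun _ _ => invA_amb hn)
    fun _ _ => invA_amb hnC)
  refine ⟨f, f1, fun χ => ⟨fun ξ => ?_, ?_⟩⟩
  · rw [finsum_eq_sum_of_fintype]
    rcases g.or _ _ χ.1.2 ξ.1.2 ((invA_amb hn).2 χ.2) ((invA_amb hnC).2 ξ.2) with u | u
    · obtain ⟨m, h1, h2⟩ := id u
      exact ⟨m, h1, fun _ => h2, fun h => (h ((f2 χ ξ).1 u)).elim⟩
    · obtain ⟨m, h1, h2⟩ := id u
      exact ⟨m, h1, fun h => (((f2 χ ξ).2 h).not_md u).elim, fun _ => h2⟩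
  · exact g.degree hP _ χ.1.2 (f χ).1.2 ((invA_amb hn).2 χ.2) ((invA_amb hnC).2 (f χ).2)
      (fun s c => χ.2 s s.2 _ _ rfl) ((f2 χ _).2 rfl)
      (BlockB.charDegree_eq (irr_isCharacter χ.1.2)).symm
      (BlockB.charDegree_eq (irr_isCharacter (f χ).1.2)).symm

end Cfsg.Agent.S4914
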