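import Cfsg.Statements.S4916
import Cfsg.Agent.BlockB.Misc1
-- import your own Cfsg.Agent.* helpers here

set_option autoImplicit false
open Cfsg

namespace Cfsg.Agent.S4916

/-- Let G be a finite group, p a prime and M a maximal ideal of the algebraic integers containing p. Then the principal character is the only irreducible character of degree prime to p in the principal p-block of G if and only if p does not divide the order of G. -/
theorem result {G : Type*} [Group G] [Finite G] (p : ℕ) [Fact p.Prime] (M : Ideal Cfsg.AlgInt) (hM : Cfsg.IsPModular p M) : (∀ χ : Cfsg.IrrCharacter G, χ ∈ Cfsg.principalBlock M G → ¬ p ∣ Cfsg.charDegree (χ : G → ℂ) → (χ : G → ℂ) = fun _ => (1 : ℂ)) ↔ ¬ p ∣ Nat.card G := by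
  classical
  have hB := CF.BlockB.isPBlock_principalBlock (M := M) (G := G)
  constructor
  · intro h hp
    have h1 := (CF.BlockB.v_regB_one_le (CF.BlockB.nrm_eSet_le_one hM hB)).trans_lt
      ((CF.BlockB.v_natCast_lt_one_iff hM _).2 hp)
    rw [CF.BlockB.regB_apply, ← Finset.add_sum_erase _ _ (a := CF.Char.oneIrr G)
      (by simpa using CF.BlockB.oneIrr_mem_principalBlock hM)] at h1
    have h2 : CF.BlockB.v M (∑ χ ∈ (Finset.univ.filter (· ∈ Cfsg.principalBlock M G)).erase
        (CF.Char.oneIrr G), (χ : G → ℂ) 1 * (χ : G → ℂ) 1) < 1 := by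
      refine CF.BlockB.v_sum_lt_one fun χ hχ => CF.BlockB.v_mul_lt_one_left ?_
        (CF.BlockB.v_irr_le_one χ 1)
      simp only [Finset.mem_erase, Finset.mem_filter, Finset.mem_univ, true_and] at hχ
      rw [← CF.BlockB.irr_charDegree_eq, CF.BlockB.v_natCast_lt_one_iff hM]
      by_contra h'
      exact hχ.1 (Subtype.ext (h χ hχ.2 h'))
    have h3 := (CF.BlockB.v M).map_sub_lt h1 h2
    simp [CF.Char.oneIrr] at h3
  · intro hp χ hχ _
    have h1 : Cfsg.blockDefect p (Cfsg.principalBlock M G) = 0 := by
      rw [CF.BlockB.blockDefect_principal hM, Nat.factorization_eq_zero_of_not_dvd hp]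
    rw [(CF.BlockB.defect_eq_zero_iff hM hB (CF.BlockB.oneIrr_mem_principalBlock hM)).1 h1] at hχ
    exact congrArg Subtype.val hχ

end Cfsg.Agent.S4916
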