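import Cfsg.Statements.S4923
import Cfsg.Agent.PLocal.CpB

set_option autoImplicit false
open Cfsg

namespace Cfsg.Agent.S4923

/-- Let G be a finite group with Sylow 2-subgroup P of order 2^n ≥ 8, and let ζ be a primitive 2^(n−1)-th root of unity in ℂ. Then the commutator subgroup of P has index 4 in P if and only if there is an element g of P whose conjugacy class in G has even size and such that the field generated over ℚ by the values at g of all irreducible complex characters of G equals ℚ(ζ + ζ⁻¹) or ℚ(ζ − ζ⁻¹). -/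
theorem result {G : Type*} [Group G] [Finite G] (P : Sylow 2 G) (n : ℕ) (hn : 3 ≤ n) (hP : Nat.card P = 2 ^ n) (ζ : ℂ) (hζ : IsPrimitiveRoot ζ (2 ^ (n - 1))) :
    (commutator ↥P).index = 4 ↔
      ∃ g : G, g ∈ (P : Subgroup G) ∧ 2 ∣ (Subgroup.centralizer ({g} : Set G)).index ∧
        (IntermediateField.adjoin ℚ {z : ℂ | ∃ χ : Cfsg.IrrCharacter G, (χ : G → ℂ) g = z} = IntermediateField.adjoin ℚ ({ζ + ζ⁻¹} : Set ℂ) ∨
          IntermediateField.adjoin ℚ {z : ℂ | ∃ χ : Cfsg.IrrCharacter G, (χ : G → ℂ) g = z} = IntermediateField.adjoin ℚ ({ζ - ζ⁻¹} : Set ℂ)) := by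
  refine (CF.Cp.main P n hn hP ζ hζ).trans (exists_congr fun g => and_congr_right fun hg =>
    and_congr_right fun _ => ?_)
  have hg' : g ^ 2 ^ n = 1 := by
    have : (⟨g, hg⟩ : (P : Subgroup G)) ^ 2 ^ n = 1 := hP ▸ pow_card_eq_one'
    exact congrArg Subtype.val this
  have hz : ζ ^ 2 ^ n = 1 := (hζ.pow_eq_one_iff_dvd _).2 (pow_dvd_pow 2 (by omega))
  have h1 := CF.Cp.field_iff (by omega) hg' hz (Or.inl rfl)
  have h2 := CF.Cp.field_iff (by omega) hg' hz (Or.inr rfl)
  rw [one_mul] at h1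
  rw [neg_one_mul, ← sub_eq_add_neg] at h2
  rw [h1, h2]
  constructor
  · rintro ⟨ε, rfl | rfl, h⟩
    · exact Or.inl h
    · exact Or.inr h
  · rintro (h | h)
    · exact ⟨1, Or.inl rfl, h⟩
    · exact ⟨-1, Or.inr rfl, h⟩

end Cfsg.Agent.S4923
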