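import Cfsg.Statements.S4926
import Cfsg.Agent.K5.B
import Cfsg.Agent.K5.C

set_option autoImplicit false
open Cfsg

namespace Cfsg.Agent.S4926

/-- Let G be a finite group, p a prime, M a maximal ideal of the algebraic integers containing p, and P a Sylow p-subgroup of G with normalizer N and centralizer C. Then the principal p-block of G contains exactly five irreducible characters of degree not divisible by p if and only if either P has order 5 and the index of C in N is 1 or 4, or P has order 7 and the index of C in N is 2 or 3. -/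
theorem result {G : Type*} [Group G] [Finite G] (p : ℕ) [Fact p.Prime] (M : Ideal Cfsg.AlgInt) (hM : Cfsg.IsPModular p M) (P : Sylow p G) :
    Nat.card {χ : Cfsg.IrrCharacter G // χ ∈ Cfsg.principalBlock M G ∧ ¬ p ∣ Cfsg.charDegree (χ : G → ℂ)} = 5 ↔
      ((Nat.card P = 5 ∧ ((Subgroup.centralizer ((P : Subgroup G) : Set G)).relIndex (Subgroup.normalizer ((P : Subgroup G) : Set G)) = 1 ∨ (Subgroup.centralizer ((P : Subgroup G) : Set G)).relIndex (Subgroup.normalizer ((P : Subgroup G) : Set G)) = 4)) ∨
        (Nat.card P = 7 ∧ ((Subgroup.centralizer ((P : Subgroup G) : Set G)).relIndex (Subgroup.normalizer ((P : Subgroup G) : Set G)) = 2 ∨ (Subgroup.centralizer ((P : Subgroup G) : Set G)).relIndex (Subgroup.normalizer ((P : Subgroup G) : Set G)) = 3))) := by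
  have hp : p.Prime := Fact.out
  constructor
  · intro h
    have h2 : p ≠ 2 := by
      rintro rfl
      by_cases h1 : 2 ∣ Nat.card G
      · have := CF.K5.two_dvd_card hM h1
        omega
      · have := CF.K5.card_eq_one hM h1
        omega
    have hP := CF.K5.card_eq p h2 M hM P (by omega) h.le
    obtain ⟨h3, h4⟩ := CF.K5.cnt p h2 M hM P hP
    rw [h] at h3
    rw [hP]
    generalize (Subgroup.centralizer ((P : Subgroup G) : Set G)).relIndex
      (Subgroup.normalizer ((P : Subgroup G) : Set G)) = e at h3 h4 ⊢
    obtain ⟨m, hm⟩ := h4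
    have := hp.two_le
    have he : 0 < e := Nat.pos_of_ne_zero fun h0 => by rw [h0] at hm; omega
    rw [hm, Nat.mul_div_cancel_left _ he] at h3
    have : e ≤ 5 := by omega
    interval_cases e <;> omega
  · rintro (⟨hP, he⟩ | ⟨hP, he⟩)
    · obtain rfl := CF.K5.eq_of_card_prime P Nat.prime_five hP
      rw [(CF.K5.cnt 5 (by decide) M hM P hP).1]
      rcases he with he | he <;> rw [he]
    · obtain rfl := CF.K5.eq_of_card_prime P Nat.prime_seven hP
      rw [(CF.K5.cnt 7 (by decide) M hM P hP).1]
      rcases he with he | he <;> rw [he]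

end Cfsg.Agent.S4926
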