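import Cfsg.Statements.S4931
import Cfsg.Agent.PLocal.ChA

set_option autoImplicit false
open Cfsg

namespace Cfsg.Agent.S4931

/-- Let G be a finite group, p a prime and P a Sylow p-subgroup of G with normalizer N. Then every irreducible complex character of N of degree not divisible by p is the restriction of an irreducible character of G if and only if there is a normal subgroup K of G with KN = G and K ∩ N = 1. -/
theorem result {G : Type*} [Group G] [Finite G] (p : ℕ) [Fact p.Prime] (P : Sylow p G) :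
    (∀ θ : Cfsg.IrrCharacter ↥(Subgroup.normalizer ((P : Subgroup G) : Set G)), ¬ p ∣ Cfsg.charDegree (θ : ↥(Subgroup.normalizer ((P : Subgroup G) : Set G)) → ℂ) →
        ∃ χ : Cfsg.IrrCharacter G, ∀ x : ↥(Subgroup.normalizer ((P : Subgroup G) : Set G)), (χ : G → ℂ) x = (θ : ↥(Subgroup.normalizer ((P : Subgroup G) : Set G)) → ℂ) x) ↔
      ∃ K : Subgroup G, K.Normal ∧ K ⊔ Subgroup.normalizer ((P : Subgroup G) : Set G) = ⊤ ∧ K ⊓ Subgroup.normalizer ((P : Subgroup G) : Set G) = ⊥ := by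
  constructor
  · intro h
    refine CF.RealP.exists_compl_of_ext (CF.BG.syl_sylow_top P) fun θ hθ hd => ?_
    obtain ⟨χ, hχ⟩ := h ⟨θ, hθ⟩ hd
    exact ⟨χ, χ.2, hχ⟩
  · rintro ⟨K, hK, hs, hi⟩ θ -
    obtain ⟨f, hf, -⟩ := CF.RealP.exists_retract hs hi
    exact ⟨⟨fun g => θ.1 (f g), CF.Char.irr_comp_of_surjective θ.2 f fun x => ⟨x, hf x⟩⟩,
      fun x => congrArg θ.1 (hf x)⟩

end Cfsg.Agent.S4931
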