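import Cfsg.Statements.S4937
import Cfsg.Agent.Block.Dade

set_option autoImplicit false
open Cfsg

namespace Cfsg.Agent.S4937

open CF.Block CF Subgroup

/-- Let G be a finite group, p a prime, M a maximal ideal of the algebraic integers containing p, N a normal subgroup of G and P a Sylow p-subgroup of N such that G = N·C_G(P). Let θ be an irreducible character in the principal p-block of N that is the restriction of some irreducible character of G. Then θ is the restriction of an irreducible character χ of G lying in the principal p-block of G such that, for every subgroup J of G containing N, the restriction of χ to J is an irreducible character of J lying in the principal p-block of J. -/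
theorem result {G : Type*} [Group G] [Finite G] (p : ℕ) [Fact p.Prime] (M : Ideal Cfsg.AlgInt) (hM : Cfsg.IsPModular p M) (N : Subgroup G) [N.Normal] (P : Sylow p ↥N)
    (hcov : N ⊔ Subgroup.centralizer (((P : Subgroup ↥N).map N.subtype : Subgroup G) : Set G) = ⊤)
    (θ : Cfsg.IrrCharacter ↥N) (hθ : θ ∈ Cfsg.principalBlock M ↥N)
    (hext : ∃ ψ : Cfsg.IrrCharacter G, ∀ x : ↥N, (ψ : G → ℂ) x = (θ : ↥N → ℂ) x) :
    ∃ χ : Cfsg.IrrCharacter G, χ ∈ Cfsg.principalBlock M G ∧ (∀ x : ↥N, (χ : G → ℂ) x = (θ : ↥N → ℂ) x) ∧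
      ∀ J : Subgroup G, N ≤ J → ∃ ξ : Cfsg.IrrCharacter ↥J, ξ ∈ Cfsg.principalBlock M ↥J ∧ ∀ y : ↥J, (ξ : ↥J → ℂ) y = (χ : G → ℂ) y := by
  obtain ⟨ψ, hψ⟩ := hext
  obtain ⟨lam, h1, h2⟩ := exists_twist_aug hM (isSyl_map_subtype P).not_dvd_relIndex hcov hθ hψ
  have h3 : ∀ x : N, lam x * (ψ : G → ℂ) x = (θ : N → ℂ) x := fun x => by
    rw [h1 x x.2, Units.val_one, one_mul, hψ]
  have h4 := Clifford.irr_linear_mul lam ψ.2
  refine ⟨⟨_, h4⟩, (BlockB.sameBlock_iff_omega hM (Char.oneIrr G).2 h4).2 fun z hz h5 => ?_, h3,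
    fun J hJ => ?_⟩
  · rw [Valuation.map_sub_swap]
    exact aug_eq_omega z ▸ h2 z (fix_anti le_top (mem_Zc_top_iff_Z.2 hz).2) h5
  have h5 : IsIrrCharacter J fun y => lam y * (ψ : G → ℂ) y :=
    Char.irr_of_irr_comp' (Char.char_restrict (Char.irr_isCharacter h4) J) (inclusion hJ)
      (funext h3 ▸ θ.2)
  refine ⟨⟨_, h5⟩, (BlockB.sameBlock_iff_omega hM (Char.oneIrr J).2 h5).2 fun z hz h6 => ?_,
    fun _ => rfl⟩
  have h7 := h2 (gmap J.subtype z) (fix_anti (hJ.trans (map_top_subtype J).ge)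
    (gmap_mem_fix _ (mem_Zc_top_iff_Z.2 hz).2)) ((nrm_gmap_le _ _).trans h6)
  rwa [omega_gmap, aug_gmap, aug_eq_omega, Valuation.map_sub_swap] at h7

end Cfsg.Agent.S4937
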