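import Cfsg.Statements.S4947
import Cfsg.Agent.Fo.D
import Cfsg.Agent.Fo.E
import Cfsg.Agent.Fo.F
import Cfsg.Agent.Fo.G
import Cfsg.Agent.Fod.Det

set_option autoImplicit false
open Cfsg

namespace Cfsg.Agent.S4947

/-- If a finite group G has exactly four irreducible complex characters of odd degree, then for a Sylow 2-subgroup P of G the commutator subgroup of P has index 4 in P. -/
theorem result {G : Type*} [Group G] [Finite G] (P : Sylow 2 G) (h4 : Nat.card {χ : Cfsg.IrrCharacter G // ¬ 2 ∣ Cfsg.charDegree (χ : G → ℂ)} = 4) : (commutator ↥P).index = 4 := by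
  have := Fintype.ofFinite G
  have hG4 := CF.Fo.C_four h4
  have hP4 : 2 ^ 2 ∣ Nat.card P := P.pow_dvd_card_of_pow_dvd_card hG4
  have small : Nat.card P = 4 → (commutator ↥P).index = 4 := fun h => by
    have hc : ∀ a b : P, a * b = b * a :=
      (IsPGroup.commutative_of_card_eq_prime_sq (p := 2) h)
    rw [show commutator ↥P = ⊥ from by
      rw [commutator_def, Subgroup.commutator_eq_bot_iff_le_centralizer]
      intro a _ b _
      exact hc b a, Subgroup.index_bot]
    exact h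
  by_cases h8 : 2 ^ 3 ∣ Nat.card G
  swap
  · refine small ?_
    obtain ⟨n, hn⟩ := IsPGroup.iff_card.mp P.isPGroup'
    have h1 : ¬ 2 ^ 3 ∣ Nat.card P := fun h => h8 (h.trans (P : Subgroup G).card_subgroup_dvd_card)
    rw [hn, Nat.pow_dvd_pow_iff_le_right one_lt_two] at h1 hP4
    rw [hn, show n = 2 by omega]
    norm_num
  obtain ⟨s, k, a, hI, hs, hk, hkk, ha⟩ := CF.Fo.A_sigma hG4
  by_cases hfix : ∀ χ : IrrCharacter G, ¬ 2 ∣ charDegree (χ : G → ℂ) → ∀ g,
      s ((χ : G → ℂ) g) = (χ : G → ℂ) g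
  · obtain ⟨D, hD, hsq⟩ := CF.Fod.det_core s
      (fun χ h => hfix χ (Nat.two_dvd_ne_zero.mpr (Nat.odd_iff.mp h))) (fun χ g => by
        rw [hk _ (CF.Char.irr_isCharacter χ.2), hk _ (CF.Char.irr_isCharacter χ.2), hkk])
    have hp := CF.Fo.G_parity (dvd_trans (by norm_num) hG4) s hI hs (e := 0) (by simpa using hD) hsq
    have hk1 := CF.Fo.C_k1 (G := G) (by rw [h4]) h8
    rw [zero_add, Nat.even_add'] at hp
    rcases CF.Fo.G_sylow P hG4 (hp.mpr hk1) with hc | hc
    · have h1 := CF.Fo.F_cyc P hc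
      rw [h4] at h1
      exact small (le_antisymm h1 (Nat.le_of_dvd Nat.card_pos hP4))
    · exact hc
  · push Not at hfix
    obtain ⟨χ, hχ, hne⟩ := hfix
    exact CF.Fo.E_lin P h4 (CF.Fo.D_lin h4 s k a hk hkk ha χ hχ hne)

end Cfsg.Agent.S4947
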