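import Cfsg.Statements.S4973
import Cfsg.Agent.FSo.F3

set_option autoImplicit false
open Cfsg

namespace Cfsg.Agent.S4973

theorem aux {F : Type*} [Field F] [Fintype F] [CharP F 2] {ι : Type} [Fintype ι] [DecidableEq ι]
    {Q : QuadraticForm F (ι → F)} (hQ : (QuadraticMap.polarBilin Q).Nondegenerate) {m : ℕ}
    (hm : 2 ≤ m) (h : Fintype.card ι = 4 * m) (χ : Cfsg.IrrCharacter ↥(Cfsg.Omega F Q)) :
    (Nat.card ↥(Cfsg.Omega F Q) : ℂ)⁻¹ * ∑ᶠ s, χ.1 (s * s) = 1 := by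
  haveI := Fintype.ofFinite ↥(Cfsg.isometryGroup F Q)
  haveI := Fintype.ofFinite ↥(Cfsg.Omega F Q)
  rw [finsum_eq_sum_of_fintype]
  exact CF.FSo.fs_Omega hQ hm (by simpa using h) (CF.Geom.oEquiv _) χ.2

/-- Let F be a finite field of characteristic 2 and m ≥ 2. For the plus-type quadratic form Σᵢ xᵢyᵢ on F^{4m}, and for the minus-type form Σᵢ xᵢyᵢ + z₁² + a z₁z₂ + b z₂² on F^{4m} with anisotropic binary part, every irreducible complex character of the commutator subgroup of the full isometry group (a subgroup of index 2 in it) has Frobenius–Schur indicator +1: the average of χ(s²) over the group equals 1. -/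
theorem result {F : Type*} [Field F] [Fintype F] [CharP F 2] (m : ℕ) (hm : 2 ≤ m) : (∀ χ : Cfsg.IrrCharacter ↥(Cfsg.Omega F (Cfsg.quadFormPlus (2 * m) F)), (Nat.card ↥(Cfsg.Omega F (Cfsg.quadFormPlus (2 * m) F)) : ℂ)⁻¹ * ∑ᶠ s : ↥(Cfsg.Omega F (Cfsg.quadFormPlus (2 * m) F)), (χ : ↥(Cfsg.Omega F (Cfsg.quadFormPlus (2 * m) F)) → ℂ) (s * s) = 1) ∧ (∀ a b : F, (∀ z₁ z₂ : F, z₁ ^ 2 + a * z₁ * z₂ + b * z₂ ^ 2 = 0 → z₁ = 0 ∧ z₂ = 0) → ∀ χ : Cfsg.IrrCharacter ↥(Cfsg.Omega F (Cfsg.quadFormMinus (2 * m - 1) F a b)), (Nat.card ↥(Cfsg.Omega F (Cfsg.quadFormMinus (2 * m - 1) F a b)) : ℂ)⁻¹ * ∑ᶠ s : ↥(Cfsg.Omega F (Cfsg.quadFormMinus (2 * m - 1) F a b)), (χ : ↥(Cfsg.Omega F (Cfsg.quadFormMinus (2 * m - 1) F a b)) → ℂ) (s * s) = 1) := by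
  exact ⟨aux (CF.Geom.qPlus_nondegenerate (2 * m)) hm (by simp; omega),
    fun a b hab => aux (CF.Geom.qMinus_nondegenerate (2 * m - 1) hab) hm (by simp; omega)⟩

end Cfsg.Agent.S4973
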