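import Cfsg.Statements.S4984
import Cfsg.Agent.Hc.FS
import Cfsg.Agent.Hc.FB
import Cfsg.Agent.Hc.FP
import Cfsg.Agent.Hc.FM
import Cfsg.Agent.Char.Integral

set_option autoImplicit false
open Cfsg

namespace Cfsg.Agent.S4984
open CF.Hc CF.Char

theorem fin {G X : Type*} [Group G] [Finite G] [Group X] (e : G ≃* X) (h : Cov X) {r s : ℕ}
    (hr : r ∈ degreePrimes G) (hs : s ∈ degreePrimes G) (hrs : r ≠ s) : (degreeGraph G).Adj r s := by
  have key : ∀ {r}, r ∈ degreePrimes G → r ∣ Nat.card X := fun ⟨_, _, ⟨χ, e'⟩, hd⟩ => by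
    obtain ⟨n, -, hn⟩ := irr_one_eq_nat χ.2
    rw [← Nat.card_congr e.toEquiv]
    refine hd.trans ?_
    rw [← e', charDegree, hn]
    simpa using irr_one_dvd_card χ.2 hn
  obtain ⟨d, h1, h2⟩ := h r s hr.1 hs.1 hrs (key hr) (key hs)
  exact ⟨hrs, hr.1, hs.1, d, I.cd_equiv e.symm h1, h2⟩

/-- Let G be a finite simple symplectic group PSp_{2m}(q) (m ≥ 2, excluding PSp₄(2)) or a finite simple orthogonal group PΩ_{2m+1}(q) (m ≥ 3, q odd), PΩ⁺_{2m}(q) or PΩ⁻_{2m}(q) (m ≥ 4). Then the character degree graph of G is complete: for any two distinct primes each dividing some irreducible complex character degree of G, their product divides some irreducible character degree of G. -/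
theorem result {G : Type*} [Group G] [Finite G] (h : Cfsg.IsPSp G ∨ Cfsg.IsPOmegaOdd G ∨ Cfsg.IsPOmegaPlus G ∨ Cfsg.IsPOmegaMinus G) (r s : ℕ) (hr : r ∈ Cfsg.degreePrimes G) (hs : s ∈ Cfsg.degreePrimes G) (hrs : r ≠ s) : (Cfsg.degreeGraph G).Adj r s := by
  classical
  rcases h with ⟨F, _, _, m, h1, h2, ⟨e⟩⟩ | ⟨F, _, _, m, h1, h2, ⟨e⟩⟩ | ⟨F, _, _, m, h1, ⟨e⟩⟩ |
    ⟨F, _, _, m, a, b, h1, h2, ⟨e⟩⟩
  · obtain ⟨e'⟩ := iso_S (F := F) m
    exact fin (e.trans e') (cov_S h1 fun h => Nat.card_eq_fintype_card (α := F) ▸ h2 h) hr hs hrs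
  · have h3 : (2 : F) ≠ 0 := Ring.two_ne_zero fun h =>
      (Nat.not_even_iff_odd.2 h2) (Nat.even_iff.2 (FiniteField.even_card_of_char_two h))
    obtain ⟨e'⟩ := iso_B h3 m
    exact fin (e.trans e') (cov_B h3 h1) hr hs hrs
  · obtain ⟨e'⟩ := iso_P (F := F) m
    exact fin (e.trans e') (cov_P h1) hr hs hrs
  · obtain ⟨e'⟩ := iso_M (a := a) (b := b) h2 (m - 1)
    exact fin (e.trans e') (cov_M h2 (by omega)) hr hs hrs

end Cfsg.Agent.S4984
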