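import Cfsg.Statements.S4989
import Cfsg.Agent.BlockB.Ord1
-- import your own Cfsg.Agent.* helpers here

set_option autoImplicit false
open Cfsg

namespace Cfsg.Agent.S4989

/-- Let H be a subgroup of the finite group G and χ an irreducible complex character of G. Then the inner product of the restriction of χ to H with itself, (1/#H)·Σ_{h ∈ H} |χ(h)|², is at most 1 + #(Z ∖ H)/#H, where Z is the set of zeros of χ in G. -/
theorem result {G : Type*} [Group G] [Finite G] (H : Subgroup G) (χ : Cfsg.IrrCharacter G) : (Nat.card ↥H : ℝ)⁻¹ * ∑ᶠ h : ↥H, ‖(χ : G → ℂ) h‖ ^ 2 ≤ 1 + (Set.ncard ({x : G | (χ : G → ℂ) x = 0} \ (H : Set G)) : ℝ) / (Nat.card ↥H : ℝ) := by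
  classical
  have := Fintype.ofFinite G
  have hH : (0 : ℝ) < Nat.card H := by exact_mod_cast Nat.card_pos
  have h1 := CF.BlockB.Ord.card_le_sum_norm_sq_compl (CF.Char.gen_of_irr χ.2) H
  have h2 := CF.Char.sum_norm_sq_irr χ.2
  rw [← Finset.sum_filter_add_sum_filter_not _ (· ∈ H)] at h2
  have h3 : ∑ᶠ h : H, ‖(χ : G → ℂ) h‖ ^ 2 = ∑ g ∈ Finset.univ.filter (· ∈ H), ‖(χ : G → ℂ) g‖ ^ 2 := by
    rw [finsum_eq_sum_of_fintype]
    exact (Finset.sum_subtype _ (by simp) fun g => ‖(χ : G → ℂ) g‖ ^ 2).symm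
  have h4 : Set.ncard ({x : G | (χ : G → ℂ) x = 0} \ (H : Set G)) =
      (Finset.univ.filter fun g => g ∉ H ∧ (χ : G → ℂ) g = 0).card := by
    rw [← Set.ncard_coe_finset]; congr 1; ext; simp [and_comm]
  have h5 : Nat.card G = Nat.card H + ((Finset.univ.filter fun g => g ∉ H ∧ (χ : G → ℂ) g = 0).card +
      (Finset.univ.filter fun g => g ∉ H ∧ (χ : G → ℂ) g ≠ 0).card) := by
    rw [← Finset.filter_filter, ← Finset.filter_filter, Finset.card_filter_add_card_filter_not,
      Nat.card_eq_fintype_card, Nat.card_eq_fintype_card, Fintype.card_subtype,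
      Finset.card_filter_add_card_filter_not, Finset.card_univ]
  rw [h3, h4, inv_mul_le_iff₀ hH, mul_add, mul_div_cancel₀ _ hH.ne']
  rw [h5] at h2
  push_cast at h2
  linarith

end Cfsg.Agent.S4989
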