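import Cfsg.Statements.S4993
import Cfsg.Agent.Crit.Prim
-- import your own Cfsg.Agent.* helpers here

set_option autoImplicit false
open Cfsg

namespace Cfsg.Agent.S4993

/-- Let G be a group of odd order whose order has exactly two prime divisors and whose quotient by its Fitting subgroup is nilpotent (G is metanilpotent), and let χ be a primitive irreducible complex character of G (not induced from a character of any proper subgroup). Then χ(1) divides the size of some conjugacy class of G. -/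
theorem result {G : Type*} [Group G] [Fintype G] (hodd : Odd (Nat.card G)) (h2 : (Nat.card G).primeFactors.card = 2) [hF : (Cfsg.fittingSubgroup G).Normal] (hmeta : Group.IsNilpotent (G ⧸ Cfsg.fittingSubgroup G)) (χ : Cfsg.IrrCharacter G) (hprim : ¬ ∃ (H : Subgroup G), H ≠ ⊤ ∧ ∃ θ : ↥H → ℂ, Cfsg.IsCharacter ↥H θ ∧ Cfsg.indFun H θ = (χ : G → ℂ)) : ∃ g : G, Cfsg.charDegree (χ : G → ℂ) ∣ (Subgroup.centralizer ({g} : Set G)).index := by
  classical
  obtain ⟨p, q, hpq, hs⟩ := Finset.card_eq_two.1 h2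
  have hp : p.Prime := Nat.prime_of_mem_primeFactors (hs ▸ Finset.mem_insert_self p {q})
  have hq : q.Prime := Nat.prime_of_mem_primeFactors
    (hs ▸ Finset.mem_insert_of_mem (Finset.mem_singleton_self q))
  haveI := Fact.mk hp
  haveI := Fact.mk hq
  haveI := CF.Char.charKer_normal (CF.Char.irr_isClassFunction χ.2)
  set K := CF.Char.charKer (χ : G → ℂ) with hK
  obtain ⟨ψ, hψ, hk, he⟩ : ∃ ψ : G ⧸ K → ℂ, Cfsg.IsIrrCharacter _ ψ ∧ CF.Char.charKer ψ = ⊥ ∧
    (χ : G → ℂ) = fun g : G => ψ g := CF.BlockB.Ord.exists_faithful χ.2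
  have hsurj := QuotientGroup.mk'_surjective K
  have h0 : CF.Clifford.RelPrim ⊥ (χ : G → ℂ) := by
    intro inst T _ hT θ hθ hind
    refine hprim ⟨T, hT, θ, hθ, ?_⟩
    convert hind
  have h1 : CF.Clifford.RelPrim ⊥ ψ := by
    refine CF.Clifford.RelPrim.of_comp (QuotientGroup.mk' K) hsurj ?_
    have : (fun x => ψ (QuotientGroup.mk' K x)) = (χ : G → ℂ) := by
      funext x; exact (congrFun he x).symm
    rw [this]
    intro inst T _
    exact h0 T bot_le
  haveI : Group.IsNilpotent ((G ⧸ K) ⧸ Cfsg.fittingSubgroup (G ⧸ K)) := by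
    refine Group.nilpotent_of_surjective (QuotientGroup.map (Cfsg.fittingSubgroup G) _
      (QuotientGroup.mk' K) (Subgroup.map_le_iff_le_comap.1 (CF.Solv.fitting_map_le hsurj))) ?_
    intro x
    obtain ⟨y, rfl⟩ := QuotientGroup.mk_surjective x
    obtain ⟨z, rfl⟩ := hsurj y
    exact ⟨(z : G ⧸ Cfsg.fittingSubgroup G), rfl⟩
  obtain ⟨g, hg⟩ := CF.Crit.Prim.main (G := G ⧸ K) hpq (fun r hr h => by
    have : r ∈ (Nat.card G).primeFactors := Nat.mem_primeFactors.2
      ⟨hr, h.trans (Subgroup.card_dvd_of_surjective _ hsurj), Nat.card_pos.ne'⟩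
    rw [hs] at this
    simpa using this) h1 hψ hk
  obtain ⟨g, rfl⟩ := hsurj g
  refine ⟨g, ?_⟩
  have h3 : Cfsg.charDegree (χ : G → ℂ) = Cfsg.charDegree ψ := by
    rw [← CF.BlockB.Ord.deg_comp ψ (QuotientGroup.mk' K)]
    exact congrArg _ he
  rw [h3]
  refine hg.trans ?_
  rw [← Subgroup.index_comap_of_surjective _ hsurj]
  refine Subgroup.index_dvd_of_le fun x hx => ?_
  rw [Subgroup.mem_comap, Subgroup.mem_centralizer_singleton_iff, ← map_mul, ← map_mul,
    Subgroup.mem_centralizer_singleton_iff.1 hx]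

end Cfsg.Agent.S4993
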