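import Cfsg.Statements.S4996
import Cfsg.Agent.BlockB.Ord2
import Cfsg.Agent.BlockB.Contrib
-- import your own Cfsg.Agent.* helpers here

set_option autoImplicit false
open Cfsg

namespace Cfsg.Agent.S4996

/-- Let N be a normal subgroup of the finite group G and χ an irreducible complex character of G. Then the restriction of χ to N is not irreducible if and only if χ vanishes on some whole coset Nx of N in G. -/
theorem result {G : Type*} [Group G] [Finite G] (N : Subgroup G) [N.Normal] (χ : Cfsg.IrrCharacter G) : ¬ Cfsg.IsIrrCharacter ↥N (fun n : ↥N => (χ : G → ℂ) n) ↔ ∃ x : G, ∀ n : ↥N, (χ : G → ℂ) ((n : G) * x) = 0 := by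
  classical
  have := Fintype.ofFinite G
  have := Fintype.ofFinite N
  have hc := CF.Char.irr_isCharacter χ.2
  set E := CF.Clifford.NormalEmb.sub N
  set f := E.avg fun g => (χ : G → ℂ) g * (starRingEnd ℂ) ((χ : G → ℂ) g) with hf
  have hN : (0 : ℝ) < (Nat.card N : ℝ)⁻¹ := inv_pos.2 (by exact_mod_cast Nat.card_pos)
  have h1 : ∀ x, f x = (((Nat.card N : ℝ)⁻¹ * ∑ n : N, ‖(χ : G → ℂ) (n * x)‖ ^ 2 : ℝ) : ℂ) := by
    intro x
    simp only [hf, CF.Clifford.NormalEmb.avg, Complex.mul_conj']
    push_cast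
    rfl
  have h2 : ∀ x, f x = 0 ↔ ∀ n : N, (χ : G → ℂ) (n * x) = 0 := by
    intro x
    rw [h1, Complex.ofReal_eq_zero, mul_eq_zero, or_iff_right hN.ne',
      Finset.sum_eq_zero_iff_of_nonneg fun _ _ => by positivity]
    simp
  have h3 : ∀ x, f x = ‖f x‖ := fun x => by
    rw [h1, Complex.norm_real, Real.norm_of_nonneg (by positivity)]
  constructor
  · intro h
    by_contra! h0
    have hfc : IsCharacter G f := E.avg_isCharacter (CF.Char.char_mul hc (CF.Char.char_conj hc))
    have h4 := CF.BlockB.card_le_sum_norm_gen (CF.Char.gen_of_char hfc)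
      (Finset.univ.filter (· ∉ N)) (fun m hm g hg => by
        simpa [CF.BlockB.Ord.pow_mem_iff_of_coprime N hm] using hg)
      fun g _ e => (h0 g).elim fun n hn => hn ((h2 g).1 e n)
    have h5 : ∑ g, ‖f g‖ = Nat.card G := by
      have := E.inner_avg_one fun g => (χ : G → ℂ) g * (starRingEnd ℂ) ((χ : G → ℂ) g)
      rw [← CF.Char.inner_eq_inner_one, CF.Char.inner_irr_self χ.2, CF.Char.inner_one_right,
        inv_mul_eq_one₀ CF.Char.card_ne_zero_complex, ← hf,
        Finset.sum_congr rfl fun g _ => h3 g] at this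
      exact_mod_cast this.symm
    obtain ⟨k, hk⟩ := CF.Char.char_one_eq_nat hfc
    have h6 : ∑ g ∈ Finset.univ.filter (· ∈ N), ‖f g‖ = (Finset.univ.filter (· ∈ N)).card * k := by
      rw [Finset.sum_congr rfl (g := fun _ => (k : ℝ)) fun g hg => by
        rw [hf, show g = E.ι ⟨g, (Finset.mem_filter.1 hg).2⟩ from rfl, E.avg_ι, ← hf, hk]; simp]
      simp
    rw [← Finset.sum_filter_add_sum_filter_not _ (· ∈ N), h6, Nat.card_eq_fintype_card,
      ← Finset.card_univ, ← Finset.card_filter_add_card_filter_not (s := Finset.univ) (· ∈ N)] at h5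
    push_cast at h5
    have h7 : (0 : ℝ) < (Finset.univ.filter (· ∈ N)).card := by
      exact_mod_cast Finset.card_pos.2 ⟨1, by simp⟩
    have h8 : (k : ℝ) ≤ 1 := by nlinarith
    have h9 : k ≠ 0 := by
      rintro rfl
      exact (h0 1).elim fun n hn => hn ((h2 1).1 (by simpa using hk) n)
    refine h ((CF.Char.irr_iff_inner_self (CF.Char.char_restrict hc N)).2 ?_)
    have := E.avg_mul_conj_one χ χ
    rw [← hf, hk, show k = 1 by have : k ≤ 1 := by exact_mod_cast h8
                                omega] at this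
    exact this.symm.trans Nat.cast_one
  · rintro ⟨x, hx⟩ h
    have := congrFun (E.avg_mul_conj_self hc h) x
    rw [← hf, (h2 x).2 hx] at this
    exact zero_ne_one this

end Cfsg.Agent.S4996
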