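import Cfsg.Statements.S5001
import Cfsg.Agent.BlockB.Contrib
import Cfsg.Agent.BlockB.Misc1

set_option autoImplicit false
open Cfsg

namespace Cfsg.Agent.S5001

open CF
open CF.BlockB (v Cen sec)
open scoped ComplexConjugate

/-- Let p be a prime, G a finite group and B a p-block of G (relative to a maximal ideal M of the algebraic integers containing p) with defect group D. Let Z be a central p-subgroup of G contained in D and λ a linear character of Z (a homomorphism to the nonzero complex numbers). Say an irreducible character χ of G lies over λ when χ(z) = χ(1)λ(z) for all z ∈ Z. If some irreducible character in B lying over λ has height zero, then λ extends to a linear character of D. -/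
theorem result {G : Type*} [Group G] [Finite G] (p : ℕ) [Fact p.Prime] (M : Ideal Cfsg.AlgInt) (hM : Cfsg.IsPModular p M) (B : Set (Cfsg.IrrCharacter G)) (hB : Cfsg.IsPBlock M B) (D : Subgroup G) (hD : Cfsg.IsDefectGroup p M B D) (Z : Subgroup G) (hZc : Z ≤ Subgroup.center G) (hZp : IsPGroup p ↥Z) (hZD : Z ≤ D) (lam : ↥Z →* ℂˣ) (χ : Cfsg.IrrCharacter G) (hχ : χ ∈ B) (hover : (∀ z : ↥Z, (χ : G → ℂ) z = (χ : G → ℂ) 1 * (lam z : ℂ))) (h0 : Cfsg.blockHeight p B (χ : G → ℂ) = 0) : (∃ μ : ↥D →* ℂˣ, ∀ z : ↥Z, μ ⟨(z : G), hZD z.2⟩ = lam z) := by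
  have hp : p.Prime := Fact.out
  have hDp := BlockB.IsDefectGroup.isPGroup hD
  obtain ⟨y, hy, P, hP⟩ := hD
  have hDy : D ≤ Cen y := hP ▸ Subgroup.map_subtype_le _
  have := Fintype.ofFinite D
  have hcf : IsClassFunction D (sec D y (χ : G → ℂ)) :=
    BlockB.sec_classFun (Char.irr_isClassFunction χ.2) hDy
  have h1 := BlockB.v_irr_defectClass_eq_one hM hB hy hχ h0
  have h2 : (χ : G → ℂ) y = _ := (congrArg _ (mul_one y).symm).trans (Char.classFun_apply_eq_sum hcf 1)
  obtain ⟨ζ, h3⟩ : ∃ ζ : IrrCharacter D,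
      ¬ v M (classInner (sec D y (χ : G → ℂ)) ζ * (ζ : D → ℂ) 1) < 1 := by
    by_contra h
    push Not at h
    exact h1.not_lt (h2 ▸ BlockB.v_sum_lt_one fun ζ _ => h ζ)
  have h4 : classInner (sec D y (χ : G → ℂ)) ζ ≠ 0 := fun h => h3 (by simp [h])
  have h5 : ¬ p ∣ charDegree (ζ : D → ℂ) := fun h => h3 (BlockB.v_mul_lt_one_right
    (BlockB.v_le_one_of_isIntegral M (BlockB.isIntegral_inner_sec hDy (Char.gen_of_irr χ.2)
      (Char.gen_of_irr ζ.2))) (by rwa [← BlockB.irr_charDegree_eq, BlockB.v_natCast_lt_one_iff hM]))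
  obtain ⟨n, hn⟩ := hDp.exists_card_eq
  have h6 : charDegree (ζ : D → ℂ) = 1 := Nat.eq_one_of_dvd_coprimes
    (((Nat.Prime.coprime_iff_not_dvd hp).2 h5).pow_left n) (hn ▸ BlockB.charDegree_dvd_card ζ) dvd_rfl
  obtain ⟨μ, hμ⟩ := Char.exists_linear_of_one (Char.irr_isCharacter ζ.2)
    (by rw [← BlockB.irr_charDegree_eq, h6, Nat.cast_one])
  refine ⟨μ, fun z => Units.ext ?_⟩
  have h7 := Char.inner_comp_equiv (Equiv.mulLeft (⟨z, hZD z.2⟩ : D)) (sec D y (χ : G → ℂ)) ζ
  have h8 : (fun x : D => sec D y (χ : G → ℂ) (Equiv.mulLeft (⟨z, hZD z.2⟩ : D) x)) =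
      (lam z : ℂ) • sec D y (χ : G → ℂ) := by
    ext x
    have h9 := Char.irr_one_ne_zero χ.2
    change (χ : G → ℂ) (y * (z * x)) = lam z * (χ : G → ℂ) (y * x)
    rw [← mul_assoc, Subgroup.mem_center_iff.1 (hZc z.2), mul_assoc,
      Char.char_mul_of_mem_charCenter h9 (Char.center_le_charCenter χ.2 (hZc z.2)), hover]
    field_simp
  have h9 : (fun x : D => (ζ : D → ℂ) (Equiv.mulLeft (⟨z, hZD z.2⟩ : D) x)) =
      (μ ⟨z, hZD z.2⟩ : ℂ) • (ζ : D → ℂ) := by
    ext x
    simp [hμ]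
  rw [h8, h9, Char.inner_smul_left, Char.inner_smul_right, Char.linear_conj, ← mul_assoc,
    mul_eq_right₀ h4, mul_inv_eq_one₀ (Units.ne_zero _)] at h7
  exact h7.symm

end Cfsg.Agent.S5001
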