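import Cfsg.Statements.S5011
import Cfsg.Agent.BlockB.Ord1
-- import your own Cfsg.Agent.* helpers here

set_option autoImplicit false
open Cfsg

namespace Cfsg.Agent.S5011

/-- Let G be a finite non-abelian simple group and ρ an irreducible complex representation of G on a space of dimension greater than one (irreducible in the sense that the only subspaces invariant under every ρ(x) are 0 and the whole space). Then for every non-identity element g of G, the centralizer of g does not act irreducibly: there is a non-zero proper subspace invariant under ρ(c) for every c commuting with g. -/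
theorem result {G : Type*} [Group G] [Finite G] [IsSimpleGroup G]
    (hG : ¬ IsMulCommutative G) {V : Type*} [AddCommGroup V] [Module ℂ V] [FiniteDimensional ℂ V]
    (ρ : Representation ℂ G V)
    (hirr : ∀ W : Submodule ℂ V, (∀ x : G, ∀ v ∈ W, ρ x v ∈ W) → W = ⊥ ∨ W = ⊤)
    (hdim : 1 < Module.finrank ℂ V) (g : G) (hg : g ≠ 1) :
    ∃ W : Submodule ℂ V, W ≠ ⊥ ∧ W ≠ ⊤ ∧ ∀ c ∈ Subgroup.centralizer ({g} : Set G), ∀ v ∈ W, ρ c v ∈ W := by
  by_contra! hc
  have hsc : ∃ c : ℂ, ρ g = c • LinearMap.id := by
    have : Nontrivial V := Module.nontrivial_of_finrank_pos (R := ℂ) (by omega)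
    obtain ⟨c, hc'⟩ := Module.End.exists_eigenvalue (ρ g)
    refine ⟨c, ?_⟩
    by_contra hne
    obtain ⟨x, hx, v, hv, h⟩ := hc (Module.End.eigenspace (ρ g) c) hc' (fun ht => hne (by
      ext v
      exact Module.End.mem_eigenspace_iff.1 (ht ▸ Submodule.mem_top)))
    refine h (Module.End.mem_eigenspace_iff.2 ?_)
    rw [← Module.End.mul_apply, ← map_mul, hx g rfl, map_mul, Module.End.mul_apply,
      Module.End.mem_eigenspace_iff.1 hv, map_smul]
  have hn := CF.Char.charCenter_normal
    (CF.Char.char_isClassFunction (CF.Char.isCharacter_character ρ))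
  rcases hn.eq_bot_or_eq_top with h | h
  · exact hg (by simpa [h] using (CF.Char.mem_charCenter_character ρ).2 hsc)
  · have : ρ.IsIrreducible := (CF.Char.isIrreducible_iff ρ).2
      ⟨Module.nontrivial_of_finrank_pos (R := ℂ) (by omega), hirr⟩
    have := CF.Clifford.irr_one_eq_one_of_charCenter_eq_top (CF.Char.isIrrCharacter_character ρ) h
    rw [Representation.char_one] at this
    exact hdim.ne' (by exact_mod_cast this)

end Cfsg.Agent.S5011
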