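import Cfsg.Statements.S5138
import Cfsg.Agent.Fus.Comp

set_option autoImplicit false
open Cfsg

namespace Cfsg.Agent.S5138
open CF.Fus Cfsg.FusionSystem

/-- Let F be a saturated fusion system over a finite p-group S and E₁, E₂ normal subsystems over T₁, T₂ with [T₁, T₂] = 1. Then there is a normal subsystem of F over T₁T₂ which, if moreover T₁ ∩ T₂ lies in the centre of E₁ and in the centre of E₂, is a central product of E₁ and E₂ (the factor system of a direct product of E₁ and E₂ modulo a subgroup of its centre meeting both factors trivially). -/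
theorem result {Ω : Type*} [Group Ω] {S : Subgroup Ω} [Finite S] (p : ℕ) [Fact p.Prime] (hS : IsPGroup p S) (F : Cfsg.FusionSystem S) (hF : F.IsSaturated p) {T₁ T₂ : Subgroup Ω} (E₁ : Cfsg.FusionSystem T₁) (E₂ : Cfsg.FusionSystem T₂) (hE₁ : E₁.IsNormalIn F p) (hE₂ : E₂.IsNormalIn F p) (hc : ⁅T₁, T₂⁆ = ⊥) : ∃ D : Cfsg.FusionSystem (T₁ ⊔ T₂), D.IsNormalIn F p ∧ (T₁ ⊓ T₂ ≤ E₁.center → T₁ ⊓ T₂ ≤ E₂.center → Cfsg.FusionSystem.IsCentralProductOf E₁ E₂ D) := by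
  have hF' : Sat F p := ⟨‹_›, hS, hF⟩
  have h1 := hF'.nrm hE₁
  have h2 := hF'.nrm hE₂
  have c1 : T₁ ≤ CS S T₂ := le_inf h1.le (Subgroup.commutator_eq_bot_iff_le_centralizer.1 hc)
  have c2 : T₂ ≤ CS S T₁ := fun y hy => mem_CS.2 ⟨h2.le hy, fun x hx => ((mem_CS.1 (c1 hx)).2 y hy).symm⟩
  haveI := h1.satE.fin
  haveI := h2.satE.fin
  by_cases h : T₁ ⊓ T₂ ≤ E₁.center ∧ T₁ ⊓ T₂ ≤ E₂.center
  · obtain ⟨D, a1, a2⟩ := h1.exists_cp h2 c1 (central_iff_le_center.2 h.1) (central_iff_le_center.2 h.2)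
    exact ⟨D, a2.isN, fun _ _ => (cp_iff h1.satE h2.satE).2 a1⟩
  have a0 := hF'.normal_of_abelian (sc_inf h1.sc h2.sc)
    (inf_le_left.trans (c1.trans ((CS_anti inf_le_right).trans CS_le_cent)))
  have a1 := hF'.nrm_cenF a0
  obtain ⟨M₁, b1, -, b2, -⟩ := h1.exists_meet a1 (inf_eq_left.2 (c1.trans (CS_anti inf_le_right)))
  obtain ⟨M₂, b3, -, b4, -⟩ := h2.exists_meet a1 (inf_eq_left.2 (c2.trans (CS_anti inf_le_left)))
  obtain ⟨D, -, a2⟩ := b1.exists_cp b3 c1 (((cz_iff_sub a0.1).2 b2.sub).central b1.satE le_rfl inf_le_left)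
    (((cz_iff_sub a0.1).2 b4.sub).central b3.satE le_rfl inf_le_right)
  exact ⟨D, a2.isN, fun d1 d2 => (h ⟨d1, d2⟩).elim⟩

end Cfsg.Agent.S5138
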