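import Cfsg.Statements.S5149
import Cfsg.Agent.Fus.Comp

set_option autoImplicit false
open Cfsg

namespace Cfsg.Agent.S5149
open CF.Fus Cfsg.FusionSystem

/-- A saturated fusion system F over a finite p-group has a layer: a normal subsystem containing every component of F as a subsystem and contained in every normal subsystem of F that contains every component. -/
theorem result {Ω : Type*} [Group Ω] {S : Subgroup Ω} [Finite S] (p : ℕ) [Fact p.Prime] (hS : IsPGroup p S) (F : Cfsg.FusionSystem S) (hF : F.IsSaturated p) : ∃ (T : Subgroup Ω) (E : Cfsg.FusionSystem T), E.IsLayerOf F p := by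
  have hF' : Sat F p := ⟨‹_›, hS, hF⟩
  obtain ⟨T, E, h⟩ := hF'.exists_lay
  exact ⟨T, E, hF'.lay_iff.2 h⟩

end Cfsg.Agent.S5149
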