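import Cfsg.Statements.S5154
import Cfsg.Agent.Fus.Solv

set_option autoImplicit false
open Cfsg

namespace Cfsg.Agent.S5154
open CF.Fus Cfsg.FusionSystem

/-- Let F be a saturated fusion system over a finite p-group S, C a component of F over T, and γ a map of F with source T. Then the image of C under γ — the fusion system over γ(T) whose maps are the homomorphisms induced along γ by the maps of C — is again a component of F. -/
theorem result {Ω : Type*} [Group Ω] {S : Subgroup Ω} [Finite S] (p : ℕ) [Fact p.Prime] (hS : IsPGroup p S) (F : Cfsg.FusionSystem S) (hF : F.IsSaturated p) {T : Subgroup Ω} (C : Cfsg.FusionSystem T) (hC : C.IsComponentIn F p) (γ : T →* Ω) (hγ : γ ∈ F.Hom T) (E : Cfsg.FusionSystem γ.range) (hE : C.IsFactorSystem ⊥ γ E) : E.IsComponentIn F p := by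
  have h1 := Sat.mk' hS hF
  have h2 := (fiso_iff γ fun x => (ext_coe γ x).symm).1 hE
  refine ⟨?_, h2.quasisimple (h1.subn hC.1) hC.2⟩
  have h3 := mor_ext hγ
  clear hE hγ
  generalize ext γ = g at h2 h3
  generalize γ.range = T' at E h2
  refine subn_induction (C := fun {S} F => Sat F p → ∀ {T' : Subgroup Ω} (E : FusionSystem T') g,
    FIso C g E → Mor F T g → E.IsSubnormalIn F p) (fun h1 T' E g h2 h3 => ?_)
    (fun D F hD hn ih h1 T' E g h2 h3 => ?_) hC.1 h1 E g h2 h3
  · haveI := h1.fin
    exact FIso.subn (.refl C p) h1 h3.fiso h2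
  · have h4 := h1.nrm hn
    obtain ⟨α, hα, k, hk, e⟩ := h4.frat (subn_le hD) h3
    haveI := h4.satE.finite hk.le
    obtain ⟨E', h5⟩ := exists_fiso C hk.piso
    refine .step (FIso.subn (ih h4.satE E' k h5 hk) h4.satE (h4.fiso hα)
      ((h5.symm.trans h2).congr fun y hy => ?_)) hn
    simp only [Function.comp]
    rw [e _ (hk.piso.pinv_mem hy), hk.piso.apply_pinv hy]

end Cfsg.Agent.S5154
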