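import Cfsg.Statements.S5222
import Cfsg.Agent.Fus.Tate

set_option autoImplicit false
open Cfsg

namespace Cfsg.Agent.S5222
open CF.Fus Cfsg.FusionSystem

/-- Let F be a saturated fusion system over a finite p-group S whose normalizer fusion system of S is the inner fusion system of S (Aut_F(S) is a p-group). Then for every subgroup Q of S with [S, S] ≤ Q ≤ Φ(S), the normalizer fusion system of Q in F is the inner fusion system of N_S(Q) = S. -/
theorem result {Ω : Type*} [Group Ω] {S : Subgroup Ω} [Finite S] (p : ℕ) [Fact p.Prime] (hS : IsPGroup p S) (F : Cfsg.FusionSystem S) (hF : F.IsSaturated p) (hN : ∀ N : Cfsg.FusionSystem (Cfsg.FusionSystem.normalizerIn S S), F.IsNormalizerSystem S N → ∀ P : Subgroup Ω, N.Hom P = (Cfsg.innerFusionSystem (Cfsg.FusionSystem.normalizerIn S S)).Hom P) (Q : Subgroup Ω) (h1 : (commutator ↥S).map S.subtype ≤ Q) (h2 : Q ≤ (frattini ↥S).map S.subtype) : ∀ N : Cfsg.FusionSystem (Cfsg.FusionSystem.normalizerIn S Q), F.IsNormalizerSystem Q N → ∀ P : Subgroup Ω, N.Hom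 P = (Cfsg.innerFusionSystem (Cfsg.FusionSystem.normalizerIn S Q)).Hom P := by
  have hF' : Sat F p := ⟨‹_›, hS, hF⟩
  simp only [inner_iff_hom] at hN ⊢
  rw [forall_NS_iff le_rfl] at hN
  rw [Subgroup.map_subtype_commutator] at h1
  have a0 : Q ≤ S := h2.trans (CF.Transfer.frat_le S)
  have a1 : S ≤ Subgroup.normalizer (Q : Set Ω) := fun s hs => mem_normalizer_of_le a0 fun x hx => by
    simpa [commutatorElement_def] using mul_mem (h1 (Subgroup.commutator_mem_commutator hs (a0 hx))) hx
  intro N hN'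
  have a2 := hF'.isNS (fn_of_norm F a0 a1) hN'
  have a3 := isNS_normal hN' a0
  have a4 := isNS_sub hN'
  have e := NS_eq_of_norm a1
  clear hN'
  generalize Cfsg.FusionSystem.normalizerIn S Q = R at N a2 a3 a4 e
  subst e
  exact a2.inner_of_hyp_le_frat ((a2.hyp_le_of_comm_le (sc_of_normal a3) h1
    ((isPGroup_aut_of_inner_NS hF' hN).to_le (autGroup_mono a4 _))).trans h2)

end Cfsg.Agent.S5222
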