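import Cfsg.Statements.S5223
import Cfsg.Agent.Fus.Cent

set_option autoImplicit false
open Cfsg

namespace Cfsg.Agent.S5223
open CF.Fus Cfsg.FusionSystem

/-- Let F be a saturated fusion system over a finite p-group S. Suppose there are subgroups Q₀ = S, Q₁, …, Qₙ = 1 (not required to be nested) such that for each i < n the focal subgroup of Qᵢ (generated by the elements x⁻¹φ(x), x ∈ Qᵢ, φ a map of F defined on the cyclic group generated by x) lies in Qᵢ₊₁. Then F is the inner fusion system of S. -/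
theorem result {Ω : Type*} [Group Ω] {S : Subgroup Ω} [Finite S] (p : ℕ) [Fact p.Prime] (hS : IsPGroup p S) (F : Cfsg.FusionSystem S) (hF : F.IsSaturated p) (n : ℕ) (Q : Fin (n + 1) → Subgroup Ω) (hQ0 : Q 0 = S) (hQn : Q (Fin.last n) = ⊥) (hstep : ∀ i : Fin n, Subgroup.closure {y : Ω | ∃ x ∈ Q i.castSucc, ∃ φ ∈ F.Hom (Subgroup.zpowers x), y = x⁻¹ * φ ⟨x, Subgroup.mem_zpowers x⟩} ≤ Q i.succ) : ∀ P : Subgroup Ω, F.Hom P = (Cfsg.innerFusionSystem S).Hom P := by
  have h1 := Sat.mk' hS hF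
  intro P
  rw [h1.eq_inner_of_pgroup fun P hP => ?_]
  have hPS := (h1.ess_or_top_cr hP).1.1
  haveI := h1.finite hPS
  refine isPGroup_of_coprime fun α hα hc => aut_ext fun x hx => ?_
  rw [fn_one]
  refine fix_of_chain (h1.pgroup hPS) hc (fun j => Q ⟨n - j, by omega⟩) (fun y hy hy' => ?_) n
    (fun j hj y hy hy' => ?_) x hx (by simpa [hQ0] using hPS hx)
  · have : y ∈ Q (Fin.last n) := hy'
    rw [hQn, Subgroup.mem_bot] at this
    rw [this, (mulOn_fn α).map_one]
  · have := hstep ⟨n - (j + 1), by omega⟩ (Subgroup.subset_closure ⟨y, hy', _,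
      ((mor_fn hPS hα).mono (Subgroup.zpowers_le.2 hy)).hom_mem', rfl⟩)
    have e : (⟨n - j, by omega⟩ : Fin (n + 1)) = (⟨n - (j + 1), by omega⟩ : Fin n).succ := by
      simp [Fin.ext_iff]; omega
    rw [e]; exact this

end Cfsg.Agent.S5223
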