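import Cfsg.Statements.S5243
import Cfsg.Agent.Fus.Env

set_option autoImplicit false
open Cfsg

namespace Cfsg.Agent.S5243
open CF.Fus Cfsg.FusionSystem

/-- Let F be a saturated fusion system over a finite p-group S, E a normal subsystem of F over T ≤ S, and χ a surjective homomorphism from Aut_F(T) onto a nontrivial finite group Δ of order prime to p whose kernel contains Aut_E(T). Then there is a proper normal subsystem F₀ of F over S containing E such that Aut_{F₀}(S) consists of those α ∈ Aut_F(S) whose restriction to T is an element of Aut_F(T) in the kernel of χ; moreover every p'-residual subsystem O^{p'}(F) of F is contained in F₀. -/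
theorem result {Ω : Type*} [Group Ω] {S : Subgroup Ω} [Finite S] (p : ℕ) [Fact p.Prime] (hS : IsPGroup p S) (F : Cfsg.FusionSystem S) (hF : F.IsSaturated p) {T : Subgroup Ω} (hTS : T ≤ S) (E : Cfsg.FusionSystem T) (hE : E.IsNormalIn F p) {Δ : Type*} [Group Δ] [Finite Δ] [Nontrivial Δ] (hΔ : (Nat.card Δ).Coprime p) (χ : ↥(F.autGroup T) →* Δ) (hχ : Function.Surjective χ) (hker : (E.autGroup T).subgroupOf (F.autGroup T) ≤ χ.ker) : ∃ F₀ : Cfsg.FusionSystem S, F₀.IsNormalIn F p ∧ ¬ (∀ P : Subgroup Ω, F₀.Hom P = F.Hom P) ∧ E.IsSubsystemOf F₀ ∧ (∀ α : MulAut ↥S, α ∈ F₀.autGroup S ↔ α ∈ F.autGroup S ∧ ∃ β : ↥(F.autGroup T), χ β = 1 ∧ ∀ t : ↥T, (((β : MulAut ↥T) t : ↥T) : Ω) = ((α ⟨(t : Ω), hTS t.2⟩ : ↥S) : Ω)) ∧ ∀ R : Cfsg.FusionSystem S, F.IsPPrimeResidual p R → R.IsSubsystemOf F₀ := by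
    have hF' : Sat F p := ⟨‹_›, hS, hF⟩
    have h := hF'.nrm hE
    have a0 : ∀ {β} (hβ : β ∈ F.autGroup T), β ∈ χ.ker.map (F.autGroup T).subtype ↔ χ ⟨β, hβ⟩ = 1 := fun hβ =>
      ⟨fun ⟨_, h1, h2⟩ => by subst h2; exact h1, fun h1 => ⟨_, h1, rfl⟩⟩
    obtain ⟨D, h1, h2, h3, h4⟩ := h.exists_prime (K := χ.ker.map (F.autGroup T).subtype) (Subgroup.map_subtype_le _)
      ((CF.Solv.normal_map_subtype_iff _).1 inferInstance) (pGen_le_iff.2 fun β hβ k hk => (a0 hβ).2 (eq_one_of_ppow_of_coprime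
        (a := k) (by rw [← map_pow, show (⟨β, hβ⟩ : F.autGroup T) ^ p ^ k = 1 from Subtype.ext hk, map_one])
        (hΔ.coprime_dvd_left (orderOf_dvd_natCard _)))) fun β hβ => (a0 (autGroup_mono h.sub T hβ)).2 (hker hβ)
    refine ⟨D, h1.isN, fun e => ?_, h2, fun α => (h4 α).trans (and_congr_right fun hα => ?_), fun R hR => hF'.op_le hR h1.toWNrm⟩
    · obtain ⟨x, hx⟩ := exists_ne (1 : Δ)
      obtain ⟨β, rfl⟩ := hχ x
      exact hx ((a0 β.2).1 (h3 ▸ (autGroup_congr (e T)).symm ▸ β.2))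
    · have a1 := sc_stab h.sc le_rfl hα
      have a2 := res_mem_autGroup hTS le_rfl hα a1
      refine ⟨fun b => ⟨⟨_, a2⟩, (a0 a2).1 b, fun t => ?_⟩, fun ⟨β, b1, b2⟩ => ?_⟩
      · rw [← fn_of_mem α (hTS t.2), ← fn_res hTS a1 t.2, fn_of_mem _ t.2]
      · rw [res_eq_of_fn_eq hTS (β := β.1) fun x hx => by rw [fn_of_mem _ hx, fn_of_mem _ (hTS hx)]; exact b2 ⟨x, hx⟩]
        exact (a0 β.2).2 b1

end Cfsg.Agent.S5243
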