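import Cfsg.Statements.S5247
import Cfsg.Agent.Fus.PSol

set_option autoImplicit false
open Cfsg

namespace Cfsg.Agent.S5247
open CF.Fus Cfsg.FusionSystem

/-- Let p be an odd prime and F a saturated fusion system over a finite p-group S. Call a fusion system E (over any subgroup) p-stable when, for every fully E-normalized subgroup Q and every χ ∈ Aut_E(Q) with χ(a⁻¹)·a·χ(a⁻¹)·χ(χ(a)) = 1 for all a ∈ Q (χ acts quadratically), χ lies in O_p(Aut_E(Q)). Then F is p-stable if and only if every normalizer fusion system N_F(R) of every non-cyclic fully F-normalized subgroup R of S is p-stable. -/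
theorem result {Ω : Type*} [Group Ω] {S : Subgroup Ω} [Finite S] (p : ℕ) [Fact p.Prime] (hS : IsPGroup p S) (F : Cfsg.FusionSystem S) (hF : F.IsSaturated p) (hp : p ≠ 2) : (∀ Q : Subgroup Ω, F.IsFullyNormalized Q → ∀ χ : MulAut ↥Q, χ ∈ F.autGroup Q → (∀ a : ↥Q, (χ a⁻¹) * a * (χ a⁻¹) * (χ (χ a)) = 1) → χ ∈ ((Cfsg.pCore p ↥(F.autGroup Q)).map (F.autGroup Q).subtype : Subgroup (MulAut ↥Q))) ↔ ∀ R : Subgroup Ω, F.IsFullyNormalized R → ¬ IsCyclic ↥R → ∀ N : Cfsg.FusionSystem (Cfsg.FusionSystem.normalizerIn S R), F.IsNormalizerSystem R N → (∀ Q : Subgroup Ω, N.IsFullyNormalized Q → ∀ χ : MulAut ↥Q, χ ∈ N.autGroup Q → (∀ a : ↥Q, (χ a⁻¹) * a * (χ a⁻¹) * (χ (χ a)) = 1) → χ ∈ ((Cfsg.pCore p ↥(N.autGroup Q)).map (N.autGroup Q).subtype : Subgroup (MulAut ↥Q))) := by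
  have hF' := Sat.mk' hS hF
  refine ⟨fun h R h1 _ N hN Q h2 => (st_of_fn (p := p) h (h2.1.trans NS_le)).sub (isNS_sub hN), fun h Q hQ => ?_⟩
  haveI := fin_of_le hQ.1
  by_cases c : IsCyclic Q
  · exact st_of_cyclic (hF'.pgroup hQ.1) c
  · exact St.congr (st_of_fn (p := p) (h Q hQ c _ (isNS_norF F hQ.1)) (le_NS hQ.1))
      (isNS_autGroup_self (isNS_norF F hQ.1) hQ.1)

end Cfsg.Agent.S5247
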