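import Cfsg.Statements.S5251
import Cfsg.Agent.Fus.Index

set_option autoImplicit false
open Cfsg

namespace Cfsg.Agent.S5251
open CF.Fus Cfsg.FusionSystem

/-- Let F be a saturated fusion system over a finite p-group S, E a normal subsystem of F over T, and P an F-centric subgroup of S such that P ∩ T is not E-centric. Then some F-conjugate P* of P satisfies Out_S(P*) ∩ O_p(Out_F(P*)) ≠ 1: there is an element of N_S(P*) outside P* whose conjugation action on P* lies in O_p(Aut_F(P*)). In particular P is not both centric and radical in F. -/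
theorem result {Ω : Type*} [Group Ω] {S : Subgroup Ω} [Finite S] (p : ℕ) [Fact p.Prime] (hS : IsPGroup p S) (F : Cfsg.FusionSystem S) (hF : F.IsSaturated p) {T : Subgroup Ω} (E : Cfsg.FusionSystem T) (hE : E.IsNormalIn F p) (P : Subgroup Ω) (hP : F.IsCentric P) (hPT : ¬ E.IsCentric (P ⊓ T)) : (∃ φ ∈ F.Hom P, ∃ x ∈ S ⊓ Subgroup.normalizer (φ.range : Set Ω), x ∉ φ.range ∧ ∃ α ∈ ((Cfsg.pCore p ↥(F.autGroup φ.range)).map (F.autGroup φ.range).subtype : Subgroup (MulAut ↥φ.range)), ∀ y : ↥φ.range, ((α y : ↥φ.range) : Ω) = x * (y : Ω) * x⁻¹) ∧ ¬ F.IsRadical p P := by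
    have hF' : Sat F p := ⟨‹_›, hS, hF⟩
    have h := hF'.nrm hE
    refine ⟨?_, fun hr => hPT (h.tc_iff.1 (hF'.tc_of_cr h.sc hP hr))⟩
    obtain ⟨g, hg, hg'⟩ := hF'.exists_fn_map (inf_le_left.trans hP.1 : P ⊓ T ≤ S)
    have hi := (hg.mono (le_NS_inf h.sc hP.1)).iso
    rw [hi.img_inf h.sc] at hg'
    have a := hF'.not_le_of_not_tc h.sc (sub_refl F) h.le hi.le' (hF'.fc_of_fn hg')
      fun c => hPT (h.tc_iff.1 (c.conj h.sc (conj_symm (hi.inf h.sc).isConj)))
    refine ⟨_, hi.mor.hom_mem', ?_⟩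
    rw [← hi.mul.img_eq_range]
    obtain ⟨s, a1, -, a2⟩ := a
    exact ⟨s, a1.1, a2, _, a1.2, coe_cA a1.1.2⟩

end Cfsg.Agent.S5251
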