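import Cfsg.Statements.S5271
import Cfsg.Agent.Fus.PSol

set_option autoImplicit false
open Cfsg

namespace Cfsg.Agent.S5271
open CF.Fus Cfsg.FusionSystem

/-- A nilpotency criterion for fusion systems. Let F be a saturated fusion system over a finite p-group S of order at least p². Call a subgroup Q of S weakly embedded in F when there is a subgroup P of S strongly closed in F such that both the product QP and the intersection Q ∩ P are strongly closed in F. Then F is the inner fusion system of S if and only if there is a subgroup D of S with 1 < D < S such that every subgroup of S of the same order as D is weakly embedded in F and, for every fully normalized subgroup H of S of that order, the normalizer fusion system of H in F is the inner fusion system of N_S(H). -/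
theorem result {Ω : Type*} [Group Ω] {S : Subgroup Ω} [Finite S] (p : ℕ) [Fact p.Prime] (hS : IsPGroup p ↥S) (F : Cfsg.FusionSystem S) (hF : F.IsSaturated p) (hcard : p ^ 2 ≤ Nat.card S) : (∀ P : Subgroup Ω, F.Hom P = (Cfsg.innerFusionSystem S).Hom P) ↔ ∃ D : Subgroup Ω, ⊥ < D ∧ D < S ∧ (∀ Q : Subgroup Ω, Q ≤ S → Nat.card ↥Q = Nat.card ↥D → ∃ P : Subgroup Ω, F.StronglyClosed P ∧ F.StronglyClosed (Q ⊔ P) ∧ F.StronglyClosed (Q ⊓ P)) ∧ (∀ H : Subgroup Ω, F.IsFullyNormalized H → Nat.card ↥H = Nat.card ↥D → ∀ N : Cfsg.FusionSystem (Cfsg.FusionSystem.normalizerIn S H), F.IsNormalizerSystem H N → ∀ P : Subgroup Ω, N.Hom P = (Cfsg.innerFusionSystem (Cfsg.FusionSystem.normalizerIn S H)).Hom P) := by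
  have hF' := Sat.mk' hS hF
  have hp : 1 < p := (Fact.out : p.Prime).one_lt
  obtain ⟨n, hn⟩ := IsPGroup.iff_card.1 hS
  rw [inner_iff_hom]
  constructor
  · intro h
    obtain ⟨m, rfl⟩ : ∃ m, n = m + 2 := ⟨n - 2, by
      have := (Nat.pow_le_pow_iff_right hp).1 (hn ▸ hcard); omega⟩
    obtain ⟨D, -, a1, a2⟩ := exists_between (P := ⊥) (k := m + 1) hS bot_le
      (by rw [Subgroup.card_bot]; exact Nat.one_le_pow _ _ (by omega)) (hn ▸ Nat.pow_le_pow_right hp.le (by omega))
    have b : ∀ Q, Q ≤ S → Nat.card Q = p ^ (m + 1) → F.StronglyClosed Q := fun Q h1 h2 => by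
      refine sc_of_normal (h.normal h1 ?_)
      have c := hF'.lt_NS (lt_of_le_of_ne h1 fun e => by
        rw [e, hn] at h2; exact absurd (Nat.pow_right_injective hp h2) (by omega))
      obtain ⟨k, hk⟩ := IsPGroup.iff_card.1 (hF'.pgroup (NS_le : NS S Q ≤ S))
      have c1 := card_lt_of_lt c
      rw [h2, hk, Nat.pow_lt_pow_iff_right hp] at c1
      exact (Subgroup.eq_of_le_of_card_ge NS_le (by
        rw [hn, hk]; exact Nat.pow_le_pow_right hp.le c1)).ge.trans NS_le_norm
    refine ⟨D, bot_lt_iff_ne_bot.2 fun e => ?_, lt_of_le_of_ne a1 fun e => ?_, fun Q h1 h2 => ⟨Q, ?_⟩,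
      fun H h1 _ => (inner_NS_iff h1.1).2 (hF'.inner_norF h1 fun P f hf => h.mor hf.mor)⟩
    · rw [e, Subgroup.card_bot] at a2
      exact absurd a2.symm (Nat.one_lt_pow (by omega) hp).ne'
    · rw [e, hn] at a2; exact absurd (Nat.pow_right_injective hp a2) (by omega)
    · simpa using b Q h1 (h2.trans a2)
  · rintro ⟨D, h1, h2, h3, h4⟩
    haveI := fin_of_le h2.le
    obtain ⟨k, hk⟩ := IsPGroup.iff_card.1 (hF'.pgroup h2.le)
    refine hF'.inner_of_wemb (k := k) (Nat.pos_of_ne_zero fun e => h1.ne' ?_) (hk ▸ card_lt_of_lt h2)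
      (fun Q a1 a2 => h3 Q a1 (a2.trans hk.symm)) fun H a1 a2 => (inner_NS_iff a1.1).1 (h4 H a1 (a2.trans hk.symm))
    rw [e, pow_zero] at hk
    exact Subgroup.card_eq_one.1 hk

end Cfsg.Agent.S5271
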