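import Cfsg.Statements.S5272
import Cfsg.Agent.Fus.Agemo

set_option autoImplicit false
open Cfsg

namespace Cfsg.Agent.S5272
open CF.Fus Cfsg.FusionSystem

/-- An axiomatic Glauberman–Thompson nilpotency criterion for fusion systems. Let p be an odd prime, F a saturated fusion system over a finite p-group S, and 𝒜 a nonempty family of abelian subgroups of S. For Q ≤ S write I(Q) for the intersection of the members of 𝒜 contained in Q. Assume (invariance) that for every Q ≤ S containing a member of 𝒜, every F-automorphism of Q maps I(Q) into itself, and (replacement) that for every subgroup B of S of nilpotency class at most 2, if some member of 𝒜 contains [B,B] but not B, then B normalizes some member of 𝒜 that contains [B,B] but not B. Then F is the inner fusion system of S if and only if the normalizer fusion system of I(S) in F is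 the inner fusion system of N_S(I(S)). -/
theorem result {Ω : Type*} [Group Ω] {S : Subgroup Ω} [Finite S] (p : ℕ) [Fact p.Prime] (hS : IsPGroup p ↥S) (F : Cfsg.FusionSystem S) (hF : F.IsSaturated p) (hp : p ≠ 2) (𝒜 : Set (Subgroup Ω)) (h𝒜 : ∀ A ∈ 𝒜, A ≤ S ∧ IsMulCommutative ↥A) (hne : 𝒜.Nonempty) (hinv : ∀ Q : Subgroup Ω, Q ≤ S → (∃ A ∈ 𝒜, A ≤ Q) → ∀ α ∈ F.autGroup Q, ∀ x : ↥Q, (x : Ω) ∈ (⨅ A ∈ {A : Subgroup Ω | A ∈ 𝒜 ∧ A ≤ Q}, A) → (((α : MulAut ↥Q) x : ↥Q) : Ω) ∈ (⨅ A ∈ {A : Subgroup Ω | A ∈ 𝒜 ∧ A ≤ Q}, A)) (hrep : ∀ B : Subgroup Ω, B ≤ S → ⁅⁅B, B⁆, B⁆ = ⊥ → (∃ A ∈ 𝒜, ⁅B, B⁆ ≤ A ∧ ¬ B ≤ A) → ∃ A ∈ 𝒜, ⁅B, B⁆ ≤ A ∧ ¬ B ≤ A ∧ B ≤ Subgroup.normalizer (A : Set Ω)) : (∀ P : Subgroup Ω, F.Hom P = (Cfsg.innerFusionSystem S).Hom P) ↔ ∀ N : Cfsg.FusionSystem (Cfsg.FusionSystem.normalizerIn S (⨅ A ∈ 𝒜, A)), F.IsNormalizerSystem (⨅ A ∈ 𝒜, A) N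 → ∀ P : Subgroup Ω, N.Hom P = (Cfsg.innerFusionSystem (Cfsg.FusionSystem.normalizerIn S (⨅ A ∈ 𝒜, A))).Hom P := by
  have hF : Sat F p := ⟨‹_›, hS, hF⟩
  obtain ⟨A₀, hA₀⟩ := hne
  have h1 : (⨅ A ∈ 𝒜, A) ≤ S := (iInf₂_le A₀ hA₀).trans (h𝒜 _ hA₀).1
  have h2 : ∀ Q, Q ≤ S → ∀ A ∈ 𝒜, A ≤ Q → F.autGroup Q ≤ stab Q (⨅ A ∈ {A : Subgroup Ω | A ∈ 𝒜 ∧ A ≤ Q}, A) :=
    fun Q hQ A hA h α hα => by
      have h3 : (⨅ A ∈ {A : Subgroup Ω | A ∈ 𝒜 ∧ A ≤ Q}, A) ≤ Q := (iInf₂_le A ⟨hA, h⟩).trans h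
      haveI := fin_of_le (h3.trans hQ)
      exact mem_stab_of_maps h3 fun x hx => by
        rw [fn_of_mem α (h3 hx)]; exact hinv Q hQ ⟨A, hA, h⟩ α hα ⟨x, h3 hx⟩ hx
  have h4 : S ≤ Subgroup.normalizer (⨅ A ∈ 𝒜, A : Subgroup Ω) := fun s hs => by
    have := h2 S le_rfl A₀ hA₀ (h𝒜 _ hA₀).1 (cA_mem_autGroup F le_rfl hs)
    rw [show {A : Subgroup Ω | A ∈ 𝒜 ∧ A ≤ S} = 𝒜 from Set.ext fun A => and_iff_left_of_imp fun h => (h𝒜 A h).1] at this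
    exact norm_of_cA_mem_stab h1 (Subgroup.le_normalizer hs) this
  rw [inner_iff_hom, inner_NS_iff h1]
  exact ⟨fun h => hF.inner_norF (fn_of_norm F h1 h4) fun P f hf => h.mor hf.mor, fun h =>
    inner_of_replacement hF hp h𝒜 ⟨A₀, hA₀⟩ (fun B => le_iInf₂_iff) h4 (fun Q hQ A hA h =>
      ⟨_, le_iInf₂ fun A hA => iInf₂_le A hA.1, iInf₂_le A ⟨hA, h⟩, h2 Q hQ A hA h⟩)
      (fun B h1 h2 h3 => let ⟨A, h4, _, h5⟩ := hrep B h1 h2 h3; ⟨A, h4, h5⟩) fun P f hf => h.nmor hf⟩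

end Cfsg.Agent.S5272
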