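import Cfsg.Statements.S5276
import Cfsg.Agent.Fus.Tate

set_option autoImplicit false
open Cfsg

namespace Cfsg.Agent.S5276
open CF.Fus Cfsg.FusionSystem

/-- Let p be a prime and F a saturated fusion system over a finite p-group S. Then F is the inner fusion system of S if and only if the normalizer fusion system of S itself in F is the inner fusion system (equivalently, Aut_F(S) is induced by S) and the Frattini subgroup Φ(S) is strongly closed in F. -/
theorem result {Ω : Type*} [Group Ω] {S : Subgroup Ω} [Finite S] (p : ℕ) [Fact p.Prime] (hS : IsPGroup p ↥S) (F : Cfsg.FusionSystem S) (hF : F.IsSaturated p) : (∀ P : Subgroup Ω, F.Hom P = (Cfsg.innerFusionSystem S).Hom P) ↔ (∀ N : Cfsg.FusionSystem (Cfsg.FusionSystem.normalizerIn S S), F.IsNormalizerSystem S N → ∀ P : Subgroup Ω, N.Hom P = (Cfsg.innerFusionSystem (Cfsg.FusionSystem.normalizerIn S S)).Hom P) ∧ F.StronglyClosed ((frattini ↥S).map S.subtype) := by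
  have hF' : Sat F p := ⟨‹_›, hS, hF⟩
  simp only [inner_iff_hom]
  rw [forall_NS_iff le_rfl]
  refine ⟨fun h => ⟨h.of_hom_eq (hom_NS_of_normal (isNS_norF F le_rfl) h.normal_top),
    sc_of_normal (h.normal (CF.Transfer.frat_le S) (CF.Transfer.le_normalizer_frat S))⟩, fun h => ?_⟩
  exact hF'.inner_of_hyp_le_frat (hF'.hyp_le_of_comm_le h.2 (comm_le_frat hS) (isPGroup_aut_of_inner_NS hF' h.1))

end Cfsg.Agent.S5276
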