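import Cfsg.Statements.S5286
import Cfsg.Agent.LS.Tree

set_option autoImplicit false
universe u
open Cfsg

namespace Cfsg.Agent.S5286
open Subgroup
open scoped commutatorElement Pointwise
open CF.LS
open FreeGroup (mk toWord_one)

theorem exists_coords {P T : Type u} [Group P] [Group T] [Finite T] (a : P →* T)
    (ha : Function.Injective a) :
    ∃ (R : Set T) (e : P × R ≃ T), ∀ x r, e (x, r) = a x * r := by
  obtain ⟨R, hR, -⟩ := Subgroup.exists_isComplement_right a.range 1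
  refine ⟨R, ((MonoidHom.ofInjective ha).toEquiv.prodCongr (Equiv.refl R)).trans hR.equiv.symm,
    fun x r => rfl⟩

theorem exists_perm {P T : Type u} [Group P] [Group T] [Finite T] (a b : P →* T)
    (ha : Function.Injective a) (hb : Function.Injective b) :
    ∃ t : Equiv.Perm T, ∀ x y, t (a x * y) = b x * t y := by
  obtain ⟨R, e, he⟩ := exists_coords a ha
  obtain ⟨R', e', he'⟩ := exists_coords b hb
  have : Finite P := Finite.of_injective a ha
  have hc : Nat.card R = Nat.card R' := by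
    have h1 := Nat.card_congr e
    have h2 := Nat.card_congr e'
    rw [Nat.card_prod] at h1 h2
    exact Nat.eq_of_mul_eq_mul_left Nat.card_pos (h1.trans h2.symm)
  obtain ⟨β⟩ := Finite.card_eq.mp hc
  refine ⟨e.symm.trans (((Equiv.refl P).prodCongr β).trans e'), fun x y => ?_⟩
  obtain ⟨⟨x', r⟩, rfl⟩ := e.surjective y
  have : a x * e (x', r) = e (x * x', r) := by rw [he, he, map_mul, mul_assoc]
  rw [this]
  simp [he', mul_assoc]

section
variable {Ω : Type u} [Group Ω] {S : Subgroup Ω} (F : Cfsg.FusionSystem S)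

/-- the index set of morphisms. -/
def Ix := Σ P : Subgroup Ω, F.Hom P

/-- the regular representation. -/
abbrev lam (S : Subgroup Ω) : S →* Equiv.Perm S := MulAction.toPermHom S S

theorem lam_inj : Function.Injective (lam S) := MulAction.toPerm_injective

/-- the edge groups. -/
def Q (i : Ix F) : Subgroup (Equiv.Perm S) := (i.1.subgroupOf S).map (lam S)

theorem exists_t [Finite S] (i : Ix F) : ∃ t : Equiv.Perm S, ∀ x : i.1,
    lam S ⟨i.2.1 x, (F.le_of_mem i.2.2).2 x⟩ = t * lam S ⟨x, (F.le_of_mem i.2.2).1 x.2⟩ * t⁻¹ := by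
  obtain ⟨t, ht⟩ := exists_perm (Subgroup.inclusion (F.le_of_mem i.2.2).1)
    (i.2.1.codRestrict S (F.le_of_mem i.2.2).2) (Subgroup.inclusion_injective _)
    ((MonoidHom.injective_codRestrict _ _ _).mpr (F.injective_of_mem i.2.2))
  refine ⟨t, fun x => ?_⟩
  rw [eq_mul_inv_iff_mul_eq]
  ext y : 1
  exact (ht x y).symm

/-- the stable letters. -/
noncomputable def tt [Finite S] (i : Ix F) : Equiv.Perm S := (exists_t F i).choose

theorem tt_spec [Finite S] (i : Ix F) (x : i.1) :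
    lam S ⟨i.2.1 x, (F.le_of_mem i.2.2).2 x⟩ =
      tt F i * lam S ⟨x, (F.le_of_mem i.2.2).1 x.2⟩ * (tt F i)⁻¹ := (exists_t F i).choose_spec x

/-- edges -/
abbrev Ed := Σ i : Ix F, Equiv.Perm S ⧸ Q F i

/-- vertices -/
abbrev Vx (S : Subgroup Ω) := Equiv.Perm S ⧸ (lam S).range

theorem mem_Q {i : Ix F} {σ : Equiv.Perm S} (h : σ ∈ Q F i) :
    ∃ x : i.1, σ = lam S ⟨x, (F.le_of_mem i.2.2).1 x.2⟩ := by
  obtain ⟨y, hy, rfl⟩ := h
  exact ⟨⟨y, hy⟩, rfl⟩

/-- source -/
def src (e : Ed F) : Vx S := Quotient.liftOn' e.2 (fun γ => (γ : Vx S)) (by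
  intro a b h
  rw [QuotientGroup.leftRel_apply] at h
  obtain ⟨x, hx⟩ := mem_Q F h
  exact QuotientGroup.eq.mpr ⟨_, hx.symm⟩)

/-- target -/
noncomputable def tgt [Finite S] (e : Ed F) : Vx S :=
  Quotient.liftOn' e.2 (fun γ => ((γ * (tt F e.1)⁻¹ : Equiv.Perm S) : Vx S)) (by
  intro a b h
  rw [QuotientGroup.leftRel_apply] at h
  obtain ⟨x, hx⟩ := mem_Q F h
  refine QuotientGroup.eq.mpr ⟨_, (tt_spec F e.1 x).trans ?_⟩
  rw [← hx]
  group)

theorem src_smul (σ : Equiv.Perm S) (e : Ed F) : src F (σ • e) = σ • src F e := by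
  obtain ⟨i, c⟩ := e
  induction c using QuotientGroup.induction_on with
  | H γ => rfl

theorem tgt_smul [Finite S] (σ : Equiv.Perm S) (e : Ed F) : tgt F (σ • e) = σ • tgt F e := by
  obtain ⟨i, c⟩ := e
  induction c using QuotientGroup.induction_on with
  | H γ =>
    change (((σ * γ) * (tt F i)⁻¹ : Equiv.Perm S) : Vx S) =
      ((σ * (γ * (tt F i)⁻¹) : Equiv.Perm S) : Vx S)
    rw [mul_assoc]

/-- conjugation by `γ⁻¹` on `P` is a map of the system. -/
def Ok (P : Subgroup Ω) (hP : P ≤ S) (γ : Equiv.Perm S) : Prop :=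
  ∃ ψ ∈ F.Hom P, ∀ x : P, ∃ h : ψ x ∈ S, lam S ⟨ψ x, h⟩ = γ⁻¹ * lam S ⟨x, hP x.2⟩ * γ

variable {F}

theorem Ok.comp {P : Subgroup Ω} {hP : P ≤ S} {γ δ : Equiv.Perm S} (h : Ok F P hP γ)
    {R : Subgroup Ω} {hR : R ≤ S} (h' : Ok F R hR δ)
    (hm : ∀ x : P, ∃ y : R, lam S ⟨y, hR y.2⟩ = γ⁻¹ * lam S ⟨x, hP x.2⟩ * γ) :
    Ok F P hP (γ * δ) := by
  obtain ⟨ψ, hψ, h1⟩ := h
  obtain ⟨χ, hχ, h2⟩ := h'
  have hm' : ∀ x : P, ψ x ∈ R := by
    intro x
    obtain ⟨y, hy⟩ := hm x
    obtain ⟨h, hx⟩ := h1 x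
    have := congrArg Subtype.val (lam_inj (hx.trans hy.symm))
    change ψ x = y at this
    rw [this]
    exact y.2
  refine ⟨_, F.comp_mem hψ hχ hm', fun x => ?_⟩
  obtain ⟨h, hx⟩ := h1 x
  obtain ⟨h', hx'⟩ := h2 ⟨ψ x, hm' x⟩
  refine ⟨h', hx'.trans ?_⟩
  change δ⁻¹ * lam S ⟨ψ x, h⟩ * δ = _
  rw [hx]
  group

theorem ok_lam (P : Subgroup Ω) (hP : P ≤ S) (s : S) : Ok F P hP (lam S s) := by
  refine ⟨_, F.conj_mem hP (S.inv_mem s.2), fun x => ⟨?_, ?_⟩⟩
  · exact S.mul_mem (S.mul_mem (S.inv_mem s.2) (hP x.2)) (S.inv_mem (S.inv_mem s.2))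
  · rw [← map_inv, ← map_mul, ← map_mul]
    congr 1
    ext
    simp [conjHom]

theorem Ok.coset {P : Subgroup Ω} {hP : P ≤ S} {γ δ : Equiv.Perm S} (h : Ok F P hP γ)
    (e : (γ : Vx S) = δ) : Ok F P hP δ := by
  obtain ⟨s, hs⟩ := QuotientGroup.eq.mp e
  have : δ = γ * lam S s := by rw [hs]; group
  rw [this]
  refine h.comp (ok_lam S le_rfl s) fun x => ?_
  obtain ⟨ψ, -, h1⟩ := h
  obtain ⟨h, hx⟩ := h1 x
  exact ⟨⟨_, h⟩, hx⟩

theorem ok_tt_inv [Finite S] (i : Ix F) : Ok F i.1 (F.le_of_mem i.2.2).1 (tt F i)⁻¹ :=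
  ⟨i.2.1, i.2.2, fun x => ⟨_, by rw [tt_spec, inv_inv]⟩⟩

theorem ok_tt [Finite S] (i : Ix F) :
    Ok F i.2.1.range (by rintro _ ⟨x, rfl⟩; exact (F.le_of_mem i.2.2).2 x) (tt F i) := by
  obtain ⟨ψ, hψ, h⟩ := F.inv_mem i.2.2
  refine ⟨ψ, hψ, ?_⟩
  rintro ⟨_, x, rfl⟩
  refine ⟨(F.le_of_mem hψ).2 _, ?_⟩
  simp only [h x]
  rw [tt_spec]
  group

theorem ok_edge [Finite S] {P : Subgroup Ω} (hP : P ≤ S) (e : Ed F)
    (he : ∀ x : P, lam S ⟨x, hP x.2⟩ • e = e) :
    (∃ γ : Equiv.Perm S, (γ : Vx S) = src F e ∧ Ok F P hP γ) ↔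
      ∃ γ : Equiv.Perm S, (γ : Vx S) = tgt F e ∧ Ok F P hP γ := by
  obtain ⟨i, c⟩ := e
  induction c using QuotientGroup.induction_on with
  | H γ =>
    have hm : ∀ x : P, ∃ y : i.1, lam S ⟨y, (F.le_of_mem i.2.2).1 y.2⟩ =
        γ⁻¹ * lam S ⟨x, hP x.2⟩ * γ := by
      intro x
      have h1 := he x
      rw [Sigma.smul_mk, Sigma.mk.inj_iff, heq_eq_eq] at h1
      have h2 : ((γ : Equiv.Perm S) : Equiv.Perm S ⧸ Q F i) =
          ((lam S ⟨x, hP x.2⟩ * γ : Equiv.Perm S) : Equiv.Perm S ⧸ Q F i) := h1.2.symm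
      obtain ⟨y, hy⟩ := mem_Q F (QuotientGroup.eq.mp h2)
      exact ⟨y, by rw [← hy, mul_assoc]⟩
    constructor
    · rintro ⟨δ, h1, h2⟩
      exact ⟨γ * (tt F i)⁻¹, rfl, (h2.coset h1).comp (ok_tt_inv i) hm⟩
    · rintro ⟨δ, h1, h2⟩
      have h3 : Ok F P hP (γ * (tt F i)⁻¹) := h2.coset h1
      refine ⟨γ, rfl, ?_⟩
      have := h3.comp (ok_tt i) fun x => by
        obtain ⟨y, hy⟩ := hm x
        refine ⟨⟨i.2.1 y, y, rfl⟩, ?_⟩
        rw [tt_spec, hy]
        group
      rwa [inv_mul_cancel_right] at this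

end


/-- Every fusion system F over a finite p-group S, saturated or not, is realized by a possibly infinite group: there are a group G and an injective homomorphism ι of S into G such that the maps of F are exactly the conjugations by elements of G between subgroups of ι(S), every finite subgroup of G is conjugate to a subgroup of ι(S), and G has a free normal subgroup whose index divides (#S)!. -/
theorem result {Ω : Type u} [Group Ω] {S : Subgroup Ω} [Finite S] (p : ℕ) [Fact p.Prime] (hS : IsPGroup p ↥S) (F : Cfsg.FusionSystem S) : ∃ (G : Type u) (_ : Group G) (ι : ↥S →* G), F.IsRealizedBy ι ∧ (∀ H : Subgroup G, Finite ↥H → ∃ g : G, ∀ h ∈ H, g * h * g⁻¹ ∈ ι.range) ∧ ∃ N : Subgroup G, N.Normal ∧ IsFreeGroup ↥N ∧ N.index ∣ (Nat.card ↥S).factorial := by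
  classical
  let G := grp (src_smul F) (tgt_smul F) ((1 : Equiv.Perm S) : Vx S)
  have hv : ∀ σ : Equiv.Perm S, σ • ((1 : Equiv.Perm S) : Vx S) = (σ : Vx S) := by
    intro σ
    rw [MulAction.Quotient.smul_coe, smul_eq_mul, mul_one]
  let ι : S →* G := (SemidirectProduct.inr.comp (lam S)).codRestrict G fun s =>
    ⟨[], rfl, by
      rw [hv]
      exact QuotientGroup.eq.mpr ⟨s, by simp⟩⟩
  have hι : ∀ s, (ι s : FreeGroup (Ed F) ⋊[act (Equiv.Perm S) (Ed F)] Equiv.Perm S) =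
    ⟨1, lam S s⟩ := fun s => rfl
  refine ⟨G, inferInstance, ι, ⟨?_, ?_⟩, ?_, ?_⟩
  · intro a b h
    exact lam_inj (congrArg (fun x : G => x.1.right) h)
  · intro P hP φ hφ
    constructor
    · intro h
      let i : Ix F := ⟨P, φ, h⟩
      let e : Ed F := ⟨i, ((1 : Equiv.Perm S) : Equiv.Perm S ⧸ Q F i)⟩
      have hg : (⟨mk [(e, true)], (tt F i)⁻¹⟩ :
          FreeGroup (Ed F) ⋊[act (Equiv.Perm S) (Ed F)] Equiv.Perm S) ∈ G := by
        refine ⟨[(e, true)], rfl, rfl, ?_⟩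
        rw [hv]
        change ((1 * (tt F i)⁻¹ : Equiv.Perm S) : Vx S) = _
        rw [one_mul]
      refine ⟨(⟨_, hg⟩ : G)⁻¹, fun x => ?_⟩
      rw [inv_inv, mul_assoc, eq_inv_mul_iff_mul_eq]
      apply Subtype.ext
      rw [Subgroup.coe_mul, Subgroup.coe_mul, hι, hι]
      have he : lam S ⟨x, hP x.2⟩ • e = e := by
        change (⟨i, ((lam S ⟨x, hP x.2⟩ * 1 : Equiv.Perm S) : Equiv.Perm S ⧸ Q F i)⟩ : Ed F) = _
        congr 1
        symm
        refine QuotientGroup.eq.mpr ⟨⟨x, hP x.2⟩, x.2, by simp⟩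
      ext : 1
      · simp only [SemidirectProduct.mul_left, map_one, mul_one, one_mul, act_mk, List.map, lt, he]
      · simp only [SemidirectProduct.mul_right]
        have := tt_spec F i x
        change lam S ⟨φ x, hφ x⟩ = _ at this
        rw [this]
        group
    · rintro ⟨g, hg⟩
      have hg' : ∀ x : P, (g⁻¹ : G) * ι ⟨φ x, hφ x⟩ = ι ⟨x, hP x.2⟩ * g⁻¹ := by
        intro x
        rw [hg]
        group
      have hp := path_toWord (g⁻¹ : G).2
      have h1 : ∃ γ : Equiv.Perm S, (γ : Vx S) = (g⁻¹ : G).1.right • ((1 : Equiv.Perm S) : Vx S) ∧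
          Ok F P hP γ := by
        refine Path.transfer (Q := fun v => ∃ γ : Equiv.Perm S, (γ : Vx S) = v ∧ Ok F P hP γ)
          (fun y hy => ok_edge hP _ fun x => fix_letters ?_ y hy) hp ⟨1, rfl, ?_⟩
        · have := congrArg (fun z : G => z.1.left) (hg' x)
          simp only [Subgroup.coe_mul, hι, SemidirectProduct.mul_left, map_one, mul_one,
            one_mul] at this
          exact this.symm
        · have := ok_lam (F := F) P hP 1
          rwa [map_one] at this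
      obtain ⟨γ, h2, h3⟩ := h1
      rw [hv] at h2
      obtain ⟨ψ, hψ, h4⟩ := h3.coset h2
      have : φ = ψ := by
        ext x
        obtain ⟨h, hx⟩ := h4 x
        have h5 := congrArg (fun z : G => z.1.right) (hg' x)
        simp only [Subgroup.coe_mul, hι, SemidirectProduct.mul_right] at h5
        rw [mul_assoc, ← h5, inv_mul_cancel_left] at hx
        exact (congrArg Subtype.val (lam_inj hx)).symm
      rw [this]
      exact hψ
  · intro H hH
    obtain ⟨g, hg⟩ := finite_conj H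
    refine ⟨g, fun h hh => ?_⟩
    have h1 := hg h hh
    have h2 := path_toWord (g * h * g⁻¹).2
    rw [h1, toWord_one, hv] at h2
    obtain ⟨s, hs⟩ := QuotientGroup.eq.mp h2
    refine ⟨s, Subtype.ext ?_⟩
    rw [hι]
    ext : 1
    · exact h1.symm
    · simpa using hs
  · let π : G →* Equiv.Perm S := SemidirectProduct.rightHom.comp G.subtype
    refine ⟨π.ker, inferInstance, ?_, ?_⟩
    · let j : π.ker →* FreeGroup (Ed F) := MonoidHom.mk' (fun x => x.1.1.left) (by
        intro a b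
        have ha : a.1.1.right = 1 := a.2
        simp only [Subgroup.coe_mul, SemidirectProduct.mul_left, ha, map_one]
        rfl)
      have hj : Function.Injective j := by
        intro a b h
        have ha : a.1.1.right = 1 := a.2
        have hb : b.1.1.right = 1 := b.2
        apply Subtype.ext
        apply Subtype.ext
        ext : 1
        · exact h
        · rw [ha, hb]
      exact IsFreeGroup.ofMulEquiv (MonoidHom.ofInjective hj).symm
    · rw [Subgroup.index_ker, ← Nat.card_perm]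
      exact Subgroup.card_subgroup_dvd_card _

end Cfsg.Agent.S5286
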