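import Cfsg.Statements.S5291
import Cfsg.Agent.Fus.Cent

set_option autoImplicit false
open Cfsg

namespace Cfsg.Agent.S5291
open CF.Fus Cfsg.FusionSystem

/-- Let F be a saturated fusion system over a finite p-group S and E a weakly normal subsystem of F over a subgroup T. Suppose a subgroup R of T is normal in E (E = N_E(R)), and let R* be the subgroup of T generated by the images of R under all maps of F with source R. Then R* is normal in F (F = N_F(R*)). -/
theorem result {Ω : Type*} [Group Ω] {S : Subgroup Ω} [Finite S] (p : ℕ) [Fact p.Prime] (hS : IsPGroup p S)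
    (F : Cfsg.FusionSystem S) (hF : F.IsSaturated p)
    {T : Subgroup Ω} (E : Cfsg.FusionSystem T) (hE : E.IsWeaklyNormalIn F p)
    (R : Subgroup Ω) (hR : E.IsNormal R) :
    F.IsNormal (Subgroup.closure {x : Ω | ∃ φ ∈ F.Hom R, ∃ r : R, x = φ r}) := by
  have h1 := Sat.mk' hS hF
  have h2 := h1.normal_core_of_inv (h1.wnrm hE).toInv
  have h3 : Subgroup.closure {x : Ω | ∃ φ ∈ F.Hom R, ∃ r : R, x = φ r} ≤ E.core := by
    rw [Subgroup.closure_le]
    rintro _ ⟨φ, hφ, r, rfl⟩
    rw [← ext_coe φ]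
    exact sc_maps (sc_of_normal h2) (mor_ext hφ) r.2 (le_core hR r.2)
  haveI := h1.finite (h3.trans h2.1)
  refine normal_of_inv h2 h3 fun α hα => mem_stab_of_maps h3 (img_le_iff.1 ?_)
  rw [((mulOn_fn α).mono h3).img_closure, Subgroup.closure_le]
  rintro _ ⟨_, ⟨φ, hφ, r, rfl⟩, rfl⟩
  have := (mor_ext hφ).comp (mor_fn h2.1 hα) fun x hx =>
    sc_maps (sc_of_normal h2) (mor_ext hφ) hx (le_core hR hx)
  exact Subgroup.subset_closure ⟨_, this.hom_mem', r, by simp⟩

end Cfsg.Agent.S5291
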