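import Cfsg.Statements.S5292
import Cfsg.Agent.Fus.Real

set_option autoImplicit false
universe u
open Cfsg

namespace Cfsg.Agent.S5292
open CF.Fus Cfsg.FusionSystem

/-- Let F be a saturated fusion system over a finite p-group S. Then F is the fusion system of some finite p-solvable group on a Sylow p-subgroup if and only if F is constrained (some subgroup normal in F is centric in F) and the group of automorphisms that F induces on its largest normal subgroup O_p(F) is p-solvable. -/
theorem result {Ω : Type u} [Group Ω] {S : Subgroup Ω} [Finite S] (p : ℕ) [Fact p.Prime] (hS : IsPGroup p S)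
    (F : Cfsg.FusionSystem S) (hF : F.IsSaturated p) :
    (∃ (G : Type u) (_ : Group G) (_ : Finite G) (ι : S →* G), Cfsg.IsPSolvable p G ∧ F.IsRealizedBy ι ∧
        ∃ T : Sylow p G, (T : Subgroup G) = ι.range) ↔
      (F.IsConstrained p ∧ Cfsg.IsPSolvable p ↥(F.autGroup F.core)) := by
  have hF' := Sat.mk' hS hF
  constructor
  · rintro ⟨G, _, _, ι, h1, h2, h3⟩
    have e := (img_ext ι).symm
    have h4 := ((realized_iff ι (fun x => (ext_coe ι x).symm) rfl).1 h2).toReal (sylIn_top_iff.2 h3)
    have h5 := CF.Solv.isPSolvable_quotient h1 (Cfsg.pPrimeCore p G)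
    have h6 := (h4.quot (Cfsg.pPrimeCore p G) CF.Solv.pPrimeCore_coprime).model (by
      rw [OpIn_top, CS_top]
      exact CF.Solv.centralizer_pCore_le_of_isPSolvable h5 CF.Solv.pPrimeCore_quotient_pPrimeCore)
    have hn := hF'.nc_core h6.constrained
    obtain ⟨π, h7, -⟩ := (h6.qmod hn).exists_hom_aut hn
    exact ⟨h6.constrained, CF.Solv.isPSolvable_of_surjective h5 h7⟩
  · rintro ⟨h1, h2⟩
    obtain ⟨G, _, t, h⟩ := hF'.exists_model h1
    haveI := h.fin
    have hn := hF'.nc_core h1
    obtain ⟨π, h7, h8, -⟩ := (h.qmod hn).exists_hom_aut hn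
    refine ⟨G, _, ‹_›, _, CF.Solv.isPSolvable_of_normal_of_quotient π.ker ?_ ?_, h.isModel.2.1, h.isModel.2.2.1⟩
    · haveI := (h.syl.pg.to_le (h8.le.trans (img_mono CS_le))).isNilpotent
      exact CF.Solv.isPSolvable_of_isSolvable p
    · haveI := hF'.finite hn.le
      exact CF.Solv.isPSolvable_of_injective h2 (QuotientGroup.kerLift_injective π)

end Cfsg.Agent.S5292
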