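import Cfsg.Statements.S5297
import Cfsg.Agent.Fus.Ctl

set_option autoImplicit false
universe u
open Cfsg

namespace Cfsg.Agent.S5297
open CF.Fus Cfsg.FusionSystem

/-- Let F be a saturated fusion system over a finite p-group S. If every map of F between cyclic subgroups of the hyperfocal subgroup of F of order p or 4 is a map of the normalizer system of S (it extends to a map of F defined on all of S), then S is normal in F. -/
theorem result {Ω : Type u} [Group Ω] {S : Subgroup Ω} [Finite S] (p : ℕ) [Fact p.Prime] (hS : IsPGroup p S)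
    (F : Cfsg.FusionSystem S) (hF : F.IsSaturated p)
    (h : ∀ A B : Subgroup Ω, A ≤ (F.hyperfocalSubgroup p) → B ≤ (F.hyperfocalSubgroup p) → IsCyclic ↥A → (Nat.card ↥A = p ∨ Nat.card ↥A = 4) → IsCyclic ↥B → (Nat.card ↥B = p ∨ Nat.card ↥B = 4) →
      F.homSet A B ⊆ F.normalizerHom S A) :
    F.IsNormal S := by
  have hF' := Sat.mk' hS hF
  refine hF'.normal_top_of_small fun x h1 h2 y h3 => ?_
  rcases hF'.small_cyclic h h1 h2 h3 with ⟨rfl, rfl⟩ | ⟨φ, a, rfl⟩
  · exact ⟨id, mor_id F le_rfl, rfl⟩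
  · obtain ⟨-, g, b1, b2, -⟩ := (mem_normalizerHom φ fun z => (ext_of_mem φ z.2).symm).1 a
    exact ⟨g, b1.mono le_sup_right, by rw [b2 x (Subgroup.mem_zpowers x), ext_of_mem]⟩

end Cfsg.Agent.S5297
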