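import Cfsg.Statements.S5301
import Cfsg.Agent.Fus.Alperin

set_option autoImplicit false
universe u
open Cfsg

namespace Cfsg.Agent.S5301
open CF.Fus Cfsg.FusionSystem

/-- Let F be a saturated fusion system over a finite p-group S. If for every subgroup P of S that is fully normalized, centric and radical in F the automorphism group that F induces on P has a normal Sylow p-subgroup, then S is normal in F. -/
theorem result {Ω : Type u} [Group Ω] {S : Subgroup Ω} [Finite S] (p : ℕ) [Fact p.Prime] (hS : IsPGroup p S)
    (F : Cfsg.FusionSystem S) (hF : F.IsSaturated p)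
    (hcl : ∀ P : Subgroup Ω, F.IsFullyNormalized P → F.IsCentric P → F.IsRadical p P →
      ∃ R : Sylow p ↥(F.autGroup P), (R : Subgroup ↥(F.autGroup P)).Normal) :
    F.IsNormal S := by
  have hF' := Sat.mk' hS hF
  refine hF'.normal_top_of_no_ess fun P hP => ?_
  haveI := hF'.finite hP.1.1
  obtain ⟨R, hR⟩ := hcl P hP.2.1 hP.1 (hF'.ess_radical hP)
  have h1 := sylIn_map_subtype R
  have h2 : (R : Subgroup _).map (F.autGroup P).subtype ≤ OpIn p (F.autGroup P) :=
    Subgroup.map_mono (CF.Solv.le_pCore R.isPGroup')
  have h3 := (hF'.syl_of_fn hP.2.1).card_eq h1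
  have h4 := Subgroup.card_le_of_le h2
  rw [(radical_iff.1 (hF'.ess_radical hP)).2] at h4
  have := card_lt_of_lt (hF'.ess_Gam hP).1
  omega

end Cfsg.Agent.S5301
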