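import Cfsg.Statements.S5310
import Cfsg.Agent.Fus.Comp

set_option autoImplicit false
open Cfsg

namespace Cfsg.Agent.S5310
open CF.Fus Cfsg.FusionSystem

/-- A saturated fusion system F over a finite p-group S is constrained (its largest normal subgroup O_p(F) is centric) if and only if the inner fusion system of O_p(F) is itself a generalized Fitting subsystem of F (that is, F*(F) = O_p(F)). -/
theorem result {Ω : Type*} [Group Ω] {S : Subgroup Ω} [Finite S] (p : ℕ) [Fact p.Prime] (hS : IsPGroup p S) (F : Cfsg.FusionSystem S) (hF : F.IsSaturated p) :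
    F.IsConstrained p ↔ (Cfsg.innerFusionSystem F.core).IsGeneralizedFittingOf F p := by
  have hF' : Sat F p := ⟨‹_›, hS, hF⟩
  rw [hF'.gf_iff, hF'.constrained_iff_cmp]
  refine ⟨fun h => ?_, fun h U C c => ?_⟩
  · obtain ⟨T, E, a⟩ := hF'.exists_lay
    obtain ⟨D, b⟩ := a.exists_gf
    have e := (a.eq_bot h).le
    refine ⟨T, E, a, b.congr (hom_eq_of_sub (b.min (cz_inner le_rfl (e.trans bot_le)) ?_) (inner_sub D b.le1))⟩
    refine ⟨fun x hx => mem_CS.2 ⟨hx, fun y hy => by simp [Subgroup.mem_bot.1 (e hy)]⟩, fun P f hf => ?_⟩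
    have c := hf.le.trans e
    exact (CMor.of_ext (mor_id _ le_rfl) (c.trans bot_le) le_rfl (c.trans bot_le) fun _ _ => rfl).congr fun x hx => by
      rw [Subgroup.mem_bot.1 (c hx), hf.mul.map_one, id]
  · haveI := hF'.finite (core_le F)
    exact c.qs.not_sub_inner (hF'.pgroup (core_le F)) (h.cmp_nrm c).sub

end Cfsg.Agent.S5310
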