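import Cfsg.Statements.S5315
import Cfsg.Agent.Fus.PSol

set_option autoImplicit false
open Cfsg

namespace Cfsg.Agent.S5315
open CF.Fus Cfsg.FusionSystem

/-- An analogue of Grün's lemma for fusion systems. Let F be a saturated fusion system over a finite p-group S that is perfect in the sense that its hyperfocal subgroup is all of S (F coincides with its p-residual subsystem). Then the second centre of F equals its centre: every fusion system over S/(Z(F) ∩ S) that is the factor system of F modulo its centre Z(F), read through the quotient map, has trivial centre. -/
theorem result {Ω : Type*} [Group Ω] {S : Subgroup Ω} [Finite S] (p : ℕ) [Fact p.Prime] (hS : IsPGroup p S) (F : Cfsg.FusionSystem S) (hF : F.IsSaturated p)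
    (hperf : F.hyperfocalSubgroup p = S)
    (E : Cfsg.FusionSystem (⊤ : Subgroup (↥S ⧸ (F.center).subgroupOf S)))
    (hE : F.IsFactorSystem F.center (QuotientGroup.mk' ((F.center).subgroupOf S)) E) : E.center = ⊥ := by
  have hF' := Sat.mk' hS hF
  obtain ⟨a, b⟩ := (fac_iff' _).1 hE
  exact (b.smph hF' (by rw [a]; exact sc_of_normal (normal_of_central (center_central F)))).center_eq_bot hF' a
    (le_antisymm (focal_le F) (hperf.ge.trans (hyp_le_focal F)))

end Cfsg.Agent.S5315
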