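import Cfsg.Statements.S5521
import Cfsg.Agent.Leech.M24c

set_option autoImplicit false
open Cfsg

set_option maxRecDepth 1000000

namespace Cfsg.Agent.S5521

open CF.Comp CF.Comp.Mat CF.Bt CF.Leech CF.Leech.M MulAction


/-- The Mathieu group M₂₄ in its natural action on the 24 coordinate positions of the binary Golay code has minimal base size exactly 7: every set of at most 6 positions is fixed pointwise by some non-identity element of M₂₄, while some set of 7 positions is fixed pointwise only by the identity. -/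
theorem result :
    (∀ B : Finset Cfsg.GolayPt, B.card ≤ 6 → ∃ g ∈ Cfsg.M24, g ≠ 1 ∧ ∀ b ∈ B, g b = b) ∧
    (∃ B : Finset Cfsg.GolayPt, B.card = 7 ∧ ∀ g ∈ Cfsg.M24, (∀ b ∈ B, g b = b) → g = 1) := by
  refine ⟨fun B hB => ?_, ofMask 8388671, (card_ofMask (by decide)).trans (by decide +kernel), fun g hg h =>
    aExact.eq_one hg fun L hL => h _ ((show ∀ L ∈ aC, D0.pt L.b ∈ ofMask 8388671 by decide +kernel) L hL)⟩
  obtain ⟨E, h1, hE⟩ := Finset.exists_superset_card_eq hB (by rw [card_pts]; decide)
  have h : 1 < Nat.card (fixingSubgroup M24 (E : Set GolayPt)) := by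
    by_cases h : ∃ o ∈ octads, E ⊆ o
    · rw [(card_fix6 hE).1 h]; decide
    · rw [(card_fix6 hE).2 h]; decide
  obtain ⟨g, hg, h0⟩ := ((Subgroup.nontrivial_iff_exists_ne_one _).1 (Finite.one_lt_card_iff_nontrivial.1 h))
  exact ⟨g, g.2, fun e => h0 (Subtype.ext e), fun b hb => mem_fixF.1 hg b (h1 hb)⟩

end Cfsg.Agent.S5521
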