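import Cfsg.Statements.S5528
import Cfsg.Agent.Mon.Cert
import Cfsg.Agent.Mon.Deg2

set_option autoImplicit false
open Cfsg

namespace Cfsg.Agent.S5528

/-- Every faithful complex matrix representation of the Monster (the finitely presented group of the definitions) has degree at least 196883: an injective homomorphism from the Monster into GL_n(ℂ) forces n ≥ 196883. -/
theorem result (n : ℕ) (ρ : Cfsg.Spor.Monster →* GL (Fin n) ℂ) (hρ : Function.Injective ρ) : 196883 ≤ n := by
  exact let ⟨_, _, h⟩ := CF.Mon.certs.outM; CF.Mon.Dg.mindeg_GL h ρ hρ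

end Cfsg.Agent.S5528
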