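import Cfsg.Statements.S5529
import Cfsg.Agent.Leech.Pqr

set_option autoImplicit false
open Cfsg

set_option maxRecDepth 1000000

namespace Cfsg.Agent.S5529

open CF.Comp CF.Comp.Mat CF.Bt CF.Leech CF.Leech.M

theorem pr {p : ℕ} (hp : p.Prime) (h : p ∣ 10200960) : p ∈ [2, 3, 5, 7, 11, 23] := by
  rw [show 10200960 = [2, 2, 2, 2, 2, 2, 2, 3, 3, 5, 7, 11, 23].prod by decide] at h
  have := mem_list_primes_of_dvd_prod hp.prime (fun q hq => Nat.Prime.prime (by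
    simp only [List.mem_cons, List.not_mem_nil, or_false] at hq
    rcases hq with h | h | h | h | h | h | h | h | h | h | h | h | h <;> subst h <;> norm_num)) h
  simpa using this


/-- Generation of the Mathieu group M₂₃ (the stabiliser of a point in the Mathieu group M₂₄ acting on 24 points) by triples of prime orders. Let p ≤ q ≤ r be primes dividing |M₂₃| = 10200960 = 2⁷·3²·5·7·11·23, not both p and q equal to 2. Then M₂₃ contains elements x, y, z of orders p, q, r with xyz = 1 and ⟨x, y⟩ = M₂₃ if and only if (p, q, r) is none of: (2, 3, r) for any r, (2, 5, 5), (2, 5, 7), (3, 3, 3), (3, 3, 5), (3, 3, 7). -/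
theorem result (p q r : ℕ) (hp : p.Prime) (hq : q.Prime)
    (hr : r.Prime) (hpq : p ≤ q) (hqr : q ≤ r) (hp2 : ¬ (p = 2 ∧ q = 2))
    (hdvd : p ∣ 10200960 ∧ q ∣ 10200960 ∧ r ∣ 10200960) :
    (∃ x y z : Cfsg.Spor.M23, orderOf x = p ∧ orderOf y = q ∧ orderOf z = r ∧ x * y * z = 1 ∧
        Subgroup.closure {x, y} = ⊤) ↔
      ¬ ((p = 2 ∧ q = 3) ∨ (p = 2 ∧ q = 5 ∧ r = 5) ∨ (p = 2 ∧ q = 5 ∧ r = 7) ∨ (p = 3 ∧ q = 3 ∧ r ≤ 7)) := by
  refine ⟨fun ⟨x, y, z, a, b, c, d, e⟩ h => ?_, fun h => ?_⟩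
  · have h0 := ree23 d e
    obtain ⟨f, f1, f2, f3⟩ := cyc23 hp a
    obtain ⟨g, g1, g2, g3⟩ := cyc23 hq b
    obtain ⟨k, k1, -, k3⟩ := cyc23 hr c
    have h1 : cyc GolayPt z ≠ 0 := fun t => by
      rw [t] at k1; have := Nat.le_mul_of_pos_left k hr.pos; omega
    have h2 := pr hr hdvd.2.2
    simp only [List.mem_cons, List.not_mem_nil, or_false] at h2
    rcases h with ⟨rfl, rfl⟩ | ⟨rfl, rfl, rfl⟩ | ⟨rfl, rfl, rfl⟩ | ⟨rfl, rfl, h⟩
    · omega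
    · omega
    · omega
    · rcases h2 with rfl | rfl | rfl | rfl | rfl | rfl <;> omega
  · have h1 : ∀ p ∈ [2, 3, 5, 7, 11, 23], ∀ q ∈ [2, 3, 5, 7, 11, 23], ∀ r ∈ [2, 3, 5, 7, 11, 23], p ≤ q → q ≤ r →
        (p = 2 ∧ q = 2) ∨ ((p = 2 ∧ q = 3) ∨ (p = 2 ∧ q = 5 ∧ r = 5) ∨ (p = 2 ∧ q = 5 ∧ r = 7) ∨
          (p = 3 ∧ q = 3 ∧ r ≤ 7)) ∨ (p, q, r) ∈ gs.map fun d => (d.p, d.q, d.r) := by decide +kernel
    obtain ⟨d, a, e⟩ := List.mem_map.1 (((h1 p (pr hp hdvd.1) q (pr hq hdvd.2.1) r (pr hr hdvd.2.2) hpq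
      hqr).resolve_left hp2).resolve_left h)
    obtain ⟨rfl, rfl, rfl⟩ : d.p = p ∧ d.q = q ∧ d.r = r := by simpa using e
    exact GD.sound (lall_iff.1 gs_ok d a) hp hq hr

end Cfsg.Agent.S5529
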