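import Cfsg.Statements.S5560
import Cfsg.Agent.Invol.ZStarApp
import Cfsg.Agent.Fgs1.Camina
-- import your own Cfsg.Agent.* helpers here

set_option autoImplicit false
open Cfsg

namespace Cfsg.Agent.S5560

open scoped commutatorElement


/-- A Z*-type result for an odd prime p. Let G be a finite group and d an involution of G such that the product of any two conjugates of d has order a power of p. Then the product of any two conjugates of d lies in the largest normal p-subgroup O_p(G); in other words the conjugacy class of d lies in the coset O_p(G)d, and d is central modulo O_p(G). -/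
theorem result {G : Type*} [Group G] [Finite G] {p : ℕ} (hp : p.Prime) (hp2 : p ≠ 2)
    (d : G) (hd : orderOf d = 2)
    (hprod : ∀ a ∈ conjugatesOf d, ∀ b ∈ conjugatesOf d, ∃ k : ℕ, orderOf (a * b) = p ^ k) :
    ∀ a ∈ conjugatesOf d, ∀ b ∈ conjugatesOf d, a * b ∈ Cfsg.pCore p G := by
  have hpF : Fact p.Prime := ⟨hp⟩
  have hodd : ∀ a ∈ conjugatesOf d, ∀ b ∈ conjugatesOf d, Odd (orderOf (a * b)) := by
    intro a ha b hb
    obtain ⟨k, hk⟩ := hprod a ha b hb
    rw [hk]; exact (hp.odd_of_ne_two hp2).pow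
  have hz : IsIsolatedInvolution d := (CF.Invol.isolated_iff_odd hd).2 fun g =>
    hodd d (IsConj.refl d) _ (isConj_iff.2 ⟨g, rfl⟩)
  have hidx : ∃ k, (Subgroup.centralizer ({d} : Set G)).index = p ^ k := by
    refine ⟨_, (Nat.eq_prime_pow_of_unique_prime_dvd Subgroup.index_ne_zero_of_finite fun {q} hq hqd => ?_)⟩
    by_contra hne
    have hqF : Fact q.Prime := ⟨hq⟩
    have hq2 : q ≠ 2 := by
      rintro rfl
      exact (Nat.not_even_iff_odd.2 (CF.Invol.isolated_odd_index hz)) (even_iff_two_dvd.2 hqd)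
    obtain ⟨P, hP, hn⟩ := CF.Invol.isolated_exists_invariant_sylow hz hq2
    have hle : P ≤ Subgroup.centralizer ({d} : Set G) := by
      intro x hx
      have h1 : d * (x * d * x⁻¹) ∈ P := by
        have := P.mul_mem ((Subgroup.mem_normalizer_iff.1 hn x).1 hx) (P.inv_mem hx)
        rwa [CF.Invol.inv_eq_of_orderOf hd, show d * x * d * x⁻¹ = d * (x * d * x⁻¹) by group] at this
      obtain ⟨k, hk⟩ := hprod d (IsConj.refl d) _ (isConj_iff.2 ⟨x, rfl⟩)
      obtain ⟨j, hj⟩ := (IsPGroup.iff_orderOf.1 hP.isPGroup) ⟨_, h1⟩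
      rw [← Subgroup.orderOf_coe] at hj
      have h2 : orderOf (d * (x * d * x⁻¹)) = 1 :=
        Nat.eq_one_of_dvd_coprimes (Nat.coprime_pow_primes k j hp hq (Ne.symm hne)) hk.dvd hj.dvd
      rw [orderOf_eq_one_iff, mul_eq_one_iff_inv_eq, CF.Invol.inv_eq_of_orderOf hd] at h2
      exact Subgroup.mem_centralizer_singleton_iff.2 (mul_inv_eq_iff_eq_mul.1 h2.symm)
    have := hP.not_dvd
    rw [Subgroup.relIndex_top_right] at this
    exact this (hqd.trans (Subgroup.index_dvd_of_le hle))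
  obtain ⟨k, hk⟩ := hidx
  rintro a ha b hb
  obtain ⟨g, rfl⟩ := isConj_iff.1 ha
  obtain ⟨h, rfl⟩ := isConj_iff.1 hb
  have h1 := CF.Fgs1.commutator_conj_mem_pCore hk g h
  have i1 : ∀ g : G, (g * d * g⁻¹)⁻¹ = g * d * g⁻¹ := fun g => by
    rw [conj_inv, CF.Invol.inv_eq_of_orderOf hd]
  rw [i1, i1, mul_assoc _ (g * d * g⁻¹), ← sq] at h1
  obtain ⟨m, hm⟩ := hodd _ ha _ hb
  have h2 := (Cfsg.pCore p G).pow_mem h1 (m + 1)
  rwa [← pow_mul, show 2 * (m + 1) = orderOf (g * d * g⁻¹ * (h * d * h⁻¹)) + 1 by omega, pow_succ,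
    pow_orderOf_eq_one, one_mul] at h2

end Cfsg.Agent.S5560
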