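import Cfsg.Statements.S5562
import Cfsg.Agent.Invol.Isolated
-- import your own Cfsg.Agent.* helpers here

set_option autoImplicit false
open Cfsg

namespace Cfsg.Agent.S5562

open scoped commutatorElement


/-- Let G be a finite group, d an involution of G whose conjugates pairwise have products of odd order, and x any involution of G. Then the conjugacy class of d is the disjoint union, over the conjugates a of d commuting with x, of the sets of conjugates of d commuting with ax: every conjugate of d commutes with ax for exactly one conjugate a of d that commutes with x. -/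
theorem result {G : Type*} [Group G] [Finite G] (d : G) (hd : orderOf d = 2)
    (hodd : ∀ a ∈ conjugatesOf d, ∀ b ∈ conjugatesOf d, Odd (orderOf (a * b)))
    (x : G) (hx : orderOf x = 2) :
    ∀ e ∈ conjugatesOf d,
      ∃! a : G, a ∈ conjugatesOf d ∧ Commute a x ∧ Commute e (a * x) := by
  have hz : IsIsolatedInvolution d := (CF.Invol.isolated_iff_odd hd).2 fun g =>
    hodd d (IsConj.refl d) _ (isConj_iff.2 ⟨g, rfl⟩)
  have hs2 := CF.Invol.mul_self_of_orderOf hx
  intro t ht
  have ht' := CF.Invol.isolated_of_isConj hz ht
  have ht2 := CF.Invol.mul_self_of_orderOf ht'.1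
  refine existsUnique_of_exists_of_unique ?_ ?_
  · by_cases he : Even (orderOf (t * x))
    · have h4 := CF.Invol.isolated_not_four_dvd ht' hs2
      have h5 : orderOf (t * x) % 4 = 2 := by
        obtain ⟨k, hk⟩ := he
        omega
      have c1 : Commute (x * (t * x) ^ (orderOf (t * x) / 2)) x := (Commute.refl x).mul_left
        (CF.Invol.commute_pow_half_of_inverts (CF.Invol.right_inverts_mul ht2 hs2) he)
      refine ⟨_, IsConj.trans ht (CF.Invol.isConj_mul_pow_half ht2 hs2 h5), c1, ?_⟩
      rw [c1.eq, ← mul_assoc, hs2, one_mul]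
      exact (CF.Invol.commute_pow_half_of_inverts (CF.Invol.left_inverts_mul ht2 hs2) he).symm
    · have h1 := IsConj.trans ht (CF.Invol.isConj_of_odd ht2 hs2 (Nat.not_even_iff_odd.mp he))
      exact ⟨x, h1, Commute.refl x, by simp [hs2]⟩
  · rintro a b ⟨a1, a2, a3⟩ ⟨b1, b2, b3⟩
    refine CF.Invol.isolated_eq_of_mul_commute hz a1 b1 ht ?_
    have h3 := a3.mul_right b3.inv_right
    rw [mul_inv_rev, mul_assoc, mul_inv_cancel_left,
      CF.Invol.inv_eq_of_orderOf (CF.Invol.isolated_of_isConj hz b1).1] at h3
    exact h3.symm

end Cfsg.Agent.S5562
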