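import Cfsg.Statements.S5604
import Cfsg.Agent.Leech.MCls
import Cfsg.Agent.Leech.MCls2
import Cfsg.Agent.Bt.Blk.Abs

set_option autoImplicit false
open scoped Pointwise
open Cfsg

set_option maxRecDepth 1000000

namespace Cfsg.Agent.S5604

/-- For a subgroup S of order 7 of the group of the length-24 code (a Sylow 7-subgroup): the normaliser of S has order 126, the centraliser of S has order 42 and is non-abelian, and the whole normaliser leaves some trio invariant. (These are the orders of a Frobenius group of order 21 times a symmetric group of degree 3; the isomorphism type itself is not asserted here.) -/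
theorem result (S : Subgroup ↥Cfsg.M24) (hS : Nat.card S = 7) : Nat.card ↥(Subgroup.normalizer (S : Set ↥Cfsg.M24)) = 126 ∧ Nat.card ↥(Subgroup.centralizer (S : Set ↥Cfsg.M24)) = 42 ∧ (∃ x ∈ Subgroup.centralizer (S : Set ↥Cfsg.M24), ∃ y ∈ Subgroup.centralizer (S : Set ↥Cfsg.M24), x * y ≠ y * x) ∧ ∃ T ∈ Cfsg.trios, ∀ n ∈ Subgroup.normalizer (S : Set ↥Cfsg.M24), ((n : ↥Cfsg.M24) : Equiv.Perm Cfsg.GolayPt) • T = T := by
  open CF.Comp CF.Comp.Mat CF.Bt CF.Leech CF.Leech.M MulAction in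
  have := Fact.mk (show Nat.Prime 7 by norm_num)
  have o := ord_m this.out oe7
  obtain ⟨k, hk⟩ := exists_smul_eq M24 (Sylow.ofCard (p := 7) S (by rw [hS, card_M24]; decide +kernel))
    (Sylow.ofCard (Subgroup.zpowers (ev m e7)) (by rw [Nat.card_zpowers, o, card_M24]; decide +kernel))
  have c := cj_smul k S
  rw [show MulAut.conj k • S = Subgroup.zpowers (ev m e7) from congrArg Sylow.toSubgroup hk] at c
  have hN : Exact D0 a2 m [⟨0, [[2, 2, 2, 3, 3, 1, 4, 4, 4, 1, 4, 1, 4, 1], [1, 3, 1, 4, 1, 4, 1, 3, 2, 4, 1, 3, 1, 1, 1]], 4⟩, ⟨1, [[2, 3, 2, 3, 1, 1, 3, 3, 1, 4, 1, 1, 3, 3, 3, 3, 3, 2]], 2⟩, ⟨2, [[1, 3, 3, 2, 4, 2, 3, 2, 3, 2, 3, 2, 3, 3, 1, 4, 4, 2]], 1⟩] (Subgroup.normalizer (Subgroup.zpowers (ev m e7) : Set M24)) :=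
    exact_of_ge r0 (by decide) (clo_le.1 (clo_single (f := m) e7 ▸ eqM.nrmAll (us := [[[1]], [[1, 1, 1, 1]], [[1, 1]], [[1]]]) (by decide +kernel)))
      (Blk.card_norm_le o (m := 34974720) (n := 126) card_M24 (by decide) (cen_m ke7).2.le (by decide +kernel)) (by decide +kernel)
  obtain ⟨T, hT, h2⟩ : ∃ T ∈ trios, Subgroup.normalizer (Subgroup.zpowers (ev m e7) : Set M24) ≤ stabilizer M24 T :=
    ⟨DT.pt 3149, fT.le (Dom.mem_set_full.2 ⟨_, by decide, rfl⟩),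
      hN.eq_clo.ge.trans (clo_le.2 (mem_stab rT' (by decide +kernel)))⟩
  have c2 := c.centr
  rw [cent_zpowers] at c2
  have h1 := mem_cent r0 k5 (F0 _) (ws := [[3, 1, 4, 2, 2, 3, 2, 3, 2, 3, 2, 3, 1, 3, 2, 4], [2, 3, 2, 3, 2, 3, 3, 3, 2, 4, 4, 1, 1, 1]]) (a := e7) (by decide +kernel)
  refine ⟨c.norm.card.symm.trans (Exact.card_eq hN (by decide +kernel)), c2.card.symm.trans (cen_m ke7).2,
    ⟨_, (c2.symm _).1 (h1 _ List.mem_cons_self), _, (c2.symm _).1 (h1 _ (List.mem_cons_of_mem _ List.mem_cons_self)),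
      fun e => neM (lapp [3, 1, 4, 2, 2, 3, 2, 3, 2, 3, 2, 3, 1, 3, 2, 4] [2, 3, 2, 3, 2, 3, 3, 3, 2, 4, 4, 1, 1, 1]) (lapp [2, 3, 2, 3, 2, 3, 3, 3, 2, 4, 4, 1, 1, 1] [3, 1, 4, 2, 2, 3, 2, 3, 2, 3, 2, 3, 1, 3, 2, 4]) (by decide +kernel) ?_⟩,
    k⁻¹ • T, (trio_iff _).2 hT, fun g hg => smul_inv_of_conj (h2 ((c.norm g).1 hg))⟩
  rw [ev_lapp, ev_lapp]; exact (MulAut.conj k⁻¹).injective (by rw [map_mul, map_mul]; exact e)

end Cfsg.Agent.S5604
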