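import Cfsg.Statements.S5712
import Cfsg.Agent.Classical.RegGenH
import Cfsg.Agent.Classical.LowDim4
import Cfsg.Agent.Solv.Cores

set_option autoImplicit false
open Cfsg

namespace Cfsg.Agent.S5712

/-- Let F be a finite field of characteristic two, n ≥ 2, V = F^{2n} with the non-degenerate alternating form f(u, v) = Σ (u_i v_{n+i} + u_{n+i} v_i), and G the group of invertible matrices preserving f. Let a ≠ 0 be a vector, H its stabilizer in G, and X a subgroup of O₂(H) of order |F|^{2n−2} no element of which is a transvection (no element g has g − 1 of rank one). If L is a subgroup of G containing X that acts irreducibly on V (no proper non-zero L-invariant subspace), then L = G, or, for some quadratic form Q on V whose polar form is f, L is the isometry group of Q or its subgroup of the isometries g for which g − 1 has even rank, or |F| = 2, n = 2 and L is isomorphic to the alternating group of degree 6 or to the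 symmetric group of degree 5. -/
theorem result {F : Type*} [Field F] [Fintype F] [CharP F 2] {n : ℕ} (hn : 2 ≤ n) (a : (Fin n ⊕ Fin n → F)) (ha : a ≠ 0)
    (X : Subgroup (GL (Fin n ⊕ Fin n) F)) (hXG : X ≤ Cfsg.preserving (Units.coeHom (Matrix (Fin n ⊕ Fin n) (Fin n ⊕ Fin n) F)) (fun u v : (Fin n ⊕ Fin n → F) => ∑ i : Fin n, (u (Sum.inl i) * v (Sum.inr i) + u (Sum.inr i) * v (Sum.inl i))))
    (hXO : ∀ H : Subgroup (GL (Fin n ⊕ Fin n) F),
      (∀ g : GL (Fin n ⊕ Fin n) F, g ∈ H ↔ (g ∈ Cfsg.preserving (Units.coeHom (Matrix (Fin n ⊕ Fin n) (Fin n ⊕ Fin n) F)) (fun u v : (Fin n ⊕ Fin n → F) => ∑ i : Fin n, (u (Sum.inl i) * v (Sum.inr i) + u (Sum.inr i) * v (Sum.inl i))) ∧ Matrix.mulVec (g : Matrix (Fin n ⊕ Fin n) (Fin n ⊕ Fin n) F) a = a)) →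
      X ≤ (Cfsg.pCore 2 ↥H).map H.subtype)
    (hcard : Nat.card ↥X = Fintype.card F ^ (2 * n - 2))
    (hntv : ∀ x ∈ X, ((x : Matrix (Fin n ⊕ Fin n) (Fin n ⊕ Fin n) F) - 1).rank ≠ 1)
    (L : Subgroup (GL (Fin n ⊕ Fin n) F)) (hXL : X ≤ L) (hLG : L ≤ Cfsg.preserving (Units.coeHom (Matrix (Fin n ⊕ Fin n) (Fin n ⊕ Fin n) F)) (fun u v : (Fin n ⊕ Fin n → F) => ∑ i : Fin n, (u (Sum.inl i) * v (Sum.inr i) + u (Sum.inr i) * v (Sum.inl i))))
    (hirr : ∀ W : Submodule F (Fin n ⊕ Fin n → F), (∀ g ∈ L, ∀ w ∈ W, Matrix.mulVec (g : Matrix (Fin n ⊕ Fin n) (Fin n ⊕ Fin n) F) w ∈ W) → W = ⊥ ∨ W = ⊤) :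
    L = Cfsg.preserving (Units.coeHom (Matrix (Fin n ⊕ Fin n) (Fin n ⊕ Fin n) F)) (fun u v : (Fin n ⊕ Fin n → F) => ∑ i : Fin n, (u (Sum.inl i) * v (Sum.inr i) + u (Sum.inr i) * v (Sum.inl i))) ∨
    (∃ Q : QuadraticForm F (Fin n ⊕ Fin n → F), (∀ u v, QuadraticMap.polar ⇑Q u v = (fun u v : (Fin n ⊕ Fin n → F) => ∑ i : Fin n, (u (Sum.inl i) * v (Sum.inr i) + u (Sum.inr i) * v (Sum.inl i))) u v) ∧
      (L = Cfsg.isometryGroup F ⇑Q ∨
        ∀ g : GL (Fin n ⊕ Fin n) F, g ∈ L ↔ (g ∈ Cfsg.isometryGroup F ⇑Q ∧ Even ((g : Matrix (Fin n ⊕ Fin n) (Fin n ⊕ Fin n) F) - 1).rank))) ∨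
    (Fintype.card F = 2 ∧ n = 2 ∧ (Nonempty (↥L ≃* ↥(alternatingGroup (Fin 6))) ∨ Nonempty (↥L ≃* Equiv.Perm (Fin 5)))) := by
  open CF.Classical CF.Geom CF.Cls Module in
  have h2 : (2 : F) = 0 := CharTwo.two_eq_zero
  have hf : (fun u v : (Fin n ⊕ Fin n → F) => ∑ i : Fin n, (u (Sum.inl i) * v (Sum.inr i) +
      u (Sum.inr i) * v (Sum.inl i))) = fun u v => sympBilin n F u v := by
    ext u v
    rw [sympBilin_apply, sympForm_eq_sum]
    exact Finset.sum_congr rfl fun i _ => by linear_combination u (.inl i) * v (.inr i) * h2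
  rw [hf] at hXG hXO hLG ⊢
  set B := sympBilin n F
  set G := Cfsg.preserving (Units.coeHom (Matrix (Fin n ⊕ Fin n) (Fin n ⊕ Fin n) F))
    fun u v => B u v
  let φ := glEquiv (Fin n ⊕ Fin n) F
  have hd : finrank F (Fin n ⊕ Fin n → F) = 2 * n := by simp [two_mul]
  have hG : ∀ g, g ∈ G ↔ φ g ∈ UG B := fun g => ⟨fun h => ⟨h, fun v => h v v⟩, fun h => h.1⟩
  have mm : ∀ (K : Subgroup (GL (Fin n ⊕ Fin n) F)) g, φ g ∈ K.map φ.toMonoidHom ↔ g ∈ K :=
    fun K g => Subgroup.mem_map_iff_mem φ.injective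
  have h : SpTwo B (L.map φ.toMonoidHom) := ⟨sympBilin_nondegenerate n, sympBilin_isAlt n, h2,
    by rintro _ ⟨g, hg, rfl⟩; exact (hG g).1 (hLG hg),
    fun W hW => hirr W fun g hg => hW _ ((mm L g).2 hg)⟩
  let H := G ⊓ (MulAction.stabilizer _ a).comap φ.toMonoidHom
  have h3 := h.le_rad (P := ((Cfsg.pCore 2 H).map H.subtype).map φ.toMonoidHom)
    ((CF.Solv.pCore_isPGroup.map _).map _) ha
    (by rintro _ ⟨_, ⟨x, -, rfl⟩, rfl⟩; exact ⟨(hG _).1 x.2.1, x.2.2⟩) (by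
      rintro g hg hga _ ⟨_, ⟨x, hx, rfl⟩, rfl⟩
      obtain ⟨g, rfl⟩ := φ.surjective g
      exact ⟨_, ⟨_, Subgroup.Normal.conj_mem' inferInstance x hx ⟨g, (hG g).2 hg, hga⟩, rfl⟩,
        by simp⟩)
  have h4 := h.fu_of_card ha ((Subgroup.map_mono (hXO H fun g => Iff.rfl)).trans h3)
    (Subgroup.map_mono hXL) (by
      rw [Subgroup.card_map_of_injective φ.injective, hcard, hd, Nat.card_eq_fintype_card]) (by
      rintro c hc ⟨x, hx, e⟩
      refine hntv x hx ?_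
      rw [← (finrank_RU_toLin (t := φ x) fun _ => rfl).2, ← finrank_span_singleton (K := F) ha]
      refine congrArg (fun W : Submodule F _ => finrank F W) (le_antisymm ?_ ?_)
      · rintro _ ⟨y, rfl⟩
        exact Submodule.mem_span_singleton.2 ⟨c * B a y, by simp [show φ x = _ from e, h.tapp]⟩
      · obtain ⟨f, hf⟩ := h.hE.exists_HH ha (h.z a)
        exact (Submodule.span_singleton_le_iff_mem _ _).2
          ⟨c⁻¹ • f, by simp [show φ x = _ from e, h.tapp, hf.hef, hc]⟩)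
  by_cases hN : UG B ≤ L.map φ.toMonoidHom
  · exact Or.inl (le_antisymm hLG fun g hg => (mm L g).1 (hN ((hG g).1 hg)))
  by_cases hX : SpExc B (L.map φ.toMonoidHom)
  · obtain rfl : n = 2 := by_contra fun e => h.not_exc hN (by omega) hX
    refine Or.inr (Or.inr ⟨by rw [← Nat.card_eq_fintype_card, hX.1], rfl, ?_⟩)
    obtain ⟨ε⟩ := Sp_four_two_equiv hX.1
    have ε' : UG B ≃* Equiv.Perm (Fin 6) :=
      (MulEquiv.subgroupCongr (ug_eq_spG h.hA)).trans ((spEquiv 2 F).symm.trans ε)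
    have e : L ≃* ((L.map φ.toMonoidHom).subgroupOf (UG B)).map ε'.toMonoidHom :=
      (φ.subgroupMap L).trans ((Subgroup.subgroupOfEquivOfLe h.le).symm.trans (ε'.subgroupMap _))
    refine (large_sub_perm_six (H := ((L.map φ.toMonoidHom).subgroupOf (UG B)).map ε'.toMonoidHom)
      ?_ fun e' => hN fun g hg => ?_).imp (·.map e.trans) (·.map e.trans)
    · rw [← Nat.card_congr e.toEquiv, ← Subgroup.card_map_of_injective (f := φ.toMonoidHom)
        φ.injective]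
      exact h.exc_card hX hd
    · exact (Subgroup.mem_map_iff_mem (f := ε'.toMonoidHom) (x := ⟨g, hg⟩) ε'.injective).1
        (e' ▸ Subgroup.mem_top _)
  obtain ⟨Q, q1, q2, q3⟩ := h.main hN hX (by omega) h4
  refine Or.inr (Or.inl ⟨Q, fun u v => by rw [← q1]; rfl, ?_⟩)
  have hO : ∀ g, g ∈ Cfsg.isometryGroup F Q ↔ φ g ∈ OG Q := fun g =>
    mem_isometryGroup.trans (mem_OG (g := φ g)).symm
  refine (eq_OG_or h2 (q1 ▸ h.hB) (by omega) q2 q3).imp (fun e => ?_) fun e g => ?_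
  · ext g
    rw [hO, ← e, mm]
  · rw [← mm, e, hO, (finrank_RU_toLin (t := φ g) fun _ => rfl).2]

end Cfsg.Agent.S5712
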