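import Cfsg.Statements.S5720
import Cfsg.Agent.Dv.G3
import Cfsg.Agent.Dv.C

set_option autoImplicit false
open Cfsg

namespace Cfsg.Agent.S5720

/-- Let H be a finite group whose soluble radical (largest soluble normal subgroup) has index greater than 120. Then for every field K and every finite-dimensional K-linear representation of H on a space V there is a non-identity element h of H whose fixed-point subspace on V has dimension at least (dim V)/6. -/
theorem result {H : Type*} [Group H] [Finite H] (hR : 120 < (Cfsg.solvableRadical H).index)
    {K V : Type*} [Field K] [AddCommGroup V] [Module K V] [FiniteDimensional K V] (ρ : Representation K H V) :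
    ∃ h : H, h ≠ 1 ∧ (Module.finrank K V : ℚ) / 6 ≤ Module.finrank K (LinearMap.ker (ρ h - 1)) := by
  by_contra hn
  push Not at hn
  have hs : CF.Dv.Small ρ := by
    intro h hh
    have h1 := hn h hh
    rw [lt_div_iff₀ (by norm_num), mul_comm] at h1
    exact_mod_cast h1
  obtain ⟨p, hp, h3, h11, hK, σ, hσ⟩ := CF.Dv.reduce hR hs
  obtain ⟨h, hh, hle⟩ := CF.Dv.core h3 h11 hK σ
  exact absurd (hσ h hh) (not_lt.2 hle)

end Cfsg.Agent.S5720
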