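import Cfsg.Statements.S5729
import Cfsg.Agent.Perm.Count

set_option autoImplicit false
open Cfsg

namespace Cfsg.Agent.S5729

/-- Let a finite group G act faithfully and transitively on a set with n ≥ 3 points. Then either G is a Frobenius permutation group (Frobenius as a permutation group: transitive, some non-identity element fixes a point, and no non-identity element fixes two points) of order n(n − 1) and exactly |G|/n of its elements are derangements (fix no point), or the number of derangements is greater than |G|/n. -/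
theorem result {G Ω : Type*} [Group G] [Finite G] [MulAction G Ω] [FaithfulSMul G Ω] [Fintype Ω] (htr : MulAction.IsPretransitive G Ω) (hn : 3 ≤ Fintype.card Ω) :
    ((MulAction.IsPretransitive G Ω ∧ (∃ g : G, g ≠ 1 ∧ ∃ ω : Ω, g • ω = ω) ∧ ∀ g : G, g ≠ 1 → Nat.card (MulAction.fixedBy Ω g) ≤ 1) ∧ Nat.card G = Fintype.card Ω * (Fintype.card Ω - 1) ∧ Fintype.card Ω * Nat.card {g : G // ∀ ω : Ω, g • ω ≠ ω} = Nat.card G) ∨
    Nat.card G < Fintype.card Ω * Nat.card {g : G // ∀ ω : Ω, g • ω ≠ ω} := by
  classical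
  have := Fintype.ofFinite G
  obtain ⟨a, b, hab⟩ := Fintype.one_lt_card_iff.1 (show 1 < Fintype.card Ω by omega)
  have : Nonempty Ω := ⟨a⟩
  set n := Fintype.card Ω
  let π : G → ℕ := fun g => Nat.card (MulAction.fixedBy Ω g)
  have h1 : ∑ g, π g = Nat.card G := CF.Perm.sum_card_fixedBy_of_trans
  have h2 : 2 * Nat.card G ≤ ∑ g, π g * π g := by
    simp only [π, ← CF.Perm.card_fixedBy_prod]
    rw [CF.Perm.sum_card_fixedBy_eq]
    refine Nat.mul_le_mul_right _ (Finite.one_lt_card_iff_nontrivial.2 ⟨Quotient.mk'' (a, a),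
      Quotient.mk'' (a, b), fun h => ?_⟩)
    obtain ⟨g, hg⟩ := Quotient.exact' h
    exact hab (MulAction.injective g ((congrArg Prod.fst hg).trans (congrArg Prod.snd hg).symm))
  have h3 : ∀ g, π g ≤ n := fun g =>
    (Nat.card_le_card_of_injective _ Subtype.val_injective).trans Nat.card_eq_fintype_card.le
  have hD : Nat.card {g : G // ∀ ω : Ω, g • ω ≠ ω} = ∑ g, if π g = 0 then 1 else 0 := by
    rw [Nat.card_eq_fintype_card, Fintype.card_subtype, Finset.card_filter]
    refine Finset.sum_congr rfl fun g _ => if_congr ?_ rfl rfl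
    simp [π, Nat.card_eq_zero, Set.eq_empty_iff_forall_notMem]
  rw [hD]
  have h4 : ∀ g, π g * π g + n ≤ (n + 1) * π g + n * if π g = 0 then 1 else 0 := fun g => by
    have := h3 g
    split_ifs with h
    · simp [h]
    · obtain ⟨k, hk⟩ := Nat.exists_eq_succ_of_ne_zero h
      rw [hk] at this ⊢
      nlinarith
  have h5 : ∑ g : G, (π g * π g + n) = ∑ g, π g * π g + n * Nat.card G := by
    rw [Finset.sum_add_distrib, Finset.sum_const, Finset.card_univ, Nat.card_eq_fintype_card,
      smul_eq_mul, mul_comm n]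
  have h6 : ∑ g : G, ((n + 1) * π g + n * if π g = 0 then 1 else 0) = (n + 1) * Nat.card G +
      n * ∑ g, if π g = 0 then 1 else 0 := by
    rw [Finset.sum_add_distrib, ← Finset.mul_sum, ← Finset.mul_sum, h1]
  have h7 := Finset.sum_le_sum fun g (_ : g ∈ Finset.univ) => h4 g
  refine (lt_or_ge _ _).symm.imp (fun h8 => ?_) id
  have h9 := (Finset.sum_eq_sum_iff_of_le fun g _ => h4 g).1 (le_antisymm h7 (by
    rw [h5, h6]; nlinarith))
  rw [h5, h6] at h7
  have hπ : π 1 = n := by simp [π, n]
  have h10 : ∀ g : G, g ≠ 1 → π g ≤ 1 := by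
    intro g hg
    by_contra h
    have h11 := h9 g (Finset.mem_univ g)
    rw [if_neg (by omega)] at h11
    have h12 : π g = n := by
      obtain ⟨k, hk⟩ := Nat.exists_eq_add_of_le (h3 g)
      have : k = 0 := by nlinarith
      omega
    have h13 : MulAction.fixedBy Ω g = Set.univ := by
      rw [Set.eq_univ_iff_ncard, ← Nat.card_coe_set_eq, Nat.card_eq_fintype_card (α := Ω)]
      exact h12
    exact hg (FaithfulSMul.eq_of_smul_eq_smul (α := Ω) fun x => by
      rw [one_smul]; exact h13.ge (Set.mem_univ x))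
  have h11 : ∑ g, (π g + if π g = 0 then 1 else 0) = ∑ g : G, (1 + if g = 1 then n - 1 else 0) := by
    refine Finset.sum_congr rfl fun g _ => ?_
    by_cases hg : g = 1
    · subst hg; rw [hπ, if_neg (by omega), if_pos rfl]; omega
    · have := h10 g hg
      rw [if_neg hg]; split_ifs <;> omega
  rw [Finset.sum_add_distrib, Finset.sum_add_distrib, h1, Finset.sum_ite_eq', Finset.sum_const,
    Finset.card_univ, ← Nat.card_eq_fintype_card] at h11
  simp only [smul_eq_mul, mul_one, Finset.mem_univ, if_true, Nat.add_left_cancel_iff] at h11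
  have h12 : n * ∑ g, (if π g = 0 then 1 else 0) = Nat.card G := by nlinarith
  refine ⟨⟨htr, ?_, h10⟩, by rw [← h12, h11], h12⟩
  have h13 := CF.Perm.card_mul_card_stabilizer (G := G) a
  rw [← h12, h11, Nat.card_eq_fintype_card, Nat.mul_right_inj (by omega)] at h13
  have : Nontrivial (MulAction.stabilizer G a) := Finite.one_lt_card_iff_nontrivial.1 (by omega)
  obtain ⟨g, hg⟩ := exists_ne (1 : MulAction.stabilizer G a)
  exact ⟨g, fun h => hg (Subtype.ext h), a, g.2⟩

end Cfsg.Agent.S5729
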