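import Cfsg.Statements.S5730
import Cfsg.Agent.Perm.Lines

set_option autoImplicit false
open Cfsg

namespace Cfsg.Agent.S5730

open MulAction CF.Perm CF.Transfer Finset

section
variable {ι : Type*} [Fintype ι] {e : ι} {f : ι → ℚ} {n : ℚ}

theorem N1 [Nontrivial ι] (h0 : ∀ i, 0 < f i) (he : f e = n) (h : ∀ i ≠ e, 3 * f i ≤ n) :
    (Fintype.card ι : ℚ) ≤ ∑ i, (n - f i) / f i := by
  classical
  have h1 := card_nsmul_le_sum (univ.erase e) (fun i => (n - f i) / f i) 2 fun i hi => by
    rw [le_div_iff₀ (h0 i)]; linarith [h i (ne_of_mem_erase hi)]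
  have h2 : (2 : ℚ) ≤ Fintype.card ι := by exact_mod_cast Fintype.one_lt_card
  rw [card_erase_of_mem (mem_univ e), nsmul_eq_mul, card_univ,
    Nat.cast_pred Fintype.card_pos] at h1
  rw [← add_sum_erase _ _ (mem_univ e), he]
  simp only [card_univ, sub_self, zero_div] at *
  linarith

theorem N2 (h0 : ∀ i, 0 < f i) (hn : 0 < n) (h : 2 * ∑ i, f i ≤ Fintype.card ι * n) :
    (Fintype.card ι : ℚ) ≤ ∑ i, (n - f i) / f i := by
  refine le_trans ?_ (sum_le_sum (f := fun i => 3 - 4 / n * f i) fun i _ => ?_)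
  · rw [sum_sub_distrib, ← mul_sum, sum_const, card_univ, nsmul_eq_mul, div_mul_eq_mul_div,
      le_sub_comm, div_le_iff₀ hn]
    linarith
  · rw [le_div_iff₀ (h0 i), ← sub_nonneg, show n - f i - (3 - 4 / n * f i) * f i =
      (n - 2 * f i) ^ 2 / n by field_simp; ring]
    positivity

theorem N3 (h0 : ∀ i, 0 < f i) (he : f e = n) (hn : 1 < n) (h : ∀ i ≠ e, 2 * f i ≤ n - 1)
    (h' : 2 * ∑ i, f i ≤ Fintype.card ι * (n + 1)) :
    (Fintype.card ι : ℚ) ≤ ∑ i, (n - f i) / f i := by
  classical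
  have h1 := card_nsmul_le_sum (univ.erase e) (fun i => n - 2 * f i) 1 fun i hi => by
    linarith [h i (ne_of_mem_erase hi)]
  have h2 := sum_le_sum (s := univ.erase e) (g := fun i => (n - f i) / f i)
    (f := fun i => 1 + 2 / (n - 1) * (n - 2 * f i)) fun i hi => by
      have h3 := h i (ne_of_mem_erase hi)
      have h4 : 0 < n - 1 := by linarith
      rw [le_div_iff₀ (h0 i), ← sub_nonneg, show n - f i - (1 + 2 / (n - 1) * (n - 2 * f i)) * f i =
        (n - 2 * f i) * (n - 1 - 2 * f i) / (n - 1) by field_simp; ring]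
      exact div_nonneg (mul_nonneg (by linarith) (by linarith)) h4.le
  have h3 : ∑ i ∈ univ.erase e, (n - 2 * f i) = Fintype.card ι * n - 2 * ∑ i, f i + n := by
    rw [sum_erase_eq_sub (mem_univ e), sum_sub_distrib, ← mul_sum, he]; simp; ring
  have : Nonempty ι := ⟨e⟩
  rw [sum_add_distrib, ← mul_sum, sum_const] at h2
  rw [card_erase_of_mem (mem_univ e), nsmul_eq_mul, card_univ,
    Nat.cast_pred Fintype.card_pos] at h1 h2
  rw [← add_sum_erase _ _ (mem_univ e), he]
  have h4 : 1 ≤ 2 / (n - 1) * ∑ i ∈ univ.erase e, (n - 2 * f i) := by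
    rw [div_mul_eq_mul_div, le_div_iff₀ (by linarith)]; linarith
  simp only [card_univ, sub_self, zero_div] at *
  linarith

end

variable {G Ω : Type*} [Group G] [Fintype G] [MulAction G Ω] [Fintype Ω]

theorem sum_fix_le {T : Finset Ω} (hT : 2 ≤ ∑ x ∈ T, (1 - 2 / (Nat.card (orbit G x) : ℚ))) :
    2 * ∑ g : G, (Nat.card (fixedBy Ω g) : ℚ) ≤
      Fintype.card G * (Fintype.card Ω + (fixedPoints G Ω).ncard - 2) := by
  classical
  have h0 : ∀ x : Ω, 0 < Nat.card (orbit G x) := fun x => Nat.card_pos_iff.2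
    ⟨⟨⟨x, mem_orbit_self x⟩⟩, inferInstance⟩
  have h1 : ∑ g : G, (Nat.card (fixedBy Ω g) : ℚ) =
      Fintype.card G * ∑ x : Ω, 1 / (Nat.card (orbit G x) : ℚ) := by
    rw [← Nat.cast_sum, sum_card_fixedBy, Nat.cast_sum, mul_sum]
    refine sum_congr rfl fun x _ => ?_
    have := h0 x
    rw [← Nat.card_eq_fintype_card, ← card_orbit_mul_card_stabilizer (G := G) x]
    push_cast; field_simp
  have h2 := sum_le_sum (s := Tᶜ) (g := fun x => 1 - 2 / (Nat.card (orbit G x) : ℚ))
    (f := fun x => - if x ∈ fixedPoints G Ω then 1 else 0) fun x _ => by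
      have h3 := h0 x
      split_ifs with h
      · have : (1 : ℚ) ≤ Nat.card (orbit G x) := by exact_mod_cast h3
        have := div_le_self zero_le_two this
        linarith
      · have : Nat.card (orbit G x) ≠ 1 := fun h' => h (mem_fixedPoints_iff_card_orbit_eq_one.2
          (by rw [← h', Nat.card_eq_fintype_card]))
        rw [neg_zero, sub_nonneg, div_le_one (by exact_mod_cast h3)]
        exact_mod_cast (by omega : 2 ≤ Nat.card (orbit G x))
  have h3 : ∑ x ∈ Tᶜ, (if x ∈ fixedPoints G Ω then (1 : ℚ) else 0) ≤ (fixedPoints G Ω).ncard := by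
    rw [sum_boole, Set.ncard_eq_toFinset_card']
    exact_mod_cast card_le_card fun x hx => by simpa using (mem_filter.1 hx).2
  have h4 := sum_add_sum_compl T fun x => 1 - 2 / (Nat.card (orbit G x) : ℚ)
  rw [sum_neg_distrib] at h2
  rw [sum_sub_distrib (s := univ), sum_const, card_univ, nsmul_eq_mul] at h4
  simp only [div_eq_mul_one_div (2 : ℚ), ← mul_sum] at *
  rw [h1, mul_left_comm]
  exact mul_le_mul_of_nonneg_left (by linarith) (Nat.cast_nonneg _)

theorem exists_T {B : Set Ω} (hB : ∀ x, x ∈ B ↔ 3 ≤ Nat.card (orbit G x)) (h4 : 4 ≤ B.ncard) :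
    ∃ T : Finset Ω, 2 ≤ ∑ x ∈ T, (1 - 2 / (Nat.card (orbit G x) : ℚ)) := by
  classical
  have h1 : ∀ x : Ω, ∀ y ∈ orbit G x, Nat.card (orbit G y) = Nat.card (orbit G x) :=
    fun x y h => by rw [orbit_eq_iff.2 h]
  by_cases h : ∃ x : Ω, 4 ≤ Nat.card (orbit G x)
  · obtain ⟨x, hx⟩ := h
    refine ⟨(orbit G x).toFinset, ?_⟩
    rw [sum_congr rfl fun y hy => by rw [h1 x y (Set.mem_toFinset.1 hy)], sum_const,
      ← Set.ncard_eq_toFinset_card', nsmul_eq_mul, ← Nat.card_coe_set_eq]
    have : (4 : ℚ) ≤ Nat.card (orbit G x) := by exact_mod_cast hx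
    field_simp; linarith
  push Not at h
  obtain ⟨x, hx⟩ := Set.nonempty_of_ncard_ne_zero (s := B) (by omega)
  have h2 : ∀ x ∈ B, (orbit G x).ncard = 3 := fun x hx => by
    have := h x; have := (hB x).1 hx; rw [← Nat.card_coe_set_eq]; omega
  obtain ⟨y, hy, hy'⟩ := Set.exists_mem_notMem_of_ncard_lt_ncard (s := orbit G x) (t := B)
    (by rw [h2 x hx]; omega)
  have h3 : 6 ≤ B.ncard := by
    have := Set.ncard_le_ncard (Set.union_subset (fun z hz => (hB z).2 (h1 x z hz ▸ (hB x).1 hx))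
      fun z hz => (hB z).2 (h1 y z hz ▸ (hB y).1 hy))
    rwa [Set.ncard_union_eq (Set.disjoint_left.2 fun z hz hz' => hy' (by
      rw [← orbit_eq_iff.2 hz]; exact mem_orbit_symm.1 hz')), h2 x hx, h2 y hy] at this
  refine ⟨B.toFinset, ?_⟩
  rw [sum_congr rfl fun y hy => by rw [Nat.card_coe_set_eq, h2 y (Set.mem_toFinset.1 hy)],
    sum_const, ← Set.ncard_eq_toFinset_card', nsmul_eq_mul]
  have : (6 : ℚ) ≤ B.ncard := by exact_mod_cast h3
  push_cast; linarith

theorem key [FaithfulSMul G Ω] (h2 : IsMultiplyPretransitive G Ω 2) (hn : 7 ≤ Fintype.card Ω)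
    {a b : Ω} (hab : a ≠ b) (hH : st2 G a b ≠ ⊥) [Fintype (st2 G a b)] :
    (Fintype.card (st2 G a b) : ℚ) ≤ ∑ g : st2 G a b,
      (Fintype.card Ω - Nat.card (fixedBy Ω (g : G)) : ℚ) / Nat.card (fixedBy Ω (g : G)) := by
  classical
  have := (Subgroup.nontrivial_iff_ne_bot _).2 hH
  have hn' := Nat.card_eq_fintype_card (α := Ω)
  have h0 : ∀ g : st2 G a b, (0 : ℚ) < Nat.card (fixedBy Ω (g : G)) := fun g =>
    Nat.cast_pos.2 (Nat.card_pos_iff.2 ⟨⟨⟨a, g.2.1⟩⟩, inferInstance⟩)
  have he : (Nat.card (fixedBy Ω ((1 : st2 G a b) : G)) : ℚ) = Fintype.card Ω := by simp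
  have h1 : ∀ g : st2 G a b, g ≠ 1 → _ := fun g hg =>
    card_fixedBy_mul_le h2 hab (g := g) fun h => hg (Subtype.ext h)
  have h3 : 2 ≤ (line G a b).ncard := Set.ncard_pair hab ▸ Set.ncard_le_ncard
    (Set.pair_subset (left_mem_line a b) (right_mem_line a b))
  have h4 : fixedPoints (st2 G a b) Ω = line G a b :=
    Set.ext fun x => ⟨fun h g hg => h ⟨g, hg⟩, fun h g => h g.2⟩
  by_cases h5 : 4 ≤ (line G a b).ncard
  · refine N1 h0 he fun g hg => ?_
    have := (Nat.mul_le_mul_left _ (show 3 ≤ _ by omega)).trans (h1 g hg)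
    exact_mod_cast (by omega : 3 * Nat.card (fixedBy Ω (g : G)) ≤ Fintype.card Ω)
  let B := {x : Ω | 3 ≤ Nat.card (orbit (st2 G a b) x)}
  by_cases h6 : 4 ≤ B.ncard
  · obtain ⟨T, hT⟩ := exists_T (G := st2 G a b) (fun _ => Iff.rfl) h6
    have h7 := sum_fix_le hT
    rw [h4] at h7
    rcases h3.eq_or_lt with h8 | h8
    · exact N2 h0 (by positivity) (h7.trans_eq (by rw [← h8]; push_cast; ring))
    rw [show (line G a b).ncard = 3 by omega] at h1 h7
    refine N3 h0 he (by exact_mod_cast (by omega : 1 < _)) (fun g hg => ?_)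
      (h7.trans_eq (by push_cast; ring))
    have := h1 g hg
    rw [le_sub_iff_add_le]
    exact_mod_cast (by omega : 2 * Nat.card (fixedBy Ω (g : G)) + 1 ≤ Fintype.card Ω)
  have h7 : ∀ x, x ∉ line G a b → x ∉ B → (stabilizer G x).relIndex (st2 G a b) = 2 :=
    fun x hx hx' => by
      have h8 : ¬ 3 ≤ _ := hx'
      have h9 := relIndex_ne_zero' (stabilizer G x) (st2 G a b)
      have h10 := mt Subgroup.relIndex_eq_one.1 hx
      rw [card_orbit_subgroup] at h8
      omega
  obtain ⟨c, hc⟩ : ∃ c, c ∉ line G a b ∪ B := by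
    by_contra! h
    have := Set.ncard_union_le (line G a b) B
    rw [Set.eq_univ_of_forall h, Set.ncard_univ] at this
    omega
  have hc' := h7 c (fun h => hc (Or.inl h)) fun h => hc (Or.inr h)
  have h8 : ∀ x y z : Ω, x ≠ y → (stabilizer G z).relIndex (st2 G x y) ≠ 4 := fun x y z hxy h => by
    obtain ⟨g, rfl, rfl⟩ := twoTrans_iff.1 h2 a b x y hab hxy
    obtain ⟨z, rfl⟩ := MulAction.surjective g z
    rw [← cj_st2, ← cj_stabilizer, relIndex_cj, ← card_orbit_subgroup] at h
    exact h6 (h.ge.trans (Set.ncard_le_ncard fun w hw => show 3 ≤ _ by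
      rw [orbit_eq_iff.2 hw]; omega))
  have h9 : st2 G a b ⊓ stabilizer G c = ⊥ := (Subgroup.eq_bot_iff_forall _).2 fun k hk => by
    by_contra hk1
    have h10 := alternatingGroup_le_of_card_support_le
      (isPreprimitive_of_is_two_pretransitive (multTrans_range.2 h2)) (g := toPermHom G Ω k)
      ⟨k, rfl⟩ (fun h => hk1 (toPerm_injective (h.trans (map_one (toPermHom G Ω)).symm))) (by
        rw [← Set.ncard_coe_finset]
        refine (Set.ncard_le_ncard fun x hx => by_contra fun hx' => ?_).trans (show B.ncard ≤ 3 by omega)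
        refine Equiv.Perm.mem_support.1 hx (by_contra fun h => h ?_)
        exact le_stabilizer_of_relIndex_two h2 hab h8 hc' (h7 x (fun h' => h (h' hk.1)) hx') hk)
    have h11 := multTrans_range.1 (multTrans_mono h10 (multTrans_of_le
      (alternatingGroup.isMultiplyPretransitive Ω) (show 3 ≤ _ by omega) (Nat.sub_le _ _)))
    have h12 := Set.ncard_le_ncard (show ({a, b}ᶜ : Set Ω) ⊆ orbit (st2 G a b) c from fun x hx => by
      simp only [Set.mem_compl_iff, Set.mem_insert_iff, Set.mem_singleton_iff, not_or] at hx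
      obtain ⟨g, g1, g2, g3⟩ := threeTrans_iff.1 h11 a b c a b x hab
        (fun h => hc (Or.inl (h ▸ left_mem_line a b))) (fun h => hc (Or.inl (h ▸ right_mem_line a b)))
        hab (Ne.symm hx.1) (Ne.symm hx.2)
      exact ⟨⟨g, g1, g2⟩, g3⟩)
    have h13 := Set.ncard_add_ncard_compl ({a, b} : Set Ω)
    rw [← Nat.card_coe_set_eq (orbit _ _), card_orbit_subgroup, hc'] at h12
    rw [Set.ncard_pair hab] at h13
    omega
  rw [← Subgroup.inf_relIndex_left, h9, Subgroup.relIndex_bot_left] at hc'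
  refine N1 h0 he fun g hg => ?_
  obtain ⟨g', -, hg'⟩ := (Nat.card_eq_two_iff' 1).1 hc'
  have h10 : fixedBy Ω (g : G) = line G a b := Set.ext fun x => ⟨fun h k hk => by
    by_cases h1 : (⟨k, hk⟩ : st2 G a b) = 1
    · rw [show k = 1 from congrArg Subtype.val h1]; exact one_mem _
    · rwa [show k = g from congrArg Subtype.val ((hg' _ h1).trans (hg' _ hg).symm)],
    fun h => h g.2⟩
  have h11 := (IsPGroup.of_card (p := 2) (n := 1) hc').card_modEq_card_fixedPoints Ω
  rw [h4, Nat.card_coe_set_eq] at h11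
  have h12 : Fintype.card Ω ≠ 7 := fun h => by
    have : Fact (Nat.Prime 7) := ⟨by norm_num⟩
    have := (isPreprimitive_of_is_two_pretransitive h2).toIsPretransitive
    obtain ⟨P⟩ : Nonempty (Sylow 7 G) := inferInstance
    obtain ⟨d, hd, h5⟩ := card_normalizer_sylow_dvd h P
    have h6 := card_sylow_modEq_one 7 G
    have h7 := (Subgroup.normalizer ((P : Subgroup G) : Set G)).card_mul_index
    erw [← P.card_eq_index_normalizer, h5, card_eq_mul_card_st2 h2 hab, hc', hn', h] at h7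
    have h8 := Nat.le_of_dvd (by norm_num) hd
    unfold Nat.ModEq at h6
    interval_cases d <;> omega
  rw [h10, Nat.card_coe_set_eq]
  unfold Nat.ModEq at h11
  exact_mod_cast (by omega : 3 * (line G a b).ncard ≤ Fintype.card Ω)

theorem sum_pairs [DecidableEq Ω] [∀ a b : Ω, Fintype (st2 G a b)] (w : G → ℚ) :
    ∑ g : G, (Nat.card (fixedBy Ω g) * (Nat.card (fixedBy Ω g) - 1) : ℚ) * w g =
      ∑ p ∈ (univ : Finset Ω).offDiag, ∑ g : st2 G p.1 p.2, w g := by
  classical
  simp only [← sum_subtype (univ.filter (· ∈ st2 G _ _)) (fun _ => mem_filter_univ _), sum_filter]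
  rw [sum_comm]
  refine sum_congr rfl fun g _ => ?_
  rw [← sum_filter, sum_const, nsmul_eq_mul, show filter _ _ = (fixedBy Ω g).toFinset.offDiag by
    ext; simp; tauto, offDiag_card, Nat.cast_sub (Nat.le_mul_self _), Nat.card_coe_set_eq,
    Set.ncard_eq_toFinset_card']
  push_cast; ring

/-- Let a finite group G act faithfully and transitively on a set with n ≥ 7 points. Then either G is a Frobenius permutation group (Frobenius as a permutation group: transitive, some non-identity element fixes a point, and no non-identity element fixes two points) of order n(n − 1)/a with a ∈ {1, 2}, in which case exactly a|G|/n of its elements are derangements, or the number of derangements is at least 2|G|/n. (Equality does occur: PSL₃(2) acting on the 7 points of the Fano plane has exactly 2|G|/7 derangements.) -/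
theorem result {G Ω : Type*} [Group G] [Finite G] [MulAction G Ω] [FaithfulSMul G Ω] [Fintype Ω] (htr : MulAction.IsPretransitive G Ω) (hn : 7 ≤ Fintype.card Ω) :
    (∃ a : ℕ, (a = 1 ∨ a = 2) ∧ (MulAction.IsPretransitive G Ω ∧ (∃ g : G, g ≠ 1 ∧ ∃ ω : Ω, g • ω = ω) ∧ ∀ g : G, g ≠ 1 → Nat.card (MulAction.fixedBy Ω g) ≤ 1) ∧ a * Nat.card G = Fintype.card Ω * (Fintype.card Ω - 1) ∧ Fintype.card Ω * Nat.card {g : G // ∀ ω : Ω, g • ω ≠ ω} = a * Nat.card G) ∨
    2 * Nat.card G ≤ Fintype.card Ω * Nat.card {g : G // ∀ ω : Ω, g • ω ≠ ω} := by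
  classical
  have := Fintype.ofFinite G
  obtain ⟨a, b, hab⟩ := Fintype.one_lt_card_iff.1 (show 1 < Fintype.card Ω by omega)
  have : Nonempty Ω := ⟨a⟩
  have hn' := Nat.card_eq_fintype_card (α := Ω)
  let π : G → ℕ := fun g => Nat.card (fixedBy Ω g)
  have h1 : ∑ g, (π g : ℚ) = Nat.card G := by exact_mod_cast sum_card_fixedBy_of_trans
  have h2 : ∑ g, (π g * π g : ℚ) = Nat.card (orbitRel.Quotient G (Ω × Ω)) * Nat.card G := by
    rw [← Nat.cast_mul, ← sum_card_fixedBy_eq]
    simp only [card_fixedBy_prod, Nat.cast_sum, Nat.cast_mul, π]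
  have h3 : ∀ g, π g ≤ Fintype.card Ω := fun g =>
    (Nat.card_le_card_of_injective _ Subtype.val_injective).trans hn'.le
  have hD : (Fintype.card Ω * Nat.card {g : G // ∀ ω : Ω, g • ω ≠ ω} : ℚ) = ∑ g, (π g * π g : ℚ) -
      Nat.card G + ∑ g, (π g * (π g - 1) : ℚ) * ((Fintype.card Ω - π g) / π g) := by
    have : (Nat.card {g : G // ∀ ω : Ω, g • ω ≠ ω} : ℚ) = ∑ g, if π g = 0 then 1 else 0 := by
      rw [Nat.card_eq_fintype_card, Fintype.card_subtype, sum_boole]
      congr 3; ext g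
      simp [π, Nat.card_eq_zero, Set.eq_empty_iff_forall_notMem]
    rw [this, mul_sum, sum_congr rfl (g := fun g => π g * π g - (Fintype.card Ω + 1) * π g +
      Fintype.card Ω + (π g * (π g - 1) : ℚ) * ((Fintype.card Ω - π g) / π g)) fun g _ => by
        split_ifs with h
        · simp [h]
        · field_simp; ring]
    simp only [sum_add_distrib, sum_sub_distrib, ← mul_sum, h1]
    simp; ring
  have h4 : ∀ g, 0 ≤ (π g * (π g - 1) : ℚ) * ((Fintype.card Ω - π g) / π g) := fun g => by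
    refine mul_nonneg ?_ (div_nonneg (sub_nonneg.2 (Nat.cast_le.2 (h3 g))) (Nat.cast_nonneg _))
    rcases π g with _ | k <;> simp; positivity
  by_cases h5 : IsMultiplyPretransitive G Ω 2
  swap
  · have h6 : (3 : ℚ) ≤ Nat.card (orbitRel.Quotient G (Ω × Ω)) := by
      simp only [twoTrans_iff, not_forall] at h5
      obtain ⟨x, y, z, w, h6, h7, h8⟩ := h5
      have := Fintype.ofFinite (orbitRel.Quotient G (Ω × Ω))
      rw [Nat.card_eq_fintype_card]
      refine Nat.cast_le.2 (Fintype.two_lt_card_iff.2 ⟨Quotient.mk'' (a, a), Quotient.mk'' (z, w),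
        Quotient.mk'' (x, y), fun h => ?_, fun h => ?_, fun h => ?_⟩) <;>
        obtain ⟨g, hg⟩ := Quotient.exact' h <;> obtain ⟨g1, g2⟩ := Prod.ext_iff.1 hg
      exacts [h7 (MulAction.injective g (g1.trans g2.symm)),
        h6 (MulAction.injective g (g1.trans g2.symm)), h8 ⟨g, g1, g2⟩]
    have h7 := sum_nonneg fun g (_ : g ∈ univ) => h4 g
    have h8 := mul_le_mul_of_nonneg_right h6 (Nat.cast_nonneg (Nat.card G))
    exact Or.inr (Nat.cast_le (α := ℚ).1 (by push_cast; linarith))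
  have h6 := card_eq_mul_card_st2 h5 hab
  have h7 : ∑ p ∈ (univ : Finset Ω).offDiag, (Fintype.card (st2 G p.1 p.2) : ℚ) = Nat.card G := by
    rw [sum_congr rfl fun p hp => by rw [← Nat.card_eq_fintype_card,
      card_st2_eq h5 (mem_offDiag.1 hp).2.2 hab], h6, sum_const, offDiag_card, hn', nsmul_eq_mul,
      ← Nat.mul_sub_one]
    simp
  have h8 : ∑ g, (π g * π g : ℚ) = 2 * Nat.card G := by
    have := sum_pairs (G := G) (Ω := Ω) fun _ => 1
    simp only [sum_const, card_univ, nsmul_eq_mul, mul_one, h7, mul_sub, sum_sub_distrib] at this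
    linarith
  rw [sum_pairs] at hD
  by_cases h9 : st2 G a b = ⊥
  · have h10 : ∀ x y : Ω, x ≠ y → st2 G x y = ⊥ := fun x y h =>
      Subgroup.card_eq_one.1 (by rw [card_st2_eq h5 h hab, h9, Subgroup.card_bot])
    rw [h9, Subgroup.card_bot, hn', mul_one] at h6
    obtain ⟨c, hc⟩ := Fintype.exists_ne_of_one_lt_card (α := {x // x ≠ a}) (by simp; omega)
      ⟨b, hab.symm⟩
    obtain ⟨g, g1, g2⟩ := twoTrans_iff.1 h5 a b a c hab c.2.symm
    refine Or.inl ⟨1, Or.inl rfl, ⟨htr, ⟨g, fun h => hc (Subtype.ext (by simpa [h] using g2.symm)),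
      a, g1⟩, fun g hg => ?_⟩, by omega, Nat.cast_injective (R := ℚ) ?_⟩
    · exact Finite.card_le_one_iff_subsingleton.2 ⟨fun x y => Subtype.ext (by_contra fun h =>
        hg ((h10 _ _ h).le ⟨x.2, y.2⟩))⟩
    · push_cast
      rw [hD, h8, sum_eq_zero fun p hp => sum_eq_zero fun g _ => by
        simp [show (g : G) = 1 from (h10 _ _ (mem_offDiag.1 hp).2.2).le g.2, π]]
      ring
  have h10 := sum_le_sum fun p (hp : p ∈ (univ : Finset Ω).offDiag) =>
    key h5 hn (mem_offDiag.1 hp).2.2 fun h => h9 (Subgroup.card_eq_one.1 (by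
      rw [card_st2_eq h5 hab (mem_offDiag.1 hp).2.2, h, Subgroup.card_bot]))
  exact Or.inr (Nat.cast_le (α := ℚ).1 (by push_cast; linarith))

end Cfsg.Agent.S5730
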