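import Cfsg.Statements.S5735
import Cfsg.Agent.Perm.BinSE
import Cfsg.Agent.Perm.Zass3

set_option autoImplicit false
open Cfsg

namespace Cfsg.Agent.S5735

open CF.Perm CF.Suz in

/-- Let G be a finite simple group with exactly one conjugacy class of involutions, and let H be a proper subgroup of even order. Then the action of G on the cosets of H is binary if and only if one of the following holds: G ≅ SL₂(2^a) with a ≥ 2 and H is a Sylow 2-subgroup; G is a Suzuki group Sz(2^(2a+1)) with a ≥ 1 and H is the centre of a Sylow 2-subgroup; G ≅ PSU₃(2^a) with a ≥ 2 and H is the centre of a Sylow 2-subgroup. Here an action is binary (relational complexity 2) when, for every n ≥ 2 and all n-tuples I, J of points, if for every pair of positions some group element carries the corresponding pair of entries of I to those of J, then a single group element carries I to J. -/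
theorem result {G : Type*} [Group G] [Finite G] [IsSimpleGroup G] (hinv : ∃ s : G, orderOf s = 2)
    (hone : ∀ s t : G, orderOf s = 2 → orderOf t = 2 → IsConj s t)
    (H : Subgroup G) (hH : H ≠ ⊤) (heven : Even (Nat.card H)) :
    (∀ (n : ℕ) (I J : Fin n → G ⧸ H), 2 ≤ n →
        (∀ i j : Fin n, i ≠ j → ∃ g : G, g • I i = J i ∧ g • I j = J j) → ∃ g : G, ∀ i, g • I i = J i) ↔
      (((∃ (F : Type) (_ : Field F) (_ : Fintype F) (a : ℕ), 2 ≤ a ∧ Fintype.card F = 2 ^ a ∧ Nonempty (G ≃* Matrix.SpecialLinearGroup (Fin 2) F)) ∧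
          ∃ P : Sylow 2 G, H = P) ∨
        (Cfsg.Lie.IsoSuzuki G ∧ ∃ P : Sylow 2 G, H = (Subgroup.center (P : Subgroup G)).map (P : Subgroup G).subtype) ∨
        ((∃ (F : Type) (_ : Field F) (_ : Fintype F) (a : ℕ), 2 ≤ a ∧ Fintype.card F = (2 ^ a) ^ 2 ∧ Nonempty (G ≃* Cfsg.PSU 3 F (2 ^ a))) ∧
          ∃ P : Sylow 2 G, H = (Subgroup.center (P : Subgroup G)).map (P : Subgroup G).subtype)) := by
  constructor
  · intro b
    obtain ⟨M, _, r, t, P, hS, rfl⟩ := Bin.even b hone hH heven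
    obtain ⟨h, -, F, _, _, ⟨n, hn, hF⟩, ⟨e⟩⟩ | ⟨-, -, h | ⟨F, _, _, n, hn, hF, e⟩⟩ := tri_data hS r
    · obtain ⟨f⟩ := psl_equiv_sl_of_even F (hF ▸ (Nat.even_pow' (by omega)).2 even_two)
      exact Or.inl ⟨⟨F, _, _, n, hn, hF, ⟨e.trans f⟩⟩, P,
        le_antisymm Q0_le fun x hx => mem_Q0_of hx (h x hx)⟩
    · exact Or.inr (Or.inl ⟨h, P, (center_eq_Q0 hS r).symm⟩)
    · exact Or.inr (Or.inr ⟨⟨F, _, _, n, hn, hF, e⟩, P, (center_eq_Q0 hS r).symm⟩)
  · rintro (⟨⟨F, _, _, n, hn, hF, ⟨e⟩⟩, P, rfl⟩ | ⟨⟨F, _, _, m, hm, hF, ⟨e⟩⟩, P, rfl⟩ |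
      ⟨⟨F, _, _, n, hn, hF, ⟨e⟩⟩, P, rfl⟩)
    · have := CF.BN.Suz.charP_of_card hF
      obtain ⟨M, hM⟩ := se_equiv se_sl2 e
      have := bin_center hM P
      rwa [center_sylow_of_sq P fun x => sylow_sl2_sq e P] at this
    · obtain ⟨M, hM⟩ := se_equiv (se_sz hm hF) e
      exact bin_center hM P
    · have := CF.BN.Suz.charP_of_card (hF.trans (pow_mul 2 n 2).symm)
      obtain ⟨M, hM⟩ := se_equiv (se_su3 (by omega)) e
      exact bin_center hM P

end Cfsg.Agent.S5735
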