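import Cfsg.Statements.S5736
import Cfsg.Agent.Perm.BinL2
import Cfsg.Agent.Perm.Zass3
import Cfsg.Agent.Classical.SmallIso

set_option autoImplicit false
open Cfsg

namespace Cfsg.Agent.S5736

open CF.Perm CF.Suz in

/-- Let F be a finite field with q ≥ 4 elements, q ≠ 5, let G = PSL₂(F) and let H be a proper subgroup of G. Then the action of G on the cosets of H is binary if and only if H is trivial, or q is a power of 2 and H is a Sylow 2-subgroup, or q = 2^a with a odd and H has order 3. Here an action is binary (relational complexity 2) when, for every n ≥ 2 and all n-tuples I, J of points, if for every pair of positions some group element carries the corresponding pair of entries of I to those of J, then a single group element carries I to J. -/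
theorem result {F : Type*} [Field F] [Fintype F] (h4 : 4 ≤ Fintype.card F) (h5 : Fintype.card F ≠ 5)
    (H : Subgroup (Matrix.ProjectiveSpecialLinearGroup (Fin 2) F)) (hH : H ≠ ⊤) :
    (∀ (n : ℕ) (I J : Fin n → Matrix.ProjectiveSpecialLinearGroup (Fin 2) F ⧸ H), 2 ≤ n →
        (∀ i j : Fin n, i ≠ j → ∃ g : Matrix.ProjectiveSpecialLinearGroup (Fin 2) F, g • I i = J i ∧ g • I j = J j) → ∃ g : Matrix.ProjectiveSpecialLinearGroup (Fin 2) F, ∀ i, g • I i = J i) ↔
      (H = ⊥ ∨ ((∃ a : ℕ, Fintype.card F = 2 ^ a) ∧ ∃ P : Sylow 2 (Matrix.ProjectiveSpecialLinearGroup (Fin 2) F), H = P) ∨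
        ((∃ a : ℕ, Odd a ∧ Fintype.card F = 2 ^ a) ∧ Nat.card H = 3)) := by
  have := CF.Classical.isSimpleGroup_PSL2 (F := F) (by rwa [Nat.card_eq_fintype_card])
  have ch : (2 : F) = 0 → CharP F 2 ∧ ∃ a, Fintype.card F = 2 ^ a := fun h => by
    have : CharP F 2 := CharTwo.of_one_ne_zero_of_two_eq_zero one_ne_zero h
    obtain ⟨n, -, hn⟩ := FiniteField.card F 2
    exact ⟨this, n, hn⟩
  have ev : ∀ {a}, Fintype.card F = 2 ^ a → Even (Fintype.card F) := fun {a} h => by
    rw [h] at h4 ⊢
    exact (Nat.even_pow' (by rintro rfl; omega)).2 even_two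
  constructor
  · intro b
    rcases Nat.even_or_odd (Nat.card H) with he | ho
    · by_cases two : (2 : F) = 0
      · obtain ⟨_, a, ha⟩ := ch two
        obtain ⟨e⟩ := psl_equiv_sl_of_even F (ev ha)
        obtain ⟨M, hM⟩ := se_equiv se_sl2 e
        obtain ⟨_, r, t, P, hS⟩ := se_setup' hM
        obtain ⟨M, _, r, t, P, hS, rfl⟩ := Bin.even b (fun s t hs ht => isConj_iff.2 (invol_conj hS
          (CF.Invol.ne_one_of_orderOf hs) (CF.Invol.mul_self_of_orderOf hs)
          (CF.Invol.ne_one_of_orderOf ht) (CF.Invol.mul_self_of_orderOf ht))) hH he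
        exact Or.inr (Or.inl ⟨⟨a, ha⟩, P, le_antisymm Q0_le fun x hx =>
          mem_Q0_of hx (sylow_sl2_sq e P hx)⟩)
      · obtain ⟨M, _, r, t, P, hS, -⟩ := Bin.even b (psl_one_class two) hH he
        have := CF.Geom.odd_card_of_two_ne_zero (F := F) two
        refine (psl_not_setup two ?_ hS r).elim
        rw [Nat.card_eq_fintype_card]
        obtain ⟨k, hk⟩ := this
        omega
    · by_cases h1 : H = ⊥
      · exact Or.inl h1
      obtain ⟨two, hκ, h3⟩ := Bin.odd_psl b ho h1
      obtain ⟨_, a, ha⟩ := ch two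
      exact Or.inr (Or.inr ⟨⟨a, odd_of_no_cube_root ha hκ, ha⟩, h3⟩)
  · rintro (rfl | ⟨⟨a, ha⟩, P, rfl⟩ | ⟨⟨a, ⟨k, rfl⟩, ha⟩, h3⟩)
    · exact bin_bot
    · have := CF.BN.Suz.charP_of_card ha
      obtain ⟨e⟩ := psl_equiv_sl_of_even F (ev ha)
      obtain ⟨M, hM⟩ := se_equiv se_sl2 e
      have := bin_center hM P
      rwa [center_sylow_of_sq P fun x => sylow_sl2_sq e P] at this
    · have := CF.BN.Suz.charP_of_card ha
      have two : (2 : F) = 0 := CharTwo.two_eq_zero
      refine bin_three two (fun κ e => ?_) h3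
      have h6 : κ ^ 3 = 1 := by linear_combination (κ - 1) * e + (κ - 1) * two
      have h7 : ∀ j, κ ^ 2 ^ (2 * j + 1) = κ ^ 2 := fun j => by
        induction j with
        | zero => simp
        | succ j ih =>
          rw [show 2 ^ (2 * (j + 1) + 1) = 2 ^ (2 * j + 1) * 4 by ring, pow_mul, ih]
          linear_combination (κ ^ 5 + κ ^ 2) * h6
      have h8 := FiniteField.pow_card κ
      rw [ha, h7] at h8
      exact one_ne_zero (α := F) (by linear_combination h8 - e + κ * two)

end Cfsg.Agent.S5736
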