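import Cfsg.Statements.S5737
import Cfsg.Agent.Perm.BinOdd
import Cfsg.Agent.BN.SzSub

set_option autoImplicit false
open Cfsg

namespace Cfsg.Agent.S5737

open CF.Perm CF.Suz in

/-- Let G = Sz(q) be a Suzuki group, q = 2^(2a+1) with a ≥ 1 (realised inside Sp₄ over the field with q elements), and let H be a proper subgroup of G. Then the action of G on the cosets of H is binary if and only if H is trivial or H is the centre of a Sylow 2-subgroup of G. Here an action is binary (relational complexity 2) when, for every n ≥ 2 and all n-tuples I, J of points, if for every pair of positions some group element carries the corresponding pair of entries of I to those of J, then a single group element carries I to J. -/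
theorem result {F : Type*} [Field F] [Fintype F] (a : ℕ) (ha : 1 ≤ a) (hF : Fintype.card F = 2 ^ (2 * a + 1))
    (H : Subgroup (Cfsg.Lie.Sz F (2 ^ (a + 1)))) (hH : H ≠ ⊤) :
    (∀ (n : ℕ) (I J : Fin n → (Cfsg.Lie.Sz F (2 ^ (a + 1))) ⧸ H), 2 ≤ n →
        (∀ i j : Fin n, i ≠ j → ∃ g : (Cfsg.Lie.Sz F (2 ^ (a + 1))), g • I i = J i ∧ g • I j = J j) → ∃ g : (Cfsg.Lie.Sz F (2 ^ (a + 1))), ∀ i, g • I i = J i) ↔
      (H = ⊥ ∨ ∃ P : Sylow 2 (Cfsg.Lie.Sz F (2 ^ (a + 1))), H = (Subgroup.center (P : Subgroup (Cfsg.Lie.Sz F (2 ^ (a + 1))))).map (P : Subgroup (Cfsg.Lie.Sz F (2 ^ (a + 1)))).subtype) := by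
  have D := CF.BN.Suz.lieD F a hF
  have h8 : 8 ≤ Nat.card F := CF.BN.Suz.eight_le_natCard ha (Nat.card_eq_fintype_card.trans hF)
  have := D.isSimpleGroup (by omega)
  obtain ⟨M, hM⟩ := se_sz ha hF
  obtain ⟨_, r, t, P, hS⟩ := se_setup' hM
  constructor
  · intro b
    rcases Nat.even_or_odd (Nat.card H) with he | ho
    · obtain ⟨M, _, r, t, P, hS, rfl⟩ := Bin.even b (fun s t hs ht => isConj_iff.2 (invol_conj hS
        (CF.Invol.ne_one_of_orderOf hs) (CF.Invol.mul_self_of_orderOf hs)
        (CF.Invol.ne_one_of_orderOf ht) (CF.Invol.mul_self_of_orderOf ht))) hH he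
      exact Or.inr ⟨P, (center_eq_Q0 hS r).symm⟩
    · exact Or.inl (Bin.odd_eq_bot hS r P.isPGroup' D.not_three_dvd_card (sz_cent D
        (CF.BN.Suz.sq_two_pow (Nat.card_eq_fintype_card.trans hF)) h8 (by
          rw [Nat.card_eq_fintype_card, hF]; exact (Nat.even_pow' (by omega)).2 even_two)) b ho)
  · rintro (rfl | ⟨P, rfl⟩)
    exacts [bin_bot, bin_center hM P]

end Cfsg.Agent.S5737
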