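import Cfsg.Statements.S5746
import Cfsg.Agent.Comp.G24.Main
import Cfsg.Agent.Comp.J2.Main

set_option autoImplicit false
open Cfsg

namespace Cfsg.Agent.S5746

open CF.Comp CF.Comp.G24 in

/-- The Chevalley group G₂(4) (over the field with 4 elements) has a maximal subgroup H isomorphic to the Hall–Janko group J₂ such that for every x outside H the intersection H ∩ xHx⁻¹ is a maximal subgroup of H; that is, the action of G₂(4) on the cosets of H is extremely primitive. -/
theorem result {F : Type*} [Field F] [Fintype F] (hF : Fintype.card F = 4) :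
    ∃ H : Subgroup (Cfsg.Lie.chevG2.group F), IsCoatom H ∧ Cfsg.Spor.IsoJ2 H ∧
      ∀ x : Cfsg.Lie.chevG2.group F, x ∉ H → IsCoatom ((H ⊓ H.map (MulAut.conj x).toMonoidHom).subgroupOf H) := by
  obtain ⟨_, _, D, f, hE⟩ := exists_exact F hF
  obtain ⟨e⟩ := equiv1 hE
  refine ⟨_, (max0 hE).isCoatom_top, ⟨e.symm.trans J2.eqv.symm⟩, fun x hx => ?_⟩
  convert (max1 hE x hx).isCoatom using 2
  rw [← stabIn_smul (Subgroup.mem_top x)]
  exact Subgroup.ext fun g => ⟨fun h => ⟨h.1, h.2.2⟩, fun h => ⟨h.1, trivial, h.2⟩⟩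

end Cfsg.Agent.S5746
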