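import Cfsg.Statements.S5747
import Mathlib

set_option autoImplicit false
open Cfsg

namespace Cfsg.Agent.S5747

def IB {G Ω : Type*} [Group G] [MulAction G Ω] {t : ℕ} (f : Fin t → Ω) : Prop :=
  (∀ g : G, (∀ i : Fin t, g • f i = f i) → g = 1) ∧
    ∀ i : Fin t, ∃ g : G, (∀ j : Fin t, j < i → g • f j = f j) ∧ g • f i ≠ f i

theorem base_succAbove {G Ω : Type*} [Group G] [MulAction G Ω] {t : ℕ} (f : Fin (t + 1) → Ω)
    (hf : ∀ g : G, (∀ i, g • f i = f i) → g = 1) (i : Fin (t + 1))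
    (hi : ∀ g : G, (∀ j, j < i → g • f j = f j) → g • f i = f i) (g : G)
    (hg : ∀ j, g • f (i.succAbove j) = f (i.succAbove j)) : g = 1 := by
  have h1 : ∀ j, j ≠ i → g • f j = f j := fun j hj => by
    obtain ⟨k, rfl⟩ := Fin.exists_succAbove_eq hj
    exact hg k
  refine hf g fun j => ?_
  rcases eq_or_ne j i with rfl | hj
  · exact hi g fun k hk => h1 k hk.ne
  · exact h1 j hj

theorem exists_ib {G Ω : Type*} [Group G] [MulAction G Ω] (t : ℕ) (f : Fin t → Ω)
    (hf : ∀ g : G, (∀ i, g • f i = f i) → g = 1) :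
    ∃ s ≤ t, ∃ f' : Fin s → Ω, IB (G := G) f' := by
  induction t with
  | zero => exact ⟨0, le_rfl, f, hf, fun i => i.elim0⟩
  | succ t ih =>
    by_cases h : IB (G := G) f
    · exact ⟨_, le_rfl, f, h⟩
    simp only [IB, not_and, not_forall, not_exists, not_not] at h
    obtain ⟨i, hi⟩ := h hf
    obtain ⟨s, hs, h⟩ := ih _ (base_succAbove f hf i hi)
    exact ⟨s, by omega, h⟩

theorem irr_snoc {G Ω : Type*} [Group G] [MulAction G Ω] {t : ℕ} (f : Fin t → Ω) (c : Ω)
    (hf : ∀ i : Fin t, ∃ g : G, (∀ j : Fin t, j < i → g • f j = f j) ∧ g • f i ≠ f i)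
    (hc : ∃ g : G, (∀ j, g • f j = f j) ∧ g • c ≠ c) (i : Fin (t + 1)) :
    ∃ g : G, (∀ j, j < i → g • Fin.snoc (α := fun _ => Ω) f c j = Fin.snoc (α := fun _ => Ω) f c j) ∧
      g • Fin.snoc (α := fun _ => Ω) f c i ≠ Fin.snoc (α := fun _ => Ω) f c i := by
  cases i using Fin.lastCases with
  | last =>
    obtain ⟨g, h1, h2⟩ := hc
    refine ⟨g, fun j hj => ?_, by simpa using h2⟩
    obtain ⟨k, rfl⟩ := Fin.exists_castSucc_eq.2 hj.ne
    simpa using h1 k
  | cast i =>
    obtain ⟨g, h1, h2⟩ := hf i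
    refine ⟨g, fun j hj => ?_, by simpa using h2⟩
    obtain ⟨k, rfl⟩ := Fin.exists_castSucc_eq.2 (hj.trans (Fin.castSucc_lt_last i)).ne
    simpa using h1 k (Fin.castSucc_lt_castSucc_iff.1 hj)

/-- Let a finite group G act on a finite set Ω. An irredundant base is a sequence of points ω₁, …, ω_t whose pointwise stabiliser is trivial and in which each ω_i is moved by some element fixing ω₁, …, ω_{i−1}. Then all irredundant bases have the same length if and only if every reordering of an irredundant base is again an irredundant base. -/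
theorem result {G Ω : Type*} [Group G] [Finite G] [MulAction G Ω] [Fintype Ω] :
    (∀ (t t' : ℕ) (f : Fin t → Ω) (f' : Fin t' → Ω), ((∀ g : G, (∀ i : Fin t, g • f i = f i) → g = 1) ∧ ∀ i : Fin t, ∃ g : G, (∀ j : Fin t, j < i → g • f j = f j) ∧ g • f i ≠ f i) → ((∀ g : G, (∀ i : Fin t', g • f' i = f' i) → g = 1) ∧ ∀ i : Fin t', ∃ g : G, (∀ j : Fin t', j < i → g • f' j = f' j) ∧ g • f' i ≠ f' i) → t = t') ↔
    (∀ (t : ℕ) (f : Fin t → Ω) (σ : Equiv.Perm (Fin t)), ((∀ g : G, (∀ i : Fin t, g • f i = f i) → g = 1) ∧ ∀ i : Fin t, ∃ g : G, (∀ j : Fin t, j < i → g • f j = f j) ∧ g • f i ≠ f i) → ((∀ g : G, (∀ i : Fin t, g • (f ∘ σ) i = (f ∘ σ) i) → g = 1) ∧ ∀ i : Fin t, ∃ g : G, (∀ j : Fin t, j < i → g • (f ∘ σ) j = (f ∘ σ) j) ∧ g • (f ∘ σ) i ≠ (f ∘ σ) i)) := by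
  classical
  refine ⟨fun h t f σ hf => ?_, fun h => ?_⟩
  · have h1 : ∀ g : G, (∀ i : Fin t, g • (f ∘ σ) i = (f ∘ σ) i) → g = 1 := fun g hg =>
      hf.1 g fun i => by simpa using hg (σ.symm i)
    refine ⟨h1, fun i => by_contra fun hi => ?_⟩
    obtain ⟨t, rfl⟩ := Nat.exists_eq_succ_of_ne_zero i.pos.ne'
    push Not at hi
    obtain ⟨s, hs, f', hf'⟩ := exists_ib t _ (base_succAbove (f ∘ σ) h1 i hi)
    have := h _ _ f f' hf hf'
    omega
  have hmin : ∀ (t : ℕ) (f : Fin t → Ω), IB (G := G) f → ∀ i, ∃ g : G,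
      (∀ j, j ≠ i → g • f j = f j) ∧ g • f i ≠ f i := by
    intro t f hf i
    obtain ⟨t, rfl⟩ := Nat.exists_eq_succ_of_ne_zero i.pos.ne'
    obtain ⟨g, h1, h2⟩ := (h _ f (Equiv.swap i (Fin.last t)) hf).2 (Fin.last t)
    refine ⟨g, fun j hj => ?_, by simpa using h2⟩
    simpa using h1 (Equiv.swap i (Fin.last t) j) (Fin.lt_last_iff_ne_last.2 fun h => hj (by
      simpa using Equiv.swap_apply_eq_iff.1 h))
  have key : ∀ (t' : ℕ) (f' : Fin t' → Ω), IB (G := G) f' → ∀ (n t : ℕ) (f : Fin t → Ω),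
      IB (G := G) f → (∑ j, if f j ∈ Set.range f' then 0 else 1) = n → t ≤ t' := by
    intro t' f' hf' n
    induction n with
    | zero =>
      intro t f hf h0
      simp only [Finset.sum_eq_zero_iff, Finset.mem_univ, ite_eq_left_iff, one_ne_zero, imp_false,
        not_not, forall_const] at h0
      choose e he using h0
      simpa using Fintype.card_le_of_injective e fun i j hij => by_contra fun h1 => by
        obtain ⟨g, h2, h3⟩ := hmin t f hf i
        exact h3 (by rw [← he i, hij, he j, h2 j (Ne.symm h1)])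
    | succ n ih =>
      intro t f hf h0
      obtain ⟨i, -, hi⟩ := Finset.exists_ne_zero_of_sum_ne_zero (h0.trans_ne n.succ_ne_zero)
      obtain ⟨t, rfl⟩ := Nat.exists_eq_succ_of_ne_zero i.pos.ne'
      obtain ⟨g, h1, h2⟩ := hmin _ f hf i
      obtain ⟨k, hk⟩ : ∃ k, g • f' k ≠ f' k := by
        by_contra! h3
        exact h2 (by rw [hf'.1 g h3, one_smul])
      let u : Fin (t + 1) → Ω := Fin.snoc (α := fun _ => Ω) (fun j => f (i.succAbove j)) (f' k)
      have hu := irr_snoc (G := G) (fun j => f (i.succAbove j)) (f' k) (fun j => by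
        obtain ⟨g, h3, h4⟩ := hmin _ f hf (i.succAbove j)
        exact ⟨g, fun l hl => h3 _ fun h => hl.ne (Fin.succAbove_right_injective h), h4⟩)
        ⟨g, fun j => h1 _ (i.succAbove_ne j), hk⟩
      have hb : ∀ x : G, (∀ j, x • f (i.succAbove j) = f (i.succAbove j)) → x • f i = f i →
          x = 1 := fun x h3 h4 => hf.1 x fun j => by
        rcases eq_or_ne j i with rfl | hj
        · exact h4
        · obtain ⟨l, rfl⟩ := Fin.exists_succAbove_eq hj
          exact h3 l
      refine ih _ u ⟨fun x hx => by_contra fun hx1 => ?_, hu⟩ ?_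
      · obtain ⟨y, h3, h4⟩ := hmin _ (Fin.snoc (α := fun _ => Ω) u (f i)) ⟨fun y hy => hb y
          (fun j => by simpa [u] using hy j.castSucc.castSucc) (by simpa using hy (Fin.last _)),
          irr_snoc u (f i) hu ⟨x, hx, fun h => hx1 (hb x
            (fun j => by simpa [u] using hx j.castSucc) h)⟩⟩ (Fin.last t).castSucc
        refine h4 ?_
        rw [hb y (fun j => by
          simpa [u] using h3 j.castSucc.castSucc (by simp [(Fin.castSucc_lt_last j).ne]))
          (by simpa using h3 (Fin.last _) (Fin.castSucc_lt_last _).ne'), one_smul]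
      · rw [Fin.sum_univ_succAbove _ i] at h0
        rw [Fin.sum_univ_castSucc]
        simp only [u, Fin.snoc_castSucc, Fin.snoc_last, Set.mem_range_self, if_true]
        split_ifs at h0 hi <;> omega
  exact fun t t' f f' hf hf' => le_antisymm (key _ _ hf' _ _ _ hf rfl) (key _ _ hf _ _ _ hf' rfl)

end Cfsg.Agent.S5747
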