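import Cfsg.Statements.S5748
import Cfsg.Agent.Fgs3.AbInv2
import Cfsg.Agent.Classical.SL2

set_option autoImplicit false
open Cfsg

namespace Cfsg.Agent.S5748
open CF.BG Subgroup
open scoped commutatorElement Pointwise
open CF.Fgs3 CF.Classical
open scoped MatrixGroups

theorem mat_comm {F : Type*} [Field F] {A B C : Matrix (Fin 2) (Fin 2) F}
    (hB : ¬ (B 0 1 = 0 ∧ B 1 0 = 0 ∧ B 0 0 = B 1 1)) (h1 : A * B = B * A) (h2 : B * C = C * B) :
    A * C = C * A := by
  have e := fun i j => congrFun (congrFun h1 i) j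
  have f := fun i j => congrFun (congrFun h2 i) j
  have e00 := e 0 0; have e01 := e 0 1; have e10 := e 1 0
  have f00 := f 0 0; have f01 := f 0 1; have f10 := f 1 0
  simp only [Matrix.mul_apply, Fin.sum_univ_two] at e00 e01 e10 f00 f01 f10
  have key : A 0 1 * C 1 0 = C 0 1 * A 1 0 ∧
      A 0 1 * (C 1 1 - C 0 0) = C 0 1 * (A 1 1 - A 0 0) ∧
      A 1 0 * (C 1 1 - C 0 0) = C 1 0 * (A 1 1 - A 0 0) := by
    by_cases b1 : B 0 1 = 0
    · by_cases b2 : B 1 0 = 0
      · have b3 : B 1 1 - B 0 0 ≠ 0 := fun h => hB ⟨b1, b2, (sub_eq_zero.1 h).symm⟩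
        refine ⟨mul_left_cancel₀ b3 ?_, mul_left_cancel₀ b3 ?_, mul_left_cancel₀ b3 ?_⟩
        · linear_combination C 1 0 * e01 + C 0 1 * e10 + (C 1 0 * (A 1 1 - A 0 0)) * b1 -
            (C 0 1 * (A 1 1 - A 0 0)) * b2
        · linear_combination (C 1 1 - C 0 0) * e01 + (A 1 1 - A 0 0) * f01
        · linear_combination -(C 1 1 - C 0 0) * e10 - (A 1 1 - A 0 0) * f10
      · refine ⟨mul_left_cancel₀ b2 ?_, mul_left_cancel₀ b2 ?_, mul_left_cancel₀ b2 ?_⟩
        · linear_combination C 1 0 * e00 + A 1 0 * f00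
        · have a1 : A 0 1 = 0 := by
            refine mul_left_cancel₀ b2 ?_
            linear_combination e00 + A 1 0 * b1
          have c1 : C 0 1 = 0 := by
            refine mul_left_cancel₀ b2 ?_
            linear_combination -f00 + C 1 0 * b1
          rw [a1, c1]; ring
        · linear_combination -A 1 0 * f10 - C 1 0 * e10
    · refine ⟨mul_left_cancel₀ b1 ?_, mul_left_cancel₀ b1 ?_, mul_left_cancel₀ b1 ?_⟩
      · linear_combination A 0 1 * f00 + C 0 1 * e00
      · linear_combination A 0 1 * f01 + C 0 1 * e01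
      · linear_combination A 1 0 * f01 - (A 1 1 - A 0 0) * f00 - C 0 1 * e10
  obtain ⟨k1, k2, k3⟩ := key
  ext i j
  fin_cases i <;> fin_cases j <;>
    simp only [Matrix.mul_apply, Fin.sum_univ_two, Fin.zero_eta, Fin.mk_one, Fin.isValue]
  · linear_combination k1
  · linear_combination k2
  · linear_combination -k3
  · linear_combination -k1

theorem sl_trans {F : Type*} [Field F] (h2 : (2 : F) = 0) {A B C : SL(2, F)} (hB : B ≠ 1)
    (h1 : Commute A B) (h3 : Commute B C) : Commute A C := by
  refine Subtype.ext (mat_comm (B := B.1) ?_ (congrArg Subtype.val h1) (congrArg Subtype.val h3))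
  rintro ⟨b1, b2, b3⟩
  have d := B.2
  rw [Matrix.det_fin_two, b1, b2, ← b3] at d
  have d1 : B.1 0 0 = 1 := by
    have : (B.1 0 0 - 1) ^ 2 = 0 := by linear_combination d + (1 - B.1 0 0) * h2
    exact sub_eq_zero.1 (pow_eq_zero_iff two_ne_zero |>.1 this)
  refine hB (Subtype.ext ?_)
  ext i j
  fin_cases i <;> fin_cases j <;> simp [b1, b2, ← b3, d1]

/-- A finite non-abelian simple group in which commuting is a transitive relation on the non-identity elements (equivalently, every non-identity element has abelian centraliser) is isomorphic to PSL₂ over a field with 2^f elements for some f ≥ 2; conversely these groups have that property. -/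
theorem result {G : Type*} [Group G] [Finite G] [IsSimpleGroup G] (hG : ¬ IsMulCommutative G) :
    (∀ a b c : G, a ≠ 1 → b ≠ 1 → c ≠ 1 → Commute a b → Commute b c → Commute a c) ↔
    ∃ (F : Type) (_ : Field F) (_ : Fintype F) (f : ℕ), 2 ≤ f ∧ Fintype.card F = 2 ^ f ∧ Nonempty (G ≃* Matrix.ProjectiveSpecialLinearGroup (Fin 2) F) := by
  have ns : ¬ Sol (⊤ : Subgroup G) := fun h => by
    haveI := sol_top_iff.1 h
    exact hG ⟨⟨IsSimpleGroup.comm_iff_isSolvable.2 inferInstance⟩⟩
  constructor
  · intro h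
    obtain ⟨S, hS⟩ := exists_syl 2 (⊤ : Subgroup G)
    have a : AI S := by
      refine ⟨fun t ht => abel_of_forall fun x hx y hy => ?_, hS, fun c => ns (sol_of_cyc_syl hS c),
        fun n => ns (sol_of_normal_syl hS n.ge)⟩
      have t1 : t ≠ 1 := by rintro rfl; simp at ht
      by_cases x1 : x = 1
      · simp [x1]
      by_cases y1 : y = 1
      · simp [y1]
      exact h x t y x1 t1 y1 (mem_cent1.1 hx) (mem_cent1.1 hy).symm
    obtain ⟨F, iF, fF, h2, h4, π, hπ, o, c⟩ := a.main
    haveI := charP_two h2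
    obtain ⟨n, -, hn⟩ := FiniteField.card F 2
    have k : π.ker = ⊥ := by
      rcases (inferInstance : π.ker.Normal).eq_bot_or_eq_top with k | k
      · exact k
      · exact absurd ⟨⟨fun x y => (mem_center_iff.1 (c (k ▸ mem_top y)) x)⟩⟩ hG
    refine ⟨F, iF, fF, n, ?_, hn, ⟨MulEquiv.ofBijective π ⟨(MonoidHom.ker_eq_bot_iff π).1 k, hπ⟩⟩⟩
    rw [Nat.card_eq_fintype_card, hn] at h4
    by_contra l
    have : (n : ℕ) ≤ 1 := by omega
    have := Nat.pow_le_pow_right (show 0 < 2 by norm_num) this
    omega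
  · rintro ⟨F, iF, fF, f, hf, hc, ⟨e⟩⟩ a b c - hb - h1 h3
    have h2 : (2 : F) = 0 := by
      have := FiniteField.cast_card_eq_zero F
      rw [hc, Nat.cast_pow] at this
      exact_mod_cast pow_eq_zero_iff (by omega) |>.1 this
    let e' : G ≃* SL(2, F) :=
      e.trans (MulEquiv.ofBijective _ ⟨slToPSL_injective h2, slToPSL_surjective⟩).symm
    have := sl_trans h2 (A := e' a) (B := e' b) (C := e' c) (by simpa using hb) (h1.map e')
      (h3.map e')
    exact e'.injective (by simpa using this.eq)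

end Cfsg.Agent.S5748
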