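import Cfsg.Statements.S5751
import Cfsg.Agent.Chev.All
import Cfsg.Agent.Chev.Syl

set_option autoImplicit false
open Cfsg

namespace Cfsg.Agent.S5751

section
open CF.Chev CF.Chev.StRep Subgroup

/-- The core in `M` of `Y`. -/
abbrev cor {G : Type*} [Group G] (M Y : Subgroup G) : Subgroup G :=
  (Y.subgroupOf M).normalCore.map M.subtype

theorem mem_cor {G : Type*} [Group G] {M Y : Subgroup G} {y : G} :
    y ∈ cor M Y ↔ y ∈ M ∧ ∀ m ∈ M, m * y * m⁻¹ ∈ Y :=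
  ⟨by rintro ⟨z, h, rfl⟩; exact ⟨z.2, fun m hm => h ⟨m, hm⟩⟩,
    fun h => ⟨⟨y, h.1⟩, fun m => h.2 m m.2, rfl⟩⟩

theorem mem_cj {G : Type*} [Group G] {M : Subgroup G} {g y : G} :
    y ∈ M.map (MulAut.conj g).toMonoidHom ↔ g⁻¹ * y * g ∈ M := mem_map_equiv

variable {B ι : Type} [Fintype B] [DecidableEq B] [Fintype ι] [DecidableEq ι]
  {C : ChevBasis B ι} {K : Type*} [Field K] {G : Type*} [Group G] {ρ : StRep C K G}
  (hρ : ρ.Faithful)
include hρ

theorem mem_of_conj {x m : G} {i k : B} {J : Set B} (hx : x ∈ ρ.Cell (C.sref k))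
    (hm : m ∈ ρ.Cell (C.sref i)) (ik : i ≠ k) (h : C.car k i ≠ 0) (e : m * x * m⁻¹ ∈ ρ.PJ J) :
    i ∈ J := by
  have p1 := (C.pos_simple i).sref (C.simple_injective.ne ik)
  have p3 := p1.sref (i := i) fun e => h (by
    have := congrFun (C.vec_sref k (C.simple i)) k
    rw [e, C.A_simple_simple] at this
    simp [C.vec_simple] at this
    omega)
  have := (mem_PJ_iff_of_cell hρ (mul_mem_cell_right_of_pos
    (mul_mem_cell_of_pos hm hx (by rwa [C.sref_inv])) (C.sref_inv i ▸ cell_inv hm) p3)).1 e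
  refine C.mem_of_descent this ?_
  rw [Equiv.Perm.mul_apply, C.sref_simple_self,
    RootSys.neg_aut (mul_mem (C.sref_mem_Aut _) (C.sref_mem_Aut _)), C.pos_neg_iff, not_not]
  exact p3

theorem mem_Ui {y m : G} {j : B} {J : Set B} (hy : y ∈ ρ.Up) (hm : ρ.Acts m (C.sref j))
    (e : m * y * m⁻¹ ∈ ρ.PJ J) (hj : j ∉ J) : y ∈ ρ.Ui j := by
  obtain ⟨a, ha, t, rfl⟩ := exists_Ui_mul_x j hy
  obtain ⟨c, hc⟩ := hm.exists_conj_x (C.simple j)
  by_cases ht : t = 0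
  · simpa [ht] using ha
  rw [show m * (a * ρ.x (C.simple j) t) * m⁻¹ = m * a * m⁻¹ * (m * ρ.x (C.simple j) t * m⁻¹) by group,
    hc, mul_mem_cancel_left (ρ.Bo_le_PJ J (ρ.Up_le_Bo (ρ.Ui_le_Up j (hm.conj_Ui ha)))),
    x_mem_PJ_iff hρ (mul_ne_zero c.ne_zero ht), C.sref_simple_self, C.inSub_neg, C.inSub_simple] at e
  exact absurd (e.resolve_left (C.not_pos_neg_simple j)) hj

omit hρ in
theorem closed_Ui (j : B) : C.Closed {r | C.Pos r ∧ r ≠ C.simple j} :=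
  (C.ideal_pos_ne_simple j).mono fun _ h => .inl h.1

/-- A subgroup of `U` normalised by the `n_j` lies in `U_S` for a `W_J`-invariant `S`. -/
theorem core {N : Subgroup G} {J : Set B} (hN : ∀ j ∈ J, ∀ y ∈ N, ρ.ns j * y * (ρ.ns j)⁻¹ ∈ N)
    {T T' : Set ι} (hT : C.Closed T) (pos : ∀ r ∈ T, C.Pos r) (le : N ≤ ρ.U T)
    (h : ∀ r ∈ T, r ∉ T' → ∃ j ∈ J, 0 < C.A (C.simple j) r ∧ C.sref j r ∉ T') : N ≤ ρ.U T' := by
  obtain ⟨S, hS⟩ := exists_minimal_of_wellFoundedLT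
    (fun S : Set ι => C.Closed S ∧ (∀ r ∈ S, C.Pos r) ∧ N ≤ ρ.U S) ⟨T, hT, pos, le⟩
  have key : ∀ S', C.Closed S' → (∀ r ∈ S', C.Pos r) → N ≤ ρ.U S' → S ⊆ S' := fun S' a b c =>
    (hS.le_of_le (y := S ∩ S') ⟨hS.1.1.inter a, fun r hr => b r hr.2, by
      rw [← hρ.U_inf_U hS.1.1 a (RootSys.isNil_of_pos fun r hr => hr.elim (hS.1.2.1 r) (b r))]
      exact le_inf hS.1.2.2 c⟩ Set.inter_subset_left).trans Set.inter_subset_right
  have up : N ≤ ρ.Up := le.trans (ρ.U_mono pos)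
  have inv : ∀ j ∈ J, S ⊆ C.sref j ⁻¹' S := fun j hj => by
    have := key _ (closed_Ui j) (fun _ h => h.1) fun y hy => mem_Ui hρ (J := ∅) (up hy) (ρ.acts_ns j)
      (ρ.Bo_le_PJ _ (ρ.Up_le_Bo (up (hN j hj y hy)))) id
    refine key _ (hS.1.1.preimage (C.sref_mem_Aut j)) (fun r hr => ?_) fun y hy => ?_
    · simpa using (this hr).1.sref (this hr).2
    · simpa [mul_assoc] using (ρ.acts_ns j).inv_conj_mem_U (T := C.sref j ⁻¹' S) (fun s hs => by simpa using hs)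
        (hS.1.2.2 (hN j hj y hy))
  refine hS.1.2.2.trans (ρ.U_mono fun r hr => by_contra fun hr' => ?_)
  obtain ⟨r, ⟨a, b⟩, m⟩ := Set.exists_min_image (S \ T') (fun r => RootSys.ht (C.vec r)) (Set.toFinite _)
    ⟨r, hr, hr'⟩
  obtain ⟨j, hj, c, d⟩ := h r (key T hT pos le a) b
  have := m _ ⟨inv j hj a, d⟩
  rw [C.ht_sref] at this
  omega

theorem le_Bo (hC : C.Conn) {N : Subgroup G} {i : B} (le : N ≤ ρ.PJ {i}ᶜ)
    (hN : ∀ m ∈ ρ.PJ {i}ᶜ, ∀ y ∈ N, m * y * m⁻¹ ∈ N)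
    (h : ∀ y ∈ N, ρ.ns i * y * (ρ.ns i)⁻¹ ∈ ρ.PJ {i}ᶜ) : N ≤ ρ.Bo := by
  have l : N ⊔ ρ.Bo ≤ ρ.PJ {i}ᶜ := sup_le le (ρ.Bo_le_PJ _)
  have e := eq_PJ_of_Bo_le le_sup_right (l.trans (ρ.PJ_le_Gp _))
  generalize {i | ρ.ns i ∈ N ⊔ ρ.Bo} = J at e
  rcases J.eq_empty_or_nonempty with rfl | hJ
  · exact le_sup_left.trans (e.trans ρ.PJ_empty).le
  have s : J ⊆ {i}ᶜ := (PJ_le_PJ_iff hρ).1 (e ▸ l)
  obtain ⟨k, hk, j, hj, c⟩ := hC J hJ ⟨i, fun h => s h rfl⟩
  have : ρ.ns k ∈ ((N ⊔ ρ.Bo : Subgroup G) : Set G) := e ▸ ns_mem_PJ hk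
  rw [coe_mul_of_right_le_normalizer_left _ _ fun b hb => mem_normalizer_iff.2 fun y =>
    ⟨hN b (ρ.Bo_le_PJ _ hb) y, fun hy => by
      simpa [mul_assoc] using hN _ (inv_mem (ρ.Bo_le_PJ _ hb)) _ hy⟩] at this
  obtain ⟨x, hx, b, hb, e'⟩ := this
  have hx' : x ∈ ρ.Cell (C.sref k) := by
    simpa [← e'] using cell_mul_right (nW_ns (ρ := ρ) k).mem_cell (inv_mem hb)
  have jk : j ≠ k := fun e => hj (e ▸ hk)
  by_cases ji : j = i
  · subst ji
    exact absurd rfl (mem_of_conj hρ hx' (nW_ns j).mem_cell jk c (h x hx))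
  · exact absurd (mem_of_conj hρ hx' (nW_ns j).mem_cell jk c
      (e ▸ mem_sup_left (hN _ (ns_mem_PJ ji) x hx))) hj

omit hρ in
theorem ideal_lev (i : B) (m : ℤ) : C.Ideal {r | 0 ≤ C.vec r i} {r | m + 1 ≤ C.vec r i ∧ 0 ≤ m} := by
  rintro r hr s ⟨hs, hm⟩ u a b ha hb e
  refine ⟨?_, hm⟩
  have : C.vec u i = a * C.vec r i + b * C.vec s i := by simp [e]
  have hr : 0 ≤ C.vec r i := hr
  nlinarith

theorem main [IsSimpleGroup G] (hG : ρ.Gp = ⊤) (hC : C.Conn) (hH : ρ.H = ⊥) (i : B) (k : ℕ)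
    (f1 : ∀ r, C.Pos r → r ≠ C.simple i → C.vec r i ≤ 1 → ∃ j ≠ i, 0 < C.A (C.simple j) r)
    (f2 : ∀ r, 2 ≤ C.vec r i → C.A (C.simple i) r ≤ 1) (f3 : ∀ r, C.vec r i ≤ k + 1)
    (f4 : ∃ r, C.vec r i = k + 1) :
    ∃ (M₁ M₂ : Subgroup G) (g : G) (A B : ℕ → Subgroup G),
      IsCoatom M₁ ∧ M₂ = M₁.map (MulAut.conj g).toMonoidHom ∧ M₁ ≠ M₂ ∧ M₁.normalCore = ⊥ ∧ A 0 = M₁ ∧
      B 0 = M₂ ∧ (∀ i, A (i + 1) = cor M₁ (A i ⊓ B i)) ∧ (∀ i, B (i + 1) = cor M₂ (A i ⊓ B i)) ∧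
      A (k + 1) = ⊥ ∧ A k ≠ ⊥ := by
  set g := ρ.ns i with hg
  set P := ρ.PJ {i}ᶜ with hP
  have gi : g⁻¹ = g := inv_eq_of_mul_eq_one_right (mem_bot.1 (hH ▸ ρ.n_mul_n_mem_H _ _ _))
  have gg : ∀ y, g * (g * y) = y := fun y => by nth_rw 1 [← gi]; exact inv_mul_cancel_left _ _
  have g2 : g * g = 1 := by simpa using gg 1
  have ag : ρ.Acts g (C.sref i) := ρ.acts_ns i
  obtain ⟨A, A0, AS⟩ : ∃ A : ℕ → Subgroup G, A 0 = P ∧
      ∀ n, A (n + 1) = cor P (A n ⊓ (A n).map (MulAut.conj g).toMonoidHom) :=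
    ⟨fun n => n.rec P fun _ X => cor P (X ⊓ X.map (MulAut.conj g).toMonoidHom), rfl, fun _ => rfl⟩
  have hA : ∀ n y, y ∈ A (n + 1) ↔ y ∈ P ∧ ∀ m ∈ P, m * y * m⁻¹ ∈ A n ∧ g * (m * y * m⁻¹) * g⁻¹ ∈ A n :=
    fun n y => by simp only [AS, mem_cor, mem_inf, mem_cj, gi]
  have nA : ∀ n, ∀ m ∈ P, ∀ y ∈ A (n + 1), m * y * m⁻¹ ∈ A (n + 1) := fun n m hm y hy => by
    rw [hA] at hy ⊢
    exact ⟨mul_mem (mul_mem hm hy.1) (inv_mem hm), fun z hz => by
      simpa [mul_assoc] using hy.2 _ (mul_mem hz hm)⟩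
  let V : ℤ → Set ι := fun m => {r | m + 1 ≤ C.vec r i ∧ 0 ≤ m}
  have Vp : ∀ m, ∀ r ∈ V m, C.Pos r := fun m r h => C.pos_of_coord (i := i) (by have := h.1; have := h.2; omega)
  have Vc : ∀ m, C.Closed (V m) := fun m => (ideal_lev i m).mono fun r h => Vp m r h i
  have nV : ∀ m, P ≤ normalizer (ρ.U (V m) : Set G) := fun m => by
    rw [hP, ρ.PJ_eq]
    refine sup_le (ρ.H_le_normalizer_U _) (ρ.U_le_normalizer ((ideal_lev i m).mono fun r h =>
      h.elim (fun h => h i) fun h => (h i (by simp)).ge) fun r h e => ?_)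
    have := e.1
    have := e.2
    have : 0 ≤ C.vec r i := h.elim (fun h => h i) fun h => (h i (by simp)).ge
    simp only [C.vec_neg, Pi.neg_apply] at *
    omega
  have lo : ∀ n : ℕ, ρ.U (V n) ≤ A n := fun n => by
    induction n with
    | zero => exact A0 ▸ (ρ.U_mono (Vp _)).trans (ρ.Up_le_Bo.trans (ρ.Bo_le_PJ _))
    | succ n ih =>
      intro y hy
      refine (hA n y).2 ⟨ρ.Bo_le_PJ _ (ρ.Up_le_Bo (ρ.U_mono (Vp _) hy)), fun m hm => ?_⟩
      have := (mem_normalizer_iff.1 (nV _ hm) y).1 hy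
      refine ⟨ih (ρ.U_mono (fun r h => ?_) this), ih (ag.conj_mem_U (fun r h => ?_) this)⟩
      · exact ⟨by have := h.1; push_cast at this; omega, by positivity⟩
      · have := h.1
        push_cast at this
        have := f2 r (by omega)
        exact ⟨by simp [C.vec_sref, C.vec_simple]; omega, by positivity⟩
  have inv : ∀ m r j, j ≠ i → r ∉ V m → C.sref j r ∉ V m := fun m r j hj h e =>
    h ⟨C.vec_sref_of_ne j r hj.symm ▸ e.1, e.2⟩
  have up : ∀ n : ℕ, A (n + 1) ≤ ρ.U (V (n + 1)) := fun n => by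
    induction n with
    | zero =>
      have b : ∀ y ∈ A 1, g * y * g⁻¹ ∈ P := fun y hy => by
        simpa [A0] using (((hA 0 y).1 hy).2 1 (one_mem _)).2
      have a := le_Bo hρ hC (fun y hy => ((hA 0 y).1 hy).1) (nA 0) b
      rw [Bo, hH, sup_bot_eq] at a
      refine core hρ (J := {i}ᶜ) (fun j hj => nA 0 _ (ns_mem_PJ hj)) (closed_Ui i) (fun _ h => h.1)
        (fun y hy => mem_Ui hρ (a hy) ag (b y hy) (by simp)) fun r h h' => ?_
      obtain ⟨j, hj, c⟩ := f1 r h.1 h.2 (by by_contra e; exact h' ⟨by push_cast; omega, by simp⟩)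
      exact ⟨j, hj, c, inv _ _ _ hj h'⟩
    | succ n ih =>
      refine core hρ (J := {i}ᶜ) (T := V (n + 1) ∩ C.sref i ⁻¹' V (n + 1))
        (fun j hj => nA (n + 1) _ (ns_mem_PJ hj)) ((Vc _).inter ((Vc _).preimage (C.sref_mem_Aut i)))
        (fun r h => Vp _ r h.1) (fun y hy => ?_) fun r h h' => ?_
      · have p : ∀ r ∈ C.sref i ⁻¹' V (n + 1), C.Pos r := fun r h => by
          simpa using (Vp _ _ h).sref (i := i) fun e => by
            have := h.1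
            simp [e, C.vec_simple] at this
            omega
        rw [← hρ.U_inf_U (Vc _) ((Vc _).preimage (C.sref_mem_Aut i))
          (RootSys.isNil_of_pos fun r hr => hr.elim (Vp _ r) (p r))]
        have := ((hA _ y).1 hy).2 1 (one_mem _)
        simp only [one_mul, inv_one, mul_one] at this
        exact ⟨ih this.1, by
          simpa [mul_assoc] using ag.inv_conj_mem_U (T := C.sref i ⁻¹' V (n + 1))
            (fun s hs => by simpa using hs) (ih this.2)⟩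
      · obtain ⟨j, -, c⟩ := (Vp _ r h.1).exists_simple_pos
        have hj : j ≠ i := fun e => h' ⟨by
          have := h.2.1
          subst e
          simp [C.vec_sref, C.vec_simple] at this
          push_cast
          omega, by positivity⟩
        exact ⟨j, hj, c, inv _ _ _ hj h'⟩
  have gP : g ∉ P := fun h => (ns_mem_PJ_iff hρ).1 h rfl
  have co : IsCoatom P := ⟨fun e => gP (e ▸ mem_top g), fun Z hZ => by
    have e := eq_PJ_of_Bo_le ((ρ.Bo_le_PJ _).trans hZ.le) (hG ▸ le_top)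
    rw [e, ← hG, ← ρ.PJ_univ]
    refine congrArg _ (Set.eq_univ_of_forall fun j => ?_)
    by_cases hj : j = i
    · by_contra h
      exact hZ.not_ge (e ▸ PJ_mono fun l hl e' => h (by rw [hj, ← show l = i from e']; exact hl))
    · exact hZ.le (ns_mem_PJ hj)⟩
  refine ⟨P, _, g, A, fun n => (A n).map (MulAut.conj g).toMonoidHom, co, rfl, fun e => ?_, ?_, A0, congrArg _ A0,
    AS, fun n => ?_, ?_, fun e => ?_⟩
  · have x := ρ.x_mem_U (S := {r | C.Pos r}) (C.pos_simple i) 1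
    have : _ ∈ P := ρ.Bo_le_PJ _ (ρ.Up_le_Bo x)
    rw [e, mem_cj] at this
    exact ((hρ.x_mem_U_iff (closed_Ui i) (RootSys.isNil_of_pos fun _ h => h.1) one_ne_zero).1
      (mem_Ui hρ (J := {i}ᶜ) x ag (by simpa only [gi] using this) (by simp))).2 rfl
  · exact (P.normalCore_normal.eq_bot_or_eq_top).resolve_right fun e =>
      co.1 (top_le_iff.1 (e ▸ P.normalCore_le))
  · ext y
    rw [mem_cj, hA, mem_cor]
    simp only [mem_inf, mem_cj, gi]
    refine and_congr_right fun _ => ⟨fun h m hm => ?_, fun h m hm => ?_⟩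
    · simpa [mul_assoc, gi, gg, g2, and_comm] using h _ hm
    · simpa [mul_assoc, gi, gg, g2, and_comm] using h (g * m * g) (by simpa [mul_assoc, gg, g2] using hm)
  · refine eq_bot_iff.2 ((up k).trans (ρ.U_le_iff.2 fun r h => ?_))
    have := h.1
    have := f3 r
    omega
  · obtain ⟨r, hr⟩ := f4
    exact one_ne_zero (hρ.x_eq_one_iff.1 (mem_bot.1 (e ▸ lo k (ρ.x_mem_U (S := V k) (r := r) ⟨hr.ge, by positivity⟩ 1))))

end

/-- An extremal example for iterated cores of conjugate maximal subgroups: there exist a finite group G and two distinct conjugate maximal subgroups M₁, M₂ of G, with M₁ having trivial core in G, such that, if we define two descending sequences of subgroups by A₀ = M₁, B₀ = M₂ and, for every i, A_{i+1} = the core in M₁ of A_i ∩ B_i and B_{i+1} = the core in M₂ of A_i ∩ B_i (the core in M of a subgroup Y ≤ M is the largest normal subgroup of M contained in Y), the subgroup A₆ is trivial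 while A₅ is not (so the index 6 cannot be lowered to 5). (One example is a maximal parabolic subgroup of the Chevalley group of type E₈ over a finite field and a suitable conjugate of it.) -/
theorem result :
    ∃ (G : Type) (_ : Group G) (_ : Finite G) (M₁ M₂ : Subgroup G) (g : G) (A B : ℕ → Subgroup G),
      IsCoatom M₁ ∧ M₂ = M₁.map (MulAut.conj g).toMonoidHom ∧ M₁ ≠ M₂ ∧ M₁.normalCore = ⊥ ∧ A 0 = M₁ ∧ B 0 = M₂ ∧
      (∀ i, A (i + 1) = ((A i ⊓ B i).subgroupOf M₁).normalCore.map M₁.subtype) ∧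
      (∀ i, B (i + 1) = ((A i ⊓ B i).subgroupOf M₂).normalCore.map M₂.subtype) ∧ A 6 = ⊥ ∧ A 5 ≠ ⊥ := by
  open CF.Chev in
  have := goodE8.nonempty
  have := StRep.isSimpleGroup_ad (K := ZMod 2) goodE8.conn (.inr (.inl a2NbE8))
  exact ⟨_, _, StRep.R3.finite_Gp StRep.r3_adSt StRep.faithful_adSt, main (K := ZMod 2) StRep.faithful_adRes (StRep.res_Gp _)
    goodE8.conn (eq_bot_iff.2 ((StRep.H_le_iff _).2 fun r t => by simp [Subsingleton.elim t 1]))
    ⟨3, by decide⟩ 5 (by decide +kernel) (by decide +kernel) (by decide +kernel) (by decide +kernel)⟩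

end Cfsg.Agent.S5751
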