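import Cfsg.Statements.S5752
import Cfsg.Agent.Perm.TW2

set_option autoImplicit false
open Cfsg

namespace Cfsg.Agent.S5752

open MulAction Subgroup CF.BG CF.Sig CF.Recog CF.Perm

theorem charP_subN {G : Type*} [Group G] [Finite G] {K H : Subgroup G} {p : ℕ} (h : CharP p H)
    (k : SubN K H) : CharP p K :=
  charP_iff.2 ⟨eq_bot_mono h.Lay (Lay_le_of_subN k), eq_bot_mono h.O (k.O_le _)⟩

/-- A form of the Thompson–Wielandt Theorem on primitive permutation groups. Let G be a finite group and M₁, M₂ two distinct conjugate maximal subgroups of G with trivial core in G; define two descending sequences of subgroups by A₀ = M₁, B₀ = M₂ and, for every i, A_{i+1} = the core in M₁ of A_i ∩ B_i and B_{i+1} = the core in M₂ of A_i ∩ B_i (the core in M of a subgroup Y ≤ M is the largest normal subgroup of M contained in Y). If A₂ and B₂ are both non-trivial, then for some prime p the subgroup generated by A₂ and B₂ is a p-group, and for each j the generalized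 Fitting subgroups of M_j and of its first core (A₁, resp. B₁) are their largest normal p-subgroups. -/
theorem result {G : Type*} [Group G] [Finite G] (M₁ M₂ : Subgroup G) (hmax : IsCoatom M₁) (g : G)
    (hconj : M₂ = M₁.map (MulAut.conj g).toMonoidHom) (hne : M₁ ≠ M₂) (hcore : M₁.normalCore = ⊥)
    (A B : ℕ → Subgroup G) (hA0 : A 0 = M₁) (hB0 : B 0 = M₂)
    (hA : ∀ i, A (i + 1) = ((A i ⊓ B i).subgroupOf M₁).normalCore.map M₁.subtype)
    (hB : ∀ i, B (i + 1) = ((A i ⊓ B i).subgroupOf M₂).normalCore.map M₂.subtype) (hA2 : A 2 ≠ ⊥) (hB2 : B 2 ≠ ⊥) :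
    ∃ p : ℕ, p.Prime ∧ IsPGroup p ↥(A 2 ⊔ B 2) ∧
      Cfsg.generalizedFittingSubgroup ↥M₁ = Cfsg.pCore p ↥M₁ ∧ Cfsg.generalizedFittingSubgroup ↥(A 1) = Cfsg.pCore p ↥(A 1) ∧
      Cfsg.generalizedFittingSubgroup ↥M₂ = Cfsg.pCore p ↥M₂ ∧ Cfsg.generalizedFittingSubgroup ↥(B 1) = Cfsg.pCore p ↥(B 1) := by
  have := faithful_quot hcore
  have hp := prim_quot hmax
  have e1 : stabilizer G ((1 : G) : G ⧸ M₁) = M₁ := stabilizer_quotient M₁
  have e2 : stabilizer G (g • ((1 : G) : G ⧸ M₁)) = M₂ := by rw [← cj_stab, e1, hconj]; rfl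
  generalize ((1 : G) : G ⧸ M₁) = a at e1 e2
  have h := orb_of_orbit hp.toIsPretransitive (a := a) (b := g • a) fun e => hne (by rw [← e1, e, e2])
  have hr : ∃ k : G, k • a = a ∧ k • g • a = g • a := ⟨1, by simp, by simp⟩
  have a1 := core_Kr h hr
  have b1 := core_Kr h.flip (x := g • a) hr
  have a2 := core_Pr h hr
  have b2 := core_Pr h.flip (x := g • a) hr
  rw [e1, e2] at a1 b1
  rw [e1] at a2
  rw [e2] at b2
  have l := Kr_le' (G := G) (r := fun x y => ∃ k : G, k • a = x ∧ k • g • a = y) hr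
  generalize (fun x y => ∃ k : G, k • a = x ∧ k • g • a = y) = r at *
  replace a1 : A 1 = Kr G r a := by rw [hA, hA0, hB0, a1]
  replace b1 : B 1 = Kr G (flip r) (g • a) := by rw [hB, hA0, hB0, inf_comm, b1]
  replace a2 : A 2 = Pr G r a := by rw [hA, a1, b1, a2]
  replace b2 : B 2 = Pr G (flip r) (g • a) := by rw [hB, a1, b1, inf_comm]; exact b2
  rw [a2] at hA2
  rw [b2] at hB2
  obtain ⟨p, hq, c⟩ := h.charP hp hA2 (h.flip.Pr_ne_bot hB2 a)
  have c' : CharP p (stabilizer G (g • a)) := by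
    rw [← cj_stab, CF.Sig.charP_iff, ← cj_Lay, ← cj_O, c.Lay, c.O, cj_bot, and_self]
  have o : ∀ {K H : Subgroup G}, CharP p H → K ≤ H → K ≠ ⊥ → 𝐎 {p} H ≠ ⊥ := fun c h1 h2 e => h2 (by
    rw [CF.Sig.CharP, e, cent_bot, inf_top_eq] at c; exact eq_bot_mono rfl (h1.trans c))
  refine ⟨p, hq, ?_, (charP_iff_fstar hq).1 (e1 ▸ c), (charP_iff_fstar hq).1
    (a1 ▸ charP_subN c (h.Kr_normal a).subN), (charP_iff_fstar hq).1 (e2 ▸ c'),
    (charP_iff_fstar hq).1 (b1 ▸ charP_subN c' (h.flip.Kr_normal _).subN)⟩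
  rw [a2, b2]
  exact ((pi_Pr hp h hq (o c (h.Pr_normal a).le hA2)).sup (pi_Pr hp h.flip hq
    (o c' (h.flip.Pr_normal _).le hB2)) (.inl ((Pr_le.trans l).trans
      (h.flip.Pr_normal _).norm))).isPGroup

end Cfsg.Agent.S5752
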