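import Mathlib
import Cfsg.Agent.Fgs2.Bin4
import Cfsg.Statements.S5753

set_option autoImplicit false
open Cfsg

namespace Cfsg.Agent.S5753

open MulAction CF.Fgs2.Bin in
theorem reduce.{u} {G : Type u} {Ω : Type*} [Group G] [Finite G] [MulAction G Ω] [FaithfulSMul G Ω]
    [IsPreprimitive G Ω] (N : Subgroup G) [N.Normal] (h1 : N ≠ ⊥) [IsMulCommutative N] (o : Ω) :
    ∃ (V : Type u) (_ : AddCommGroup V) (_ : Nontrivial V) (_ : DistribMulAction (stabilizer G o) V)
      (e : V ≃ Ω), e 0 = o ∧ (∀ (h : stabilizer G o) v, e (h • v) = (h : G) • e v) ∧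
      ∀ u, ∃ g : G, ∀ v, g • e v = e (u + v) := by
  have ht : IsPretransitive N Ω := IsQuasiPreprimitive.isPretransitive_of_normal fun h =>
    h1 (eq_bot_iff.2 fun n hn => eq_of_smul_eq_smul (α := Ω) fun x => by
      rw [one_smul]
      exact (h ▸ Set.mem_univ x : x ∈ fixedPoints N Ω) ⟨n, hn⟩)
  letI : CommGroup N := { (inferInstance : Group N) with mul_comm := mul_comm' }
  let φ : stabilizer G o →* MulAut N := MulAut.conjNormal.comp (stabilizer G o).subtype
  have hb : Function.Bijective fun v : Additive N => (v.toMul : G) • o := by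
    refine ⟨fun a b h => ?_, fun x => exists_smul_eq N o x⟩
    refine Additive.toMul.injective (Subtype.ext (eq_of_smul_eq_smul (α := Ω) fun x => ?_))
    obtain ⟨n, rfl⟩ := exists_smul_eq N o x
    have h : a.toMul • o = b.toMul • o := h
    change a.toMul • n • o = b.toMul • n • o
    rw [← mul_smul, ← mul_smul, mul_comm _ n, mul_comm _ n, mul_smul, mul_smul, h]
  have : Nontrivial N := (Subgroup.nontrivial_iff_ne_bot N).2 h1
  refine ⟨Additive N, inferInstance, inferInstance,
    { smul := fun g v => Additive.ofMul (φ g v.toMul)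
      one_smul := fun v => by change Additive.ofMul (φ 1 v.toMul) = v; rw [map_one]; rfl
      mul_smul := fun a b v => by change Additive.ofMul (φ (a * b) v.toMul) = _; rw [map_mul]; rfl
      smul_zero := fun g => by change Additive.ofMul (φ g 1) = _; rw [map_one]; rfl
      smul_add := fun g a b => by
        change Additive.ofMul (φ g (a.toMul * b.toMul)) = _; rw [map_mul]; rfl },
    Equiv.ofBijective _ hb, one_smul G o, fun h v => ?_, fun u => ⟨u.toMul, fun v => ?_⟩⟩
  · change ((h : G) * v.toMul * (h : G)⁻¹) • o = (h : G) • (v.toMul : G) • o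
    rw [mul_smul, mul_smul, mem_stabilizer_iff.1 (inv_mem h.2)]
  · exact (mul_smul _ _ _).symm

open MulAction CF.Fgs2.Bin in
theorem aux {G Ω V : Type*} [Group G] [Finite G] [MulAction G Ω] [FaithfulSMul G Ω] [Fintype Ω]
    [IsPreprimitive G Ω] {o : Ω} [AddCommGroup V] [Nontrivial V]
    [DistribMulAction (stabilizer G o) V] (e : V ≃ Ω) (e0 : e 0 = o)
    (e1 : ∀ (h : stabilizer G o) v, e (h • v) = (h : G) • e v)
    (e2 : ∀ u, ∃ g : G, ∀ v, g • e v = e (u + v))
    (hbin : ∀ (n : ℕ) (I J : Fin n → Ω), 2 ≤ n →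
      (∀ i j : Fin n, i ≠ j → ∃ g : G, g • I i = J i ∧ g • I j = J j) → ∃ g : G, ∀ i, g • I i = J i) :
    ((Fintype.card Ω).Prime ∧ Nat.card ↥(MulAction.stabilizer G o) ≤ 2) ∨
    (∃ (F E : Type) (_ : Field F) (_ : Fintype F) (_ : Field E) (_ : Fintype E) (_ : Algebra F E) (e : Ω ≃ E),
        Module.finrank F E = 2 ∧
        ∀ σ : Equiv.Perm Ω, σ ∈ (MulAction.toPermHom G Ω).range ↔
          ∃ (a b : E) (φ : E ≃ₐ[F] E), Algebra.norm F a = 1 ∧ ∀ ω : Ω, e (σ ω) = a * φ (e ω) + b) := by
  classical
  have : Finite V := Finite.of_equiv _ e.symm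
  have e3 : ∀ g : G, ∃ (u : V) (h : stabilizer G o), ∀ v, g • e v = e (u + h • v) := fun g => by
    obtain ⟨n, hn⟩ := e2 (e.symm (g • o))
    refine ⟨e.symm (g • o), ⟨n⁻¹ * g, ?_⟩, fun v => by rw [← hn, e1, smul_smul, mul_inv_cancel_left]⟩
    rw [mem_stabilizer_iff, mul_smul, inv_smul_eq_iff]
    nth_rw 2 [← e0]
    rw [hn, add_zero, e.apply_symm_apply]
  have hI : Irr (stabilizer G o) V := fun U hU => by
    have hB : IsBlock G (e '' U) := isBlock_iff_smul_eq_of_mem.2 (by
      rintro g _ ⟨x, hx, rfl⟩ ⟨y, hy, h⟩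
      obtain ⟨u, k, hk⟩ := e3 g
      rw [hk, e.injective.eq_iff] at h
      have hu : u ∈ U := by simpa [h] using sub_mem hy (hU k x hx)
      ext z
      constructor
      · rintro ⟨_, ⟨w, hw, rfl⟩, rfl⟩
        exact ⟨_, add_mem hu (hU k w hw), (hk w).symm⟩
      · rintro ⟨w, hw, rfl⟩
        exact ⟨_, ⟨_, hU k⁻¹ _ (sub_mem hw hu), rfl⟩, (hk _).trans (by simp)⟩)
    refine (IsPreprimitive.isTrivialBlock_of_isBlock hB).imp (fun h => eq_bot_iff.2 fun x hx =>
      e.injective (h ⟨x, hx, rfl⟩ ⟨0, zero_mem U, rfl⟩)) fun h => eq_top_iff.2 fun x _ => ?_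
    obtain ⟨y, hy, h⟩ : e x ∈ e '' U := h ▸ Set.mem_univ _
    exact e.injective h ▸ hy
  have B : Bn (stabilizer G o) V := by
    refine ⟨fun Y h0 y y' h => ?_, fun h hh => Subtype.ext (eq_of_smul_eq_smul (α := Ω) fun x => ?_), ?_⟩
    · have := Fintype.ofFinite Y
      have : Nonempty Y := ⟨⟨0, h0⟩⟩
      let q := (Fintype.equivFin (Option Y)).symm
      have key : ∀ c : Y, ∃ g : G, g • e y = e y' ∧ g • e c = e c := fun c => by
        obtain ⟨k, hk⟩ := h c c.2
        obtain ⟨a, ha⟩ := e2 c
        obtain ⟨b, hb⟩ := e2 (-c)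
        refine ⟨a * k * b, ?_, ?_⟩
        · rw [mul_smul, mul_smul, hb, ← e1, ha, neg_add_eq_sub, hk, add_sub_cancel]
        · rw [mul_smul, mul_smul, hb, ← e1, ha, neg_add_cancel, smul_zero, add_zero]
      obtain ⟨g, hg⟩ := hbin _ (fun i => e ((q i).elim y (↑))) (fun i => e ((q i).elim y' (↑)))
        (by rw [Fintype.card_option]; exact Nat.succ_le_succ Fintype.card_pos) fun i j hij => by
          have := q.injective.ne hij
          rcases hi : q i with _ | c <;> rcases hj : q j with _ | d
          · exact absurd (hi.trans hj.symm) this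
          · exact key d
          · exact (key c).imp fun _ => And.symm
          · exact ⟨1, one_smul _ _, one_smul _ _⟩
      have g1 : ∀ c : Y, g • e c = e c := fun c => by simpa using hg (q.symm (some c))
      have g2 : g • e y = e y' := by simpa using hg (q.symm none)
      refine ⟨⟨g, by simpa [e0] using g1 ⟨0, h0⟩⟩, fun c hc => e.injective ?_, e.injective ?_⟩
      · rw [e1]; exact g1 ⟨c, hc⟩
      · rw [e1]; exact g2
    · obtain ⟨v, rfl⟩ := e.surjective x
      rw [← e1, hh]; exact (one_smul G _).symm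
    · rcases hI (AddMonoidHom.id V + AddMonoidHom.id V).ker (fun k v hv => by
        change k • v + k • v = 0
        rw [← smul_add, show v + v = 0 from hv, smul_zero]) with h | h
      · exact Or.inr fun v hv => AddSubgroup.mem_bot.1 (h ▸ hv)
      · exact Or.inl fun v =>
          (h ▸ AddSubgroup.mem_top v : v ∈ (AddMonoidHom.id V + AddMonoidHom.id V).ker)
  refine (B.main hI).imp (fun h => ⟨?_, h.2⟩) ?_
  · rw [← Nat.card_eq_fintype_card, ← Nat.card_congr e]; exact h.1
  rintro ⟨F, E, _, _, _, _, _, f, c1, c2, c3⟩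
  refine ⟨F, E, inferInstance, inferInstance, inferInstance, inferInstance, inferInstance,
    e.symm.trans f.toEquiv, c1, fun σ => ⟨?_, ?_⟩⟩
  · rintro ⟨g, rfl⟩
    obtain ⟨u, k, hk⟩ := e3 g
    obtain ⟨a, φ, ha, h⟩ := c2 k
    refine ⟨a, f u, φ, ha, fun ω => ?_⟩
    obtain ⟨v, rfl⟩ := e.surjective ω
    change f (e.symm (g • e v)) = a * φ (f (e.symm (e v))) + f u
    rw [hk, e.symm_apply_apply, e.symm_apply_apply, map_add, h, add_comm]
  · rintro ⟨a, b, φ, ha, h⟩
    obtain ⟨k, hk⟩ := c3 a φ ha
    obtain ⟨n, hn⟩ := e2 (f.symm b)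
    refine ⟨n * k, Equiv.ext fun ω => e.symm.injective (f.injective ?_)⟩
    obtain ⟨v, rfl⟩ := e.surjective ω
    refine Eq.trans ?_ (h (e v)).symm
    change f (e.symm ((n * k) • e v)) = a * φ (f (e.symm (e v))) + b
    rw [mul_smul, ← e1, hn, e.symm_apply_apply, e.symm_apply_apply, map_add, hk, f.apply_symm_apply,
      add_comm]

/-- The binary primitive permutation groups of affine type (the known proof uses the classification of the finite simple groups). Let a finite group G act faithfully and primitively on a finite set Ω, with a non-trivial abelian normal subgroup, and suppose the action is binary: for every n ≥ 2 and all n-tuples I, J of points, if for every pair of positions some element of G carries the corresponding pair of entries of I to those of J, then a single element carries I to J. Then either Ω has a prime number of points and every point stabilizer has order at most 2, or Ω can be identified with a field E that is a quadratic extension of a subfield F in such a way that the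 permutations induced by G are exactly the maps x ↦ a·φ(x) + b with a ∈ E of norm 1 over F, φ an automorphism of E over F and b ∈ E (the affine group of the anisotropic plane orthogonal group). -/
theorem result {G Ω : Type*} [Group G] [Finite G] [MulAction G Ω] [FaithfulSMul G Ω] [Fintype Ω]
    (hprim : MulAction.IsPreprimitive G Ω)
    (haff : ∃ N : Subgroup G, N.Normal ∧ N ≠ ⊥ ∧ IsMulCommutative ↥N)
    (hbin : ∀ (n : ℕ) (I J : Fin n → Ω), 2 ≤ n →
      (∀ i j : Fin n, i ≠ j → ∃ g : G, g • I i = J i ∧ g • I j = J j) → ∃ g : G, ∀ i, g • I i = J i) :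
    ((Fintype.card Ω).Prime ∧ ∀ ω : Ω, Nat.card ↥(MulAction.stabilizer G ω) ≤ 2) ∨
    (∃ (F E : Type) (_ : Field F) (_ : Fintype F) (_ : Field E) (_ : Fintype E) (_ : Algebra F E) (e : Ω ≃ E),
        Module.finrank F E = 2 ∧
        ∀ σ : Equiv.Perm Ω, σ ∈ (MulAction.toPermHom G Ω).range ↔
          ∃ (a b : E) (φ : E ≃ₐ[F] E), Algebra.norm F a = 1 ∧ ∀ ω : Ω, e (σ ω) = a * φ (e ω) + b) := by
  obtain ⟨N, hN, h1, hc⟩ := haff
  have : Nontrivial N := (Subgroup.nontrivial_iff_ne_bot N).2 h1
  have key := fun o : Ω => (reduce N h1 o).elim fun _ h => h.elim fun _ h => h.elim fun _ h =>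
    h.elim fun _ h => h.elim fun e h => aux e h.1 h.2.1 h.2.2 hbin
  refine or_iff_not_imp_right.2 fun h => ⟨?_, fun o => ((key o).resolve_right h).2⟩
  rcases isEmpty_or_nonempty Ω with h0 | ⟨⟨o⟩⟩
  · obtain ⟨n, hn⟩ := exists_ne (1 : N)
    exact absurd (Subtype.ext (eq_of_smul_eq_smul (α := Ω) fun x => h0.elim x)) hn
  · exact ((key o).resolve_right h).1

end Cfsg.Agent.S5753
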