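import Cfsg.Statements.S5754
import Mathlib

set_option autoImplicit false
open Cfsg

namespace Cfsg.Agent.S5754

theorem expand {F V : Type*} [Field F] [AddCommGroup V] [Module F V] (Q : QuadraticForm F V)
    (x y z : V) (a b c : F) : Q (a • x + b • y + c • z) = a * a * Q x + b * b * Q y + c * c * Q z +
      a * b * (Q x + Q y - Q (x - y)) + a * c * (Q x + Q z - Q (x - z)) +
      b * c * (Q y + Q z - Q (y - z)) := by
  simp only [sub_eq_add_neg, QuadraticMap.map_add Q, QuadraticMap.map_smul, QuadraticMap.map_neg,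
    QuadraticMap.polar_add_left, QuadraticMap.polar_smul_left, QuadraticMap.polar_smul_right,
    QuadraticMap.polar_neg_right, smul_eq_mul]
  ring

theorem exists_dep {F V : Type*} [Field F] [Finite F] [AddCommGroup V] [Module F V]
    (Q : QuadraticForm F V) (hQ : Q.Anisotropic) (x y z : V) :
    ∃ a b c : F, ¬ (a = 0 ∧ b = 0 ∧ c = 0) ∧ a • x + b • y + c • z = 0 := by
  classical
  have := Fintype.ofFinite F
  obtain ⟨p, _, -, hp, -⟩ := FiniteField.card' F
  open MvPolynomial in
  let f : MvPolynomial (Fin 3) F := C (Q x) * (X 0 * X 0) + C (Q y) * (X 1 * X 1) +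
    C (Q z) * (X 2 * X 2) + C (Q x + Q y - Q (x - y)) * (X 0 * X 1) +
    C (Q x + Q z - Q (x - z)) * (X 0 * X 2) + C (Q y + Q z - Q (y - z)) * (X 1 * X 2)
  have h1 : ∀ (t : F) (i j : Fin 3), (MvPolynomial.C t * (MvPolynomial.X i * MvPolynomial.X j) :
      MvPolynomial (Fin 3) F).totalDegree ≤ 2 := fun t i j =>
    (MvPolynomial.totalDegree_mul _ _).trans (by
      have := MvPolynomial.totalDegree_mul (MvPolynomial.X i : MvPolynomial (Fin 3) F)
        (MvPolynomial.X j)
      simpa using this)
  have h2 : f.totalDegree < Fintype.card (Fin 3) := by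
    refine Nat.lt_succ_of_le ?_
    iterate 5 refine (MvPolynomial.totalDegree_add _ _).trans (max_le ?_ (h1 _ _ _))
    exact h1 _ _ _
  have h3 := char_dvd_card_solutions p h2
  by_contra! h
  have : Unique {w : Fin 3 → F // MvPolynomial.eval w f = 0} := ⟨⟨⟨0, by simp [f]⟩⟩, fun w => by
    by_contra h4
    refine h (w.1 0) (w.1 1) (w.1 2) (fun h5 h6 h7 => h4 (Subtype.ext (funext fun i => ?_)))
      (hQ _ ?_)
    · fin_cases i <;> assumption
    · rw [expand]; refine Eq.trans ?_ w.2; simp [f]; ring⟩
  rw [Fintype.card_unique] at h3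
  exact hp.one_lt.ne' (Nat.dvd_one.1 h3)

/-- Let V be a finite-dimensional vector space over a finite field F carrying an anisotropic quadratic form Q (Q(v) = 0 only for v = 0). Then the group of all maps v ↦ φ(v) + c, with φ an isometry of Q and c ∈ V, acts on V as a binary permutation group: given n ≥ 2 and two n-tuples u, u' of vectors such that every pair of corresponding entries of u is carried to that of u' by such a map, one such map carries u to u'. -/
theorem result {F V : Type*} [Field F] [Finite F] [AddCommGroup V] [Module F V] [Module.Finite F V]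
    (Q : QuadraticForm F V) (hQ : Q.Anisotropic) (n : ℕ) (hn : 2 ≤ n) (u u' : Fin n → V)
    (h2 : ∀ i j : Fin n, i ≠ j → ∃ (φ : Q.IsometryEquiv Q) (c : V), φ (u i) + c = u' i ∧ φ (u j) + c = u' j) :
    ∃ (φ : Q.IsometryEquiv Q) (c : V), ∀ i, φ (u i) + c = u' i := by
  let o : Fin n := ⟨0, by omega⟩
  have h1 : ∀ i j, Q (u i - u j) = Q (u' i - u' j) := by
    intro i j
    rcases eq_or_ne i j with rfl | hij
    · simp
    obtain ⟨φ, c, h3, h4⟩ := h2 i j hij
    rw [← h3, ← h4, add_sub_add_right_eq_sub, ← map_sub, φ.map_app]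
  have h3 : ∀ (i j k) (a b c : F), Q (a • (u i - u o) + b • (u j - u o) + c • (u k - u o)) =
      Q (a • (u' i - u' o) + b • (u' j - u' o) + c • (u' k - u' o)) := by
    intro i j k a b c
    simp only [expand, sub_sub_sub_cancel_right, h1]
  have h4 : ∀ (φ : V →ₗ[F] V) (j k), φ (u j - u o) = u' j - u' o → φ (u k - u o) = u' k - u' o →
      ∀ (i) (a b : F), u i - u o = a • (u j - u o) + b • (u k - u o) →
      φ (u i) + (u' o - φ (u o)) = u' i := by
    intro φ j k hj hk i a b hi
    have h5 := h3 j k i a b (-1)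
    rw [← hi, neg_one_smul, add_neg_cancel, map_zero, neg_one_smul] at h5
    have h6 := add_neg_eq_zero.1 (hQ _ h5.symm)
    rw [← hj, ← hk, ← map_smul, ← map_smul, ← map_add, ← hi, map_sub] at h6
    linear_combination (norm := abel) h6
  by_cases h5 : ∃ j k, LinearIndependent F ![u j - u o, u k - u o]
  · obtain ⟨j, k, h5⟩ := h5
    have h6 : LinearIndependent F ![u' j - u' o, u' k - u' o] := by
      rw [LinearIndependent.pair_iff] at h5 ⊢
      intro a b hab
      have := h3 j k k a b 0
      rw [zero_smul, zero_smul, add_zero, add_zero, hab, map_zero] at this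
      exact h5 a b (hQ _ this)
    have h7 : ∀ x y : V, LinearIndependent F ![x, y] → ∀ z, ∃ a b : F, z = a • x + b • y := by
      intro x y hxy z
      obtain ⟨a, b, c, h7, h8⟩ := exists_dep Q hQ x y z
      have hc : c ≠ 0 := by
        rintro rfl
        have := LinearIndependent.pair_iff.1 hxy a b (by simpa using h8)
        exact h7 ⟨this.1, this.2, rfl⟩
      refine ⟨-a / c, -b / c, smul_right_injective V hc ?_⟩
      simp only [smul_add, smul_smul, mul_div_cancel₀ _ hc, neg_smul]
      linear_combination (norm := abel) h8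
    have h8 : ∀ x y : V, LinearIndependent F ![x, y] → ⊤ ≤ Submodule.span F (Set.range ![x, y]) := by
      intro x y hxy z _
      obtain ⟨a, b, rfl⟩ := h7 x y hxy z
      exact Submodule.add_mem _ (Submodule.smul_mem _ _ (Submodule.subset_span ⟨0, rfl⟩))
        (Submodule.smul_mem _ _ (Submodule.subset_span ⟨1, rfl⟩))
    let φ := (Module.Basis.mk h5 (h8 _ _ h5)).equiv (Module.Basis.mk h6 (h8 _ _ h6)) (Equiv.refl _)
    have hj : φ (u j - u o) = u' j - u' o := by
      simpa using Module.Basis.equiv_apply (Module.Basis.mk h5 (h8 _ _ h5)) 0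
        (Module.Basis.mk h6 (h8 _ _ h6)) (Equiv.refl _)
    have hk : φ (u k - u o) = u' k - u' o := by
      simpa using Module.Basis.equiv_apply (Module.Basis.mk h5 (h8 _ _ h5)) 1
        (Module.Basis.mk h6 (h8 _ _ h6)) (Equiv.refl _)
    refine ⟨⟨φ, fun z => ?_⟩, u' o - φ (u o), fun i => ?_⟩
    · obtain ⟨a, b, rfl⟩ := h7 _ _ h5 z
      change Q (φ _) = _
      rw [map_add, map_smul, map_smul, hj, hk]
      simpa using (h3 j k k a b 0).symm
    · obtain ⟨a, b, h⟩ := h7 _ _ h5 (u i - u o)
      exact h4 φ j k hj hk i a b h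
  push Not at h5
  by_cases h6 : ∃ j, u j - u o ≠ 0
  · obtain ⟨j, hj⟩ := h6
    obtain ⟨φ, c, h7, h8⟩ := h2 o j (by rintro rfl; simp at hj)
    have h9 : φ (u j - u o) = u' j - u' o := by rw [map_sub, ← h7, ← h8]; abel
    refine ⟨φ, u' o - φ (u o), fun i => ?_⟩
    have := h5 j i
    rw [LinearIndependent.pair_iff' hj] at this
    push Not at this
    obtain ⟨a, ha⟩ := this
    exact h4 φ.toLinearEquiv j j h9 h9 i a 0 (by simp [ha])
  · push Not at h6
    exact ⟨.refl Q, u' o - u o, fun i => h4 LinearMap.id o o (by simp) (by simp) i 0 0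
      (by simp [h6])⟩

end Cfsg.Agent.S5754
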