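import Cfsg.Statements.S5883
import Cfsg.Agent.Fisch.F23.Mx
-- import your own Cfsg.Agent.* helpers here

set_option autoImplicit false
open Cfsg

namespace Cfsg.Agent.S5883

open CF.Fisch
open scoped commutatorElement

open CF.Fisch F23 Subgroup

/-- The constant 10 in the statement that H⁽¹⁰⁾ is perfect for every maximal subgroup H of a finite almost simple group cannot be lowered to 9: there exist a finite almost simple group G (with a non-abelian simple normal subgroup of trivial centralizer) and a maximal subgroup H of G whose ninth derived subgroup H⁽⁹⁾ is not perfect, i.e. H⁽¹⁰⁾ ≠ H⁽⁹⁾. (A solvable maximal subgroup of derived length 10 in the Fischer group Fi₂₃ is such an example.) -/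
theorem result :
    ∃ (G : Type) (_ : Group G) (_ : Finite G) (S H : Subgroup G), S.Normal ∧ IsSimpleGroup S ∧ ¬ IsMulCommutative S ∧
      Subgroup.centralizer (S : Set G) = ⊥ ∧ IsCoatom H ∧ derivedSeries H 10 ≠ derivedSeries H 9 := by
  obtain ⟨E, M⟩ := model
  have := M.simple
  exact ⟨_, _, M.finite, ⊤, _, inferInstance, topEquiv.isSimpleGroup,
    fun _ => M.sm0.not_comm (x := [1]) (y := [3]) (by decide +kernel) (setLike_mul_comm (mem_top _) (mem_top _)),
    coe_top (G := Spor.Fi23) ▸ centralizer_univ.trans M.center, Mx.coatom M, Mx.ne M⟩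

end Cfsg.Agent.S5883
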