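import Cfsg.Statements.S5885
import Cfsg.Agent.Perm.Sym

set_option autoImplicit false
open Cfsg

namespace Cfsg.Agent.S5885

open MulAction Equiv Pointwise in
theorem aux {G Ω : Type*} [Group G] [MulAction G Ω] [Finite Ω] (hodd : Odd (Nat.card Ω))
    (h3 : ∀ x y z : Ω, x ≠ y → x ≠ z → y ≠ z → ∃ g : G, g • x = y ∧ g • y = z ∧
      ∀ w, w ≠ x → w ≠ y → w ≠ z → g • w = w) (a : Ω) {H J K : Subgroup G}
    (hmax : ∀ L, H < L → L ≤ stabilizer G a → L = stabilizer G a)
    (hK : K ⊓ stabilizer G a = H) (hJ : H < J) (hJK : J ≤ K) : J = K := by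
  refine hJK.antisymm fun k hk => by_contra fun hkJ => ?_
  have h1 : ∀ g ∈ K, ∀ j ∈ J, ∀ j' ∈ J, g • j • a = j' • a → g ∈ J := fun g hg j hj j' hj' h => by
    have := hJ.le (hK.le (x := j'⁻¹ * g * j) ⟨K.mul_mem (K.mul_mem (K.inv_mem (hJK hj')) hg) (hJK hj),
      mem_stabilizer_iff.2 (by rw [mul_smul, mul_smul, h, inv_smul_smul])⟩)
    simpa [mul_assoc] using J.mul_mem (J.mul_mem hj' this) (J.inv_mem hj)
  obtain ⟨j, hj, hjH⟩ := SetLike.exists_of_lt hJ
  have h2 : j • a ≠ a := fun h => hjH (hK.le ⟨hJK hj, h⟩)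
  have h4 : ∀ j ∈ J, ∀ j' ∈ J, k • j • a ≠ j' • a := fun j hj j' hj' h => hkJ (h1 k hk j hj j' hj' h)
  have h5 : k • a ≠ k • j • a := fun h => h2 (smul_left_cancel k h).symm
  have h6 : ∀ j' ∈ J, k • a ≠ j' • a := fun j' hj' => by simpa using h4 1 J.one_mem j' hj'
  let L : Subgroup G := stabilizer G a ⊓ stabilizer G (orbit J a)
  have h7 : H = L := by
    have h8 : H ≤ L := fun h hh => ⟨(hK.ge hh).2, smul_orbit (⟨h, hJ.le hh⟩ : J) a⟩
    refine h8.eq_or_lt.resolve_right fun h => ?_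
    obtain ⟨g, g1, -, g3⟩ := h3 _ _ _ (h6 j hj).symm (h4 j hj j hj).symm h5
    have g4 := ((hmax L h inf_le_left).ge (g3 a h2.symm
      (by simpa using (h6 1 J.one_mem).symm) (by simpa using (h4 j hj 1 J.one_mem).symm))).2
    obtain ⟨j', hj'⟩ := g4.le (Set.smul_mem_smul_set (mem_orbit a (⟨j, hj⟩ : J)))
    exact h6 j' j'.2 (g1.symm.trans hj'.symm)
  obtain ⟨x, hx⟩ : ∃ x, x ∉ orbit J a ∪ k • orbit J a := by
    by_contra! h
    rw [← Set.ncard_univ, ← Set.eq_univ_of_forall h, Set.ncard_union_eq, Set.ncard_smul_set]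
      at hodd
    · exact Nat.not_odd_iff_even.2 ⟨_, rfl⟩ hodd
    · exact Set.disjoint_left.2 fun _ ⟨j, h⟩ ⟨_, ⟨j', rfl⟩, h'⟩ => h4 _ j'.2 _ j.2 (h'.trans h.symm)
  obtain ⟨g, g1, g2, g3⟩ := h3 _ _ x h5 (fun h => hx (Or.inr ⟨a, mem_orbit_self a, h⟩))
    fun h => hx (Or.inr ⟨_, mem_orbit a (⟨j, hj⟩ : J), h⟩)
  have g4 : ∀ y ∈ orbit J a, g • y = y := fun _ ⟨j', h⟩ => h ▸ g3 _ (h6 _ j'.2).symm
    (h4 _ hj _ j'.2).symm fun h => hx (Or.inl ⟨j', h⟩)
  have g5 : g ∈ K := (hK.ge (h7.ge ⟨g4 a (mem_orbit_self a),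
    (Set.image_congr g4).trans (Set.image_id _)⟩)).1
  have g6 := h1 (k⁻¹ * g * k) (K.mul_mem (K.mul_mem (K.inv_mem hk) g5) hk) 1 J.one_mem j hj
    (by simp [mul_smul, g1])
  exact hx (Or.inr ⟨_, ⟨⟨_, J.mul_mem g6 hj⟩, rfl⟩, by simp [mul_smul, g2]⟩)

/-- Let n be an odd positive integer such that every primitive permutation group of degree n contains the alternating group (so the symmetric and alternating groups are the only primitive groups of degree n). Let G be a finite group, M a maximal subgroup of G of index n, and H a maximal subgroup of M. Then H is a second maximal subgroup of G: H is maximal in every maximal subgroup K of G containing H. -/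
theorem result {G : Type*} [Group G]
    [Finite G] (n : ℕ) (hodd : Odd n)
    (hA : ∀ P : Subgroup (Equiv.Perm (Fin n)), MulAction.IsPreprimitive P (Fin n) → alternatingGroup (Fin n) ≤ P)
    (M : Subgroup G) (hM : IsCoatom M) (hn : M.index = n) (H : Subgroup G) (hHM : H ≤ M)
    (hmax : IsCoatom (H.subgroupOf M)) (K : Subgroup G) (hK : IsCoatom K) (hHK : H ≤ K) :
    IsCoatom (H.subgroupOf K) := by
  classical
  by_cases hKM : K = M
  · rwa [hKM]
  have h1 := (CF.Perm.isCoatom_subgroupOf_iff hHM).1 hmax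
  have h2 : K ⊓ M = H := ((le_inf hHK hHM).eq_or_lt.resolve_right fun h =>
    hKM ((hM.le_iff.1 (inf_eq_right.1 (h1.2 _ h inf_le_right))).resolve_left hK.1)).symm
  refine (CF.Perm.isCoatom_subgroupOf_iff hHK).2 ⟨fun h => hKM
    ((hK.le_iff.1 (h ▸ hHM)).resolve_left hM.1).symm, fun J h3 h4 => ?_⟩
  have := Fintype.ofFinite (G ⧸ M)
  let e : (G ⧸ M) ≃ Fin n := Finite.equivFinOfCardEq hn
  let f := e.permCongrHom.toMonoidHom.comp (MulAction.toPermHom G (G ⧸ M))
  have : Nontrivial (G ⧸ M) := Finite.one_lt_card_iff_nontrivial.1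
    (Subgroup.one_lt_index_of_ne_top hM.1)
  have hp : MulAction.IsPreprimitive G (G ⧸ M) := (MulAction.isCoatom_stabilizer_iff_preprimitive
    G ((1 : G) : G ⧸ M)).1 (by rwa [MulAction.stabilizer_quotient])
  have h5 := hA f.range ((MulAction.isPreprimitive_congr (φ := f.rangeRestrict)
    (f := ⟨e, fun g x => congrArg (fun y => e (g • y)) (e.symm_apply_apply x).symm⟩) f.rangeRestrict_surjective
    e.bijective).1 hp)
  refine aux (Ω := G ⧸ M) (by rwa [← hn] at hodd) (fun x y z h6 h7 h8 => ?_) ((1 : G) : G ⧸ M)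
    (by simpa only [MulAction.stabilizer_quotient] using h1.2)
    (by rwa [MulAction.stabilizer_quotient]) h3 h4
  obtain ⟨g, hg⟩ := h5 (x := e.permCongr (Equiv.swap x z * Equiv.swap x y)) (by simp [h6, h7])
  have hg' : ∀ w, g • w = Equiv.swap x z (Equiv.swap x y w) := fun w => by
    simpa [f] using DFunLike.congr_fun hg (e w)
  exact ⟨g, by simp [hg', Equiv.swap_apply_of_ne_of_ne h6.symm h8], by simp [hg'],
    fun w _ _ _ => by simp [hg', Equiv.swap_apply_of_ne_of_ne, *]⟩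

end Cfsg.Agent.S5885
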