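import Cfsg.Statements.S5890
import Cfsg.Agent.Classical.MaxL2c

set_option autoImplicit false
open Cfsg

namespace Cfsg.Agent.S5890

/-- Let F be a finite field with q ≥ 4 elements, let L ≤ PGL₂(F) be the image of SL₂(F) (a copy of PSL₂(F), of index gcd(2, q − 1)), and let M be a maximal subgroup of PGL₂(F) that does not contain L. Suppose q ∉ {7, 9, 11} and that q is not a prime congruent to ±11 or ±19 modulo 40. Then M ∩ L is a maximal subgroup of L. (For the excluded q there are maximal subgroups of PGL₂(q) — dihedral groups of order 12 and 16 at q = 7, of order 20 and 16 at q = 9, of order 20 at q = 11, and S₄ at the excluded primes — whose intersection with L is not maximal in L.) -/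
theorem result {F : Type*} [Field F]
    [Fintype F] (h4 : 4 ≤ Fintype.card F) (h7 : Fintype.card F ≠ 7) (h9 : Fintype.card F ≠ 9) (h11 : Fintype.card F ≠ 11)
    (h40 : (Fintype.card F).Prime → Fintype.card F % 40 ∉ ({11, 19, 21, 29} : Finset ℕ))
    (M : Subgroup (Matrix.ProjGenLinGroup (Fin 2) F)) (hM : IsCoatom M)
    (hML : ¬ (Matrix.ProjGenLinGroup.mk.comp Matrix.SpecialLinearGroup.toGL).range ≤ M) :
    IsCoatom ((M ⊓ (Matrix.ProjGenLinGroup.mk.comp Matrix.SpecialLinearGroup.toGL).range).subgroupOf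
      (Matrix.ProjGenLinGroup.mk.comp Matrix.SpecialLinearGroup.toGL).range) := by
  open CF.Classical MatrixGroups in
  change ¬ psl F ≤ M at hML
  change IsCoatom ((M ⊓ psl F).subgroupOf (psl F))
  rw [← Nat.card_eq_fintype_card] at *
  by_cases h2 : (2 : F) = 0
  · rw [isCoatom_subgroupOf_iff, psl_eq_top h2, inf_top_eq, covBy_top_iff]; exact hM
  have L := isL2_subgroup (AlgebraicClosure F) (le_refl (psl F))
  have ho := Nat.odd_iff.1 (odd_card_of_two_ne_zero h2)
  rcases max_PGL_cases (AlgebraicClosure F) h2 h4 hM hML with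
    ⟨x, rfl⟩ | ⟨x, y, hxy, rfl, -, h1⟩ | ⟨h1, h3, h5⟩ | ⟨K, c, r, hr, h1, h3, rfl⟩
  · rw [Subgroup.inf_subgroupOf_right]
    exact L.isCoatom_stabilizer x
  · rw [Subgroup.inf_subgroupOf_right]
    have h3 := two_mul_card_inf_psl h2 (torus_not_le_psl h2 hxy fun e => by
      rw [e, Subgroup.card_bot] at h1; omega)
    refine L.isCoatom_pairStab (Subgroup.range_subtype _) hxy ?_
    rw [Subgroup.range_subtype, index_psl_of_odd h2, card_torus_subgroup, mul_comm, h3]
    simp only [Finset.mem_insert, Finset.mem_singleton]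
    omega
  · rw [isCoatom_subgroupOf_iff]
    obtain ⟨A, h6, hA⟩ := exists_A4_le_of_S4 h5
    have h8 := two_mul_card_inf_psl h2 (S := M) fun e => by
      have := ((S4_le_psl_iff h2 h5).trans (isSquare_two_iff_card h2)).1 e; omega
    rw [card_of_equiv h5, card_S4, inf_comm] at h8
    rw [← Subgroup.eq_of_le_of_card_ge (le_inf h6 (A4_le_psl hA))
      (by rw [card_of_equiv hA, card_A4]; omega)]
    refine covBy_A4 h2 h1 h4 (by omega) (fun h => ?_) hA
    have h10 := mt not_five_dvd (not_not.2 h)
    have h12 := h40 h1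
    simp only [Finset.mem_insert, Finset.mem_singleton] at h12
    exact ((Nat.prime_dvd_prime_iff_eq Nat.prime_five h1).1 (by omega)).symm
  · rw [isCoatom_subgroupOf_iff, range_inf_psl_of_odd h2 h3 h1]
    exact covBy_map_subPGL h2 hr h1 h3 c

end Cfsg.Agent.S5890
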