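import Cfsg.Statements.S5894
import Cfsg.Agent.Perm.Sym

set_option autoImplicit false
open Cfsg

namespace Cfsg.Agent.S5894

open MulAction Equiv CF.Perm
open scoped Pointwise

theorem aux {Ω : Type} [Fintype Ω] [DecidableEq Ω] {m : ℕ} (hm : 2 ≤ m) (f : Ω → Fin 2)
    (hf : ∀ i, Nat.card {x // f x = i} = m) : ∃ M H K : Subgroup (Perm Ω), IsCoatom M ∧
      M.index = 2 * m ∧ H ≤ M ∧ IsCoatom (H.subgroupOf M) ∧ IsCoatom K ∧ H ≤ K ∧
      ¬ IsCoatom (H.subgroupOf K) := by
  have h1 := card_eq_mul_of_blocks hf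
  obtain ⟨a, ha⟩ := exists_mem_block (by omega) hf 0
  obtain ⟨c, hc⟩ := exists_mem_block (by omega) hf 1
  obtain ⟨a', h2, ha'⟩ := exists_ne_same_block hm hf a
  have : Nontrivial Ω := ⟨_, _, h2⟩
  set φ : Perm {x // x ≠ a} →* Perm Ω := Perm.ofSubtype
  have hφ : φ.range = stabilizer (Perm Ω) a := by
    ext g
    rw [Perm.mem_range_ofSubtype_iff (p := fun x => x ≠ a)]
    simp [Set.subset_def, not_imp_not]
  set O : Set {x // x ≠ a} := {x | f x = 1}
  set L := stabilizer (Perm Ω) {x | f x = 1}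
  have hL : ∀ g, g ∈ L ↔ ∀ x, f (g x) = f x := fun g => by
    simp only [L, mem_stabilizer_set, Perm.smul_def, Set.mem_ofPred_eq]
    exact forall_congr' fun x => by omega
  have h3 : IsCoatom (stabilizer (Perm {x // x ≠ a}) O) :=
    Perm.isCoatom_stabilizer ⟨⟨c, by grind⟩, hc⟩ ⟨⟨a', h2⟩, by simp [O, ha', ha]⟩ (by
      simp [h1]; omega)
  have h4 : (stabilizer (Perm {x // x ≠ a}) O).map φ ≤ L := by
    rintro _ ⟨g, hg, rfl⟩
    refine mem_stabilizer_set.2 fun x => ?_
    by_cases hx : x ≠ a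
    · simpa [O, φ, Perm.ofSubtype_apply_of_mem g hx] using mem_stabilizer_set.1 hg ⟨x, hx⟩
    · simp [φ, Perm.ofSubtype_apply_of_not_mem g hx]
  have h5 : L ≤ partStab f := fun g hg => mem_partStab_of_comp 1 ((hL g).1 hg)
  have h6 := (hφ ▸ Subgroup.map_le_range φ (stabilizer (Perm {x // x ≠ a}) O) :)
  refine ⟨_, _, _, IsPreprimitive.isCoatom_stabilizer_of_isPreprimitive _ a,
    by rw [index_stabilizer_of_transitive, Nat.card_eq_fintype_card, h1], h6, ?_,
    isCoatom_partStab hm le_rfl hf, h4.trans h5, fun h => ?_⟩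
  · rw [← hφ]
    have := (Subgroup.isCoatom_comap (MonoidHom.ofInjective (f := φ)
      Perm.ofSubtype_injective).symm).2 h3
    convert this
    ext ⟨_, g, rfl⟩
    rw [Subgroup.mem_subgroupOf, Subgroup.mem_map_iff_mem (f := φ) Perm.ofSubtype_injective]
    simp [show (⟨φ g, g, rfl⟩ : φ.range) = MonoidHom.ofInjective Perm.ofSubtype_injective g
      from rfl]
  · obtain ⟨k, h7, -⟩ := exists_swap_blocks hf 0 1
    have := ((isCoatom_subgroupOf_iff (h4.trans h5)).1 h).2 L ⟨h4, fun h8 => h2 ?_⟩ h5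
    · have := (hL k).1 (this.ge (mem_partStab_of_comp _ h7)) a
      simp [h7, ha] at this
    · simpa using h6 (h8 ((hL (swap a a')).2 fun x => by rw [swap_apply_def]; grind))

/-- For every m ≥ 2 the symmetric group on 2m letters has a maximal subgroup M of index 2m together with a maximal subgroup H of M that is not second maximal: some maximal subgroup K of the symmetric group contains H without H being maximal in K. (One may take M the stabiliser of a letter, H ≅ S_m × S_{m−1} inside it, and K ≅ S_m ≀ S₂ the stabiliser of a partition into two m-sets, with H < S_m × S_m < K.) So the prime-index hypothesis in the second-maximality criterion cannot be relaxed to any even index ≥ 4. -/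
theorem result (m : ℕ) (hm : 2 ≤ m) :
    ∃ M H K : Subgroup (Equiv.Perm (Fin (2 * m))), IsCoatom M ∧ M.index = 2 * m ∧ H ≤ M ∧ IsCoatom (H.subgroupOf M) ∧
      IsCoatom K ∧ H ≤ K ∧ ¬ IsCoatom (H.subgroupOf K) := by
  refine aux hm (fun x => (finProdFinEquiv.symm x).1) fun i => ?_
  rw [Nat.card_congr (finProdFinEquiv.symm.subtypeEquiv (q := fun y => y.1 = i) fun _ => Iff.rfl),
    Nat.card_congr (Equiv.prodSubtypeFstEquivSubtypeProd (p := fun y => y = i))]
  simp

end Cfsg.Agent.S5894
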