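import Cfsg.Statements.S5895
import Cfsg.Agent.Perm.Sym

set_option autoImplicit false
open Cfsg

namespace Cfsg.Agent.S5895

open MulAction CF.Perm
open scoped LinearAlgebra.Projectivization

theorem aux {K V : Type} [Field K] [AddCommGroup V] [Module K V] [Finite V]
    [Nontrivial (ℙ K V)] : ∃ (M H L : Subgroup (V ≃ᵃ[K] V)), IsCoatom M ∧ M.index = Nat.card V ∧
      H ≤ M ∧ IsCoatom (H.subgroupOf M) ∧ IsCoatom L ∧ H ≤ L ∧ ¬ IsCoatom (H.subgroupOf L) := by
  letI : MulAction (V ≃ᵃ[K] V) V :=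
    { smul := fun g v => g v, one_smul := fun _ => rfl, mul_smul := fun _ _ _ => rfl }
  have hs : ∀ (g : V ≃ᵃ[K] V) (v : V), g • v = g v := fun _ _ => rfl
  have h2 := Projectivization.linearEquiv_is_two_pretransitive K V
  have h1 := isPretransitive_of_is_two_pretransitive (G := V ≃ₗ[K] V) (α := ℙ K V)
  have h3 : ∀ v w : V, v ≠ 0 → w ≠ 0 → ∃ A : V ≃ₗ[K] V, A v = w := fun v w hv hw => by
    obtain ⟨A, hA⟩ := exists_smul_eq (V ≃ₗ[K] V) (Projectivization.mk K v hv)
      (Projectivization.mk K w hw)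
    rw [Projectivization.smul_mk, eq_comm, Projectivization.mk_eq_mk_iff] at hA
    obtain ⟨a, ha⟩ := hA
    exact ⟨A.trans (LinearEquiv.smulOfUnit a), ha⟩
  have : IsPretransitive (V ≃ᵃ[K] V) V :=
    ⟨fun v w => ⟨AffineEquiv.constVAdd K V (w - v), by simp [hs]⟩⟩
  obtain ⟨l, l', hl⟩ := exists_pair_ne (ℙ K V)
  have : Nontrivial V := ⟨_, _, l.rep_nonzero⟩
  have h4 : IsMultiplyPretransitive (V ≃ᵃ[K] V) V 2 := twoTrans_of_stabilizer 0 fun v w hv hw => by
    obtain ⟨A, hA⟩ := h3 v w hv hw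
    exact ⟨A.toAffineEquiv, by simp [hs], hA⟩
  have := isPreprimitive_of_is_two_pretransitive h4
  have := isPreprimitive_of_is_two_pretransitive h2
  have h5 := IsPreprimitive.isCoatom_stabilizer_of_isPreprimitive (V ≃ₗ[K] V) l
  set π : (V ≃ᵃ[K] V) →* V ≃ₗ[K] V := AffineEquiv.linearHom
  set M := stabilizer (V ≃ᵃ[K] V) (0 : V)
  set L := (stabilizer (V ≃ₗ[K] V) l).comap π
  have h6 : Function.Surjective (π.comp M.subtype) := fun A =>
    ⟨⟨A.toAffineEquiv, by simp [M, hs]⟩, rfl⟩
  have h7 : ∀ (g : V ≃ᵃ[K] V) v, g v = π g v + g 0 := fun g v => by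
    simpa using! g.map_vadd 0 v
  have h8 : ∀ g ∈ L, ∀ v ∈ l.submodule, π g v ∈ l.submodule := fun g hg v hv => by
    have : π g • l = l := hg
    rw [← l.mk_rep, Projectivization.smul_mk, Projectivization.mk_eq_mk_iff'] at this
    obtain ⟨a, ha⟩ := this
    rw [l.submodule_eq, Submodule.mem_span_singleton] at hv ⊢
    obtain ⟨c, rfl⟩ := hv
    exact ⟨c * a, by rw [mul_smul, ha, map_smul]; rfl⟩
  refine ⟨M, M ⊓ L, L, IsPreprimitive.isCoatom_stabilizer_of_isPreprimitive _ _,
    index_stabilizer_of_transitive _ _, inf_le_left, ?_,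
    Subgroup.isCoatom_comap_of_surjective (fun A => ⟨A.toAffineEquiv, rfl⟩) h5, inf_le_right,
    fun h => ?_⟩
  · rw [Subgroup.inf_subgroupOf_left]
    exact Subgroup.isCoatom_comap_of_surjective h6 h5
  · let N : Subgroup (V ≃ᵃ[K] V) :=
      { carrier := {g | g ∈ L ∧ g 0 ∈ l.submodule}
        one_mem' := ⟨L.one_mem, l.submodule.zero_mem⟩
        mul_mem' := fun {a b} ha hb => ⟨L.mul_mem ha.1 hb.1, by
          change a (b 0) ∈ _
          rw [h7]
          exact add_mem (h8 a ha.1 _ hb.2) ha.2⟩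
        inv_mem' := fun {a} ha => ⟨L.inv_mem ha.1, by
          have := h7 a⁻¹ (a 0)
          rw [show a⁻¹ (a 0) = 0 from a.symm_apply_apply 0, eq_comm, add_eq_zero_iff_neg_eq] at this
          exact this ▸ neg_mem (h8 _ (L.inv_mem ha.1) _ ha.2)⟩ }
    have h9 : ∀ v, AffineEquiv.constVAdd K V v ∈ L := fun v =>
      show π _ ∈ stabilizer _ l from (stabilizer (V ≃ₗ[K] V) l).one_mem
    have := ((isCoatom_subgroupOf_iff inf_le_right).1 h).2 N ⟨fun g hg => ⟨hg.2, by
      rw [show g 0 = 0 from hg.1]; exact zero_mem _⟩, fun h10 => ?_⟩ fun g hg => hg.1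
    · have := (this.ge (h9 l'.rep)).2
      rw [l.submodule_eq, Submodule.mem_span_singleton] at this
      rw [← l.mk_rep, ← l'.mk_rep, ne_eq, eq_comm, Projectivization.mk_eq_mk_iff'] at hl
      exact hl (by simpa using this)
    · have := (h10 (x := AffineEquiv.constVAdd K V l.rep) ⟨h9 _, by
        simp [Projectivization.submodule_eq]⟩).1
      exact l.rep_nonzero (by simpa [M, hs] using this)

/-- For every prime p and every d ≥ 2 there is a finite group G with a maximal subgroup M of index p^d and a maximal subgroup H of M that is not second maximal in G: some maximal subgroup K of G contains H without H being maximal in K. (One may take G the affine group V ⋊ GL(V) of V = 𝔽_p^d, M = GL(V), H the stabiliser in M of a line W of V, and K = V ⋊ H, with H < W ⋊ H < K.) So the prime-index hypothesis in the second-maximality criterion cannot be relaxed to prime-power index. -/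
theorem result (p d : ℕ) (hp : p.Prime)
    (hd : 2 ≤ d) :
    ∃ (G : Type) (_ : Group G) (_ : Finite G) (M H K : Subgroup G), IsCoatom M ∧ M.index = p ^ d ∧ H ≤ M ∧
      IsCoatom (H.subgroupOf M) ∧ IsCoatom K ∧ H ≤ K ∧ ¬ IsCoatom (H.subgroupOf K) := by
  have := Fact.mk hp
  have : Nontrivial (ℙ (ZMod p) (Fin d → ZMod p)) := by
    refine ⟨Projectivization.mk _ (Pi.single ⟨0, by omega⟩ 1) (by simp),
      Projectivization.mk _ (Pi.single ⟨1, by omega⟩ 1) (by simp), fun h => ?_⟩
    obtain ⟨a, ha⟩ := (Projectivization.mk_eq_mk_iff' _ _ _ _ _).1 h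
    simpa [Pi.single_apply, Fin.ext_iff] using congrFun ha ⟨0, by omega⟩
  have : Finite ((Fin d → ZMod p) ≃ᵃ[ZMod p] (Fin d → ZMod p)) :=
    Finite.of_injective _ (DFunLike.coe_injective)
  obtain ⟨M, H, L, h⟩ := aux (K := ZMod p) (V := Fin d → ZMod p)
  exact ⟨_, inferInstance, this, M, H, L, by simpa using h⟩

end Cfsg.Agent.S5895
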