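import Cfsg.Statements.S5896
import Cfsg.Agent.Perm.Multi
import Cfsg.Agent.Char.Integral

set_option autoImplicit false
open Cfsg

namespace Cfsg.Agent.S5896

open RegularWreathProduct in
theorem solvable_wr (S Q : Type) [Group S] [Group Q] [Group.IsSolvable S] (H : Subgroup (S ≀ᵣ Q))
    [Group.IsSolvable (H.map rightHom)] : Group.IsSolvable H := by
  have : Group.IsSolvable (rightHom (D := S) (Q := Q)).ker := by
    obtain ⟨n, hn⟩ := Group.IsSolvable.solvable (G := S)
    refine ⟨n, eq_bot_iff.2 fun x hx => Subtype.ext (RegularWreathProduct.ext (funext fun q => ?_) x.2)⟩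
    let ev : (rightHom (D := S) (Q := Q)).ker →* S := MonoidHom.mk' (fun y => y.1.left q)
      fun y z => by simp [show y.1.right = 1 from y.2]
    exact hn.le (map_derivedSeries_le_derivedSeries ev n ⟨x, hx, rfl⟩)
  have : Group.IsSolvable (rightHom.subgroupMap H).ker :=
    Group.isSolvable_of_isSolvable_injective (G' := (rightHom (D := S) (Q := Q)).ker)
      (f := MonoidHom.mk' (fun y => ⟨y.1.1, congrArg Subtype.val y.2⟩) fun _ _ => rfl)
      fun _ _ h => Subtype.ext (Subtype.ext (congrArg (fun z => z.1) h :))
  exact Group.isSolvable_of_ker_le_range (rightHom.subgroupMap H).ker.subtype (rightHom.subgroupMap H)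
    (by simp)

open RegularWreathProduct in
theorem exists_comm {S Q : Type} [Group S] [Group Q] (w : S ≀ᵣ Q) (hw : w.right ≠ 1) (s : S) :
    ∃ b : S ≀ᵣ Q, (b * w * b⁻¹ * w⁻¹).right = 1 ∧ (b * w * b⁻¹ * w⁻¹).left 1 = s := by
  classical
  exact ⟨⟨Pi.mulSingle 1 s, 1⟩, by simp, by simp [hw]⟩

open RegularWreathProduct in
theorem derived_ne_bot {S Q G : Type} [Group S] [Group Q] [Group G] (f : G →* S ≀ᵣ Q)
    (h : ∀ s, ∃ x, (f x).right = 1 ∧ (f x).left 1 = s) {d : ℕ} (hd : derivedSeries S d ≠ ⊥) :
    derivedSeries G d ≠ ⊥ := by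
  intro h1
  let K := (rightHom.comp f).ker
  let ev : K →* S := MonoidHom.mk' (fun y => (f y.1).left 1)
    fun y z => by simp [show (f y.1).right = 1 from y.2]
  have h2 := map_derivedSeries_le_derivedSeries K.subtype d
  rw [h1, le_bot_iff, Subgroup.map_eq_bot_iff_of_injective _ K.subtype_injective] at h2
  have h3 := derivedSeries_le_map_derivedSeries (f := ev) (fun s => by
    obtain ⟨x, h1, h2⟩ := h s
    exact ⟨⟨x, h1⟩, h2⟩) d
  rw [h2, Subgroup.map_bot, le_bot_iff] at h3
  exact hd h3

theorem exists_solvable (d : ℕ) : ∃ (S : Type) (_ : Group S) (_ : Finite S),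
    Group.IsSolvable S ∧ derivedSeries S d ≠ ⊥ := by
  induction d with
  | zero => exact ⟨Multiplicative (ZMod 2), inferInstance, inferInstance, inferInstance, top_ne_bot⟩
  | succ d ih =>
    obtain ⟨S, _, _, _, hd⟩ := ih
    let W := S ≀ᵣ Multiplicative (ZMod 2)
    have := solvable_wr S (Multiplicative (ZMod 2)) ⊤
    refine ⟨W, inferInstance, inferInstance,
      Group.isSolvable_of_surjective (f := Subgroup.topEquiv.toMonoidHom) (MulEquiv.surjective _),
      fun h => derived_ne_bot (commutator W).subtype (fun s => ?_) hd ?_⟩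
    · obtain ⟨b, h⟩ := exists_comm (RegularWreathProduct.inl (D := S)
        (Multiplicative.ofAdd (1 : ZMod 2))) (by rw [RegularWreathProduct.right_inl]; decide) s
      exact ⟨⟨_, Subgroup.commutator_mem_commutator (Subgroup.mem_top _) (Subgroup.mem_top _)⟩, h⟩
    · have : ∀ n, (derivedSeries (commutator W) n).map (commutator W).subtype ≤
          derivedSeries W (n + 1) := by
        intro n
        induction n with
        | zero => exact Subgroup.map_subtype_le _
        | succ n ih =>
          rw [derivedSeries_succ, Subgroup.map_commutator, derivedSeries_succ]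
          exact Subgroup.commutator_mono ih ih
      have h1 := this d
      rwa [h, le_bot_iff, Subgroup.map_eq_bot_iff_of_injective _ (Subgroup.subtype_injective _)] at h1

/-- Finite perfect groups have solvable maximal subgroups of unbounded derived length: for every d there is a finite perfect group G (equal to its commutator subgroup) with a solvable maximal subgroup H whose derived length exceeds d, i.e. the d-th term of the derived series of H is non-trivial. (Take the derived subgroup of a wreath product S ≀ A₅ with S solvable of large derived length, and H the preimage of a maximal subgroup of A₅.) -/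
theorem result (d : ℕ) :
    ∃ (G : Type) (_ : Group G) (_ : Finite G) (H : Subgroup G), commutator G = ⊤ ∧ IsCoatom H ∧ Group.IsSolvable H ∧
      derivedSeries H d ≠ ⊥ := by
  obtain ⟨S, _, _, _, hd⟩ := exists_solvable d
  let A := alternatingGroup (Fin 5)
  let W := S ≀ᵣ A
  obtain ⟨_, ⟨n, rfl⟩, hn⟩ := wellFounded_lt.has_min (Set.range (derivedSeries W)) ⟨_, 0, rfl⟩
  let G := derivedSeries W n
  have h1 : ⁅G, G⁆ = G := ((Subgroup.commutator_le_self G).lt_or_eq).resolve_left
    (hn _ ⟨n + 1, rfl⟩)
  let π : G →* A := RegularWreathProduct.rightHom.comp G.subtype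
  have hA : ∀ m, derivedSeries A m = ⊤ := by
    intro m
    induction m with
    | zero => rfl
    | succ m ih => rw [derivedSeries_succ, ih]; exact commutator_alternatingGroup_eq_top (by simp)
  have hπ : Function.Surjective π := fun a => by
    obtain ⟨x, hx, rfl⟩ := derivedSeries_le_map_derivedSeries (f := RegularWreathProduct.rightHom
      (D := S) (Q := A)) (fun a => ⟨.inl a, rfl⟩) n ((hA n).ge (Subgroup.mem_top a))
    exact ⟨⟨x, hx⟩, rfl⟩
  have := alternatingGroup.isPreprimitive_of_three_le_card (Fin 5) (by simp)
  let M := MulAction.stabilizer A (0 : Fin 5)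
  have hM : Group.IsSolvable M := by
    apply CF.Char.isSolvable_of_card_primeFactors_le_two
    have h2 := CF.Perm.card_mul_card_stabilizer (G := A) (0 : Fin 5)
    rw [nat_card_alternatingGroup] at h2
    simp only [Nat.card_eq_fintype_card (α := Fin 5), Fintype.card_fin] at h2
    rw [show Nat.card M = 12 by simp only [M]; norm_num [Nat.factorial] at h2 ⊢; omega]
    decide +kernel
  refine ⟨G, inferInstance, inferInstance, M.comap π, ?_, Subgroup.isCoatom_comap_of_surjective hπ
    (MulAction.IsPreprimitive.isCoatom_stabilizer_of_isPreprimitive A 0), ?_,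
    derived_ne_bot (G.subtype.comp (M.comap π).subtype) (fun s => ?_) hd⟩
  · apply Subgroup.map_injective G.subtype_injective
    rw [Subgroup.map_subtype_commutator, h1, ← MonoidHom.range_eq_map, Subgroup.range_subtype]
  · have : Group.IsSolvable (((M.comap π).map G.subtype).map RegularWreathProduct.rightHom) := by
      rw [Subgroup.map_map]
      exact Group.isSolvable_of_isSolvable_injective
        (Subgroup.inclusion_injective (Subgroup.map_comap_le π M))
    have := solvable_wr S A ((M.comap π).map G.subtype)
    exact Group.isSolvable_of_isSolvable_injective (f := (Subgroup.equivMapOfInjective _ _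
      G.subtype_injective).toMonoidHom) (MulEquiv.injective _)
  · obtain ⟨a, ha⟩ := exists_ne (1 : A)
    obtain ⟨w, rfl⟩ := hπ a
    obtain ⟨b, h2, h3⟩ := exists_comm w.1 ha s
    refine ⟨⟨⟨_, G.mul_mem ((derivedSeries_normal W n).conj_mem _ w.2 b) (G.inv_mem w.2)⟩, ?_⟩,
      h2, h3⟩
    rw [Subgroup.mem_comap, show π _ = 1 from h2]
    exact M.one_mem

end Cfsg.Agent.S5896
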