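import Cfsg.Statements.S5902
import Cfsg.Agent.S5901

set_option autoImplicit false
open Cfsg

namespace Cfsg.Agent.S5902

/-- Let G be a finite group, X a subgroup whose own subgroup lattice is complemented, and suppose X lies in exactly one maximal subgroup M of G. Then every subgroup H of G not contained in the normal core of M has a complement in the subgroup lattice of G (some C with H ⊔ C = G and H ⊓ C = 1); in particular the subgroup lattice of G modulo the normal core of M is complemented. -/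
theorem result {G : Type*} [Group G] [Finite G] (X M : Subgroup G)
    (hK : ComplementedLattice (Subgroup X))
    (hM : IsCoatom M) (hXM : X ≤ M) (huniq : ∀ M' : Subgroup G, IsCoatom M' → X ≤ M' → M' = M) :
    (∀ H : Subgroup G, ¬ H ≤ M.normalCore → ∃ C : Subgroup G, H ⊔ C = ⊤ ∧ H ⊓ C = ⊥) ∧
    ComplementedLattice (Subgroup (G ⧸ M.normalCore)) := by
  have key : ∀ H : Subgroup G, ¬ H ≤ M.normalCore → ∃ C : Subgroup G, H ⊔ C = ⊤ ∧ H ⊓ C = ⊥ := by
    intro H hH
    obtain ⟨h, hh, g, hg⟩ : ∃ h ∈ H, ∃ g : G, g * h * g⁻¹ ∉ M := by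
      by_contra! h; exact hH h
    let e := (MulAut.conj g).mapSubgroup
    obtain ⟨C, h1, h2⟩ := Cfsg.Agent.S5901.result ⊥ X M bot_le (ne_top_of_le_ne_top hM.1 hXM)
      (fun Y _ hY => by
        obtain ⟨C, hC⟩ := exists_isCompl (Y.subgroupOf X)
        refine ⟨C.map X.subtype, bot_le, Subgroup.map_subtype_le _, ?_, ?_⟩
        · rw [← Subgroup.map_subgroupOf_eq_of_le hY, ← Subgroup.map_sup, hC.sup_eq_top,
            ← MonoidHom.range_eq_map, Subgroup.range_subtype]
        · rw [← Subgroup.map_subgroupOf_eq_of_le hY, ← Subgroup.map_inf _ _ _ X.subtype_injective,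
            hC.inf_eq_bot, Subgroup.map_bot]) hM hXM huniq (e H) (fun h1 => hg (h1 ⟨h, hh, rfl⟩))
      (inf_bot_eq _)
    exact ⟨e.symm C, e.injective (by simpa using h1), e.injective (by simpa using h2)⟩
  refine ⟨key, ⟨fun H => ?_⟩⟩
  rcases eq_or_ne H ⊥ with rfl | hH
  · exact ⟨⊤, isCompl_bot_top⟩
  have hs := QuotientGroup.mk'_surjective M.normalCore
  obtain ⟨C, h1, h2⟩ := key (H.comap (QuotientGroup.mk' _)) fun h => hH (by
    rw [← Subgroup.map_comap_eq_self_of_surjective hs H, Subgroup.map_eq_bot_iff,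
      QuotientGroup.ker_mk']
    exact h)
  refine ⟨C.map (QuotientGroup.mk' _), disjoint_iff.2 (eq_bot_iff.2 ?_), codisjoint_iff.2 ?_⟩
  · rintro _ ⟨h3, c, hc, rfl⟩
    rw [show c = 1 from h2.le ⟨h3, hc⟩, map_one]
    exact Subgroup.one_mem _
  · rw [← Subgroup.map_comap_eq_self_of_surjective hs H, ← Subgroup.map_sup, h1,
      Subgroup.map_top_of_surjective _ hs]

end Cfsg.Agent.S5902
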