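import Cfsg.Statements.S5903
import Cfsg.Agent.S5901

set_option autoImplicit false
open Cfsg

namespace Cfsg.Agent.S5903

/-- Let G be a finite simple group, X a subgroup lying in exactly one maximal subgroup M of G, and N a subgroup of prime order with N ≤ X that is central in M. If the subgroup lattice of X/N is complemented, then the subgroup lattice of G is complemented. -/
theorem result {G : Type*} [Group G] [Finite G] [IsSimpleGroup G] (X M N : Subgroup G)
    (hM : IsCoatom M) (hXM : X ≤ M) (huniq : ∀ M' : Subgroup G, IsCoatom M' → X ≤ M' → M' = M)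
    (hNX : N ≤ X) (hN : (Nat.card N).Prime) (hcen : ∀ n ∈ N, ∀ m ∈ M, m * n = n * m)
    [(N.subgroupOf X).Normal] (hK : ComplementedLattice (Subgroup (X ⧸ N.subgroupOf X))) :
    ComplementedLattice (Subgroup G) := by
  refine ⟨fun H => ?_⟩
  rcases eq_or_ne H ⊥ with rfl | hH
  · exact ⟨⊤, isCompl_bot_top⟩
  rcases eq_or_ne H ⊤ with rfl | hH'
  · exact ⟨⊥, isCompl_top_bot⟩
  have := Fact.mk hN
  obtain ⟨g, h1, h2⟩ : ∃ g : G, ¬ (MulAut.conj g).mapSubgroup H ≤ M ∧
      (MulAut.conj g).mapSubgroup H ⊓ N = ⊥ := by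
    by_contra! h
    have h1 : (Subgroup.normalizer (H : Set G)).normalCore ≠ ⊥ := by
      intro h1
      have h2 : N ≤ (Subgroup.normalizer (H : Set G)).normalCore := by
        intro n hn g
        by_cases h3 : (MulAut.conj g⁻¹).mapSubgroup H ≤ M
        · refine Subgroup.centralizer_le_normalizer _ fun x hx => ?_
          have := hcen n hn _ (h3 ⟨x, hx, rfl⟩)
          simp only [MonoidHom.coe_coe, MulAut.conj_apply, inv_inv] at this
          calc x * (g * n * g⁻¹) = g * (g⁻¹ * x * g * n) * g⁻¹ := by group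
            _ = _ := by rw [this]; group
        · have h4 := (Subgroup.eq_bot_or_eq_top_of_prime_card
            (((MulAut.conj g⁻¹).mapSubgroup H).subgroupOf N)).resolve_left
            (fun h4 => h g⁻¹ h3 (disjoint_iff.1 (Subgroup.subgroupOf_eq_bot.1 h4)))
          obtain ⟨x, hx, rfl⟩ := Subgroup.subgroupOf_eq_top.1 h4 hn
          exact Subgroup.le_normalizer (by simpa [mul_assoc] using hx)
      rw [h1, le_bot_iff] at h2
      rw [h2, Subgroup.card_bot] at hN
      exact Nat.not_prime_one hN
    have h2 := Subgroup.normalizer_eq_top_iff.1 (eq_top_iff.2 (((Subgroup.normalCore_normal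
      _).eq_bot_or_eq_top.resolve_left h1).ge.trans (Subgroup.normalCore_le _)))
    exact h2.eq_bot_or_eq_top.elim hH hH'
  let e := (MulAut.conj g).mapSubgroup
  obtain ⟨C, h3, h4⟩ := Cfsg.Agent.S5901.result N X M hNX (ne_top_of_le_ne_top hM.1 hXM)
    (fun Y hY hY' => by
      obtain ⟨C, hC⟩ := exists_isCompl ((Y.subgroupOf X).map (QuotientGroup.mk' (N.subgroupOf X)))
      have h3 : ((Y.subgroupOf X).map (QuotientGroup.mk' (N.subgroupOf X))).comap
          (QuotientGroup.mk' _) = Y.subgroupOf X := Subgroup.comap_map_eq_self (by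
        rw [QuotientGroup.ker_mk']; exact Subgroup.comap_mono hY)
      refine ⟨(C.comap (QuotientGroup.mk' _)).map X.subtype, ?_, Subgroup.map_subtype_le _, ?_, ?_⟩
      · exact (Subgroup.map_subgroupOf_eq_of_le hNX).ge.trans
          (Subgroup.map_mono (QuotientGroup.le_comap_mk' _ _))
      · rw [← Subgroup.map_subgroupOf_eq_of_le hY', ← Subgroup.map_sup, ← h3,
          Subgroup.comap_sup_eq _ _ _ (QuotientGroup.mk'_surjective _), hC.sup_eq_top,
          Subgroup.comap_top, ← MonoidHom.range_eq_map, Subgroup.range_subtype]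
      · rw [← Subgroup.map_subgroupOf_eq_of_le hY', ← Subgroup.map_inf _ _ _ X.subtype_injective,
          ← h3, ← Subgroup.comap_inf, hC.inf_eq_bot, MonoidHom.comap_bot, QuotientGroup.ker_mk',
          Subgroup.map_subgroupOf_eq_of_le hNX]) hM hXM huniq (e H) h1 h2
  exact ⟨e.symm C, disjoint_iff.2 (e.injective (by simpa using h4)),
    codisjoint_iff.2 (e.injective (by simpa using h3))⟩

end Cfsg.Agent.S5903
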