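import Cfsg.Statements.S5904
import Cfsg.Agent.Perm.Sym

set_option autoImplicit false
open scoped Pointwise
open Cfsg

namespace Cfsg.Agent.S5904

/-- Let Ω be a finite set with more than two elements and O ⊆ Ω a subset with exactly as many elements as its complement. Then the setwise stabilizer of O in the symmetric group on Ω is not a maximal subgroup (it is properly contained in the stabilizer of the partition {O, Ω ∖ O}, which is proper). -/
theorem result {Ω : Type*} [Fintype Ω] [DecidableEq Ω] (hΩ : 2 < Fintype.card Ω)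
    (O : Set Ω) (hO : Nat.card O = Nat.card ↥Oᶜ) :
    ¬ IsCoatom (MulAction.stabilizer (Equiv.Perm Ω) O) := by
  classical
  intro h
  set f : Ω → Fin 2 := fun x => if x ∈ O then 0 else 1
  have hf : ∀ i, Nat.card {x // f x = i} = Nat.card O := by
    rw [Fin.forall_fin_two]
    refine ⟨Nat.card_congr (Equiv.subtypeEquivRight fun x => by simp [f]),
      hO ▸ Nat.card_congr (Equiv.subtypeEquivRight fun x => by simp [f])⟩
  have h1 := CF.Perm.card_eq_mul_of_blocks hf
  obtain ⟨k, h2, -⟩ := CF.Perm.exists_swap_blocks hf 0 1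
  refine (CF.Perm.isCoatom_partStab (by omega) le_rfl hf).1 (h.2 _ ⟨fun g hg x y => ?_, fun h3 => ?_⟩)
  · have : ∀ x, g x ∈ O ↔ x ∈ O := fun x => MulAction.mem_stabilizer_set.1 hg x
    simp [f, this]
  · obtain ⟨x, hx⟩ := CF.Perm.exists_mem_block (by omega) hf 0
    have := MulAction.mem_stabilizer_set.1 (h3 (CF.Perm.mem_partStab_of_comp _ h2)) x
    have h4 := h2 x
    rw [hx] at h4
    simp only [f, Equiv.Perm.smul_def] at *
    grind

end Cfsg.Agent.S5904
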