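import Cfsg.Statements.S5908
import Cfsg.Agent.S0827

set_option autoImplicit false
open Cfsg

namespace Cfsg.Agent.S5908

/-- The subgroup lattice of PSU₃(2) (the solvable group of order 72, realised over the field with 4 elements) is not complemented: some subgroup H has no subgroup X with H ⊔ X = ⊤ and H ⊓ X = ⊥. -/
theorem result {F : Type*} [Field F] [Fintype F] (hF : Fintype.card F = 4) :
    ¬ ComplementedLattice (Subgroup (Cfsg.PSU 3 F 2)) := by
  intro h
  obtain ⟨N, _, -, -, ⟨e⟩⟩ := Cfsg.Agent.S0827.result hF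
  let φ := e.toMonoidHom.comp (QuotientGroup.mk' N)
  let Z : Subgroup (QuaternionGroup 2) := ⟨⟨⟨{x | x = 1 ∨ x = .a 2}, fun {a b} => by revert a b; decide⟩,
    .inl rfl⟩, fun {a} => by revert a; decide⟩
  obtain ⟨X, h1, h2⟩ := h.1 (Z.comap φ)
  have h3 : ∀ x ∈ X, φ x ∈ Z → x = 1 := fun x hx hz => Subgroup.mem_bot.1 (h1.le_bot ⟨hz, hx⟩)
  have h4 : X ≤ Z.comap φ := fun x hx => by
    have h5 := congrArg φ (h3 _ (X.mul_mem hx hx) (by
      rw [map_mul]; exact (by decide : ∀ y : QuaternionGroup 2, y * y = 1 ∨ y * y = .a 2) _))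
    rw [map_mul, map_one] at h5
    exact (by decide : ∀ y : QuaternionGroup 2, y * y = 1 → y = 1 ∨ y = .a 2) _ h5
  obtain ⟨x, hx⟩ := (e.surjective.comp (QuotientGroup.mk'_surjective N)) (.a 1)
  have h5 : φ x ∈ Z := (sup_le le_rfl h4) (h2.top_le (Subgroup.mem_top x))
  rw [show φ x = .a 1 from hx] at h5
  exact absurd h5 (by decide : ¬ ((.a 1 : QuaternionGroup 2) = 1 ∨ (.a 1 : QuaternionGroup 2) = .a 2))

end Cfsg.Agent.S5908
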