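import Cfsg.Statements.S5909
import Cfsg.Agent.Perm.Sym

set_option autoImplicit false
open Cfsg

namespace Cfsg.Agent.S5909

/-- Let Ω be a finite set whose size is not 8, and f : Ω → Fin b a labelling with b ≥ 2 whose fibres all have the same size a ≥ 2 (a partition into b blocks of size a). Then the even permutations preserving the partition — the intersection of the imprimitive wreath product S_a ≀ S_b with the alternating group — form a maximal subgroup of the alternating group on Ω. -/
theorem result {Ω : Type*} [Fintype Ω] [DecidableEq Ω] (h8 : Fintype.card Ω ≠ 8) (a b : ℕ) (ha : 2 ≤ a) (hb : 2 ≤ b)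
    (f : Ω → Fin b) (hf : ∀ i : Fin b, Nat.card {x : Ω // f x = i} = a) :
    IsCoatom ((Subgroup.closure {g : Equiv.Perm Ω | ∀ x y : Ω, f x = f y ↔ f (g x) = f (g y)} ⊓ alternatingGroup Ω).subgroupOf (alternatingGroup Ω)) := by
  rw [CF.Perm.closure_eq_partStab, CF.Perm.isCoatom_subgroupOf_iff inf_le_right]
  refine ⟨fun h => ?_, fun L h1 h2 => h2.antisymm (CF.Perm.alternatingGroup_le_of_partStab h8 ha hb
    hf h1.le fun h => h1.not_ge (le_inf ((le_inf le_rfl h2).trans h) h2))⟩
  obtain ⟨x, y, z, hxy, h1, h2⟩ := CF.Perm.partStab_ne_top ha hb hf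
  have h3 : Equiv.swap y z * Equiv.swap x y ∈ alternatingGroup Ω := by
    simp [hxy, show y ≠ z by rintro rfl; exact h2 h1]
  have := ((h.ge h3).1 x y).1 h1
  simp [Equiv.swap_apply_of_ne_of_ne hxy (show x ≠ z by rintro rfl; exact h2 rfl)] at this
  exact h2 this.symm

end Cfsg.Agent.S5909
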