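import Cfsg.Statements.S5910
import Cfsg.Agent.Perm.Sym

set_option autoImplicit false
open Cfsg

namespace Cfsg.Agent.S5910

open Equiv CF.Perm

def t (x y z : Fin 4 × Fin 2) : Fin 4 × Fin 2 := (x.1 ^^^ y.1 ^^^ z.1, x.2 + y.2 + z.2)

def L : Subgroup (Perm (Fin 4 × Fin 2)) where
  carrier := {g | ∀ x y z, g (t x y z) = t (g x) (g y) (g z)}
  one_mem' := fun _ _ _ => rfl
  mul_mem' := fun {a b} ha hb x y z => by rw [Perm.mul_apply, hb, ha]; rfl
  inv_mem' := fun {a} ha x y z => a.injective (by rw [ha]; simp)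

theorem h1 : ∀ σ : Perm (Fin 4), ∀ x y z, prodCongrLeft (fun _ => σ) (t x y z) =
    t (prodCongrLeft (fun _ => σ) x) (prodCongrLeft (fun _ => σ) y)
      (prodCongrLeft (fun _ => σ) z) := by decide +kernel

theorem h2 : ∀ σ : Fin 4 → Perm (Fin 2), ∏ k, Perm.sign (σ k) = 1 → ∀ x y z,
    prodCongrRight σ (t x y z) =
    t (prodCongrRight σ x) (prodCongrRight σ y) (prodCongrRight σ z) := by decide +kernel

theorem h3 : partStab Prod.fst ⊓ alternatingGroup _ ≤ L := by
  rintro g ⟨hg, hg'⟩
  let σ : Perm (Fin 4) := ofBijective (fun i => (g (i, 0)).1)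
    (Finite.injective_iff_bijective.1 fun i j h => (hg (i, 0) (j, 0)).2 h)
  let ε : Fin 4 → Perm (Fin 2) := fun i => ofBijective (fun s => (g (i, s)).2)
    (Finite.injective_iff_bijective.1 fun s s' h => by
      simpa using Prod.ext ((hg (i, s) (i, s')).1 rfl) h)
  have : g = prodCongrLeft (fun _ => σ) * prodCongrRight ε :=
    Equiv.ext fun x => Prod.ext ((hg x (x.1, 0)).1 rfl) rfl
  rw [this] at hg' ⊢
  refine L.mul_mem (h1 σ) (h2 ε ?_)
  simpa [Perm.sign_prodCongrLeft, Perm.sign_prodCongrRight] using hg'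

/-- Let Ω be a set with 8 elements and f : Ω → Fin 4 a labelling whose four fibres all have size 2 (a partition of the 8 points into 4 pairs). Then the group of even permutations preserving this partition, (S₂ ≀ S₄) ∩ A₈, is not a maximal subgroup of the alternating group A₈ (it lies in a subgroup isomorphic to the affine group AGL₃(2)). -/
theorem result {Ω : Type*} [Fintype Ω] [DecidableEq Ω] (h8 : Fintype.card Ω = 8)
    (f : Ω → Fin 4) (hf : ∀ i : Fin 4, Nat.card {x : Ω // f x = i} = 2) :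
    ¬ IsCoatom ((Subgroup.closure {g : Equiv.Perm Ω | ∀ x y : Ω, f x = f y ↔ f (g x) = f (g y)} ⊓ alternatingGroup Ω).subgroupOf (alternatingGroup Ω)) := by
  rw [closure_eq_partStab, isCoatom_subgroupOf_iff inf_le_right]
  obtain ⟨e, he⟩ := exists_equiv_prod hf
  rintro ⟨-, h⟩
  have h4 : ∀ g : Perm Ω, g ∈ partStab f ↔ e.permCongr g ∈ partStab Prod.fst := fun g => by
    simp [mem_partStab, e.surjective.forall, -Prod.forall, he]
  have := h (L.comap e.permCongrHom.toMonoidHom ⊓ alternatingGroup Ω) ⟨fun g hg =>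
    ⟨h3 ⟨(h4 g).1 hg.1, by simpa using hg.2⟩, hg.2⟩, fun h5 => ?_⟩ inf_le_right
  · have := (this.ge (show e.symm.permCongr (swap (0, 0) (0, 1) * swap (0, 0) (1, 0)) ∈ _ by
      rw [Perm.mem_alternatingGroup, Perm.sign_permCongr]; decide)).1
    change e.permCongr (e.permCongr.symm _) ∈ L at this
    rw [apply_symm_apply] at this
    exact absurd (this (0, 0) (2, 0) (3, 0)) (by decide)
  · have := (h4 _).1 (h5 (x := e.symm.permCongr (swap (0, 1) (1, 0) * swap (2, 1) (3, 0))) ⟨by
      change e.permCongr (e.permCongr.symm _) ∈ L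
      rw [apply_symm_apply]
      change ∀ x y z, _
      decide +kernel, (Perm.sign_permCongr _ _).trans (by decide)⟩).1
    change e.permCongr (e.permCongr.symm _) ∈ _ at this
    rw [apply_symm_apply] at this
    exact absurd (this (0, 0) (0, 1)) (by decide)

end Cfsg.Agent.S5910
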