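import Cfsg.Statements.S5911
import Cfsg.Agent.Perm.SymAut

set_option autoImplicit false
open Cfsg

namespace Cfsg.Agent.S5911

/-- Let Ω be a finite set whose size n is not 6. Then every subgroup of the symmetric group on Ω of index n is the stabilizer of a point. -/
theorem result {Ω : Type*} [Fintype Ω] [DecidableEq Ω] (h6 : Fintype.card Ω ≠ 6)
    (H : Subgroup (Equiv.Perm Ω)) (hH : H.index = Fintype.card Ω) :
    ∃ x : Ω, H = MulAction.stabilizer (Equiv.Perm Ω) x := by
  have h0 := H.index_ne_zero_of_finite
  have : Nonempty Ω := Fintype.card_pos_iff.1 (by omega)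
  by_cases h5 : 5 ≤ Fintype.card Ω
  · refine CF.Perm.exists_eq_stabilizer_perm h5 h6 (fun h => ?_) hH.le
    have : Nontrivial Ω := Fintype.one_lt_card_iff_nontrivial.1 (by omega)
    have := Nat.le_of_dvd two_pos (alternatingGroup.index_eq_two (α := Ω) ▸
      Subgroup.index_dvd_of_le h)
    omega
  by_cases h1 : Fintype.card Ω = 1
  · have := Fintype.card_le_one_iff_subsingleton.1 h1.le
    exact ⟨Classical.arbitrary Ω, Subsingleton.elim _ _⟩
  refine CF.Perm.exists_eq_stabilizer_of_index_le (fun k => Set.powersetCard.isPretransitive) hH.le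
    fun h => ?_
  have h2 := CF.Perm.card_dvd_of_trans (G := H) (α := Ω)
  have h3 := H.index_mul_card
  rw [hH, Nat.card_perm] at h3
  rw [Nat.card_eq_fintype_card (α := Ω)] at h2 h3
  rw [hH] at h0
  generalize Fintype.card Ω = n at *
  interval_cases n <;> simp only [Nat.factorial] at h3 <;> omega

end Cfsg.Agent.S5911
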