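import Cfsg.Statements.S5912
import Cfsg.Agent.Perm.SymAut

set_option autoImplicit false
open Cfsg

namespace Cfsg.Agent.S5912

/-- The symmetric group on a 6-element set Ω has exactly two conjugacy classes of subgroups of index 6: there are two non-conjugate subgroups of index 6 (a point stabilizer and a transitive subgroup isomorphic to S₅), and every subgroup of index 6 is conjugate to one of them. -/
theorem result {Ω : Type*} [Fintype Ω] [DecidableEq Ω] (h6 : Fintype.card Ω = 6) :
    ∃ H₁ H₂ : Subgroup (Equiv.Perm Ω), H₁.index = 6 ∧ H₂.index = 6 ∧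
      (¬ ∃ g : Equiv.Perm Ω, Subgroup.map (MulAut.conj g).toMonoidHom H₁ = H₂) ∧
      ∀ H : Subgroup (Equiv.Perm Ω), H.index = 6 →
        ∃ g : Equiv.Perm Ω, Subgroup.map (MulAut.conj g).toMonoidHom H₁ = H ∨ Subgroup.map (MulAut.conj g).toMonoidHom H₂ = H := by
  open MulAction CF.Perm in
  obtain ⟨θ, hθ⟩ := exists_outer h6
  have : Nontrivial Ω := Fintype.one_lt_card_iff_nontrivial.1 (by omega)
  obtain ⟨x⟩ : Nonempty Ω := inferInstance
  have h1 : (stabilizer (Equiv.Perm Ω) x).index = 6 := by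
    rw [index_stabilizer_of_transitive, Nat.card_eq_fintype_card, h6]
  refine ⟨_, (stabilizer (Equiv.Perm Ω) x).map θ.toMonoidHom, h1,
    by rw [Subgroup.index_map_of_bijective θ.bijective, h1], fun ⟨g, hg⟩ =>
      stabilizer_ne_map_outer h6 hθ x (g • x) (by
        rw [stabilizer_smul_eq_stabilizer_map_conj, hg]), fun H hH => ?_⟩
  obtain ⟨y, h⟩ := index_six_perm h6 hθ (fun h => by
    have := alternatingGroup.index_eq_two (α := Ω) ▸ Subgroup.index_dvd_of_le h
    rw [hH] at this
    omega) hH.le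
  obtain ⟨g, rfl⟩ := exists_smul_eq (Equiv.Perm Ω) x y
  rw [stabilizer_smul_eq_stabilizer_map_conj] at h
  rcases h with rfl | rfl
  · exact ⟨g, Or.inl rfl⟩
  · refine ⟨θ g, Or.inr ?_⟩
    rw [Subgroup.map_map, Subgroup.map_map]
    congr 1
    ext1
    simp

end Cfsg.Agent.S5912
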