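import Cfsg.Statements.S5913
import Mathlib

set_option autoImplicit false
open Cfsg

namespace Cfsg.Agent.S5913

/-- Let S be a non-abelian simple group and n a natural number. Every normal subgroup N of the direct power S^n (functions Fin n → S) is a subproduct: there is a set T of coordinates such that N consists exactly of the elements whose coordinates outside T are trivial. In particular the minimal normal subgroups of S^n are its n factors. -/
theorem result {S : Type*} [Group S] [IsSimpleGroup S] (hS : ¬ IsMulCommutative S) (n : ℕ)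
    (N : Subgroup (Fin n → S)) [N.Normal] :
    ∃ T : Finset (Fin n), ∀ x : Fin n → S, x ∈ N ↔ ∀ i, i ∉ T → x i = 1 := by
  classical
  refine ⟨Finset.univ.filter fun i => ∃ x ∈ N, x i ≠ 1, fun x => ⟨fun hx i hi => ?_, fun hx => ?_⟩⟩
  · by_contra h
    exact hi (Finset.mem_filter.2 ⟨Finset.mem_univ _, x, hx, h⟩)
  refine Subgroup.pi_mem_of_mulSingle_mem x fun i => ?_
  by_cases hi : ∃ x ∈ N, x i ≠ 1
  · obtain ⟨y, hy, hy1⟩ := hi
    have hn : (N.comap (MonoidHom.mulSingle (fun _ => S) i)).Normal := inferInstance
    refine (hn.eq_bot_or_eq_top.resolve_left fun h => ?_).ge (Subgroup.mem_top (x i))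
    refine hS (Subgroup.center_eq_top_iff.1 ((Subgroup.Normal.eq_bot_or_eq_top
      inferInstance).resolve_left fun h' => hy1 (h'.le (Subgroup.mem_center_iff.2 fun s => ?_))))
    rw [← mul_inv_eq_one, mul_inv_rev, ← mul_assoc]
    refine h.le (?_ : Pi.mulSingle i _ ∈ N)
    convert N.mul_mem (‹N.Normal›.conj_mem y hy (Pi.mulSingle i s)) (N.inv_mem hy) using 1
    ext j
    by_cases hj : j = i
    · subst hj; simp
    · simp [hj]
  · rw [hx i (by simpa using hi), Pi.mulSingle_one]
    exact N.one_mem

end Cfsg.Agent.S5913
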