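import Cfsg.Statements.S5914
import Cfsg.Agent.Perm.CharSimple
import Cfsg.Agent.S5913

set_option autoImplicit false
open Cfsg

namespace Cfsg.Agent.S5914

/-- A non-trivial finite group G is characteristically simple (its only characteristic subgroups are 1 and G) if and only if G is isomorphic to a direct power S^n (n ≥ 1) of some simple group S (possibly cyclic of prime order). -/
theorem result {G : Type*} [Group G] [Finite G] [Nontrivial G] :
    (∀ H : Subgroup G, H.Characteristic → H = ⊥ ∨ H = ⊤) ↔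
    ∃ (S : Type) (_ : Group S) (_ : IsSimpleGroup S) (n : ℕ), 1 ≤ n ∧ Nonempty (G ≃* (Fin n → S)) := by
  classical
  refine ⟨fun hK => ?_, fun ⟨S, _, _, n, hn, ⟨e⟩⟩ H hH => ?_⟩
  · obtain ⟨M, hM⟩ := CF.Solv.exists_isMinNormal (G := G)
    obtain ⟨m, hm, ⟨e⟩⟩ := CF.Perm.exists_equiv_pi_of_charSimple hK hM
    have := CF.Perm.isSimpleGroup_of_charSimple hK hM
    let f : Shrink.{0} M ≃* M := Shrink.mulEquiv
    exact ⟨Shrink.{0} M, inferInstance,
      IsSimpleGroup.isSimpleGroup_of_surjective f.symm.toMonoidHom f.symm.surjective, m, hm,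
      ⟨e.trans (MulEquiv.piCongrRight fun _ => f.symm)⟩⟩
  let N := H.comap e.symm.toMonoidHom
  have hN : ∀ φ : (Fin n → S) ≃* (Fin n → S), ∀ x ∈ N, φ x ∈ N := fun φ x hx => by
    simpa [N] using (Subgroup.characteristic_iff_le_comap.1 hH) ((e.trans φ).trans e.symm) hx
  refine or_iff_not_imp_left.2 fun h => ?_
  obtain ⟨y, hy, hy1⟩ := (H.bot_or_exists_ne_one).resolve_left h
  obtain ⟨i, hi⟩ : ∃ i, e y i ≠ 1 := by
    by_contra! h; exact hy1 (e.map_eq_one_iff.1 (funext h))
  have hy' : e y ∈ N := by simpa [N] using hy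
  obtain ⟨j, s, hs, hj⟩ : ∃ (j : Fin n) (s : S), s ≠ 1 ∧ Pi.mulSingle j s ∈ N := by
    by_cases hS : IsMulCommutative S
    · by_cases h1 : ∃ j, j ≠ i
      · obtain ⟨j, hj⟩ := h1
        have hc : ∀ a b : Fin n → S, a * b = b * a := fun a b => funext fun k => hS.1.1 _ _
        let θ : (Fin n → S) ≃* (Fin n → S) :=
          { toFun := fun x => x * Pi.mulSingle j (x i)
            invFun := fun x => x * (Pi.mulSingle j (x i))⁻¹
            left_inv := fun x => by simp [hj.symm]
            right_inv := fun x => by simp [hj.symm]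
            map_mul' := fun x z => by
              rw [Pi.mul_apply, Pi.mulSingle_mul, mul_assoc, mul_assoc, ← mul_assoc z, hc z, mul_assoc] }
        exact ⟨j, e y i, hi, (N.mul_mem_cancel_left hy').1 (hN θ _ hy')⟩
      · push Not at h1
        refine ⟨i, e y i, hi, ?_⟩
        convert hy'
        ext k
        rw [h1 k, Pi.mulSingle_eq_same]
    · have : N.Normal := Subgroup.Normal.comap inferInstance _
      obtain ⟨T, hT⟩ := Cfsg.Agent.S5913.result hS n N
      refine ⟨i, e y i, hi, (hT _).2 fun k hk => Pi.mulSingle_eq_of_ne ?_ _⟩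
      rintro rfl
      exact hi ((hT _).1 hy' k hk)
  have hn : (N.comap (MonoidHom.mulSingle (fun _ => S) j)).Normal :=
    (Subgroup.Normal.comap inferInstance _).comap _
  have h1 := hn.eq_bot_or_eq_top.resolve_left fun h => hs (h.le hj)
  rw [eq_top_iff]
  intro x _
  rw [← e.symm_apply_apply x]
  refine Subgroup.pi_mem_of_mulSingle_mem (H := N) _ fun k => ?_
  convert hN (MulEquiv.arrowCongr (Equiv.swap j k) (MulEquiv.refl S)) _
    (h1.ge (Subgroup.mem_top (e x k)))
  ext l
  simp [Pi.mulSingle_apply, Equiv.swap_apply_eq_iff]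

end Cfsg.Agent.S5914
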