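import Cfsg.Statements.S5934
import Cfsg.Agent.M7.Z
import Cfsg.Agent.M7.Tw
import Cfsg.Agent.M7.Lz

set_option autoImplicit false
open Cfsg

namespace Cfsg.Agent.S5934

/-- The Chevalley group of type E₇ over the field with two elements (generated by its root elements in the adjoint representation; the simple group E₇(2)) has at least 19 conjugacy classes of maximal subgroups: there are 19 maximal subgroups, no two of which are conjugate. -/
theorem result :
    ∃ M : Fin 19 → Subgroup ↥(Cfsg.Lie.chevE7.group (ZMod 2)), (∀ i, IsCoatom (M i)) ∧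
      ∀ i j, (∃ g : ↥(Cfsg.Lie.chevE7.group (ZMod 2)), (M i).map (MulAut.conj g).toMonoidHom = M j) → i = j :=
  CF.M7.all7 CF.M7.tw7 CF.M7.lz7

end Cfsg.Agent.S5934
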