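import Cfsg.Statements.S5939
import Cfsg.Agent.Classical.MaxL2c

set_option autoImplicit false
open Cfsg

namespace Cfsg.Agent.S5939

/-- Let p be a prime and F a finite field of characteristic p such that either F has p elements and p ≡ ±1 (mod 10), or F has p² elements and p ≡ ±3 (mod 10). Then PSL_2(F) has a maximal subgroup isomorphic to the alternating group A_5. -/
theorem result {F : Type*} [Field F] [Fintype F] (p : ℕ) [Fact p.Prime] [CharP F p] (h : (Fintype.card F = p ∧ (p % 10 = 1 ∨ p % 10 = 9)) ∨ (Fintype.card F = p ^ 2 ∧ (p % 10 = 3 ∨ p % 10 = 7))) : ∃ H : Subgroup (Matrix.ProjectiveSpecialLinearGroup (Fin 2) F), IsCoatom H ∧ Nonempty (H ≃* alternatingGroup (Fin 5)) := by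
  open CF.Classical in
  have L := isL2_PSL F (AlgebraicClosure F)
  rw [← Nat.card_eq_fintype_card] at h
  have hp : p.Prime := Fact.out
  have h2 := two_ne_zero_of_char_ne_two F p (by rintro rfl; omega)
  have h1 := hp.two_le
  have h5 : 5 ∣ Nat.card F * (Nat.card F ^ 2 - 1) := five_dvd (by
    rcases h with ⟨h, h'⟩ | ⟨h, h'⟩
    · omega
    · rw [h, pow_two, Nat.mul_mod]
      rcases (show p % 5 = 2 ∨ p % 5 = 3 by omega) with e | e <;> simp [e])
  obtain ⟨t, ht⟩ := exists_root_five h5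
  obtain ⟨S, -, hS⟩ := exists_A5_le_psl ht
  refine exists_isCoatom_of_covBy L.inj (range_pslToPGL (F := F) ▸ covBy_A5 h2 ?_ ?_ hS) hS
  · rcases h with ⟨h, h'⟩ | ⟨h, h'⟩
    · omega
    · have : 3 ≤ p := by omega
      nlinarith
  · intro K hK
    rcases h with ⟨h, -⟩ | ⟨h, h'⟩
    · exact absurd (subfield_eq_top_of_prime (h ▸ hp) K) hK
    · obtain ⟨K₀, hK₀⟩ := exists_subfield_card_char (F := F) p
      obtain ⟨n, hn, e⟩ := exists_card_eq_pow K p
      rw [(subfield_eq_or_eq_top Nat.prime_two (hK₀ ▸ h.symm) (subfield_le_of_card_eq_pow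
        (m := n) (hK₀ ▸ e.symm))).resolve_right hK, hK₀]
      exact not_five_dvd (by omega)

end Cfsg.Agent.S5939
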