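import Cfsg.Statements.S5947
import Cfsg.Agent.Classical.Singer
import Cfsg.Agent.S3784

set_option autoImplicit false
open Cfsg

namespace Cfsg.Agent.S5947

/-- Let F ⊆ K be finite fields with |F| = q and [K : F] = n ≥ 2, regard K as an n-dimensional F-vector space, and let M ≤ GL_F(K) be the Singer group of multiplications by non-zero elements of K (cyclic of order q^n − 1). Assume (n, q) ≠ (6, 2), and that it is not the case that n = 2 with q a prime such that q + 1 is a power of 2. Then every abelian subgroup of GL_F(K) of order q^n − 1 is conjugate to M. -/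
theorem result {F K : Type*} [Field F] [Fintype F] [Field K] [Fintype K] [Algebra F K] (n : ℕ) (hn : 2 ≤ n) (hdim : Module.finrank F K = n)
    (hex1 : ¬ (n = 6 ∧ Fintype.card F = 2))
    (hex2 : ¬ (n = 2 ∧ (Fintype.card F).Prime ∧ ∃ a : ℕ, Fintype.card F + 1 = 2 ^ a))
    (U : Subgroup (Module.End F K)ˣ) (hU : IsMulCommutative U) (hcard : Nat.card U = Fintype.card K - 1) :
    ∃ g : (Module.End F K)ˣ, U.map (MulAut.conj g).toMonoidHom = (Units.map ((Algebra.lmul F K : K →ₐ[F] Module.End F K) : K →* Module.End F K)).range := by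
  obtain ⟨r, h1, h2, h3⟩ := CF.Fgs2.zsigmondy (Fintype.one_lt_card (α := F)) hn
    (fun h => hex1 h.symm) (by
      rintro ⟨h, a, ha⟩
      refine hex2 ⟨h, ?_, a, ha⟩
      obtain ⟨p, hp, ⟨f, hf⟩, hp', hq⟩ := FiniteField.card' F
      simp only [PNat.mk_coe] at hq
      rw [hq] at ha ⊢
      have h4 := Nat.one_lt_pow hf.ne' hp'.one_lt
      have h5 : 1 ≤ a := Nat.pos_of_ne_zero (by rintro rfl; omega)
      rcases Cfsg.Agent.S3784.result 2 p a f Nat.prime_two hp' h5 hf ha.symm with
        ⟨-, rfl, -⟩ | ⟨-, rfl, -⟩ | ⟨h6, -⟩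
      · simpa using hp'
      · omega
      · exact absurd (h6 ▸ dvd_pow_self 2 (by omega) : 2 ∣ 9) (by norm_num))
  rw [← Nat.card_eq_fintype_card] at hcard h2 h3
  exact CF.Classical.exists_conj_singer h1 (by rwa [Module.natCard_eq_pow_finrank (K := F), hdim])
    (hdim ▸ h3) hcard

end Cfsg.Agent.S5947
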